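import Cfsg.Statements.S0034
import Cfsg.Agent.H1.FrobComp

set_option autoImplicit false
open Cfsg

namespace Cfsg.Agent.S0034

/-- For a Frobenius complement H, the set of elements lying in no conjugate of H, together with 1, has exactly as many elements as the index of H, and that index is congruent to 1 modulo the order of H. -/
theorem result {G : Type*} [Group G] [Finite G] (H : Subgroup G) (hH : Cfsg.IsFrobeniusComplement H) :
    Nat.card (Cfsg.frobeniusKernel H) = H.index ∧ H.index % Nat.card H = 1 % Nat.card H := by
  refine ⟨Cfsg.Agent.H1.frob_card_kernel hH, ?_⟩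
  have h1 := Cfsg.Agent.H1.frob_card_dvd_index_sub_one hH
  have hpos : 0 < H.index := Nat.pos_of_ne_zero Subgroup.index_ne_zero_of_finite
  obtain ⟨k, hk⟩ := h1
  have h2 : H.index = 1 + Nat.card H * k := by omega
  rw [h2, Nat.add_mul_mod_self_left]

end Cfsg.Agent.S0034
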