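import Cfsg.Statements.S0666
import Cfsg.Agent.S0035
import Cfsg.Agent.S0039
import Cfsg.Agent.H18.FrobAct

set_option autoImplicit false
open Cfsg
open Cfsg.Agent

namespace Cfsg.Agent.S0666

/-- A Frobenius group acting on a nontrivial abelian group of order prime to that of its kernel, with the kernel acting without nontrivial fixed points, has a complement with a nontrivial fixed point. -/
theorem result {G : Type*} [Group G] [Finite G] (V F : Subgroup G) (hVab : IsMulCommutative V) (hV1 : V ≠ ⊥) (hFV : F ≤ Subgroup.normalizer (V : Set G)) (H : Subgroup ↥F) (hH : Cfsg.IsFrobeniusComplement H) (hcop : (Nat.card V).Coprime (Nat.card (Cfsg.frobeniusKernel H))) (hCK : V ⊓ Subgroup.centralizer (Subtype.val '' Cfsg.frobeniusKernel H : Set G) = ⊥) : V ⊓ Subgroup.centralizer ((H.map F.subtype : Subgroup G) : Set G) ≠ ⊥ := by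
  obtain ⟨K, hK, hKn, hc⟩ := Cfsg.Agent.S0035.result H hH
  have hK1 : K ≠ ⊥ := by
    rintro rfl
    rw [Subgroup.isComplement'_bot_left] at hc
    exact hH.2.1 hc
  have hfr := (Cfsg.Agent.S0039.result K H hc hK1 hH.1).1 hH
  intro hbot
  have hVc : ∀ a ∈ V, ∀ b ∈ V, a * b = b * a := H21.mulComm_iff.1 hVab
  have hcard : Nat.card (K.map F.subtype) = Nat.card K := H1.card_map_subtype K
  have key := H18.frob_norm' (V := V) (K := K.map F.subtype) (H := H.map F.subtype) hVc
    ((Subgroup.map_subtype_le K).trans hFV) ((Subgroup.map_subtype_le H).trans hFV)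
    ((Subgroup.map_subtype_le H).trans (OOT.le_normalizer_map_subtype hKn))
    (by
      rw [← Subgroup.map_inf _ _ _ F.subtype_injective, hc.disjoint.eq_bot, Subgroup.map_bot])
    (by
      rintro _ ⟨h, hh, rfl⟩ hh1 _ ⟨k, hk, rfl⟩ hkh
      have h1 : h ≠ 1 := by rintro rfl; exact hh1 rfl
      have h2 : k ∈ K ⊓ Subgroup.centralizer {h} := by
        refine Subgroup.mem_inf.2 ⟨hk, ?_⟩
        rw [Subgroup.mem_centralizer_singleton_iff]
        exact Subtype.ext hkh.symm
      rw [hfr h hh h1, Subgroup.mem_bot] at h2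
      rw [h2]; rfl)
    (by
      intro v hv hvk
      have h1 : v ∈ V ⊓ Subgroup.centralizer (Subtype.val '' Cfsg.frobeniusKernel H : Set G) := by
        refine Subgroup.mem_inf.2 ⟨hv, ?_⟩
        rw [Subgroup.mem_centralizer_iff]
        rintro _ ⟨k, hk, rfl⟩
        rw [← hK] at hk
        exact hvk k ⟨k, hk, rfl⟩
      rw [hCK, Subgroup.mem_bot] at h1
      exact h1)
    (by
      intro v hv hvk
      have h1 : v ∈ V ⊓ Subgroup.centralizer ((H.map F.subtype : Subgroup G) : Set G) := by
        refine Subgroup.mem_inf.2 ⟨hv, ?_⟩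
        rw [Subgroup.mem_centralizer_iff]
        exact fun k hk => hvk k hk
      rw [hbot, Subgroup.mem_bot] at h1
      exact h1)
  apply hV1
  rw [eq_bot_iff]
  intro v hv
  have h1 := key v hv
  rw [hcard] at h1
  have h2 : orderOf v ∣ Nat.card K := orderOf_dvd_of_pow_eq_one h1
  have h3 : orderOf v ∣ Nat.card V := Subgroup.orderOf_dvd_natCard _ hv
  have h4 : Nat.card K = Nat.card (Cfsg.frobeniusKernel H) := by
    rw [← hK]; rfl
  rw [h4] at h2
  have h5 := Nat.eq_one_of_dvd_coprimes hcop h3 h2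
  rw [Subgroup.mem_bot, ← orderOf_eq_one_iff]; exact h5

end Cfsg.Agent.S0666
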