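import Cfsg.Statements.S0071
import Cfsg.Agent.H2.Frobenius

set_option autoImplicit false
set_option linter.style.haveILetI false
set_option linter.unusedVariables false
set_option linter.unusedSectionVars false
open Cfsg

namespace Cfsg.Agent.S0071

/-- The Frobenius normal p-complement Theorem states that a Sylow p-subgroup has a normal complement exactly when, for each of its subgroups Q, every element of the normalizer of Q of order prime to p centralizes Q. -/
theorem result {G : Type*} [Group G] [Finite G] {p : ℕ} [Fact p.Prime] (P : Sylow p G) : (∃ N : Subgroup G, N.Normal ∧ N.IsComplement' (P : Subgroup G)) ↔ ∀ Q : Subgroup G, Q ≤ (P : Subgroup G) → ∀ g ∈ Subgroup.normalizer (Q : Set G), Nat.Coprime (orderOf g) p → g ∈ Subgroup.centralizer (Q : Set G) := by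
  rw [← H2.hasNormalPComplement_iff_sylow P]
  constructor
  · intro h Q hQ g hg hg'
    exact H2.mem_centralizer_of_hasNormalPComplement h (P.2.to_le hQ) hg hg'
  · intro h
    apply H2.hasNormalPComplement_of_centralizer
    intro X hX g hg hg'
    obtain ⟨R, hR⟩ := hX.exists_le_sylow
    obtain ⟨a, ha⟩ := H2.exists_map_conj_eq R P
    have h1 : X.map (MulAut.conj a).toMonoidHom ≤ P := by
      rw [← ha]; exact H2.map_conj_mono hR a
    have h2 : a * g * a⁻¹ ∈ Subgroup.normalizer
        ((X.map (MulAut.conj a).toMonoidHom : Subgroup G) : Set G) := by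
      apply H2.map_conj_eq_self_iff.1
      rw [← H2.map_conj_mul]
      have h3 : a * g * a⁻¹ * a = a * g := by group
      rw [h3, H2.map_conj_mul, H2.map_conj_eq_self_iff.2 hg]
    have h4 := h _ h1 (a * g * a⁻¹) h2 (by
      have h5 : orderOf (a * g * a⁻¹) = orderOf g := by
        have := orderOf_injective (MulAut.conj a).toMonoidHom (MulAut.conj a).injective g
        exact this
      rw [h5]; exact hg')
    rw [Subgroup.mem_centralizer_iff] at h4 ⊢
    intro x hx
    have h6 := h4 (a * x * a⁻¹) ⟨x, hx, rfl⟩
    have h7 := congrArg (fun t => a⁻¹ * t * a) h6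
    beta_reduce at h7
    calc x * g = a⁻¹ * (a * x * a⁻¹ * (a * g * a⁻¹)) * a := by group
      _ = _ := h7
      _ = g * x := by group

end Cfsg.Agent.S0071
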