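import Cfsg.Statements.S5135
import Cfsg.Agent.H28.FusFactor2

set_option autoImplicit false
open Cfsg

namespace Cfsg.Agent.S5135

open Cfsg.FusionSystem Cfsg.Agent.H28

/-- Let G be a finite group, S a Sylow p-subgroup and H a normal subgroup of G. Then the fusion system of G/H on the image SH/H of S is the factor system of the fusion system of G on S modulo S ∩ H, read through the quotient map restricted to S: for each subgroup P' of SH/H, the conjugation maps by elements of G/H defined on P' with values in SH/H are exactly the homomorphisms induced by the conjugation maps by elements of G defined on the full preimage of P' in S with values in S. -/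
theorem result {G : Type*} [Group G] [Finite G] (p : ℕ) [Fact p.Prime] (S : Sylow p G) (H : Subgroup G) [H.Normal] : (Cfsg.groupFusionSystem (S : Subgroup G)).IsFactorSystem ((S : Subgroup G) ⊓ H) ((QuotientGroup.mk' H).comp (S : Subgroup G).subtype) (Cfsg.groupFusionSystem ((S : Subgroup G).map (QuotientGroup.mk' H))) := by
  have hsub : ∀ x ∈ (S : Subgroup G), tf ((QuotientGroup.mk' H).comp (S : Subgroup G).subtype) x =
      QuotientGroup.mk' H x := fun x hx => tf_apply _ hx
  refine ⟨inf_le_left, fun s => ?_, ?_, fun P' φ' => ⟨fun h => ?_, ?_⟩⟩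
  · show QuotientGroup.mk' H (s : G) = 1 ↔ _
    rw [QuotientGroup.mk'_apply, QuotientGroup.eq_one_iff]
    exact ⟨fun h => ⟨s.2, h⟩, fun h => h.2⟩
  · rw [MonoidHom.range_comp, Subgroup.range_subtype]
  · obtain ⟨hP', hS', γ, hγ⟩ := h
    refine ⟨hP', ?_⟩
    obtain ⟨g, rfl⟩ := QuotientGroup.mk'_surjective H γ
    set X := preimageAlong ((QuotientGroup.mk' H).comp (S : Subgroup G).subtype) P' with hX
    have hXS : X ≤ S := preimageAlong_le
    have hXm : ∀ x ∈ X, QuotientGroup.mk' H x ∈ P' := fun x hx => by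
      rw [← hsub x (hXS hx)]; exact (mem_preimageAlong.1 hx).2
    have hBp : IsPGroup p (X.map (MulAut.conj g).toMonoidHom) :=
      (S.2.to_le hXS).map _
    obtain ⟨v, hv, h1⟩ := exists_conj_in_kernel (QuotientGroup.mk' H) S _ hBp (by
      rintro _ ⟨_, ⟨x, hx, rfl⟩, rfl⟩
      have h2 := hS' ⟨_, hXm x hx⟩
      rw [hγ] at h2
      show QuotientGroup.mk' H (g * x * g⁻¹) ∈ _
      rw [map_mul, map_mul, map_inv]
      exact h2)
    rw [QuotientGroup.ker_mk'] at hv
    have h3 : ∀ x ∈ X, (v * g) * x * (v * g)⁻¹ ∈ (S : Subgroup G) := by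
      intro x hx
      have h4 := h1 _ ⟨x, hx, rfl⟩
      have e : (v * g) * x * (v * g)⁻¹ = v * (g * x * g⁻¹) * v⁻¹ := by group
      rw [e]; exact h4
    obtain ⟨φ, hφ, h5⟩ := mor_group_conj hXS h3
    refine ⟨φ, hφ, inducedAlong_iff.2 ⟨hXS, fun x hx => ?_, fun x hx => (mem_preimageAlong.1 hx).2,
      fun x hx => ?_⟩⟩
    · rw [toFun_apply φ hx, h5]; exact h3 x hx
    · rw [toFun_apply φ' (mem_preimageAlong.1 hx).2, hγ, toFun_apply φ hx, h5, hsub _ (h3 x hx)]
      show QuotientGroup.mk' H g * tf _ x * _ = _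
      rw [hsub x (hXS hx), map_mul, map_mul, map_inv, map_mul]
      have hv1 : QuotientGroup.mk' H v = 1 := by
        rw [QuotientGroup.mk'_apply, QuotientGroup.eq_one_iff]; exact hv
      rw [hv1, one_mul]
  · rintro ⟨hP', φ, hφ, hind⟩
    obtain ⟨hX, h1, h2, h3⟩ := inducedAlong_iff.1 hind
    obtain ⟨-, hφS, g, hg⟩ := hφ
    have hlift : ∀ y : P', ∃ x, x ∈ preimageAlong ((QuotientGroup.mk' H).comp (S : Subgroup G).subtype) P' ∧
        QuotientGroup.mk' H x = y := by
      intro y
      obtain ⟨x, hx, hxy⟩ := hP' y.2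
      refine ⟨x, mem_preimageAlong.2 ⟨hx, ?_⟩, hxy⟩
      rw [hsub x hx, hxy]; exact y.2
    have key : ∀ x (hx : x ∈ preimageAlong ((QuotientGroup.mk' H).comp (S : Subgroup G).subtype) P')
        (hy : QuotientGroup.mk' H x ∈ P'), φ' ⟨QuotientGroup.mk' H x, hy⟩ = QuotientGroup.mk' H (g * x * g⁻¹) := by
      intro x hx hy
      have h4 := h3 x hx
      rw [toFun_apply φ hx, hg] at h4
      rw [hsub x (hX hx), toFun_apply φ' hy] at h4
      rw [h4, hsub]
      have := hφS ⟨x, hx⟩
      rw [hg] at this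
      exact this
    refine ⟨hP', fun y => ?_, QuotientGroup.mk' H g, fun y => ?_⟩
    · obtain ⟨x, hx, hxy⟩ := hlift y
      have e : y = ⟨QuotientGroup.mk' H x, by rw [hxy]; exact y.2⟩ := Subtype.ext hxy.symm
      rw [e, key x hx]
      have := hφS ⟨x, hx⟩
      rw [hg] at this
      exact Subgroup.mem_map_of_mem _ this
    · obtain ⟨x, hx, hxy⟩ := hlift y
      have e : y = ⟨QuotientGroup.mk' H x, by rw [hxy]; exact y.2⟩ := Subtype.ext hxy.symm
      rw [e, key x hx, map_mul, map_mul, map_inv]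
end Cfsg.Agent.S5135
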