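import Cfsg.Statements.S4445
import Cfsg.Agent.H27.GlSol2

set_option autoImplicit false
open Cfsg

namespace Cfsg.Agent.S4445

open Cfsg.Agent.H27


/-- Inside a finite group Γ let the solvable subgroup S normalise G with the orders of G and S coprime. Then the number of S-invariant irreducible characters of G (χ(s g s⁻¹) = χ(g) for all s ∈ S, g ∈ G) equals the number of conjugacy classes of G mapped to themselves by conjugation by every element of S. -/
theorem result {Γ : Type*} [Group Γ] [Fintype Γ] (G S : Subgroup Γ) [Fintype G] (hnorm : ∀ s ∈ S, ∀ g ∈ G, s * g * s⁻¹ ∈ G) (hcop : (Nat.card G).Coprime (Nat.card S)) (hsolv : Group.IsSolvable S) : Nat.card {χ : Cfsg.IrrCharacter G // (∀ s ∈ S, ∀ g g' : G, (g' : Γ) = s * g * s⁻¹ → (χ : G → ℂ) g' = (χ : G → ℂ) g)} = Nat.card {K : ConjClasses G // ∀ s ∈ S, ∀ g g' : G, (g' : Γ) = s * g * s⁻¹ → ConjClasses.mk g = K → ConjClasses.mk g' = K} := by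
  classical
  have hSG : S ≤ Subgroup.normalizer (G : Set Γ) := Cfsg.Agent.H23.le_normalizer_of_conj_mem hnorm
  have h1 := card_inv_eq hsolv hSG hcop (isFx_inf G S)
  have e1 : Nat.card {χ : Cfsg.IrrCharacter G // (∀ s ∈ S, ∀ g g' : G, (g' : Γ) = s * g * s⁻¹ →
      (χ : G → ℂ) g' = (χ : G → ℂ) g)} =
      Nat.card {χ : IrrCharacter G // Inv (S : Set Γ) G χ} := rfl
  rw [e1, h1, Cfsg.Agent.H3.card_irr_eq (G := ↥(G ⊓ Subgroup.centralizer (S : Set Γ)))]
  set C := G ⊓ Subgroup.centralizer (S : Set Γ) with hCd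
  have hCG : C ≤ G := inf_le_left
  have hcent : ∀ c ∈ C, ∀ s ∈ S, s * c = c * s := fun c hc s hs => by
    exact Subgroup.mem_centralizer_iff.mp hc.2 s hs
  let F : ConjClasses C → ConjClasses G := ConjClasses.map (Subgroup.inclusion hCG)
  have hF : ∀ c : C, F (ConjClasses.mk c) = ConjClasses.mk (Subgroup.inclusion hCG c) := fun c => rfl
  have hinv : ∀ k : ConjClasses C, ∀ s ∈ S, ∀ g g' : G, (g' : Γ) = s * g * s⁻¹ →
      ConjClasses.mk g = F k → ConjClasses.mk g' = F k := by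
    intro k s hs g g' hg hk
    obtain ⟨c, rfl⟩ := ConjClasses.exists_rep k
    have hk' : ConjClasses.mk g = ConjClasses.mk (Subgroup.inclusion hCG c) := hk
    show ConjClasses.mk g' = ConjClasses.mk (Subgroup.inclusion hCG c)
    rw [ConjClasses.mk_eq_mk_iff_isConj, isConj_iff] at hk' ⊢
    obtain ⟨h, hh⟩ := hk'
    have hh' : (h : Γ) * g * (h : Γ)⁻¹ = c := congrArg Subtype.val hh
    refine ⟨⟨s * h * s⁻¹, hnorm s hs h h.2⟩, ?_⟩
    apply Subtype.ext
    show (s * h * s⁻¹) * g' * (s * h * s⁻¹)⁻¹ = c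
    rw [hg]
    have h3 := hcent c c.2 s hs
    calc (s * h * s⁻¹) * (s * g * s⁻¹) * (s * h * s⁻¹)⁻¹ = s * (h * g * (h : Γ)⁻¹) * s⁻¹ := by group
      _ = c := by rw [hh', h3]; group
  refine Nat.card_congr (Equiv.ofBijective (fun k => ⟨F k, hinv k⟩) ⟨?_, ?_⟩)
  · intro k k' hk
    obtain ⟨c, rfl⟩ := ConjClasses.exists_rep k
    obtain ⟨c', rfl⟩ := ConjClasses.exists_rep k'
    have hk' : ConjClasses.mk (Subgroup.inclusion hCG c) =
      ConjClasses.mk (Subgroup.inclusion hCG c') := congrArg Subtype.val hk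
    show ConjClasses.mk c = ConjClasses.mk c'
    rw [ConjClasses.mk_eq_mk_iff_isConj, isConj_iff] at hk' ⊢
    obtain ⟨h, hh⟩ := hk'
    have hh' : (h : Γ) * c * (h : Γ)⁻¹ = c' := congrArg Subtype.val hh
    obtain ⟨d, hd, hd2⟩ := Cfsg.Agent.H23.conj_of_mem_centralizer hSG hcop.symm (Or.inl hsolv)
      (c : Γ) c.2.2 h.2 (by rw [hh']; exact c'.2.2)
    refine ⟨⟨d, hd⟩, ?_⟩
    apply Subtype.ext
    show d * c * d⁻¹ = c'
    rw [hd2, hh']
  · rintro ⟨K, hK⟩
    obtain ⟨g, rfl⟩ := ConjClasses.exists_rep K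
    obtain ⟨h, hh, hh2⟩ := Cfsg.Agent.H23.exists_conj_mem_centralizer hSG hcop.symm
      (Or.inl hsolv) (g : Γ) (by
        intro a ha
        have h3 := hK a ha g ⟨a * g * a⁻¹, hnorm a ha g g.2⟩ rfl rfl
        have h3' : ConjClasses.mk (⟨a * g * a⁻¹, hnorm a ha g g.2⟩ : G) = ConjClasses.mk g := h3
        rw [ConjClasses.mk_eq_mk_iff_isConj, isConj_comm, isConj_iff] at h3'
        obtain ⟨u, hu⟩ := h3'
        exact ⟨u, u.2, (congrArg Subtype.val hu).symm⟩)
    refine ⟨ConjClasses.mk ⟨h * g * h⁻¹, G.mul_mem (G.mul_mem hh g.2) (G.inv_mem hh), hh2⟩, ?_⟩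
    apply Subtype.ext
    show ConjClasses.mk (⟨h * g * h⁻¹, _⟩ : G) = ConjClasses.mk g
    rw [ConjClasses.mk_eq_mk_iff_isConj, isConj_comm, isConj_iff]
    exact ⟨⟨h, hh⟩, Subtype.ext rfl⟩

end Cfsg.Agent.S4445
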