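import Cfsg.Statements.S2437
import Cfsg.Agent.H16.PS3

set_option autoImplicit false
open Cfsg

namespace Cfsg.Agent.S2437

open H16

variable {F : Type*} [Field F] [Fintype F]

open scoped Classical in
lemma card_lin (s t : F) : (Finset.univ.filter (fun p : F × F => p.2 * s = p.1 * t)).card =
    if s = 0 ∧ t = 0 then Fintype.card F ^ 2 else Fintype.card F := by
  split_ifs with h
  · rw [h.1, h.2]
    simp [pow_two]
  · by_cases hs : s = 0
    · have ht : t ≠ 0 := fun h' => h ⟨hs, h'⟩
      rw [← Finset.card_univ (α := F)]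
      symm
      apply Finset.card_bij (fun y _ => (0, y))
      · intro y _
        simp [hs]
      · intro a _ b _ hab
        exact (Prod.mk.inj hab).2
      · rintro ⟨x, y⟩ hxy
        simp [hs, ht] at hxy
        exact ⟨y, Finset.mem_univ _, by rw [hxy]⟩
    · rw [← Finset.card_univ (α := F)]
      symm
      apply Finset.card_bij (fun x _ => (x, x * t / s))
      · intro y _
        simp [hs]
      · intro a _ b _ hab
        exact (Prod.mk.inj hab).1
      · rintro ⟨x, y⟩ hxy
        simp at hxy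
        refine ⟨x, Finset.mem_univ _, ?_⟩
        rw [← hxy]
        field_simp

open scoped Classical in
lemma us_mul_us (a b : Fˣ) (x y : F) : (us a x * us b y) = us (a * b) ((a : F) * y + x * ((b⁻¹ : Fˣ) : F)) := by
  apply sl_ext
  rw [Matrix.SpecialLinearGroup.coe_mul, us_coe, us_coe, us_coe]
  ext i j
  fin_cases i <;> fin_cases j <;> simp [Matrix.mul_apply, Fin.sum_univ_two, mul_comm]

open scoped Classical in
lemma us_comm_iff (a b : Fˣ) (x y : F) : Commute (us a x) (us b y) ↔ y * ((a : F) - ((a⁻¹ : Fˣ) : F)) = x * ((b : F) - ((b⁻¹ : Fˣ) : F)) := by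
  unfold Commute SemiconjBy
  rw [us_mul_us, us_mul_us]
  constructor
  · intro h
    have := congrArg (fun m : Matrix.SpecialLinearGroup (Fin 2) F => (m : Matrix (Fin 2) (Fin 2) F) 0 1) h
    simp only [us_coe, Matrix.of_apply, Matrix.cons_val', Matrix.cons_val_zero, Matrix.cons_val_one] at this
    linear_combination this
  · intro h
    have : (a : F) * y + x * ((b⁻¹ : Fˣ) : F) = (b : F) * x + y * ((a⁻¹ : Fˣ) : F) := by linear_combination h
    rw [this, mul_comm a b]

/-- Over a finite field F with q elements, q odd, the upper triangular subgroup of SL₂ (a Borel subgroup, of order q(q − 1)) has exactly q + 3 conjugacy classes. -/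
theorem result {F : Type*} [Field F] [Fintype F] (hodd : Odd (Fintype.card F)) :
    Nat.card (ConjClasses ((Cfsg.upperTriangularGL 2 F).comap Matrix.SpecialLinearGroup.toGL)) = Fintype.card F + 3 := by
  classical
  have h2 : (2 : F) ≠ 0 := by
    apply Ring.two_ne_zero
    intro h
    have := FiniteField.even_card_of_char_two h
    rw [← Nat.not_even_iff_odd] at hodd
    exact hodd (Nat.even_iff.2 this)
  have hone : 1 < Fintype.card F := Fintype.one_lt_card
  have h3 := card_comm_eq_card_conjClasses_mul_card ((Cfsg.upperTriangularGL 2 F).comap (H16.tg F))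
  have hc : Nat.card ((Cfsg.upperTriangularGL 2 F).comap (H16.tg F)) = (Fintype.card F - 1) * Fintype.card F := by
    rw [← Nat.card_congr H16.eqvBS, Nat.card_prod, Nat.card_eq_fintype_card, Nat.card_eq_fintype_card, Fintype.card_units]
  have e : {p : ((Cfsg.upperTriangularGL 2 F).comap (H16.tg F)) × ((Cfsg.upperTriangularGL 2 F).comap (H16.tg F)) // Commute p.1 p.2} ≃
      {p : (Fˣ × Fˣ) × (F × F) // p.2.2 * ((p.1.1 : F) - ((p.1.1⁻¹ : Fˣ) : F)) = p.2.1 * ((p.1.2 : F) - ((p.1.2⁻¹ : Fˣ) : F))} := by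
    refine (Equiv.subtypeEquiv ((Equiv.prodProdProdComm Fˣ Fˣ F F).trans (Equiv.prodCongr H16.eqvBS H16.eqvBS)) ?_).symm
    rintro ⟨⟨a, b⟩, ⟨x, y⟩⟩
    rw [← us_comm_iff]
    constructor
    · intro h
      exact Subtype.ext h
    · intro h
      exact congrArg Subtype.val h
  rw [Nat.card_congr e, hc, Nat.card_eq_fintype_card, Fintype.card_subtype, ← Finset.univ_product_univ, Finset.card_filter, Finset.sum_product] at h3
  simp_rw [← Finset.card_filter] at h3
  have h4 : ∀ p : Fˣ × Fˣ, (Finset.univ.filter (fun r : F × F => r.2 * ((p.1 : F) - ((p.1⁻¹ : Fˣ) : F)) = r.1 * ((p.2 : F) - ((p.2⁻¹ : Fˣ) : F)))).card =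
      (if p.1 ∈ ({1, -1} : Finset Fˣ) ∧ p.2 ∈ ({1, -1} : Finset Fˣ) then Fintype.card F ^ 2 else Fintype.card F) := by
    intro p
    rw [show (Finset.univ.filter (fun r : F × F => r.2 * ((p.1 : F) - ((p.1⁻¹ : Fˣ) : F)) = r.1 * ((p.2 : F) - ((p.2⁻¹ : Fˣ) : F)))).card = _ from by convert card_lin ((p.1 : F) - ((p.1⁻¹ : Fˣ) : F)) ((p.2 : F) - ((p.2⁻¹ : Fˣ) : F))]
    have h5 : ∀ a : Fˣ, (a : F) - ((a⁻¹ : Fˣ) : F) = 0 ↔ a ∈ ({1, -1} : Finset Fˣ) := by
      intro a
      rw [sub_eq_zero, Units.val_inj, Finset.mem_insert, Finset.mem_singleton]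
      constructor
      · intro h
        have : (a : F) * a = 1 := by
          have : a * a = 1 := by nth_rewrite 2 [h]; exact mul_inv_cancel a
          rw [← Units.val_mul, this, Units.val_one]
        rcases mul_self_eq_one_iff.1 this with h' | h'
        · left; exact Units.ext h'
        · right; apply Units.ext; rw [h']; simp
      · rintro (h | h)
        · rw [h, inv_one]
        · rw [h, inv_neg, inv_one]
    simp only [h5]
  rw [Finset.sum_congr rfl (fun p _ => h4 p)] at h3
  have h6 : ∀ (P : Fˣ × Fˣ → Prop) [DecidablePred P] , ∑ p : Fˣ × Fˣ, (if P p then Fintype.card F ^ 2 else Fintype.card F) =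
    (Finset.univ.filter P).card * (Fintype.card F ^ 2) + ((Finset.univ.filter (fun p => ¬ P p)).card) * Fintype.card F := by
    intro P _
    rw [Finset.sum_ite, Finset.sum_const, Finset.sum_const, smul_eq_mul, smul_eq_mul]
  rw [h6] at h3
  have h7 : (Finset.univ.filter (fun p : Fˣ × Fˣ => p.1 ∈ ({1, -1} : Finset Fˣ) ∧ p.2 ∈ ({1, -1} : Finset Fˣ))).card = 4 := by
    have : (Finset.univ.filter (fun p : Fˣ × Fˣ => p.1 ∈ ({1, -1} : Finset Fˣ) ∧ p.2 ∈ ({1, -1} : Finset Fˣ))) = ({1, -1} : Finset Fˣ) ×ˢ ({1, -1} : Finset Fˣ) := by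
      ext p; simp [Finset.mem_product]
    rw [this, Finset.card_product, Finset.card_pair]
    intro h
    have := congrArg Units.val h
    simp at this
    apply h2
    linear_combination this
  have h8 := Finset.card_filter_add_card_filter_not (s := (Finset.univ : Finset (Fˣ × Fˣ))) (fun p : Fˣ × Fˣ => p.1 ∈ ({1, -1} : Finset Fˣ) ∧ p.2 ∈ ({1, -1} : Finset Fˣ))
  rw [h7, Finset.card_univ, Fintype.card_prod, Fintype.card_units] at h8
  rw [h7] at h3
  obtain ⟨q, hq⟩ : ∃ q, Fintype.card F = q + 1 := ⟨Fintype.card F - 1, by omega⟩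
  have hq0 : 0 < q := by omega
  rw [hq] at h3 h8 ⊢
  simp only [Nat.add_sub_cancel] at h3 h8
  change Nat.card (ConjClasses ((Cfsg.upperTriangularGL 2 F).comap (H16.tg F))) = q + 1 + 3
  apply Nat.eq_of_mul_eq_mul_right (Nat.mul_pos hq0 (Nat.succ_pos q))
  rw [← h3]
  nlinarith [h8]

end Cfsg.Agent.S2437
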