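import Cfsg.Statements.S0791
import Mathlib
import Cfsg.Agent.H5.OrthNeg

set_option autoImplicit false
open Cfsg

namespace Cfsg.Agent.S0791

/-- −1 ∈ Ω⁻_2m(q) iff q^m ≡ −1 (mod 4), for q odd and m ≥ 1; for the minus-type form quadFormMinus (m−1) with anisotropic binary part. -/
theorem result {F : Type*} [Field F] [Fintype F] {q : ℕ} (hF : Fintype.card F = q) (hodd : Odd q) (m : ℕ) (hm : 1 ≤ m) (a b : F) (hab : ∀ z₁ z₂ : F, z₁ ^ 2 + a * z₁ * z₂ + b * z₂ ^ 2 = 0 → z₁ = 0 ∧ z₂ = 0) : (∃ g : ↥(Cfsg.isometryGroup F (Cfsg.quadFormMinus (m - 1) F a b)), g ∈ Cfsg.Omega F (Cfsg.quadFormMinus (m - 1) F a b) ∧ ((g : Matrix.GeneralLinearGroup ((Fin (m - 1) ⊕ Fin (m - 1)) ⊕ Fin 2) F) : Matrix ((Fin (m - 1) ⊕ Fin (m - 1)) ⊕ Fin 2) ((Fin (m - 1) ⊕ Fin (m - 1)) ⊕ Fin 2) F) = -1) ↔ q ^ m % 4 = 3 := by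
  have hq : Nat.card F = q := by rw [Nat.card_eq_fintype_card, hF]
  have h2 : (2 : F) ≠ 0 := by
    intro h2
    have h3 := FiniteField.even_card_of_char_two (Cfsg.Agent.H5.ringChar_eq_two h2)
    rw [hF] at h3
    rw [Nat.odd_iff] at hodd
    omega
  obtain ⟨k, rfl⟩ : ∃ k, m = k + 1 := ⟨m - 1, by omega⟩
  change (∃ g : ↥(Cfsg.isometryGroup F (Cfsg.quadFormMinus k F a b)), g ∈ Cfsg.Omega F (Cfsg.quadFormMinus k F a b) ∧ ((g : Matrix.GeneralLinearGroup ((Fin k ⊕ Fin k) ⊕ Fin 2) F) : Matrix ((Fin k ⊕ Fin k) ⊕ Fin 2) ((Fin k ⊕ Fin k) ⊕ Fin 2) F) = -1) ↔ _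
  rw [← Cfsg.Agent.H5.qMinus_coe, Cfsg.Agent.H5.exists_neg_iff]
  have hodd1 : Odd (q ^ (k + 1)) := hodd.pow
  obtain ⟨N, hN⟩ := hodd1
  have hodd2 : Odd (q ^ k) := hodd.pow
  rw [Cfsg.Agent.H5.neg_mem_comm h2 (Cfsg.Agent.H5.nd_minus hab) (by
    rw [Module.finrank_fintype_fun_eq_card]
    simp) (N := (N + 1) * q ^ k)]
  · rw [Nat.even_mul, hN]
    constructor
    · rintro (h | h)
      · obtain ⟨j, hj⟩ := h
        omega
      · exact absurd h (Nat.not_even_iff_odd.mpr hodd2)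
    · intro h
      left
      rw [Nat.even_iff]
      omega
  · intro c hc
    rw [Cfsg.Agent.H5.qMinus_coe, Cfsg.Agent.H5.card_minus_level c a b hq,
      Cfsg.Agent.H5.card_binary_level h2 hab hq c hc]
    have hN2 : 2 * ((N + 1) * q ^ k) = (q ^ (k + 1) + 1) * q ^ k := by rw [hN]; ring
    rw [hN2]
    rcases Nat.eq_zero_or_pos k with h | h
    · subst h; simp
    · obtain ⟨j, rfl⟩ : ∃ j, k = j + 1 := ⟨k - 1, by omega⟩
      obtain ⟨A, hA⟩ : ∃ A, q ^ (j + 1) = A + 1 := ⟨q ^ (j + 1) - 1, by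
          have : 1 ≤ q ^ (j + 1) := Nat.one_le_pow _ _ (by rw [← hq]; exact Nat.card_pos)
          omega⟩
      have e1 : q ^ 2 * q ^ (j + 1 - 1) = q * (A + 1) := by rw [← hA]; simp; ring
      have e3 : q ^ (j + 1 + 1) = (A + 1) * q := by rw [← hA]; ring
      rw [e1, e3, hA]
      simp only [Nat.add_sub_cancel]
      ring

end Cfsg.Agent.S0791
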