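import Cfsg.Statements.S0600
import Cfsg.Agent.H2.OmegaZ

set_option autoImplicit false
set_option linter.style.haveILetI false
set_option linter.unusedVariables false
set_option linter.unusedSectionVars false
open Cfsg

namespace Cfsg.Agent.S0600

/-- A normal elementary abelian p-subgroup generated by the fixed points of the Sylow p-subgroups admits no nontrivial normal p-subgroup of G modulo its centralizer. -/
theorem result {G : Type*} [Group G] [Finite G] {p : ℕ} [Fact p.Prime] (V : Subgroup G) [V.Normal] (hV : Cfsg.IsElementaryAbelian p V) (hgen : V = ⨆ S : Sylow p G, V ⊓ Subgroup.centralizer ((S : Subgroup G) : Set G)) : Cfsg.pCore p (G ⧸ Subgroup.centralizer (V : Set G)) = ⊥ := by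
  rw [eq_bot_iff]
  intro y hy
  obtain ⟨x, rfl⟩ := QuotientGroup.mk_surjective y
  rw [Subgroup.mem_bot, QuotientGroup.eq_one_iff]
  apply H2.centralizes_iSup hgen
  intro S v hv
  obtain ⟨s, hs, c, hc, rfl⟩ := H2.exists_mul_of_mem_pCore_quotient S hy
  have h1 : s * v = v * s := Subgroup.mem_centralizer_iff.1 hv.2 s hs
  have h2 : v * c = c * v := Subgroup.mem_centralizer_iff.1 hc v hv.1
  rw [← mul_assoc, ← h1, mul_assoc, h2, ← mul_assoc]

end Cfsg.Agent.S0600
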