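import Cfsg.Statements.S0608
import Cfsg.Agent.H2.FratArg

set_option autoImplicit false
set_option linter.style.haveILetI false
set_option linter.unusedVariables false
set_option linter.unusedSectionVars false
open Cfsg

namespace Cfsg.Agent.S0608

theorem aux1 {G : Type*} [Group G] [Finite G] {p : ℕ} [Fact p.Prime] (hO : Cfsg.pPrimeCore p G = ⊥)
    (h : Cfsg.IsThompsonFactorizable p G) :
    Cfsg.thompsonSubgroup p G ≤ Subgroup.centralizer (H2.ozGen p G : Set G) := by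
  rw [H2.thompsonSubgroup_eq_iSup]
  apply iSup_le
  intro S j hj
  apply H2.centralizes_iSup (rfl : H2.ozGen p G = _)
  intro T v hv
  obtain ⟨g, rfl⟩ := MulAction.exists_smul_eq G S T
  obtain ⟨x, hx, c, hc, n, hn, hg⟩ := h S g⁻¹
  rw [hO, Subgroup.mem_bot] at hx
  subst hx
  rw [one_mul] at hg
  have hg' : g = n⁻¹ * c⁻¹ := by rw [← mul_inv_rev, ← hg, inv_inv]
  rw [H2.coe_smul_sylow, ← H2.oz_map_conj, H2.mem_map_conj] at hv
  -- g⁻¹ v g = c n v n⁻¹ c⁻¹ ∈ oz S, thus n v n⁻¹ ∈ oz S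
  have h1 : n * v * n⁻¹ = g⁻¹ * v * g := by
    have h2 := H2.comm_of_mem_centralizer hc hv
    -- (g⁻¹ v g) c = c (g⁻¹ v g)
    rw [hg'] at h2 ⊢
    have h3 : n * v * n⁻¹ = c⁻¹ * ((n⁻¹ * c⁻¹)⁻¹ * v * (n⁻¹ * c⁻¹)) * c := by group
    rw [h3]
    rw [mul_assoc, h2]
    group
  have h4 : n * v * n⁻¹ ∈ omegaOne p ((S : Subgroup G) ⊓ Subgroup.centralizer ((S : Subgroup G) : Set G)) := by
    rw [h1]; exact hv
  have h5 : n * j * n⁻¹ ∈ thompsonSubgroupOf p (S : Subgroup G) :=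
    (Subgroup.mem_normalizer_iff.1 hn j).1 hj
  have h6 := (H2.mem_oz_iff.1 h4).2.1 _ (H2.thompsonSubgroupOf_le p _ h5)
  have h7 : v * j = n⁻¹ * (n * v * n⁻¹ * (n * j * n⁻¹)) * n := by group
  rw [h7, ← h6]; group

theorem aux2 {G : Type*} [Group G] [Finite G] {p : ℕ} [Fact p.Prime]
    (h : Cfsg.thompsonSubgroup p G ≤ Subgroup.centralizer (H2.ozGen p G : Set G)) :
    Cfsg.IsThompsonFactorizable p G := by
  intro S g
  obtain ⟨c, hc, n, hn, hg⟩ := H2.exists_frattini S (Subgroup.centralizer (H2.ozGen p G : Set G)) g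
  refine ⟨1, one_mem _, c, ?_, n, ?_, by rw [one_mul]; exact hg⟩
  · rw [Subgroup.mem_centralizer_iff]
    intro v hv
    exact H2.comm_of_mem_centralizer hc (H2.oz_le_ozGen S hv)
  · have h1 : thompsonSubgroupOf p (S : Subgroup G) ≤
        (S : Subgroup G) ⊓ Subgroup.centralizer (H2.ozGen p G : Set G) :=
      le_inf (H2.thompsonSubgroupOf_le p _) ((H2.thompsonSubgroupOf_sylow_le S).trans h)
    have h2 := H2.thompsonSubgroupOf_eq_of_le h1 inf_le_left
    rw [← h2]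
    exact H2.normalizer_le_normalizer_thompson _ hn

/-- With trivial p'-core, Thompson factorizability is equivalent to J(G) centralizing the subgroup generated by all Ω₁(Z(S)), S Sylow. -/
theorem result {G : Type*} [Group G] [Finite G] {p : ℕ} [Fact p.Prime] (hO : Cfsg.pPrimeCore p G = ⊥) : Cfsg.IsThompsonFactorizable p G ↔ Cfsg.thompsonSubgroup p G ≤ Subgroup.centralizer ((⨆ S : Sylow p G, Cfsg.omegaOne p (((S : Subgroup G)) ⊓ Subgroup.centralizer ((S : Subgroup G) : Set G)) : Subgroup G) : Set G) := by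
  exact ⟨aux1 hO, aux2⟩

end Cfsg.Agent.S0608
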