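import Cfsg.Statements.S0618
import Cfsg.Agent.H19.FF12
import Cfsg.Agent.S0600
import Cfsg.Agent.S0608
import Cfsg.Agent.H2.OmegaZ

set_option autoImplicit false
set_option linter.style.haveILetI false
open Cfsg

namespace Cfsg.Agent.S0618

/-- A p-separable group with trivial p'-core in which the Thompson factorization fails has p = 2 or 3, and J(G) induces on the normal closure of Ω₁(Z(S)) a group containing a normal SL(2, p). -/
theorem result {G : Type*} [Group G] [Finite G] {p : ℕ} [Fact p.Prime] (hsep : Cfsg.IsPSolvable p G) (hO : Cfsg.pPrimeCore p G = ⊥) (hnf : ¬ Cfsg.IsThompsonFactorizable p G) : (p = 2 ∨ p = 3) ∧ ∃ E : Subgroup G, Subgroup.centralizer ((⨆ S : Sylow p G, Cfsg.omegaOne p ((S : Subgroup G) ⊓ Subgroup.centralizer ((S : Subgroup G) : Set G))) : Set G) ≤ E ∧ E ≤ Cfsg.thompsonSubgroup p G ⊔ Subgroup.centralizer ((⨆ S : Sylow p G, Cfsg.omegaOne p ((S : Subgroup G) ⊓ Subgroup.centralizer ((S : Subgroup G) :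 Set G))) : Set G) ∧ Cfsg.thompsonSubgroup p G ⊔ Subgroup.centralizer ((⨆ S : Sylow p G, Cfsg.omegaOne p ((S : Subgroup G) ⊓ Subgroup.centralizer ((S : Subgroup G) : Set G))) : Set G) ≤ Subgroup.normalizer (E : Set G) ∧ ∃ hn : ((Subgroup.centralizer ((⨆ S : Sylow p G, Cfsg.omegaOne p ((S : Subgroup G) ⊓ Subgroup.centralizer ((S : Subgroup G) : Set G))) : Set G)).subgroupOf E).Normal, Nonempty ((↥E ⧸ (Subgroup.centralizer ((⨆ S : Sylow p G, Cfsg.omegaOne p ((S : Subgroup G) ⊓ Subgroup.centralizer ((S : Subgroup G) : Set G))) : Set G)).subgroupOf E) ≃* Matrix.SpecialLinearGroup (Fin 2) (ZMod p)) := by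

  have hcp : Subgroup.centralizer (Cfsg.pCore p G : Set G) ≤ Cfsg.pCore p G := H23.centralizer_pCore_le hsep hO
  have hVel : Cfsg.IsElementaryAbelian p (H2.ozGen p G) := H2.ozGen_isElementaryAbelian hcp
  rw [S0608.result hO] at hnf
  have hOV : Cfsg.pCore p (G ⧸ Subgroup.centralizer (H2.ozGen p G : Set G)) = ⊥ := by
    apply S0600.result (H2.ozGen p G) hVel
    apply le_antisymm
    · conv_lhs => unfold H2.ozGen
      apply iSup_mono
      intro S x hx
      refine ⟨H2.oz_le_ozGen S hx, ?_⟩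
      show x ∈ Subgroup.centralizer _
      rw [Subgroup.mem_centralizer_iff]
      exact (H2.mem_oz_iff.mp hx).2.1
    · exact iSup_le fun S => inf_le_left
  have hce : Subgroup.centralizer (⨆ S : Sylow p G, ((Cfsg.omegaOne p ((S : Subgroup G) ⊓ Subgroup.centralizer ((S : Subgroup G) : Set G)) : Subgroup G) : Set G)) = Subgroup.centralizer (H2.ozGen p G : Set G) := by
    apply le_antisymm
    · intro x hx
      apply H2.centralizes_iSup (rfl : H2.ozGen p G = _)
      intro S v hv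
      exact Subgroup.mem_centralizer_iff.mp hx v (Set.mem_iUnion.mpr ⟨S, hv⟩)
    · apply Subgroup.centralizer_le
      apply Set.iUnion_subset
      intro S x hx
      exact H2.oz_le_ozGen S hx
  rw [hce]
  change (p = 2 ∨ p = 3) ∧ ∃ E : Subgroup G, Subgroup.centralizer (H2.ozGen p G : Set G) ≤ E ∧ E ≤ Cfsg.thompsonSubgroup p G ⊔ Subgroup.centralizer (H2.ozGen p G : Set G) ∧ Cfsg.thompsonSubgroup p G ⊔ Subgroup.centralizer (H2.ozGen p G : Set G) ≤ Subgroup.normalizer (E : Set G) ∧ ∃ hn : ((Subgroup.centralizer (H2.ozGen p G : Set G)).subgroupOf E).Normal, Nonempty ((↥E ⧸ (Subgroup.centralizer (H2.ozGen p G : Set G)).subgroupOf E) ≃* Matrix.SpecialLinearGroup (Fin 2) (ZMod p))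
  change ¬ Cfsg.thompsonSubgroup p G ≤ Subgroup.centralizer (H2.ozGen p G : Set G) at hnf
  set C := Subgroup.centralizer (H2.ozGen p G : Set G) with hC
  set J := Cfsg.thompsonSubgroup p G with hJ
  haveI hJn : J.Normal := by
    have : J.Characteristic := H2.thompsonSubgroup_characteristic
    infer_instance
  set ρ := QuotientGroup.mk' C with hρ
  haveI hNn : (J.map ρ).Normal := Subgroup.Normal.map hJn _ (QuotientGroup.mk'_surjective _)
  have hqa := H19.FF.Wn.qa (hV := hVel.1) hVel.2 hsep hOV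
  have hffs := hqa.ffs (J.map ρ)
  have hgen : sSup {B : Subgroup ↥(J.map ρ) | H19.FF.FFS.TG p (H19.FF.Wn (H2.ozGen p G) hVel.1) B} = ⊤ := by
    refine hqa.gen_of (S := {A : Subgroup G | H2.EAIn p ⊤ A}) (by rw [hJ, H2.thompsonSubgroup_eq]) ?_
    intro A hA
    exact ⟨H19.FF.EAIn_comm hA, hA.2.1.2, H19.FF.EAIn_off hVel hA⟩
  obtain ⟨A', hA'⟩ : ∃ A' : Subgroup ↥(J.map ρ), H19.FF.FFS.TG p (H19.FF.Wn (H2.ozGen p G) hVel.1) A' := by
    by_contra hcon
    push Not at hcon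
    have h1 : {B : Subgroup ↥(J.map ρ) | H19.FF.FFS.TG p (H19.FF.Wn (H2.ozGen p G) hVel.1) B} = ∅ := by
      rw [Set.eq_empty_iff_forall_notMem]
      exact hcon
    rw [h1, sSup_empty] at hgen
    apply hnf
    intro j hj
    have h2 : (⟨ρ j, ⟨j, hj, rfl⟩⟩ : ↥(J.map ρ)) ∈ (⊥ : Subgroup ↥(J.map ρ)) := by rw [hgen]; trivial
    have h3 : ρ j = 1 := congrArg Subtype.val (Subgroup.mem_bot.mp h2)
    exact (QuotientGroup.eq_one_iff j).mp h3
  obtain ⟨ι, φ, hPl⟩ := hA'.exists_plane hffs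
  refine ⟨hA'.p_le hffs, ?_⟩
  set F := H19.FF.EG (Cfsg.pPrimeCore p ↥(J.map ρ)) A' with hF
  set E := (F.map (J.map ρ).subtype).comap ρ with hE
  have hCE : C ≤ E := by
    intro c hc
    show ρ c ∈ F.map (J.map ρ).subtype
    have : ρ c = 1 := (QuotientGroup.eq_one_iff c).mpr hc
    rw [this]
    exact Subgroup.one_mem _
  have hJC : ∀ x : G, x ∈ J ⊔ C ↔ ρ x ∈ J.map ρ := by
    intro x
    have h1 : (J.map ρ).comap ρ = J ⊔ C := by
      rw [Subgroup.comap_map_eq, hρ, QuotientGroup.ker_mk']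
    rw [← h1]
    exact Iff.rfl
  refine ⟨E, hCE, ?_, ?_, ?_⟩
  · intro x hx
    obtain ⟨y, _, hyx⟩ := hx
    rw [hJC, ← hyx]
    exact y.2
  · intro x hx
    have hxN := (hJC x).mp hx
    have h1 := hA'.norm hffs hgen ⟨ρ x, hxN⟩
    have h2 := H19.PGV.cj_eq_iff_norm.mp h1
    have key : ∀ z : G, z ∈ E → x * z * x⁻¹ ∈ E := by
      intro z hz
      obtain ⟨y, hy, hyz⟩ := hz
      refine ⟨⟨ρ x, hxN⟩ * y * ⟨ρ x, hxN⟩⁻¹, (h2 y).mp hy, ?_⟩
      show ρ x * (J.map ρ).subtype y * (ρ x)⁻¹ = ρ (x * z * x⁻¹)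
      rw [hyz, map_mul, map_mul, map_inv]
    have key' : ∀ z : G, z ∈ E → x⁻¹ * z * x ∈ E := by
      intro z hz
      obtain ⟨y, hy, hyz⟩ := hz
      have h3 := (h2 (⟨ρ x, hxN⟩⁻¹ * y * ⟨ρ x, hxN⟩)).mpr (by
        have e : (⟨ρ x, hxN⟩ : ↥(J.map ρ)) * (⟨ρ x, hxN⟩⁻¹ * y * ⟨ρ x, hxN⟩) * ⟨ρ x, hxN⟩⁻¹ = y := by group
        rw [e]; exact hy)
      refine ⟨⟨ρ x, hxN⟩⁻¹ * y * ⟨ρ x, hxN⟩, h3, ?_⟩
      show (ρ x)⁻¹ * (J.map ρ).subtype y * (ρ x) = ρ (x⁻¹ * z * x)
      rw [hyz, map_mul, map_mul, map_inv]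
    rw [Subgroup.mem_normalizer_iff]
    intro z
    refine ⟨key z, fun h => ?_⟩
    have := key' _ h
    have e : x⁻¹ * (x * z * x⁻¹) * x = z := by group
    rwa [e] at this
  · have hn : (C.subgroupOf E).Normal := by
      have : C.Normal := inferInstance
      infer_instance
    refine ⟨hn, ?_⟩
    have hmem : ∀ x : ↥E, ρ x ∈ J.map ρ := by
      intro x
      obtain ⟨y, _, hyx⟩ := x.2
      have : ρ (x : G) = y.1 := hyx.symm
      rw [this]; exact y.2
    have hmem2 : ∀ x : ↥E, (⟨ρ x, hmem x⟩ : ↥(J.map ρ)) ∈ F := by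
      intro x
      obtain ⟨y, hy, hyx⟩ := x.2
      have : y = ⟨ρ x, hmem x⟩ := Subtype.ext hyx
      rw [← this]; exact hy
    let f : ↥E →* ↥F :=
      { toFun := fun x => ⟨⟨ρ x, hmem x⟩, hmem2 x⟩
        map_one' := Subtype.ext (Subtype.ext (map_one ρ))
        map_mul' := fun x y => Subtype.ext (Subtype.ext (map_mul ρ _ _)) }
    have hfs : Function.Surjective f := by
      rintro ⟨y, hy⟩
      obtain ⟨g, hg⟩ := QuotientGroup.mk'_surjective C y.1
      have hgE : g ∈ E := ⟨y, hy, hg.symm⟩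
      exact ⟨⟨g, hgE⟩, Subtype.ext (Subtype.ext hg)⟩
    have hker : f.ker = C.subgroupOf E := by
      ext x
      rw [MonoidHom.mem_ker, Subgroup.mem_subgroupOf]
      constructor
      · intro h1
        have h2 : ρ (x : G) = 1 := congrArg (fun z : ↥F => ((z : ↥(J.map ρ)) : G ⧸ C)) h1
        exact (QuotientGroup.eq_one_iff _).mp h2
      · intro h1
        exact Subtype.ext (Subtype.ext ((QuotientGroup.eq_one_iff _).mpr h1))
    exact ⟨((QuotientGroup.quotientMulEquivOfEq hker).symm.trans (QuotientGroup.quotientKerEquivOfSurjective f hfs)).trans φ⟩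


end Cfsg.Agent.S0618
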