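import Cfsg.Statements.S3012

set_option autoImplicit false
set_option linter.style.haveILetI false
open Cfsg

namespace Cfsg.Agent.S3012


theorem odd_sq_eq {G : Type*} [Group G] {x : G} (hx : Odd (orderOf x)) : ∃ m : ℕ, (x ^ m) ^ 2 = x := by
  obtain ⟨k, hk⟩ := hx
  refine ⟨k + 1, ?_⟩
  rw [← pow_mul, show (k + 1) * 2 = orderOf x + 1 by omega, pow_succ, pow_orderOf_eq_one, one_mul]

theorem conj_pow_inv {G : Type*} [Group G] {v x : G} (h : v * x * v⁻¹ = x⁻¹) (m : ℕ) :
    v * x ^ m * v⁻¹ = (x ^ m)⁻¹ := by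
  rw [← conj_pow, h, inv_pow]

/-- Let G be a finite group, V a nontrivial elementary abelian 2-subgroup of G satisfying the Sidki pair condition (every odd-order element inverted by an element of V commutes with a nontrivial element of V), and K a normal subgroup of G with V ∩ K = 1. Then the image of V in G/K satisfies the Sidki pair condition in G/K. -/
theorem result {G : Type*} [Group G] [Finite G] (V K : Subgroup G) [K.Normal] (hV : Cfsg.IsElementaryAbelian 2 V) (hV1 : V ≠ ⊥) (hS : Cfsg.IsSidkiPair V) (hVK : V ⊓ K = ⊥) : Cfsg.IsSidkiPair (V.map (QuotientGroup.mk' K)) := by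

  intro h v hv hodd hinv
  obtain ⟨v, hvV, rfl⟩ := hv
  obtain ⟨m, hm⟩ := odd_sq_eq hodd
  obtain ⟨k, hk⟩ := QuotientGroup.mk'_surjective K (h ^ m)
  have hv2 : v * v = 1 := by have := hV.2 v hvV; rwa [pow_two] at this
  have hvi : v⁻¹ = v := inv_eq_of_mul_eq_one_left hv2
  set π := QuotientGroup.mk' K with hπ
  -- the element `y = v k⁻¹ v k`
  set y := v * k⁻¹ * v * k with hy
  have hyinv : v * y * v⁻¹ = y⁻¹ := by
    rw [hy]
    simp only [mul_inv_rev, inv_inv, hvi]
    calc v * (v * k⁻¹ * v * k) * v = (v * v) * (k⁻¹ * v * k * v) := by group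
      _ = _ := by rw [hv2]; group
  have hyim : π y = h := by
    have h1 := conj_pow_inv hinv m
    rw [← hk] at h1
    have h2 : π v * (π k)⁻¹ * (π v)⁻¹ = π k := by
      calc π v * (π k)⁻¹ * (π v)⁻¹ = (π v * (π k) * (π v)⁻¹)⁻¹ := by group
        _ = _ := by rw [h1, inv_inv]
    have h3 : (π v)⁻¹ = π v := by rw [← map_inv, hvi]
    rw [h3] at h2
    rw [hy, map_mul, map_mul, map_mul, map_inv, h2, hk, ← pow_two, hm]
  -- odd part
  obtain ⟨a, b, hb, hab⟩ := Nat.exists_eq_two_pow_mul_odd (n := orderOf y) (orderOf_pos y).ne'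
  have hdvd : orderOf h ∣ b := by
    have h1 : orderOf h ∣ orderOf y := by rw [← hyim]; exact orderOf_map_dvd π y
    rw [hab] at h1
    exact (Nat.Coprime.pow_right a (hodd.coprime_two_right)).dvd_of_dvd_mul_left h1
  have hcop : Nat.Coprime (2 ^ a) b := Nat.Coprime.pow_left a hb.coprime_two_left
  obtain ⟨n, hn1, hn2⟩ := Nat.chineseRemainder hcop 0 1
  have hyn : π (y ^ n) = h := by
    rw [map_pow, hyim]
    have h1 : n ≡ 1 [MOD orderOf h] := hn2.of_dvd hdvd
    have h2 := (pow_eq_pow_iff_modEq (x := h)).mpr h1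
    rw [h2, pow_one]
  have hynodd : Odd (orderOf (y ^ n)) := by
    have h1 : orderOf (y ^ n) ∣ b := by
      apply orderOf_dvd_of_pow_eq_one
      rw [← pow_mul]
      have h2 : 2 ^ a ∣ n := (Nat.modEq_zero_iff_dvd).mp hn1
      obtain ⟨c, hc⟩ := h2
      rw [hc, show 2 ^ a * c * b = (2 ^ a * b) * c by ring, ← hab, pow_mul, pow_orderOf_eq_one, one_pow]
    exact hb.of_dvd_nat h1
  obtain ⟨w, hwV, hw1, hw⟩ := hS (y ^ n) v hvV hynodd (conj_pow_inv hyinv n)
  refine ⟨π w, ⟨w, hwV, rfl⟩, ?_, ?_⟩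
  · intro h1
    have h2 : w ∈ K := (QuotientGroup.eq_one_iff w).mp h1
    have h3 : w ∈ V ⊓ K := ⟨hwV, h2⟩
    rw [hVK] at h3
    exact hw1 (Subgroup.mem_bot.mp h3)
  · rw [← hyn, ← map_mul, ← map_mul, hw]


end Cfsg.Agent.S3012
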