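import Cfsg.Statements.S2944
import Cfsg.Agent.H19.JC5

set_option autoImplicit false
set_option linter.style.haveILetI false
open Cfsg

namespace Cfsg.Agent.S2944

open Cfsg.Agent Cfsg.Agent.H19 Cfsg.Agent.H19.JC
open scoped commutatorElement

/-- the basic setting for `N_G(W_K)` -/
theorem key {G : Type*} [Group G] [Finite G] (hG : HG G) (T : Subgroup G) (hT : IsPGroup 2 ↥T) (K : Subgroup G)
    (hK : K ∈ Cfsg.jComponentsZero T) :
    ∃ S : Subgroup G, H23.IsSylowOf 2 S (Subgroup.normalizer (wOf K : Set G)) ∧ thompsonSubgroupOf 2 S = thompsonSubgroupOf 2 T ∧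
      K ≤ Subgroup.normalizer (wOf K : Set G) ∧ ZG ↥(Subgroup.normalizer (wOf K : Set G)) := by
  haveI h2 : Fact (Nat.Prime 2) := ⟨Nat.prime_two⟩
  have hc := hK.1
  have hKN : K ≤ Subgroup.normalizer (wOf K : Set G) := Subgroup.le_normalizer.trans C3.norm_wOf
  have hJN : thompsonSubgroupOf 2 T ≤ Subgroup.normalizer (wOf K : Set G) := (comp_norm hc).trans C3.norm_wOf
  obtain ⟨S, hS, hJS⟩ := H23.exists_isSylowOf_ge (p := 2) hJN (J_isPGroup hT)
  have hSJ := hK.2 S hJS (isSylowTwoIn_iff.mpr hS)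
  have hW2 := wOf_isPGroup K
  set N := Subgroup.normalizer (wOf K : Set G) with hN
  have hWN : wOf K ≤ pCoreOf 2 N := H18.le_pCoreOf Subgroup.le_normalizer le_rfl hW2
  have hcN : Subgroup.centralizer (pCoreOf 2 N : Set G) ≤ pCoreOf 2 N := by
    intro x hx
    have hxN : x ∈ N := Subgroup.centralizer_le_normalizer _ (Subgroup.centralizer_le (show (wOf K : Set G) ⊆ _ from hWN) hx)
    have h1 := hG.cha.2 (wOf K) hW2 (comp_ne hc)
    have h3 : (⟨x, hxN⟩ : ↥N) ∈ pCore 2 ↥N := by
      apply h1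
      rw [Subgroup.mem_centralizer_iff]
      intro y hy
      apply Subtype.ext
      exact Subgroup.mem_centralizer_iff.mp hx y.1 ⟨y, hy, rfl⟩
    exact ⟨_, h3, rfl⟩
  refine ⟨S, hS, hSJ, hKN, hG.zg hcN fun h => ?_⟩
  apply comp_ne hc
  rw [eq_bot_iff, ← h]
  exact hWN

/-- Let G be a finite group of characteristic 2 type in which every 2-local subgroup is solvable and the centralizer of Ω₁(Z(S)) lies in N_G(S) for every Sylow 2-subgroup S, and let T be a nontrivial 2-subgroup (below, J is the Thompson subgroup generated by the elementary abelian 2-subgroups of largest order) and K a J(T)-component such that J(T) is the Thompson subgroup of every Sylow 2-subgroup of N_G(W_K) containing J(T), where W_K = [Ω₁(Z(O₂(K))), K]. Then N_G(K) = N_G(W_K), and K is a J(Tᵍ)-component for every conjugate Tᵍ of T with J(Tᵍ) ≤ N_G(W_K). -/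
theorem result {G : Type*} [Group G] [Finite G] (hL : Cfsg.IsCharacteristicTwoType G) (hN : ∀ N : Subgroup G, Cfsg.IsTwoLocal N → Group.IsSolvable ↥N)
    (hZ : ∀ S : Sylow 2 G, Subgroup.centralizer (Cfsg.omegaCenterOf (S : Subgroup G) : Set G) ≤ Subgroup.normalizer ((S : Subgroup G) : Set G)) (T : Subgroup G) (hT : IsPGroup 2 ↥T) (hT1 : T ≠ ⊥) (K : Subgroup G) (hK : K ∈ Cfsg.jComponentsZero T) :
    Subgroup.normalizer (K : Set G) = Subgroup.normalizer (Cfsg.wOf K : Set G) ∧
      ∀ g : G, Cfsg.thompsonSubgroupOf 2 (T.map (MulAut.conj g).toMonoidHom) ≤ Subgroup.normalizer (Cfsg.wOf K : Set G) →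
        Cfsg.IsJComponent (T.map (MulAut.conj g).toMonoidHom) K := by
  classical
  haveI h2 : Fact (Nat.Prime 2) := ⟨Nat.prime_two⟩
  have hG : HG G := ⟨hL, hN, hZ⟩
  obtain ⟨S, hS, hSJ, hKN, hz⟩ := key hG T hT K hK
  have hc := hK.1
  set N := Subgroup.normalizer (wOf K : Set G) with hNdef
  have hjkS : JK S K := ⟨comp_c3 hc, by rw [hSJ]; exact hc.2.1⟩
  have hjk := jk_subgroupOf hS.le hKN hjkS
  have hs := isSylowOf_top_of hS
  have hW4 : Nat.card (wOf (K.subgroupOf N)) = 4 := by rw [card_wOf_subgroupOf hKN]; exact comp_card hc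
  have hVK := hjk.VK_eq hz hs hW4
  have hNK : N ≤ Subgroup.normalizer (K : Set G) := by
    intro x hx
    set x' : ↥N := ⟨x, hx⟩ with hx'
    have hjk2 := jk_conj hjk x'
    have hs2 := isSylowOf_conj hs x'
    rw [Subgroup.map_top_of_surjective _ (MulAut.conj x').surjective] at hs2
    have hWx : (wOf (K.subgroupOf N)).map (MulAut.conj x').toMonoidHom = wOf (K.subgroupOf N) := by
      rw [← H18.mem_normalizer_iff_map]
      apply mem_norm_of_le
      intro w hw
      have h3 : w.1 ∈ wOf K := by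
        rw [← wOf_subgroupOf hKN]; exact ⟨w, hw, rfl⟩
      have h4 : x * w.1 * x⁻¹ ∈ wOf K := (Subgroup.mem_normalizer_iff.mp hx _).mp h3
      rw [← wOf_subgroupOf hKN] at h4
      obtain ⟨y, hy, hyw⟩ := h4
      have : y = x' * w * x'⁻¹ := Subtype.ext hyw
      rw [← this]; exact hy
    have hVK2 : ⁅VV ↥N, (K.subgroupOf N).map (MulAut.conj x').toMonoidHom⁆ = wOf (K.subgroupOf N) := by
      rw [hjk2.VK_eq hz hs2 (by rw [wOf_conj, hWx]; exact hW4), wOf_conj, hWx]
    have heq : K.subgroupOf N = (K.subgroupOf N).map (MulAut.conj x').toMonoidHom := by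
      apply JK.eq_of_meet hz hjk hs hjk2 hs2
      rw [hVK, hVK2, inf_idem]
      intro h3
      rw [h3, Subgroup.card_bot] at hW4
      omega
    apply mem_norm_of_le
    intro k hk
    have h1 : x' * (⟨k, hKN hk⟩ : ↥N) * x'⁻¹ ∈ K.subgroupOf N := by
      rw [heq]
      exact ⟨⟨k, hKN hk⟩, hk, rfl⟩
    exact h1
  refine ⟨le_antisymm C3.norm_wOf hNK, fun g hg => ?_⟩
  have hTg2 : IsPGroup 2 (thompsonSubgroupOf 2 (T.map (MulAut.conj g).toMonoidHom)) :=
    (hT.map _).to_le (H2.thompsonSubgroupOf_le 2 _)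
  obtain ⟨S₂, hS₂, hJS₂⟩ := H23.exists_isSylowOf_ge (p := 2) hg hTg2
  obtain ⟨n, hn, hnS⟩ := hS.exists_conj hS₂
  have hnS' : S.map (MulAut.conj n).toMonoidHom = S₂ := hnS
  have hJ2 : thompsonSubgroupOf 2 S₂ = (thompsonSubgroupOf 2 T).map (MulAut.conj n).toMonoidHom := by
    rw [← hnS', H2.thompsonSubgroupOf_map_conj, hSJ]
  have hle : thompsonSubgroupOf 2 (T.map (MulAut.conj g).toMonoidHom) ≤ (thompsonSubgroupOf 2 T).map (MulAut.conj n).toMonoidHom := by
    rw [← hJ2]
    obtain ⟨A, hA⟩ := H2.exists_eaIn 2 T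
    have h3 := eaIn_of_eq hSJ hA
    have h4 := H2.eaIn_map_conj h3 n
    rw [hnS'] at h4
    have h5 := H2.eaIn_map_conj hA g
    have h6 : ∀ B, H2.EAIn 2 (T.map (MulAut.conj g).toMonoidHom) B → H2.EAIn 2 S₂ B := by
      intro B hB
      apply h4.of_card_eq (hB.le_thompson.trans hJS₂) hB.2.1
      rw [hB.card_eq h5, H2.card_map_inj (MulAut.conj n).injective, H2.card_map_inj (MulAut.conj g).injective]
    rw [H2.thompsonSubgroupOf_eq]
    exact sSup_le fun B hB => (h6 B hB).le_thompson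
  have heq : (thompsonSubgroupOf 2 T).map (MulAut.conj n).toMonoidHom = thompsonSubgroupOf 2 (T.map (MulAut.conj g).toMonoidHom) := by
    symm
    apply Subgroup.eq_of_le_of_card_ge hle
    rw [H2.thompsonSubgroupOf_map_conj, H2.card_map_inj (MulAut.conj n).injective, H2.card_map_inj (MulAut.conj g).injective]
  have hKn := comp_conj hc n
  have hKn' : K.map (MulAut.conj n).toMonoidHom = K := H18.mem_normalizer_iff_map.mp (hNK hn)
  rw [hKn'] at hKn
  apply comp_congr _ hKn
  rw [H2.thompsonSubgroupOf_map_conj, heq]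

end Cfsg.Agent.S2944
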