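import Cfsg.Statements.S2943
import Cfsg.Agent.H19.JC5

set_option autoImplicit false
set_option linter.style.haveILetI false
open Cfsg

namespace Cfsg.Agent.S2943

open Cfsg.Agent Cfsg.Agent.H19 Cfsg.Agent.H19.JC
open scoped commutatorElement

/-- Let G be a finite group of characteristic 2 type in which every 2-local subgroup is solvable and the centralizer of Ω₁(Z(S)) lies in N_G(S) for every Sylow 2-subgroup S, and let T be a nontrivial 2-subgroup (below, J is the Thompson subgroup generated by the elementary abelian 2-subgroups of largest order), L a subgroup in which T is a Sylow 2-subgroup with J(T) not contained in O₂(L) and C_G(O₂(L)) ≤ O₂(L), and K a J(T)-component contained in L. If Z(T) meets W_K = [Ω₁(Z(O₂(K))), K] nontrivially, then T normalizes K. -/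
theorem result {G : Type*} [Group G] [Finite G] (hL : Cfsg.IsCharacteristicTwoType G) (hN : ∀ N : Subgroup G, Cfsg.IsTwoLocal N → Group.IsSolvable ↥N)
    (hZ : ∀ S : Sylow 2 G, Subgroup.centralizer (Cfsg.omegaCenterOf (S : Subgroup G) : Set G) ≤ Subgroup.normalizer ((S : Subgroup G) : Set G)) (T : Subgroup G) (hT : IsPGroup 2 ↥T) (hT1 : T ≠ ⊥) (L : Subgroup G) (hLT : L ∈ Cfsg.jOvergroups T)
    (K : Subgroup G) (hK : Cfsg.IsJComponent T K) (hKL : K ≤ L)
    (hZW : T ⊓ Subgroup.centralizer (T : Set G) ⊓ Cfsg.wOf K ≠ ⊥) : T ≤ Subgroup.normalizer (K : Set G) := by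
  have hG : HG G := ⟨hL, hN, hZ⟩
  obtain ⟨hTL, hJL, hcL⟩ := hLT
  have hTL' := isSylowTwoIn_iff.mp hTL
  have hz := hG.zg hcL (ne_bot_of hT1 hcL)
  have hjk := jk_subgroupOf hTL.1 hKL (comp_jk hK)
  have hs := isSylowOf_top_of hTL'
  have hW4 : Nat.card (wOf (K.subgroupOf L)) = 4 := by rw [card_wOf_subgroupOf hKL]; exact comp_card hK
  have hVK := hjk.VK_eq hz hs hW4
  obtain ⟨⟨z, ⟨hz1, hz2⟩, hz3⟩, hzne⟩ := Subgroup.ne_bot_iff_exists_ne_one.mp hZW
  have hzne' : z ≠ 1 := fun h => hzne (Subtype.ext h)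
  intro t ht
  set t' : ↥L := ⟨t, hTL.1 ht⟩ with ht'
  have hTt : (T.subgroupOf L).map (MulAut.conj t').toMonoidHom = T.subgroupOf L := by
    rw [← H18.mem_normalizer_iff_map]
    exact Subgroup.le_normalizer (show t' ∈ T.subgroupOf L from ht)
  have hjk2 := jk_conj hjk t'
  rw [hTt] at hjk2
  have hVK2 : ⁅VV ↥L, (K.subgroupOf L).map (MulAut.conj t').toMonoidHom⁆ = (wOf (K.subgroupOf L)).map (MulAut.conj t').toMonoidHom := by
    rw [← wOf_conj]
    apply hjk2.VK_eq hz hs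
    rw [wOf_conj, H2.card_map_inj (MulAut.conj t').injective, hW4]
  have hzL : z ∈ L := hTL.1 hz1
  have hzW : (⟨z, hzL⟩ : ↥L) ∈ wOf (K.subgroupOf L) := by
    rw [← wOf_subgroupOf hKL] at hz3
    obtain ⟨y, hy, hyz⟩ := hz3
    have : y = ⟨z, hzL⟩ := Subtype.ext hyz
    rw [← this]; exact hy
  have heq : K.subgroupOf L = (K.subgroupOf L).map (MulAut.conj t').toMonoidHom := by
    apply JK.eq_of_meet hz hjk hs hjk2 hs
    rw [hVK, hVK2]
    intro hbot
    have hmem : (⟨z, hzL⟩ : ↥L) ∈ wOf (K.subgroupOf L) ⊓ (wOf (K.subgroupOf L)).map (MulAut.conj t').toMonoidHom := by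
      refine ⟨hzW, ⟨_, hzW, ?_⟩⟩
      apply Subtype.ext
      show t * z * t⁻¹ = z
      rw [Subgroup.mem_centralizer_iff.mp hz2 t ht, mul_inv_cancel_right]
    rw [hbot, Subgroup.mem_bot] at hmem
    exact hzne' (congrArg Subtype.val hmem)
  apply mem_norm_of_le
  intro k hk
  have h1 : t' * (⟨k, hKL hk⟩ : ↥L) * t'⁻¹ ∈ K.subgroupOf L := by
    rw [heq]
    exact ⟨⟨k, hKL hk⟩, hk, rfl⟩
  exact h1

end Cfsg.Agent.S2943
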