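import Cfsg.Statements.S2946
import Cfsg.Agent.H19.JC2

set_option autoImplicit false
set_option linter.style.haveILetI false
open Cfsg

namespace Cfsg.Agent.S2946

open Cfsg.Agent Cfsg.Agent.H19 Cfsg.Agent.H19.JC
open scoped commutatorElement

/-- Let G be a finite group of characteristic 2 type in which every 2-local subgroup is solvable and the centralizer of Ω₁(Z(S)) lies in N_G(S) for every Sylow 2-subgroup S, and let T be a nontrivial 2-subgroup (below, J is the Thompson subgroup generated by the elementary abelian 2-subgroups of largest order), K a J(T)-component and Z₀ = Ω₁(Z(J(T))). Then Z₀ meets W_K = [Ω₁(Z(O₂(K))), K] in a subgroup of order 2, and Z₀ is the product of Z₀ ∩ Z(⟨K, J(T)⟩) and Z₀ ∩ W_K. -/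
theorem result {G : Type*} [Group G] [Finite G] (hL : Cfsg.IsCharacteristicTwoType G) (hN : ∀ N : Subgroup G, Cfsg.IsTwoLocal N → Group.IsSolvable ↥N)
    (hZ : ∀ S : Sylow 2 G, Subgroup.centralizer (Cfsg.omegaCenterOf (S : Subgroup G) : Set G) ≤ Subgroup.normalizer ((S : Subgroup G) : Set G)) (T : Subgroup G) (hT : IsPGroup 2 ↥T) (hT1 : T ≠ ⊥) (K : Subgroup G) (hK : Cfsg.IsJComponent T K)
    (Z₀ : Subgroup G) (hZ₀ : Z₀ = Cfsg.omegaCenterOf (Cfsg.thompsonSubgroupOf 2 T)) :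
    Nat.card ↥(Z₀ ⊓ Cfsg.wOf K) = 2 ∧
      (Z₀ ⊓ ((K ⊔ Cfsg.thompsonSubgroupOf 2 T) ⊓ Subgroup.centralizer ((K ⊔ Cfsg.thompsonSubgroupOf 2 T) : Set G))) ⊔ (Z₀ ⊓ Cfsg.wOf K) = Z₀ := by
  classical
  haveI h2 : Fact (Nat.Prime 2) := ⟨Nat.prime_two⟩
  set J := thompsonSubgroupOf 2 T with hJ
  set W := wOf K with hW
  have hc3 := comp_c3 hK
  have hW4 := comp_card hK
  have hJK := comp_norm hK
  obtain ⟨d, hd, -, hdR⟩ := hc3.exists_gen
  set P := K ⊔ J with hP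
  have hPK : P ≤ Subgroup.normalizer (K : Set G) := P_norm hK
  have hPW : P ≤ Subgroup.normalizer (W : Set G) := hPK.trans C3.norm_wOf
  obtain ⟨S, hS, hJS⟩ := H23.exists_isSylowOf_ge (p := 2) (show J ≤ P from le_sup_right) (J_isPGroup hT)
  have hSJ : thompsonSubgroupOf 2 S = J := hK.2.2.2.1 S (isSylowTwoIn_iff.mpr hS) hJS
  have hS2 := hS.isPGroup
  -- the kernel on W
  set Y := P ⊓ Subgroup.centralizer (W : Set G) with hY
  have hY2 : IsPGroup 2 Y := y_isPGroup hK hT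
  have hPY : P ≤ Subgroup.normalizer (Y : Set G) := by
    intro g hg
    rw [Subgroup.mem_normalizer_iff]
    have key : ∀ g ∈ P, ∀ y ∈ Y, g * y * g⁻¹ ∈ Y := fun g hg y hy =>
      ⟨P.mul_mem (P.mul_mem hg hy.1) (P.inv_mem hg), conj_mem_centralizer (hPW hg) hy.2⟩
    intro y
    refine ⟨key g hg y, fun h => ?_⟩
    have := key g⁻¹ (P.inv_mem hg) _ h
    have e : g⁻¹ * (g * y * g⁻¹) * g⁻¹⁻¹ = y := by group
    rwa [e] at this
  have norm_le : ∀ N : Subgroup G, N ≤ P → P ≤ Subgroup.normalizer (N : Set G) → IsPGroup 2 N → N ≤ S := by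
    intro N hNP hPN hN
    have h1 : IsPGroup 2 (S ⊔ N : Subgroup G) := H18.isPGroup_sup_of_le_normalizer hS2 hN (hS.le.trans hPN)
    have h3 := IsSylowOf.eq_of_le hS (Q := S ⊔ N) le_sup_left (sup_le hS.le hNP) h1
    exact le_sup_right.trans h3.le
  have hYS : Y ≤ S := norm_le Y inf_le_left hPY hY2
  have hWY : W ≤ Y := by
    refine le_inf (C3.wOf_le.trans le_sup_left) fun w hw => ?_
    rw [Subgroup.mem_centralizer_iff]
    exact fun v hv => C3.wOf_comm' hw hv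
  have hRY : pCoreOf 2 K ≤ Y := by
    refine le_inf ((H18.pCoreOf_le K).trans le_sup_left) fun r hr => ?_
    rw [Subgroup.mem_centralizer_iff]
    exact fun w hw => (C3.wOf_comm hw hr).symm
  have hWS := hWY.trans hYS
  -- stars
  have hstar : ∀ A, H2.EAIn 2 T A → ¬ A ≤ Subgroup.centralizer (W : Set G) →
      H2.EAIn 2 S (W ⊔ (A ⊓ Subgroup.centralizer (W : Set G))) ∧
      W ⊔ (A ⊓ Subgroup.centralizer (W : Set G)) ≤ Y := by
    intro A hA hAW
    have hAJ : A ≤ J := hA.le_thompson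
    refine ⟨star hW4 C3.wOf_elem hWS (eaIn_of_eq hSJ hA) ((hAJ.trans le_sup_right).trans hPW) hAW, ?_⟩
    exact sup_le hWY (inf_le_inf_right _ (hAJ.trans le_sup_right))
  have hEY : ∀ B, H2.EAIn 2 S B → B ≤ Y → H2.EAIn 2 Y B := fun B hB hBY =>
    (hB.iff_of_le hBY hYS B).mpr ⟨hB, hBY⟩
  obtain ⟨A₀, hA₀, hA₀W⟩ := exists_not_le hK
  obtain ⟨hs1, hs2⟩ := hstar A₀ hA₀ hA₀W
  have hWJ : W ≤ J := by
    rw [← hSJ]
    exact le_sup_left.trans hs1.le_thompson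
  set JY := thompsonSubgroupOf 2 Y with hJY
  have hJYJ : JY ≤ J := by
    rw [← hSJ]
    exact H2.thompsonSubgroupOf_le_of_eaIn hs1 hs2 hYS
  have hPJY : P ≤ Subgroup.normalizer (JY : Set G) := hPY.trans (H2.normalizer_le_normalizer_thompson Y)
  set Z₁ := omegaCenterOf JY with hZ₁
  have hPZ₁ : P ≤ Subgroup.normalizer (Z₁ : Set G) := hPJY.trans (norm_oz _)
  have hZZ : Z₀ ≤ Z₁ := by
    intro z hz
    rw [hZ₀, mem_oz] at hz
    rw [hZ₁, mem_oz]
    have h3 : z ∈ W ⊔ (A₀ ⊓ Subgroup.centralizer (W : Set G)) := by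
      apply hs1.mem_of_centralize (hJS hz.1) hz.2.2
      intro a ha
      exact hz.2.1 a (hSJ ▸ hs1.le_thompson ha)
    exact ⟨(hEY _ hs1 hs2).le_thompson h3, fun s hs => hz.2.1 s (hJYJ hs), hz.2.2⟩
  -- action on Z₁ / W
  have hcjZ : ∀ g ∈ P, ∀ z ∈ Z₁, g * z * g⁻¹ ∈ Z₁ := fun g hg z hz =>
    (Subgroup.mem_normalizer_iff.mp (hPZ₁ hg) z).mp hz
  have hcjW : ∀ g ∈ P, ∀ z ∈ W, g * z * g⁻¹ ∈ W := fun g hg z hz =>
    (Subgroup.mem_normalizer_iff.mp (hPW hg) z).mp hz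
  let D : Subgroup G :=
    { carrier := {g | g ∈ P ∧ ∀ z ∈ Z₁, g * z * g⁻¹ * z⁻¹ ∈ W}
      mul_mem' := by
        rintro a b ⟨ha, ha'⟩ ⟨hb, hb'⟩
        refine ⟨P.mul_mem ha hb, fun z hz => ?_⟩
        have h3 := W.mul_mem (ha' _ (hcjZ b hb z hz)) (hb' z hz)
        have e : a * (b * z * b⁻¹) * a⁻¹ * (b * z * b⁻¹)⁻¹ * (b * z * b⁻¹ * z⁻¹) = a * b * z * (a * b)⁻¹ * z⁻¹ := by
          group
        rwa [e] at h3
      one_mem' := ⟨P.one_mem, fun z hz => by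
        have e : (1 : G) * z * 1⁻¹ * z⁻¹ = 1 := by group
        rw [e]; exact W.one_mem⟩
      inv_mem' := by
        rintro a ⟨ha, ha'⟩
        refine ⟨P.inv_mem ha, fun z hz => ?_⟩
        have h3 := W.inv_mem (ha' _ (hcjZ a⁻¹ (P.inv_mem ha) z hz))
        have e : (a * (a⁻¹ * z * a⁻¹⁻¹) * a⁻¹ * (a⁻¹ * z * a⁻¹⁻¹)⁻¹)⁻¹ = a⁻¹ * z * a⁻¹⁻¹ * z⁻¹ := by group
        rwa [e] at h3 }
  have hDcj : ∀ g ∈ P, ∀ x ∈ D, g * x * g⁻¹ ∈ D := by
    rintro g hg x ⟨hx, hx'⟩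
    refine ⟨P.mul_mem (P.mul_mem hg hx) (P.inv_mem hg), fun z hz => ?_⟩
    have h3 := hcjW g hg _ (hx' _ (hcjZ g⁻¹ (P.inv_mem hg) z hz))
    have e : g * (x * (g⁻¹ * z * g⁻¹⁻¹) * x⁻¹ * (g⁻¹ * z * g⁻¹⁻¹)⁻¹) * g⁻¹ = g * x * g⁻¹ * z * (g * x * g⁻¹)⁻¹ * z⁻¹ := by
      group
    rwa [e] at h3
  have hJD : J ≤ D := by
    rw [hJ, H2.thompsonSubgroupOf_eq]
    refine sSup_le fun A hA a ha => ?_
    have hAJ : A ≤ J := hA.le_thompson
    refine ⟨le_sup_right (a := K) (hAJ ha), fun z hz => ?_⟩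
    have hz' := mem_oz.mp hz
    by_cases hAW : A ≤ Subgroup.centralizer (W : Set G)
    · have h3 : A ≤ JY := (hEY A (eaIn_of_eq hSJ hA) (le_inf (hAJ.trans le_sup_right) hAW)).le_thompson
      rw [hz'.2.1 a (h3 ha)]
      have e : z * a * a⁻¹ * z⁻¹ = 1 := by group
      rw [e]; exact W.one_mem
    · obtain ⟨h3, h4⟩ := hstar A hA hAW
      have h5 : z ∈ W ⊔ (A ⊓ Subgroup.centralizer (W : Set G)) := by
        apply h3.mem_of_centralize (hYS (H2.thompsonSubgroupOf_le 2 Y hz'.1)) hz'.2.2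
        intro b hb
        exact hz'.2.1 b ((hEY _ h3 h4).le_thompson hb)
      have hn : A ⊓ Subgroup.centralizer (W : Set G) ≤ Subgroup.normalizer (W : Set G) :=
        inf_le_left.trans ((hAJ.trans le_sup_right).trans hPW)
      rw [sup_comm, H18.mem_sup_iff_of_le_normalizer' hn] at h5
      obtain ⟨w, hw, b, hb, rfl⟩ := h5
      have hab : a * b = b * a := FF.EAIn_comm hA a ha b hb.1
      have e : a * (w * b) * a⁻¹ * (w * b)⁻¹ = (a * w * a⁻¹) * w⁻¹ := by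
        calc a * (w * b) * a⁻¹ * (w * b)⁻¹ = a * w * a⁻¹ * (a * b) * a⁻¹ * b⁻¹ * w⁻¹ := by group
          _ = _ := by rw [hab]; group
      rw [e]
      exact W.mul_mem (hcjW a (le_sup_right (a := K) (hAJ ha)) w hw) (W.inv_mem hw)
  have hKD : K ≤ D := by
    have h3 : ⁅K, J⁆ ≤ D := by
      rw [Subgroup.commutator_le]
      intro k hk j hj
      rw [commutatorElement_def]
      exact D.mul_mem (hDcj k (le_sup_left (a := K) hk) j (hJD hj)) (D.inv_mem (hJD hj))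
    have h4 : ⁅K, J⁆ = K := hK.2.1
    rwa [h4] at h3
  -- Z₀ and W
  have hYJ : Y ≤ Subgroup.normalizer (Z₀ : Set G) := by
    rw [hZ₀]
    refine le_trans ?_ (norm_oz _)
    rw [← hSJ]
    exact (hYS.trans Subgroup.le_normalizer).trans (H2.normalizer_le_normalizer_thompson S)
  have hZW : ∀ w ∈ W, (∀ j ∈ J, j * w = w * j) → w ∈ Z₀ := by
    intro w hw hc
    have h3 : w ∈ omegaCenterOf J := mem_oz.mpr ⟨hWJ hw, hc, C3.wOf_sq hw⟩
    rw [hZ₀]
    exact h3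
  have hlt : Z₀ ⊓ W ≠ W := by
    intro h3
    apply comp_not_le hK
    intro j hj
    rw [Subgroup.mem_centralizer_iff]
    intro w hw
    rw [SetLike.mem_coe, ← hW, ← h3] at hw
    have h4 : w ∈ Z₀ := hw.1
    rw [hZ₀, mem_oz] at h4
    exact (h4.2.1 j hj).symm
  have hWne : (⊥ : Subgroup G) < W := bot_lt_iff_ne_bot.mpr (comp_ne hK)
  obtain ⟨n, hn, hn1, hnJ⟩ := exists_fixed_mod (wOf_isPGroup K) (J_isPGroup hT) hWne (by
    rw [Subgroup.normalizer_eq_top_iff.mpr inferInstance]; exact le_top) ((show J ≤ P from le_sup_right).trans hPW) (by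
    rw [Subgroup.normalizer_eq_top_iff.mpr inferInstance]; exact le_top)
  have hnZ : n ∈ Z₀ ⊓ W := by
    refine ⟨hZW n hn fun j hj => ?_, hn⟩
    have h3 := Subgroup.mem_bot.mp (hnJ j hj)
    have h4 : j * n * j⁻¹ = n := (inv_mul_eq_one.mp h3).symm
    exact mul_inv_eq_iff_eq_mul.mp h4
  refine ⟨?_, ?_⟩
  · apply le_antisymm (card_lt_four hW4 inf_le_right hlt)
    rw [Nat.succ_le_iff, Finite.one_lt_card_iff_nontrivial, Subgroup.nontrivial_iff_ne_bot]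
    intro h3
    rw [h3] at hnZ
    exact hn1 hnZ
  apply le_antisymm (sup_le inf_le_left inf_le_left)
  intro z hz
  have hz' := hz
  rw [hZ₀, mem_oz] at hz'
  have hz1 := hZZ hz
  have hzY : z ∈ Y := H2.thompsonSubgroupOf_le 2 Y (mem_oz.mp hz1).1
  have hzW : ∀ w ∈ W, w * z = z * w := fun w hw => Subgroup.mem_centralizer_iff.mp hzY.2 w hw
  have hdP : d ∈ P := le_sup_left (a := K) hd
  -- find the fixed point of d on the coset
  obtain ⟨w, hw, hdc⟩ : ∃ w ∈ W, d * (z * w) * d⁻¹ = z * w := by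
    let f : ↥W → ↥W := fun w => ⟨w.1 * (d * w.1 * d⁻¹)⁻¹, W.mul_mem w.2 (W.inv_mem (hcjW d hdP _ w.2))⟩
    have hinj : Function.Injective f := by
      intro w v hwv
      have h3 : w.1 * (d * w.1 * d⁻¹)⁻¹ = v.1 * (d * v.1 * d⁻¹)⁻¹ := congrArg Subtype.val hwv
      have h4 : v.1⁻¹ * w.1 = (d * v.1 * d⁻¹)⁻¹ * (d * w.1 * d⁻¹) := by
        have h5 := congrArg (fun t => v.1⁻¹ * t * (d * w.1 * d⁻¹)) h3
        have e1 : v.1⁻¹ * (w.1 * (d * w.1 * d⁻¹)⁻¹) * (d * w.1 * d⁻¹) = v.1⁻¹ * w.1 := by group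
        have e2 : v.1⁻¹ * (v.1 * (d * v.1 * d⁻¹)⁻¹) * (d * w.1 * d⁻¹) = (d * v.1 * d⁻¹)⁻¹ * (d * w.1 * d⁻¹) := by group
        simp only [e1, e2] at h5
        exact h5
      have h5 : v.1⁻¹ * w.1 = 1 := by
        apply hc3.fpf hd hdR (W.mul_mem (W.inv_mem v.2) w.2)
        calc d * (v.1⁻¹ * w.1) = (d * v.1 * d⁻¹)⁻¹ * (d * w.1 * d⁻¹) * d := by group
          _ = _ := by rw [← h4]
      exact Subtype.ext (inv_mul_eq_one.mp h5).symm
    obtain ⟨w, hw⟩ := Finite.injective_iff_surjective.mp hinj ⟨d * z * d⁻¹ * z⁻¹, (hKD hd).2 z hz1⟩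
    have hw' : w.1 * (d * w.1 * d⁻¹)⁻¹ = d * z * d⁻¹ * z⁻¹ := congrArg Subtype.val hw
    refine ⟨w.1, w.2, ?_⟩
    have h3 : d * z * d⁻¹ = (w.1 * (d * w.1 * d⁻¹)⁻¹) * z := by rw [hw']; group
    calc d * (z * w.1) * d⁻¹ = (d * z * d⁻¹) * (d * w.1 * d⁻¹) := by group
      _ = w.1 * (d * w.1 * d⁻¹)⁻¹ * (z * (d * w.1 * d⁻¹)) := by rw [h3]; group
      _ = w.1 * (d * w.1 * d⁻¹)⁻¹ * ((d * w.1 * d⁻¹) * z) := by rw [hzW _ (hcjW d hdP _ w.2)]
      _ = w.1 * z := by group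
      _ = _ := hzW _ w.2
  obtain ⟨c, hc⟩ : ∃ c, c = z * w := ⟨_, rfl⟩
  rw [← hc] at hdc
  have hcP : c ∈ P := by
    rw [hc]
    exact P.mul_mem hzY.1 (C3.wOf_le.trans le_sup_left hw)
  have hcW : ∀ v ∈ W, v * c = c * v := by
    intro v hv
    rw [hc, ← mul_assoc, hzW v hv, mul_assoc, C3.wOf_comm' hw hv, mul_assoc]
  -- Y centralizes c
  have hYc : ∀ y ∈ Y, y * c = c * y := by
    have hYW : ∀ y ∈ Y, ∀ v ∈ W, v * y = y * v := fun y hy v hv => Subgroup.mem_centralizer_iff.mp hy.2 v hv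
    have hmem : ∀ y ∈ Y, y * c * y⁻¹ * c⁻¹ ∈ Z₀ ⊓ W := by
      intro y hy
      constructor
      · have h3 : y * c * y⁻¹ * c⁻¹ = (y * z * y⁻¹) * z⁻¹ := by
          have h4 : w * y⁻¹ = y⁻¹ * w := hYW _ (Y.inv_mem hy) w hw
          calc y * c * y⁻¹ * c⁻¹ = y * z * (w * y⁻¹) * w⁻¹ * z⁻¹ := by rw [hc]; group
            _ = _ := by rw [h4]; group
        rw [h3]
        exact Z₀.mul_mem ((Subgroup.mem_normalizer_iff.mp (hYJ hy) z).mp hz) (Z₀.inv_mem hz)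
      · have h3 := (hKD.trans le_rfl : K ≤ D)
        have h4 : y * c * y⁻¹ * c⁻¹ = (y * z * y⁻¹) * z⁻¹ := by
          have h4 : w * y⁻¹ = y⁻¹ * w := hYW _ (Y.inv_mem hy) w hw
          calc y * c * y⁻¹ * c⁻¹ = y * z * (w * y⁻¹) * w⁻¹ * z⁻¹ := by rw [hc]; group
            _ = _ := by rw [h4]; group
        rw [h4]
        have h5 : P ≤ D := sup_le hKD hJD
        exact (h5 hy.1).2 z hz1
    let X : Subgroup G :=
      { carrier := {x | ∃ y ∈ Y, x = y * c * y⁻¹ * c⁻¹}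
        mul_mem' := by
          rintro _ _ ⟨a, ha, rfl⟩ ⟨b, hb, rfl⟩
          refine ⟨b * a, Y.mul_mem hb ha, ?_⟩
          have h3 := hYW b⁻¹ (Y.inv_mem hb) _ (hmem a ha).2
          have h5 := hYW b hb _ (hmem a ha).2
          calc a * c * a⁻¹ * c⁻¹ * (b * c * b⁻¹ * c⁻¹) = (a * c * a⁻¹ * c⁻¹ * b) * c * b⁻¹ * c⁻¹ := by group
            _ = (b * (a * c * a⁻¹ * c⁻¹)) * c * b⁻¹ * c⁻¹ := by rw [h5]
            _ = _ := by group
        one_mem' := ⟨1, Y.one_mem, by group⟩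
        inv_mem' := by
          rintro _ ⟨a, ha, rfl⟩
          refine ⟨a⁻¹, Y.inv_mem ha, ?_⟩
          have h5 := hYW a ha _ (W.inv_mem (hmem a ha).2)
          calc (a * c * a⁻¹ * c⁻¹)⁻¹ = a⁻¹ * (a * (a * c * a⁻¹ * c⁻¹)⁻¹) := by group
            _ = a⁻¹ * ((a * c * a⁻¹ * c⁻¹)⁻¹ * a) := by rw [h5]
            _ = _ := by group }
    have hXW : X ≤ W := by
      rintro _ ⟨y, hy, rfl⟩
      exact (hmem y hy).2
    have hXd : ∀ x ∈ X, d * x * d⁻¹ ∈ X := by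
      rintro _ ⟨y, hy, rfl⟩
      refine ⟨d * y * d⁻¹, (Subgroup.mem_normalizer_iff.mp (hPY hdP) y).mp hy, ?_⟩
      have h3 : d⁻¹ * c * d = c := by
        have := congrArg (fun t => d⁻¹ * t * d) hdc
        have e : d⁻¹ * (d * c * d⁻¹) * d = c := by group
        simp only [e] at this
        exact this.symm
      calc d * (y * c * y⁻¹ * c⁻¹) * d⁻¹ = (d * y * d⁻¹) * (d * c * d⁻¹) * (d * y * d⁻¹)⁻¹ * (d * c * d⁻¹)⁻¹ := by group
        _ = _ := by rw [hdc]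
    rcases hc3.irr hW4 hd hdR hXW hXd with h3 | h3
    · intro y hy
      have h4 : y * c * y⁻¹ * c⁻¹ ∈ X := ⟨y, hy, rfl⟩
      rw [h3, Subgroup.mem_bot] at h4
      have h5 : y * c * y⁻¹ = c := mul_inv_eq_one.mp h4
      exact mul_inv_eq_iff_eq_mul.mp h5
    · exfalso
      apply hlt
      apply le_antisymm inf_le_right
      intro v hv
      have h4 : v ∈ X := by rw [h3]; exact hv
      obtain ⟨y, hy, rfl⟩ := h4
      exact hmem y hy
  have hKc : ∀ k ∈ K, k * c = c * k := by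
    have h3 : K ≤ Subgroup.centralizer ({c} : Set G) := by
      rw [← hc3.gen hd hdR]
      apply sup_le
      · intro r hr
        rw [Subgroup.mem_centralizer_singleton_iff]
        exact hYc r (hRY hr)
      · rw [Subgroup.zpowers_le, Subgroup.mem_centralizer_singleton_iff]
        exact mul_inv_eq_iff_eq_mul.mp hdc
    exact fun k hk => Subgroup.mem_centralizer_singleton_iff.mp (h3 hk)
  have hJc : ∀ j ∈ J, j * c = c * j := by
    intro j hj
    have hjw : j * w * j⁻¹ ∈ W := hcjW j (le_sup_right (a := K) hj) w hw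
    have hv : w⁻¹ * (j * w * j⁻¹) ∈ W := W.mul_mem (W.inv_mem hw) hjw
    have h3 : j * c * j⁻¹ = c * (w⁻¹ * (j * w * j⁻¹)) := by
      have h4 : j * z = z * j := hz'.2.1 j hj
      calc j * c * j⁻¹ = (j * z) * w * j⁻¹ := by rw [hc]; group
        _ = _ := by rw [h4, hc]; group
    have h5 : w⁻¹ * (j * w * j⁻¹) = 1 := by
      apply hc3.fpf hd hdR hv
      have h6 : w⁻¹ * (j * w * j⁻¹) = c⁻¹ * (j * c * j⁻¹) := by rw [h3]; group
      rw [h6]
      have h7 : j⁻¹ * d * j ∈ K := by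
        have := (Subgroup.mem_normalizer_iff.mp (Subgroup.inv_mem _ (hJK hj)) d).mp hd
        rwa [inv_inv] at this
      have h8 := hKc _ h7
      have h9 : d * (j * c * j⁻¹) = (j * c * j⁻¹) * d := by
        calc d * (j * c * j⁻¹) = j * ((j⁻¹ * d * j) * c) * j⁻¹ := by group
          _ = j * (c * (j⁻¹ * d * j)) * j⁻¹ := by rw [h8]
          _ = _ := by group
      have h10 : d * c⁻¹ = c⁻¹ * d := by
        have h11 : d * c = c * d := hKc d hd
        have e := congrArg (fun t => c⁻¹ * t * c⁻¹) h11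
        have e1 : c⁻¹ * (d * c) * c⁻¹ = c⁻¹ * d := by group
        have e2 : c⁻¹ * (c * d) * c⁻¹ = d * c⁻¹ := by group
        simp only [e1, e2] at e
        exact e.symm
      calc d * (c⁻¹ * (j * c * j⁻¹)) = (d * c⁻¹) * (j * c * j⁻¹) := by group
        _ = c⁻¹ * (d * (j * c * j⁻¹)) := by rw [h10]; group
        _ = c⁻¹ * (j * c * j⁻¹) * d := by rw [h9]; group
    rw [h5, mul_one] at h3
    exact mul_inv_eq_iff_eq_mul.mp h3
  have hwJ : ∀ j ∈ J, j * w = w * j := by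
    intro j hj
    have h3 : w = z⁻¹ * c := by rw [hc]; group
    have h4 : j * z = z * j := hz'.2.1 j hj
    have h5 : j * z⁻¹ = z⁻¹ * j := by
      have e := congrArg (fun t => z⁻¹ * t * z⁻¹) h4
      have e1 : z⁻¹ * (j * z) * z⁻¹ = z⁻¹ * j := by group
      have e2 : z⁻¹ * (z * j) * z⁻¹ = j * z⁻¹ := by group
      simp only [e1, e2] at e
      exact e.symm
    rw [h3, ← mul_assoc, h5, mul_assoc, hJc j hj, mul_assoc]
  have hwZ : w ∈ Z₀ := hZW w hw hwJ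
  have hcZ : c ∈ Z₀ := by rw [hc]; exact Z₀.mul_mem hz hwZ
  have hcC : c ∈ Subgroup.centralizer ((K : Set G) ⊔ (J : Set G)) := by
    rw [Subgroup.mem_centralizer_iff]
    rintro p (hp | hp)
    · exact hKc p hp
    · exact hJc p hp
  have hfin : z = c * w⁻¹ := by rw [hc]; group
  rw [hfin]
  exact Subgroup.mul_mem _ (Subgroup.mem_sup_left ⟨hcZ, hcP, hcC⟩)
    (Subgroup.mem_sup_right ⟨Z₀.inv_mem hwZ, W.inv_mem hw⟩)

end Cfsg.Agent.S2946
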