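import Cfsg.Statements.S2949
import Cfsg.Agent.H19.JC10

set_option autoImplicit false
set_option linter.style.haveILetI false
open Cfsg

namespace Cfsg.Agent.S2949

open Cfsg.Agent Cfsg.Agent.H19 Cfsg.Agent.H19.JC
open scoped commutatorElement

/-- Let G be a finite group of characteristic 2 type in which every 2-local subgroup is solvable and the centralizer of Ω₁(Z(S)) lies in N_G(S) for every Sylow 2-subgroup S; suppose O₂(G) = 1, fix a Sylow 2-subgroup S and a 2-local subgroup M containing N_G(J(S)) (J the Thompson subgroup generated by the elementary abelian 2-subgroups of largest order). For every T maximal (for the order of a largest elementary abelian subgroup, then the order of J(T), then the order of T) among the nontrivial 2-subgroups of M lying in a 2-local subgroup not inside M, there is a J(T)-component K not contained in M with J(T) the Thompson subgroup of every Sylow 2-subgroup of N_G(W_K) containing J(T), and O₂(⟨K, T⟩) ≠ 1. -/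
theorem result {G : Type*} [Group G] [Finite G] (hL : Cfsg.IsCharacteristicTwoType G) (hN : ∀ N : Subgroup G, Cfsg.IsTwoLocal N → Group.IsSolvable ↥N)
    (hZ : ∀ S : Sylow 2 G, Subgroup.centralizer (Cfsg.omegaCenterOf (S : Subgroup G) : Set G) ≤ Subgroup.normalizer ((S : Subgroup G) : Set G)) (hO : Cfsg.pCore 2 G = ⊥) (S : Sylow 2 G) (M : Subgroup G) (hM : Cfsg.IsTwoLocal M)
    (hMJ : Subgroup.normalizer (Cfsg.thompsonSubgroupOf 2 (S : Subgroup G) : Set G) ≤ M) (T : Subgroup G) (hT : T ∈ Cfsg.maxStraddlingTwoSubgroups M) :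
    (Cfsg.jComponentsOutside M T).Nonempty := by
  haveI h2 : Fact (Nat.Prime 2) := ⟨Nat.prime_two⟩
  have hG : HG G := ⟨hL, hN, hZ⟩
  have hS := isSylowOf_top_of_sylow S
  obtain ⟨hT2, hT1, hTM, L, hL2, hTL, hLM⟩ := hT.1
  have h5 := sylow_of_le hG hS hMJ hT hL2 hLM hTL
  obtain ⟨-, -, h6⟩ := max_all hG hS hMJ hT hL2 hLM h5 (H2.thompsonSubgroupOf_le 2 T)
  have hNJ := norm_J_le hG hS hMJ hT
  obtain ⟨K, hK, hKL, hKM⟩ : ∃ K : Subgroup G, Cfsg.IsJComponent T K ∧ K ≤ L ∧ ¬ K ≤ M := by
    by_contra hcon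
    push Not at hcon
    exact hLM (le_of_comps hG hT1 h6 (fun K hK hKL => hcon K hK hKL) hNJ)
  refine ⟨K, ⟨hK, ?_⟩, hKM, ?_⟩
  · intro S' hJS' hS'
    have hWl : Cfsg.IsTwoLocal (Subgroup.normalizer (wOf K : Set G)) := ⟨wOf K, wOf_isPGroup K, comp_ne hK, rfl⟩
    have hWM : ¬ Subgroup.normalizer (wOf K : Set G) ≤ M := fun h => hKM ((Subgroup.le_normalizer.trans C3.norm_wOf).trans h)
    exact (max_all hG hS hMJ hT hWl hWM (isSylowTwoIn_iff.mp hS') hJS').1
  · have hcL := two_local_char hG hL2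
    have hne := ne_bot_of hT1 hcL
    have hQT : pCoreOf 2 L ≤ T := by
      obtain ⟨S', hS'⟩ := h5
      rw [← hS']
      exact Subgroup.map_mono (H18.pCore_le_sylow S')
    have h7 : pCoreOf 2 L ≤ pCoreOf 2 (K ⊔ T) := by
      apply H18.le_pCoreOf (hQT.trans le_sup_right) _ (H18.isPGroup_pCoreOf _)
      exact (sup_le hKL hTL).trans (H18.le_normalizer_pCoreOf L)
    intro h8
    apply hne
    rw [eq_bot_iff, ← h8]
    exact h7

end Cfsg.Agent.S2949
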