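import Cfsg.Statements.S3305
import Cfsg.Agent.H2.Basic
import Cfsg.Agent.H20.SylowTools

set_option autoImplicit false
open Cfsg


namespace Cfsg.Agent.S3305


theorem aux {G : Type*} [Group G] [Finite G] (H : Subgroup G) [H.Normal] (S : Sylow 2 G)
    (X : Subgroup G) (hHX : H ≤ X)
    (hX : X.map (QuotientGroup.mk' H) ≤ (S : Subgroup G).map (QuotientGroup.mk' H)) :
    (∃ Q : Sylow 2 X, (Q : Subgroup X) = ((S : Subgroup G) ⊓ X).subgroupOf X) ∧
      ((S : Subgroup G) ⊓ X) ⊔ H = X := by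
  have hf : Fact (Nat.Prime 2) := ⟨Nat.prime_two⟩
  have h1 : ((S : Subgroup G) ⊓ X) ⊔ H = X := by
    apply le_antisymm (sup_le inf_le_right hHX)
    intro x hx
    obtain ⟨s, hs, hsx⟩ := hX ⟨x, hx, rfl⟩
    have h2 : s⁻¹ * x ∈ H := QuotientGroup.eq.mp hsx
    have h3 : s ∈ X := by
      have : x * (s⁻¹ * x)⁻¹ ∈ X := mul_mem hx (inv_mem (hHX h2))
      simpa using this
    have h4 : x = s * (s⁻¹ * x) := by group
    rw [h4]
    exact mul_mem (Subgroup.mem_sup_left ⟨hs, h3⟩) (Subgroup.mem_sup_right h2)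
  refine ⟨?_, h1⟩
  apply H2.exists_sylow_subgroupOf (S.isPGroup'.to_le inf_le_left)
  have h2 := H2.relIndex_sup_eq_relIndex_of_normal ((S : Subgroup G) ⊓ X) H
  rw [h1] at h2
  rw [h2]
  have h3 : ((S : Subgroup G) ⊓ X).relIndex H = (S : Subgroup G).relIndex H := by
    rw [← Subgroup.inf_relIndex_right, inf_assoc, inf_eq_right.mpr hHX, Subgroup.inf_relIndex_right]
  rw [h3]
  exact H2.not_dvd_relIndex_of_normal S H

/-- If any two distinct Sylow 2-subgroups of the finite group G intersect in a cyclic group, then the same holds in every quotient group G/H, H a normal subgroup of G. -/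
theorem result {G : Type*} [Group G] [Finite G]
    (hC : ∀ S T : Sylow 2 G, S ≠ T → IsCyclic ↥((S : Subgroup G) ⊓ (T : Subgroup G))) (H : Subgroup G) [H.Normal] :
    ∀ S T : Sylow 2 (G ⧸ H), S ≠ T → IsCyclic ↥((S : Subgroup (G ⧸ H)) ⊓ (T : Subgroup (G ⧸ H))) := by
  have hf : Fact (Nat.Prime 2) := ⟨Nat.prime_two⟩
  intro S T hST
  have hπ := QuotientGroup.mk'_surjective H
  obtain ⟨S', hS'⟩ := Sylow.mapSurjective_surjective hπ 2 S
  obtain ⟨T', hT'⟩ := Sylow.mapSurjective_surjective hπ 2 T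
  have hSm : (S' : Subgroup G).map (QuotientGroup.mk' H) = S := by rw [← hS']; rfl
  have hTm : (T' : Subgroup G).map (QuotientGroup.mk' H) = T := by rw [← hT']; rfl
  set X : Subgroup G := ((S : Subgroup (G ⧸ H)) ⊓ T).comap (QuotientGroup.mk' H) with hX
  have hHX : H ≤ X := by
    intro h hh
    rw [hX, Subgroup.mem_comap]
    have : QuotientGroup.mk' H h = 1 := (QuotientGroup.eq_one_iff h).mpr hh
    rw [this]; exact one_mem _
  have hXm : X.map (QuotientGroup.mk' H) = (S : Subgroup (G ⧸ H)) ⊓ T :=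
    Subgroup.map_comap_eq_self_of_surjective hπ _
  obtain ⟨⟨QS, hQS⟩, hS1⟩ := aux H S' X hHX (by rw [hXm, hSm]; exact inf_le_left)
  obtain ⟨⟨QT, hQT⟩, hT1⟩ := aux H T' X hHX (by rw [hXm, hTm]; exact inf_le_right)
  obtain ⟨x, hx⟩ := MulAction.exists_smul_eq X QT QS
  -- T'' = x • T'
  have hTm2 : ((x : G) • T' : Sylow 2 G).1.map (QuotientGroup.mk' H) = T := by
    have hxT : QuotientGroup.mk' H (x : G) ∈ (T : Subgroup (G ⧸ H)) := (Subgroup.mem_comap.mp x.2).2
    have hle : ((x : G) • T' : Sylow 2 G).1.map (QuotientGroup.mk' H) ≤ T := by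
      rintro _ ⟨_, ⟨t, ht, rfl⟩, rfl⟩
      have h1 : QuotientGroup.mk' H t ∈ (T : Subgroup (G ⧸ H)) := by rw [← hTm]; exact ⟨t, ht, rfl⟩
      have h2 : (QuotientGroup.mk' H) (MulAut.conj (x : G) t) = QuotientGroup.mk' H (x : G) * QuotientGroup.mk' H t * (QuotientGroup.mk' H (x : G))⁻¹ := by
        rw [MulAut.conj_apply, map_mul, map_mul, map_inv]
      change (QuotientGroup.mk' H) (MulAut.conj (x : G) t) ∈ (T : Subgroup (G ⧸ H))
      rw [h2]
      exact mul_mem (mul_mem hxT h1) (inv_mem hxT)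
    have h3 : ((Sylow.mapSurjective hπ ((x : G) • T') : Sylow 2 (G ⧸ H)) : Subgroup (G ⧸ H)) ≤ T := hle
    exact (Sylow.mapSurjective hπ ((x : G) • T')).is_maximal' T.isPGroup' h3 |>.symm
  have hne : S' ≠ (x : G) • T' := by
    intro h
    apply hST
    apply Sylow.ext
    rw [← hSm, h]; exact hTm2
  have hcyc := hC S' ((x : G) • T') hne
  have hle : (S' : Subgroup G) ⊓ X ≤ (S' : Subgroup G) ⊓ ((x : G) • T' : Sylow 2 G) := by
    rintro s ⟨hs1, hs2⟩
    refine ⟨hs1, ?_⟩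
    have h1 : (⟨s, hs2⟩ : X) ∈ (QS : Subgroup X) := by
      rw [hQS, Subgroup.mem_subgroupOf]; exact ⟨hs1, hs2⟩
    rw [← hx] at h1
    obtain ⟨t, ht, hts⟩ := h1
    have ht' : (t : G) ∈ T' := by
      have : t ∈ (QT : Subgroup X) := ht
      rw [hQT, Subgroup.mem_subgroupOf] at this
      exact this.1
    refine ⟨t, ht', ?_⟩
    exact congrArg Subtype.val hts
  have h1 : IsCyclic ((S' : Subgroup G) ⊓ X : Subgroup G) :=
    isCyclic_of_injective (Subgroup.inclusion hle) (Subgroup.inclusion_injective hle)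
  have h2 : ((S' : Subgroup G) ⊓ X).map (QuotientGroup.mk' H) = (S : Subgroup (G ⧸ H)) ⊓ T := by
    rw [← hXm]
    conv_rhs => rw [← hS1]
    rw [Subgroup.map_sup]
    have : H.map (QuotientGroup.mk' H) = ⊥ := by
      rw [Subgroup.map_eq_bot_iff, QuotientGroup.ker_mk']
    rw [this, sup_bot_eq]
  rw [← h2]
  exact isCyclic_of_surjective ((QuotientGroup.mk' H).subgroupMap ((S' : Subgroup G) ⊓ X))
    (MonoidHom.subgroupMap_surjective _ _)


end Cfsg.Agent.S3305
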