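import Cfsg.Statements.S3303
import Cfsg.Agent.S3305
import Cfsg.Agent.H1.Chief

set_option autoImplicit false
open Cfsg


namespace Cfsg.Agent.S3303


theorem isPGroup_of_cyclic_pCore {G : Type*} [Group G] [Finite G]
    (hcyc : IsCyclic (pCore 2 G)) (hC : Subgroup.centralizer (pCore 2 G : Set G) ≤ pCore 2 G) :
    IsPGroup 2 G := by
  have hf : Fact (Nat.Prime 2) := ⟨Nat.prime_two⟩
  have hFn : (pCore 2 G).Normal := H1.pCore_normal 2 G
  obtain ⟨k, hk⟩ := IsPGroup.iff_card.mp (H1.pCore_isPGroup 2 G)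
  let φ : G →* MulAut (pCore 2 G) := MulAut.conjNormal
  have hker : φ.ker ≤ pCore 2 G := by
    refine le_trans ?_ hC
    intro x hx
    rw [Subgroup.mem_centralizer_iff]
    intro f hf
    have h1 := congrArg (fun a => ((a ⟨f, hf⟩ : pCore 2 G) : G)) (MonoidHom.mem_ker.mp hx)
    have h2 : x * f * x⁻¹ = f := h1
    exact (mul_inv_eq_iff_eq_mul.mp h2).symm
  have hkerp : IsPGroup 2 φ.ker := (H1.pCore_isPGroup 2 G).to_le hker
  obtain ⟨a, ha⟩ := IsPGroup.iff_card.mp hkerp
  have hidx : φ.ker.index ∣ 2 ^ k := by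
    rw [Subgroup.index_ker]
    refine (Subgroup.card_subgroup_dvd_card φ.range).trans ?_
    rw [IsCyclic.card_mulAut, hk]
    rcases Nat.eq_zero_or_pos k with h | h
    · rw [h]; simp
    · rw [Nat.totient_prime_pow Nat.prime_two h]
      simp only [Nat.add_one_sub_one, mul_one]
      exact pow_dvd_pow 2 (by omega)
  obtain ⟨b, -, hb⟩ := (Nat.dvd_prime_pow Nat.prime_two).mp hidx
  rw [IsPGroup.iff_card]
  exact ⟨b + a, by rw [← φ.ker.index_mul_card, hb, ha, pow_add]⟩

/-- Let G be a finite solvable group in which the intersection of any two distinct Sylow 2-subgroups is cyclic. Then G/O(G) has a normal Sylow 2-subgroup, where O(G) is the largest normal subgroup of odd order. -/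
theorem result {G : Type*} [Group G] [Finite G] (hs : Group.IsSolvable G)
    (hC : ∀ S T : Sylow 2 G, S ≠ T → IsCyclic ↥((S : Subgroup G) ⊓ (T : Subgroup G))) :
    ∃ P : Sylow 2 (G ⧸ Cfsg.oddCore G), (P : Subgroup (G ⧸ Cfsg.oddCore G)).Normal := by
  have hf : Fact (Nat.Prime 2) := ⟨Nat.prime_two⟩
  have hOn : (oddCore G).Normal := H1.pPrimeCore_normal 2 G
  have hs1 : Group.IsSolvable (G ⧸ oddCore G) := inferInstance
  have hC1 := Cfsg.Agent.S3305.result hC (oddCore G)
  have h1 : Subgroup.centralizer (pCore 2 (G ⧸ oddCore G) : Set (G ⧸ oddCore G)) ≤ pCore 2 (G ⧸ oddCore G) :=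
    H1.centralizer_pCore_le hs1 2 (H1.pPrimeCore_quotient_eq_bot 2)
  by_cases hall : ∀ S T : Sylow 2 (G ⧸ oddCore G), S = T
  · have hsub : Subsingleton (Sylow 2 (G ⧸ oddCore G)) := ⟨hall⟩
    exact ⟨default, Sylow.normal_of_subsingleton _⟩
  · push Not at hall
    obtain ⟨S, T, hST⟩ := hall
    have hle : pCore 2 (G ⧸ oddCore G) ≤ (S : Subgroup (G ⧸ oddCore G)) ⊓ T :=
      le_inf (H1.pCore_le_sylow S) (H1.pCore_le_sylow T)
    have hST' := hC1 S T hST
    have hcyc : IsCyclic (pCore 2 (G ⧸ oddCore G)) :=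
      isCyclic_of_injective (Subgroup.inclusion hle) (Subgroup.inclusion_injective hle)
    have hp := isPGroup_of_cyclic_pCore hcyc h1
    exfalso
    apply hST
    apply Sylow.ext
    have htop : ∀ U : Sylow 2 (G ⧸ oddCore G), (U : Subgroup (G ⧸ oddCore G)) = ⊤ := by
      intro U
      exact (U.is_maximal' (Q := ⊤) (hp.to_subgroup ⊤) le_top).symm
    rw [htop S, htop T]


end Cfsg.Agent.S3303
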