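import Cfsg.Statements.S4014
import Mathlib
import Cfsg.Agent.H2.Frat

set_option autoImplicit false
set_option linter.all false
open Cfsg

namespace Cfsg.Agent.S4014

open scoped commutatorElement in
open RegularWreathProduct in
/-- base lemma for the lower bound -/
theorem wreath_derived {D Q : Type*} [Group D] [Group Q] [Nontrivial Q] (j : ℕ)
    (h : derivedSeries D j ≠ ⊥) : derivedSeries (D ≀ᵣ Q) (j + 1) ≠ ⊥ := by
  classical
  obtain ⟨g, hg⟩ := exists_ne (1 : Q)
  let B : Subgroup (D ≀ᵣ Q) := commutator (D ≀ᵣ Q) ⊓ (rightHom : D ≀ᵣ Q →* Q).ker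
  have hBr : ∀ b : B, (b : D ≀ᵣ Q).right = 1 := fun b => by
    have := (Subgroup.mem_inf.1 b.2).2
    simpa [MonoidHom.mem_ker] using this
  let f : B →* D :=
    { toFun := fun b => (b : D ≀ᵣ Q).left 1
      map_one' := by simp
      map_mul' := fun a b => by
        have ha := hBr a
        simp [ha] }
  have hf : Function.Surjective f := by
    intro d
    let δ : D ≀ᵣ Q := ⟨Pi.mulSingle 1 d, 1⟩
    let γ : D ≀ᵣ Q := inl g
    have hc : ⁅δ, γ⁆ ∈ commutator (D ≀ᵣ Q) :=
      Subgroup.commutator_mem_commutator (Subgroup.mem_top _) (Subgroup.mem_top _)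
    have hk : ⁅δ, γ⁆ ∈ (rightHom : D ≀ᵣ Q →* Q).ker := by
      rw [MonoidHom.mem_ker]
      simp [commutatorElement_def, δ, γ]
    refine ⟨⟨⁅δ, γ⁆, hc, hk⟩, ?_⟩
    show (⁅δ, γ⁆ : D ≀ᵣ Q).left 1 = d
    simp [commutatorElement_def, δ, γ, hg, Pi.mulSingle_apply]
  have hsub : ∀ i, (derivedSeries B i).map B.subtype ≤ derivedSeries (D ≀ᵣ Q) (i + 1) := by
    intro i
    induction i with
    | zero =>
      simp only [derivedSeries_zero, zero_add, derivedSeries_one]
      rw [← MonoidHom.range_eq_map, Subgroup.range_subtype]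
      exact inf_le_left
    | succ i ih =>
      rw [derivedSeries_succ, Subgroup.map_commutator, derivedSeries_succ (D ≀ᵣ Q) (i+1)]
      exact Subgroup.commutator_mono ih ih
  intro h0
  apply h
  have h1 := hsub j
  rw [h0, le_bot_iff, Subgroup.map_eq_bot_iff_of_injective _ B.subtype_injective] at h1
  rw [← map_derivedSeries_eq hf j, h1, Subgroup.map_bot]

open RegularWreathProduct in
theorem exists_lower (p : ℕ) [hp : Fact p.Prime] (k : ℕ) :
    ∃ (D : Type) (_ : Group D) (_ : Finite D) (Λ : Type) (_ : MulAction D Λ)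
      (_ : FaithfulSMul D Λ), IsPGroup p D ∧ Nat.card Λ = p ^ (k + 1) ∧ derivedSeries D k ≠ ⊥ := by
  induction k with
  | zero =>
    refine ⟨Multiplicative (ZMod p), inferInstance, ?_, Multiplicative (ZMod p), inferInstance,
      inferInstance, ?_, ?_, ?_⟩
    · haveI : NeZero p := ⟨hp.out.ne_zero⟩
      infer_instance
    · exact IsPGroup.of_card (n := 1) (by simp)
    · simp
    · haveI : Fact (1 < p) := ⟨hp.out.one_lt⟩
      rw [derivedSeries_zero]
      exact top_ne_bot
  | succ k ih =>
    obtain ⟨D, _, _, Λ, _, _, hD, hΛ, hd⟩ := ih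
    haveI : NeZero p := ⟨hp.out.ne_zero⟩
    haveI : Fact (1 < p) := ⟨hp.out.one_lt⟩
    have hne : Nat.card Λ ≠ 0 := by rw [hΛ]; exact (pow_pos hp.out.pos _).ne'
    haveI : Nonempty Λ := (Nat.card_ne_zero.1 hne).1
    refine ⟨D ≀ᵣ Multiplicative (ZMod p), inferInstance, inferInstance,
      Λ × Multiplicative (ZMod p), inferInstance, inferInstance, ?_, ?_, wreath_derived k hd⟩
    · obtain ⟨m, hm⟩ := (IsPGroup.iff_card.1 hD)
      refine IsPGroup.of_card (n := m * p + 1) ?_
      rw [RegularWreathProduct.card, hm]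
      simp [pow_mul, pow_succ]
    · rw [Nat.card_prod, hΛ]
      simp [pow_succ]

theorem derived_le_map {G : Type*} [Group G] (M : Subgroup G) (hM : commutator G ≤ M) (j : ℕ) :
    derivedSeries G (j + 1) ≤ (derivedSeries M j).map M.subtype := by
  induction j with
  | zero =>
    simp only [derivedSeries_zero, zero_add, derivedSeries_one]
    rw [← MonoidHom.range_eq_map, Subgroup.range_subtype]
    exact hM
  | succ i ih =>
    rw [derivedSeries_succ, derivedSeries_succ M i, Subgroup.map_commutator]
    exact Subgroup.commutator_mono ih ih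

theorem derived_le_of_index (p : ℕ) [hp : Fact p.Prime] (k : ℕ) :
    ∀ {G : Type} [Group G] [Finite G] (_ : IsPGroup p G) (H : Subgroup G) (_ : H.index ≤ p ^ k),
      derivedSeries G k ≤ H := by
  induction k with
  | zero =>
    intro G _ _ hG H hH
    have h1 : H.index = 1 := by
      have : H.index ≠ 0 := Subgroup.index_ne_zero_of_finite
      have h2 : H.index ≤ 1 := by simpa using hH
      omega
    rw [Subgroup.index_eq_one.1 h1]
    exact le_top
  | succ k ih =>
    intro G _ _ hG H hH
    by_cases hT : H = ⊤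
    · rw [hT]; exact le_top
    obtain ⟨M, hM, hHM⟩ := (eq_top_or_exists_le_coatom H).resolve_left hT
    obtain ⟨hMi, hMn⟩ := Cfsg.Agent.H2.index_eq_of_isCoatom hG hM
    have hcM : commutator G ≤ M := Cfsg.Agent.H2.commutator_le_of_index_prime hMi
    have h1 := derived_le_map M hcM k
    have h2 : (H.subgroupOf M).index ≤ p ^ k := by
      have h3 : H.relIndex M * M.index = H.index := Subgroup.relIndex_mul_index hHM
      rw [hMi] at h3
      have h4 : H.relIndex M * p ≤ p ^ k * p := by rw [h3, ← pow_succ]; exact hH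
      exact Nat.le_of_mul_le_mul_right h4 hp.out.pos
    have h5 := ih (hG.to_subgroup M) (H.subgroupOf M) h2
    intro x hx
    obtain ⟨y, hy, rfl⟩ := Subgroup.mem_map.1 (h1 hx)
    have := h5 hy
    rwa [Subgroup.mem_subgroupOf] at this

/-- Let p be a prime, n ≥ 1, and P a Sylow p-subgroup of the symmetric group on n letters. Then the derived length of P is exactly k = ⌊log_p n⌋ (the largest k with p^k ≤ n): the k-th derived subgroup of P is trivial and, when k ≥ 1, the (k−1)-st is not. -/
theorem result (p : ℕ) [Fact p.Prime] (n : ℕ) (hn : 1 ≤ n) (P : Sylow p (Equiv.Perm (Fin n))) : derivedSeries ↥(P : Subgroup (Equiv.Perm (Fin n))) (Nat.log p n) = ⊥ ∧ (1 ≤ Nat.log p n → derivedSeries ↥(P : Subgroup (Equiv.Perm (Fin n))) (Nat.log p n - 1) ≠ ⊥) := by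
  haveI hp : Fact p.Prime := inferInstance
  constructor
  · rw [eq_bot_iff]
    intro g hg
    rw [Subgroup.mem_bot]
    apply Subtype.ext
    ext1 x
    have hidx : (MulAction.stabilizer ↥(P : Subgroup (Equiv.Perm (Fin n))) x).index ≤
        p ^ Nat.log p n := by
      have h1 : (MulAction.stabilizer ↥(P : Subgroup (Equiv.Perm (Fin n))) x).index ≤ n := by
        rw [MulAction.index_stabilizer]
        calc (MulAction.orbit _ x).ncard ≤ (Set.univ : Set (Fin n)).ncard :=
              Set.ncard_le_ncard (Set.subset_univ _) (Set.toFinite _)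
          _ = n := by simp [Set.ncard_univ]
      obtain ⟨j, hj⟩ := P.isPGroup'.index (MulAction.stabilizer _ x)
      rw [hj] at h1 ⊢
      exact Nat.pow_le_pow_right hp.out.pos
        ((Nat.le_log_iff_pow_le hp.out.one_lt (by omega)).2 h1)
    have := derived_le_of_index p _ P.isPGroup' _ hidx hg
    rw [MulAction.mem_stabilizer_iff] at this
    exact this
  · intro hk h0
    obtain ⟨D, _, _, Λ, _, _, hD, hΛ, hd⟩ := exists_lower p (Nat.log p n - 1)
    have hle : p ^ (Nat.log p n - 1 + 1) ≤ n := by
      rw [Nat.sub_add_cancel hk]; exact Nat.pow_log_le_self p (by omega)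
    haveI : Finite Λ := Nat.finite_of_card_ne_zero (by
      rw [hΛ]; exact (pow_pos hp.out.pos _).ne')
    have hemb : Nonempty (Λ ↪ Fin n) := by
      haveI := Fintype.ofFinite Λ
      apply Function.Embedding.nonempty_of_card_le
      rw [← Nat.card_eq_fintype_card, hΛ, Fintype.card_fin]
      exact hle
    obtain ⟨ι⟩ := hemb
    let f : D →* Equiv.Perm (Fin n) :=
      (Equiv.Perm.viaEmbeddingHom ι).comp (MulAction.toPermHom D Λ)
    have hf : Function.Injective f :=
      (Equiv.Perm.viaEmbeddingHom_injective ι).comp MulAction.toPerm_injective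
    have hr : IsPGroup p f.range := hD.of_surjective f.rangeRestrict f.rangeRestrict_surjective
    obtain ⟨Q, hQ⟩ := hr.exists_le_sylow
    let e : P ≃* Q := P.equiv Q
    have h1 : derivedSeries ↥(Q : Subgroup (Equiv.Perm (Fin n))) (Nat.log p n - 1) = ⊥ := by
      have h2 := map_derivedSeries_eq (f := e.toMonoidHom) e.surjective (Nat.log p n - 1)
      rw [← h2, h0, Subgroup.map_bot]
    let g : D →* ↥(Q : Subgroup (Equiv.Perm (Fin n))) :=
      f.codRestrict _ (fun d => hQ ⟨d, rfl⟩)
    have hg : Function.Injective g := fun a b hab => hf (congrArg Subtype.val hab)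
    apply hd
    have h3 := map_derivedSeries_le_derivedSeries g (Nat.log p n - 1)
    rw [h1, le_bot_iff, Subgroup.map_eq_bot_iff_of_injective _ hg] at h3
    exact h3

end Cfsg.Agent.S4014
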