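import Cfsg.Statements.S1147
import Cfsg.Agent.H20.ZS5

set_option autoImplicit false
open Cfsg


namespace Cfsg.Agent.S1147

open Cfsg.Agent.H20.Zass Cfsg.Agent.H20 MulAction in
/-- Let a finite simple Zassenhaus group `G` on `Ω` have a normal subgroup `U` of `G_a`, regular on `Ω` minus `a`, which is a non-abelian 2-group. Then `|Ω| = 2^(2n) + 1` with `n` odd, `n > 1`, a two-point stabiliser `G_a ⊓ G_b` is cyclic of order `2^n - 1`, and `U` is isomorphic to the type-A group over a field with `2^n` elements for some field automorphism `φ`. -/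
theorem result {G Ω : Type*} [Group G] [Finite G] [MulAction G Ω] [Finite Ω]
    (hZ : Cfsg.IsZassenhausGroup G Ω) [IsSimpleGroup G] {a b : Ω} (hab : a ≠ b)
    (U : Subgroup G) (hUle : U ≤ MulAction.stabilizer G a)
    (hUn : ∀ h ∈ MulAction.stabilizer G a, ∀ u ∈ U, h * u * h⁻¹ ∈ U)
    (hreg : ∀ c d : Ω, c ≠ a → d ≠ a → ∃! u : U, (u : G) • c = d)
    (hU2 : IsPGroup 2 U) (hUna : ∃ u ∈ U, ∃ v ∈ U, u * v ≠ v * u) :
    ∃ n : ℕ, Odd n ∧ 1 < n ∧ Nat.card Ω = 2 ^ (2 * n) + 1 ∧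
      IsCyclic ↥(MulAction.stabilizer G a ⊓ MulAction.stabilizer G b) ∧
      Nat.card ↥(MulAction.stabilizer G a ⊓ MulAction.stabilizer G b) = 2 ^ n - 1 ∧
      ∃ (F : Type) (_ : Field F) (_ : Fintype F) (φ : F ≃+* F), Fintype.card F = 2 ^ n ∧
        Nonempty (U ≃* Cfsg.suzukiTypeA F (φ : F →+* F)) := by
  have hU : U = K hZ a := eq_K_of_regular hZ hUle (fun c d hc hd => hreg c d hc hd)
  subst hU
  have hne : ∃ u v : K hZ a, u * v ≠ v * u := by
    obtain ⟨u, hu, v, hv, huv⟩ := hUna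
    exact ⟨⟨u, hu⟩, ⟨v, hv⟩, fun hc => huv (congrArg Subtype.val hc)⟩
  obtain ⟨n, hn, hn1, he, hK, h⟩ := suzuki_order hZ hab hU2 hne
  have hodd := h.odd a b hab
  have hcyc := (two_pt_cyclic hZ hab hodd (simple_no_complement hZ hodd)).1
  obtain ⟨F, instF, ρ, e, hsz, hcard, -⟩ := h.exists_isSz hab hU2
  haveI := hsz.finF
  letI : Fintype F := Fintype.ofFinite F
  have hF : Nat.card F = 2 ^ n := by
    rw [← hcard, he]
    have : 1 ≤ 2 ^ n := Nat.one_le_two_pow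
    omega
  obtain ⟨φ, -, -, hiso⟩ := hsz.typeA hne (by rw [hF]; exact hK)
  refine ⟨n, hn, hn1, ?_, hcyc, he, F, instF, inferInstance, φ, ?_, hiso⟩
  · rw [← card_K hZ a, hK, ← pow_mul, mul_comm n 2]
  · rw [← Nat.card_eq_fintype_card, hF]


end Cfsg.Agent.S1147
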