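import Cfsg.Statements.S4733
import Cfsg.Agent.H27.DefZero

set_option autoImplicit false
open Cfsg

namespace Cfsg.Agent.S4733

open Cfsg.Agent.H3 Cfsg.Agent.H11 Cfsg.Agent.H27
open scoped ComplexConjugate


/-- Let p be a prime, M a maximal ideal of the algebraic integers containing p, and B a p-block of the finite group G with k irreducible characters and p-regular rank l (the number of irreducible Brauer characters). Then l ≤ k, and the following are equivalent: B has defect 0; k = l = 1; k = l. -/
theorem result {G : Type*} [Group G] [Finite G] (p : ℕ) [Fact p.Prime] (M : Ideal Cfsg.AlgInt) (hM : Cfsg.IsPModular p M) (B : Set (Cfsg.IrrCharacter G)) (hB : Cfsg.IsPBlock M B) : Cfsg.blockRank p B ≤ Nat.card B ∧ (Cfsg.blockDefect p B = 0 ↔ (Nat.card B = 1 ∧ Cfsg.blockRank p B = 1)) ∧ (Cfsg.blockDefect p B = 0 ↔ Nat.card B = Cfsg.blockRank p B) := by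
  classical
  have := Fintype.ofFinite G
  have := Fintype.ofFinite (IrrCharacter G)
  have hpr := hM.2.1.isPrime
  have hne : B.Nonempty := isPBlock_nonempty hB
  have hle : blockRank p B ≤ Nat.card B := by
    unfold blockRank
    refine (finrank_span_le_card (R := ℂ) ((fun χ : IrrCharacter G => pRegularPart p (χ : G → ℂ)) '' B)).trans ?_
    rw [← Nat.card_eq_card_toFinset]
    exact Nat.card_image_le (Set.toFinite B)
  have h1 : blockDefect p B = 0 → (Nat.card B = 1 ∧ blockRank p B = 1) := by
    intro h0
    obtain ⟨χ, hχ⟩ := hne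
    have h2 := (blockDefect_eq_zero_iff ⟨χ, hχ⟩).mp h0 χ hχ
    have h3 : B = {χ} := by rw [isPBlock_eq_blockOf hB hχ]; exact blockOf_eq_singleton hM h2
    rw [h3]
    refine ⟨by simp, ?_⟩
    unfold blockRank
    rw [Set.image_singleton]
    apply finrank_span_singleton
    intro h4
    have h5 := congrFun h4 1
    unfold pRegularPart at h5
    rw [if_pos (by unfold IsPRegular; rw [orderOf_one]; exact hM.1.one_lt.ne' ∘ Nat.dvd_one.mp)] at h5
    exact irr_one_ne_zero χ.2 h5
  have h2 : Nat.card B = blockRank p B → blockDefect p B = 0 := by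
    intro h0
    have hli : LinearIndependent ℂ (fun χ : B => pRegularPart p ((χ : IrrCharacter G) : G → ℂ)) := by
      rw [linearIndependent_iff_card_eq_finrank_span, ← Nat.card_eq_fintype_card, h0]
      unfold blockRank Set.finrank
      rw [Set.image_eq_range]
    rw [blockDefect_eq_zero_iff hne]
    intro χ hχ
    apply fact_le_of_vanish χ.2
    intro h hh
    have h3 := Fintype.linearIndependent_iff.mp hli
      (fun ψ => conj (((ψ : IrrCharacter G) : G → ℂ) h)) ?_ ⟨χ, hχ⟩
    · simpa using h3
    · ext x
      simp only [Finset.sum_apply, Pi.smul_apply, smul_eq_mul, Pi.zero_apply]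
      by_cases hx : IsPRegular p x
      · have h4 := weak_block_orthogonality hM hB x h hx hh
        rw [finsum_mem_eq_finite_toFinset_sum _ (Set.toFinite B)] at h4
        rw [← h4, Finset.sum_subtype (Set.toFinite B).toFinset (p := fun χ => χ ∈ B) (by simp)]
        apply Finset.sum_congr rfl
        intro ψ _
        unfold pRegularPart
        rw [if_pos hx, mul_comm]
      · apply Finset.sum_eq_zero
        intro ψ _
        unfold pRegularPart
        rw [if_neg hx, mul_zero]
  refine ⟨hle, ⟨h1, fun h => h2 (by rw [h.1, h.2])⟩, ⟨fun h => ?_, h2⟩⟩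
  have := h1 h
  rw [this.1, this.2]

end Cfsg.Agent.S4733
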