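import Cfsg.Statements.S0678
import Mathlib
import Cfsg.Agent.H10.Perm20
import Cfsg.Agent.H10.Perm16
import Cfsg.Agent.H1.Basic

set_option autoImplicit false
open Cfsg

namespace Cfsg.Agent.S0678

theorem sq42 : Squarefree 42 := by
  rw [Nat.squarefree_iff_prime_squarefree]
  intro p hp h
  have : p < 7 := by
    by_contra hcon
    push Not at hcon
    have := Nat.le_of_dvd (by norm_num) h
    nlinarith
  interval_cases p <;> revert h <;> revert hp <;> decide

theorem sq210 : Squarefree 210 := by
  rw [Nat.squarefree_iff_prime_squarefree]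
  intro p hp h
  have : p < 15 := by
    by_contra hcon
    push Not at hcon
    have := Nat.le_of_dvd (by norm_num) h
    nlinarith
  interval_cases p <;> revert h <;> revert hp <;> decide

theorem arith (m : ℕ) (hm : m < 121) (h1 : 42 * m ∣ 5040) (h2 : ¬ 9 ∣ 42 * m) (h3 : ¬ 16 ∣ 42 * m) :
    m = 1 ∨ m = 2 ∨ m = 4 ∨ m = 5 ∨ m = 10 ∨ m = 20 := by
  interval_cases m <;> first
    | decide
    | (exfalso; revert h1; decide)
    | (exfalso; revert h2; decide)
    | (exfalso; revert h3; decide)

theorem order_eq {α : Type*} [Fintype α] [DecidableEq α] (hα : Fintype.card α = 7) (G : Subgroup (Equiv.Perm α)) [MulAction.IsPretransitive G α] (hG : ¬ Group.IsSolvable G) (hA : ¬ alternatingGroup α ≤ G) : Nat.card G = 168 := by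
  haveI hp : Fact (Nat.Prime 7) := ⟨by norm_num⟩
  haveI : MulAction.IsPreprimitive G α := MulAction.IsPreprimitive.of_prime_card (by rw [Nat.card_eq_fintype_card, hα]; exact hp.out)
  have h2 : MulAction.IsMultiplyPretransitive G α 2 :=
    (Cfsg.Agent.S0675.result (by rw [hα]; exact hp.out) G).resolve_left hG
  obtain ⟨P⟩ : Nonempty (Sylow 7 G) := inferInstance
  obtain ⟨-, -, d, hd, hN, hcard, hmod⟩ := Cfsg.Agent.H10.prime_sylow hα G P
  have hd1 : d ≠ 1 := by
    rintro rfl
    exact Cfsg.Agent.H10.prime_sylow_ne_one hα G hG P (by rw [hN])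
  have hperm : Nat.card (Equiv.Perm α) = 5040 := by
    rw [Nat.card_eq_fintype_card, Fintype.card_perm, hα]; rfl
  have hdvd : Nat.card G ∣ 5040 := by
    rw [← hperm]; exact Subgroup.card_subgroup_dvd_card G
  have h42 : 42 ∣ Nat.card G := by
    have := Cfsg.Agent.H10.two_trans_dvd h2 (by rw [hα]; norm_num)
    rwa [hα] at this
  obtain ⟨a, b, hab⟩ := Fintype.exists_pair_of_one_lt_card (show 1 < Fintype.card α by rw [hα]; norm_num)
  obtain ⟨c, hc⟩ : ∃ c, c ∉ ({a, b} : Finset α) := by
    by_contra hcon
    push Not at hcon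
    have : (Finset.univ : Finset α) ⊆ {a, b} := fun x _ => hcon x
    have h1 := Finset.card_le_card this
    rw [Finset.card_univ, hα, Finset.card_pair hab] at h1
    omega
  simp only [Finset.mem_insert, Finset.mem_singleton, not_or] at hc
  have h9 : ¬ 9 ∣ Nat.card G := by
    intro h
    haveI : Fact (Nat.Prime 3) := ⟨Nat.prime_three⟩
    have h3 : (Equiv.swap a b * Equiv.swap a c).IsThreeCycle :=
      Equiv.Perm.isThreeCycle_swap_mul_swap_same hab (Ne.symm hc.1) (Ne.symm hc.2)
    obtain ⟨y, hy⟩ := Cfsg.Agent.H10.conj_mem_of_full_sylow (q := 3) (k := 2) G h (by rw [hperm]; decide) h3.orderOf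
    apply hA
    apply Cfsg.Agent.H10.alt_le_of_small inferInstance hy
    · intro h1
      have h4 : y * (Equiv.swap a b * Equiv.swap a c) * y⁻¹ = 1 := h1
      have h5 : Equiv.swap a b * Equiv.swap a c = 1 := by
        rw [mul_inv_eq_one] at h4
        exact mul_eq_left.1 h4
      rw [h5] at h3
      have := h3.orderOf
      rw [orderOf_one] at this
      omega
    · rw [Equiv.Perm.card_support_conj, h3.card_support]
  have h16 : ¬ 16 ∣ Nat.card G := by
    intro h
    haveI : Fact (Nat.Prime 2) := ⟨Nat.prime_two⟩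
    have h3 : orderOf (Equiv.swap a b) = 2 := by
      apply orderOf_eq_prime
      · rw [pow_two, Equiv.swap_mul_self]
      · intro h1
        have := congrArg (fun f : Equiv.Perm α => f a) h1
        simp at this
        exact hab this.symm
    obtain ⟨y, hy⟩ := Cfsg.Agent.H10.conj_mem_of_full_sylow (q := 2) (k := 4) G h (by rw [hperm]; decide) h3
    apply hA
    apply Cfsg.Agent.H10.alt_le_of_small inferInstance hy
    · intro h1
      have h5 : Equiv.swap a b = 1 := by
        rw [mul_inv_eq_one] at h1
        exact mul_eq_left.1 h1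
      rw [h5, orderOf_one] at h3
      omega
    · rw [Equiv.Perm.card_support_conj, Equiv.Perm.card_support_swap hab]; norm_num
  obtain ⟨m, hm⟩ := h42
  have hm121 : m < 121 := by
    have := Nat.le_of_dvd (by norm_num) hdvd
    omega
  rw [hm] at hdvd h9 h16
  have hcases := arith m hm121 hdvd h9 h16
  have hsq : ¬ Squarefree (Nat.card G) := by
    intro h
    apply hG
    haveI := IsZGroup.of_squarefree h
    infer_instance
  have hd6 : d ≤ 6 := Nat.le_of_dvd (by norm_num) hd
  rcases hcases with rfl | rfl | rfl | rfl | rfl | rfl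
  · exact absurd sq42 (by rw [hm] at hsq; exact hsq)
  · exfalso
    rw [hm] at hcard
    interval_cases d <;> first | omega | (revert hd; decide)
  · exact hm
  · exact absurd sq210 (by rw [hm] at hsq; exact hsq)
  · exfalso
    rw [hm] at hcard
    interval_cases d <;> first | omega | (revert hd; decide)
  · exfalso
    rw [hm] at hcard
    interval_cases d <;> first | omega | (revert hd; decide)

/-- A non-solvable transitive permutation group on 7 points that does not contain the alternating group is a simple group of order 168. -/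
theorem result {α : Type*} [Fintype α] [DecidableEq α] (hα : Fintype.card α = 7) (G : Subgroup (Equiv.Perm α)) [MulAction.IsPretransitive G α] (hG : ¬ Group.IsSolvable G) (hA : ¬ alternatingGroup α ≤ G) : Nat.card G = 168 ∧ IsSimpleGroup G := by
  refine ⟨order_eq hα G hG hA, ?_⟩
  haveI hp : Fact (Nat.Prime 7) := ⟨by norm_num⟩
  have hcard := order_eq hα G hG hA
  haveI : MulAction.IsPreprimitive G α := MulAction.IsPreprimitive.of_prime_card (by rw [Nat.card_eq_fintype_card, hα]; exact hp.out)
  haveI : Nontrivial G := Finite.one_lt_card_iff_nontrivial.1 (by rw [hcard]; norm_num)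
  refine ⟨fun N hN => ?_⟩
  by_cases hNb : N = ⊥
  · exact Or.inl hNb
  right
  have ht := Cfsg.Agent.H22.isPretransitive_of_normal_of_primitive (G := G) (Ω := α) inferInstance N hN hNb
  -- transport N to a subgroup of Perm α
  obtain ⟨M, hM⟩ : ∃ M, M = N.map G.subtype := ⟨_, rfl⟩
  have e : N ≃* M := by
    rw [hM]; exact Subgroup.equivMapOfInjective N G.subtype G.subtype_injective
  haveI htM : MulAction.IsPretransitive M α := by
    refine ⟨fun x y => ?_⟩
    obtain ⟨⟨n, hn⟩, hnx⟩ := ht.exists_smul_eq x y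
    refine ⟨⟨(n : Equiv.Perm α), by rw [hM]; exact ⟨n, hn, rfl⟩⟩, hnx⟩
  by_cases hs : Group.IsSolvable M
  · exfalso
    -- G normalizes a Sylow 7-subgroup
    haveI := hs
    have hsN : Group.IsSolvable N := Group.isSolvable_of_isSolvable_injective (f := e.toMonoidHom) e.injective
    haveI : Nontrivial N := (Subgroup.nontrivial_iff_ne_bot N).2 hNb
    obtain ⟨q, A, hq, hAc, hAb, hAab, -⟩ := Cfsg.Agent.H1.exists_pgroup_characteristic_of_solvable N hsN
    obtain ⟨A', hA'⟩ : ∃ A', A' = A.map N.subtype := ⟨_, rfl⟩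
    have hA'n : A'.Normal := by
      rw [hA']; exact ConjAct.normal_of_characteristic_of_normal
    have hA'b : A' ≠ ⊥ := by
      rw [hA']
      intro h
      apply hAb
      exact (Subgroup.map_eq_bot_iff_of_injective A N.subtype_injective).1 h
    have hA't := Cfsg.Agent.H22.isPretransitive_of_normal_of_primitive (G := G) (Ω := α) inferInstance A' hA'n hA'b
    have hcomm : ∀ x ∈ A', ∀ y ∈ A', x * y = y * x := by
      rw [hA']
      rintro _ ⟨x, hx, rfl⟩ _ ⟨y, hy, rfl⟩
      have := hAab.is_comm.comm ⟨x, hx⟩ ⟨y, hy⟩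
      exact congrArg (fun z : A => ((z : N) : G)) this
    obtain ⟨a₀⟩ : Nonempty α := by rw [← Fintype.card_pos_iff, hα]; norm_num
    have h1 := Cfsg.Agent.H10.card_orb_mul (H := A') a₀
    have h2 : MulAction.stabilizer A' a₀ = ⊥ := by
      rw [eq_bot_iff]
      rintro ⟨x, hx⟩ hxa
      rw [Subgroup.mem_bot]
      apply Subtype.ext
      exact Cfsg.Agent.H21.eq_one_of_centralizes hA't (x := x) (fun n hn => hcomm n hn x hx) hxa
    rw [MulAction.orbit_eq_univ, Nat.card_coe_set_eq, Set.ncard_univ, Nat.card_eq_fintype_card, hα, h2, Subgroup.card_bot, mul_one] at h1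
    obtain ⟨P, hP⟩ := (IsPGroup.of_card (n := 1) (by rw [← h1, pow_one]) : IsPGroup 7 A').exists_le_sylow
    have hPc : Nat.card P = 7 := Cfsg.Agent.H10.card_sylow_eq hα G P
    have hPA : A' = (P : Subgroup G) := Subgroup.eq_of_le_of_card_ge hP (by rw [← h1]; exact hPc.le)
    obtain ⟨-, -, d, hd, hNd, -, -⟩ := Cfsg.Agent.H10.prime_sylow hα G P
    rw [← hPA, Subgroup.normalizer_eq_top, Subgroup.card_top, hcard] at hNd
    have hd6 : d ≤ 6 := Nat.le_of_dvd (by norm_num) hd
    omega
  · have hAM : ¬ alternatingGroup α ≤ M := by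
      intro h
      apply hA
      refine h.trans ?_
      rw [hM]
      rintro _ ⟨n, _, rfl⟩
      exact n.2
    have h1 := order_eq hα M hs hAM
    apply Subgroup.eq_top_of_card_eq
    rw [hcard, Nat.card_congr e.toEquiv, h1]

end Cfsg.Agent.S0678
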