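import Cfsg.Statements.S0730
import Mathlib
import Cfsg.Agent.H10.Perm30

set_option autoImplicit false
open Cfsg

namespace Cfsg.Agent.S0730



/-- A sharply triply transitive group of degree `p^f + 1`, `p` an odd prime and `f` odd, is isomorphic to the projective general linear group of degree 2 over the field with `p^f` elements (for even `f` there is a second, twisted, group). -/
theorem result {α : Type*} [Fintype α] [DecidableEq α] {p f : ℕ} (hp : p.Prime) (hp2 : p ≠ 2) (hfo : Odd f) (hα : Fintype.card α = p ^ f + 1) (G : Subgroup (Equiv.Perm α)) (h3 : MulAction.IsMultiplyPretransitive G α 3) (hsharp : ∀ x : Fin 3 ↪ α, MulAction.stabilizer G x = ⊥) : ∃ (F : Type) (_ : Field F) (_ : Fintype F), Fintype.card F = p ^ f ∧ Nonempty (G ≃* Matrix.ProjGenLinGroup (Fin 2) F) := by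
  classical
  open Cfsg.Agent.H10 Cfsg.Agent.H20 MulAction in
  have hN : Nat.card α = p ^ f + 1 := by rw [Nat.card_eq_fintype_card]; exact hα
  by_cases h5 : 5 ≤ Nat.card α
  · exact sharp3_pgl h3 hsharp hp hp2 hfo hN h5
  · have hf1 : 1 ≤ f := by obtain ⟨k, hk⟩ := hfo; omega
    have hp3 : 3 ≤ p := by
      have := hp.two_le
      omega
    have h1 : p ^ 1 ≤ p ^ f := Nat.pow_le_pow_right hp.pos hf1
    rw [pow_one] at h1
    have hp3' : p = 3 := by omega
    have hc4 : Fintype.card α = 4 := by omega
    subst hp3'
    have hpf : 3 ^ f = 3 := by omega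
    obtain ⟨e⟩ := perm_four_iso (α := α) hc4
    have hG : G = ⊤ := by
      rw [eq_top_iff]
      intro σ _
      have hpos : (Finset.univ : Finset α).card = 4 := hc4
      obtain ⟨a, ha⟩ := Finset.card_pos.1 (show 0 < (Finset.univ : Finset α).card by omega)
      have h3c : (Finset.univ.erase a : Finset α).card = 3 := by rw [Finset.card_erase_of_mem ha, hpos]
      obtain ⟨b, c, d, hbc, hbd, hcd, hS⟩ := Finset.card_eq_three.1 h3c
      have hab : a ≠ b := by
        have : b ∈ Finset.univ.erase a := by rw [hS]; simp
        exact (Finset.ne_of_mem_erase this).symm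
      have hac : a ≠ c := by
        have : c ∈ Finset.univ.erase a := by rw [hS]; simp
        exact (Finset.ne_of_mem_erase this).symm
      have had : a ≠ d := by
        have : d ∈ Finset.univ.erase a := by rw [hS]; simp
        exact (Finset.ne_of_mem_erase this).symm
      have hall : ∀ x : α, x = a ∨ x = b ∨ x = c ∨ x = d := by
        intro x
        by_cases hx : x = a
        · exact Or.inl hx
        · right
          have : x ∈ Finset.univ.erase a := Finset.mem_erase.2 ⟨hx, Finset.mem_univ _⟩
          rw [hS] at this
          simpa using this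
      obtain ⟨g, hga, hgb, hgc⟩ := sharp3_trans h3 hab hac hbc (σ.injective.ne hab) (σ.injective.ne hac) (σ.injective.ne hbc)
      have hga' : (g : Equiv.Perm α) a = σ a := hga
      have hgb' : (g : Equiv.Perm α) b = σ b := hgb
      have hgc' : (g : Equiv.Perm α) c = σ c := hgc
      have hgd : (g : Equiv.Perm α) d = σ d := by
        obtain ⟨e, he⟩ := σ.surjective ((g : Equiv.Perm α) d)
        rcases hall e with h | h | h | h
        · rw [h, ← hga'] at he
          exact absurd ((g : Equiv.Perm α).injective he) had
        · rw [h, ← hgb'] at he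
          exact absurd ((g : Equiv.Perm α).injective he) hbd
        · rw [h, ← hgc'] at he
          exact absurd ((g : Equiv.Perm α).injective he) hcd
        · rw [h] at he; exact he.symm
      have : σ = g := by
        ext x
        rcases hall x with rfl | rfl | rfl | rfl
        · exact hga'.symm
        · exact hgb'.symm
        · exact hgc'.symm
        · exact hgd.symm
      rw [this]; exact g.2
    subst hG
    exact ⟨ZMod 3, inferInstance, inferInstance, by rw [ZMod.card]; exact hpf.symm, ⟨Subgroup.topEquiv.trans e⟩⟩

end Cfsg.Agent.S0730
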