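import Cfsg.Statements.S0955
import Cfsg.Agent.H11.FirstMain
import Cfsg.Agent.H1.Cores
-- import your own Cfsg.Agent.* helpers here

set_option autoImplicit false
open Cfsg

namespace Cfsg.Agent.S0955

/-- Let D be a defect group of a block of the finite group G relative to a maximal ideal M of the algebraic integers containing the prime p. Then D is the largest normal p-subgroup of its own normalizer: O_p(N_G(D)) = D. -/
theorem result {G : Type*} [Group G] [Finite G] (p : ℕ) [Fact p.Prime] (M : Ideal Cfsg.AlgInt) (hM : Cfsg.IsPModular p M) (B : Set (Cfsg.IrrCharacter G)) (hB : Cfsg.IsPBlock M B) (D : Subgroup G) (hD : Cfsg.IsDefectGroup p M B D) : (Cfsg.pCore p (Subgroup.normalizer (D : Set G))).map (Subgroup.normalizer (D : Set G)).subtype = D := by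
  classical
  have := Fintype.ofFinite G
  have := Fintype.ofFinite (Subgroup.normalizer (D : Set G))
  have hDp := Cfsg.Agent.H11.IsDefectGroup.isPGroup hM hD
  obtain ⟨b, hDb, hb⟩ := Cfsg.Agent.H11.first_main_exists hM hB hD
  have hn1 : (Cfsg.pCore p (Subgroup.normalizer (D : Set G))).Normal := inferInstance
  have hn2 := Cfsg.Agent.H11.normal_subgroupOf (P := D) (H := Subgroup.normalizer (D : Set G)) le_rfl
  have h1 := Cfsg.Agent.H11.normal_le_defect hM hb.1 hDb (P := Cfsg.pCore p (Subgroup.normalizer (D : Set G)))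
    (Cfsg.Agent.H1.pCore_isPGroup p _)
  have h2 : D.subgroupOf (Subgroup.normalizer (D : Set G)) ≤ Cfsg.pCore p (Subgroup.normalizer (D : Set G)) :=
    Cfsg.Agent.H1.le_pCore hn2 (hDp.comap_subtype)
  rw [le_antisymm h1 h2]
  exact Subgroup.map_subgroupOf_eq_of_le (Cfsg.Agent.L.le_nz D)

end Cfsg.Agent.S0955
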