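import Cfsg.Statements.S0048
import Cfsg.Agent.H1.Chief

set_option autoImplicit false
open Cfsg

namespace Cfsg.Agent.S0048

/-- In a finite solvable group every maximal subgroup has index a prime power. -/
theorem result {G : Type*} [Group G] [Finite G] [Group.IsSolvable G]
    (M : Subgroup G) (hM : IsCoatom M) : IsPrimePow M.index := by
  set C := M.normalCore with hC
  have hCM : C ≤ M := M.normalCore_le
  have hClt : C < ⊤ := lt_of_le_of_lt hCM (lt_top_iff_ne_top.mpr hM.1)
  obtain ⟨A, hA, hCA, -, hch⟩ := Cfsg.Agent.H1.exists_chief_above (C := ⊤) inferInstance hClt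
  haveI := hA
  obtain ⟨-, p, hp, -, hpg⟩ := Cfsg.Agent.H1.chief_factor_solvable (Z := C) inferInstance hA hCA hch inferInstance
  haveI : Fact p.Prime := ⟨hp⟩
  have hAM : ¬ A ≤ M := fun h => not_le_of_gt hCA (Subgroup.normal_le_normalCore.mpr h)
  have hsup : A ⊔ M = ⊤ := by
    have h1 : M < A ⊔ M := lt_of_le_of_ne le_sup_right (fun h => hAM (h ▸ le_sup_left))
    exact hM.2 _ h1
  -- index of M divides |A : C|
  have h1 : M.relIndex A = M.index := by
    have h2 : Nat.card (A ⊔ M : Subgroup G) * Nat.card (A ⊓ M : Subgroup G) = Nat.card A * Nat.card M :=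
      Cfsg.Agent.H1.card_sup_mul_card_inf_of_le_normalizer Subgroup.le_normalizer_of_normal
    rw [hsup, Subgroup.card_top, ← M.card_mul_index] at h2
    have h3 := Cfsg.Agent.H1.card_mul_relIndex_aux (H := A) (K := A ⊓ M) inf_le_left
    rw [Subgroup.inf_relIndex_left] at h3
    rw [← h3] at h2
    have h4 : 0 < Nat.card M := Nat.card_pos
    have h5 : 0 < Nat.card (A ⊓ M : Subgroup G) := Nat.card_pos
    have h6 : (Nat.card M * Nat.card (A ⊓ M : Subgroup G)) * M.index =
        (Nat.card M * Nat.card (A ⊓ M : Subgroup G)) * M.relIndex A := by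
      calc _ = Nat.card M * M.index * Nat.card (A ⊓ M : Subgroup G) := by ring
        _ = _ := by rw [h2]; ring
    exact (Nat.eq_of_mul_eq_mul_left (Nat.mul_pos h4 h5) h6).symm
  have h2 : M.relIndex A ∣ C.relIndex A := Subgroup.relIndex_dvd_of_le_left A hCM
  have h3 : C.relIndex A = Nat.card (A.map (QuotientGroup.mk' C)) := (Cfsg.Agent.H1.card_map_mk' C A).symm
  obtain ⟨n, hn⟩ := (IsPGroup.iff_card).mp hpg
  rw [h1, h3, hn] at h2
  obtain ⟨k, hk, hk'⟩ := (Nat.dvd_prime_pow hp).mp h2
  have hk0 : k ≠ 0 := by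
    rintro rfl
    rw [pow_zero, Subgroup.index_eq_one] at hk'
    exact hM.1 hk'
  rw [hk']
  exact hp.isPrimePow.pow hk0

end Cfsg.Agent.S0048
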