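import Cfsg.Statements.S4333
import Cfsg.Agent.H23.Zipper
import Cfsg.Agent.H1.Basic

set_option autoImplicit false
open Pointwise
open Cfsg

namespace Cfsg.Agent.S4333

theorem smul_top' {G : Type*} [Group G] (x : G) : MulAut.conj x • (⊤ : Subgroup G) = ⊤ := by
  ext y
  rw [Subgroup.mem_pointwise_smul_iff_inv_smul_mem]
  exact ⟨fun _ => trivial, fun _ => trivial⟩

theorem aux (n : ℕ) : ∀ {G : Type*} [Group G] [Finite G], Nat.card G = n → ∀ (A : Subgroup G)
    (_ : ∀ a ∈ A, ∀ g : G, (A.subgroupOf (A ⊔ MulAut.conj (g⁻¹ * a * g) • A)).IsSubnormal),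
    A.IsSubnormal := by
  induction n using Nat.strong_induction_on with
  | _ n ih =>
    intro G _ _ hG A h
    by_contra hA
    -- subnormal in every proper subgroup
    have hprop : ∀ H : Subgroup G, A ≤ H → H ≠ ⊤ → (A.subgroupOf H).IsSubnormal := by
      intro H hAH hH
      have hlt : Nat.card H < n := by
        rw [← hG]
        refine lt_of_le_of_ne (Subgroup.card_le_card_group H) fun he => hH ?_
        exact Subgroup.eq_top_of_card_eq H he
      refine ih _ hlt rfl (A.subgroupOf H) ?_
      intro a ha g
      have h1 := h (a : G) ha (g : G)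
      set B : Subgroup G := A ⊔ MulAut.conj ((g : G)⁻¹ * a * g) • A with hB
      have hBH : B ≤ H := by
        refine sup_le hAH ?_
        intro x hx
        rw [Subgroup.mem_pointwise_smul_iff_inv_smul_mem] at hx
        have h2 := hAH hx
        have h3 : x = ((g : G)⁻¹ * a * g) * ((MulAut.conj ((g : G)⁻¹ * a * g))⁻¹ • x) *
            ((g : G)⁻¹ * a * g)⁻¹ := by
          simp only [MulAut.smul_def, MulAut.inv_apply, MulAut.conj_symm_apply]
          group
        rw [h3]
        have h4 : ((g : G)⁻¹ * a * g) ∈ H :=
          mul_mem (mul_mem (inv_mem g.2) a.2) g.2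
        exact mul_mem (mul_mem h4 h2) (inv_mem h4)
      have e1 : A.subgroupOf H ⊔ MulAut.conj (g⁻¹ * a * g) • A.subgroupOf H = B.subgroupOf H := by
        apply Subgroup.map_injective H.subtype_injective
        rw [Subgroup.map_sup, Subgroup.subgroupOf_map_subtype, inf_eq_left.2 hAH,
          Subgroup.subgroupOf_map_subtype, inf_eq_left.2 hBH, hB]
        congr 1
        ext x
        constructor
        · rintro ⟨y, hy, rfl⟩
          rw [SetLike.mem_coe, Subgroup.mem_pointwise_smul_iff_inv_smul_mem, Subgroup.mem_subgroupOf] at hy
          rw [Subgroup.mem_pointwise_smul_iff_inv_smul_mem]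
          exact hy
        · intro hx
          have hxH : x ∈ H := hBH ((le_sup_right : MulAut.conj ((g : G)⁻¹ * a * g) • A ≤ B) hx)
          refine ⟨⟨x, hxH⟩, ?_, rfl⟩
          rw [SetLike.mem_coe, Subgroup.mem_pointwise_smul_iff_inv_smul_mem, Subgroup.mem_subgroupOf]
          rw [Subgroup.mem_pointwise_smul_iff_inv_smul_mem] at hx
          exact hx
      rw [e1]
      -- transfer the subnormality
      let e : (B.subgroupOf H) ≃* B := Subgroup.subgroupOfEquivOfLe hBH
      have e2 : (A.subgroupOf B).map e.symm.toMonoidHom =
          (A.subgroupOf H).subgroupOf (B.subgroupOf H) := by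
        ext x
        constructor
        · rintro ⟨y, hy, rfl⟩
          exact hy
        · intro hx
          exact ⟨e x, hx, by simp⟩
      rw [← e2]
      exact Subgroup.IsSubnormal.map (f := e.symm.toMonoidHom) e.symm.surjective h1
    obtain ⟨M, hM, hNM, huniq⟩ := H23.zipper A hprop hA
    have hAM : A ≤ M := Subgroup.le_normalizer.trans hNM
    -- every proper subgroup containing `A` lies in `M`
    have hle : ∀ H : Subgroup G, A ≤ H → H ≠ ⊤ → H ≤ M := by
      intro H hAH hH
      obtain ⟨K, hK, hHK⟩ := (eq_top_or_exists_le_coatom H).resolve_left hH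
      rw [← huniq K hK (hAH.trans hHK)]; exact hHK
    by_cases hMn : M.Normal
    · exact hA (Subgroup.IsSubnormal.trans hAM (hprop M hAM hM.1) hMn.isSubnormal)
    -- some conjugate of an element of `A` is outside `M`
    have hex : ∃ a ∈ A, ∃ g : G, g⁻¹ * a * g ∉ M := by
      by_contra hcon
      push Not at hcon
      have hcl : Subgroup.normalClosure (A : Set G) ≤ M := by
        rw [Subgroup.normalClosure, Subgroup.closure_le]
        intro x hx
        rw [Group.mem_conjugatesOfSet_iff] at hx
        obtain ⟨a, ha, hax⟩ := hx
        obtain ⟨c, rfl⟩ := isConj_iff.1 hax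
        have := hcon a ha c⁻¹
        rwa [inv_inv] at this
      have hne : Subgroup.normalClosure (A : Set G) ≠ ⊤ := fun ht => hM.1 (top_le_iff.1 (ht ▸ hcl))
      exact hA (Subgroup.IsSubnormal.trans Subgroup.le_normalClosure
        (hprop _ Subgroup.le_normalClosure hne)
        (Subgroup.normalClosure_normal).isSubnormal)
    obtain ⟨a, ha, g, hg⟩ := hex
    set x := g⁻¹ * a * g with hx
    have h1 := h a ha g
    rw [← hx] at h1
    -- the join is everything
    have htop : A ⊔ MulAut.conj x • A = ⊤ := by
      by_contra hne
      have hJ := hle _ le_sup_left hne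
      have hAx : MulAut.conj x • A ≤ M := le_sup_right.trans hJ
      -- `M` is the unique maximal subgroup containing `A^x` as well
      have h2 : A ≤ MulAut.conj x⁻¹ • M := by
        intro y hy
        rw [Subgroup.mem_pointwise_smul_iff_inv_smul_mem]
        have : MulAut.conj x • y ∈ M := hAx (Subgroup.smul_mem_pointwise_smul _ _ _ hy)
        simpa using this
      have h3 : IsCoatom (MulAut.conj x⁻¹ • M) := by
        refine ⟨?_, ?_⟩
        · intro ht
          apply hM.1
          have : MulAut.conj x • MulAut.conj x⁻¹ • M = MulAut.conj x • (⊤ : Subgroup G) := by rw [ht]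
          rw [← mul_smul, ← map_mul, mul_inv_cancel, map_one, one_smul] at this
          rw [this]
          exact smul_top' x
        · intro K hK
          have h4 : M < MulAut.conj x • K := by
            have h5 : MulAut.conj x • MulAut.conj x⁻¹ • M = M := by
              rw [← mul_smul, ← map_mul, mul_inv_cancel, map_one, one_smul]
            rw [← h5]
            exact lt_iff_le_not_ge.2 ⟨Subgroup.pointwise_smul_le_pointwise_smul_iff.2 hK.le,
              fun hh => hK.not_ge (Subgroup.pointwise_smul_le_pointwise_smul_iff.1 hh)⟩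
          have h5 := hM.2 _ h4
          have h6 : MulAut.conj x⁻¹ • MulAut.conj x • K = MulAut.conj x⁻¹ • (⊤ : Subgroup G) := by
            rw [h5]
          rw [← mul_smul, ← map_mul, inv_mul_cancel, map_one, one_smul] at h6
          rw [h6]
          exact smul_top' x⁻¹
      have h4 := huniq _ h3 h2
      -- so `x` normalizes `M`
      have h5 : x⁻¹ ∈ Subgroup.normalizer (M : Set G) := H1.mem_normalizer_iff_conj_smul.2 h4
      have h6 : Subgroup.normalizer (M : Set G) = M := by
        rcases eq_or_ne (Subgroup.normalizer (M : Set G)) ⊤ with h7 | h7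
        · exact absurd (Subgroup.normalizer_eq_top_iff.1 h7) hMn
        · by_contra h8
          exact h7 (hM.2 _ (lt_of_le_of_ne Subgroup.le_normalizer (Ne.symm h8)))
      rw [h6] at h5
      exact hg (by simpa using inv_mem h5)
    rw [htop] at h1
    let e : (⊤ : Subgroup G) →* G := (Subgroup.topEquiv (G := G)).toMonoidHom
    have he : Function.Surjective e := (Subgroup.topEquiv (G := G)).surjective
    have hAe : A = (A.subgroupOf ⊤).map e := by
      ext y
      constructor
      · intro hy
        exact ⟨⟨y, trivial⟩, hy, rfl⟩
      · rintro ⟨z, hz, rfl⟩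
        exact hz
    apply hA
    rw [hAe]
    exact Subgroup.IsSubnormal.map he h1

/-- Let A be a subgroup of a finite group G. If A is subnormal in the subgroup generated by A and its conjugate by g⁻¹ a g, for every a ∈ A and every g ∈ G, then A is subnormal in G. (A sharpening of Wielandt's subnormality criterion: only conjugates of A by conjugates of elements of A are needed.) -/
theorem result {G : Type*} [Group G] [Finite G]
    (A : Subgroup G)
    (h : ∀ a ∈ A, ∀ g : G, (A.subgroupOf (A ⊔ MulAut.conj (g⁻¹ * a * g) • A)).IsSubnormal) :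
    A.IsSubnormal := aux _ rfl A h

end Cfsg.Agent.S4333
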