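import Cfsg.Statements.S0067
import Cfsg.Agent.S4333
import Cfsg.Agent.S0064
import Cfsg.Agent.S3743
import Cfsg.Agent.H1.Basic

set_option autoImplicit false
open Pointwise
open Cfsg
open scoped Pointwise commutatorElement

namespace Cfsg.Agent.S0067

/-- If the join of a subgroup A with each of its conjugates is nilpotent, then A is subnormal in the finite group and contained in the Fitting subgroup. -/
theorem result {G : Type*} [Group G] [Finite G] (A : Subgroup G)
    (h : ∀ g : G, Group.IsNilpotent (A ⊔ MulAut.conj g • A : Subgroup G)) : A.IsSubnormal ∧ A ≤ Cfsg.fittingSubgroup G := by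
    have h0 : A.IsSubnormal := by
      refine Cfsg.Agent.S4333.result A fun a _ g => ?_
      exact (Cfsg.Agent.S0064.result (G := ↥(A ⊔ MulAut.conj (g⁻¹ * a * g) • A))).1 (h _) _
    refine ⟨h0, (Cfsg.Agent.S3743.result A h0).1 ?_⟩
    exact Cfsg.Agent.H1.isNilpotent_of_le le_sup_left (h 1)

end Cfsg.Agent.S0067
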