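import Cfsg.Statements.S0256
import Mathlib
import Cfsg.Agent.H5.Exc6p
import Cfsg.Agent.H5.O6plus2

set_option autoImplicit false
open Cfsg

namespace Cfsg.Agent.S0256

/-- PSL_4(2) is isomorphic to A_8. -/
theorem result {F : Type*} [Field F] [Fintype F] (hF : Fintype.card F = 2) : Nonempty (Matrix.ProjectiveSpecialLinearGroup (Fin 4) F ≃* alternatingGroup (Fin 8)) := by
  obtain ⟨f, hf⟩ := Cfsg.Agent.H5.o6plus2 hF
  obtain ⟨e⟩ := Cfsg.Agent.H5.pom6p (F := F)
  have e1 := Cfsg.Agent.H5.quotCenterCongr (Cfsg.Agent.H5.commCongr (MulEquiv.ofBijective f hf))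
  have hcen : Subgroup.center (alternatingGroup (Fin 8)) = ⊥ := alternatingGroup.center_eq_bot (by simp)
  have hc : commutator (Equiv.Perm (Fin 8)) = alternatingGroup (Fin 8) := alternatingGroup.commutator_perm_eq (by simp)
  have e2 := Cfsg.Agent.H5.quotCenterCongr (MulEquiv.subgroupCongr hc)
  have e3 := (QuotientGroup.quotientMulEquivOfEq hcen).trans (QuotientGroup.quotientBot (G := alternatingGroup (Fin 8)))
  exact ⟨(e.symm.trans e1.symm).trans (e2.trans e3)⟩

end Cfsg.Agent.S0256
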