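import Cfsg.Statements.S0447
import Cfsg.Agent.H22.SpinAn
import Cfsg.Agent.H1.Gaschutz
import Cfsg.Agent.H1.Hall
import Cfsg.Agent.H1.Coprime

set_option autoImplicit false
set_option linter.all false
open Cfsg

namespace Cfsg.Agent.S0447

open Cfsg.Agent
open Equiv
open scoped commutatorElement

theorem inv_cycleType {n : ℕ} (hn : n ≤ 7) {σ : Perm (Fin n)} (hs : Perm.sign σ = 1) (h2 : σ ^ 2 = 1) (h1 : σ ≠ 1) :
    σ.cycleType = {2, 2} ∧ 4 ≤ n := by
  have ho : orderOf σ = 2 := orderOf_eq_prime h2 h1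
  obtain ⟨k, hk⟩ := Perm.cycleType_prime_order (σ := σ) (by rw [ho]; exact Nat.prime_two)
  rw [ho] at hk
  have h3 := Perm.sum_cycleType_le σ
  rw [hk, Multiset.sum_replicate, Fintype.card_fin, smul_eq_mul] at h3
  rw [Perm.sign_of_cycleType, hk, Multiset.sum_replicate, Multiset.card_replicate, smul_eq_mul] at hs
  have hk2 : k ≤ 2 := by omega
  have hk1 : k = 1 := by
    interval_cases k
    · exact absurd hs (by decide)
    · rfl
    · exact absurd hs (by decide)
  subst hk1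
  refine ⟨?_, by omega⟩
  rw [hk]; rfl

theorem conj_alt {n : ℕ} (hn : n ≤ 7) {σ τ : alternatingGroup (Fin n)} (hσ2 : σ ^ 2 = 1) (hσ : σ ≠ 1) (hτ2 : τ ^ 2 = 1)
    (hτ : τ ≠ 1) : ∃ c : alternatingGroup (Fin n), c * σ * c⁻¹ = τ := by
  obtain ⟨σ, hσs⟩ := σ
  obtain ⟨τ, hτs⟩ := τ
  have a2 : σ ^ 2 = 1 := congrArg Subtype.val hσ2
  have b2 : τ ^ 2 = 1 := congrArg Subtype.val hτ2
  have a1 : σ ≠ 1 := fun h => hσ (Subtype.ext h)
  have b1 : τ ≠ 1 := fun h => hτ (Subtype.ext h)
  rw [Perm.mem_alternatingGroup] at hσs hτs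
  have h1 := (inv_cycleType hn hσs a2 a1).1
  have h2 := (inv_cycleType hn hτs b2 b1).1
  obtain ⟨c, hc⟩ := isConj_iff.mp (Perm.isConj_iff_cycleType_eq.mpr (h1.trans h2.symm))
  rcases Int.units_eq_one_or (Perm.sign c) with h | h
  · exact ⟨⟨c, Perm.mem_alternatingGroup.mpr h⟩, Subtype.ext hc⟩
  · obtain ⟨a, ha⟩ : ∃ a, σ a ≠ a := by
      by_contra hno
      push Not at hno
      exact a1 (Perm.ext hno)
    have haa : σ (σ a) = a := by
      have := congrArg (fun f : Perm (Fin n) => f a) a2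
      simpa [pow_two] using this
    have hd : swap a (σ a) * σ * (swap a (σ a))⁻¹ = σ := by
      rw [mul_inv_eq_iff_eq_mul]
      have := mul_swap_eq_swap_mul σ a (σ a)
      rw [haa] at this
      rw [this, swap_comm a (σ a)]
    refine ⟨⟨c * swap a (σ a), ?_⟩, Subtype.ext ?_⟩
    · rw [Perm.mem_alternatingGroup, Perm.sign_mul, h, Perm.sign_swap ha.symm]; rfl
    · show c * swap a (σ a) * σ * (c * swap a (σ a))⁻¹ = τ
      rw [← hc]
      conv_rhs => rw [← hd]
      group

theorem build {H A : Type*} [Group H] [Finite H] [Group A] (q : H →* A) (hq : Function.Surjective q)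
    (hker : q.ker = Subgroup.center H) (hcard : Nat.card (Subgroup.center H) = 2)
    (hstar : ∀ h : H, q h ^ 2 = 1 → h ^ 2 = 1) (u v : A) (m : ℕ) (hm : m = 2 ∨ m = 4) (hu : u ^ 2 = 1) (hv : v ^ 2 = 1)
    (hu1 : u ∉ Subgroup.zpowers (u * v)) (hr : orderOf (u * v) = m) (hodd : ∃ k, Odd k ∧ Nat.card A = 2 * m * k) :
    ∃ L : Subgroup H, (Subgroup.center H).IsComplement' L := by
  obtain ⟨u', hu'⟩ := hq u
  obtain ⟨v', hv'⟩ := hq v
  have hu2 : u' ^ 2 = 1 := hstar u' (by rw [hu', hu])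
  have hv2 : v' ^ 2 = 1 := hstar v' (by rw [hv', hv])
  obtain ⟨r, hrd⟩ : ∃ r, r = u' * v' := ⟨_, rfl⟩
  have hqr : q r = u * v := by rw [hrd, map_mul, hu', hv']
  have hrm : r ^ m = 1 := by
    rcases hm with rfl | rfl
    · apply hstar
      rw [hqr, ← hr, pow_orderOf_eq_one]
    · have := hstar (r ^ 2) (by rw [map_pow, hqr, ← pow_mul, show 2 * 2 = orderOf (u * v) from hr.symm, pow_orderOf_eq_one])
      rwa [← pow_mul] at this
  have hord : orderOf r = m := by
    apply Nat.dvd_antisymm (orderOf_dvd_of_pow_eq_one hrm)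
    rw [← hr, ← hqr]
    exact orderOf_map_dvd q r
  have hu1' : u' ≠ 1 := by
    rintro rfl
    apply hu1
    rw [← hu', map_one]; exact one_mem _
  have hou : orderOf u' = 2 := orderOf_eq_prime hu2 hu1'
  have huinv : u'⁻¹ = u' := inv_eq_of_mul_eq_one_left (by rw [← pow_two, hu2])
  have hvinv : v'⁻¹ = v' := inv_eq_of_mul_eq_one_left (by rw [← pow_two, hv2])
  have hconj : u' * r * u'⁻¹ = r⁻¹ := by
    rw [hrd, mul_inv_rev, huinv, hvinv]
    calc u' * (u' * v') * u' = u' ^ 2 * (v' * u') := by simp only [pow_two, mul_assoc]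
      _ = _ := by rw [hu2, one_mul]
  have hfwd : ∀ h ∈ Subgroup.zpowers r, u' * h * u'⁻¹ ∈ Subgroup.zpowers r := by
    rintro _ ⟨k, rfl⟩
    show u' * r ^ k * u'⁻¹ ∈ _
    rw [← conj_zpow, hconj]
    exact Subgroup.zpow_mem _ (inv_mem (Subgroup.mem_zpowers r)) _
  have hnorm : Subgroup.zpowers u' ≤ Subgroup.normalizer (Subgroup.zpowers r : Set H) := by
    rw [Subgroup.zpowers_le, Subgroup.mem_normalizer_iff]
    intro h
    refine ⟨hfwd h, fun h' => ?_⟩
    have := hfwd _ h'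
    have e : u' * (u' * h * u'⁻¹) * u'⁻¹ = u' ^ 2 * h * (u' ^ 2)⁻¹ := by simp only [pow_two, mul_assoc, mul_inv_rev]
    rwa [e, hu2, inv_one, mul_one, one_mul] at this
  have hcases : ∀ j : ℤ, u' ^ j = 1 ∨ u' ^ j = u' := by
    intro j
    rcases Int.even_or_odd' j with ⟨k, rfl | rfl⟩
    · left
      rw [zpow_mul]
      have : u' ^ (2 : ℤ) = 1 := by exact_mod_cast hu2
      rw [this, one_zpow]
    · right
      rw [zpow_add, zpow_mul]
      have : u' ^ (2 : ℤ) = 1 := by exact_mod_cast hu2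
      rw [this, one_zpow, one_mul, zpow_one]
  have hinf : Subgroup.zpowers r ⊓ Subgroup.zpowers u' = ⊥ := by
    rw [eq_bot_iff]
    intro w hw
    obtain ⟨j, rfl⟩ := Subgroup.mem_zpowers_iff.mp (Subgroup.mem_inf.mp hw).2
    rcases hcases j with h | h
    · rw [h]; exact one_mem _
    · exfalso
      apply hu1
      have h1 := (Subgroup.mem_inf.mp hw).1
      rw [h] at h1
      obtain ⟨i, hi⟩ := Subgroup.mem_zpowers_iff.mp h1
      refine Subgroup.mem_zpowers_iff.mpr ⟨i, ?_⟩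
      rw [← hqr, ← map_zpow, hi, hu']
  have hcA := H1.card_sup_mul_card_inf_of_le_normalizer hnorm
  rw [hinf, Subgroup.card_bot, mul_one, Nat.card_zpowers, Nat.card_zpowers, hord, hou] at hcA
  obtain ⟨A', hA'⟩ : ∃ A', A' = Subgroup.zpowers r ⊔ Subgroup.zpowers u' := ⟨_, rfl⟩
  rw [← hA'] at hcA
  have hZA : A' ⊓ Subgroup.center H = ⊥ := by
    rw [eq_bot_iff]
    intro w hw
    have hw1 := (Subgroup.mem_inf.mp hw).1
    have hw2 : q w = 1 := by
      rw [← MonoidHom.mem_ker, hker]; exact (Subgroup.mem_inf.mp hw).2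
    rw [hA'] at hw1
    obtain ⟨a, ha, b, hb, rfl⟩ := (H1.mem_sup_iff_of_le_normalizer hnorm).mp hw1
    obtain ⟨i, rfl⟩ := Subgroup.mem_zpowers_iff.mp ha
    obtain ⟨j, rfl⟩ := Subgroup.mem_zpowers_iff.mp hb
    rcases hcases j with h | h
    · rw [h, mul_one, map_zpow, hqr] at hw2
      rw [h, mul_one]
      have h1 : ((m : ℕ) : ℤ) ∣ i := by rw [← hr]; exact orderOf_dvd_iff_zpow_eq_one.mpr hw2
      rw [← hord] at h1
      rw [Subgroup.mem_bot]
      exact orderOf_dvd_iff_zpow_eq_one.mp h1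
    · exfalso
      apply hu1
      rw [h, map_mul, map_zpow, hqr, hu'] at hw2
      refine Subgroup.mem_zpowers_iff.mpr ⟨-i, ?_⟩
      rw [zpow_neg]
      exact (eq_inv_of_mul_eq_one_right hw2).symm
  have hnU : A' ≤ Subgroup.normalizer ((Subgroup.center H : Subgroup H) : Set H) := le_trans le_top (Subgroup.normalizer_eq_top _).ge
  have hcU := H1.card_sup_mul_card_inf_of_le_normalizer hnU
  rw [inf_comm, hZA, Subgroup.card_bot, mul_one, hcard, hcA] at hcU
  obtain ⟨k, hk, hkA⟩ := hodd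
  have hH : Nat.card H = 2 * Nat.card A := by
    rw [← hcard, ← hker, ← Nat.card_congr (QuotientGroup.quotientKerEquivOfSurjective q hq).toEquiv, mul_comm]
    exact Subgroup.card_eq_card_quotient_mul_card_subgroup _
  have hidx := (Subgroup.center H ⊔ A').card_mul_index
  rw [hcU, hH, hkA] at hidx
  have hidx2 : (Subgroup.center H ⊔ A').index = k := by
    rcases hm with rfl | rfl <;> omega
  refine H1.gaschutz_exists (Subgroup.center H) (Subgroup.center H ⊔ A') A' le_sup_left ?_ le_sup_right hZA rfl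
  rw [hcard, hidx2]
  exact (Nat.coprime_two_left.mpr hk)

theorem sm {n : ℕ} {a b c d : Fin n} (h1 : a ≠ b) (h2 : c ≠ d) : swap a b * swap c d ∈ alternatingGroup (Fin n) := by
  rw [Perm.mem_alternatingGroup, Perm.sign_mul, Perm.sign_swap h1, Perm.sign_swap h2]; rfl

theorem build' {H A : Type*} [Group H] [Finite H] [Group A] [Finite A] [DecidableEq A] (q : H →* A) (hq : Function.Surjective q)
    (hker : q.ker = Subgroup.center H) (hcard : Nat.card (Subgroup.center H) = 2)
    (hstar : ∀ h : H, q h ^ 2 = 1 → h ^ 2 = 1) (u v : A) (m : ℕ) (hm : m = 2 ∨ m = 4) (hu : u ^ 2 = 1) (hv : v ^ 2 = 1)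
    (hr : orderOf (u * v) = m) (hu1 : ∀ i ∈ Finset.range m, (u * v) ^ i ≠ u) (hodd : ∃ k, Odd k ∧ Nat.card A = 2 * m * k) :
    ∃ L : Subgroup H, (Subgroup.center H).IsComplement' L := by
  refine build q hq hker hcard hstar u v m hm hu hv ?_ hr hodd
  rw [mem_zpowers_iff_mem_range_orderOf, hr, Finset.mem_image]
  rintro ⟨i, hi, h⟩
  exact hu1 i hi h

theorem card_A (n : ℕ) (hn : 2 ≤ n) : Nat.card (alternatingGroup (Fin n)) = n.factorial / 2 := by
  haveI : Nontrivial (Fin n) := Fin.nontrivial_iff_two_le.mpr hn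
  rw [nat_card_alternatingGroup, Nat.card_eq_fintype_card, Fintype.card_fin]

theorem part1 (n : ℕ) (H : Type*) [Group H] [Finite H] (hn : n ≤ 7) (hH : Cfsg.IsNonsplitDoubleCover H (alternatingGroup (Fin n)))
    (x : H) (hx : orderOf x = 2) : x ∈ Subgroup.center H := by
  by_contra hxc
  obtain ⟨hc, ⟨e⟩, hns⟩ := hH
  obtain ⟨q, hqd⟩ : ∃ q : H →* alternatingGroup (Fin n), q = e.toMonoidHom.comp (QuotientGroup.mk' (Subgroup.center H)) := ⟨_, rfl⟩
  have hq : Function.Surjective q := by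
    rw [hqd]; exact e.surjective.comp (QuotientGroup.mk'_surjective _)
  have hker : q.ker = Subgroup.center H := by
    ext y
    rw [MonoidHom.mem_ker, hqd]
    show e (QuotientGroup.mk' _ y) = 1 ↔ _
    rw [map_eq_one_iff e e.injective]
    exact QuotientGroup.eq_one_iff y
  have hZ : ∀ h ∈ Subgroup.center H, h ^ 2 = 1 := by
    intro h hh
    have h1 : (⟨h, hh⟩ : Subgroup.center H) ^ Nat.card (Subgroup.center H) = 1 := pow_card_eq_one'
    rw [hc] at h1
    exact congrArg Subtype.val h1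
  have hx1 : q x ≠ 1 := fun h => hxc (by rw [← hker, MonoidHom.mem_ker]; exact h)
  have hxx : x ^ 2 = 1 := by rw [← hx, pow_orderOf_eq_one]
  have hx2 : q x ^ 2 = 1 := by rw [← map_pow, hxx, map_one]
  have h4 : 4 ≤ n := (inv_cycleType hn (Perm.mem_alternatingGroup.mp (q x).2) (congrArg Subtype.val hx2)
    (fun h => hx1 (Subtype.ext h))).2
  have hstar : ∀ h : H, q h ^ 2 = 1 → h ^ 2 = 1 := by
    intro h hh
    by_cases h1 : q h = 1
    · exact hZ h (by rw [← hker, MonoidHom.mem_ker]; exact h1)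
    · obtain ⟨c, hcx⟩ := conj_alt hn hx2 hx1 hh h1
      obtain ⟨c', rfl⟩ := hq c
      have h2 : h * (c' * x * c'⁻¹)⁻¹ ∈ Subgroup.center H := by
        rw [← hker, MonoidHom.mem_ker, map_mul, map_inv, map_mul, map_mul, map_inv, hcx, mul_inv_cancel]
      obtain ⟨ζ, hζ⟩ : ∃ ζ, ζ = h * (c' * x * c'⁻¹)⁻¹ := ⟨_, rfl⟩
      rw [← hζ] at h2
      have h3 : h = ζ * (c' * x * c'⁻¹) := by rw [hζ]; group
      have h5 : Commute ζ (c' * x * c'⁻¹) := (Subgroup.mem_center_iff.mp h2 _).symm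
      rw [h3, h5.mul_pow, hZ ζ h2, one_mul, conj_pow, hxx, mul_one, mul_inv_cancel]
  have hfin : ∃ L : Subgroup H, (Subgroup.center H).IsComplement' L := by
    interval_cases n
    · refine build' q hq hker hc hstar ⟨swap 0 1 * swap 2 3, sm (by decide) (by decide)⟩ ⟨swap 0 2 * swap 1 3, sm (by decide) (by decide)⟩ 2 (Or.inl rfl)
        (by decide) (by decide) (orderOf_eq_prime (by decide) (by decide)) (by decide) ⟨3, by decide, ?_⟩
      rw [card_A 4 (by norm_num)]; rfl
    · refine build' q hq hker hc hstar ⟨swap 0 1 * swap 2 3, sm (by decide) (by decide)⟩ ⟨swap 0 2 * swap 1 3, sm (by decide) (by decide)⟩ 2 (Or.inl rfl)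
        (by decide) (by decide) (orderOf_eq_prime (by decide) (by decide)) (by decide) ⟨15, by decide, ?_⟩
      rw [card_A 5 (by norm_num)]; rfl
    · refine build' q hq hker hc hstar ⟨swap 0 2 * swap 4 5, sm (by decide) (by decide)⟩ ⟨swap 0 1 * swap 2 3, sm (by decide) (by decide)⟩ 4 (Or.inr rfl)
        (by decide) (by decide) (orderOf_eq_prime_pow (p := 2) (n := 1) (by decide) (by decide)) (by decide) ⟨45, by decide, ?_⟩
      rw [card_A 6 (by norm_num)]; rfl
    · refine build' q hq hker hc hstar ⟨swap 0 2 * swap 4 5, sm (by decide) (by decide)⟩ ⟨swap 0 1 * swap 2 3, sm (by decide) (by decide)⟩ 4 (Or.inr rfl)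
        (by decide) (by decide) (orderOf_eq_prime_pow (p := 2) (n := 1) (by decide) (by decide)) (by decide) ⟨315, by decide, ?_⟩
      rw [card_A 7 (by norm_num)]; rfl
  obtain ⟨L, hL⟩ := hfin
  exact hns L hL

open Cfsg.Agent.H22.SpinAn in
theorem center_Γ8 : Subgroup.center (Γ 8) = Subgroup.zpowers (z 8) := by
  apply le_antisymm
  · intro y hy
    rw [← φ_ker, MonoidHom.mem_ker]
    have h1 : φ 8 y ∈ Subgroup.center (alternatingGroup (Fin 8)) := by
      rw [Subgroup.mem_center_iff]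
      intro g
      obtain ⟨g', rfl⟩ := φ_surj 8 g
      rw [← map_mul, ← map_mul, Subgroup.mem_center_iff.mp hy]
    rw [alternatingGroup.center_eq_bot (by rw [Nat.card_eq_fintype_card, Fintype.card_fin]; norm_num)] at h1
    exact Subgroup.mem_bot.mp h1
  · rw [Subgroup.zpowers_le]
    exact z_central 8

theorem no_compl {H : Type*} [Group H] {z : H} (hz : Subgroup.center H = Subgroup.zpowers z) (hz1 : z ≠ 1) (hzc : z ∈ commutator H)
    (L : Subgroup H) : ¬ (Subgroup.center H).IsComplement' L := by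
  intro hL
  have h1 : commutator H ≤ L := by
    rw [commutator_def, Subgroup.commutator_le]
    intro a _ b _
    have ha : a ∈ Subgroup.center H ⊔ L := hL.sup_eq_top ▸ Subgroup.mem_top a
    have hb : b ∈ Subgroup.center H ⊔ L := hL.sup_eq_top ▸ Subgroup.mem_top b
    obtain ⟨c, hc, l, hl, rfl⟩ := Subgroup.mem_sup_of_normal_left.mp ha
    obtain ⟨d, hd, m, hm, rfl⟩ := Subgroup.mem_sup_of_normal_left.mp hb
    have hc' := Subgroup.mem_center_iff.mp hc
    have hd' := Subgroup.mem_center_iff.mp hd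
    have h2 : ⁅c * l, d * m⁆ = ⁅l, m⁆ := by
      rw [commutatorElement_def, commutatorElement_def, mul_inv_eq_iff_eq_mul, mul_inv_eq_iff_eq_mul]
      calc c * l * (d * m) = c * (l * d) * m := by simp only [mul_assoc]
        _ = c * d * (l * m) := by rw [hd' l]; simp only [mul_assoc]
        _ = c * d * (l * m * l⁻¹ * m⁻¹ * (m * l)) := by congr 1; group
        _ = (c * d) * (l * m * l⁻¹ * m⁻¹) * (m * l) := by simp only [mul_assoc]
        _ = (l * m * l⁻¹ * m⁻¹) * (c * d) * (m * l) := by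
            rw [← Subgroup.mem_center_iff.mp (mul_mem hc hd) (l * m * l⁻¹ * m⁻¹)]
        _ = (l * m * l⁻¹ * m⁻¹) * (d * c) * (m * l) := by rw [hc' d]
        _ = (l * m * l⁻¹ * m⁻¹) * (d * (c * m) * l) := by simp only [mul_assoc]
        _ = (l * m * l⁻¹ * m⁻¹) * (d * m * (c * l)) := by rw [← hc' m]; simp only [mul_assoc]
        _ = _ := by simp only [mul_assoc]
    rw [h2]
    exact L.mul_mem (L.mul_mem (L.mul_mem hl hm) (L.inv_mem hl)) (L.inv_mem hm)
  have h2 : z ∈ Subgroup.center H ⊓ L := Subgroup.mem_inf.mpr ⟨hz ▸ Subgroup.mem_zpowers z, h1 hzc⟩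
  rw [disjoint_iff.mp hL.disjoint] at h2
  exact hz1 (Subgroup.mem_bot.mp h2)

open Cfsg.Agent.H22.SpinAn in
theorem sq_aux : ((t (n := 8) 0 1 * t 2 3) * (t 4 5 * t 6 7)) * ((t 0 1 * t 2 3) * (t 4 5 * t 6 7)) = 1 := by
  have h1 : t (n := 8) 0 1 * t 2 3 = -(t 2 3 * t 0 1) := t_disj (by decide) (by decide) (by decide) (by decide) (by decide) (by decide)
  have h2 : t (n := 8) 4 5 * t 6 7 = -(t 6 7 * t 4 5) := t_disj (by decide) (by decide) (by decide) (by decide) (by decide) (by decide)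
  have h3 : t (n := 8) 4 5 * t 0 1 = -(t 0 1 * t 4 5) := t_disj (by decide) (by decide) (by decide) (by decide) (by decide) (by decide)
  have h4 : t (n := 8) 4 5 * t 2 3 = -(t 2 3 * t 4 5) := t_disj (by decide) (by decide) (by decide) (by decide) (by decide) (by decide)
  have h5 : t (n := 8) 6 7 * t 0 1 = -(t 0 1 * t 6 7) := t_disj (by decide) (by decide) (by decide) (by decide) (by decide) (by decide)
  have h6 : t (n := 8) 6 7 * t 2 3 = -(t 2 3 * t 6 7) := t_disj (by decide) (by decide) (by decide) (by decide) (by decide) (by decide)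
  have s1 : t (n := 8) 0 1 * t 0 1 = 1 := t_sq (by decide)
  have s2 : t (n := 8) 2 3 * t 2 3 = 1 := t_sq (by decide)
  have s3 : t (n := 8) 4 5 * t 4 5 = 1 := t_sq (by decide)
  have s4 : t (n := 8) 6 7 * t 6 7 = 1 := t_sq (by decide)
  obtain ⟨a, ha⟩ : ∃ a, a = t (n := 8) 0 1 := ⟨_, rfl⟩
  obtain ⟨b, hb⟩ : ∃ b, b = t (n := 8) 2 3 := ⟨_, rfl⟩
  obtain ⟨c, hc⟩ : ∃ c, c = t (n := 8) 4 5 := ⟨_, rfl⟩
  obtain ⟨d, hd⟩ : ∃ d, d = t (n := 8) 6 7 := ⟨_, rfl⟩
  rw [← ha, ← hb] at h1
  rw [← hc, ← hd] at h2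
  rw [← ha, ← hc] at h3
  rw [← hb, ← hc] at h4
  rw [← ha, ← hd] at h5
  rw [← hb, ← hd] at h6
  rw [← ha] at s1
  rw [← hb] at s2
  rw [← hc] at s3
  rw [← hd] at s4
  rw [← ha, ← hb, ← hc, ← hd]
  have k1 : a * b * (a * b) = -1 := by
    calc a * b * (a * b) = (a * b) * (-(b * a)) := by rw [← h1]
      _ = -(a * (b * b) * a) := by noncomm_ring
      _ = -1 := by rw [s2, mul_one, s1]
  have k2 : c * d * (c * d) = -1 := by
    calc c * d * (c * d) = (c * d) * (-(d * c)) := by rw [← h2]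
      _ = -(c * (d * d) * c) := by noncomm_ring
      _ = -1 := by rw [s4, mul_one, s3]
  have k3 : c * d * (a * b) = a * b * (c * d) := by
    calc c * d * (a * b) = c * (d * a) * b := by noncomm_ring
      _ = -((c * a) * (d * b)) := by rw [h5]; noncomm_ring
      _ = (a * c) * (d * b) := by rw [h3]; noncomm_ring
      _ = -(a * (c * b) * d) := by rw [h6]; noncomm_ring
      _ = _ := by rw [h4]; noncomm_ring
  calc a * b * (c * d) * (a * b * (c * d)) = a * b * (c * d * (a * b)) * (c * d) := by noncomm_ring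
    _ = (a * b * (a * b)) * (c * d * (c * d)) := by rw [k3]; noncomm_ring
    _ = 1 := by rw [k1, k2]; noncomm_ring

/-- Involutions in double covers of alternating groups: for n ≤ 7, a finite non-split double cover of the alternating group of degree n has exactly one element of order 2 (the central one); for degree 8 there is a non-split double cover with two distinct involutions. -/
theorem result : (∀ (n : ℕ) (H : Type) (_ : Group H) (_ : Finite H), n ≤ 7 → Cfsg.IsNonsplitDoubleCover H (alternatingGroup (Fin n)) → ∀ x y : H, orderOf x = 2 → orderOf y = 2 → x = y) ∧ ∃ (H : Type) (_ : Group H) (_ : Finite H), Cfsg.IsNonsplitDoubleCover H (alternatingGroup (Fin 8)) ∧ ∃ x y : H, x ≠ y ∧ orderOf x = 2 ∧ orderOf y = 2 := by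
  refine ⟨?_, ?_⟩
  · intro n H _ _ hn hH x y hx hy
    have h1 := part1 n H hn hH x hx
    have h2 := part1 n H hn hH y hy
    have hc := hH.1
    have h3 : x ∈ Subgroup.zpowers y := by
      have h4 : Subgroup.zpowers y = Subgroup.center H := by
        apply Subgroup.eq_of_le_of_card_ge (Subgroup.zpowers_le.mpr h2)
        rw [hc, Nat.card_zpowers, hy]
      rw [h4]; exact h1
    obtain ⟨j, hj⟩ := Subgroup.mem_zpowers_iff.mp h3
    have hy2 : y ^ (2 : ℤ) = 1 := by
      have := pow_orderOf_eq_one y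
      rw [hy] at this
      exact_mod_cast this
    rcases Int.even_or_odd' j with ⟨k, rfl | rfl⟩
    · rw [zpow_mul, hy2, one_zpow] at hj
      rw [← hj, orderOf_one] at hx
      exact absurd hx (by decide)
    · rw [zpow_add, zpow_mul, hy2, one_zpow, one_mul, zpow_one] at hj
      exact hj.symm
  · haveI := Cfsg.Agent.H22.SpinAn.finite_Γ 8
    refine ⟨Cfsg.Agent.H22.SpinAn.Γ 8, inferInstance, Cfsg.Agent.H22.SpinAn.finite_Γ 8, ⟨?_, ?_, ?_⟩, ?_⟩
    · rw [center_Γ8, Nat.card_zpowers, Cfsg.Agent.H22.SpinAn.z_order]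
    · have h1 : Subgroup.center (Cfsg.Agent.H22.SpinAn.Γ 8) = (Cfsg.Agent.H22.SpinAn.φ 8).ker := by
        rw [Cfsg.Agent.H22.SpinAn.φ_ker, center_Γ8]
      exact ⟨(QuotientGroup.quotientMulEquivOfEq h1).trans
        (QuotientGroup.quotientKerEquivOfSurjective _ (Cfsg.Agent.H22.SpinAn.φ_surj 8))⟩
    · exact no_compl center_Γ8 (Cfsg.Agent.H22.SpinAn.z_ne 8) (Cfsg.Agent.H22.SpinAn.z_comm (by norm_num))
    · obtain ⟨x, hx⟩ : ∃ x : Cfsg.Agent.H22.SpinAn.Γ 8, x = Cfsg.Agent.H22.SpinAn.tt 0 1 2 3 (by decide) (by decide) *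
        Cfsg.Agent.H22.SpinAn.tt 4 5 6 7 (by decide) (by decide) := ⟨_, rfl⟩
      have hφ : (Cfsg.Agent.H22.SpinAn.φ 8 x : Perm (Fin 8)) = (swap 0 1 * swap 2 3) * (swap 4 5 * swap 6 7) := by rw [hx]; rfl
      have hφ1 : Cfsg.Agent.H22.SpinAn.φ 8 x ≠ 1 := by
        intro h
        rw [h] at hφ
        exact absurd hφ (by decide)
      refine ⟨x, Cfsg.Agent.H22.SpinAn.z 8, ?_, ?_, Cfsg.Agent.H22.SpinAn.z_order 8⟩
      · intro h
        apply hφ1
        rw [h, ← MonoidHom.mem_ker, Cfsg.Agent.H22.SpinAn.φ_ker]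
        exact Subgroup.mem_zpowers _
      · apply orderOf_eq_prime
        · rw [pow_two, hx]
          apply Subtype.ext
          apply Prod.ext
          · ext
            exact sq_aux
          · show (swap 0 1 * swap 2 3) * (swap 4 5 * swap 6 7) * ((swap 0 1 * swap 2 3) * (swap 4 5 * swap 6 7)) = (1 : Perm (Fin 8))
            decide
        · rintro h
          apply hφ1
          rw [h, map_one]

end Cfsg.Agent.S0447
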