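import Cfsg.Statements.S0472
import Cfsg.Agent.S1697
import Cfsg.Agent.S1696
import Cfsg.Agent.H7.SporFi23

set_option autoImplicit false
open Cfsg

namespace Cfsg.Agent.S0472

/-- The Fischer group of order 4089470473293004800 exists as a 3-transposition group: a simple group of that order generated by a conjugacy class of 31671 3-transpositions, the centraliser of each being a non-split double cover of a simple group of order 64561751654400. -/
theorem result : ∃ (G : Type) (_ : Group G) (_ : Finite G), Cfsg.IsFi23 G ∧ ∃ D : Set G, Cfsg.IsThreeTranspositionClass D ∧ Nat.card D = 31671 ∧ ∀ d ∈ D, ∃ (K : Type) (_ : Group K), Cfsg.IsFi22 K ∧ Cfsg.IsNonsplitDoubleCover (Subgroup.centralizer ({d} : Set G)) K := by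
  haveI : Finite Cfsg.Spor.Fi23 := Cfsg.Agent.H8.Fi23P.finite_and_card_le.1
  exact ⟨Cfsg.Spor.Fi23, inferInstance, inferInstance, Cfsg.Agent.S1697.result, _,
    Cfsg.Agent.H7.SporFi23.main.1, Cfsg.Agent.H7.SporFi23.main.2, fun d hd =>
    ⟨Cfsg.Spor.Fi22, inferInstance, Cfsg.Agent.S1696.result, Cfsg.Agent.H7.SporFi23.cover d hd⟩⟩

end Cfsg.Agent.S0472
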