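import Cfsg.Statements.S0514
import Cfsg.Agent.H2.Frobenius
import Cfsg.Agent.H20.AutTwo

set_option autoImplicit false
open Cfsg

namespace Cfsg.Agent.S0514

open Subgroup DihedralGroup

theorem two_unique {n : ℕ} [NeZero n] {a b : ZMod n} (ha : a + a = 0) (hb : b + b = 0) (ha0 : a ≠ 0) (hb0 : b ≠ 0) :
    a = b := by
  have key : ∀ c : ZMod n, c + c = 0 → c ≠ 0 → 2 * c.val = n := by
    intro c hc hc0
    have h1 : ((2 * c.val : ℕ) : ZMod n) = 0 := by
      push_cast
      rw [ZMod.natCast_zmod_val, two_mul]; exact hc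
    rw [ZMod.natCast_eq_zero_iff] at h1
    obtain ⟨k, hk⟩ := h1
    have h2 := ZMod.val_lt c
    have h3 : 0 < c.val := by
      rw [Nat.pos_iff_ne_zero]
      intro h
      exact hc0 ((ZMod.val_eq_zero c).mp h)
    have h4 : k = 1 := by
      rcases k with _ | _ | k
      · omega
      · rfl
      · exfalso
        have : n * 2 ≤ n * (k + 1 + 1) := Nat.mul_le_mul_left n (by omega)
        omega
    rw [hk, h4, mul_one]
  apply ZMod.val_injective n
  have h1 := key a ha ha0
  have h2 := key b hb hb0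
  omega

theorem dih_four {n : ℕ} [NeZero n] (x y w : DihedralGroup n) (hx : x * x = 1) (hy : y * y = 1) (hw : w * w = 1)
    (hxy : x * y = y * x) (hxw : x * w = w * x) (hyw : y * w = w * y) (hx1 : x ≠ 1) (hy1 : y ≠ 1) (hne : x ≠ y) :
    w = 1 ∨ w = x ∨ w = y ∨ w = x * y := by
  have hc : ∀ a b : ZMod n, a + a = 0 → b + b = 0 → a = 0 ∨ b = 0 ∨ a = b := by
    intro a b ha hb
    by_cases h1 : a = 0
    · left; exact h1
    by_cases h2 : b = 0
    · right; left; exact h2
    · right; right; exact two_unique ha hb h1 h2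
  have rr : ∀ a b : ZMod n, (r a : DihedralGroup n) = r b ↔ a = b := fun a b => ⟨fun h => by injection h, fun h => by rw [h]⟩
  have ss : ∀ a b : ZMod n, (sr a : DihedralGroup n) = sr b ↔ a = b := fun a b => ⟨fun h => by injection h, fun h => by rw [h]⟩
  rcases x with a | a <;> rcases y with b | b <;> rcases w with c | c <;>
    simp only [r_mul_r, sr_mul_sr, r_mul_sr, sr_mul_r, one_def, rr, ss, sub_self, ne_eq, reduceCtorEq, false_or, or_false,
      not_false_eq_true] at *
  · -- r r r
    rcases hc a b hx hy with h | h | h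
    · exact absurd h hx1
    · exact absurd h hy1
    · exact absurd h hne
  · rcases hc a b hx hy with h | h | h
    · exact absurd h hx1
    · exact absurd h hy1
    · exact absurd h hne
  · -- r a, sr b, r c
    rcases hc a c hx hw with h | h | h
    · exact absurd h hx1
    · left; exact h
    · right; exact h.symm
  · -- r a, sr b, sr c
    have h1 : (c - b) + (c - b) = 0 := by linear_combination hyw
    rcases hc a (c - b) hx h1 with h | h | h
    · exact absurd h hx1
    · left; linear_combination h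
    · right
      have : c = a + b := by linear_combination -h
      rw [this]; linear_combination hx
  · -- sr a, r b, r c
    rcases hc b c hy hw with h | h | h
    · exact absurd h hy1
    · left; exact h
    · right; exact h.symm
  · -- sr a, r b, sr c
    have h1 : (c - a) + (c - a) = 0 := by linear_combination hxw
    rcases hc b (c - a) hy h1 with h | h | h
    · exact absurd h hy1
    · left; linear_combination h
    · right; linear_combination -h
  · -- sr a, sr b, r c
    have h1 : (b - a) + (b - a) = 0 := by linear_combination hxy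
    rcases hc (b - a) c h1 hw with h | h | h
    · exact absurd (by linear_combination -h) hne
    · left; exact h
    · right; exact h.symm
  · -- sr a, sr b, sr c
    have h1 : (b - a) + (b - a) = 0 := by linear_combination hxy
    have h2 : (c - a) + (c - a) = 0 := by linear_combination hxw
    rcases hc (b - a) (c - a) h1 h2 with h | h | h
    · exact absurd (by linear_combination -h) hne
    · left; linear_combination h
    · right; linear_combination -h

/-- elements of odd order acting on a cyclic 2-group act trivially -/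
theorem odd_centralizes_cyclic {X : Type*} [Group X] [Finite X] {R : Subgroup X} (hR : IsPGroup 2 R) (hc : IsCyclic R)
    {g : X} (hg : (orderOf g).Coprime 2) (hn : ∀ r ∈ R, g * r * g⁻¹ ∈ R) : ∀ r ∈ R, g * r * g⁻¹ = r := by
  have hA := Cfsg.Agent.H20.isPGroup_mulAut_of_isCyclic hR hc
  have hpow : ∀ k : ℕ, ∀ r ∈ R, g ^ k * r * (g ^ k)⁻¹ ∈ R := by
    intro k
    induction k with
    | zero => intro r hr; simpa using hr
    | succ k ih =>
      intro r hr
      have h1 := hn _ (ih r hr)
      have h2 : g ^ (k + 1) * r * (g ^ (k + 1))⁻¹ = g * (g ^ k * r * (g ^ k)⁻¹) * g⁻¹ := by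
        rw [pow_succ']; group
      rw [h2]; exact h1
  have hgn : g ∈ normalizer (R : Set X) := by
    rw [mem_normalizer_iff]
    intro r
    constructor
    · exact hn r
    · intro hr
      have h1 := hpow (orderOf g - 1) _ hr
      have h2 : g ^ (orderOf g - 1) = g⁻¹ := by
        rw [eq_inv_iff_mul_eq_one, ← pow_succ, Nat.sub_add_cancel (orderOf_pos g), pow_orderOf_eq_one]
      rw [h2] at h1
      have h3 : g⁻¹ * (g * r * g⁻¹) * g⁻¹⁻¹ = r := by group
      rwa [h3] at h1
  intro r hr
  let φ : MulAut R := R.normalizerMonoidHom ⟨g, hgn⟩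
  obtain ⟨k, hk⟩ := hA φ
  have h1 : orderOf φ ∣ 2 ^ k := orderOf_dvd_of_pow_eq_one hk
  have h2 : orderOf φ ∣ orderOf g := by
    have := orderOf_map_dvd R.normalizerMonoidHom (⟨g, hgn⟩ : normalizer (R : Set X))
    rwa [orderOf_mk] at this
  have h3 : orderOf φ = 1 := Nat.eq_one_of_dvd_coprimes (Nat.Coprime.pow_right k hg) h2 h1
  have h4 : φ = 1 := orderOf_eq_one_iff.mp h3
  have h5 := congrArg (fun ψ : MulAut R => ((ψ ⟨r, hr⟩ : R) : X)) h4
  exact h5

theorem main {X : Type*} [Group X] [Finite X] (n : ℕ) (hn : 2 ≤ n) (S : Subgroup X) (hS2 : IsPGroup 2 S)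
    (f : S ≃* DihedralGroup n) (t : X) (ht : orderOf t = 2) (htS : t ∈ S) (Q : Subgroup X) (hQS : Q ≤ S)
    (hQt : ∀ q ∈ Q, q * t = t * q) {g : X} (hg : (orderOf g).Coprime 2) (hgt : g * t = t * g)
    (hgQ : ∀ q ∈ Q, g * q * g⁻¹ ∈ Q) : ∀ q ∈ Q, g * q * g⁻¹ = q := by
  classical
  haveI : NeZero n := ⟨by omega⟩
  have htt : t * t = 1 := by rw [← pow_two, ← ht, pow_orderOf_eq_one]
  have ht1 : t ≠ 1 := by
    intro h
    rw [h, orderOf_one] at ht
    omega
  -- iteration
  have hiter : ∀ (q ρ : X), g * q * g⁻¹ = ρ * q → g * ρ * g⁻¹ = ρ → ∀ k : ℕ, g ^ k * q * (g ^ k)⁻¹ = ρ ^ k * q := by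
    intro q ρ h1 h2 k
    have h3 : ∀ k : ℕ, g * ρ ^ k * g⁻¹ = ρ ^ k := by
      intro k; rw [← conj_pow, h2]
    induction k with
    | zero => simp
    | succ k ih =>
      calc g ^ (k + 1) * q * (g ^ (k + 1))⁻¹ = g * (g ^ k * q * (g ^ k)⁻¹) * g⁻¹ := by rw [pow_succ']; group
        _ = g * (ρ ^ k * q) * g⁻¹ := by rw [ih]
        _ = (g * ρ ^ k * g⁻¹) * (g * q * g⁻¹) := by group
        _ = ρ ^ k * (ρ * q) := by rw [h3, h1]
        _ = ρ ^ (k + 1) * q := by rw [pow_succ, mul_assoc]
  have hfin : ∀ (q ρ : X), g * q * g⁻¹ = ρ * q → g * ρ * g⁻¹ = ρ → (∃ k, ρ ^ (2 ^ k) = 1) → g * q * g⁻¹ = q := by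
    intro q ρ h1 h2 ⟨k, hk⟩
    have h3 := hiter q ρ h1 h2 (orderOf g)
    rw [pow_orderOf_eq_one] at h3
    have h4 : ρ ^ orderOf g = 1 := by
      have h5 : ρ ^ orderOf g * q = 1 * q := by rw [← h3]; group
      exact mul_right_cancel h5
    have h5 : orderOf ρ = 1 :=
      Nat.eq_one_of_dvd_coprimes (Nat.Coprime.pow_right k hg) (orderOf_dvd_of_pow_eq_one h4) (orderOf_dvd_of_pow_eq_one hk)
    rw [orderOf_eq_one_iff.mp h5, one_mul] at h1
    exact h1
  by_cases hA : ∃ q0 ∈ Q, q0 * q0 ≠ 1
  · obtain ⟨q0, hq0, hq0n⟩ := hA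
    -- rotations
    let R0 : Subgroup X := ((zpowers (r 1 : DihedralGroup n)).comap f.toMonoidHom).map S.subtype
    have hR0 : ∀ x : X, x ∈ R0 ↔ ∃ (hx : x ∈ S) (i : ZMod n), f ⟨x, hx⟩ = r i := by
      intro x
      constructor
      · rintro ⟨y, hy, rfl⟩
        refine ⟨y.2, ?_⟩
        obtain ⟨k, hk⟩ := mem_zpowers_iff.mp (show f y ∈ zpowers (r 1 : DihedralGroup n) from hy)
        exact ⟨k, by rw [← r_one_zpow]; exact hk.symm⟩
      · rintro ⟨hx, i, hi⟩
        refine ⟨⟨x, hx⟩, ?_, rfl⟩
        change f ⟨x, hx⟩ ∈ zpowers (r 1 : DihedralGroup n)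
        rw [hi, mem_zpowers_iff]
        refine ⟨(i.val : ℤ), ?_⟩
        rw [r_one_zpow]
        congr 1
        simp
    have hR0S : R0 ≤ S := fun x hx => ((hR0 x).mp hx).1
    have f1 : ∀ x ∈ S, x * x ≠ 1 → x ∈ R0 := by
      intro x hx hxx
      rw [hR0]
      refine ⟨hx, ?_⟩
      rcases h : f ⟨x, hx⟩ with i | i
      · exact ⟨i, rfl⟩
      · exfalso
        apply hxx
        have h1 : f (⟨x, hx⟩ * ⟨x, hx⟩) = 1 := by rw [map_mul, h, sr_mul_self]
        have h2 : (⟨x, hx⟩ * ⟨x, hx⟩ : S) = 1 := by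
          rw [← map_one f] at h1
          exact f.injective h1
        exact congrArg Subtype.val h2
    have f2 : ∀ x ∈ S, ∀ y ∈ S, x ∉ R0 → y ∉ R0 → x * y ∈ R0 := by
      intro x hx y hy hxR hyR
      rw [hR0] at hxR hyR ⊢
      refine ⟨mul_mem hx hy, ?_⟩
      rcases h : f ⟨x, hx⟩ with i | i
      · exact absurd ⟨hx, i, h⟩ hxR
      rcases h' : f ⟨y, hy⟩ with j | j
      · exact absurd ⟨hy, j, h'⟩ hyR
      refine ⟨j - i, ?_⟩
      have : (⟨x * y, mul_mem hx hy⟩ : S) = ⟨x, hx⟩ * ⟨y, hy⟩ := rfl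
      rw [this, map_mul, h, h', sr_mul_sr]
    have f3 : ∀ x ∈ R0, ∀ y ∈ R0, x * y = y * x := by
      intro x hx y hy
      obtain ⟨hx', i, hi⟩ := (hR0 x).mp hx
      obtain ⟨hy', j, hj⟩ := (hR0 y).mp hy
      have h1 : f (⟨x, hx'⟩ * ⟨y, hy'⟩) = f (⟨y, hy'⟩ * ⟨x, hx'⟩) := by
        rw [map_mul, map_mul, hi, hj, r_mul_r, r_mul_r, add_comm]
      exact congrArg Subtype.val (f.injective h1)
    let R : Subgroup X := Q ⊓ R0
    have hq0R : q0 ∈ R0 := f1 q0 (hQS hq0) hq0n
    have hRg : ∀ x ∈ R, g * x * g⁻¹ ∈ R := by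
      have hbig : ∀ x ∈ Q, x * x ≠ 1 → g * x * g⁻¹ ∈ R := by
        intro x hx hxx
        refine Subgroup.mem_inf.mpr ⟨hgQ x hx, f1 _ (hQS (hgQ x hx)) ?_⟩
        intro h
        apply hxx
        have : g * (x * x) * g⁻¹ = 1 := by rw [← h]; group
        rw [mul_inv_eq_one, mul_eq_left] at this
        exact this
      intro x hx
      obtain ⟨hx1, hx2⟩ := Subgroup.mem_inf.mp hx
      by_cases hxx : x * x = 1
      · have h1 : x * q0 * (x * q0) ≠ 1 := by
          have h2 : x * q0 * (x * q0) = (x * x) * (q0 * q0) := by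
            calc x * q0 * (x * q0) = x * (q0 * x) * q0 := by group
              _ = x * (x * q0) * q0 := by rw [f3 q0 hq0R x hx2]
              _ = _ := by group
          rw [h2, hxx, one_mul]
          exact hq0n
        have h2 := hbig _ (mul_mem hx1 hq0) h1
        have h3 := hbig _ hq0 hq0n
        have h4 := mul_mem h2 (inv_mem h3)
        have h5 : g * (x * q0) * g⁻¹ * (g * q0 * g⁻¹)⁻¹ = g * x * g⁻¹ := by group
        rwa [h5] at h4
      · exact hbig x hx1 hxx
    have hRcyc : IsCyclic R := by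
      have h1 : IsCyclic R0 := by
        have h2 : IsCyclic ((zpowers (r 1 : DihedralGroup n)).comap f.toMonoidHom) := by
          apply isCyclic_of_injective ((f.toMonoidHom).subgroupComap (zpowers (r 1 : DihedralGroup n)))
          intro a b hab
          apply Subtype.ext
          exact f.injective (congrArg Subtype.val hab)
        exact isCyclic_of_surjective _ (Subgroup.equivMapOfInjective _ S.subtype S.subtype_injective).surjective
      exact isCyclic_of_injective (Subgroup.inclusion (inf_le_right : R ≤ R0)) (Subgroup.inclusion_injective _)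
    have hR2 : IsPGroup 2 R := hS2.to_le (inf_le_left.trans hQS)
    have hcen := odd_centralizes_cyclic hR2 hRcyc hg hRg
    intro q hq
    by_cases hqR : q ∈ R0
    · exact hcen q (Subgroup.mem_inf.mpr ⟨hq, hqR⟩)
    · -- reflection
      have hgq : g * q * g⁻¹ ∉ R0 := by
        intro h
        have h1 : g * q * g⁻¹ ∈ R := Subgroup.mem_inf.mpr ⟨hgQ q hq, h⟩
        have h2 := hcen _ h1
        have h3 : g * q * g⁻¹ = q := by
          have h4 : g * (g * q * g⁻¹) * g⁻¹ = g * q * g⁻¹ := h2
          exact mul_left_cancel (mul_right_cancel h4)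
        rw [h3] at h
        exact hqR h
      have hqi : q⁻¹ ∉ R0 := fun h => hqR (by simpa using inv_mem h)
      have hρ : g * q * g⁻¹ * q⁻¹ ∈ R :=
        Subgroup.mem_inf.mpr ⟨mul_mem (hgQ q hq) (inv_mem hq), f2 _ (hQS (hgQ q hq)) _ (inv_mem (hQS hq)) hgq hqi⟩
      apply hfin q (g * q * g⁻¹ * q⁻¹) (by group) (hcen _ hρ)
      obtain ⟨k, hk⟩ := hR2 ⟨_, hρ⟩
      exact ⟨k, congrArg Subtype.val hk⟩
  · push Not at hA
    intro q hq
    by_cases hq1 : q = 1
    · rw [hq1]; group
    by_cases hqt : q = t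
    · rw [hqt, hgt]; group
    have hq' := hgQ q hq
    have hq'1 : g * q * g⁻¹ ≠ 1 := by
      intro h
      rw [mul_inv_eq_one, mul_eq_left] at h
      exact hq1 h
    have hq't : g * q * g⁻¹ ≠ t := by
      intro h
      apply hqt
      have h1 : g * q = t * g := mul_inv_eq_iff_eq_mul.mp h
      rw [← hgt] at h1
      exact mul_left_cancel h1
    -- transport
    have hfm : ∀ x y : S, (x : X) * y = y * x → f x * f y = f y * f x := by
      intro x y h
      rw [← map_mul, ← map_mul]
      congr 1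
      exact Subtype.ext h
    have hfo : ∀ x : S, (x : X) * x = 1 → f x * f x = 1 := by
      intro x h
      rw [← map_mul, ← map_one f]
      congr 1
      exact Subtype.ext h
    have hqq' : q * (g * q * g⁻¹) = (g * q * g⁻¹) * q := by
      have h1 := hA _ (mul_mem hq hq')
      have h2 := hA _ hq
      have h3 := hA _ hq'
      -- (q q')² = 1, q² = q'² = 1
      have h4 : (g * q * g⁻¹) * q = q⁻¹ * (q * (g * q * g⁻¹) * (q * (g * q * g⁻¹))) * (g * q * g⁻¹)⁻¹ := by group
      rw [h4, h1, mul_one, inv_eq_of_mul_eq_one_left h2, inv_eq_of_mul_eq_one_left h3]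
    have h4 := dih_four (f ⟨t, htS⟩) (f ⟨q, hQS hq⟩) (f ⟨g * q * g⁻¹, hQS hq'⟩) (hfo ⟨t, htS⟩ htt)
      (hfo ⟨q, hQS hq⟩ (hA q hq)) (hfo ⟨_, hQS hq'⟩ (hA _ hq'))
      (hfm ⟨t, htS⟩ ⟨q, hQS hq⟩ (hQt q hq).symm) (hfm ⟨t, htS⟩ ⟨_, hQS hq'⟩ (hQt _ hq').symm)
      (hfm ⟨q, hQS hq⟩ ⟨_, hQS hq'⟩ hqq')
      (fun h => ht1 (congrArg Subtype.val (f.injective (h.trans (map_one f).symm))))
      (fun h => hq1 (congrArg Subtype.val (f.injective (h.trans (map_one f).symm))))
      (fun h => hqt (congrArg Subtype.val (f.injective h)).symm)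
    rcases h4 with h4 | h4 | h4 | h4
    · exact absurd (congrArg Subtype.val (f.injective (h4.trans (map_one f).symm))) hq'1
    · exact absurd (congrArg Subtype.val (f.injective h4)) hq't
    · exact congrArg Subtype.val (f.injective h4)
    · rw [← map_mul] at h4
      have h5 : g * q * g⁻¹ = t * q := congrArg Subtype.val (f.injective h4)
      apply hfin q t h5
      · rw [hgt]; group
      · exact ⟨1, by rw [pow_one, pow_two, htt]⟩

/-- In a finite group whose Sylow 2-subgroups are dihedral of order at least 4, the centralizer of any involution has a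
normal subgroup of odd order whose index in the centralizer is a power of 2. -/
theorem result {X : Type*} [Group X] [Finite X]
    (S : Sylow 2 X) (n : ℕ) (hn : 2 ≤ n) (hS : Nonempty ((S : Subgroup X) ≃* DihedralGroup n)) (t : X)
    (ht : orderOf t = 2) :
    ∃ N : Subgroup (Subgroup.centralizer ({t} : Set X)), N.Normal ∧ Odd (Nat.card N) ∧ ∃ k : ℕ, N.index = 2 ^ k := by
  classical
  haveI : Fact (Nat.Prime 2) := ⟨Nat.prime_two⟩
  obtain ⟨f⟩ := hS
  have h1 : Cfsg.HasNormalPComplement 2 (Subgroup.centralizer ({t} : Set X)) := by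
    apply Cfsg.Agent.H2.hasNormalPComplement_of_centralizer
    intro Q hQ g hg hgo
    -- the subgroup of X
    let Q' : Subgroup X := Q.map (Subgroup.centralizer ({t} : Set X)).subtype
    have hQ'2 : IsPGroup 2 Q' := hQ.map _
    have hQ't : ∀ q ∈ Q', q * t = t * q := by
      rintro _ ⟨q, _, rfl⟩
      exact Subgroup.mem_centralizer_singleton_iff.mp q.2
    have hzt : IsPGroup 2 (Subgroup.zpowers t) := IsPGroup.of_card (n := 1) (by rw [Nat.card_zpowers, ht, pow_one])
    have hsup : IsPGroup 2 (Q' ⊔ Subgroup.zpowers t : Subgroup X) := by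
      apply IsPGroup.to_sup_of_normal_right' hQ'2 hzt
      intro q hq
      rw [Subgroup.mem_normalizer_iff]
      have key : ∀ y, y ∈ Subgroup.zpowers t → q * y * q⁻¹ = y := by
        intro y hy
        obtain ⟨k, rfl⟩ := Subgroup.mem_zpowers_iff.mp hy
        have : Commute q (t ^ k) := (show Commute q t from hQ't q hq).zpow_right k
        rw [this.eq]; group
      intro y
      constructor
      · intro hy; rw [key y hy]; exact hy
      · intro hy
        obtain ⟨k, hk⟩ := Subgroup.mem_zpowers_iff.mp hy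
        have h2 : y = q⁻¹ * (t ^ k) * q := by rw [hk]; group
        have h3 : Commute q⁻¹ (t ^ k) := ((show Commute q t from hQ't q hq).zpow_right k).inv_left
        rw [h2, h3.eq]
        rw [inv_mul_cancel_right]
        exact Subgroup.zpow_mem_zpowers t k
    obtain ⟨S', hS'⟩ := hsup.exists_le_sylow
    have f' : (S' : Subgroup X) ≃* DihedralGroup n := (Sylow.equiv S' S).trans f
    have hgt : (g : X) * t = t * g := Subgroup.mem_centralizer_singleton_iff.mp g.2
    have h2 := main n hn (S' : Subgroup X) S'.isPGroup' f' t ht (hS' (Subgroup.mem_sup_right (Subgroup.mem_zpowers t))) Q'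
      (le_sup_left.trans hS') hQ't (g := (g : X)) (by rw [Subgroup.orderOf_coe]; exact hgo) hgt (by
        rintro _ ⟨q, hq, rfl⟩
        exact ⟨g * q * g⁻¹, (Subgroup.mem_normalizer_iff.mp hg q).mp hq, rfl⟩)
    rw [Subgroup.mem_centralizer_iff]
    intro q hq
    apply Subtype.ext
    have h3 := h2 (q : X) ⟨q, hq, rfl⟩
    rw [mul_inv_eq_iff_eq_mul] at h3
    exact h3.symm
  obtain ⟨P, N, hN, hc⟩ := h1
  refine ⟨N, hN, ?_, ?_⟩
  · have h2 := hc.index_eq_card
    -- N is a complement of a Sylow 2-subgroup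
    have h3 : ¬ 2 ∣ Nat.card N := by
      rw [← h2]
      exact P.not_dvd_index
    exact Nat.odd_iff.mpr (by omega)
  · rw [hc.symm.index_eq_card]
    exact IsPGroup.iff_card.mp P.isPGroup'

end Cfsg.Agent.S0514
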