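import Cfsg.Statements.S0508
import Cfsg.Agent.H9.BSWP
import Cfsg.Agent.S0514
import Cfsg.Agent.S1230
import Cfsg.Agent.S0252
import Cfsg.Agent.S0253
import Cfsg.Agent.H4.ZStarA

set_option autoImplicit false
open Cfsg

namespace Cfsg.Agent.S0508

open Cfsg.Agent.H9.BSW in
theorem aux_decomp {G : Type*} [Group G] [Finite G] (S : Sylow 2 G) (n : ℕ)
    (hn : 2 ≤ n) (hS : Nonempty ((S : Subgroup G) ≃* DihedralGroup n)) (t : G) (ht : orderOf t = 2)
    (hSC : (S : Subgroup G) ≤ Subgroup.centralizer ({t} : Set G)) (O : Subgroup G)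
    (hO : O = (Cfsg.oddCore (Subgroup.centralizer ({t} : Set G))).map (Subgroup.centralizer ({t} : Set G)).subtype) :
    ∀ g, g * t = t * g → ∃ o ∈ O, ∃ x ∈ (S : Subgroup G), g = o * x := by
  have h0 := Cfsg.Agent.S0514.result S n hn hS t ht
  set C := Subgroup.centralizer ({t} : Set G) with hC
  obtain ⟨N, hN, hNodd, k, hk⟩ := h0
  have h1 : N ≤ Cfsg.oddCore C := Cfsg.Agent.H4.le_oddCore hN hNodd
  have h2 : (Cfsg.oddCore C ⊔ (S : Subgroup G).subgroupOf C).index = 1 := by
    have h3 : (Cfsg.oddCore C ⊔ (S : Subgroup G).subgroupOf C).index ∣ N.index :=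
      Subgroup.index_dvd_of_le (h1.trans le_sup_left)
    rw [hk] at h3
    have h4 : (Cfsg.oddCore C ⊔ (S : Subgroup G).subgroupOf C).index ∣ ((S : Subgroup G).subgroupOf C).index :=
      Subgroup.index_dvd_of_le le_sup_right
    have h5 : ((S : Subgroup G).subgroupOf C).index ∣ (S : Subgroup G).index :=
      Subgroup.relIndex_dvd_index_of_le hSC
    have h6 : ¬ 2 ∣ (S : Subgroup G).index := S.not_dvd_index
    have h7 : Nat.Coprime (2 ^ k) (S : Subgroup G).index :=
      Nat.Coprime.pow_left k ((Nat.Prime.coprime_iff_not_dvd Nat.prime_two).mpr h6)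
    exact Nat.eq_one_of_dvd_coprimes h7 h3 (h4.trans h5)
  have h3 := Subgroup.index_eq_one.mp h2
  intro g hg
  have hgC : g ∈ C := Subgroup.mem_centralizer_singleton_iff.mpr hg
  have h4 : (⟨g, hgC⟩ : C) ∈ Cfsg.oddCore C ⊔ (S : Subgroup G).subgroupOf C := by rw [h3]; trivial
  haveI : (Cfsg.oddCore C).Normal := inferInstance
  obtain ⟨o, ho, x, hx, hox⟩ := Subgroup.mem_sup_of_normal_left.mp h4
  refine ⟨o, ?_, x, Subgroup.mem_subgroupOf.mp hx, ?_⟩
  · rw [hO]; exact Subgroup.mem_map_of_mem _ ho
  · exact (congrArg Subtype.val hox).symm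

/-- Let G be a finite simple group with a dihedral Sylow 2-subgroup S (of order at least 4), t an involution in the
centre of S, C the centralizer of t and O the core of C (its largest normal subgroup of odd order). Suppose that: if O
is nontrivial then the centralizer of O in S is cyclic of index 2 in S; every element of S not centralizing O inverts
every element of O; and the normalizer of every nontrivial subgroup of O lies in C. Then G is isomorphic to a projective
special linear group of dimension 2 over a field of odd order. -/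
theorem result {G : Type*} [Group G] [Finite G] [IsSimpleGroup G] (S : Sylow 2 G) (n : ℕ)
    (hn : 2 ≤ n) (hS : Nonempty ((S : Subgroup G) ≃* DihedralGroup n)) (t : G) (ht : orderOf t = 2)
    (htS : t ∈ (S : Subgroup G))
    (htZ : ∀ s ∈ (S : Subgroup G), s * t = t * s) (O : Subgroup G)
    (hO : O = (Cfsg.oddCore (Subgroup.centralizer ({t} : Set G))).map (Subgroup.centralizer ({t} : Set G)).subtype)
    (ha : O ≠ ⊥ → IsCyclic ((S : Subgroup G) ⊓ Subgroup.centralizer (O : Set G) : Subgroup G) ∧
      ((S : Subgroup G) ⊓ Subgroup.centralizer (O : Set G)).relIndex (S : Subgroup G) = 2)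
    (hb : ∀ s ∈ (S : Subgroup G), s ∉ Subgroup.centralizer (O : Set G) → ∀ y ∈ O, s * y * s⁻¹ = y⁻¹)
    (hc : ∀ Y : Subgroup G, Y ≤ O → Y ≠ ⊥ → Subgroup.normalizer (Y : Set G) ≤ Subgroup.centralizer ({t} : Set G)) :
    ∃ (F : Type) (_ : Field F) (_ : Fintype F), Odd (Fintype.card F) ∧ Nonempty (G ≃* Matrix.ProjectiveSpecialLinearGroup (Fin 2) F) := by
  classical
  haveI : Fact (Nat.Prime 2) := ⟨Nat.prime_two⟩
  haveI : NeZero n := ⟨by omega⟩
  obtain ⟨e⟩ := hS
  obtain ⟨t1, t2⟩ := Cfsg.Agent.H9.BSW.mul_self_of_orderOf ht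
  have hSC : (S : Subgroup G) ≤ Subgroup.centralizer ({t} : Set G) := by
    intro x hx
    exact Subgroup.mem_centralizer_singleton_iff.mpr (htZ x hx)
  have hdec := aux_decomp S n hn ⟨e⟩ t ht hSC O hO
  have hScard : Nat.card (S : Subgroup G) = 2 * n := by rw [Nat.card_congr e.toEquiv, DihedralGroup.nat_card]
  have hOodd : Odd (Nat.card O) := by
    rw [hO, Subgroup.card_map_of_injective (Subgroup.subtype_injective _)]
    exact Cfsg.Agent.H4.oddCore_odd _
  have hno : ∀ M : Subgroup G, M.Normal → M.index ≠ 2 := by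
    intro M hM h2
    rcases hM.eq_bot_or_eq_top with h | h
    · rw [h, Subgroup.index_bot] at h2
      have h3 : Nat.card (S : Subgroup G) ∣ Nat.card G := Subgroup.card_subgroup_dvd_card _
      rw [hScard, h2] at h3
      have := Nat.le_of_dvd (by norm_num) h3
      omega
    · rw [h, Subgroup.index_top] at h2
      omega
  obtain ⟨A0, hA0S, hA0c, hA0n, s0, hs0S, hs0A, hs02, hs0inv, hcov0⟩ :=
    Cfsg.Agent.H9.BSW.dihedral_coords (n := n) e
  have hrel0 : A0.relIndex (S : Subgroup G) = 2 := by
    have h1 := Subgroup.card_mul_index (A0.subgroupOf (S : Subgroup G))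
    have h2 : Nat.card (A0.subgroupOf (S : Subgroup G)) = n := by
      rw [← hA0n]; exact Nat.card_congr (Subgroup.subgroupOfEquivOfLe hA0S).toEquiv
    rw [h2, hScard, mul_comm 2] at h1
    exact Nat.eq_of_mul_eq_mul_left (by omega) h1
  -- the main step
  have main : ∀ A : Subgroup G, A ≤ S → IsCyclic A → A.relIndex (S : Subgroup G) = 2 → t ∈ A →
      (∀ a ∈ A, ∀ o ∈ O, a * o = o * a) → (∀ s ∈ (S : Subgroup G), s ∉ A → ∀ o ∈ O, s * o * s⁻¹ = o⁻¹) →
      4 ≤ Nat.card O * Nat.card A →
      ∃ (F : Type) (_ : Field F) (_ : Fintype F), Odd (Fintype.card F) ∧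
        Nonempty (G ≃* Matrix.ProjectiveSpecialLinearGroup (Fin 2) F) := by
    intro A hAS hAc hrel htA hAO hout hcard
    obtain ⟨s, hsS, hsA⟩ : ∃ s ∈ (S : Subgroup G), s ∉ A := by
      by_contra hc
      push Not at hc
      have : A.subgroupOf (S : Subgroup G) = ⊤ := Subgroup.subgroupOf_eq_top.mpr hc
      rw [Subgroup.relIndex, this, Subgroup.index_top] at hrel
      omega
    obtain ⟨h1, h2, h3⟩ := Cfsg.Agent.H9.BSW.dihedral_any hn e hAS hAc hrel hsS hsA
    have huniq : ∀ x ∈ A, x * x = 1 → x = 1 ∨ x = t := fun x hx hx2 =>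
      Cfsg.Agent.H9.BSW.cyclic_uniq hAc htA hx t1 t2 hx2
    have hone := Cfsg.Agent.H9.BSW.one_class hno S hAS hrel huniq
    obtain ⟨K, hK⟩ := Cfsg.Agent.H9.BSW.of_core S hOodd hAS hAc htA t1 t2 hAO hsS hsA h1 h2
      (hout s hsS hsA) h3 hdec hc hone
    obtain ⟨F, iF, iFin, hF, hcF, hiso⟩ := Cfsg.Agent.H9.BSW.bsw hK hcard
    refine ⟨F, iF, iFin, ?_, hiso⟩
    rcases hcF with h4 | h4
    · exact ⟨_, h4⟩
    · rw [Nat.odd_iff]; omega
  by_cases hO1 : O = ⊥
  · -- `C(t) = S`
    have hOone : ∀ o ∈ O, o = 1 := by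
      intro o ho
      rw [hO1] at ho
      exact Subgroup.mem_bot.mp ho
    have hC : ∀ g, g * t = t * g → g ∈ (S : Subgroup G) := by
      intro g hg
      obtain ⟨o, ho, x, hx, rfl⟩ := hdec g hg
      rw [hOone o ho, one_mul]; exact hx
    have hcardO : Nat.card O = 1 := by rw [hO1]; exact Subgroup.card_bot
    rcases Nat.lt_or_ge 2 n with hn3 | hn3
    · -- `n ≥ 4`
      have hn4 : 4 ≤ n := by
        obtain ⟨j, hj⟩ := IsPGroup.iff_card.mp S.isPGroup'
        rw [hScard] at hj
        rcases j with _ | _ | _ | j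
        · omega
        · omega
        · omega
        · have : 2 ^ (j + 1 + 1 + 1) = 8 * 2 ^ j := by ring
          rw [this] at hj
          have := Nat.one_le_two_pow (n := j)
          omega
      have htA : t ∈ A0 := by
        by_contra htA
        haveI := hA0c
        have h1 : t * s0 ∈ A0 := (hcov0 t htS).resolve_left htA
        obtain ⟨x, hx⟩ := hA0c.exists_ofOrder_eq_natCard
        rw [hA0n] at hx
        have hxo : orderOf (x : G) = n := by rw [Subgroup.orderOf_coe]; exact hx
        have h2 : t * s0 * x = x * (t * s0) := by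
          have := (IsCyclic.commGroup (α := A0)).mul_comm ⟨t * s0, h1⟩ x
          exact congrArg Subtype.val this
        have h3 : (x : G) * t = t * x := htZ x (hA0S x.2)
        have h4 : s0 * x * s0⁻¹ = (x : G) := by
          have h5 : s0 * x = x * s0 := by
            have h6 : t * (s0 * x) = t * (x * s0) := by
              rw [← mul_assoc, h2, ← mul_assoc, h3, mul_assoc]
            exact mul_left_cancel h6
          rw [h5, mul_inv_cancel_right]
        rw [hs0inv x x.2] at h4
        have h5 : (x : G) ^ 2 = 1 := by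
          rw [pow_two]; nth_rewrite 1 [← h4]; exact inv_mul_cancel _
        have h6 := orderOf_dvd_of_pow_eq_one h5
        rw [hxo] at h6
        have := Nat.le_of_dvd (by norm_num) h6
        omega
      apply main A0 hA0S hA0c hrel0 htA
      · intro a _ o ho
        rw [hOone o ho]; simp
      · intro s _ _ o ho
        rw [hOone o ho]; simp
      · rw [hcardO, hA0n, one_mul]; exact hn4
    · -- Klein four
      have hn2 : n = 2 := by omega
      have hsq : ∀ x ∈ (S : Subgroup G), x * x = 1 := by
        intro x hx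
        have hA0 : ∀ y ∈ A0, y * y = 1 := by
          intro y hy
          have h4 : (⟨y, hy⟩ : A0) ^ Nat.card A0 = 1 := pow_card_eq_one'
          rw [hA0n, hn2] at h4
          have h5 : y ^ 2 = 1 := congrArg Subtype.val h4
          rw [← pow_two]; exact h5
        by_cases hxA : x ∈ A0
        · exact hA0 x hxA
        · exact (Cfsg.Agent.H9.BSW.dihedral_any hn e hA0S hA0c hrel0 hx hxA).1
      have hScomm : ∀ x ∈ (S : Subgroup G), ∀ y ∈ (S : Subgroup G), x * y = y * x := by
        intro x hx y hy
        have h1 := hsq _ (mul_mem hx hy)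
        have h2 : x⁻¹ = x := inv_eq_of_mul_eq_one_left (hsq x hx)
        have h3 : y⁻¹ = y := inv_eq_of_mul_eq_one_left (hsq y hy)
        have h4 := inv_eq_of_mul_eq_one_left h1
        rw [mul_inv_rev, h2, h3] at h4
        exact h4.symm
      have hone : ∀ u : G, u ≠ 1 → u * u = 1 → ∃ g, g * t * g⁻¹ = u := by
        -- use the subgroup generated by `t`
        have hcy : IsCyclic (Subgroup.zpowers t) := inferInstance
        have hle : Subgroup.zpowers t ≤ (S : Subgroup G) := by rw [Subgroup.zpowers_le]; exact htS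
        have hrel : (Subgroup.zpowers t).relIndex (S : Subgroup G) = 2 := by
          have h1 := Subgroup.card_mul_index ((Subgroup.zpowers t).subgroupOf (S : Subgroup G))
          have h2 : Nat.card ((Subgroup.zpowers t).subgroupOf (S : Subgroup G)) = Nat.card (Subgroup.zpowers t) :=
            Nat.card_congr (Subgroup.subgroupOfEquivOfLe hle).toEquiv
          rw [Nat.card_zpowers, ht] at h2
          rw [h2, hScard, hn2] at h1
          exact Nat.eq_of_mul_eq_mul_left (by norm_num) h1
        exact Cfsg.Agent.H9.BSW.one_class hno S hle hrel (fun x hx hx2 =>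
          Cfsg.Agent.H9.BSW.cyclic_uniq hcy (Subgroup.mem_zpowers t) hx t1 t2 hx2)
      have hcentr : ∀ u : G, orderOf u = 2 → IsMulCommutative (Subgroup.centralizer ({u} : Set G)) ∧
          ∀ c ∈ Subgroup.centralizer ({u} : Set G), c ^ 2 = 1 := by
        intro u hu
        obtain ⟨hu1, hu2⟩ := Cfsg.Agent.H9.BSW.mul_self_of_orderOf hu
        obtain ⟨g, hg⟩ := hone u hu1 hu2
        have key : ∀ c ∈ Subgroup.centralizer ({u} : Set G), g⁻¹ * c * g ∈ (S : Subgroup G) := by
          intro c hc'
          apply hC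
          have h1 := Subgroup.mem_centralizer_singleton_iff.mp hc'
          rw [← hg] at h1
          have e1 : g⁻¹ * c * g * t = g⁻¹ * (c * (g * t * g⁻¹)) * g := by group
          have e2 : t * (g⁻¹ * c * g) = g⁻¹ * ((g * t * g⁻¹) * c) * g := by group
          rw [e1, e2, h1]
        refine ⟨⟨⟨?_⟩⟩, ?_⟩
        · rintro ⟨a, ha'⟩ ⟨b, hb'⟩
          apply Subtype.ext
          change a * b = b * a
          have h1 := hScomm _ (key a ha') _ (key b hb')
          have e1 : g⁻¹ * a * g * (g⁻¹ * b * g) = g⁻¹ * (a * b) * g := by group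
          have e2 : g⁻¹ * b * g * (g⁻¹ * a * g) = g⁻¹ * (b * a) * g := by group
          rw [e1, e2] at h1
          exact mul_left_cancel (mul_right_cancel h1)
        · intro c hc'
          have h1 := hsq _ (key c hc')
          have e1 : g⁻¹ * c * g * (g⁻¹ * c * g) = g⁻¹ * (c ^ 2) * g := by rw [pow_two]; group
          rw [e1] at h1
          have h2 : c ^ 2 = g * (g⁻¹ * (c ^ 2) * g) * g⁻¹ := by group
          rw [h2, h1]; group
      have hnc : ¬ IsCyclic (S : Subgroup G) := by
        intro hcy
        obtain ⟨x, hx⟩ := hcy.exists_ofOrder_eq_natCard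
        have h1 : x ^ 2 = 1 := by
          apply Subtype.ext
          change (x : G) ^ 2 = 1
          rw [pow_two]; exact hsq x x.2
        have h2 := orderOf_dvd_of_pow_eq_one h1
        rw [hx, hScard, hn2] at h2
        have := Nat.le_of_dvd (by norm_num) h2
        omega
      have hnn : ¬ (S : Subgroup G).Normal := by
        intro hN
        rcases hN.eq_bot_or_eq_top with h | h
        · rw [h, Subgroup.card_bot] at hScard; omega
        · -- `G` abelian of order 4
          have h2 : (Subgroup.zpowers t).Normal := by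
            constructor
            intro x hx g
            have hg : g ∈ (S : Subgroup G) := by rw [h]; trivial
            have hxS : x ∈ (S : Subgroup G) := by rw [h]; trivial
            rw [hScomm g hg x hxS, mul_inv_cancel_right]; exact hx
          have hcard : Nat.card G = 4 := by
            rw [← Subgroup.card_top, ← h, hScard, hn2]
          rcases h2.eq_bot_or_eq_top with h3 | h3
          · exact t1 (Subgroup.zpowers_eq_bot.mp h3)
          · have h4 : Nat.card (Subgroup.zpowers t) = 4 := by rw [h3, Subgroup.card_top, hcard]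
            rw [Nat.card_zpowers, ht] at h4
            omega
      obtain ⟨F, iF, iFin, hF, ⟨e1⟩⟩ := Cfsg.Agent.S1230.result S hnc hnn hcentr
      have hF4 : Fintype.card F = 4 := by
        rw [hF]
        change Nat.card (S : Subgroup G) = 4
        rw [hScard, hn2]
      obtain ⟨e2⟩ := Cfsg.Agent.S0252.result (F := F) hF4
      haveI : Fact (Nat.Prime 5) := ⟨by norm_num⟩
      obtain ⟨e3⟩ := Cfsg.Agent.S0253.result (F := ZMod 5) (ZMod.card 5)
      exact ⟨ZMod 5, inferInstance, inferInstance, by rw [ZMod.card]; decide,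
        ⟨e1.trans (e2.trans e3.symm)⟩⟩
  · obtain ⟨hcy, hrel⟩ := ha hO1
    have hOC : ∀ o ∈ O, o * t = t * o := by
      intro o ho
      rw [hO] at ho
      obtain ⟨x, _, rfl⟩ := ho
      exact Subgroup.mem_centralizer_singleton_iff.mp x.2
    apply main ((S : Subgroup G) ⊓ Subgroup.centralizer (O : Set G)) inf_le_left hcy hrel
    · refine Subgroup.mem_inf.mpr ⟨htS, ?_⟩
      rw [Subgroup.mem_centralizer_iff]
      intro o ho
      exact hOC o ho
    · intro a ha1 o ho
      have ha2 := (Subgroup.mem_inf.mp ha1).2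
      rw [Subgroup.mem_centralizer_iff] at ha2
      exact (ha2 o ho).symm
    · intro s hs hsA o ho
      apply hb s hs _ o ho
      intro hc'
      exact hsA (Subgroup.mem_inf.mpr ⟨hs, hc'⟩)
    · have h1 : Nat.card ((S : Subgroup G) ⊓ Subgroup.centralizer (O : Set G) : Subgroup G) = n := by
        have h1 := Subgroup.card_mul_index (((S : Subgroup G) ⊓ Subgroup.centralizer (O : Set G)).subgroupOf (S : Subgroup G))
        have h2 : Nat.card (((S : Subgroup G) ⊓ Subgroup.centralizer (O : Set G)).subgroupOf (S : Subgroup G)) =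
          Nat.card ((S : Subgroup G) ⊓ Subgroup.centralizer (O : Set G) : Subgroup G) :=
            Nat.card_congr (Subgroup.subgroupOfEquivOfLe inf_le_left).toEquiv
        have h3 : (((S : Subgroup G) ⊓ Subgroup.centralizer (O : Set G)).subgroupOf (S : Subgroup G)).index = 2 := hrel
        rw [h2, h3, hScard] at h1
        omega
      rw [h1]
      have h2 : 2 < Nat.card O := by
        have h3 : Nat.card O ≠ 1 := fun h => hO1 (Subgroup.card_eq_one.mp h)
        have h4 := Nat.card_pos (α := O)
        rw [Nat.odd_iff] at hOodd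
        omega
      nlinarith

end Cfsg.Agent.S0508
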