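import Cfsg.Statements.S0732
import Cfsg.Agent.H9.PPC

set_option autoImplicit false
open Cfsg

namespace Cfsg.Agent.S0732

/-- A transitive permutation group on `p + 1` points (`p` prime) of order `(p+1) p d` with `d < p` is isomorphic to `PGL(2,p)` with `d = p - 1`, or to `PSL(2,p)` with `2d = p - 1`, or else `p + 1 = 2^q` for a prime `q`, `d = 1` or `d = q`, and the group is permutation-isomorphic to a group of semi-affine maps `x ↦ a φ(x) + b` of the field with `2^q` elements. -/
theorem result {α : Type*} [Fintype α] [DecidableEq α] {p d : ℕ} (hp : p.Prime) (hα : Fintype.card α = p + 1) (G : Subgroup (Equiv.Perm α)) [MulAction.IsPretransitive G α] (hG : Nat.card G = (p + 1) * p * d) (hd : d < p) : (d = p - 1 ∧ Nonempty (G ≃* Matrix.ProjGenLinGroup (Fin 2) (ZMod p))) ∨ (2 * d = p - 1 ∧ Nonempty (G ≃* Matrix.ProjectiveSpecialLinearGroup (Fin 2) (ZMod p))) ∨ (∃ q : ℕ, q.Prime ∧ p + 1 = 2 ^ q ∧ (d = 1 ∨ d = q) ∧ ∃ e : α ≃ GaloisField 2 q, ∀ g : G, (e.symm.trans (((g : Equiv.Perm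 α)).trans e)) ∈ Cfsg.semiaffineGroup (GaloisField 2 q)) := by
  classical
  haveI : Finite G := inferInstance
  have hN : Nat.card α = p + 1 := by rw [Nat.card_eq_fintype_card]; exact hα
  have h : H9.PP.PP G α p d := ⟨hp, inferInstance, inferInstance, hN, hG, hd⟩
  haveI := Fact.mk hp
  have hd0 := h.d_pos
  have hcZ : Fintype.card (ZMod p) = p := ZMod.card p
  by_cases hp2 : p = 2
  · left
    subst hp2
    have hd1 : d = 1 := by omega
    subst hd1
    refine ⟨rfl, ?_⟩
    obtain ⟨e⟩ := H10.perm_three_iso (α := α) hα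
    have htop : G = ⊤ := by
      apply Subgroup.eq_top_of_card_eq
      rw [hG, Nat.card_eq_fintype_card, Fintype.card_perm, hα]
      rfl
    subst htop
    exact ⟨Subgroup.topEquiv.trans e⟩
  · by_cases hreg : ∃ N : Subgroup G, N.Normal ∧ MulAction.IsPretransitive N α ∧ ∀ a : α, MulAction.stabilizer N a = ⊥
    · right; right
      obtain ⟨N, hNn, htr, hst⟩ := hreg
      obtain ⟨K, iK, iF, E, hE⟩ := h.affine hp2 hNn htr hst
      have hdvd := h.d_dvd E hE
      have hcK : Fintype.card K = p + 1 := by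
        rw [← Nat.card_eq_fintype_card, ← Nat.card_congr E, hN]
      obtain ⟨r, hr, n, hrp, hcard⟩ := FiniteField.card' K
      have hodd : p % 2 = 1 := by
        rcases hp.eq_two_or_odd with e' | e'
        · exact absurd e' hp2
        · exact e'
      have hr2 : r = 2 := by
        have h2 : 2 ∣ r ^ (n : ℕ) := by
          rw [← hcard, hcK]
          omega
        exact ((Nat.prime_dvd_prime_iff_eq Nat.prime_two hrp).mp (Nat.prime_two.dvd_of_dvd_pow h2)).symm
      subst hr2
      have hpn : p = 2 ^ (n : ℕ) - 1 := by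
        rw [← hcard, hcK]; omega
      have hn1 : (n : ℕ) ≠ 1 := by
        intro e
        rw [e] at hpn
        have := hp.two_le
        omega
      have hnp : (n : ℕ).Prime := (Nat.prime_of_pow_sub_one_prime hn1 (hpn ▸ hp)).2
      haveI : Fact (Nat.Prime 2) := ⟨Nat.prime_two⟩
      have hcn : Nat.card K = 2 ^ (n : ℕ) := by rw [Nat.card_eq_fintype_card, hcard]
      rw [(H17.ringAut_cyclic 2 n n.ne_zero hcn).2] at hdvd
      haveI : Fintype (GaloisField 2 n) := Fintype.ofFinite _
      have eK : K ≃+* GaloisField 2 n := FiniteField.ringEquivOfCardEq (by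
        rw [hcard, ← Nat.card_eq_fintype_card, GaloisField.card 2 n n.ne_zero])
      refine ⟨n, hnp, by rw [← hcard, hcK], (Nat.dvd_prime hnp).mp hdvd, E.trans eK.toEquiv, ?_⟩
      intro g
      obtain ⟨a, b, φ, hφ⟩ := hE g
      refine ⟨Units.map (eK : K →* GaloisField 2 n) a, eK b, (eK.symm.trans φ).trans eK, fun x => ?_⟩
      have h1 := hφ (eK.symm x)
      change eK (E ((g : Equiv.Perm α) (E.symm (eK.symm x)))) = eK a * eK (φ (eK.symm x)) + eK b
      have h2 : E ((g : Equiv.Perm α) (E.symm (eK.symm x))) = a * φ (eK.symm x) + b := h1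
      rw [h2, map_add, map_mul]
    · have hZ := h.zass hreg
      rcases h.main_zass hp2 hZ with ⟨h3, hs, hdp⟩ | ⟨hdp, F, iF, iFin, hF, ⟨e⟩⟩
      · left
        refine ⟨hdp, ?_⟩
        obtain ⟨F, iF, iFin, hF, ⟨e⟩⟩ := S0730.result (f := 1) hp hp2 odd_one (by rw [pow_one, hα]) G h3 hs
        rw [pow_one] at hF
        obtain ⟨e2⟩ := H9.PP.pgl_iso_of_card (F := F) (F' := ZMod p) (by rw [hF, hcZ])
        exact ⟨e.trans e2⟩
      · right; left
        refine ⟨hdp, ?_⟩
        obtain ⟨e2⟩ := H9.BSW.psl_iso_of_card (F := F) (F' := ZMod p) (by rw [hF, hcZ])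
        exact ⟨e.trans e2⟩

end Cfsg.Agent.S0732
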