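import Cfsg.Statements.S0864
import Cfsg.Agent.H3.DetExt

set_option autoImplicit false
open Cfsg

namespace Cfsg.Agent.S0864

/-- Let N be a normal subgroup of the finite group G and λ a character of N of degree 1 invariant under conjugation by G. Suppose that for every prime p dividing the order of λ (in the group of functions under pointwise multiplication) there is a subgroup H containing N, of index prime to p and with the index of N in H a power of p, together with a character of H of degree 1 restricting to λ. Then λ is the restriction of a character of G of degree 1. -/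
theorem result {G : Type*} [Group G] [Finite G] (N : Subgroup G) [hN : N.Normal] (lam : N → ℂ) (hlam : Cfsg.IsCharacter N lam ∧ lam 1 = 1) (hinv : ∀ (g : G) (n : N), lam ⟨g * n * g⁻¹, hN.conj_mem (n : G) n.2 g⟩ = lam n) (hsyl : ∀ p : ℕ, p.Prime → p ∣ orderOf lam → ∃ (H : Subgroup G) (hNH : N ≤ H) (ν : H → ℂ), Nat.Coprime H.index p ∧ (∃ k : ℕ, N.relIndex H = p ^ k) ∧ Cfsg.IsCharacter H ν ∧ ν 1 = 1 ∧ ∀ n : N, ν ⟨(n : G), hNH n.2⟩ = lam n) : ∃ μ : G → ℂ, Cfsg.IsCharacter G μ ∧ μ 1 = 1 ∧ ∀ n : N, μ n = lam n := by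
  haveI := Fintype.ofFinite G
  obtain ⟨l, rfl⟩ := Cfsg.Agent.H3.exists_hf hlam.1 hlam.2
  haveI : (Cfsg.Agent.H3.homRep l).IsIrreducible :=
    Cfsg.Agent.H3.isIrreducible_of_finrank_eq_one _ (by simp)
  have hch : (Cfsg.Agent.H3.homRep l).character = Cfsg.Agent.H3.hf l :=
    Cfsg.Agent.H3.homRep_character l
  have hinv' : ∀ g : G, Cfsg.Agent.H3.cj hN g (Cfsg.Agent.H3.homRep l).character =
      (Cfsg.Agent.H3.homRep l).character := by
    rw [hch]; exact fun g => funext fun n => hinv g n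
  obtain ⟨χ, hχ, hr⟩ := Cfsg.Agent.H3.extends_of_one_mem hN (Cfsg.Agent.H3.homRep l) hinv'
    (Cfsg.Agent.H3.one_mem_of_primes _ fun p hp => by
      by_cases hpd : p ∣ orderOf (Cfsg.Agent.H3.hf l)
      · obtain ⟨H, hNH, ν, h1, h2, h3, h4, h5⟩ := hsyl p hp hpd
        refine ⟨H.index, Cfsg.Agent.H3.index_mem_expSet hN _ hinv' H hNH ν h3 (fun n => by
          rw [hch]; exact h5 n), ?_⟩
        intro hdvd
        have h6 : p ∣ H.index := by exact_mod_cast hdvd
        exact hp.one_lt.ne' (Nat.Coprime.eq_one_of_dvd (h1.symm) h6)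
      · refine ⟨orderOf l, Cfsg.Agent.H3.lin_order_mem_expSet hN l, ?_⟩
        rw [← Cfsg.Agent.H3.orderOf_hf]
        exact_mod_cast hpd)
  rw [hch] at hr
  refine ⟨χ, Cfsg.Agent.H3.irr_isChar hχ, ?_, hr⟩
  have := hr 1
  rw [Subgroup.coe_one] at this
  rw [this, Cfsg.Agent.H3.hf_at_one]

end Cfsg.Agent.S0864
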