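import Cfsg.Statements.S0983
import Cfsg.Agent.H9.ExcQ
import Cfsg.Agent.H9.ExcK
import Cfsg.Agent.H9.N5400
import Cfsg.Agent.H9.Tab3641

set_option autoImplicit false
open Cfsg

namespace Cfsg.Agent.S0983

def killList : List (ℕ × ℕ) := [(3648, 3), (3696, 11), (3744, 13), (3780, 5), (3960, 11),
  (4200, 7), (4212, 13), (4400, 11), (4536, 7), (4680, 5), (4760, 5), (4800, 3), (4928, 7), (4960, 31),
  (5104, 11), (5148, 11), (5376, 7), (5472, 19),
  (5600, 7), (5724, 53), (5880, 5), (5940, 11)]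

theorem killList_spec : killList.all (fun q => Cfsg.Agent.H9.Exc.exKill q.1 q.2 80) = true := by decide +kernel

theorem killList_prime : ∀ q ∈ killList, Nat.Prime q.2 := by
  unfold killList
  simp only [List.mem_cons, List.not_mem_nil, or_false, forall_eq_or_imp, forall_eq]
  norm_num

theorem killAux {G : Type*} [Group G] [Finite G] [IsSimpleGroup G] (hG : ¬ IsMulCommutative G) (q : ℕ × ℕ)
    (hq : q ∈ killList) : Nat.card G ≠ q.1 := by
  intro h
  have h1 := Cfsg.Agent.H9.Exc.exKill_sound hG (killList_prime q hq) (B := 80)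
  have h2 := List.all_eq_true.mp killList_spec q hq
  rw [h, h2] at h1
  exact absurd h1 (by decide)

def killList2 : List (ℕ × ℕ × ℕ × ℕ × ℕ) := [(4032, 7, 6, 63, 64), (4320, 5, 5, 135, 66), (4620, 7, 2, 1155, 68),
  (5460, 13, 2, 1365, 74), (5760, 5, 7, 45, 76), (5040, 5, 4, 315, 71)]

theorem killList2_spec : killList2.all (fun q => Cfsg.Agent.H9.Exc.exKill2 q.1 q.2.1 (2 ^ q.2.2.1) q.2.2.2.2) = true := by
  decide +kernel

theorem killList2_prime : ∀ q ∈ killList2, Nat.Prime q.2.1 ∧ 0 < q.2.2.1 ∧ q.1 = 2 ^ q.2.2.1 * q.2.2.2.1 ∧ ¬ 2 ∣ q.2.2.2.1 := by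
  unfold killList2
  simp only [List.mem_cons, List.not_mem_nil, or_false, forall_eq_or_imp, forall_eq]
  norm_num

theorem killAux2 {G : Type*} [Group G] [Finite G] [IsSimpleGroup G] (hG : ¬ IsMulCommutative G) (q : ℕ × ℕ × ℕ × ℕ × ℕ)
    (hq : q ∈ killList2) : Nat.card G ≠ q.1 := by
  intro h
  obtain ⟨hp, hk, hn, hm⟩ := killList2_prime q hq
  have h1 := Cfsg.Agent.H9.Exc.exKill2_sound hG hp (k := q.2.2.1) (m' := q.2.2.2.1) (B := q.2.2.2.2) hk
    (by rw [h]; exact hn) hm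
  have h2 := List.all_eq_true.mp killList2_spec q hq
  rw [h, h2] at h1
  exact absurd h1 (by decide)

/-- A non-abelian finite simple group of order greater than 3640 and at most 6232 has order 4080, 5616, 6048 or 6072. -/
theorem result {G : Type*} [Group G] [Finite G] [IsSimpleGroup G] (hG : ¬ IsMulCommutative G) (h1 : 3640 < Nat.card G) (h2 : Nat.card G ≤ 6232) : Nat.card G = 4080 ∨ Nat.card G = 5616 ∨ Nat.card G = 6048 ∨ Nat.card G = 6072 := by
  have h3 := Cfsg.Agent.H9.Tab.mem_lst h1 h2 (Cfsg.Agent.H9.Sieve.sieveC hG)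
  have h4 := Cfsg.Agent.H9.N5400.card_ne (G := G)
  have h5 := killAux hG
  have h6 := killAux2 hG
  generalize Nat.card G = n at *
  have key : ∀ n ∈ Cfsg.Agent.H9.Tab.lst3641, (n = 4080 ∨ n = 5616 ∨ n = 6048 ∨ n = 6072) ∨ n = 5400 ∨
      (∃ q ∈ killList, n = q.1) ∨ (∃ q ∈ killList2, n = q.1) := by
    decide +kernel
  rcases key n h3 with h | h | ⟨q, hq, h⟩ | ⟨q, hq, h⟩
  · exact h
  · exact absurd h h4
  · exact absurd h (h5 q hq)
  · exact absurd h (h6 q hq)

end Cfsg.Agent.S0983
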