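import Cfsg.Statements.S1021
import Cfsg.Agent.H9.PSLRec

set_option autoImplicit false
open Cfsg

namespace Cfsg.Agent.S1021

/-- A simple group of order 3420 is isomorphic to the projective special linear group of dimension 2 over the field with 19 elements. -/
theorem result {G : Type*} [Group G] [Finite G] [IsSimpleGroup G] (h : Nat.card G = 3420) {F : Type*} [Field F] [Fintype F] (hF : Fintype.card F = 19) : Nonempty (G ≃* Matrix.ProjectiveSpecialLinearGroup (Fin 2) F) := by
  have h_prime : Nat.Prime 19 := by norm_num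
  haveI := Fact.mk h_prime
  have hG : ¬ IsMulCommutative G := Cfsg.Agent.H9.Simple.not_comm_of_not_prime (by rw [h]; norm_num)
  have hd : 19 ∣ Nat.card G := by rw [h]; norm_num
  obtain ⟨P⟩ : Nonempty (Sylow 19 G) := inferInstance
  have h1 : Nat.card (Sylow 19 G) ∣ 180 :=
    Cfsg.Agent.H9.Syl.card_sylow_dvd_of_card P (k := 1) (m := 180) (by rw [h]; norm_num) (by norm_num)
  have h2 : Nat.card (Sylow 19 G) ≡ 1 [MOD 19] := card_sylow_modEq_one 19 G
  have h3 : Nat.card (Sylow 19 G) ≠ 1 := Cfsg.Agent.H9.Simple.card_sylow_ne_one hG hd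
  have h4 : Nat.card (Sylow 19 G) = 19 + 1 := by
    have key : ∀ n ∈ Nat.divisors 180, n % 19 = 1 → n ≠ 1 → n = 19 + 1 := by decide +kernel
    exact key _ (Nat.mem_divisors.mpr ⟨h1, by norm_num⟩) h2 h3
  exact Cfsg.Agent.H9.PSLModel.psl_of_check' hG h4 (by norm_num) (by norm_num) (by rw [h]; norm_num) Cfsg.Agent.H9.PSLModel.check19 hF

end Cfsg.Agent.S1021
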