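import Cfsg.Statements.S1138
import Cfsg.Agent.H20.SZ9

set_option autoImplicit false
open Cfsg


namespace Cfsg.Agent.S1138

open Cfsg.Agent.H20.SZ in
/-- Let `P` be a Suzuki 2-group with `|Z(P)| = q`. Then every square lies in `Z(P)` and `P/Z(P)` is abelian (so elementary abelian), `|P| = q²` or `|P| = q³`, and `P` has exponent 4. -/
theorem result {P : Type*} [Group P] (hP : Cfsg.IsSuzukiTwoGroup P) :
    (∀ x : P, x * x ∈ Subgroup.center P) ∧ (∀ x y : P, x⁻¹ * y⁻¹ * x * y ∈ Subgroup.center P) ∧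
      (Nat.card P = Nat.card (Subgroup.center P) ^ 2 ∨ Nat.card P = Nat.card (Subgroup.center P) ^ 3) ∧
      Monoid.exponent P = 4 := by
  obtain ⟨F, inst, ρ, e, h⟩ := exists_of_isSuzukiTwoGroup hP
  obtain ⟨hfin, h2, hne, -⟩ := hP
  have hc := h.center_eq hne
  have h4 := h.pow_four hne
  have hsq : ∃ x : P, x * x ≠ 1 := by
    by_contra hcon
    push Not at hcon
    obtain ⟨x, y, hxy⟩ := hne
    exact hxy (h.Z1_central (hcon x) y).symm
  refine ⟨fun x => ?_, fun x y => ?_, ?_, ?_⟩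
  · rw [hc]
    exact h.sq_mem h4 x
  · rw [hc]
    exact h.br_mem h4 x y
  · rw [hc, h.card_Z1]
    exact h.card_cases h4 hsq
  · have h5 : Monoid.exponent P ∣ 4 := Monoid.exponent_dvd_of_forall_pow_eq_one h4
    have h6 : ¬ Monoid.exponent P ∣ 2 := by
      intro h7
      obtain ⟨x, hx⟩ := hsq
      apply hx
      rw [← pow_two]
      exact Monoid.exponent_dvd_iff_forall_pow_eq_one.mp h7 x
    have h8 : Monoid.exponent P ≤ 4 := Nat.le_of_dvd (by norm_num) h5
    generalize Monoid.exponent P = m at h5 h6 h8 ⊢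
    interval_cases m <;> omega


end Cfsg.Agent.S1138
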