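import Cfsg.Statements.S1164
import Cfsg.Agent.H6.CtG

set_option autoImplicit false
open Cfsg

namespace Cfsg.Agent.S1164

/-- Curtis–Tits: for the Chevalley datum of type D₄, F₄, E₆, E₇ or E₈ and a field `K` with at least four elements, there is an isomorphism from the group presented by the Curtis–Tits relators (additivity, the commutator relators and the `h̄`-relators only for roots inside a common rank-two subsystem spanned by two fundamental roots, all other generators killed) onto the group of Steinberg's presentation, sending each generator `x̄_r(t)` with `r` in such a subsystem to `x̄_r(t)`. -/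
theorem result (D : Cfsg.Lie.ChevalleyDatum)
    (hD : D ∈ [Cfsg.Lie.chevD4, Cfsg.Lie.chevF4, Cfsg.Lie.chevE6, Cfsg.Lie.chevE7, Cfsg.Lie.chevE8])
    (K : Type*) [Field K] [Fintype K] (hK : 4 ≤ Fintype.card K) :
    ∃ e : D.CurtisTitsGroup K ≃* D.SteinbergGroup K,
      ∀ (i j r : ℕ) (t : K), D.InRankTwoSub i j r →
        e (PresentedGroup.mk (D.curtisTitsRels K) (D.stX r t)) = D.stGen K r t := by
  simp only [List.mem_cons, List.not_mem_nil, or_false] at hD
  rcases hD with rfl | rfl | rfl | rfl | rfl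
  · exact H6.ct_iso H6.TD4.good H6.TD4.ext H6.TD4.cw H6.TD4.pairs H6.TD4.len2 H6.domPairs_D4
      (fun r hr k hk => H6.cor_of_chk H6.TD4.chkR H6.cr_D4 hr hk) H6.TD4.ct2
  · exact H6.ct_iso H6.TF4.good H6.TF4.ext H6.TF4.cw H6.TF4.pairs H6.TF4.len2 H6.domPairs_F4
      (fun r hr k hk => H6.cor_of_chk H6.TF4.chkR H6.cr_F4 hr hk) H6.TF4.ct2
  · exact H6.ct_iso H6.TE6.good H6.TE6.ext H6.TE6.cw H6.TE6.pairs H6.TE6.len2 H6.domPairs_E6
      (fun r hr k hk => H6.cor_of_chk H6.TE6.chkR H6.cr_E6 hr hk) H6.TE6.ct2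
  · exact H6.ct_iso H6.TE7.good H6.TE7.ext H6.TE7.cw H6.TE7.pairs H6.TE7.len2 H6.domPairs_E7
      (fun r hr k hk => H6.cor_of_chk H6.TE7.chkR H6.cr_E7 hr hk) H6.TE7.ct2
  · exact H6.ct_iso H6.TE8.good H6.TE8.ext H6.TE8.cw H6.TE8.pairs H6.TE8.len2 H6.domPairs_E8
      (fun r hr k hk => H6.cor_of_chk H6.TE8.chkR H6.cr_E8 hr hk) H6.TE8.ct2

end Cfsg.Agent.S1164
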