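import Cfsg.Statements.S1285
import Cfsg.Agent.H10.Sig3

set_option autoImplicit false
open Cfsg

namespace Cfsg.Agent.S1285

/-- Let θ be a solvable A-signalizer functor on the finite group G with A elementary abelian of rank at least 3, and suppose that for some prime q every θ a (a ∈ A non-identity) is a q-group. Then θ is complete. -/
theorem result {G : Type*} [Group G] [Finite G] (p : ℕ) [Fact p.Prime] (A : Subgroup G) (hA : Cfsg.IsElementaryAbelian p A) (hA3 : p ^ 3 ≤ Nat.card ↥A) (θ : G → Subgroup G) (hθ : Cfsg.IsSolvableSignalizerFunctor p A θ) (q : ℕ) [Fact q.Prime] (hq : ∀ a ∈ A, a ≠ 1 → IsPGroup q ↥(θ a)) : Cfsg.IsCompleteSignalizerFunctor p A θ := by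
  have hK := H10.isKFun_of_sig hA hθ (k := 1) le_rfl
  obtain ⟨Q, hQ, hQq, hQc⟩ := H10.sig_single_prime hA le_rfl hA3 hK (q := q) (by
    intro D hD hDk
    obtain ⟨d, hd1, hd2⟩ := H10.exists_ne_one_of_card le_rfl hDk
    exact H10.isPGroup_of_le (H10.sigInf_le_of_mem hd1 hd2) (hq d (hD hd1) hd2))
  refine ⟨hθ.1, Q, H10.mem_normalizer_of_forall.mpr hQ.2.2.1, hQ.2.1, ?_⟩
  intro a ha ha1
  have h1 := hQc (Subgroup.zpowers a) (Subgroup.zpowers_le.mpr ha) (H10.card_zpowers_elab hA ha ha1)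
  rw [H10.centralizer_zpowers_eq, H10.sigInf_zpowers hA hθ ha ha1] at h1
  exact h1

end Cfsg.Agent.S1285
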