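import Cfsg.Statements.S1313
import Cfsg.Agent.H10.Comp2

set_option autoImplicit false
open Cfsg

namespace Cfsg.Agent.S1313

theorem card_mulAut_le (F : Type*) [Group F] [Finite F] :
    Nat.card (MulAut F) ≤ Nat.factorial (Nat.card F - 1) := by
  classical
  have : Fintype F := Fintype.ofFinite F
  let f : MulAut F → Equiv.Perm {x : F // x ≠ 1} := fun φ =>
    φ.toEquiv.subtypeEquiv (fun a => by simp)
  have hf : Function.Injective f := by
    intro φ ψ h
    ext x
    by_cases hx : x = 1
    · subst hx; simp
    · have := congrArg (fun g : Equiv.Perm {x : F // x ≠ 1} => ((g ⟨x, hx⟩ : {x : F // x ≠ 1}) : F)) h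
      simpa [f] using this
  have h1 := Nat.card_le_card_of_injective f hf
  rw [Nat.card_perm] at h1
  have h2 : Nat.card {x : F // x ≠ 1} = Nat.card F - 1 := by
    rw [Nat.card_eq_fintype_card, Nat.card_eq_fintype_card, Fintype.card_subtype_compl,
      Fintype.card_subtype_eq]
  rwa [h2] at h1

/-- For a finite group H, |H| ≤ |F*(H)|!. -/
theorem result {H : Type*} [Group H] [Finite H] : Nat.card H ≤ Nat.factorial (Nat.card ↥(Cfsg.generalizedFittingSubgroup H)) := by
  set F := Cfsg.generalizedFittingSubgroup H with hF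
  have hFn : F.Normal := H10.genFitting_normal H
  let f : H →* MulAut F := MulAut.conjNormal
  have hker : f.ker ≤ F := by
    intro x hx
    apply H10.centralizer_genFitting_le
    rw [Subgroup.mem_centralizer_iff]
    intro y hy
    have h1 := MonoidHom.mem_ker.mp hx
    have h2 := congrArg (fun φ : MulAut F => ((φ ⟨y, hy⟩ : F) : H)) h1
    have h3 : x * y * x⁻¹ = y := by simpa [f] using h2
    rw [mul_inv_eq_iff_eq_mul] at h3
    exact h3.symm
  have h1 : Nat.card H = Nat.card f.range * Nat.card f.ker := by
    rw [← Subgroup.card_mul_index f.ker, mul_comm, Subgroup.index_ker]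
  rw [h1]
  have h2 : Nat.card f.range ≤ Nat.factorial (Nat.card F - 1) :=
    (Nat.card_le_card_of_injective _ Subtype.val_injective).trans (card_mulAut_le F)
  have h3 : Nat.card f.ker ≤ Nat.card F := Subgroup.card_le_of_le hker
  have h4 : 0 < Nat.card F := Nat.card_pos
  calc Nat.card f.range * Nat.card f.ker ≤ Nat.factorial (Nat.card F - 1) * Nat.card F :=
        Nat.mul_le_mul h2 h3
    _ = Nat.factorial (Nat.card F) := by
        rw [mul_comm, Nat.mul_factorial_pred h4.ne']

end Cfsg.Agent.S1313
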