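import Cfsg.Statements.S1349
import Cfsg.Agent.H10.Dihed2

set_option autoImplicit false
open Cfsg

namespace Cfsg.Agent.S1349



/-- Let G be finite, L ≤ G solvable of odd order, and A an elementary abelian 2-subgroup of order 2^d (d ≥ 1) normalizing L with C_A(L) = 1. Then there are subgroups A_1, …, A_d of A of order 2 generating A and subgroups L_1, …, L_d of L such that each A_i ⊔ L_i is dihedral of order 2 n_i with n_i odd and at least 3, and A_i ⊔ L_i commutes elementwise with A_j ⊔ L_j for i ≠ j. -/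
theorem result {G : Type*} [Group G] [Finite G] (L A : Subgroup G) (hLs : Group.IsSolvable ↥L) (hLodd : Odd (Nat.card ↥L)) (hA : Cfsg.IsElementaryAbelian 2 A) (d : ℕ) (hd : 1 ≤ d) (hAd : Nat.card ↥A = 2 ^ d) (hAL : A ≤ Subgroup.normalizer (L : Set G)) (hfaith : A ⊓ Subgroup.centralizer (L : Set G) = ⊥) : ∃ (Ai : Fin d → Subgroup G) (Li : Fin d → Subgroup G) (n : Fin d → ℕ), (∀ i, Ai i ≤ A ∧ Nat.card ↥(Ai i) = 2 ∧ Li i ≤ L ∧ Odd (n i) ∧ 3 ≤ n i ∧ Nonempty (↥(Ai i ⊔ Li i) ≃* DihedralGroup (n i))) ∧ (⨆ i, Ai i) = A ∧ ∀ i j, i ≠ j → ∀ x ∈ Ai i ⊔ Li i, ∀ y ∈ Ai j ⊔ Li j, x * y = y * x := by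
  haveI : Fact (Nat.Prime 2) := ⟨Nat.prime_two⟩
  have hcop : (Nat.card A).Coprime (Nat.card L) :=
    H10.card_coprime_of_not_dvd (H10.elab_isPGroup hA) (by rw [← even_iff_two_dvd, Nat.not_even_iff_odd]; exact hLodd)
  obtain ⟨hF, hAF, hFL⟩ := H10.fitting_stab hLs hcop hAL
  obtain ⟨F, hFdef⟩ : ∃ F : Subgroup G, F = (Cfsg.fittingSubgroup ↥L).map L.subtype := ⟨_, rfl⟩
  rw [← hFdef] at hF hAF hFL
  have hFL' : F ≤ L := by rw [hFdef]; exact Subgroup.map_subtype_le _
  have hFodd : Odd (Nat.card F) := Odd.of_dvd_nat hLodd (Subgroup.card_dvd_of_le hFL')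
  have hcopF : (Nat.card A).Coprime (Nat.card F) := hcop.coprime_dvd_right (Subgroup.card_dvd_of_le hFL')
  obtain ⟨E, hEF, hAE, hEc, hEself⟩ := H10.exists_selfcent_inv hA hFodd hAF
  have hEodd : Odd (Nat.card E) := Odd.of_dvd_nat hFodd (Subgroup.card_dvd_of_le hEF)
  have hfE : A ⊓ Subgroup.centralizer (E : Set G) = ⊥ := by
    rw [← le_bot_iff, ← hfaith]
    refine le_inf inf_le_left ?_
    exact hFL _ inf_le_left (H10.stab_nilp hF inf_le_left hcopF hAF hEF hAE hEself inf_le_right)
  obtain ⟨b, x, hb, hx, hbx, hcl⟩ := H10.dih_abelian hA hEodd hAE d A le_rfl hAd hfE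
  have hbb : ∀ i, b i * b i = 1 := fun i => by have := hA.2 (b i) (hb i); rwa [pow_two] at this
  have hbinv : ∀ i, (b i)⁻¹ = b i := fun i => H10.elab_two_inv hA (hb i)
  have hb1 : ∀ i, b i ≠ 1 := by
    intro i h
    have h1 := (hx i).2.2.1
    rw [h, one_mul, inv_one, mul_one] at h1
    have h2 : x i * x i = 1 := by rw [mul_eq_one_iff_eq_inv]; exact h1
    have h3 := H10.mem_of_sq_mem (W := (⊥ : Subgroup G)) (H10.odd_orderOf_mem hEodd (hx i).1) (by rw [h2]; exact Subgroup.one_mem _)
    exact (hx i).2.2.2 (Subgroup.mem_bot.1 h3)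
  refine ⟨fun i => Subgroup.zpowers (b i), fun i => Subgroup.zpowers (x i), fun i => orderOf (x i), ?_, ?_, ?_⟩
  · intro i
    have hodd := H10.odd_orderOf_mem hEodd (hx i).1
    refine ⟨?_, ?_, ?_, hodd, ?_, ?_⟩
    · rw [Subgroup.zpowers_le]; exact hb i
    · rw [Nat.card_zpowers]
      exact orderOf_eq_prime (hA.2 (b i) (hb i)) (hb1 i)
    · rw [Subgroup.zpowers_le]; exact hFL' (hEF (hx i).1)
    · have h1 : orderOf (x i) ≠ 1 := fun h => (hx i).2.2.2 (orderOf_eq_one_iff.1 h)
      obtain ⟨k, hk⟩ := hodd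
      show 3 ≤ orderOf (x i)
      omega
    · have hbL : b i ∈ Subgroup.zpowers (b i) ⊔ Subgroup.zpowers (x i) := (le_sup_left : Subgroup.zpowers (b i) ≤ _) (Subgroup.mem_zpowers _)
      have hxL : x i ∈ Subgroup.zpowers (b i) ⊔ Subgroup.zpowers (x i) := (le_sup_right : Subgroup.zpowers (x i) ≤ _) (Subgroup.mem_zpowers _)
      refine H22.nonempty_mulEquiv_dihedralGroup (orderOf (x i)) (⟨x i, hxL⟩ : ↥(Subgroup.zpowers (b i) ⊔ Subgroup.zpowers (x i)))
        ⟨b i, hbL⟩ ?_ ?_ ?_ ?_ ?_
      · exact Subtype.ext (hbb i)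
      · apply Subtype.ext
        have := (hx i).2.2.1
        rw [hbinv i] at this
        exact this
      · exact Subgroup.orderOf_mk _ _
      · intro h
        obtain ⟨n, hn⟩ := Subgroup.mem_zpowers_iff.1 h
        have hn' : (x i) ^ n = b i := congrArg Subtype.val hn
        have h1 := (hx i).2.2.1
        rw [← hn', mul_inv_eq_iff_eq_mul, ((Commute.refl (x i)).zpow_left n).eq] at h1
        have h2 : x i = (x i)⁻¹ := mul_right_cancel h1
        have h3 : x i * x i = 1 := by rw [mul_eq_one_iff_eq_inv]; exact h2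
        have h4 := H10.mem_of_sq_mem (W := (⊥ : Subgroup G)) hodd (by rw [h3]; exact Subgroup.one_mem _)
        exact (hx i).2.2.2 (Subgroup.mem_bot.1 h4)
      · rw [eq_top_iff]
        rintro ⟨y, hy⟩ _
        have hmap : Subgroup.map (Subgroup.zpowers (b i) ⊔ Subgroup.zpowers (x i)).subtype
            (Subgroup.closure {(⟨x i, hxL⟩ : ↥(Subgroup.zpowers (b i) ⊔ Subgroup.zpowers (x i))), ⟨b i, hbL⟩}) =
            Subgroup.zpowers (b i) ⊔ Subgroup.zpowers (x i) := by
          rw [MonoidHom.map_closure, Set.image_pair]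
          apply le_antisymm
          · rw [Subgroup.closure_le]
            rintro z (rfl | rfl)
            · exact hxL
            · exact hbL
          · refine sup_le ?_ ?_
            · rw [Subgroup.zpowers_le]; exact Subgroup.subset_closure (Or.inr rfl)
            · rw [Subgroup.zpowers_le]; exact Subgroup.subset_closure (Or.inl rfl)
        rw [← hmap] at hy
        obtain ⟨z, hz, hzy⟩ := hy
        have : z = ⟨y, by rw [← hmap]; exact ⟨z, hz, hzy⟩⟩ := Subtype.ext hzy
        rw [← this]; exact hz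
  · apply le_antisymm
    · refine iSup_le fun i => ?_
      rw [Subgroup.zpowers_le]; exact hb i
    · refine hcl.trans ?_
      rw [Subgroup.closure_le]
      rintro _ ⟨i, rfl⟩
      exact (le_iSup (fun i => Subgroup.zpowers (b i)) i) (Subgroup.mem_zpowers _)
  · intro i j hij
    have hcomm1 : ∀ i j, i ≠ j → Commute (b i) (x j) := by
      intro i j hij
      have := hbx i j hij
      rw [mul_inv_eq_iff_eq_mul] at this
      exact this
    have hle : Subgroup.zpowers (b i) ⊔ Subgroup.zpowers (x i) ≤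
        Subgroup.centralizer ((Subgroup.zpowers (b j) ⊔ Subgroup.zpowers (x j) : Subgroup G) : Set G) := by
      rw [Subgroup.le_centralizer_iff, sup_le_iff, Subgroup.zpowers_le, Subgroup.zpowers_le]
      constructor
      · rw [Subgroup.mem_centralizer_iff]
        intro y hy
        have : Subgroup.zpowers (b i) ⊔ Subgroup.zpowers (x i) ≤ Subgroup.centralizer {b j} := by
          rw [sup_le_iff, Subgroup.zpowers_le, Subgroup.zpowers_le, H10.mem_centralizer_singleton, H10.mem_centralizer_singleton]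
          exact ⟨H10.elab_comm hA (hb j) (hb i), (hcomm1 j i (Ne.symm hij)).eq⟩
        exact (H10.mem_centralizer_singleton.1 (this hy)).symm
      · rw [Subgroup.mem_centralizer_iff]
        intro y hy
        have : Subgroup.zpowers (b i) ⊔ Subgroup.zpowers (x i) ≤ Subgroup.centralizer {x j} := by
          rw [sup_le_iff, Subgroup.zpowers_le, Subgroup.zpowers_le, H10.mem_centralizer_singleton, H10.mem_centralizer_singleton]
          exact ⟨(hcomm1 i j hij).eq.symm, hEc _ (hx j).1 _ (hx i).1⟩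
        exact (H10.mem_centralizer_singleton.1 (this hy)).symm
    intro y hy z hz
    exact ((Subgroup.mem_centralizer_iff.1 (hle hy)) z hz).symm

end Cfsg.Agent.S1349
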