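import Cfsg.Statements.S5560
import Cfsg.Agent.H4.ZStar2
import Cfsg.Agent.H1.Sylow

set_option autoImplicit false
open Cfsg

namespace Cfsg.Agent.S5560

/-- A Z*-type result for an odd prime p. Let G be a finite group and d an involution of G such that the product of any two conjugates of d has order a power of p. Then the product of any two conjugates of d lies in the largest normal p-subgroup O_p(G); in other words the conjugacy class of d lies in the coset O_p(G)d, and d is central modulo O_p(G). -/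
theorem result {G : Type*} [Group G] [Finite G] {p : ℕ} (hp : p.Prime) (hp2 : p ≠ 2)
    (d : G) (hd : orderOf d = 2)
    (hprod : ∀ a ∈ conjugatesOf d, ∀ b ∈ conjugatesOf d, ∃ k : ℕ, orderOf (a * b) = p ^ k) :
    ∀ a ∈ conjugatesOf d, ∀ b ∈ conjugatesOf d, a * b ∈ Cfsg.pCore p G := by
  haveI : Fact (Nat.Prime 2) := ⟨Nat.prime_two⟩
  haveI hfp : Fact p.Prime := ⟨hp⟩
  haveI hnorm : (oddCore G).Normal := Cfsg.Agent.H1.pPrimeCore_normal 2 G
  have hconj : ∀ g : G, g * d * g⁻¹ ∈ conjugatesOf d := fun g => isConj_iff.2 ⟨g, rfl⟩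
  have hdd := H4.mul_self_of_orderOf_two hd
  have hdi := H4.inv_eq_self_of_mul_self hdd
  have hd1 : d ∈ conjugatesOf d := mem_conjugatesOf_self
  have hiso : IsIsolatedInvolution d := by
    rw [H4.isolated_iff_odd hd]
    intro g
    obtain ⟨k, hk⟩ := hprod d hd1 _ (hconj g)
    rw [hk]
    exact (hp.odd_of_ne_two hp2).pow
  set K := oddCore G with hK
  have hKodd := H4.oddCore_odd G
  have hn : Subgroup.zpowers d ≤ Subgroup.normalizer (K : Set G) := by rw [Subgroup.normalizer_eq_top]; exact le_top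
  have hcop : (Nat.card (Subgroup.zpowers d)).Coprime (Nat.card K) := by
    rw [Nat.card_zpowers, hd]; exact Nat.coprime_two_left.2 hKodd
  -- the centralizer in K
  set C := K ⊓ Subgroup.centralizer ({d} : Set G) with hC
  have hidx : ∀ r : ℕ, r.Prime → r ≠ p → ¬ r ∣ C.relIndex K := by
    intro r hr hrp hdvd
    haveI : Fact r.Prime := ⟨hr⟩
    obtain ⟨R, hR, hRd⟩ := Cfsg.Agent.H23.exists_invariant_sylow hn hcop (Or.inl (H4.zpowers_solvable d)) r
    have hRC : R ≤ C := by
      intro y hy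
      refine Subgroup.mem_inf.2 ⟨hR.le hy, ?_⟩
      have h1 : y * d * y⁻¹ * d ∈ R := by
        have h2 : d * y⁻¹ * d⁻¹ ∈ R := (Subgroup.mem_normalizer_iff.1 (hRd (Subgroup.mem_zpowers d)) y⁻¹).1 (inv_mem hy)
        rw [hdi] at h2
        have h3 : y * d * y⁻¹ * d = y * (d * y⁻¹ * d) := by group
        rw [h3]; exact mul_mem hy h2
      obtain ⟨k, hk⟩ := hprod _ (hconj y) d hd1
      obtain ⟨j, hj⟩ := (IsPGroup.iff_orderOf.1 hR.isPGroup) ⟨_, h1⟩
      rw [Subgroup.orderOf_mk, hk] at hj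
      have h4 : orderOf (y * d * y⁻¹ * d) = 1 := by
        rw [hk]
        rcases Nat.eq_zero_or_pos k with h5 | h5
        · rw [h5, pow_zero]
        · exfalso
          have h6 : p ∣ r ^ j := by rw [← hj]; exact dvd_pow_self p h5.ne'
          have h7 := hp.dvd_of_dvd_pow h6
          exact hrp ((Nat.prime_dvd_prime_iff_eq hp hr).1 h7).symm
      rw [orderOf_eq_one_iff] at h4
      rw [Subgroup.mem_centralizer_singleton_iff]
      have h5 : y * d * y⁻¹ = d := by
        have := eq_inv_of_mul_eq_one_left h4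
        rw [this, hdi]
      rwa [mul_inv_eq_iff_eq_mul] at h5
    apply hR.not_dvd
    exact hdvd.trans (Cfsg.Agent.H19.relIndex_dvd_relIndex' hRC inf_le_left)
  obtain ⟨P, hP, hPd⟩ := Cfsg.Agent.H23.exists_invariant_sylow hn hcop (Or.inl (H4.zpowers_solvable d)) p
  have hfac : ∀ k : K, ∃ x ∈ P.subgroupOf K, ∃ y ∈ C.subgroupOf K, k = x * y := by
    apply Cfsg.Agent.H1.factor_of_coprime_index
    apply Nat.coprime_of_dvd
    intro r hr h1 h2
    by_cases hrp : r = p
    · rw [hrp] at h1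
      exact hP.not_dvd h1
    · exact hidx r hr hrp h2
  have hPmem : ∀ a ∈ conjugatesOf d, ∃ y ∈ P, a = y * d * y⁻¹ := by
    intro a ha
    obtain ⟨g, rfl⟩ := isConj_iff.1 ha
    obtain ⟨k, hk, c, hc, rfl⟩ := H4.zstar_factor hiso g
    obtain ⟨x, hx, y, hy, hxy⟩ := hfac ⟨k, hk⟩
    have hk' : k = (x : G) * (y : G) := congrArg Subtype.val hxy
    have hyC : (y : G) ∈ Subgroup.centralizer ({d} : Set G) := (Subgroup.mem_subgroupOf.1 hy).2
    rw [Subgroup.mem_centralizer_singleton_iff] at hc hyC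
    refine ⟨x, Subgroup.mem_subgroupOf.1 hx, ?_⟩
    have h1 : (k * c) * d * (k * c)⁻¹ = k * (c * d * c⁻¹) * k⁻¹ := by group
    have h2 : c * d * c⁻¹ = d := by rw [hc]; group
    rw [h1, h2, hk']
    have h3 : (x : G) * (y : G) * d * ((x : G) * (y : G))⁻¹ = (x : G) * ((y : G) * d * (y : G)⁻¹) * (x : G)⁻¹ := by group
    have h4 : (y : G) * d * (y : G)⁻¹ = d := by rw [hyC]; group
    rw [h3, h4]
  have habP : ∀ a ∈ conjugatesOf d, ∀ b ∈ conjugatesOf d, a * b ∈ P := by
    intro a ha b hb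
    obtain ⟨y, hy, rfl⟩ := hPmem a ha
    obtain ⟨y', hy', rfl⟩ := hPmem b hb
    have h1 : d * (y⁻¹ * y') * d⁻¹ ∈ P :=
      (Subgroup.mem_normalizer_iff.1 (hPd (Subgroup.mem_zpowers d)) _).1 (mul_mem (inv_mem hy) hy')
    rw [hdi] at h1
    have h2 : y * d * y⁻¹ * (y' * d * y'⁻¹) = y * (d * (y⁻¹ * y') * d) * y'⁻¹ := by group
    rw [h2]
    exact mul_mem (mul_mem hy h1) (inv_mem hy')
  set X : Set G := {w | ∃ a ∈ conjugatesOf d, ∃ b ∈ conjugatesOf d, w = a * b} with hX
  have hMn : (Subgroup.closure X).Normal := by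
    rw [← Subgroup.normalizer_eq_top_iff, eq_top_iff]
    intro g _
    have hle : ∀ g : G, ∀ w ∈ Subgroup.closure X, g * w * g⁻¹ ∈ Subgroup.closure X := by
      intro g w hw
      induction hw using Subgroup.closure_induction with
      | mem w hw =>
        obtain ⟨a, ha, b, hb, rfl⟩ := hw
        apply Subgroup.subset_closure
        refine ⟨g * a * g⁻¹, IsConj.trans ha (isConj_iff.2 ⟨g, rfl⟩), g * b * g⁻¹, IsConj.trans hb (isConj_iff.2 ⟨g, rfl⟩), ?_⟩
        group
      | one => rw [mul_one, mul_inv_cancel]; exact one_mem _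
      | mul x y _ _ hx hy =>
        have : g * (x * y) * g⁻¹ = (g * x * g⁻¹) * (g * y * g⁻¹) := by group
        rw [this]; exact mul_mem hx hy
      | inv x _ hx =>
        have : g * x⁻¹ * g⁻¹ = (g * x * g⁻¹)⁻¹ := by group
        rw [this]; exact inv_mem hx
    rw [Subgroup.mem_normalizer_iff]
    intro w
    refine ⟨hle g w, fun hw => ?_⟩
    have := hle g⁻¹ _ hw
    have h2 : g⁻¹ * (g * w * g⁻¹) * g⁻¹⁻¹ = w := by group
    rwa [h2] at this
  have hMp : IsPGroup p (Subgroup.closure X) := by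
    apply hP.isPGroup.to_le
    rw [Subgroup.closure_le]
    rintro w ⟨a, ha, b, hb, rfl⟩
    exact habP a ha b hb
  intro a ha b hb
  exact Cfsg.Agent.H1.le_pCore hMn hMp (Subgroup.subset_closure ⟨a, ha, b, hb, rfl⟩)

end Cfsg.Agent.S5560
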