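import Cfsg.Statements.S1618
import Cfsg.Agent.S5560
import Cfsg.Agent.H1.Cores

set_option autoImplicit false
open Cfsg

namespace Cfsg.Agent.S1618

open Cfsg.Agent

/-- A group generated by a class of involutions whose pairwise products (of distinct members) have p-power order for a fixed odd prime p has nilpotent derived subgroup. -/
theorem result {G : Type*} [Group G] [Finite G] (p : ℕ) (hp : p.Prime) (hodd : p ≠ 2) {D : Set G} (hinv : ∀ d ∈ D, orderOf d = 2) (hconj : ∃ d ∈ D, D = conjugatesOf d) (hgen : Subgroup.closure D = ⊤) (hprod : ∀ x ∈ D, ∀ y ∈ D, x ≠ y → ∃ k : ℕ, orderOf (x * y) = p ^ k) : Group.IsNilpotent ↥(commutator G) := by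
  have hfp : Fact p.Prime := ⟨hp⟩
  obtain ⟨d, hdD, hD⟩ := hconj
  have hmem : ∀ a, a ∈ conjugatesOf d → a ∈ D := fun a ha => by rw [hD]; exact ha
  have h := Cfsg.Agent.S5560.result hp hodd d (hinv d hdD) (by
    intro a ha b hb
    by_cases hab : a = b
    · refine ⟨0, ?_⟩
      have h1 := hinv b (hmem b hb)
      rw [hab, pow_zero, orderOf_eq_one_iff, ← pow_two, ← h1, pow_orderOf_eq_one]
    · exact hprod a (hmem a ha) b (hmem b hb) hab)
  -- every element is `1` or `d` modulo the core
  set N := Cfsg.pCore p G with hN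
  have hNn : N.Normal := inferInstance
  have hcomm : commutator G ≤ N := by
    rw [commutator_def, Subgroup.commutator_le]
    have hc : ∀ a ∈ (⊤ : Subgroup G), ∀ b ∈ (⊤ : Subgroup G), (QuotientGroup.mk a : G ⧸ N) * QuotientGroup.mk b =
        QuotientGroup.mk b * QuotientGroup.mk a := by
      have hdeq : ∀ a ∈ D, (QuotientGroup.mk a : G ⧸ N) = QuotientGroup.mk d := by
        intro a ha
        have ha' : a ∈ conjugatesOf d := by rw [← hD]; exact ha
        rw [QuotientGroup.eq]
        have h1 := h a ha' d mem_conjugatesOf_self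
        have h2 : a⁻¹ = a := by
          rw [inv_eq_iff_mul_eq_one, ← pow_two, ← hinv a ha, pow_orderOf_eq_one]
        rw [h2]; exact h1
      have hz : ∀ a ∈ Subgroup.closure D, ∃ n : ℤ, (QuotientGroup.mk a : G ⧸ N) = (QuotientGroup.mk d : G ⧸ N) ^ n := by
        intro a ha
        induction ha using Subgroup.closure_induction with
        | mem x hx => exact ⟨1, by rw [hdeq x hx, zpow_one]⟩
        | one => exact ⟨0, by rw [zpow_zero]; rfl⟩
        | mul x y _ _ hx hy =>
          obtain ⟨m, hm⟩ := hx
          obtain ⟨n, hn⟩ := hy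
          exact ⟨m + n, by rw [QuotientGroup.mk_mul, hm, hn, zpow_add]⟩
        | inv x _ hx =>
          obtain ⟨m, hm⟩ := hx
          exact ⟨-m, by rw [QuotientGroup.mk_inv, hm, zpow_neg]⟩
      intro a ha b hb
      rw [← hgen] at ha hb
      obtain ⟨m, hm⟩ := hz a ha
      obtain ⟨n, hn⟩ := hz b hb
      rw [hm, hn, ← zpow_add, ← zpow_add, add_comm]
    intro a ha b hb
    have h1 := hc a ha b hb
    rw [← QuotientGroup.eq_one_iff, commutatorElement_def]
    simp only [QuotientGroup.mk_mul, QuotientGroup.mk_inv]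
    rw [h1]
    group
  have hp1 : IsPGroup p N := Cfsg.Agent.H1.pCore_isPGroup p G
  have hp2 : IsPGroup p (commutator G) := hp1.to_le hcomm
  exact hp2.isNilpotent

end Cfsg.Agent.S1618
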