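import Cfsg.Statements.S1892
import Cfsg.Agent.H23.Coprime
import Cfsg.Agent.H23.PSolvable
import Cfsg.Agent.H18.Basics
import Cfsg.Agent.H14.Conj
import Cfsg.Agent.H1.Coprime
import Cfsg.Agent.H1.Cores

set_option autoImplicit false
open Cfsg

namespace Cfsg.Agent.S1892

/-- Let S be a finite p-solvable group with no nontrivial normal subgroup of order prime to p, A a p-subgroup of S, and Q a nontrivial A-invariant subgroup of order prime to p with [A, Q] = Q. Then the commutator [O_p(S), A, Q] is nontrivial. -/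
theorem result {S : Type*} [Group S] [Finite S] {p : ℕ} [Fact p.Prime]
    (hS : Cfsg.IsPSolvable p S) (hred : Cfsg.pPrimeCore p S = ⊥)
    (A Q : Subgroup S) (hA : IsPGroup p A) (hQ : ¬ p ∣ Nat.card Q) (hQ1 : Q ≠ ⊥)
    (hinv : ∀ a ∈ A, ∀ x ∈ Q, a * x * a⁻¹ ∈ Q) (hAQ : ⁅A, Q⁆ = Q) :
    ⁅⁅Cfsg.pCore p S, A⁆, Q⁆ ≠ ⊥ := by
  intro hbot
  obtain ⟨R, hR⟩ : ∃ R, R = Cfsg.pCore p S := ⟨_, rfl⟩
  have hCR : Subgroup.centralizer (R : Set S) ≤ R := by
    rw [hR]; exact H23.centralizer_pCore_le hS hred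
  have hRn : R.Normal := by rw [hR]; infer_instance
  have hRp : IsPGroup p R := by rw [hR]; exact H1.pCore_isPGroup p S
  rw [← hR] at hbot
  have hall : ∀ H : Subgroup S, H ≤ Subgroup.normalizer (R : Set S) := fun H => by
    rw [Subgroup.normalizer_eq_top R]; exact le_top
  have h0 : ⁅R, A⁆ ≤ Subgroup.centralizer (Q : Set S) := by
    rwa [Subgroup.commutator_eq_bot_iff_le_centralizer] at hbot
  have hRA : ⁅R, A⁆ ≤ R := Subgroup.commutator_le_left R A
  have h1 : ⁅⁅A, Q⁆, R⁆ ≤ ⁅R, A⁆ := by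
    apply H18.three_subgroups_le
    · exact H1.right_le_normalizer_commutator R A
    · intro q hq
      rw [H14.mem_normalizer_cj]
      apply H14.cj_eq_of_mem_centralizer
      rw [Subgroup.mem_centralizer_iff]
      intro x hx
      exact ((Subgroup.mem_centralizer_iff.1 (h0 hx)) q hq).symm
    · exact H1.left_le_normalizer_commutator R A
    · rw [Subgroup.commutator_comm Q R]
      exact Subgroup.commutator_mono (Subgroup.commutator_le_left R Q) le_rfl
    · rw [hbot]; exact bot_le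
  rw [hAQ, Subgroup.commutator_comm] at h1
  have hcop : (Nat.card Q).Coprime (Nat.card R) := by
    obtain ⟨n, hn⟩ := IsPGroup.iff_card.1 hRp
    rw [hn]
    exact Nat.Coprime.pow_right _ ((Nat.Prime.coprime_iff_not_dvd Fact.out).2 hQ).symm
  have h2 : R ≤ Subgroup.centralizer (Q : Set S) :=
    H23.le_centralizer_of_commutator_le (hall Q) hcop h1 h0
  have h3 : Q ≤ R := by
    refine le_trans ?_ hCR
    rw [Subgroup.le_centralizer_iff]; exact h2
  apply hQ1
  have h4 : Q ⊓ R = ⊥ := H23.inf_eq_bot_of_coprime hcop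
  rwa [inf_eq_left.2 h3] at h4

end Cfsg.Agent.S1892
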