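import Cfsg.Statements.S1893
import Cfsg.Agent.H2.StabOdd
import Cfsg.Agent.H23.Nilp
import Cfsg.Agent.H23.PSolvable
import Cfsg.Agent.H14.PiCore
import Cfsg.Agent.H1.Chief
import Cfsg.Agent.H11.PPart
import Cfsg.Agent.H13.SZ
import Cfsg.Agent.H10.OE4

set_option autoImplicit false
open Cfsg

namespace Cfsg.Agent.S1893

open Subgroup
open scoped commutatorElement

/-- decomposition into the q-part and the q'-part -/
theorem decomp {S : Type*} [Group S] [Finite S] {q : ℕ} [hq : Fact q.Prime] (x : S) :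
    ∃ y z : S, y ∈ zpowers x ∧ z ∈ zpowers x ∧ x = y * z ∧ (∃ k, y ^ q ^ k = 1) ∧ ¬ q ∣ orderOf z := by
  have hx0 : orderOf x ≠ 0 := (orderOf_pos x).ne'
  obtain ⟨k, b, hb, hk⟩ := Nat.exists_eq_pow_mul_and_not_dvd hx0 q hq.out.ne_one
  have hcop : Nat.Coprime (q ^ k) b := Nat.Coprime.pow_left k ((Nat.Prime.coprime_iff_not_dvd hq.out).mpr hb)
  have hbez := Nat.gcd_eq_gcd_ab (q ^ k) b
  rw [hcop] at hbez
  refine ⟨x ^ ((b : ℤ) * Nat.gcdB (q ^ k) b), x ^ (((q ^ k : ℕ) : ℤ) * Nat.gcdA (q ^ k) b),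
    zpow_mem (mem_zpowers x) _, zpow_mem (mem_zpowers x) _, ?_, ⟨k, ?_⟩, ?_⟩
  · rw [← zpow_add]
    conv_lhs => rw [← zpow_one x]
    congr 1
    have : (1 : ℤ) = ((1 : ℕ) : ℤ) := rfl
    rw [this, hbez]; ring
  · rw [← zpow_natCast, ← zpow_mul]
    have : (b : ℤ) * Nat.gcdB (q ^ k) b * ((q ^ k : ℕ) : ℤ) = (orderOf x : ℤ) * Nat.gcdB (q ^ k) b := by
      rw [hk]; push_cast; ring
    rw [this, zpow_mul, zpow_natCast, pow_orderOf_eq_one, one_zpow]
  · intro h
    have h1 : (x ^ (((q ^ k : ℕ) : ℤ) * Nat.gcdA (q ^ k) b)) ^ b = 1 := by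
      rw [← zpow_natCast, ← zpow_mul]
      have : ((q ^ k : ℕ) : ℤ) * Nat.gcdA (q ^ k) b * (b : ℤ) = (orderOf x : ℤ) * Nat.gcdA (q ^ k) b := by
        rw [hk]; push_cast; ring
      rw [this, zpow_mul, zpow_natCast, pow_orderOf_eq_one, one_zpow]
    exact hb (h.trans (orderOf_dvd_of_pow_eq_one h1))

theorem mem_fitting_of_quad {S : Type*} [Group S] [Finite S] (hs : Group.IsSolvable S) {q : ℕ} [hq : Fact q.Prime]
    (hq5 : 5 ≤ q) {x : S} (hquad : ⁅⁅pCore q S, zpowers x⁆, zpowers x⁆ = ⊥)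
    (hcent : ∀ f ∈ fittingSubgroup S, ¬ q ∣ orderOf f → f * x = x * f) : x ∈ fittingSubgroup S := by
  have hno := Cfsg.Agent.H2.not_SLConcl_of_pSolvable (G := S) hq5
    (Cfsg.Agent.H23.isPSolvable_of_isSolvable hs)
  obtain ⟨D, hD, hxD, hDp⟩ := Cfsg.Agent.H2.pInf_of_not_SLConcl (by omega) hno (pCore q S)
    (Cfsg.Agent.H1.pCore_isPGroup q S) x hquad
  obtain ⟨F', hF'⟩ : ∃ F' : Set S, F' = {f | f ∈ fittingSubgroup S ∧ ¬ q ∣ orderOf f} := ⟨_, rfl⟩
  obtain ⟨N, hN⟩ : ∃ N, N = D ⊓ centralizer F' := ⟨_, rfl⟩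
  have hCn : (centralizer F').Normal := by
    constructor
    intro c hc g
    rw [mem_centralizer_iff] at hc ⊢
    intro f hf
    have hf2 : g⁻¹ * f * g ∈ F' := by
      rw [hF'] at hf ⊢
      refine ⟨?_, ?_⟩
      · have := (Cfsg.Agent.H1.fitting_normal S).conj_mem f hf.1 g⁻¹
        rwa [inv_inv] at this
      · have e : orderOf (g⁻¹ * f * g) = orderOf f := by
          have := MulEquiv.orderOf_eq (MulAut.conj g⁻¹) f
          rw [MulAut.conj_apply, inv_inv] at this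
          exact this
        rw [e]; exact hf.2
    have h1 := hc _ hf2
    calc f * (g * c * g⁻¹) = g * ((g⁻¹ * f * g) * c) * g⁻¹ := by group
      _ = g * (c * (g⁻¹ * f * g)) * g⁻¹ := by rw [h1]
      _ = g * c * g⁻¹ * f := by group
  have hNn : N.Normal := by rw [hN]; infer_instance
  have hxN : x ∈ N := by
    rw [hN]
    refine mem_inf.mpr ⟨hxD, mem_centralizer_iff.mpr fun f hf => ?_⟩
    rw [hF'] at hf
    exact hcent f hf.1 hf.2
  have hcen : ∀ n ∈ N, ∃ k : ℕ, ∀ m ∈ N, n ^ q ^ k * m = m * n ^ q ^ k := by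
    intro n hn
    rw [hN] at hn
    obtain ⟨k, hk⟩ := hDp n hn.1
    have hzC : n ^ q ^ k ∈ centralizer F' := pow_mem hn.2 _
    obtain ⟨z, hz⟩ : ∃ z, z = n ^ q ^ k := ⟨_, rfl⟩
    rw [← hz] at hk hzC
    have hzF : z ∈ fittingSubgroup S := by
      apply Cfsg.Agent.H1.centralizer_fitting_le hs
      rw [mem_centralizer_iff]
      intro f hf
      obtain ⟨a, b, ha, hb, hab, hap, hbp⟩ := decomp (q := q) f
      have haF : a ∈ fittingSubgroup S := by
        have : zpowers f ≤ fittingSubgroup S := by rwa [zpowers_le]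
        exact this ha
      have hbF : b ∈ fittingSubgroup S := by
        have : zpowers f ≤ fittingSubgroup S := by rwa [zpowers_le]
        exact this hb
      have haV : a ∈ pCore q S := by
        apply Cfsg.Agent.H23.mem_pCore_of_mem_fitting haF
        obtain ⟨j, hj⟩ := hap
        intro w
        obtain ⟨i, hi⟩ := mem_zpowers_iff.mp w.2
        refine ⟨j, Subtype.ext ?_⟩
        rw [coe_pow, ← hi, ← zpow_natCast, ← zpow_mul, mul_comm, zpow_mul, zpow_natCast, hj, one_zpow]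
        rfl
      have h1 : a * z = z * a := mem_centralizer_iff.mp hk a haV
      have h2 : b * z = z * b := mem_centralizer_iff.mp hzC b (by rw [hF']; exact ⟨hbF, hbp⟩)
      rw [hab]
      calc a * b * z = a * (b * z) := by group
        _ = (a * z) * b := by rw [h2]; group
        _ = z * (a * b) := by rw [h1]; group
    obtain ⟨a, b, ha, hb, hab, ⟨j, hj⟩, hbp⟩ := decomp (q := q) z
    have hbF : b ∈ fittingSubgroup S := by
      have : zpowers z ≤ fittingSubgroup S := by rwa [zpowers_le]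
      exact this hb
    have hcomm : Commute a b := by
      obtain ⟨i, rfl⟩ := mem_zpowers_iff.mp ha
      obtain ⟨i', rfl⟩ := mem_zpowers_iff.mp hb
      exact (Commute.refl z).zpow_zpow i i'
    refine ⟨k + j, fun m hm => ?_⟩
    rw [pow_add, pow_mul, ← hz, hab, hcomm.mul_pow, hj, one_mul]
    rw [hN] at hm
    have h1 := mem_centralizer_iff.mp hm.2 b (by rw [hF']; exact ⟨hbF, hbp⟩)
    exact Commute.pow_left h1 _
  have hnil : Group.IsNilpotent N := by
    have hq2 : IsPGroup q (N ⧸ center N) := by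
      intro w
      obtain ⟨n, rfl⟩ := QuotientGroup.mk_surjective w
      obtain ⟨k, hk⟩ := hcen n n.2
      refine ⟨k, ?_⟩
      rw [← QuotientGroup.mk_pow, QuotientGroup.eq_one_iff, mem_center_iff]
      intro m
      exact Subtype.ext (hk m m.2).symm
    have : Group.IsNilpotent (N ⧸ center N) := hq2.isNilpotent
    exact Group.of_quotient_center_nilpotent this
  exact Cfsg.Agent.H1.le_fitting hNn hnil hxN

theorem comm_q {S : Type*} [Group S] [Finite S] {q : ℕ} [hq : Fact q.Prime] {a f : S} (ha : a ∈ pCore q S)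
    (hf : f ∈ fittingSubgroup S) (hfq : ¬ q ∣ orderOf f) : a * f = f * a := by
  have hVn : (pCore q S).Normal := Cfsg.Agent.H1.pCore_normal q S
  have hWn : (pPrimeCore q S).Normal := Cfsg.Agent.H1.pPrimeCore_normal q S
  have hdis := Cfsg.Agent.H1.pCore_inf_pPrimeCore (G := S) q
  have hcomm : ∀ v ∈ pCore q S, ∀ w ∈ pPrimeCore q S, v * w = w * v := by
    intro v hv w hw
    have h1 : v * w * v⁻¹ * w⁻¹ ∈ pCore q S ⊓ pPrimeCore q S := by
      refine mem_inf.mpr ⟨?_, ?_⟩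
      · have e : v * w * v⁻¹ * w⁻¹ = v * (w * v⁻¹ * w⁻¹) := by group
        rw [e]; exact mul_mem hv (hVn.conj_mem _ (inv_mem hv) w)
      · exact mul_mem (hWn.conj_mem _ hw v) (inv_mem hw)
    rw [hdis, mem_bot] at h1
    have h2 : v * w * v⁻¹ = w := mul_inv_eq_one.mp h1
    exact mul_inv_eq_iff_eq_mul.mp h2
  rw [Cfsg.Agent.H1.fitting_eq_iSup_pCore] at hf
  have h1 := Cfsg.Agent.H1.iSup_pCore_eq_sup (G := S) q hf
  obtain ⟨v, hv, w, hw, rfl⟩ := mem_sup_of_normal_left.mp h1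
  have hvw := hcomm v hv w hw
  obtain ⟨m, hm⟩ : ∃ m, m = orderOf (v * w) := ⟨_, rfl⟩
  have h2 : (v * w) ^ m = 1 := by rw [hm, pow_orderOf_eq_one]
  have hc : Commute v w := hvw
  rw [hc.mul_pow] at h2
  have h3 : v ^ m ∈ pCore q S ⊓ pPrimeCore q S := by
    refine mem_inf.mpr ⟨pow_mem hv _, ?_⟩
    rw [eq_inv_of_mul_eq_one_left h2]
    exact inv_mem (pow_mem hw _)
  rw [hdis, mem_bot] at h3
  have h4 : v = 1 := by
    obtain ⟨k, hk⟩ := (Cfsg.Agent.H1.pCore_isPGroup q S) ⟨v, hv⟩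
    have h5 : v ^ q ^ k = 1 := congrArg Subtype.val hk
    rw [← orderOf_eq_one_iff]
    have h6 : Nat.Coprime m (q ^ k) := by
      apply Nat.Coprime.pow_right
      apply Nat.Coprime.symm
      rw [hm]
      exact (Nat.Prime.coprime_iff_not_dvd hq.out).mpr hfq
    exact Nat.eq_one_of_dvd_coprimes h6 (orderOf_dvd_of_pow_eq_one h3) (orderOf_dvd_of_pow_eq_one h5)
  rw [h4, one_mul]
  exact hcomm a ha w hw

theorem normal_pi_le {S : Type*} [Group S] [Finite S] {π : Set ℕ} {H N : Subgroup S} (hH : Cfsg.IsPiHall π H)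
    (hN : N.Normal) (hNπ : ∀ q : ℕ, q.Prime → q ∣ Nat.card N → q ∈ π) : N ≤ H := by
  rw [← relIndex_eq_one]
  by_contra h
  obtain ⟨q, hq, hqd⟩ := Nat.exists_prime_and_dvd h
  exact hH.2 q hq (hNπ q hq (hqd.trans (relIndex_dvd_card H N)))
    (hqd.trans (Cfsg.Agent.H13.relIndex_dvd_index_right H N))

theorem key {S : Type*} [Group S] [Finite S] (hs : Group.IsSolvable S)
    (π : Set ℕ) (h2 : 2 ∉ π) (h3 : 3 ∉ π) (H : Subgroup S) (hH : Cfsg.IsPiHall π H)
    (A : Subgroup S) (hA : Cfsg.IsSCN ((Cfsg.fittingSubgroup H).map H.subtype) A) {q : ℕ} [hq : Fact q.Prime]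
    (hqπ : q ∈ π) {x : S} (hx : ∀ a ∈ A, a * x = x * a) {k : ℕ} (hxk : x ^ q ^ k = 1) : x ∈ A := by
  classical
  obtain ⟨R, hR⟩ : ∃ R, R = piCore πᶜ S := ⟨_, rfl⟩
  have hRn : R.Normal := by rw [hR]; infer_instance
  have hRπ : ∀ r : ℕ, r.Prime → r ∣ Nat.card R → r ∉ π := by
    rw [hR]; exact Cfsg.Agent.H14.piCore_isPi πᶜ S
  have hO : piCore πᶜ (S ⧸ R) = ⊥ := by subst hR; exact Cfsg.Agent.H14.piCore_quotient πᶜ S
  obtain ⟨FH, hFH⟩ : ∃ FH, FH = (Cfsg.fittingSubgroup H).map H.subtype := ⟨_, rfl⟩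
  rw [← hFH] at hA
  obtain ⟨hA1, hA2, hA3⟩ := hA
  have hFHH : FH ≤ H := by rw [hFH]; exact map_subtype_le _
  have hAH : A ≤ H := hA1.trans hFHH
  have hHR : H ⊓ R = ⊥ := by
    apply inf_eq_bot_of_coprime
    exact Cfsg.Agent.H13.coprime_of_pi hH.1 (fun r hr hrπ hrd => hRπ r hr hrd hrπ)
  obtain ⟨φ, hφ⟩ : ∃ φ : S →* S ⧸ R, φ = QuotientGroup.mk' R := ⟨_, rfl⟩
  have hker : ∀ y : S, φ y = 1 ↔ y ∈ R := by
    intro y; rw [hφ]; exact QuotientGroup.eq_one_iff y
  have hsurj : Function.Surjective φ := by rw [hφ]; exact QuotientGroup.mk'_surjective R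
  have hinj : ∀ y ∈ H, φ y = 1 → y = 1 := by
    intro y hy h
    have : y ∈ H ⊓ R := mem_inf.mpr ⟨hy, (hker y).mp h⟩
    rwa [hHR, mem_bot] at this
  obtain ⟨F, hF⟩ : ∃ F, F = fittingSubgroup (S ⧸ R) := ⟨_, rfl⟩
  have hFn : F.Normal := by rw [hF]; exact Cfsg.Agent.H1.fitting_normal _
  have hFnil : Group.IsNilpotent F := by rw [hF]; exact Cfsg.Agent.H1.fitting_isNilpotent _
  have hFπ : ∀ r : ℕ, r.Prime → r ∣ Nat.card F → r ∈ π := by
    intro r hr hrd
    by_contra hrπ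
    haveI : Fact r.Prime := ⟨hr⟩
    obtain ⟨y, hy⟩ := exists_prime_orderOf_dvd_card' r hrd
    have h1 : pCore r (S ⧸ R) ≤ ⊥ := by
      rw [← hO]
      apply Cfsg.Agent.H14.le_piCore (Cfsg.Agent.H1.pCore_normal r _)
      intro t ht htd
      obtain ⟨j, hj⟩ := (Cfsg.Agent.H1.pCore_isPGroup r (S ⧸ R)).exists_card_eq
      rw [hj] at htd
      have : t = r := (Nat.prime_dvd_prime_iff_eq ht hr).mp (ht.dvd_of_dvd_pow htd)
      rw [this]; exact hrπ
    have h2 : (y : S ⧸ R) ∈ pCore r (S ⧸ R) := by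
      apply Cfsg.Agent.H23.mem_pCore_of_mem_fitting (by rw [← hF]; exact y.2)
      apply IsPGroup.of_card (n := 1)
      rw [Nat.card_zpowers, Subgroup.orderOf_coe, hy, pow_one]
    have h3 := h1 h2
    rw [mem_bot] at h3
    have h4 : y = 1 := Subtype.ext h3
    rw [h4, orderOf_one] at hy
    exact hr.one_lt.ne hy
  have hFH2 : F ≤ H.map φ := by
    have h1 := Cfsg.Agent.H13.hall_map hH R
    rw [← hφ] at h1
    exact normal_pi_le h1 hFn hFπ
  -- lifting elements of `F`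
  have hlift : ∀ f ∈ F, ∃ h ∈ FH, φ h = f := by
    obtain ⟨F₁, hF₁⟩ : ∃ F₁, F₁ = (F.comap φ).subgroupOf H := ⟨_, rfl⟩
    have hF₁n : F₁.Normal := by rw [hF₁]; infer_instance
    have hF₁m : ∀ h : H, h ∈ F₁ ↔ φ h ∈ F := by
      intro h; rw [hF₁]; rfl
    have hF₁nil : Group.IsNilpotent F₁ := by
      let ψ : F₁ →* F :=
        { toFun := fun h => ⟨φ h, (hF₁m h).mp h.2⟩
          map_one' := Subtype.ext (by simp)
          map_mul' := fun a b => Subtype.ext (by simp) }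
      refine Subgroup.isNilpotent_of_ker_le_center ψ ?_
      intro h hh
      have h1 : φ h = 1 := congrArg Subtype.val (MonoidHom.mem_ker.mp hh)
      have h2 : ((h : H) : S) = 1 := hinj _ (h : H).2 h1
      have h3 : h = 1 := Subtype.ext (Subtype.ext h2)
      rw [h3]; exact one_mem _
    have hle := Cfsg.Agent.H1.le_fitting hF₁n hF₁nil
    intro f hf
    obtain ⟨h, hh, rfl⟩ := hFH2 hf
    refine ⟨h, ?_, rfl⟩
    rw [hFH]
    exact ⟨⟨h, hh⟩, hle ((hF₁m _).mpr hf), rfl⟩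
  obtain ⟨B, hB⟩ : ∃ B, B = A.map φ := ⟨_, rfl⟩
  have hFB : ∀ f ∈ F, ∀ b ∈ B, f * b * f⁻¹ ∈ B := by
    intro f hf b hb
    obtain ⟨h, hh, rfl⟩ := hlift f hf
    rw [hB] at hb ⊢
    obtain ⟨a, ha, rfl⟩ := hb
    exact ⟨h * a * h⁻¹, (mem_normalizer_iff.mp (hA2 hh) a).mp ha, by simp⟩
  have hFC : ∀ f ∈ F, (∀ b ∈ B, f * b = b * f) → f ∈ B := by
    intro f hf hc
    obtain ⟨h, hh, rfl⟩ := hlift f hf
    rw [hB]
    refine ⟨h, ?_, rfl⟩
    have h1 : h ∈ FH ⊓ centralizer (A : Set S) := by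
      refine mem_inf.mpr ⟨hh, mem_centralizer_iff.mpr fun a ha => ?_⟩
      have h2 := hc (φ a) (by rw [hB]; exact ⟨a, ha, rfl⟩)
      have h3 : φ (a * h * a⁻¹ * h⁻¹) = 1 := by
        rw [map_mul, map_mul, map_mul, map_inv, map_inv, ← h2]
        group
      have h4 := hinj _ (mul_mem (mul_mem (mul_mem (hAH ha) (hFHH hh)) (inv_mem (hAH ha))) (inv_mem (hFHH hh))) h3
      have h5 : a * h * a⁻¹ = h := mul_inv_eq_one.mp h4
      exact mul_inv_eq_iff_eq_mul.mp h5
    rwa [hA3] at h1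
  have hcomm : ∀ c : S ⧸ R, (∀ b ∈ B, c * b = b * c) → ∀ f ∈ F, f * c * f⁻¹ * c⁻¹ ∈ B := by
    intro c hc f hf
    apply hFC
    · have e : f * c * f⁻¹ * c⁻¹ = f * (c * f⁻¹ * c⁻¹) := by group
      rw [e]; exact mul_mem hf (hFn.conj_mem _ (inv_mem hf) c)
    · intro b hb
      have h1 : f⁻¹ * b * f ∈ B := by
        have := hFB f⁻¹ (inv_mem hf) b hb
        rwa [inv_inv] at this
      have h2 := hc _ h1
      have h3 := hc b hb
      have h4 : c⁻¹ * b = b * c⁻¹ := by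
        calc c⁻¹ * b = c⁻¹ * (b * c) * c⁻¹ := by group
          _ = c⁻¹ * (c * b) * c⁻¹ := by rw [h3]
          _ = b * c⁻¹ := by group
      calc f * c * f⁻¹ * c⁻¹ * b = f * c * f⁻¹ * (c⁻¹ * b) := by group
        _ = f * (c * (f⁻¹ * b * f)) * f⁻¹ * c⁻¹ := by rw [h4]; group
        _ = b * (f * c * f⁻¹ * c⁻¹) := by rw [h2]; group
  obtain ⟨y, hy⟩ : ∃ y, y = φ x := ⟨_, rfl⟩
  have hyB : ∀ b ∈ B, y * b = b * y := by
    intro b hb
    rw [hB] at hb
    obtain ⟨a, ha, rfl⟩ := hb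
    rw [hy, ← map_mul, ← map_mul, hx a ha]
  have hyk : y ^ q ^ k = 1 := by rw [hy, ← map_pow, hxk, map_one]
  have hq5 : 5 ≤ q := by
    have h4 : q ≠ 2 := by rintro rfl; exact h2 hqπ
    have h5 : q ≠ 3 := by rintro rfl; exact h3 hqπ
    have h6 : q ≠ 4 := by rintro rfl; exact absurd hq.out (by norm_num)
    have := hq.out.two_le
    omega
  have hyF : y ∈ fittingSubgroup (S ⧸ R) := by
    refine mem_fitting_of_quad (q := q) (by infer_instance) hq5 ?_ ?_
    · have h1 : ⁅pCore q (S ⧸ R), zpowers y⁆ ≤ B := by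
        rw [commutator_le]
        intro v hv c hc
        have hvF : v ∈ F := by rw [hF]; exact Cfsg.Agent.H1.pCore_le_fitting q hv
        rw [commutatorElement_def]
        apply hcomm c _ v hvF
        intro b hb
        obtain ⟨i, rfl⟩ := mem_zpowers_iff.mp hc
        have h4 : Commute y b := hyB b hb
        exact h4.zpow_left i
      rw [commutator_eq_bot_iff_le_centralizer]
      refine h1.trans ?_
      intro b hb
      rw [mem_centralizer_iff]
      intro c hc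
      obtain ⟨i, rfl⟩ := mem_zpowers_iff.mp hc
      have h4 : Commute y b := hyB b hb
      exact h4.zpow_left i
    · intro f hf hfq
      obtain ⟨a, ha⟩ : ∃ a, a = f * y * f⁻¹ * y⁻¹ := ⟨_, rfl⟩
      have haB : a ∈ B := by rw [ha]; exact hcomm y hyB f (by rw [hF]; exact hf)
      have hay := hyB a haB
      have h4 : f * y * f⁻¹ = a * y := by rw [ha]; group
      have h5 : a ^ q ^ k = 1 := by
        have h6 : (f * y * f⁻¹) ^ q ^ k = 1 := by rw [conj_pow, hyk]; group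
        have h7 : Commute a y := hay.symm
        rw [h4, h7.mul_pow, hyk, mul_one] at h6
        exact h6
      have haF : a ∈ fittingSubgroup (S ⧸ R) := by
        have e : a = f * (y * f⁻¹ * y⁻¹) := by rw [ha]; group
        rw [e]
        exact mul_mem hf ((Cfsg.Agent.H1.fitting_normal _).conj_mem _ (inv_mem hf) y)
      have haV : a ∈ pCore q (S ⧸ R) := by
        apply Cfsg.Agent.H23.mem_pCore_of_mem_fitting haF
        intro w
        obtain ⟨i, hi⟩ := mem_zpowers_iff.mp w.2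
        refine ⟨k, Subtype.ext ?_⟩
        rw [coe_pow, ← hi, ← zpow_natCast, ← zpow_mul, mul_comm, zpow_mul, zpow_natCast, h5, one_zpow]
        rfl
      have haf := comm_q haV hf hfq
      have h6 : y⁻¹ * f * y = a * f := by
        have h7 : f * y = a * y * f := by rw [← h4]; group
        calc y⁻¹ * f * y = y⁻¹ * (f * y) := by group
          _ = y⁻¹ * (a * y) * f := by rw [h7]; group
          _ = y⁻¹ * (y * a) * f := by rw [hay]
          _ = a * f := by group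
      have h7 : a ^ orderOf f = 1 := by
        have h8 : (y⁻¹ * f * y) ^ orderOf f = 1 := by
          have : y⁻¹ * f * y = y⁻¹ * f * (y⁻¹)⁻¹ := by group
          rw [this, conj_pow, pow_orderOf_eq_one]; group
        have h9 : Commute a f := haf
        rw [h6, h9.mul_pow, pow_orderOf_eq_one, mul_one] at h8
        exact h8
      have h8 : a = 1 := by
        rw [← orderOf_eq_one_iff]
        have h9 : Nat.Coprime (orderOf f) (q ^ k) := by
          apply Nat.Coprime.pow_right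
          exact ((Nat.Prime.coprime_iff_not_dvd hq.out).mpr hfq).symm
        exact Nat.eq_one_of_dvd_coprimes h9 (orderOf_dvd_of_pow_eq_one h7) (orderOf_dvd_of_pow_eq_one h5)
      rw [h8, one_mul] at h4
      exact mul_inv_eq_iff_eq_mul.mp h4
  have hyB2 : y ∈ B := hFC y (by rw [hF]; exact hyF) hyB
  rw [hB] at hyB2
  obtain ⟨a, ha, hay⟩ := hyB2
  have h1 : a⁻¹ * x ∈ R := by
    rw [← hker, map_mul, map_inv, hay, hy, inv_mul_cancel]
  have hax : Commute a x := hx a ha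
  have h4 : a⁻¹ * x = 1 := by
    rw [← orderOf_eq_one_iff]
    by_contra h5
    obtain ⟨r, hr, hrd⟩ := Nat.exists_prime_and_dvd h5
    have h6 : r ∣ Nat.card R := by
      have h7 := orderOf_dvd_natCard (⟨_, h1⟩ : R)
      rw [Subgroup.orderOf_mk] at h7
      exact hrd.trans h7
    apply hRπ r hr h6
    have h7 : (a⁻¹ * x) ^ (orderOf a * q ^ k) = 1 := by
      rw [hax.inv_left.mul_pow, mul_comm (orderOf a), pow_mul x, hxk, one_pow, mul_one, mul_comm, pow_mul,
        inv_pow, pow_orderOf_eq_one, inv_one, one_pow]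
    have h8 := hrd.trans (orderOf_dvd_of_pow_eq_one h7)
    rcases (Nat.Prime.dvd_mul hr).mp h8 with h9 | h9
    · apply hH.1 r hr
      have h10 := orderOf_dvd_natCard (⟨a, hAH ha⟩ : H)
      rw [Subgroup.orderOf_mk] at h10
      exact h9.trans h10
    · have : r = q := (Nat.prime_dvd_prime_iff_eq hr hq.out).mp (hr.dvd_of_dvd_pow h9)
      rw [this]; exact hqπ
  have h5 : x = a := (inv_mul_eq_one.mp h4).symm
  rw [h5]; exact ha

/-- Let S be a finite solvable group, π a set of primes containing neither 2 nor 3, H a Hall π-subgroup of S, and A a self-centralizing normal subgroup of the Fitting subgroup F(H). Then C_S(A) = A × D for a normal subgroup D of C_S(A) whose order has no prime divisor in π. -/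
theorem result {S : Type*} [Group S] [Finite S] [Group.IsSolvable S]
    (π : Set ℕ) (h2 : 2 ∉ π) (h3 : 3 ∉ π) (H : Subgroup S) (hH : Cfsg.IsPiHall π H)
    (A : Subgroup S) (hA : Cfsg.IsSCN ((Cfsg.fittingSubgroup H).map H.subtype) A) :
    ∃ D : Subgroup S, D ≤ Subgroup.centralizer (A : Set S) ∧
      (∀ c ∈ Subgroup.centralizer (A : Set S), ∀ d ∈ D, c * d * c⁻¹ ∈ D) ∧
      A ⊓ D = ⊥ ∧ A ⊔ D = Subgroup.centralizer (A : Set S) ∧
      ∀ q : ℕ, q.Prime → q ∣ Nat.card D → q ∉ π := by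
  classical
  have hkey := fun {q : ℕ} [hq : Fact q.Prime] (hqπ : q ∈ π) {x : S} (hx : ∀ a ∈ A, a * x = x * a) {k : ℕ}
    (hxk : x ^ q ^ k = 1) => key inferInstance π h2 h3 H hH A hA hqπ hx hxk
  obtain ⟨C, hC⟩ : ∃ C, C = Subgroup.centralizer (A : Set S) := ⟨_, rfl⟩
  rw [← hC]
  have hCm : ∀ c, c ∈ C ↔ ∀ a ∈ A, a * c = c * a := fun c => by
    rw [hC, Subgroup.mem_centralizer_iff]; rfl
  have hAC : A ≤ C := by
    intro a ha
    rw [hC]
    rw [← hA.2.2] at ha
    exact (Subgroup.mem_inf.mp ha).2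
  have hAH : A ≤ H := hA.1.trans (Subgroup.map_subtype_le _)
  have hAn : (A.subgroupOf C).Normal := by
    constructor
    intro a ha c
    rw [Subgroup.mem_subgroupOf] at ha ⊢
    have h1 := (hCm c).mp c.2 a ha
    have e : ((c * a * c⁻¹ : C) : S) = a := by
      calc ((c * a * c⁻¹ : C) : S) = (c : S) * a * (c : S)⁻¹ := by simp
        _ = a := by rw [← h1]; group
    rw [e]; exact ha
  have hAπ : ∀ q : ℕ, q.Prime → q ∣ Nat.card A → q ∈ π := fun q hq hqd =>
    hH.1 q hq (hqd.trans (Subgroup.card_dvd_of_le hAH))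
  have hidx : ∀ q : ℕ, q.Prime → q ∈ π → ¬ q ∣ (A.subgroupOf C).index := by
    intro q hq hqπ hqd
    haveI : Fact q.Prime := ⟨hq⟩
    obtain ⟨Q⟩ : Nonempty (Sylow q C) := inferInstance
    have h1 : (Q : Subgroup C) ≤ A.subgroupOf C := by
      intro y hy
      rw [Subgroup.mem_subgroupOf]
      obtain ⟨k, hk⟩ := Q.isPGroup' ⟨y, hy⟩
      have h2 : (y : S) ^ q ^ k = 1 := by
        have := congrArg (fun z : (Q : Subgroup C) => ((z : C) : S)) hk
        simpa using this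
      exact hkey hqπ ((hCm y).mp y.2) h2
    exact Q.not_dvd_index (hqd.trans (Subgroup.index_dvd_of_le h1))
  have hcardA : Nat.card (A.subgroupOf C) = Nat.card A :=
    Nat.card_congr (Subgroup.subgroupOfEquivOfLe hAC).toEquiv
  have hcop : Nat.Coprime (Nat.card (A.subgroupOf C)) (A.subgroupOf C).index := by
    rw [hcardA]
    exact Cfsg.Agent.H13.coprime_of_pi hAπ hidx
  obtain ⟨K, hK⟩ := Subgroup.exists_right_complement'_of_coprime hcop
  have hKdis : ∀ y ∈ K, (y : S) ∈ A → y = 1 := by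
    intro y hy hyA
    have h1 := hK.disjoint
    rw [disjoint_iff] at h1
    have : y ∈ A.subgroupOf C ⊓ K := Subgroup.mem_inf.mpr ⟨Subgroup.mem_subgroupOf.mpr hyA, hy⟩
    rwa [h1, Subgroup.mem_bot] at this
  have hKtop : ∀ c : C, ∃ a : S, ∃ y : C, a ∈ A ∧ y ∈ K ∧ (c : S) = a * y := by
    intro c
    have h1 := hK.sup_eq_top
    have h4 : c ∈ A.subgroupOf C ⊔ K := by rw [h1]; trivial
    obtain ⟨a, ha, y, hy, rfl⟩ := Subgroup.mem_sup_of_normal_left.mp h4
    exact ⟨a, y, Subgroup.mem_subgroupOf.mp ha, hy, rfl⟩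
  refine ⟨K.map C.subtype, Subgroup.map_subtype_le _, ?_, ?_, ?_, ?_⟩
  · rintro c hc d ⟨y, hy, rfl⟩
    obtain ⟨a, z, ha, hz, h1⟩ := hKtop ⟨c, hc⟩
    refine ⟨z * y * z⁻¹, mul_mem (mul_mem hz hy) (inv_mem hz), ?_⟩
    change (z : S) * y * (z : S)⁻¹ = c * y * c⁻¹
    have h4 : c = a * z := h1
    have h5 := (hCm _).mp (z * y * z⁻¹).2 a ha
    have h6 : a * ((z : S) * y * (z : S)⁻¹) = (z : S) * y * (z : S)⁻¹ * a := h5
    rw [h4]
    calc (z : S) * y * (z : S)⁻¹ = ((z : S) * y * (z : S)⁻¹ * a) * a⁻¹ := by group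
      _ = a * z * y * (a * z)⁻¹ := by rw [← h6]; group
  · rw [eq_bot_iff]
    rintro x hx
    obtain ⟨hxA, y, hy, rfl⟩ := Subgroup.mem_inf.mp hx
    have := hKdis y hy hxA
    rw [this]; simp
  · apply le_antisymm
    · exact sup_le hAC (Subgroup.map_subtype_le _)
    · intro c hc
      obtain ⟨a, z, ha, hz, h1⟩ := hKtop ⟨c, hc⟩
      have h4 : c = a * z := h1
      rw [h4]
      exact mul_mem (Subgroup.mem_sup_left ha) (Subgroup.mem_sup_right ⟨z, hz, rfl⟩)
  · intro q hq hqd hqπ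
    haveI : Fact q.Prime := ⟨hq⟩
    obtain ⟨⟨d, hd⟩, hd2⟩ := exists_prime_orderOf_dvd_card' q hqd
    rw [Subgroup.orderOf_mk] at hd2
    obtain ⟨y, hy, rfl⟩ := hd
    have h1 : (y : S) ^ q ^ 1 = 1 := by
      have : orderOf (C.subtype y) = q := hd2
      rw [pow_one]
      have h4 : (C.subtype y) ^ q = 1 := by rw [← this, pow_orderOf_eq_one]
      exact h4
    have h4 := hKdis y hy (hkey hqπ ((hCm y).mp y.2) h1)
    rw [h4, map_one, orderOf_one] at hd2
    exact hq.one_lt.ne hd2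

end Cfsg.Agent.S1893
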