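import Cfsg.Statements.S1894
import Cfsg.Agent.H2.Basic

set_option autoImplicit false
open Cfsg

namespace Cfsg.Agent.S1894

open scoped commutatorElement

/-- Let P be a finite p-group, A a normal subgroup of P and B an abelian subgroup of A that is normal in P. Then some subgroup C of A containing B is normal in P and is self-centralizing and normal in A (C ∈ SCN(A)). -/
theorem result {P : Type*} [Group P] [Finite P] {p : ℕ} [Fact p.Prime] (hP : IsPGroup p P)
    (A : Subgroup P) [A.Normal] (B : Subgroup P) [B.Normal] (hBA : B ≤ A) (hB : IsMulCommutative B) :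
    ∃ C : Subgroup P, C.Normal ∧ B ≤ C ∧ Cfsg.IsSCN A C := by
  obtain ⟨C, hC⟩ := (Set.toFinite {C : Subgroup P | C.Normal ∧ B ≤ C ∧ C ≤ A ∧ IsMulCommutative C}).exists_maximal
    ⟨B, ‹B.Normal›, le_rfl, hBA, hB⟩
  obtain ⟨⟨hCn, hBC, hCA, hCab⟩, hmax⟩ := hC
  refine ⟨C, hCn, hBC, hCA, ?_, ?_⟩
  · rw [Subgroup.normalizer_eq_top C]; exact le_top
  have hCle : C ≤ A ⊓ Subgroup.centralizer (C : Set P) := by
    refine le_inf hCA ?_
    intro x hx
    rw [Subgroup.mem_centralizer_iff]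
    intro y hy
    exact congrArg Subtype.val (hCab.is_comm.comm (⟨y, hy⟩ : C) ⟨x, hx⟩)
  by_contra hne
  have hlt : C < A ⊓ Subgroup.centralizer (C : Set P) := lt_of_le_of_ne hCle (Ne.symm hne)
  have hDn : (A ⊓ Subgroup.centralizer (C : Set P)).Normal := inferInstance
  obtain ⟨D, hD⟩ : ∃ D, D = A ⊓ Subgroup.centralizer (C : Set P) := ⟨_, rfl⟩
  rw [← hD] at hlt hDn
  have hQp : IsPGroup p (P ⧸ C) := hP.of_surjective (QuotientGroup.mk' C) (QuotientGroup.mk'_surjective C)
  obtain ⟨x, hxD, hxC⟩ := SetLike.exists_of_lt hlt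
  have hbarn : (D.map (QuotientGroup.mk' C)).Normal := hDn.map _ (QuotientGroup.mk'_surjective C)
  have hbarne : (D.map (QuotientGroup.mk' C)) ≠ ⊥ := by
    intro h
    rw [Subgroup.map_eq_bot_iff, QuotientGroup.ker_mk'] at h
    exact hxC (h hxD)
  have hint := H2.inf_center_ne_bot_of_normal hQp (D.map (QuotientGroup.mk' C)) hbarne
  obtain ⟨y, hy, hy1⟩ : ∃ y ∈ D.map (QuotientGroup.mk' C) ⊓ Subgroup.center (P ⧸ C), y ≠ 1 := by
    by_contra hcon
    push Not at hcon
    exact hint ((Subgroup.eq_bot_iff_forall _).2 hcon)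
  obtain ⟨⟨z, hzD, rfl⟩, hyc⟩ := Subgroup.mem_inf.1 hy
  have hzC : z ∉ C := by
    intro h
    apply hy1
    exact (QuotientGroup.eq_one_iff z).2 h
  -- E = C ⊔ zpowers z
  have hzcomm : ∀ g : P, ⁅g, z⁆ ∈ C := by
    intro g
    have h1 := Subgroup.mem_center_iff.1 hyc (QuotientGroup.mk' C g)
    rw [← map_mul, ← map_mul, QuotientGroup.mk'_eq_mk'] at h1
    obtain ⟨w, hw, hw'⟩ := h1
    have h2 : ⁅g, z⁆ = (z * g) * w⁻¹ * (z * g)⁻¹ := by
      rw [commutatorElement_def]
      have : g * z = z * g * w⁻¹ := by rw [← hw']; group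
      rw [this]; group
    rw [h2]
    exact hCn.conj_mem _ (C.inv_mem hw) _
  have hzcent : z ∈ Subgroup.centralizer (C : Set P) := by
    rw [hD] at hzD; exact (Subgroup.mem_inf.1 hzD).2
  have hEn : (C ⊔ Subgroup.zpowers z).Normal := by
    constructor
    intro n hn g
    rw [Subgroup.mem_sup_of_normal_left] at hn
    obtain ⟨c, hc, w, hw, rfl⟩ := hn
    have h1 : g * (c * w) * g⁻¹ = (g * c * g⁻¹) * (g * w * g⁻¹) := by group
    rw [h1]
    refine Subgroup.mul_mem _ ((le_sup_left : C ≤ _) (hCn.conj_mem c hc g)) ?_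
    obtain ⟨k, rfl⟩ := Subgroup.mem_zpowers_iff.1 hw
    rw [← conj_zpow]
    refine Subgroup.zpow_mem _ ?_ k
    have h2 : g * z * g⁻¹ = ⁅g, z⁆ * z := by rw [commutatorElement_def]; group
    rw [h2]
    exact Subgroup.mul_mem _ ((le_sup_left : C ≤ _) (hzcomm g)) ((le_sup_right : _ ≤ C ⊔ Subgroup.zpowers z) (Subgroup.mem_zpowers z))
  have hEab : IsMulCommutative (C ⊔ Subgroup.zpowers z : Subgroup P) := by
    refine ⟨⟨?_⟩⟩
    rintro ⟨a, ha⟩ ⟨b, hb⟩
    ext
    change a * b = b * a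
    rw [Subgroup.mem_sup_of_normal_left] at ha hb
    obtain ⟨c, hc, w, hw, rfl⟩ := ha
    obtain ⟨c', hc', w', hw', rfl⟩ := hb
    have e1 : c * c' = c' * c := congrArg Subtype.val (hCab.is_comm.comm (⟨c, hc⟩ : C) ⟨c', hc'⟩)
    have hz' : ∀ v ∈ Subgroup.zpowers z, ∀ d ∈ C, v * d = d * v := by
      intro v hv d hd
      have : Subgroup.zpowers z ≤ Subgroup.centralizer (C : Set P) := by rwa [Subgroup.zpowers_le]
      exact (Subgroup.mem_centralizer_iff.1 (this hv) d hd).symm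
    have e2 : w * w' = w' * w := by
      obtain ⟨k, rfl⟩ := Subgroup.mem_zpowers_iff.1 hw
      obtain ⟨l, rfl⟩ := Subgroup.mem_zpowers_iff.1 hw'
      rw [← zpow_add, ← zpow_add, add_comm]
    calc c * w * (c' * w') = c * (w * c') * w' := by group
      _ = c * (c' * w) * w' := by rw [hz' w hw c' hc']
      _ = (c * c') * (w * w') := by group
      _ = (c' * c) * (w' * w) := by rw [e1, e2]
      _ = c' * (c * w') * w := by group
      _ = c' * (w' * c) * w := by rw [hz' w' hw' c hc]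
      _ = _ := by group
  have hEA : C ⊔ Subgroup.zpowers z ≤ A := by
    refine sup_le hCA ?_
    rw [Subgroup.zpowers_le]
    rw [hD] at hzD; exact (Subgroup.mem_inf.1 hzD).1
  have := hmax ⟨hEn, hBC.trans le_sup_left, hEA, hEab⟩ le_sup_left
  exact hzC (this ((le_sup_right : _ ≤ C ⊔ Subgroup.zpowers z) (Subgroup.mem_zpowers z)))

end Cfsg.Agent.S1894
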