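import Cfsg.Statements.S1895
import Cfsg.Agent.H2.PRank2
import Cfsg.Agent.H23.Coprime3

set_option autoImplicit false
set_option linter.style.haveILetI false
set_option linter.unusedVariables false
set_option linter.unusedSectionVars false
open Cfsg

namespace Cfsg.Agent.S1895

/-- Let p be an odd prime and G a finite p-solvable group with no elementary abelian subgroup of order p³. Then every chief factor H/K of G (H, K normal in G with no normal subgroup of G strictly between them) whose order is a power of p has order p or p². -/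
theorem result {G : Type*} [Group G] [Finite G] {p : ℕ} [Fact p.Prime] (hp : p ≠ 2)
    (hG : Cfsg.IsPSolvable p G) (hr : Cfsg.PRankLE p 2 G)
    (H K : Subgroup G) [H.Normal] [K.Normal] (hKH : K < H) (hpow : ∃ n : ℕ, K.relIndex H = p ^ n)
    (hchief : ∀ L : Subgroup G, L.Normal → K ≤ L → L ≤ H → L = K ∨ L = H) :
    K.relIndex H = p ∨ K.relIndex H = p ^ 2 := by
  classical
  have hpp : p.Prime := Fact.out
  obtain ⟨n, hn⟩ := hpow
  have hn0 : n ≠ 0 := by
    rintro rfl
    rw [pow_zero, Subgroup.relIndex_eq_one] at hn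
    exact absurd hn (not_le_of_gt hKH)
  -- a Sylow subgroup of `H`
  obtain ⟨S⟩ : Nonempty (Sylow p H) := inferInstance
  obtain ⟨S', hS'⟩ : ∃ S' : Subgroup G, S' = S.toSubgroup.map H.subtype := ⟨_, rfl⟩
  have hS'H : S' ≤ H := by rw [hS']; exact Subgroup.map_subtype_le _
  have hS'p : IsPGroup p S' := by rw [hS']; exact S.2.map _
  have hfr : Subgroup.normalizer (S' : Set G) ⊔ H = ⊤ := by
    rw [hS']; exact Sylow.normalizer_sup_eq_top S
  -- `S' K = H`
  have hSK : S' ⊔ K = H := by
    apply le_antisymm (sup_le hS'H hKH.le)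
    rw [← Subgroup.relIndex_eq_one]
    have h1 : (S' ⊔ K).relIndex H ∣ p ^ n := by
      rw [← hn]; exact Subgroup.relIndex_dvd_of_le_left _ le_sup_right
    have h2 : (S' ⊔ K).relIndex H ∣ S'.relIndex H := Subgroup.relIndex_dvd_of_le_left _ le_sup_left
    have h3 : S'.relIndex H = S.toSubgroup.index := by
      rw [hS', Subgroup.relIndex, Subgroup.subgroupOf,
        Subgroup.comap_map_eq_self_of_injective H.subtype_injective]
    rw [h3] at h2
    obtain ⟨j, hj, hj'⟩ := (Nat.dvd_prime_pow hpp).1 h1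
    have hj0 : j = 0 := by
      by_contra hj0
      apply S.not_dvd_index
      refine dvd_trans ?_ h2
      rw [hj']
      exact dvd_pow_self p hj0
    rw [hj', hj0, pow_zero]
  -- minimal invariant subgroup not contained in `K`
  have hSK' : ¬ S' ≤ K := by
    intro h
    rw [sup_eq_right.2 h] at hSK
    exact hKH.ne hSK
  obtain ⟨P, hPS, hPmin⟩ := Set.Finite.exists_le_minimal
    (s := {P : Subgroup G | P ≤ S' ∧ Subgroup.normalizer (S' : Set G) ≤ Subgroup.normalizer (P : Set G) ∧ ¬ P ≤ K})
    (Set.toFinite _) (show S' ∈ _ from ⟨le_rfl, le_rfl, hSK'⟩)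
  obtain ⟨-, hPn, hPK⟩ := hPmin.prop
  have hPp : IsPGroup p P := hS'p.to_le hPS
  have hPne : P ≠ ⊥ := by
    rintro rfl
    exact hPK bot_le
  haveI : Nontrivial P := (Subgroup.nontrivial_iff_ne_bot P).2 hPne
  have hrP : ∀ A : Subgroup P, IsMulCommutative A → (∀ a ∈ A, a ^ p = 1) → Nat.card A ≤ p ^ 2 := by
    intro A hA hAp
    have h1 : Nat.card (A.map P.subtype) = Nat.card A :=
      Nat.card_congr (A.equivMapOfInjective _ P.subtype_injective).symm.toEquiv
    rw [← h1]
    apply hr
    · refine ⟨⟨?_⟩⟩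
      rintro ⟨_, ⟨a, ha, rfl⟩⟩ ⟨_, ⟨b, hb, rfl⟩⟩
      apply Subtype.ext
      have h2 : (⟨a, ha⟩ : A) * ⟨b, hb⟩ = ⟨b, hb⟩ * ⟨a, ha⟩ := hA.is_comm.comm _ _
      have h3 : a * b = b * a := congrArg Subtype.val h2
      show P.subtype a * P.subtype b = P.subtype b * P.subtype a
      rw [← map_mul, ← map_mul, h3]
    · rintro _ ⟨a, ha, rfl⟩
      rw [← map_pow, hAp a ha, map_one]
  obtain ⟨M, hMc, hMt, hMi⟩ := Cfsg.Agent.H2.PRank2.exists_char hp hPp hrP
  have hM'P : M.map P.subtype ≤ P := Subgroup.map_subtype_le _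
  have hM'ne : M.map P.subtype ≠ P := by
    intro h
    apply hMt
    apply Subgroup.map_injective P.subtype_injective
    rw [h, ← MonoidHom.range_eq_map, Subgroup.range_subtype]
  have hM'K : M.map P.subtype ≤ K := by
    by_contra hcon
    have h1 := hPmin.le_of_le (y := M.map P.subtype)
      ⟨hM'P.trans hPS, hPn.trans (Cfsg.Agent.H23.normalizer_le_normalizer_map M), hcon⟩ hM'P
    exact hM'ne (le_antisymm hM'P h1)
  -- `P K` is normal
  have hPKn : (P ⊔ K).Normal := by
    rw [← Subgroup.normalizer_eq_top_iff, eq_top_iff, ← hfr, ← hSK]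
    have h1 : Subgroup.normalizer (S' : Set G) ≤ Subgroup.normalizer ((P ⊔ K : Subgroup G) : Set G) := by
      intro g hg
      rw [Subgroup.mem_normalizer_iff_map_conj_eq]
      have e1 := Subgroup.mem_normalizer_iff_map_conj_eq.1 (hPn hg)
      have e2 : K.map (MulAut.conj g).toMonoidHom = K :=
        Subgroup.mem_normalizer_iff_map_conj_eq.1 (by
          rw [Subgroup.normalizer_eq_top]; exact Subgroup.mem_top g)
      rw [Subgroup.map_sup]
      exact congrArg₂ (· ⊔ ·) e1 e2
    refine sup_le h1 (sup_le (Subgroup.le_normalizer.trans h1) ?_)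
    exact le_sup_right.trans Subgroup.le_normalizer
  have hPKH : P ⊔ K = H := by
    rcases hchief (P ⊔ K) hPKn le_sup_right (sup_le (hPS.trans hS'H) hKH.le) with h | h
    · exact absurd (h ▸ (le_sup_left : P ≤ P ⊔ K)) hPK
    · exact h
  have hle : p ^ n ≤ p ^ 2 := by
    rw [← hn, ← hPKH, Subgroup.relIndex_sup_right]
    have h1 : K.relIndex P ∣ (M.map P.subtype).relIndex P := Subgroup.relIndex_dvd_of_le_left _ hM'K
    have h2 : (M.map P.subtype).relIndex P = M.index := by
      rw [Subgroup.relIndex, Subgroup.subgroupOf,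
        Subgroup.comap_map_eq_self_of_injective P.subtype_injective]
    rw [h2] at h1
    exact (Nat.le_of_dvd (Nat.pos_of_ne_zero Subgroup.index_ne_zero_of_finite) h1).trans hMi
  have hn2 : n ≤ 2 := (Nat.pow_le_pow_iff_right hpp.one_lt).1 hle
  have hn12 : n = 1 ∨ n = 2 := by omega
  rcases hn12 with rfl | rfl
  · left; rw [hn, pow_one]
  · right; exact hn

end Cfsg.Agent.S1895
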