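import Cfsg.Statements.S1898


set_option autoImplicit false
open Cfsg

namespace Cfsg.Agent.S1898

open scoped commutatorElement
theorem comm_sq {X : Type*} [Group X] (hcen : commutator X ≤ Subgroup.center X)
    (hel : ∀ a ∈ commutator X, a ^ 2 = 1) (x y : X) : (x * y) ^ 4 = x ^ 4 * y ^ 4 := by
  obtain ⟨c, hc⟩ : ∃ c, c = ⁅y, x⁆ := ⟨_, rfl⟩
  have hcm : c ∈ commutator X := by
    rw [hc]; exact Subgroup.commutator_mem_commutator (Subgroup.mem_top _) (Subgroup.mem_top _)
  have hcc := Subgroup.mem_center_iff.1 (hcen hcm)
  have hc2 := hel c hcm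
  rw [pow_two] at hc2
  have hyx : y * x = c * x * y := by rw [hc, commutatorElement_def]; group
  have hy2x : y * y * x = x * (y * y) := by
    calc y * y * x = y * (y * x) := by group
      _ = y * (c * x * y) := by rw [hyx]
      _ = (y * c) * x * y := by group
      _ = (c * y) * x * y := by rw [hcc y]
      _ = c * (y * x) * y := by group
      _ = c * (c * x * y) * y := by rw [hyx]
      _ = (c * c) * x * (y * y) := by group
      _ = _ := by rw [hc2, one_mul]
  have h2 : (x * y) * (x * y) = c * (x * x * (y * y)) := by
    calc (x * y) * (x * y) = x * (y * x) * y := by group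
      _ = x * (c * x * y) * y := by rw [hyx]
      _ = (x * c) * x * y * y := by group
      _ = (c * x) * x * y * y := by rw [hcc x]
      _ = _ := by group
  have h3 : (y * y) * (x * x) = (x * x) * (y * y) := by
    calc (y * y) * (x * x) = (y * y * x) * x := by group
      _ = (x * (y * y)) * x := by rw [hy2x]
      _ = x * (y * y * x) := by group
      _ = x * (x * (y * y)) := by rw [hy2x]
      _ = _ := by group
  calc (x * y) ^ 4 = ((x * y) * (x * y)) * ((x * y) * (x * y)) := by rw [show (4:ℕ) = 2 + 2 from rfl, pow_add, pow_two]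
    _ = c * (x * x * (y * y)) * (c * (x * x * (y * y))) := by rw [h2]
    _ = c * (x * x * (y * y) * c) * (x * x * (y * y)) := by group
    _ = c * (c * (x * x * (y * y))) * (x * x * (y * y)) := by rw [hcc]
    _ = (c * c) * ((x * x) * ((y * y) * (x * x)) * (y * y)) := by group
    _ = (x * x) * ((x * x) * (y * y)) * (y * y) := by rw [hc2, one_mul, h3]
    _ = _ := by rw [show (4:ℕ) = 2 + 2 from rfl, pow_add, pow_add, pow_two, pow_two]; group

/-- Let X be a finite 2-group whose derived subgroup is elementary abelian and central. Then the subgroup generated by the elements of order dividing 4 has exponent dividing 4, and every automorphism of X fixing each element of order dividing 4 has 2-power order. -/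
theorem result {X : Type*} [Group X] [Finite X] (hX : IsPGroup 2 X)
    (hel : Cfsg.IsElementaryAbelian 2 (commutator X)) (hcen : commutator X ≤ Subgroup.center X) :
    (∀ x ∈ Subgroup.closure {g : X | g ^ 4 = 1}, x ^ 4 = 1) ∧
      ∀ φ : MulAut X, (∀ g : X, g ^ 4 = 1 → φ g = g) → ∃ k : ℕ, φ ^ (2 ^ k) = 1 := by
  have hel' : ∀ a ∈ commutator X, a ^ 2 = 1 := hel.2
  refine ⟨?_, ?_⟩
  · intro x hx
    induction hx using Subgroup.closure_induction with
    | mem x hx => exact hx
    | one => simp
    | mul x y _ _ hx hy => rw [comm_sq hcen hel', hx, hy, one_mul]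
    | inv x _ hx => rw [inv_pow, hx, inv_one]
  · intro φ hφ
    have hpos : 0 < orderOf φ := orderOf_pos φ
    obtain ⟨k, r, hr, hkr⟩ := Nat.exists_eq_two_pow_mul_odd hpos.ne'
    refine ⟨k, ?_⟩
    obtain ⟨ψ, hψ⟩ : ∃ ψ, ψ = φ ^ (2 ^ k) := ⟨_, rfl⟩
    rw [← hψ]
    have hψr : ψ ^ r = 1 := by rw [hψ, ← pow_mul, ← hkr, pow_orderOf_eq_one]
    have hψ4 : ∀ g : X, g ^ 4 = 1 → ψ g = g := by
      intro g hg
      rw [hψ]
      have : ∀ n : ℕ, (φ ^ n) g = g := by
        intro n
        induction n with
        | zero => rfl
        | succ n ih => rw [pow_succ, MulAut.mul_apply, hφ g hg, ih]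
      exact this _
    have hmain : ∀ n : ℕ, ∀ g : X, orderOf g = n → ψ g = g := by
      intro n
      induction n using Nat.strong_induction_on with
      | _ n ih =>
      intro g hg
      by_cases hg1 : g = 1
      · rw [hg1, map_one]
      have hlt : orderOf (g ^ 2) < n := by
        obtain ⟨m, hm⟩ := (IsPGroup.iff_orderOf.1 hX) g
        have hm0 : m ≠ 0 := by
          rintro rfl
          rw [pow_zero, orderOf_eq_one_iff] at hm
          exact hg1 hm
        rw [← hg, orderOf_pow, hm]
        obtain ⟨m', rfl⟩ := Nat.exists_eq_succ_of_ne_zero hm0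
        have : Nat.gcd (2 ^ (m' + 1)) 2 = 2 := by
          rw [pow_succ]; exact Nat.gcd_eq_right (Dvd.intro_left _ rfl)
        rw [this]
        apply Nat.div_lt_self (by positivity) (by norm_num)
      have hfix2 := ih _ hlt (g ^ 2) rfl
      obtain ⟨h, hh⟩ : ∃ h, h = g⁻¹ * ψ g := ⟨_, rfl⟩
      have hψg : ψ g = g * h := by rw [hh]; group
      have h1 : h * (g * h * g⁻¹) = 1 := by
        rw [map_pow, hψg, pow_two, pow_two] at hfix2
        have : g * (h * (g * h * g⁻¹)) = g * 1 := by
          calc g * (h * (g * h * g⁻¹)) = (g * h * (g * h)) * g⁻¹ := by group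
            _ = g * g * g⁻¹ := by rw [hfix2]
            _ = g * 1 := by group
        exact mul_left_cancel this
      have h2 : h * h ∈ commutator X := by
        have h3 : h * h = (⁅g, h⁆)⁻¹ := by
          have : g * h * g⁻¹ = h⁻¹ := eq_inv_of_mul_eq_one_right h1
          rw [commutatorElement_def, this, mul_inv_rev, inv_inv]
        rw [h3]
        exact Subgroup.inv_mem _ (Subgroup.commutator_mem_commutator (Subgroup.mem_top _) (Subgroup.mem_top _))
      have h4 : h ^ 4 = 1 := by
        have := hel' _ h2
        rw [show (4:ℕ) = 2 * 2 from rfl, pow_mul, pow_two h]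
        exact this
      have hψh := hψ4 h h4
      have hpow : ∀ j : ℕ, (ψ ^ j) g = g * h ^ j := by
        intro j
        induction j with
        | zero => simp
        | succ j ihj =>
          rw [pow_succ', MulAut.mul_apply, ihj, map_mul, map_pow, hψh, hψg, pow_succ']
          group
      have h5 : h ^ r = 1 := by
        have := hpow r
        rw [hψr, MulAut.one_apply] at this
        exact (mul_eq_left.1 this.symm)
      have h6 : h = 1 := by
        have d1 := orderOf_dvd_of_pow_eq_one h4
        have d2 := orderOf_dvd_of_pow_eq_one h5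
        have hc : Nat.Coprime 4 r := by
          rw [show (4:ℕ) = 2 ^ 2 from rfl]
          exact Nat.Coprime.pow_left _ (Nat.coprime_two_left.2 hr)
        have := Nat.eq_one_of_dvd_coprimes hc d1 d2
        exact orderOf_eq_one_iff.1 this
      rw [hψg, h6, mul_one]
    ext g
    exact hmain _ g rfl

end Cfsg.Agent.S1898
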