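import Cfsg.Statements.S1899
import Cfsg.Agent.H23.Coprime

set_option autoImplicit false
open Cfsg

namespace Cfsg.Agent.S1899

open Subgroup

theorem pw {A : Type*} [CommGroup A] {n : ℕ} (hn : Odd n) (d : MulAut A) (hd : d ^ n = 1) (b : A)
    (h : d (d b) = b) : d b = b := by
  obtain ⟨k, rfl⟩ := hn
  have h1 : ∀ j : ℕ, (d ^ (2 * j)) b = b := by
    intro j
    induction j with
    | zero => simp
    | succ j ih =>
      rw [mul_add, mul_one, pow_add, pow_two, MulAut.mul_apply, MulAut.mul_apply, h, ih]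
  have h2 : (d ^ (2 * k + 1)) b = b := by rw [hd]; rfl
  rw [pow_succ', MulAut.mul_apply, h1] at h2
  exact h2

theorem small {A : Type*} [CommGroup A] [Finite A] (d : MulAut A) (I : Subgroup A)
    (h : I ⊓ I.map d.toMonoidHom = ⊥) :
    Nat.card (I.map d.toMonoidHom ⊔ I : Subgroup A) = Nat.card I * Nat.card I := by
  have h1 := H23.card_sup_of_inf_eq_bot (A := I) (G := I.map d.toMonoidHom)
    (by rw [normalizer_eq_top (I.map d.toMonoidHom)]; exact le_top) h
  rw [h1, card_map_of_injective]
  exact d.injective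

/-- Let a dihedral group of order 2n, n odd and n > 1, act on a finite abelian 2-group A through automorphisms d and t with d^n = 1, t² = 1 and t d t⁻¹ = d⁻¹, and suppose that d fixes only the identity. Then A is the internal direct product of C_A(t) and its image under d. -/
theorem result {A : Type*} [CommGroup A] [Finite A] (hA : IsPGroup 2 A)
    {n : ℕ} (hn : Odd n) (hn1 : 1 < n) (d t : MulAut A) (hd : d ^ n = 1) (ht : t ^ 2 = 1) (hdt : t * d * t⁻¹ = d⁻¹)
    (hfix : ∀ a : A, d a = a → a = 1) :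
    (MulEquiv.toMonoidHom t).eqLocus (MonoidHom.id A) ⊓ ((MulEquiv.toMonoidHom t).eqLocus (MonoidHom.id A)).map d.toMonoidHom = ⊥ ∧
      (MulEquiv.toMonoidHom t).eqLocus (MonoidHom.id A) ⊔ ((MulEquiv.toMonoidHom t).eqLocus (MonoidHom.id A)).map d.toMonoidHom = ⊤ := by
  obtain ⟨C, hC⟩ : ∃ C : Subgroup A, C = (MulEquiv.toMonoidHom t).eqLocus (MonoidHom.id A) := ⟨_, rfl⟩
  rw [← hC]
  have hmemC : ∀ a, a ∈ C ↔ t a = a := by intro a; rw [hC]; rfl
  have htd : ∀ a, t (d a) = d⁻¹ (t a) := by
    intro a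
    have h1 : t * d = d⁻¹ * t := by rw [← hdt]; group
    have := congrArg (fun f : MulAut A => f a) h1
    exact this
  have hdd : ∀ a b : A, d a = d⁻¹ b → d (d a) = b := by
    intro a b h
    rw [h]
    exact MulAut.apply_inv_self A d b
  have htt : ∀ a, t (t a) = a := by
    intro a
    have := congrArg (fun f : MulAut A => f a) ht
    simpa [pow_two] using this
  have hinf : C ⊓ C.map d.toMonoidHom = ⊥ := by
    rw [Subgroup.eq_bot_iff_forall]
    intro a ha
    obtain ⟨ha1, b, hb, rfl⟩ := mem_inf.1 ha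
    have hb' := (hmemC b).1 hb
    have ha' : t (d b) = d b := (hmemC _).1 ha1
    rw [htd, hb'] at ha'
    have h3 := pw hn d hd b (hdd b b ha'.symm)
    have h4 := hfix b h3
    change d b = 1
    rw [h4, map_one]
  refine ⟨hinf, ?_⟩
  -- inverted elements
  let I : Subgroup A :=
    { carrier := {a | t a = a⁻¹}
      mul_mem' := by
        intro a b ha hb
        simp only [Set.mem_setOf_eq] at ha hb ⊢
        rw [map_mul, ha, hb, mul_inv]
      one_mem' := by simp
      inv_mem' := by
        intro a ha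
        simp only [Set.mem_setOf_eq] at ha ⊢
        rw [map_inv, ha] }
  have hmemI : ∀ a, a ∈ I ↔ t a = a⁻¹ := fun a => Iff.rfl
  have hIinf : I ⊓ I.map d.toMonoidHom = ⊥ := by
    rw [Subgroup.eq_bot_iff_forall]
    intro a ha
    obtain ⟨ha1, b, hb, rfl⟩ := mem_inf.1 ha
    have hb' := (hmemI b).1 hb
    have ha' : t (d b) = (d b)⁻¹ := (hmemI _).1 ha1
    rw [htd, hb', map_inv, inv_inj] at ha'
    have h3 := pw hn d hd b (hdd b b ha'.symm)
    have h4 := hfix b h3
    change d b = 1
    rw [h4, map_one]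
  let φ : A →* A :=
    { toFun := fun a => t a * a⁻¹
      map_one' := by simp
      map_mul' := by intro a b; rw [map_mul, mul_inv]; exact mul_mul_mul_comm _ _ _ _ }
  have hker : φ.ker = C := by
    ext a
    rw [MonoidHom.mem_ker, hmemC]
    change t a * a⁻¹ = 1 ↔ _
    rw [mul_inv_eq_one]
  have hran : φ.range ≤ I := by
    rintro _ ⟨a, rfl⟩
    change t (t a * a⁻¹) = (t a * a⁻¹)⁻¹
    rw [map_mul, htt, map_inv, mul_inv, inv_inv, mul_comm]
  have hcard : Nat.card A = Nat.card φ.range * Nat.card C := by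
    rw [← hker, ← Nat.card_congr (QuotientGroup.quotientKerEquivRange φ).toEquiv]
    exact card_eq_card_quotient_mul_card_subgroup φ.ker
  have h1 : Nat.card φ.range ≤ Nat.card I := card_le_of_le hran
  have h2 := small d I hIinf
  have h3 := small d C hinf
  have h4 : Nat.card (I.map d.toMonoidHom ⊔ I : Subgroup A) ≤ Nat.card A := card_le_card_group _
  rw [sup_comm]
  rw [← card_eq_iff_eq_top]
  apply le_antisymm (card_le_card_group _)
  rw [h3]
  rw [h2] at h4
  have hpos : 0 < Nat.card A := Nat.card_pos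
  by_contra hlt
  push Not at hlt
  have h5 : Nat.card A * Nat.card A ≤ (Nat.card I * Nat.card I) * (Nat.card C * Nat.card C) := by
    calc Nat.card A * Nat.card A ≤ (Nat.card I * Nat.card C) * (Nat.card I * Nat.card C) := by
          rw [hcard]; exact Nat.mul_le_mul (Nat.mul_le_mul_right _ h1) (Nat.mul_le_mul_right _ h1)
      _ = _ := by ring
  have h6 : (Nat.card I * Nat.card I) * (Nat.card C * Nat.card C) ≤ Nat.card A * (Nat.card C * Nat.card C) :=
    Nat.mul_le_mul_right _ h4
  have h7 : Nat.card A * (Nat.card C * Nat.card C) < Nat.card A * Nat.card A :=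
    Nat.mul_lt_mul_of_pos_left hlt hpos
  omega

end Cfsg.Agent.S1899
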