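import Cfsg.Statements.S1900
import Cfsg.Agent.H23.Coprime4
import Cfsg.Agent.H18.Basics
import Cfsg.Agent.H1.Coprime
import Cfsg.Agent.H1.Coprime2
import Cfsg.Agent.H18.PCore
import Cfsg.Agent.H18.PRes

set_option autoImplicit false
open Cfsg

namespace Cfsg.Agent.S1900

open scoped commutatorElement
open Subgroup

theorem le_norm_of_conj {G : Type*} [Group G] {A N : Subgroup G}
    (h : ∀ a ∈ A, ∀ n ∈ N, a * n * a⁻¹ ∈ N) : A ≤ normalizer (N : Set G) :=
  H23.le_normalizer_of_conj_mem h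

section
variable {S : Type*} [Group S] [Finite S] {p q : ℕ} [Fact p.Prime] [Fact q.Prime]

theorem gen (hpq : p ≠ q) (P Q : Subgroup S) (hP : IsPGroup p P)
    (hQ : Cfsg.IsElementaryAbelian q Q) (hQc : Nat.card Q = q ^ 2) (X₁ X₂ : Subgroup S)
    (honly : ∀ X : Subgroup S, X ≤ Q → Nat.card X = q →
      P ⊓ Subgroup.centralizer (X : Set S) ≠ ⊥ → X = X₁ ∨ X = X₂)
    (N : Subgroup S) (hNP : N ≤ P) (hQN : Q ≤ normalizer (N : Set S)) :
    N ≤ (N ⊓ centralizer (X₁ : Set S)) ⊔ (N ⊓ centralizer (X₂ : Set S)) := by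
  have hnc : ¬ IsCyclic Q := by
    intro hc
    obtain ⟨g, hg⟩ := IsCyclic.exists_ofOrder_eq_natCard (α := Q)
    rw [hQc] at hg
    have h1 : g ^ q = 1 := Subtype.ext (hQ.2 g g.2)
    have h2 := orderOf_dvd_of_pow_eq_one h1
    rw [hg] at h2
    have h3 := Nat.le_of_dvd (Nat.Prime.pos Fact.out) h2
    have h4 : 2 ≤ q := Nat.Prime.two_le Fact.out
    nlinarith
  have hcop : (Nat.card Q).Coprime (Nat.card N) := by
    obtain ⟨k, hk⟩ := IsPGroup.iff_card.1 (hP.to_le hNP)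
    rw [hQc, hk]
    exact Nat.Coprime.pow _ _ ((Nat.coprime_primes Fact.out Fact.out).2 (Ne.symm hpq))
  have key := H23.iSup_centralizer_of_not_isCyclic hQ.1 hnc hQN hcop
  conv_lhs => rw [← key]
  refine iSup_le ?_
  rintro ⟨a, haQ, ha1⟩
  have hord : orderOf a = q := by
    have h1 := orderOf_dvd_of_pow_eq_one (hQ.2 a haQ)
    rcases (Nat.dvd_prime Fact.out).1 h1 with h | h
    · exact absurd (orderOf_eq_one_iff.1 h) ha1
    · exact h
  have hX : Nat.card (zpowers a) = q := by rw [Nat.card_zpowers, hord]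
  have hcent : centralizer ({a} : Set S) = centralizer ((zpowers a : Subgroup S) : Set S) := by
    rw [zpowers_eq_closure, centralizer_closure]
  change N ⊓ centralizer ({a} : Set S) ≤ _
  rw [hcent]
  by_cases hb : P ⊓ Subgroup.centralizer ((zpowers a : Subgroup S) : Set S) = ⊥
  · have : N ⊓ centralizer ((zpowers a : Subgroup S) : Set S) ≤ ⊥ := by
      rw [← hb]; exact inf_le_inf_right _ hNP
    exact this.trans bot_le
  · rcases honly _ (by rwa [zpowers_le]) hX hb with h | h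
    · rw [h]; exact le_sup_left
    · rw [h]; exact le_sup_right

theorem half (hpq : p ≠ q) (P Q : Subgroup S) (hP : IsPGroup p P)
    (hQab : ∀ x ∈ Q, ∀ y ∈ Q, x * y = y * x) (hQq : IsPGroup q Q)
    (hQP : Q ≤ normalizer (P : Set S)) (X₁ X₂ : Subgroup S) (h₁ : X₁ ≤ Q) (h₂ : X₂ ≤ Q)
    (hAB : P ⊓ centralizer (X₁ : Set S) ⊓ (P ⊓ centralizer (X₂ : Set S)) = ⊥)
    (N : Subgroup S) (hN : N = ⁅P ⊓ centralizer (X₁ : Set S), P ⊓ centralizer (X₂ : Set S)⁆)
    (hNg : N ≤ (N ⊓ centralizer (X₁ : Set S)) ⊔ (N ⊓ centralizer (X₂ : Set S)))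
    (hPN : P ≤ normalizer (N : Set S)) (hQN : Q ≤ normalizer (N : Set S))
    (hCQ : ∀ X ≤ Q, Q ≤ normalizer ((centralizer (X : Set S) : Subgroup S) : Set S)) :
    N ≤ ⁅N, P⁆ ⊔ (N ⊓ centralizer (X₂ : Set S)) := by
  obtain ⟨A, hA⟩ : ∃ A, A = P ⊓ centralizer (X₁ : Set S) := ⟨_, rfl⟩
  obtain ⟨B, hB⟩ : ∃ B, B = P ⊓ centralizer (X₂ : Set S) := ⟨_, rfl⟩
  obtain ⟨M, hM⟩ : ∃ M, M = ⁅N, P⁆ := ⟨_, rfl⟩
  obtain ⟨N₂, hN₂⟩ : ∃ N₂, N₂ = M ⊔ (N ⊓ centralizer (X₂ : Set S)) := ⟨_, rfl⟩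
  rw [← hA, ← hB] at hN hAB
  rw [← hM, ← hN₂]
  have hAP : A ≤ P := by rw [hA]; exact inf_le_left
  have hBP : B ≤ P := by rw [hB]; exact inf_le_left
  have hMN : M ≤ N := by
    rw [hM]; exact H1.commutator_le_left_of_le_normalizer hPN
  have hN2N : N₂ ≤ N := by rw [hN₂]; exact sup_le hMN inf_le_left
  have hPM : P ≤ normalizer (M : Set S) := by rw [hM]; exact H1.right_le_normalizer_commutator N P
  have hQM : Q ≤ normalizer (M : Set S) := by
    rw [hM]; exact H18.le_normalizer_commutator hQN hQP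
  have hPN₂ : P ≤ normalizer (N₂ : Set S) := by
    apply le_norm_of_conj
    intro x hx n hn
    have h1 : x * n * x⁻¹ = ⁅n, x⁆⁻¹ * n := by
      rw [commutatorElement_def]; group
    rw [h1]
    refine N₂.mul_mem (N₂.inv_mem ?_) hn
    have : M ≤ N₂ := by rw [hN₂]; exact le_sup_left
    apply this
    rw [hM]
    exact commutator_mem_commutator (hN2N hn) hx
  have hQN₂ : Q ≤ normalizer (N₂ : Set S) := by
    rw [hN₂]
    exact H18.le_normalizer_sup hQM (H18.le_normalizer_inf hQN (hCQ _ h₂))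
  have hNP : N ≤ P := by
    rw [hN]
    exact (commutator_mono hAP hBP).trans (Subgroup.commutator_le_self P)
  have hNN₂ : N ≤ normalizer (N₂ : Set S) := hNP.trans hPN₂
  -- [N, X₁] ≤ N₂
  have hX₁N₂ : X₁ ≤ normalizer (N₂ : Set S) := h₁.trans hQN₂
  have hNX : ⁅N, X₁⁆ ≤ N₂ := by
    rw [commutator_le]
    intro n hn x hx
    have h1 : n ∈ (N ⊓ centralizer (X₁ : Set S)) ⊔ N₂ := by
      refine (hNg.trans (sup_le le_sup_left ?_)) hn
      refine le_trans ?_ le_sup_right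
      rw [hN₂]; exact le_sup_right
    rw [H18.mem_sup_iff_of_le_normalizer (inf_le_left.trans hNN₂)] at h1
    obtain ⟨c, hc, d, hd, rfl⟩ := h1
    have hcx : c * x = x * c := (mem_centralizer_iff.1 (mem_inf.1 hc).2 x hx).symm
    have h2 : ⁅c * d, x⁆ = c * (d * (x * d⁻¹ * x⁻¹)) * c⁻¹ := by
      rw [commutatorElement_def]
      have : x⁻¹ * c⁻¹ = c⁻¹ * x⁻¹ := by rw [← mul_inv_rev, ← mul_inv_rev, hcx]
      have h4 : c⁻¹ * x⁻¹ = x⁻¹ * c⁻¹ := this.symm
      calc c * d * x * (c * d)⁻¹ * x⁻¹ = c * d * x * d⁻¹ * (c⁻¹ * x⁻¹) := by group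
        _ = c * d * x * d⁻¹ * (x⁻¹ * c⁻¹) := by rw [h4]
        _ = _ := by group
    rw [h2]
    have h3 : x * d⁻¹ * x⁻¹ ∈ N₂ := (mem_normalizer_iff.1 (hX₁N₂ hx) _).1 (N₂.inv_mem hd)
    exact (mem_normalizer_iff.1 (hNN₂ (mem_inf.1 hc).1) _).1 (N₂.mul_mem hd h3)
  have hB1 : ⁅B, X₁⁆ = B := by
    have hcop : (Nat.card X₁).Coprime (Nat.card B) := by
      obtain ⟨k, hk⟩ := IsPGroup.iff_card.1 (hP.to_le hBP)
      obtain ⟨l, hl⟩ := IsPGroup.iff_card.1 (hQq.to_le h₁)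
      rw [hk, hl]
      exact Nat.Coprime.pow _ _ ((Nat.coprime_primes Fact.out Fact.out).2 (Ne.symm hpq))
    have hn : X₁ ≤ normalizer (B : Set S) := by
      rw [hB]; exact h₁.trans (H18.le_normalizer_inf hQP (hCQ _ h₂))
    have hsolv : Group.IsSolvable B := by
      have := (hP.to_le hBP).isNilpotent
      infer_instance
    have h1 := H23.commutator_sup_centralizer hn hcop (Or.inr hsolv)
    have h2 : B ⊓ centralizer (X₁ : Set S) = ⊥ := by
      rw [eq_bot_iff, ← hAB]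
      refine le_inf (le_inf (inf_le_left.trans hBP) inf_le_right |>.trans (le_of_eq hA.symm)) inf_le_left
    rwa [h2, sup_bot_eq] at h1
  have hAP₂ : A ≤ normalizer (N₂ : Set S) := hAP.trans hPN₂
  have hBP₂ : B ≤ normalizer (N₂ : Set S) := hBP.trans hPN₂
  have h3 : ⁅⁅B, X₁⁆, A⁆ ≤ N₂ := by
    apply H18.three_subgroups_le hBP₂ hX₁N₂ hAP₂
    · have : ⁅X₁, A⁆ = ⊥ := by
        rw [commutator_eq_bot_iff_le_centralizer, le_centralizer_iff, hA]; exact inf_le_right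
      rw [this, commutator_bot_left]; exact bot_le
    · rw [← hN]; exact hNX
  rw [hB1, commutator_comm, ← hN] at h3
  exact h3
end

/-- Let S = PQ be a finite group with P a normal Sylow p-subgroup and Q elementary abelian of order q², q a prime different from p. If exactly two subgroups X₁, X₂ of order q in Q have a nontrivial centralizer in P, then P is the internal direct product of C_P(X₁) and C_P(X₂): they commute elementwise, meet trivially and generate P. -/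
theorem result {S : Type*} [Group S] [Finite S] {p q : ℕ} [Fact p.Prime] [Fact q.Prime] (hpq : p ≠ q)
    (P : Sylow p S) [(P : Subgroup S).Normal] (Q : Subgroup S) (hQ : Cfsg.IsElementaryAbelian q Q) (hQc : Nat.card Q = q ^ 2)
    (hS : (P : Subgroup S) ⊔ Q = ⊤)
    (X₁ X₂ : Subgroup S) (h₁ : X₁ ≤ Q) (h₂ : X₂ ≤ Q) (h₁₂ : X₁ ≠ X₂) (hc₁ : Nat.card X₁ = q) (hc₂ : Nat.card X₂ = q)
    (hf₁ : (P : Subgroup S) ⊓ Subgroup.centralizer (X₁ : Set S) ≠ ⊥)
    (hf₂ : (P : Subgroup S) ⊓ Subgroup.centralizer (X₂ : Set S) ≠ ⊥)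
    (honly : ∀ X : Subgroup S, X ≤ Q → Nat.card X = q →
      (P : Subgroup S) ⊓ Subgroup.centralizer (X : Set S) ≠ ⊥ → X = X₁ ∨ X = X₂) :
    ⁅(P : Subgroup S) ⊓ Subgroup.centralizer (X₁ : Set S), (P : Subgroup S) ⊓ Subgroup.centralizer (X₂ : Set S)⁆ = ⊥ ∧
      ((P : Subgroup S) ⊓ Subgroup.centralizer (X₁ : Set S)) ⊓ ((P : Subgroup S) ⊓ Subgroup.centralizer (X₂ : Set S)) = ⊥ ∧
      ((P : Subgroup S) ⊓ Subgroup.centralizer (X₁ : Set S)) ⊔ ((P : Subgroup S) ⊓ Subgroup.centralizer (X₂ : Set S)) = P := by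
  obtain ⟨Pp, hPd⟩ : ∃ Pp, Pp = (P : Subgroup S) := ⟨_, rfl⟩
  have hP : IsPGroup p Pp := by rw [hPd]; exact P.isPGroup'
  have hPn : Pp.Normal := by rw [hPd]; infer_instance
  rw [← hPd] at hf₁ hf₂ honly ⊢
  have hQP : Q ≤ normalizer (Pp : Set S) := by rw [normalizer_eq_top Pp]; exact le_top
  have hQab : ∀ x ∈ Q, ∀ y ∈ Q, x * y = y * x := fun x hx y hy =>
    congrArg Subtype.val (hQ.1.is_comm.comm (⟨x, hx⟩ : Q) ⟨y, hy⟩)
  have hQq : IsPGroup q Q := IsPGroup.of_card hQc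
  have hCQ : ∀ X ≤ Q, Q ≤ normalizer ((centralizer (X : Set S) : Subgroup S) : Set S) := by
    intro X hX
    refine le_trans ?_ le_normalizer
    intro y hy
    rw [mem_centralizer_iff]
    intro x hx
    exact hQab x (hX hx) y hy
  have hq2 : 2 ≤ q := Nat.Prime.two_le Fact.out
  have hsup : X₁ ⊔ X₂ = Q := by
    have hle : X₁ ⊔ X₂ ≤ Q := sup_le h₁ h₂
    have hdvd : Nat.card (X₁ ⊔ X₂ : Subgroup S) ∣ q ^ 2 := by rw [← hQc]; exact card_dvd_of_le hle
    obtain ⟨k, hk, hk'⟩ := (Nat.dvd_prime_pow Fact.out).1 hdvd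
    have hlt : X₁ < X₁ ⊔ X₂ := by
      refine lt_of_le_of_ne le_sup_left (fun h => h₁₂ ?_)
      have : X₂ ≤ X₁ := by rw [h]; exact le_sup_right
      exact (eq_of_le_of_card_ge this (by rw [hc₁, hc₂])).symm
    have hcl := H1.card_lt_of_lt' hlt
    rw [hc₁, hk'] at hcl
    have hk2 : k = 2 := by
      interval_cases k
      · simp at hcl; omega
      · simp at hcl
      · rfl
    exact eq_of_le_of_card_ge hle (by rw [hk', hk2, hQc])
  obtain ⟨a, haQ, ha₁, ha₂⟩ : ∃ a ∈ Q, a ∉ X₁ ∧ a ∉ X₂ := by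
    by_contra hcon
    push Not at hcon
    have hsub : (Q : Set S) ⊆ (X₁ : Set S) ∪ (X₂ : Set S) := by
      intro x hx
      by_cases h : x ∈ X₁
      · exact Or.inl h
      · exact Or.inr (hcon x hx h)
    obtain ⟨x, hx, hx'⟩ : ∃ x ∈ X₁, x ∉ X₂ := by
      by_contra h
      push Not at h
      exact h₁₂ (eq_of_le_of_card_ge h (by rw [hc₁, hc₂]))
    obtain ⟨y, hy, hy'⟩ : ∃ y ∈ X₂, y ∉ X₁ := by
      by_contra h
      push Not at h
      exact h₁₂ (eq_of_le_of_card_ge h (by rw [hc₁, hc₂])).symm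
    rcases hsub (Q.mul_mem (h₁ hx) (h₂ hy)) with h | h
    · exact hy' (by simpa using X₁.mul_mem (X₁.inv_mem hx) h)
    · exact hx' (by simpa using X₂.mul_mem h (X₂.inv_mem hy))
  have hcQ : Pp ⊓ centralizer (Q : Set S) = ⊥ := by
    have ha1 : a ≠ 1 := fun h => ha₁ (h ▸ X₁.one_mem)
    have hord : orderOf a = q := by
      have h1 := orderOf_dvd_of_pow_eq_one (hQ.2 a haQ)
      rcases (Nat.dvd_prime Fact.out).1 h1 with h | h
      · exact absurd (orderOf_eq_one_iff.1 h) ha1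
      · exact h
    have hX : Nat.card (zpowers a) = q := by rw [Nat.card_zpowers, hord]
    have hle : zpowers a ≤ Q := by rwa [zpowers_le]
    have h3 : Pp ⊓ centralizer ((zpowers a : Subgroup S) : Set S) = ⊥ := by
      by_contra h
      rcases honly _ hle hX h with h | h
      · exact ha₁ (h ▸ mem_zpowers a)
      · exact ha₂ (h ▸ mem_zpowers a)
    rw [eq_bot_iff, ← h3]
    exact inf_le_inf_left _ (centralizer_le hle)
  have hAB : Pp ⊓ centralizer (X₁ : Set S) ⊓ (Pp ⊓ centralizer (X₂ : Set S)) = ⊥ := by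
    rw [eq_bot_iff, ← hcQ]
    refine le_inf (inf_le_left.trans inf_le_left) ?_
    rw [le_centralizer_iff, ← hsup]
    refine sup_le ?_ ?_
    · rw [le_centralizer_iff]; exact inf_le_left.trans inf_le_right
    · rw [le_centralizer_iff]; exact inf_le_right.trans inf_le_right
  have hjoin : (Pp ⊓ centralizer (X₁ : Set S)) ⊔ (Pp ⊓ centralizer (X₂ : Set S)) = Pp :=
    le_antisymm (sup_le inf_le_left inf_le_left) (gen hpq Pp Q hP hQ hQc X₁ X₂ honly Pp le_rfl hQP)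
  refine ⟨?_, hAB, hjoin⟩
  obtain ⟨N, hN⟩ : ∃ N, N = ⁅Pp ⊓ centralizer (X₁ : Set S), Pp ⊓ centralizer (X₂ : Set S)⁆ := ⟨_, rfl⟩
  rw [← hN]
  have hNP : N ≤ Pp := by
    rw [hN]
    exact (commutator_mono inf_le_left inf_le_left).trans (Subgroup.commutator_le_self Pp)
  have hQN : Q ≤ normalizer (N : Set S) := by
    rw [hN]
    exact H18.le_normalizer_commutator (H18.le_normalizer_inf hQP (hCQ _ h₁)) (H18.le_normalizer_inf hQP (hCQ _ h₂))
  have hPN : Pp ≤ normalizer (N : Set S) := by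
    conv_lhs => rw [← hjoin]
    refine sup_le ?_ ?_
    · rw [hN]; exact H1.left_le_normalizer_commutator _ _
    · rw [hN]; exact H1.right_le_normalizer_commutator _ _
  have hg := gen hpq Pp Q hP hQ hQc X₁ X₂ honly N hNP hQN
  have e1 := half hpq Pp Q hP hQab hQq hQP X₁ X₂ h₁ h₂ hAB N hN hg hPN hQN hCQ
  have e2 := half hpq Pp Q hP hQab hQq hQP X₂ X₁ h₂ h₁ (by rw [inf_comm]; exact hAB) N
    (by rw [hN, commutator_comm]) (by rw [sup_comm]; exact hg) hPN hQN hCQ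
  obtain ⟨M, hM⟩ : ∃ M, M = ⁅N, Pp⁆ := ⟨_, rfl⟩
  rw [← hM] at e1 e2
  have hMN : M ≤ N := by
    rw [hM]; exact H1.commutator_le_left_of_le_normalizer hPN
  have hPM : Pp ≤ normalizer (M : Set S) := by rw [hM]; exact H1.right_le_normalizer_commutator N Pp
  have hQM : Q ≤ normalizer (M : Set S) := by
    rw [hM]; exact H18.le_normalizer_commutator hQN hQP
  have hXM : ∀ X ≤ Q, N ≤ M ⊔ (N ⊓ centralizer (X : Set S)) → ∀ n ∈ N, ∀ x ∈ X, n * x * n⁻¹ * x⁻¹ ∈ M := by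
    intro X hX hle n hn x hx
    have h1 := hle hn
    rw [sup_comm, H18.mem_sup_iff_of_le_normalizer (inf_le_left.trans (hNP.trans hPM))] at h1
    obtain ⟨c, hc, d, hd, rfl⟩ := h1
    have hcx : c * x = x * c := (mem_centralizer_iff.1 (mem_inf.1 hc).2 x hx).symm
    have h2 : c * d * x * (c * d)⁻¹ * x⁻¹ = c * (d * (x * d⁻¹ * x⁻¹)) * c⁻¹ := by
      have h4 : c⁻¹ * x⁻¹ = x⁻¹ * c⁻¹ := by rw [← mul_inv_rev, ← mul_inv_rev, hcx]
      calc c * d * x * (c * d)⁻¹ * x⁻¹ = c * d * x * d⁻¹ * (c⁻¹ * x⁻¹) := by group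
        _ = c * d * x * d⁻¹ * (x⁻¹ * c⁻¹) := by rw [h4]
        _ = _ := by group
    rw [h2]
    have h3 : x * d⁻¹ * x⁻¹ ∈ M := (mem_normalizer_iff.1 (hQM (hX hx)) _).1 (M.inv_mem hd)
    exact (mem_normalizer_iff.1 ((hNP.trans hPM) (mem_inf.1 hc).1) _).1 (M.mul_mem hd h3)
  have hNQ : ⁅N, Q⁆ ≤ M := by
    rw [commutator_le]
    intro n hn y hy
    rw [commutatorElement_def]
    have hy' : y ∈ X₁ ⊔ X₂ := by rw [hsup]; exact hy
    have hab : X₁ ≤ normalizer (X₂ : Set S) := by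
      apply H23.le_normalizer_of_conj_mem
      intro a ha g hg
      rw [hQab a (h₁ ha) g (h₂ hg), mul_inv_cancel_right]; exact hg
    rw [H18.mem_sup_iff_of_le_normalizer hab] at hy'
    obtain ⟨x₁, hx₁, x₂, hx₂, rfl⟩ := hy'
    have k1 := hXM X₁ h₁ e2 n hn x₁ hx₁
    have k2 := hXM X₂ h₂ e1 n hn x₂ hx₂
    have h5 : n * (x₁ * x₂) * n⁻¹ * (x₁ * x₂)⁻¹ = (n * x₁ * n⁻¹ * x₁⁻¹) * (x₁ * (n * x₂ * n⁻¹ * x₂⁻¹) * x₁⁻¹) := by group
    rw [h5]
    exact M.mul_mem k1 ((mem_normalizer_iff.1 (hQM (h₁ hx₁)) _).1 k2)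
  have hNM : N ≤ M := by
    intro n hn
    have hcop : (Nat.card Q).Coprime (Nat.card M) := by
      obtain ⟨k, hk⟩ := IsPGroup.iff_card.1 (hP.to_le (hMN.trans hNP))
      rw [hQc, hk]
      exact Nat.Coprime.pow _ _ ((Nat.coprime_primes Fact.out Fact.out).2 (Ne.symm hpq))
    have hsolv : Group.IsSolvable M := by
      have := (hP.to_le (hMN.trans hNP)).isNilpotent
      infer_instance
    obtain ⟨c, hc, m, hm, rfl⟩ := H23.exists_centralizer_mul hQM hcop (Or.inr hsolv) hMN hNQ hn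
    have : c = 1 := by
      have h6 : c ∈ Pp ⊓ centralizer (Q : Set S) := mem_inf.2 ⟨hNP (mem_inf.1 hc).1, (mem_inf.1 hc).2⟩
      rw [hcQ] at h6
      exact h6
    rw [this, one_mul]; exact hm
  exact H1.eq_bot_of_commutator_eq_self hP.isNilpotent hNP (hM ▸ hNM)

end Cfsg.Agent.S1900
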