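import Cfsg.Statements.S1901
import Cfsg.Agent.H23.Coprime
import Cfsg.Agent.H23.PSolvable
import Cfsg.Agent.H14.Conj
import Cfsg.Agent.H1.Coprime
import Cfsg.Agent.H1.Cores

set_option autoImplicit false
open Cfsg

namespace Cfsg.Agent.S1901

open Subgroup

universe u
theorem core (p : ℕ) [Fact p.Prime] (n : ℕ) : ∀ (G : Type u) [Group G] [Finite G], Nat.card G = n →
    Cfsg.IsPSolvable p G → ∀ (A Q : Subgroup G), IsPGroup p A → ¬ p ∣ Nat.card Q →
    A ≤ normalizer (Q : Set G) → ⁅Q, A⁆ = Q → Q ≠ ⊥ → ∀ P : Sylow p G,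
    ¬ Q ≤ normalizer ((P : Subgroup G) : Set G) := by
  induction n using Nat.strong_induction_on with
  | _ n ih =>
  intro G _ _ hn hG A Q hA hQ hAQ hQA hQne P hQP
  have hnt : Nontrivial G := by
    by_contra h
    rw [not_nontrivial_iff_subsingleton] at h
    apply hQne
    exact Subsingleton.elim _ _
  -- quotient step
  have step : ∀ N : Subgroup G, N.Normal → N ≠ ⊥ → ¬ Q ≤ N → False := by
    intro N hN hNne hQN
    have hlt : Nat.card (G ⧸ N) < n := by
      rw [← hn, card_eq_card_quotient_mul_card_subgroup N]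
      have h1 : 1 < Nat.card N := by
        rw [Finite.one_lt_card_iff_nontrivial]
        exact (nontrivial_iff_ne_bot N).2 hNne
      have h2 : 0 < Nat.card (G ⧸ N) := Nat.card_pos
      nlinarith
    refine ih _ hlt (G ⧸ N) rfl (H23.isPSolvable_quotient N hG) (A.map (QuotientGroup.mk' N))
      (Q.map (QuotientGroup.mk' N)) (hA.map _) ?_ ?_ ?_ ?_ (P.mapSurjective (QuotientGroup.mk'_surjective N)) ?_
    · intro h; exact hQ (h.trans (card_map_dvd _ _))
    · exact (map_mono hAQ).trans (le_normalizer_map _)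
    · rw [← map_commutator, hQA]
    · intro h
      rw [Subgroup.map_eq_bot_iff, QuotientGroup.ker_mk'] at h
      exact hQN h
    · exact (map_mono hQP).trans (le_normalizer_map _)
  rcases H23.pCore_ne_bot_or hG with h | h
  · refine step _ inferInstance h (fun hle => ?_)
    apply hQne
    have hcop : (Nat.card Q).Coprime (Nat.card (Cfsg.pCore p G)) := by
      obtain ⟨k, hk⟩ := IsPGroup.iff_card.1 (H1.pCore_isPGroup p G)
      rw [hk]
      exact Nat.Coprime.pow_right _ ((Nat.Prime.coprime_iff_not_dvd Fact.out).2 hQ).symm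
    have := H23.inf_eq_bot_of_coprime hcop
    rwa [inf_eq_left.2 hle] at this
  · refine step _ inferInstance h (fun hle => ?_)
    -- Q ≤ O_{p'}(G)
    have h1 : ⁅Q, (P : Subgroup G)⁆ = ⊥ := by
      have hcop : (Nat.card (P : Subgroup G)).Coprime (Nat.card (Cfsg.pPrimeCore p G)) := by
        obtain ⟨k, hk⟩ := IsPGroup.iff_card.1 P.isPGroup'
        rw [hk]
        exact Nat.Coprime.pow_left _ (H1.pPrimeCore_coprime p G).symm
      rw [eq_bot_iff, ← H23.inf_eq_bot_of_coprime hcop]
      refine le_inf ?_ ?_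
      · rw [commutator_comm]
        exact H1.commutator_le_left_of_le_normalizer hQP
      · exact (commutator_mono hle le_rfl).trans (commutator_le_left _ _)
    have h2 : (P : Subgroup G) ≤ centralizer (Q : Set G) := by
      rwa [commutator_comm, commutator_eq_bot_iff_le_centralizer] at h1
    have hCN : centralizer (Q : Set G) ≤ normalizer (Q : Set G) := by
      intro x hx
      exact H14.mem_normalizer_cj.2 (H14.cj_eq_of_mem_centralizer hx)
    obtain ⟨x, hx, hxA⟩ := (H14.Sylow.isSylIn_of_le P (h2.trans hCN)).exists_cj_le hAQ hA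
    have h3 : A ≤ centralizer (Q : Set G) := by
      have h4 := hxA.trans h2
      rw [H14.cj_le_iff, ← H14.centralizer_cj, H14.mem_normalizer_cj.1 (inv_mem hx)] at h4
      exact h4
    have h5 : ⁅Q, A⁆ = ⊥ := by
      rwa [commutator_comm, commutator_eq_bot_iff_le_centralizer]
    exact hQne (by rw [← hQA, h5])

/-- Let G be a finite p-solvable group and Q a subgroup of order prime to p such that p divides the index of C_G(Q) in N_G(Q). Then Q normalizes no Sylow p-subgroup of G. -/
theorem result {G : Type*} [Group G] [Finite G] {p : ℕ} [Fact p.Prime]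
    (hG : Cfsg.IsPSolvable p G) (Q : Subgroup G) (hQ : ¬ p ∣ Nat.card Q)
    (hA : p ∣ (Subgroup.centralizer (Q : Set G)).relIndex (Subgroup.normalizer (Q : Set G)))
    (P : Sylow p G) : ¬ Q ≤ Subgroup.normalizer ((P : Subgroup G) : Set G) := by
  intro hQP
  have hA' := hA
  clear hA
  obtain ⟨A, hA⟩ := H14.exists_isSylIn (p := p) (normalizer (Q : Set G))
  have hCN : centralizer (Q : Set G) ≤ normalizer (Q : Set G) := by
    intro x hx
    exact H14.mem_normalizer_cj.2 (H14.cj_eq_of_mem_centralizer hx)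
  have hAC : ¬ A ≤ centralizer (Q : Set G) := by
    intro h
    apply hA.ndvd
    rw [← relIndex_mul_relIndex A _ _ h hCN]
    exact Dvd.dvd.mul_left hA' _
  have hcop : (Nat.card A).Coprime (Nat.card Q) := by
    obtain ⟨k, hk⟩ := IsPGroup.iff_card.1 hA.pgroup
    rw [hk]
    exact Nat.Coprime.pow_left _ ((Nat.Prime.coprime_iff_not_dvd Fact.out).2 hQ)
  have hle : ⁅Q, A⁆ ≤ Q := H1.commutator_le_left_of_le_normalizer hA.le
  refine core p _ G rfl hG A ⁅Q, A⁆ hA.pgroup ?_ ?_ ?_ ?_ P (hle.trans hQP)
  · intro h; exact hQ (h.trans (card_dvd_of_le hle))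
  · exact H1.right_le_normalizer_commutator Q A
  · exact H23.commutator_commutator_eq hA.le hcop
  · intro h
    rw [commutator_comm, commutator_eq_bot_iff_le_centralizer] at h
    exact hAC h

end Cfsg.Agent.S1901
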