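import Cfsg.Statements.S1902
import Cfsg.Agent.H2.InvSub2
import Cfsg.Agent.H23.PSolvable
import Cfsg.Agent.H10.PBal4

set_option autoImplicit false
set_option linter.style.haveILetI false
set_option linter.unusedVariables false
set_option linter.unusedSectionVars false
open Cfsg

namespace Cfsg.Agent.S1902

/-- Let p be an odd prime, G a finite p-solvable group, and B an elementary abelian subgroup of order p² such that B is the subgroup generated by the elements of order p of some Sylow p-subgroup of C_G(b₀), for some nontrivial b₀ ∈ B. Then every B-invariant subgroup of G of order prime to p lies in O_{p'}(G). -/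
theorem result {G : Type*} [Group G] [Finite G] {p : ℕ} [Fact p.Prime] (hp : p ≠ 2)
    (hG : Cfsg.IsPSolvable p G) (B : Subgroup G) (hB : Cfsg.IsElementaryAbelian p B) (hBc : Nat.card B = p ^ 2)
    (b₀ : G) (hb₀ : b₀ ∈ B) (hb₁ : b₀ ≠ 1) (P : Sylow p ↥(Subgroup.centralizer ({b₀} : Set G)))
    (hBP : B = Subgroup.closure {x : G | x ∈ ((P : Subgroup ↥(Subgroup.centralizer ({b₀} : Set G))).map
      (Subgroup.centralizer ({b₀} : Set G)).subtype : Subgroup G) ∧ orderOf x = p})
    (Q : Subgroup G) (hQ : ¬ p ∣ Nat.card Q) (hinv : ∀ b ∈ B, ∀ x ∈ Q, b * x * b⁻¹ ∈ Q) :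
    Q ≤ Cfsg.pPrimeCore p G := by
  classical
  have hpp : p.Prime := Fact.out
  have hb0p : b₀ ^ p = 1 := hB.2 b₀ hb₀
  obtain ⟨N, hN⟩ : ∃ N : Subgroup G, N = pPrimeCore p G := ⟨_, rfl⟩
  haveI hNn : N.Normal := hN ▸ inferInstance
  have hNp : (Nat.card N).Coprime p := by
    rw [hN]; exact Cfsg.Agent.H1.pPrimeCore_coprime p G
  rw [← hN]
  have hbot : pPrimeCore p (G ⧸ N) = ⊥ := by
    subst hN; exact Cfsg.Agent.H23.pPrimeCore_quotient_eq_bot p G
  have hsol : IsPSolvable p (G ⧸ N) := Cfsg.Agent.H23.isPSolvable_quotient N hG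
  have hRc := Cfsg.Agent.H23.centralizer_pCore_le hsol hbot
  have hQp : (Nat.card Q).Coprime p := ((Nat.Prime.coprime_iff_not_dvd hpp).2 hQ).symm
  have hker : ∀ g : G, QuotientGroup.mk' N g = 1 ↔ g ∈ N := by
    intro g
    rw [← MonoidHom.mem_ker, QuotientGroup.ker_mk']
  -- an element of `N` with `p`-power order is trivial
  have hNtriv : ∀ (g : G) (k : ℕ), g ∈ N → g ^ p ^ k = 1 → g = 1 := by
    intro g k hg hgk
    have h1 : orderOf g ∣ Nat.card N := Subgroup.orderOf_dvd_natCard N hg
    have h2 := Nat.dvd_gcd h1 (orderOf_dvd_of_pow_eq_one hgk)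
    rw [show Nat.gcd (Nat.card N) (p ^ k) = 1 from Nat.Coprime.pow_right _ hNp, Nat.dvd_one,
      orderOf_eq_one_iff] at h2
    exact h2
  have key : Q.map (QuotientGroup.mk' N) = ⊥ := by
    apply Cfsg.Agent.H2.InvSub.inv_eq_bot hp (B.map (QuotientGroup.mk' N)) (pCore p (G ⧸ N))
      (Q.map (QuotientGroup.mk' N)) (Cfsg.Agent.H1.pCore_isPGroup p (G ⧸ N)) inferInstance hRc
      (QuotientGroup.mk' N b₀) (Subgroup.mem_map_of_mem _ hb₀)
    · rw [← map_pow, hb0p, map_one]
    · intro h
      rw [hker] at h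
      exact hb₁ (hNtriv b₀ 1 h (by rw [pow_one]; exact hb0p))
    · rintro _ ⟨x, hx, rfl⟩ _ ⟨t, ht, rfl⟩
      exact ⟨x * t * x⁻¹, hinv x hx t ht, by simp⟩
    · intro e he heb hep
      -- `e` lies in the image of `C(b₀)`
      have hC : Subgroup.centralizer {QuotientGroup.mk' N b₀} =
          (Subgroup.centralizer ({b₀} : Set G)).map (QuotientGroup.mk' N) :=
        Cfsg.Agent.H10.centralizer_map_mk (p := p) ⟨1, by rw [pow_one]; exact hb0p⟩ hNp
      have heC : e ∈ (Subgroup.centralizer ({b₀} : Set G)).map (QuotientGroup.mk' N) := by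
        rw [← hC, Subgroup.mem_centralizer_singleton_iff]
        exact heb
      let C := Subgroup.centralizer ({b₀} : Set G)
      let f : C →* C.map (QuotientGroup.mk' N) := (QuotientGroup.mk' N).subgroupMap C
      have hf : Function.Surjective f := (QuotientGroup.mk' N).subgroupMap_surjective C
      let P' : Sylow p (C.map (QuotientGroup.mk' N)) := P.mapSurjective hf
      have h1 : (pCore p (G ⧸ N)).subgroupOf (C.map (QuotientGroup.mk' N)) ≤ P'.toSubgroup := by
        refine IsPGroup.le_sylow_of_normal ?_ P'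
        exact (Cfsg.Agent.H1.pCore_isPGroup p (G ⧸ N)).comap_subtype
      have h2 : (⟨e, heC⟩ : C.map (QuotientGroup.mk' N)) ∈ P'.toSubgroup := h1 he
      obtain ⟨y, hy, hye⟩ := h2
      have hye' : QuotientGroup.mk' N (y : G) = e := congrArg Subtype.val hye
      have hyp : (y : G) ^ p = 1 := by
        obtain ⟨k, hk⟩ := P.2 ⟨y, hy⟩
        have hk' : (y : G) ^ p ^ k = 1 := by
          have := congrArg (fun z : P.toSubgroup => ((z : C) : G)) hk
          simpa using this
        apply hNtriv _ k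
        · rw [← hker, map_pow, hye', hep]
        · rw [← pow_mul, mul_comm, pow_mul, hk', one_pow]
      rw [← hye']
      apply Subgroup.mem_map_of_mem
      by_cases hy1 : (y : G) = 1
      · rw [hy1]; exact one_mem _
      · rw [hBP]
        apply Subgroup.subset_closure
        exact ⟨⟨y, hy, rfl⟩, orderOf_eq_prime hyp hy1⟩
    · exact Nat.Coprime.coprime_dvd_left (Subgroup.card_map_dvd _ _) hQp
  intro q hq
  rw [← hker]
  have : QuotientGroup.mk' N q ∈ Q.map (QuotientGroup.mk' N) := Subgroup.mem_map_of_mem _ hq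
  rw [key, Subgroup.mem_bot] at this
  exact this

end Cfsg.Agent.S1902
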