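import Cfsg.Statements.S1940


set_option autoImplicit false
open Cfsg

namespace Cfsg.Agent.S1940

/-- Let the finite group L act by automorphisms on the finite abelian group M, and let N be an L-invariant subgroup of M such that M/N is a p-group on which L acts trivially (every l • m lies in the coset mN). If every element of M is a product of an element of N and an element fixed by a Sylow p-subgroup T of L, then every element of M is a product of an element of N and an element fixed by all of L. -/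
theorem result {L : Type*} [Group L] [Finite L] {M : Type*} [CommGroup M] [Finite M] [MulDistribMulAction L M]
    {p : ℕ} [Fact p.Prime] (N : Subgroup M) (hN : ∀ (l : L) (m : M), m ∈ N → l • m ∈ N)
    (hquot : IsPGroup p (M ⧸ N)) (htriv : ∀ (l : L) (m : M), (l • m) * m⁻¹ ∈ N) (T : Sylow p L)
    (hT : ∀ m : M, ∃ n ∈ N, ∃ c : M, (∀ t ∈ (T : Subgroup L), t • c = c) ∧ m = n * c) :
    ∀ m : M, ∃ n ∈ N, ∃ c : M, (∀ l : L, l • c = c) ∧ m = n * c := by
  intro m
  classical
  obtain ⟨n, hn, c, hc, hm⟩ := hT m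
  -- norm over cosets
  haveI : Fintype (L ⧸ (T : Subgroup L)) := Fintype.ofFinite _
  let f : L ⧸ (T : Subgroup L) → M := fun q => Quotient.out q • c
  have hf : ∀ l : L, f (QuotientGroup.mk l) = l • c := by
    intro l
    have h1 : (QuotientGroup.mk (Quotient.out (QuotientGroup.mk l : L ⧸ (T : Subgroup L))) : L ⧸ (T : Subgroup L)) = QuotientGroup.mk l :=
      Quotient.out_eq _
    have h2 := QuotientGroup.eq.1 h1
    change Quotient.out (QuotientGroup.mk l : L ⧸ (T : Subgroup L)) • c = l • c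
    have h3 := hc _ h2
    rw [mul_smul, inv_smul_eq_iff] at h3
    exact h3.symm
  have hfix : ∀ l : L, l • (∏ q, f q) = ∏ q, f q := by
    intro l
    rw [Finset.smul_prod']
    refine Fintype.prod_equiv (MulAction.toPerm l) _ _ ?_
    intro q
    obtain ⟨g, rfl⟩ := QuotientGroup.mk_surjective q
    rw [hf]
    change _ = f (l • (QuotientGroup.mk g))
    rw [MulAction.Quotient.smul_mk, hf, smul_eq_mul, mul_smul]
  have hmod : ((∏ q, f q : M) : M ⧸ N) = (c : M ⧸ N) ^ (T : Subgroup L).index := by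
    have h1 : ∀ q, ((f q : M) : M ⧸ N) = (c : M ⧸ N) := by
      intro q
      obtain ⟨g, rfl⟩ := QuotientGroup.mk_surjective q
      rw [hf]
      symm
      rw [QuotientGroup.eq, mul_comm]
      exact htriv g c
    have h2 : ((∏ q, f q : M) : M ⧸ N) = ∏ q, ((f q : M) : M ⧸ N) := map_prod (QuotientGroup.mk' N) f _
    rw [h2, Finset.prod_congr rfl (fun q _ => h1 q), Finset.prod_const, Finset.card_univ,
      ← Nat.card_eq_fintype_card]
    rfl
  have hcop : Nat.Coprime (T : Subgroup L).index (Nat.card (M ⧸ N)) := by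
    obtain ⟨k, hk⟩ := IsPGroup.iff_card.1 hquot
    rw [hk]
    exact Nat.Coprime.pow_right _ ((Nat.Prime.coprime_iff_not_dvd Fact.out).2 T.not_dvd_index).symm
  have hinv : ∃ a : ℤ, ∀ x : M ⧸ N, (x ^ (T : Subgroup L).index) ^ a = x := by
    have h1 := Nat.gcd_eq_gcd_ab (T : Subgroup L).index (Nat.card (M ⧸ N))
    rw [Nat.Coprime.gcd_eq_one hcop] at h1
    refine ⟨Nat.gcdA (T : Subgroup L).index (Nat.card (M ⧸ N)), fun x => ?_⟩
    calc (x ^ (T : Subgroup L).index) ^ (Nat.gcdA (T : Subgroup L).index (Nat.card (M ⧸ N)))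
        = x ^ (((T : Subgroup L).index : ℤ) * Nat.gcdA (T : Subgroup L).index (Nat.card (M ⧸ N))) := by
          rw [zpow_mul, zpow_natCast]
      _ = x ^ (((T : Subgroup L).index : ℤ) * Nat.gcdA (T : Subgroup L).index (Nat.card (M ⧸ N))) *
          (x ^ (Nat.card (M ⧸ N))) ^ (Nat.gcdB (T : Subgroup L).index (Nat.card (M ⧸ N))) := by
          rw [pow_card_eq_one', one_zpow, mul_one]
      _ = x ^ (((T : Subgroup L).index : ℤ) * Nat.gcdA (T : Subgroup L).index (Nat.card (M ⧸ N)) +
          (Nat.card (M ⧸ N) : ℤ) * Nat.gcdB (T : Subgroup L).index (Nat.card (M ⧸ N))) := by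
          rw [zpow_add, zpow_mul x (Nat.card (M ⧸ N) : ℤ), zpow_natCast x (Nat.card (M ⧸ N))]
      _ = x := by rw [← h1]; simp
  obtain ⟨a, ha⟩ := hinv
  obtain ⟨d, hd⟩ : ∃ d, d = (∏ q, f q) ^ a := ⟨_, rfl⟩
  have hdc : (d : M ⧸ N) = (c : M ⧸ N) := by
    rw [hd, QuotientGroup.mk_zpow, hmod, ha]
  refine ⟨m * d⁻¹, ?_, d, ?_, by group⟩
  · have h1 : c * d⁻¹ ∈ N := by
      rw [← QuotientGroup.eq_one_iff, QuotientGroup.mk_mul, QuotientGroup.mk_inv, hdc, mul_inv_cancel]
    rw [hm, mul_assoc]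
    exact N.mul_mem hn h1
  · intro l
    rw [hd, smul_zpow', hfix]

end Cfsg.Agent.S1940
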