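import Cfsg.Statements.S1941
import Cfsg.Agent.H10.PBal5

set_option autoImplicit false
open Cfsg

namespace Cfsg.Agent.S1941

set_option autoImplicit false
open Cfsg Cfsg.Agent.H10

theorem inner_of_crossed {G : Type*} [Group G] [Finite G] {p : ℕ} [hp : Fact p.Prime] (T : Sylow p G)
    (Z : Subgroup G) [hZn : Z.Normal] (hZc : ∀ a ∈ Z, ∀ b ∈ Z, a * b = b * a) (hZp : IsPGroup p Z)
    (α : MulAut G) (hfix : ∀ x ∈ (T : Subgroup G), α x = x) (hc : ∀ g : G, α g * g⁻¹ ∈ Z) :
    ∃ u : G, ∀ x : G, α x = u * x * u⁻¹ := by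
  classical
  letI : CommGroup Z := { (inferInstance : Group Z) with
    mul_comm := fun a b => Subtype.ext (hZc a a.2 b b.2) }
  letI : Fintype (G ⧸ (T : Subgroup G)) := Fintype.ofFinite _
  let c : G → Z := fun g => ⟨α g * g⁻¹, hc g⟩
  have hcm : ∀ g h : G, c (g * h) = c g * MulAut.conjNormal g (c h) := by
    intro g h
    apply Subtype.ext
    simp only [c, Subgroup.coe_mul, MulAut.conjNormal_apply, map_mul, mul_inv_rev]
    group
  have hcT : ∀ t ∈ (T : Subgroup G), c t = 1 := by
    intro t ht
    apply Subtype.ext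
    simp [c, hfix t ht]
  let fb : G ⧸ (T : Subgroup G) → Z := Quotient.lift c (by
    intro a b hab
    have h1 : a⁻¹ * b ∈ (T : Subgroup G) := by
      rwa [← QuotientGroup.leftRel_apply]
    have h2 : b = a * (a⁻¹ * b) := by group
    rw [h2, hcm, hcT _ h1, map_one, mul_one])
  have hfb : ∀ g : G, fb (g : G ⧸ (T : Subgroup G)) = c g := fun g => rfl
  let w : Z := ∏ q, fb q
  have hw : ∀ h : G, MulAut.conjNormal h w * c h ^ Nat.card (G ⧸ (T : Subgroup G)) = w := by
    intro h
    have h1 : ∀ q : G ⧸ (T : Subgroup G), MulAut.conjNormal h (fb q) * c h = fb (h • q) := by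
      intro q
      induction q using QuotientGroup.induction_on with
      | H g =>
        change MulAut.conjNormal h (c g) * c h = c (h * g)
        rw [hcm, mul_comm]
    have h2 : MulAut.conjNormal h w = ∏ q, MulAut.conjNormal h (fb q) := by
      exact map_prod (MulAut.conjNormal h : Z ≃* Z) _ _
    rw [h2, Nat.card_eq_fintype_card, ← Finset.card_univ, ← Finset.prod_const, ← Finset.prod_mul_distrib]
    rw [Finset.prod_congr rfl (fun q _ => h1 q)]
    exact Fintype.prod_equiv (MulAction.toPerm h) _ _ (fun q => rfl)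
  have hcop : (Nat.card Z).Coprime (Nat.card (G ⧸ (T : Subgroup G))) := by
    obtain ⟨k, hk⟩ := IsPGroup.iff_card.1 hZp
    rw [hk]
    apply Nat.Coprime.pow_left
    rw [Nat.Prime.coprime_iff_not_dvd hp.out]
    exact T.not_dvd_index
  obtain ⟨u, hu⟩ := (powCoprime hcop).surjective w
  have hu' : u ^ Nat.card (G ⧸ (T : Subgroup G)) = w := hu
  refine ⟨u, ?_⟩
  intro x
  have h3 : MulAut.conjNormal x u * c x = u := by
    apply (powCoprime hcop).injective
    change (MulAut.conjNormal x u * c x) ^ Nat.card (G ⧸ (T : Subgroup G)) = u ^ Nat.card (G ⧸ (T : Subgroup G))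
    rw [mul_pow, ← map_pow, hu', hw x]
  have h4 : x * u * x⁻¹ * (α x * x⁻¹) = u := by
    have := congrArg Subtype.val h3
    simpa [c, MulAut.conjNormal_apply] using this
  have h5 : x * (u : G) * x⁻¹ * (α x * x⁻¹) = (α x * x⁻¹) * (x * u * x⁻¹) :=
    hZc _ (hZn.conj_mem _ u.2 x) _ (hc x)
  have h6 : (α x * x⁻¹) * (x * u * x⁻¹) = u := by rw [← h5, h4]
  have h7 : α x * (u : G) * x⁻¹ = u := by
    calc α x * (u : G) * x⁻¹ = (α x * x⁻¹) * (x * u * x⁻¹) := by group
      _ = u := h6
  rw [mul_inv_eq_iff_eq_mul] at h7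
  rw [← h7]; group

/-- Let G be a finite group with no nontrivial normal subgroup of order prime to p, T a Sylow p-subgroup of G and E(G) the layer of G (the subgroup generated by its components). An automorphism of G of p-power order that fixes T and E(G) elementwise is inner. -/
theorem result {G : Type*} [Group G] [Finite G] {p : ℕ} [Fact p.Prime] (hcore : Cfsg.pPrimeCore p G = ⊥)
    (T : Sylow p G) (α : MulAut G) (hα : ∃ j : ℕ, orderOf α = p ^ j) (hfixT : ∀ x ∈ (T : Subgroup G), α x = x)
    (hfixE : ∀ x ∈ Cfsg.layer G, α x = x) : ∃ g : G, ∀ x : G, α x = g * x * g⁻¹ := by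
  have hFp : fittingSubgroup G = pCore p G := fitting_eq_pCore hcore
  have hgn := genFitting_normal G
  set F := generalizedFittingSubgroup G with hF
  have hfix : ∀ f ∈ F, α f = f := by
    have h1 : F ≤ (MonoidHom.eqLocus α.toMonoidHom (MonoidHom.id G)) := by
      refine sup_le ?_ ?_
      · intro x hx
        exact hfixE x hx
      · rw [hFp]
        intro x hx
        exact hfixT x (H1.pCore_le_sylow T hx)
    intro f hf
    exact h1 hf
  have hZn : (Subgroup.centralizer (F : Set G)).Normal := normal_centralizer_of_normal hgn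
  have hZF : Subgroup.centralizer (F : Set G) ≤ F := centralizer_genFitting_le
  refine inner_of_crossed T (Subgroup.centralizer (F : Set G)) ?_ ?_ α hfixT ?_
  · intro a ha b hb
    exact (Subgroup.mem_centralizer_iff.1 hb a (hZF ha))
  · have h1 : Subgroup.centralizer (F : Set G) ≤ pCore p G := by
      rw [← hFp]; exact centralizer_genFitting_le_fitting
    exact (pCore_isPGroup p G).to_le h1
  · intro g
    have h1 : g⁻¹ * α g ∈ Subgroup.centralizer (F : Set G) := by
      rw [Subgroup.mem_centralizer_iff]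
      intro f hf
      have h2 := hfix _ (hgn.conj_mem f hf g)
      rw [map_mul, map_mul, map_inv, hfix f hf] at h2
      have h3 : α g * f = g * f * g⁻¹ * α g := by
        rw [← h2]; group
      calc f * (g⁻¹ * α g) = g⁻¹ * (g * f * g⁻¹ * α g) := by group
        _ = g⁻¹ * (α g * f) := by rw [h3]
        _ = g⁻¹ * α g * f := by group
    have h2 := hZn.conj_mem _ h1 g
    convert h2 using 1
    group

end Cfsg.Agent.S1941
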