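import Cfsg.Statements.S1946
import Cfsg.Agent.H14.OmCrit
import Cfsg.Agent.H2.Frobenius
import Cfsg.Agent.H28.TwoCore4
import Cfsg.Agent.L.Lift

set_option autoImplicit false
open Cfsg

namespace Cfsg.Agent.S1946

open Cfsg.Agent.L Subgroup
open scoped commutatorElement

/-- a `p'`-element acting like elements of `P` on `D` centralizes `D` -/
theorem cent_of_ctrl {G : Type*} [Group G] [Finite G] {p : ℕ} [hp : Fact p.Prime] {P D : Subgroup G}
    (hP : IsPGroup p P) (hD : D ≤ P) {x : G} (hx : (orderOf x).Coprime p)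
    (hxD : ∀ d ∈ D, x * d * x⁻¹ ∈ D)
    (h : ∀ d ∈ D, ∃ u ∈ P, x * d * x⁻¹ = u * d * u⁻¹) : ∀ d ∈ D, x * d = d * x := by
  obtain ⟨L, hL⟩ : ∃ L : ℕ → Subgroup G, ∀ i, L i = P.lowerCentralSeries i := ⟨_, fun _ => rfl⟩
  have hnil : Group.IsNilpotent P := hP.isNilpotent
  obtain ⟨n, hn⟩ := (Subgroup.isNilpotent_iff_lowerCentralSeries P).1 hnil
  have key : ∀ i, i ≤ n → ∀ d ∈ D, d ∈ L (n - i) → x * d = d * x := by
    intro i
    induction i with
    | zero =>
      intro _ d _ hd
      rw [Nat.sub_zero, hL, hn, mem_bot] at hd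
      rw [hd]; group
    | succ i ih =>
      intro hi d hdD hd
      obtain ⟨u, hu, hxu⟩ := h d hdD
      obtain ⟨c, hc⟩ : ∃ c, c = d⁻¹ * (x * d * x⁻¹) := ⟨_, rfl⟩
      have hcD : c ∈ D := by rw [hc]; exact mul_mem (inv_mem hdD) (hxD d hdD)
      have hcL : c ∈ L (n - i) := by
        have e : n - i = (n - (i + 1)) + 1 := by omega
        rw [hL] at hd
        rw [e, hL, Subgroup.lowerCentralSeries_succ]
        have e2 : c = ⁅d⁻¹, u⁆ := by
          rw [hc, hxu, commutatorElement_def]; group
        rw [e2]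
        exact commutator_mem_commutator (inv_mem hd) hu
      have hxc := ih (by omega) c hcD hcL
      have hxd : x * d * x⁻¹ = d * c := by rw [hc]; group
      have hpow : ∀ j : ℕ, x ^ j * d * (x ^ j)⁻¹ = d * c ^ j := by
        intro j
        induction j with
        | zero => simp
        | succ j ihj =>
          have e1 : x ^ (j + 1) * d * (x ^ (j + 1))⁻¹ = x * (x ^ j * d * (x ^ j)⁻¹) * x⁻¹ := by
            rw [pow_succ']; group
          have e2 : x * c ^ j = c ^ j * x := ((show Commute x c from hxc).pow_right j)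
          rw [e1, ihj]
          calc x * (d * c ^ j) * x⁻¹ = (x * d * x⁻¹) * (x * c ^ j) * x⁻¹ := by group
            _ = (d * c) * (c ^ j * x) * x⁻¹ := by rw [hxd, e2]
            _ = d * c ^ (j + 1) := by rw [pow_succ']; group
      have h1 := hpow (orderOf x)
      rw [pow_orderOf_eq_one, one_mul, inv_one, mul_one] at h1
      have h2 : c ^ orderOf x = 1 := by
        have := mul_left_cancel (a := d) (b := 1) (c := c ^ orderOf x) (by rw [mul_one]; exact h1)
        exact this.symm
      obtain ⟨k, hk⟩ := hP ⟨c, hD hcD⟩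
      have hk' : c ^ p ^ k = 1 := congrArg Subtype.val hk
      have hc1 : c = 1 := by
        rw [← orderOf_eq_one_iff]
        exact Nat.eq_one_of_dvd_coprimes (hx.symm.pow_left k) (orderOf_dvd_of_pow_eq_one hk')
          (orderOf_dvd_of_pow_eq_one h2)
      rw [hc1, mul_one] at hxd
      calc x * d = (x * d * x⁻¹) * x := by group
        _ = d * x := by rw [hxd]
  intro d hd
  refine key n le_rfl d hd ?_
  rw [Nat.sub_self, hL, Subgroup.lowerCentralSeries_zero]
  exact hD hd

/-- Let P be a Sylow p-subgroup of the finite group G. Then G has a normal p-complement if and only if P controls the fusion of its elements of order dividing p (dividing 4 when p = 2): whenever such an element a of P has a G-conjugate g a g⁻¹ in P, that conjugate is already x a x⁻¹ for some x in P. -/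
theorem result {G : Type*} [Group G] [Finite G] {p : ℕ} [Fact p.Prime] (P : Sylow p G) :
    Cfsg.HasNormalPComplement p G ↔
      ∀ a ∈ (P : Subgroup G), (a ^ p = 1 ∨ (p = 2 ∧ a ^ 4 = 1)) → ∀ g : G, g * a * g⁻¹ ∈ (P : Subgroup G) →
        ∃ x ∈ (P : Subgroup G), g * a * g⁻¹ = x * a * x⁻¹ := by
  constructor
  · intro hnpc a ha _ g hg
    have htop : HasNormalPComplement p ↥(⊤ : Subgroup G) := by
      rw [H2.hasNormalPComplement_iff] at hnpc ⊢
      obtain ⟨N, hN, hNc, k, hk⟩ := hnpc
      refine ⟨N.subgroupOf ⊤, inferInstance, ?_, k, ?_⟩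
      · rwa [Nat.card_congr (Subgroup.subgroupOfEquivOfLe (le_top : N ≤ ⊤)).toEquiv]
      · rw [← hk]; exact Subgroup.relIndex_top_right N
    obtain ⟨t, ht, h⟩ := H28.npc_control (T := (P : Subgroup G)) (X := ⊤) P.2 le_top (by
      have := (sylIn_top P).not_dvd
      exact this) htop (x := g) (Subgroup.mem_top g) (P := Subgroup.zpowers a)
      (by rw [Subgroup.zpowers_le]; exact ha) (by
        intro y hy
        obtain ⟨k, rfl⟩ := Subgroup.mem_zpowers_iff.1 hy
        rw [← conj_zpow]
        exact zpow_mem hg k)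
    exact ⟨t, ht, h a (Subgroup.mem_zpowers a)⟩
  · intro h
    apply H2.hasNormalPComplement_of_centralizer
    intro X hX g hg hgo
    obtain ⟨k, -, hk⟩ := (sylIn_top P).exists_conj_le hX le_top
    obtain ⟨R, hR⟩ : ∃ R, R = cj k X := ⟨_, rfl⟩
    rw [← hR] at hk
    have hRp : IsPGroup p R := P.2.to_le hk
    obtain ⟨x, hx⟩ : ∃ x, x = k * g * k⁻¹ := ⟨_, rfl⟩
    have hxR : x ∈ nz R := by rw [hR, nz_cj, hx]; exact conj_mem_cj hg
    have hxo : (orderOf x).Coprime p := by
      have h1 : orderOf x = orderOf g := by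
        rw [hx]
        have := orderOf_injective (MulAut.conj k).toMonoidHom (MulAut.conj k).injective g
        simpa using this
      rw [h1]; exact hgo
    obtain ⟨D, hDR, hDn, hDexp, -, hDfin⟩ := H14.exists_crit hRp
    have hxD : ∀ d ∈ D, x * d * x⁻¹ ∈ D := fun d hd => (mem_normalizer_iff.1 (hDn hxR) d).1 hd
    have h1 := cent_of_ctrl P.2 (hDR.trans hk) hxo hxD (by
      intro d hd
      exact h d (hk (hDR hd)) (hDexp d hd) x (hk (hDR (hxD d hd))))
    have h2 := hDfin (zpowers x) (by rw [zpowers_le]; exact hxR) (by rwa [Nat.card_zpowers]) (by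
      intro d hd
      rw [mem_centralizer_iff]
      intro y hy
      obtain ⟨j, rfl⟩ := mem_zpowers_iff.1 hy
      exact ((show Commute x d from h1 d hd).zpow_left j))
    rw [mem_centralizer_iff]
    intro y hy
    have h3 : k * y * k⁻¹ ∈ R := by rw [hR]; exact conj_mem_cj hy
    have h4 := mem_centralizer_iff.1 (h2 h3) x (mem_zpowers x)
    rw [hx] at h4
    calc y * g = k⁻¹ * ((k * y * k⁻¹) * (k * g * k⁻¹)) * k := by group
      _ = k⁻¹ * ((k * g * k⁻¹) * (k * y * k⁻¹)) * k := by rw [h4]
      _ = g * y := by group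

end Cfsg.Agent.S1946
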