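import Cfsg.Statements.S1948
import Cfsg.Agent.H10.PCons
import Cfsg.Agent.H10.PComp
import Cfsg.Agent.H14.Constr
import Cfsg.Agent.H1.Cores
import Cfsg.Agent.H1.Hall

set_option autoImplicit false
open Cfsg

namespace Cfsg.Agent.S1948

open Subgroup

/-- Let S be a Sylow p-subgroup of the finite group G. Then G = N_G(S)·O_{p'}(G) if and only if G is p-constrained and N_G(S) controls fusion in S, in the sense that whenever a subgroup Q of S has a conjugate g Q g⁻¹ inside S, the element g is a product n c with n normalizing S and c centralizing Q. -/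
theorem result {G : Type*} [Group G] [Finite G] {p : ℕ} [Fact p.Prime] (S : Sylow p G) :
    Subgroup.normalizer ((S : Subgroup G) : Set G) ⊔ Cfsg.pPrimeCore p G = ⊤ ↔
      (Cfsg.IsPConstrained p G ∧
        ∀ Q : Subgroup G, Q ≤ (S : Subgroup G) → ∀ g : G, Q.map (MulAut.conj g).toMonoidHom ≤ (S : Subgroup G) →
          ∃ n ∈ Subgroup.normalizer ((S : Subgroup G) : Set G), ∃ c ∈ Subgroup.centralizer (Q : Set G), g = n * c) := by
  obtain ⟨K, hK⟩ : ∃ K, K = Cfsg.pPrimeCore p G := ⟨_, rfl⟩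
  have hKn : (Cfsg.pPrimeCore p G).Normal := inferInstance
  have hcop : (Nat.card (S : Subgroup G)).Coprime (Nat.card (Cfsg.pPrimeCore p G)) := by
    obtain ⟨k, hk⟩ := IsPGroup.iff_card.1 S.isPGroup'
    rw [hk]
    exact Nat.Coprime.pow_left _ (H1.pPrimeCore_coprime p G).symm
  have hSK : (S : Subgroup G) ⊓ Cfsg.pPrimeCore p G = ⊥ := H1.inf_eq_bot_of_card_coprime hcop
  have hsurj := QuotientGroup.mk'_surjective (Cfsg.pPrimeCore p G)
  obtain ⟨Sb, hSb⟩ : ∃ Sb, Sb = S.mapSurjective hsurj := ⟨_, rfl⟩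
  have hSbc : (Sb : Subgroup (G ⧸ Cfsg.pPrimeCore p G)) = (S : Subgroup G).map (QuotientGroup.mk' (Cfsg.pPrimeCore p G)) := by
    rw [hSb]; rfl
  have hcoreS : Cfsg.pCore p (G ⧸ Cfsg.pPrimeCore p G) ≤ (Sb : Subgroup (G ⧸ Cfsg.pPrimeCore p G)) := by
    obtain ⟨g, -, hg⟩ := (H14.Sylow.isSylIn_top Sb).exists_cj_le le_top (H1.pCore_isPGroup p _)
    rwa [H14.mem_normalizer_cj.1 (by rw [normalizer_eq_top (Cfsg.pCore p _)]; trivial)] at hg
  constructor
  · intro h
    have hnorm : (Sb : Subgroup (G ⧸ Cfsg.pPrimeCore p G)).Normal := by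
      rw [← normalizer_eq_top_iff, eq_top_iff, ← map_top_of_surjective _ hsurj, ← h, Subgroup.map_sup]
      refine sup_le ?_ ?_
      · rw [hSbc]; exact le_normalizer_map _
      · have : (Cfsg.pPrimeCore p G).map (QuotientGroup.mk' (Cfsg.pPrimeCore p G)) = ⊥ := by
          rw [Subgroup.map_eq_bot_iff, QuotientGroup.ker_mk']
        rw [this]; exact bot_le
    refine ⟨?_, ?_⟩
    · rw [H10.isPConstrained_iff]
      have heq : Cfsg.pCore p (G ⧸ Cfsg.pPrimeCore p G) = Sb :=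
        le_antisymm hcoreS (H1.le_pCore hnorm Sb.isPGroup')
      rw [heq]
      apply H14.centralizer_le_of_inf_le (H14.Sylow.isSylIn_top Sb) hnorm (H10.pPrimeCore_quotient_eq_bot p)
      exact inf_le_left
    · intro Q hQ g hg
      have hgm : g ∈ normalizer ((S : Subgroup G) : Set G) ⊔ Cfsg.pPrimeCore p G := by rw [h]; trivial
      rw [mem_sup_of_normal_right] at hgm
      obtain ⟨n, hn, k, hk, rfl⟩ := hgm
      refine ⟨n, hn, k, ?_, rfl⟩
      rw [mem_centralizer_iff]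
      intro x hx
      have h1 : n * k * x * (n * k)⁻¹ ∈ (S : Subgroup G) := hg ⟨x, hx, rfl⟩
      have h2 : k * x * k⁻¹ ∈ (S : Subgroup G) := by
        rw [mem_normalizer_iff.1 hn]
        convert h1 using 1
        group
      have h3 : k * x * k⁻¹ * x⁻¹ ∈ (S : Subgroup G) ⊓ Cfsg.pPrimeCore p G := by
        refine mem_inf.2 ⟨mul_mem h2 (inv_mem (hQ hx)), ?_⟩
        have : k * x * k⁻¹ * x⁻¹ = k * (x * k⁻¹ * x⁻¹) := by group
        rw [this]
        exact mul_mem hk (hKn.conj_mem _ (inv_mem hk) x)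
      rw [hSK, mem_bot, mul_inv_eq_one, mul_inv_eq_iff_eq_mul] at h3
      exact h3.symm
  · rintro ⟨hcons, hctl⟩
    rw [H10.isPConstrained_iff] at hcons
    obtain ⟨M, hM⟩ : ∃ M, M = (Cfsg.pCore p (G ⧸ Cfsg.pPrimeCore p G)).comap (QuotientGroup.mk' (Cfsg.pPrimeCore p G)) := ⟨_, rfl⟩
    have hMn : M.Normal := by rw [hM]; infer_instance
    have hKM : Cfsg.pPrimeCore p G ≤ M := by
      rw [hM]
      intro x hx
      rw [mem_comap]
      have : QuotientGroup.mk' (Cfsg.pPrimeCore p G) x = 1 := (QuotientGroup.eq_one_iff x).2 hx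
      rw [this]; exact one_mem _
    have hMle : M ≤ (S : Subgroup G) ⊔ Cfsg.pPrimeCore p G := by
      rw [hM]
      refine (comap_mono hcoreS).trans ?_
      rw [hSbc, comap_map_eq, QuotientGroup.ker_mk']
    have hMdec : ∀ m ∈ M, ∃ s ∈ (S : Subgroup G) ⊓ M, ∃ k ∈ Cfsg.pPrimeCore p G, m = s * k := by
      intro m hm
      have h1 := hMle hm
      rw [mem_sup_of_normal_right] at h1
      obtain ⟨s, hs, k, hk, rfl⟩ := h1
      refine ⟨s, mem_inf.2 ⟨hs, ?_⟩, k, hk, rfl⟩
      have := mul_mem hm (inv_mem (hKM hk))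
      simpa using this
    have hR : H14.IsSylIn p ((S : Subgroup G) ⊓ M) M :=
      (H14.Sylow.isSylIn_top S).inf_of_normalizes le_top (by rw [normalizer_eq_top M])
    rw [eq_top_iff]
    intro g _
    obtain ⟨m, hm, y, hy, rfl⟩ := H14.frattini_arg hR (le_top : M ≤ ⊤) (by rw [normalizer_eq_top M]) (mem_top g)
    have hR2 : (S : Subgroup G) ⊓ M ≤ normalizer ((S : Subgroup G) : Set G) ⊔ Cfsg.pPrimeCore p G :=
      inf_le_left.trans (le_normalizer.trans le_sup_left)
    have hMN : M ≤ normalizer ((S : Subgroup G) : Set G) ⊔ Cfsg.pPrimeCore p G := by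
      intro x hx
      obtain ⟨s, hs, k, hk, rfl⟩ := hMdec x hx
      exact mul_mem (hR2 hs) ((le_sup_right : Cfsg.pPrimeCore p G ≤ _) hk)
    refine mul_mem (hMN hm) ?_
    have hyN := (mem_inf.1 hy).2
    obtain ⟨n, hn, c, hc, rfl⟩ := hctl ((S : Subgroup G) ⊓ M) inf_le_left y (by
      have := H14.mem_normalizer_cj.1 hyN
      change H14.cj y ((S : Subgroup G) ⊓ M) ≤ _
      rw [this]; exact inf_le_left)
    refine mul_mem ((le_sup_left : normalizer ((S : Subgroup G) : Set G) ≤ _) hn) (hMN ?_)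
    rw [hM, mem_comap]
    apply hcons
    rw [mem_centralizer_iff]
    intro z hz
    obtain ⟨w, rfl⟩ := hsurj z
    have hw : w ∈ M := by rw [hM]; exact hz
    obtain ⟨s, hs, k, hk, rfl⟩ := hMdec w hw
    have hk1 : QuotientGroup.mk' (Cfsg.pPrimeCore p G) k = 1 := (QuotientGroup.eq_one_iff k).2 hk
    rw [map_mul, hk1, mul_one, ← map_mul, ← map_mul, mem_centralizer_iff.1 hc s hs]

end Cfsg.Agent.S1948
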