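import Cfsg.Statements.S1949
import Cfsg.Agent.H14.OmCrit
import Cfsg.Agent.H2.Residual

set_option autoImplicit false
open Cfsg

namespace Cfsg.Agent.S1949

set_option autoImplicit false
open Cfsg Cfsg.Agent.L Cfsg.Agent.H14 Subgroup
open scoped commutatorElement

theorem crit_aut {P : Type*} [Group P] [Finite P] {p : ℕ} [hp : Fact p.Prime] (hP : IsPGroup p P) :
    ∃ D : Subgroup P, (∀ α : MulAut P, ∀ x ∈ D, α x ∈ D) ∧
      (∀ x ∈ D, x ^ p = 1 ∨ (p = 2 ∧ x ^ 4 = 1)) ∧
      (∀ r : P, ∀ d ∈ D, ⁅r, d⁆ ∈ D ⊓ centralizer (D : Set P)) ∧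
      ∀ α : MulAut P, (orderOf α).Coprime p → (∀ d ∈ D, α d = d) → α = 1 := by
  classical
  let X := P ⋊[MonoidHom.id (MulAut P)] MulAut P
  haveI : Finite X := Finite.of_equiv _ SemidirectProduct.equivProd.symm
  let i : P →* X := SemidirectProduct.inl
  let j : MulAut P →* X := SemidirectProduct.inr
  have hi : Function.Injective i := SemidirectProduct.inl_injective
  have hij : ∀ (α : MulAut P) (x : P), i (α x) = j α * i x * (j α)⁻¹ := by
    intro α x
    have := SemidirectProduct.inl_aut (φ := MonoidHom.id (MulAut P)) α x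
    simpa [i, j] using this
  have hR : IsPGroup p i.range := hP.of_surjective i.rangeRestrict i.rangeRestrict_surjective
  haveI hRn : i.range.Normal := by
    have : i.range = SemidirectProduct.rightHom.ker := SemidirectProduct.range_inl_eq_ker_rightHom
    rw [this]; infer_instance
  have hnz : nz i.range = ⊤ := Subgroup.normalizer_eq_top_iff.2 hRn
  obtain ⟨D, hDR, hDn, hexp, hcomm, hcop⟩ := exists_crit (p := p) hR
  have hDn' : ∀ g : X, ∀ x ∈ D, g * x * g⁻¹ ∈ D := by
    intro g x hx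
    have : g ∈ nz D := hDn (by rw [hnz]; trivial)
    exact (Subgroup.mem_normalizer_iff.1 this x).1 hx
  refine ⟨D.comap i, ?_, ?_, ?_, ?_⟩
  · intro α x hx
    rw [Subgroup.mem_comap] at hx ⊢
    rw [hij]
    exact hDn' _ _ hx
  · intro x hx
    rcases hexp (i x) hx with h | ⟨h2, h⟩
    · left; exact hi (by rw [map_pow, h, map_one])
    · right; exact ⟨h2, hi (by rw [map_pow, h, map_one])⟩
  · intro r d hd
    have h := hcomm (i r) ⟨r, rfl⟩ (i d) hd
    rw [← map_commutatorElement] at h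
    refine Subgroup.mem_inf.2 ⟨(Subgroup.mem_inf.1 h).1, ?_⟩
    rw [Subgroup.mem_centralizer_iff]
    intro y hy
    apply hi
    rw [map_mul, map_mul]
    exact Subgroup.mem_centralizer_iff.1 (Subgroup.mem_inf.1 h).2 (i y) hy
  · intro α hα hfix
    have h := hcop (zpowers (j α)) (by rw [hnz]; exact le_top)
      (by
        rw [Nat.card_zpowers, orderOf_injective j SemidirectProduct.inr_injective]
        exact hα)
      (by
        intro y hy
        obtain ⟨x, rfl⟩ := hDR hy
        have hx : x ∈ D.comap i := hy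
        have h1 : j α * i x = i x * j α := by
          have := hij α x
          rw [hfix x hx] at this
          rw [eq_mul_inv_iff_mul_eq] at this
          exact this.symm
        rw [Subgroup.mem_centralizer_iff]
        rintro _ ⟨k, rfl⟩
        exact (Commute.zpow_left (show Commute (j α) (i x) from h1) k))
    ext x
    apply hi
    rw [hij]
    have h2 : i x ∈ centralizer ((zpowers (j α) : Subgroup X) : Set X) := h ⟨x, rfl⟩
    rw [Subgroup.mem_centralizer_iff] at h2
    rw [h2 (j α) (mem_zpowers _), mul_inv_cancel_right]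
    rfl

theorem sup_comm {P : Type*} [Group P] {A B : Subgroup P} (h1 : A ≤ centralizer (A : Set P))
    (h2 : B ≤ centralizer (B : Set P)) (h3 : A ≤ centralizer (B : Set P)) :
    A ⊔ B ≤ centralizer ((A ⊔ B : Subgroup P) : Set P) := by
  have h4 : B ≤ centralizer (A : Set P) := Subgroup.le_centralizer_iff.1 h3
  refine sup_le ?_ ?_
  · rw [Subgroup.le_centralizer_iff]
    exact sup_le h1 (Subgroup.le_centralizer_iff.1 h3)
  · rw [Subgroup.le_centralizer_iff]
    exact sup_le (Subgroup.le_centralizer_iff.1 h4) h2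

/-- Let P be a finite p-group and G a group of automorphisms of P containing the inner automorphisms. Then there is a G-invariant subgroup D of P, contained in the subgroup generated by the elements x⁻¹α(x) with x in P and α in O^p(G), of exponent dividing p when p is odd and dividing 4 when p = 2, with [D, P] ≤ Z(D), such that every automorphism in G of order prime to p that fixes D elementwise is the identity; moreover every maximal abelian subgroup A of D is normal in P and every automorphism in G fixing A elementwise has p-power order. -/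
theorem result {P : Type*} [Group P] [Finite P] {p : ℕ} [Fact p.Prime] (hP : IsPGroup p P)
    (G : Subgroup (MulAut P)) (hG : Cfsg.Inn P ≤ G) :
    ∃ D : Subgroup P,
      (∀ α ∈ G, D.map α.toMonoidHom = D) ∧
      D ≤ Subgroup.closure {y : P | ∃ α ∈ Cfsg.pResidual p ↥G, ∃ x : P, y = x⁻¹ * (α : MulAut P) x} ∧
      (∀ d ∈ D, d ^ p = 1 ∨ (p = 2 ∧ d ^ 4 = 1)) ∧
      ⁅D, (⊤ : Subgroup P)⁆ ≤ D ⊓ Subgroup.centralizer (D : Set P) ∧
      (∀ α ∈ G, (orderOf α).Coprime p → (∀ d ∈ D, α d = d) → α = 1) ∧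
      ∀ A : Subgroup P, A ≤ D → IsMulCommutative ↥A →
        (∀ B : Subgroup P, A ≤ B → B ≤ D → IsMulCommutative ↥B → B = A) →
        A.Normal ∧ ∀ α ∈ G, (∀ a ∈ A, α a = a) → ∃ k : ℕ, orderOf α = p ^ k := by
  classical
  obtain ⟨D₁, f1, f2, f3, f4⟩ := crit_aut hP
  let M : Subgroup P := Subgroup.closure {y : P | ∃ α ∈ Cfsg.pResidual p ↥G, ∃ x : P, y = x⁻¹ * (α : MulAut P) x}
  haveI hRn : (Cfsg.pResidual p ↥G).Normal := H2.pResidual_normal
  have hMinv : ∀ α ∈ G, ∀ x ∈ M, α x ∈ M := by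
    intro α hα x hx
    have hle : M ≤ M.comap α.toMonoidHom := by
      refine (Subgroup.closure_le _).2 ?_
      rintro y ⟨β, hβ, x, rfl⟩
      refine Subgroup.subset_closure ⟨(⟨α, hα⟩ : G) * β * (⟨α, hα⟩ : G)⁻¹, hRn.conj_mem β hβ _, α x, ?_⟩
      simp
    exact hle hx
  have hconj : ∀ r : P, ∀ x ∈ M, r * x * r⁻¹ ∈ M := by
    intro r x hx
    have := hMinv (MulAut.conj r) (hG ⟨r, rfl⟩) x hx
    rwa [MulAut.conj_apply] at this
  have hDinv : ∀ α ∈ G, ∀ x ∈ D₁ ⊓ M, α x ∈ D₁ ⊓ M := by
    intro α hα x hx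
    exact Subgroup.mem_inf.2 ⟨f1 α x (Subgroup.mem_inf.1 hx).1, hMinv α hα x (Subgroup.mem_inf.1 hx).2⟩
  have hcomm4 : ∀ r : P, ∀ d ∈ D₁ ⊓ M, ⁅d, r⁆ ∈ (D₁ ⊓ M) ⊓ centralizer ((D₁ ⊓ M : Subgroup P) : Set P) := by
    intro r d hd
    have h1 := f3 r d (Subgroup.mem_inf.1 hd).1
    have h2 : ⁅r, d⁆ ∈ M := by
      rw [commutatorElement_def]
      exact M.mul_mem (hconj r d (Subgroup.mem_inf.1 hd).2) (M.inv_mem (Subgroup.mem_inf.1 hd).2)
    rw [← commutatorElement_inv]
    refine Subgroup.inv_mem _ (Subgroup.mem_inf.2 ⟨Subgroup.mem_inf.2 ⟨(Subgroup.mem_inf.1 h1).1, h2⟩, ?_⟩)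
    exact Subgroup.centralizer_le (fun x hx => (Subgroup.mem_inf.1 hx).1) (Subgroup.mem_inf.1 h1).2
  have hpow : ∀ (β : MulAut P) (d c : P), β d = d * c → β c = c → ∀ n : ℕ, (β ^ n) d = d * c ^ n := by
    intro β d c h1 h2 n
    induction n with
    | zero => simp
    | succ n ih =>
      rw [pow_succ', MulAut.mul_apply, ih, map_mul, map_pow, h1, h2, pow_succ', mul_assoc]
  have hcop : ∀ (β : MulAut P) (d c : P), (orderOf β).Coprime p → β d = d * c → β c = c → c = 1 := by
    intro β d c hβ h1 h2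
    have h3 := hpow β d c h1 h2 (orderOf β)
    rw [pow_orderOf_eq_one, MulAut.one_apply] at h3
    have h4 : c ^ orderOf β = 1 := by
      have : d * 1 = d * c ^ orderOf β := by rw [mul_one]; exact h3
      exact (mul_left_cancel this).symm
    obtain ⟨k, hk⟩ := hP c
    have h5 : orderOf c ∣ orderOf β := orderOf_dvd_of_pow_eq_one h4
    have h6 : orderOf c ∣ p ^ k := orderOf_dvd_of_pow_eq_one hk
    have h7 : (orderOf β).Coprime (p ^ k) := Nat.Coprime.pow_right k hβ
    have h8 : orderOf c ∣ 1 := by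
      have := Nat.dvd_gcd h5 h6
      rwa [h7] at this
    exact orderOf_eq_one_iff.1 (Nat.dvd_one.1 h8)
  have h5 : ∀ α ∈ G, (orderOf α).Coprime p → (∀ d ∈ D₁ ⊓ M, α d = d) → α = 1 := by
    intro α hα hα' hfix
    refine f4 α hα' ?_
    intro d hd
    have hαp : (⟨α, hα⟩ : G) ∈ Cfsg.pResidual p ↥G := by
      apply H2.mem_pResidual_of_coprime
      rw [← Subgroup.orderOf_coe]
      exact hα'
    have hc : d⁻¹ * α d ∈ D₁ ⊓ M := by
      refine Subgroup.mem_inf.2 ⟨D₁.mul_mem (D₁.inv_mem hd) (f1 α d hd), ?_⟩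
      exact Subgroup.subset_closure ⟨⟨α, hα⟩, hαp, d, rfl⟩
    have := hcop α d (d⁻¹ * α d) hα' (by group) (hfix _ hc)
    rw [inv_mul_eq_one] at this
    exact this.symm
  refine ⟨D₁ ⊓ M, ?_, inf_le_right, ?_, ?_, h5, ?_⟩
  · intro α hα
    refine le_antisymm ?_ ?_
    · rintro _ ⟨x, hx, rfl⟩
      exact hDinv α hα x hx
    · intro x hx
      refine ⟨α⁻¹ x, hDinv α⁻¹ (G.inv_mem hα) x hx, ?_⟩
      exact MulAut.apply_inv_self P α x
  · intro d hd
    exact f2 d (Subgroup.mem_inf.1 hd).1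
  · rw [Subgroup.commutator_le]
    intro d hd r _
    exact hcomm4 r d hd
  · intro A hAD hAc hmax
    have hAA : A ≤ centralizer (A : Set P) := Subgroup.le_centralizer_iff_isMulCommutative.2 hAc
    have hZA : (D₁ ⊓ M) ⊓ centralizer ((D₁ ⊓ M : Subgroup P) : Set P) ≤ A := by
      have h := hmax (A ⊔ ((D₁ ⊓ M) ⊓ centralizer ((D₁ ⊓ M : Subgroup P) : Set P))) le_sup_left
        (sup_le hAD inf_le_left) (Subgroup.le_centralizer_iff_isMulCommutative.1 (sup_comm hAA
          (fun x hx => Subgroup.centralizer_le (fun y hy => (Subgroup.mem_inf.1 hy).1) (Subgroup.mem_inf.1 hx).2)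
          (Subgroup.le_centralizer_iff.1 (fun x hx =>
            Subgroup.centralizer_le (fun y hy => hAD hy) (Subgroup.mem_inf.1 hx).2))))
      calc _ ≤ A ⊔ ((D₁ ⊓ M) ⊓ centralizer ((D₁ ⊓ M : Subgroup P) : Set P)) := le_sup_right
        _ = A := h
    have hcA : ∀ c ∈ D₁ ⊓ M, (∀ a ∈ A, a * c = c * a) → c ∈ A := by
      intro c hc hca
      have h := hmax (A ⊔ zpowers c) le_sup_left
        (sup_le hAD (by rw [Subgroup.zpowers_le]; exact hc))
        (Subgroup.le_centralizer_iff_isMulCommutative.1 (sup_comm hAA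
          (Subgroup.le_centralizer_iff_isMulCommutative.2 inferInstance)
          (fun a ha => by
            rw [Subgroup.mem_centralizer_iff]
            rintro _ ⟨k, rfl⟩
            exact (Commute.zpow_left (show Commute c a from (hca a ha).symm) k))))
      have : c ∈ A ⊔ zpowers c := (le_sup_right : zpowers c ≤ A ⊔ zpowers c) (mem_zpowers c)
      rwa [h] at this
    have hAn : A.Normal := by
      constructor
      intro a ha r
      have h1 : ⁅a, r⁆ ∈ A := hZA (hcomm4 r a (hAD ha))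
      have h2 : r * a * r⁻¹ = ⁅a, r⁆⁻¹ * a := by rw [commutatorElement_def]; group
      rw [h2]
      exact A.mul_mem (A.inv_mem h1) ha
    refine ⟨hAn, ?_⟩
    intro α hα hfix
    have hpp : p.Prime := Fact.out
    obtain ⟨k, m, hm, hkm⟩ := Nat.exists_eq_pow_mul_and_not_dvd (n := orderOf α)
      (orderOf_pos α).ne' p hpp.ne_one
    have hβo : orderOf (α ^ p ^ k) = m := by
      rw [orderOf_pow' α (pow_ne_zero _ hpp.ne_zero), hkm, Nat.gcd_mul_right_left,
        Nat.mul_div_cancel_left _ (pow_pos hpp.pos _)]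
    have hβc : (orderOf (α ^ p ^ k)).Coprime p := by
      rw [hβo]
      exact ((Nat.Prime.coprime_iff_not_dvd hpp).2 hm).symm
    have hfixβ : ∀ a ∈ A, (α ^ p ^ k) a = a := by
      intro a ha
      generalize p ^ k = n
      induction n with
      | zero => simp
      | succ n ih => rw [pow_succ', MulAut.mul_apply, ih, hfix a ha]
    have hβG : α ^ p ^ k ∈ G := G.pow_mem hα _
    have hβ1 : α ^ p ^ k = 1 := by
      refine h5 _ hβG hβc ?_
      intro d hd
      set β := α ^ p ^ k with hβ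
      have hc : d⁻¹ * β d ∈ D₁ ⊓ M := Subgroup.mul_mem _ (Subgroup.inv_mem _ hd) (hDinv β hβG d hd)
      have hcA' : d⁻¹ * β d ∈ A := by
        refine hcA _ hc ?_
        intro a ha
        have h1 : d * a * d⁻¹ ∈ A := hAn.conj_mem a ha d
        have h2 := hfixβ _ h1
        rw [map_mul, map_mul, map_inv, hfixβ a ha] at h2
        -- β d * a * (β d)⁻¹ = d * a * d⁻¹
        have h3 : β d * a = d * a * d⁻¹ * β d := by
          rw [← h2]; group
        calc a * (d⁻¹ * β d) = d⁻¹ * (d * a * d⁻¹ * β d) := by group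
          _ = d⁻¹ * (β d * a) := by rw [h3]
          _ = d⁻¹ * β d * a := by group
      have := hcop β d (d⁻¹ * β d) hβc (by group) (hfixβ _ hcA')
      rw [inv_mul_eq_one] at this
      exact this.symm
    obtain ⟨l, _, hl⟩ := (Nat.dvd_prime_pow hpp).1 (orderOf_dvd_of_pow_eq_one hβ1)
    exact ⟨l, hl⟩

end Cfsg.Agent.S1949
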