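import Cfsg.Statements.S1950
import Cfsg.Agent.H14.Cyc7
import Cfsg.Agent.H23.PSolvable
import Cfsg.Agent.H2.NPCFun

set_option autoImplicit false
open Cfsg

namespace Cfsg.Agent.S1950

open Cfsg.Agent.H14.Pair

universe u

/-- restricting the pair hypothesis to a subgroup -/
theorem closure_sub {G : Type*} [Group G] {p : ℕ} [hp : Fact p.Prime] (N : Subgroup G) (x y : N)
    (h : IsPSolvable p ↥(Subgroup.closure ({(x : G), (y : G)} : Set G))) :
    IsPSolvable p ↥(Subgroup.closure ({x, y} : Set N)) := by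
  have hle : Subgroup.closure ({x, y} : Set N) ≤
      (Subgroup.closure ({(x : G), (y : G)} : Set G)).comap N.subtype := by
    rw [Subgroup.closure_le]
    intro w hw
    rcases hw with rfl | hw
    · exact Subgroup.subset_closure (by simp)
    · rw [Set.mem_singleton_iff] at hw
      rw [hw]
      exact Subgroup.subset_closure (by simp)
  refine Cfsg.Agent.H23.isPSolvable_of_injective
    ((N.subtype.comp (Subgroup.closure ({x, y} : Set N)).subtype).codRestrict _
      (fun w => hle w.2)) ?_ h
  intro a b hab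
  have h1 := congrArg Subtype.val hab
  exact Subtype.ext (Subtype.ext h1)

theorem closure_quot {G : Type*} [Group G] {p : ℕ} [hp : Fact p.Prime] (N : Subgroup G) [N.Normal] (x y : G)
    (h : IsPSolvable p ↥(Subgroup.closure ({x, y} : Set G))) :
    IsPSolvable p ↥(Subgroup.closure ({(x : G ⧸ N), (y : G ⧸ N)} : Set (G ⧸ N))) := by
  have h1 := Cfsg.Agent.H23.isPSolvable_map (QuotientGroup.mk' N) h
  rw [MonoidHom.map_closure] at h1
  have h2 : (QuotientGroup.mk' N) '' ({x, y} : Set G) = ({(x : G ⧸ N), (y : G ⧸ N)} : Set (G ⧸ N)) := by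
    rw [Set.image_pair]; rfl
  rwa [h2] at h1

theorem lift_order_p {G : Type*} [Group G] [Finite G] {p : ℕ} [hp : Fact p.Prime] (N : Subgroup G)
    [N.Normal] (hN : (Nat.card N).Coprime p) (a : G ⧸ N) (ha : orderOf a = p) :
    ∃ x : G, orderOf x = p ∧ (x : G ⧸ N) = a := by
  obtain ⟨x, rfl⟩ := QuotientGroup.mk_surjective a
  have hx0 : orderOf x ≠ 0 := (orderOf_pos x).ne'
  obtain ⟨k, b, hb, hk⟩ := Nat.exists_eq_pow_mul_and_not_dvd hx0 p hp.out.ne_one
  have hcop : Nat.Coprime b p := ((Nat.Prime.coprime_iff_not_dvd hp.out).mpr hb).symm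
  obtain ⟨c, -, hc⟩ := Nat.exists_mul_mod_eq_one_of_coprime hcop hp.out.one_lt
  have h1 : ((x ^ (b * c) : G) : G ⧸ N) = (x : G ⧸ N) := by
    rw [QuotientGroup.mk_pow]
    conv_rhs => rw [← pow_one (x : G ⧸ N)]
    rw [pow_inj_mod, ha, hc, Nat.mod_eq_of_lt hp.out.one_lt]
  refine ⟨x ^ (b * c), ?_, h1⟩
  have h2 : (x ^ (b * c)) ^ (p ^ k) = 1 := by
    rw [← pow_mul, mul_assoc, mul_comm c, ← mul_assoc, mul_comm b, ← hk, pow_mul, pow_orderOf_eq_one,
      one_pow]
  have h3 : (x ^ (b * c)) ^ p ∈ N := by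
    rw [← QuotientGroup.eq_one_iff, QuotientGroup.mk_pow, h1, ← ha, pow_orderOf_eq_one]
  have h4 : (x ^ (b * c)) ^ p = 1 := by
    rw [← orderOf_eq_one_iff]
    have h5 : orderOf ((x ^ (b * c)) ^ p) ∣ p ^ k := by
      apply orderOf_dvd_of_pow_eq_one
      rw [← pow_mul, mul_comm p, pow_mul, h2, one_pow]
    have h6 : orderOf ((x ^ (b * c)) ^ p) ∣ Nat.card N := by
      have := orderOf_dvd_natCard (⟨_, h3⟩ : N)
      rwa [Subgroup.orderOf_mk] at this
    exact Nat.eq_one_of_dvd_coprimes (hN.pow_right k) h6 h5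
  apply orderOf_eq_prime h4
  intro h5
  rw [h5, QuotientGroup.mk_one] at h1
  rw [← h1, orderOf_one] at ha
  exact hp.out.one_lt.ne ha

theorem main (p : ℕ) [hp : Fact p.Prime] (n : ℕ) : ∀ (G : Type u) [Group G] [Finite G], Nat.card G = n →
    ∀ P : Sylow p G, IsCyclic ↥(P : Subgroup G) →
    (∀ x y : G, orderOf x = p → orderOf y = p → IsPSolvable p ↥(Subgroup.closure ({x, y} : Set G))) →
    IsPSolvable p G := by
  classical
  induction n using Nat.strong_induction_on with
  | _ n IH =>
  intro G _ _ hn P hP hs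
  -- normal p'-subgroups
  have caseA : ∀ K : Subgroup G, K.Normal → K ≠ ⊥ → (Nat.card K).Coprime p → IsPSolvable p G := by
    intro K hK hK1 hKp
    refine Cfsg.Agent.H23.isPSolvable_of_quotient K (Or.inr hKp) ?_
    have hcard : Nat.card (G ⧸ K) < n := by
      have h1 := Subgroup.card_eq_card_quotient_mul_card_subgroup K
      have h2 : 1 < Nat.card K := (Subgroup.one_lt_card_iff_ne_bot K).mpr hK1
      have h3 : 0 < Nat.card (G ⧸ K) := Nat.card_pos
      rw [← hn, h1]
      nlinarith
    have hsurj := QuotientGroup.mk'_surjective K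
    refine IH _ hcard (G ⧸ K) rfl (P.mapSurjective hsurj) ?_ ?_
    · have h1 : IsCyclic ((P : Subgroup G).map (QuotientGroup.mk' K)) := by
        exact isCyclic_of_surjective ((QuotientGroup.mk' K).subgroupMap (P : Subgroup G))
          ((QuotientGroup.mk' K).subgroupMap_surjective (P : Subgroup G))
      exact h1
    · intro a b ha hb
      obtain ⟨x, hx, rfl⟩ := lift_order_p K hKp a ha
      obtain ⟨y, hy, rfl⟩ := lift_order_p K hKp b hb
      exact closure_quot K x y (hs x y hx hy)
  by_cases hpG : p ∣ Nat.card G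
  swap
  · exact Cfsg.Agent.H23.isPSolvable_of_card_coprime ((Nat.Prime.coprime_iff_not_dvd hp.out).mpr hpG).symm
  have hP1 : (P : Subgroup G) ≠ ⊥ := by
    intro h1
    apply P.not_dvd_index
    rw [h1, Subgroup.index_bot]
    exact hpG
  by_cases hp2 : p = 2
  · subst hp2
    apply Cfsg.Agent.H2.isPSolvable_of_npc
    have hmin : (Nat.card G).minFac = 2 := by
      rw [Nat.minFac_eq_two_iff]; exact hpG
    exact ⟨P, _, (MonoidHom.transferSylow P (hP.normalizer_le_centralizer hmin)).normal_ker,
      MonoidHom.ker_transferSylow_isComplement' P (hP.normalizer_le_centralizer hmin)⟩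
  by_cases hcomm : IsMulCommutative G
  · apply Cfsg.Agent.H23.isPSolvable_of_isSolvable
    exact isSolvable_of_comm (fun a b => hcomm.is_comm.comm a b)
  have hnt : Nontrivial G := by
    rw [← Finite.one_lt_card_iff_nontrivial]
    exact lt_of_lt_of_le hp.out.one_lt (Nat.le_of_dvd Nat.card_pos hpG)
  by_cases hsimp : IsSimpleGroup G
  · exact (simple_case hcomm hp2 P hP hP1 hs).elim
  obtain ⟨N, hN, hN1, hN2⟩ : ∃ N : Subgroup G, N.Normal ∧ N ≠ ⊥ ∧ N ≠ ⊤ := by
    by_contra hcon
    push Not at hcon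
    apply hsimp
    exact ⟨fun N hN => by
      by_cases h1 : N = ⊥
      · exact Or.inl h1
      · exact Or.inr (hcon N hN h1)⟩
  have hNcard : Nat.card N < n := by
    rw [← hn]
    have h1 : 1 < N.index := by
      have h2 := Subgroup.index_eq_one.not.mpr hN2
      have h3 : N.index ≠ 0 := Subgroup.FiniteIndex.index_ne_zero
      omega
    have h2 := N.card_mul_index
    have h3 : 0 < Nat.card N := Nat.card_pos
    nlinarith
  obtain ⟨Q⟩ : Nonempty (Sylow p N) := inferInstance
  have hNs : IsPSolvable p N := by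
    refine IH _ hNcard N rfl Q ?_ ?_
    · have h1 := cyc_sub hP ((Q : Subgroup N).map N.subtype) (Q.isPGroup'.map _)
      exact ((Q : Subgroup N).equivMapOfInjective N.subtype N.subtype_injective).isCyclic.mpr h1
    · intro x y hx hy
      apply closure_sub
      apply hs
      · rwa [Subgroup.orderOf_coe]
      · rwa [Subgroup.orderOf_coe]
  have hNnt : Nontrivial N := (Subgroup.nontrivial_iff_ne_bot N).mpr hN1
  rcases Cfsg.Agent.H23.pCore_ne_bot_or hNs with h1 | h1
  · -- a normal p-subgroup
    obtain ⟨R, hR⟩ : ∃ R, R = (pCore p N).map N.subtype := ⟨_, rfl⟩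
    have hRn : R.Normal := by
      rw [hR]
      have : (pCore p N).Characteristic := Cfsg.Agent.H1.pCore_characteristic p
      infer_instance
    have hRp : IsPGroup p R := by rw [hR]; exact (Cfsg.Agent.H1.pCore_isPGroup p N).map _
    have hR1 : R ≠ ⊥ := by
      rw [hR]
      intro h2
      exact h1 ((Subgroup.map_eq_bot_iff_of_injective _ N.subtype_injective).mp h2)
    have hRP : R ≤ (P : Subgroup G) := le_trans (Cfsg.Agent.H1.le_pCore hRn hRp) (Cfsg.Agent.H1.pCore_le_sylow P)
    have hpR : p ∣ Nat.card R := by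
      obtain ⟨k, hk⟩ := hRp.exists_card_eq
      rw [hk]
      apply dvd_pow_self
      rintro rfl
      rw [pow_zero] at hk
      exact hR1 (Subgroup.eq_bot_of_card_eq _ hk)
    obtain ⟨z', hz'⟩ := exists_prime_orderOf_dvd_card' p hpR
    obtain ⟨z, hz⟩ : ∃ z : G, z = z' := ⟨_, rfl⟩
    have hzR : z ∈ R := by rw [hz]; exact z'.2
    have oz : orderOf z = p := by rw [hz, Subgroup.orderOf_coe, hz']
    have hz1 : z ≠ 1 := by
      rintro rfl; rw [orderOf_one] at oz; exact hp.out.one_lt.ne oz
    have hconj : ∀ g : G, g * z * g⁻¹ ∈ Subgroup.zpowers z := by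
      intro g
      apply mem_zpowers_of_cyc hP (hRP hzR) (hRP (hRn.conj_mem z hzR g)) oz
      rw [conj_pow]
      have : z ^ p = 1 := by rw [← oz, pow_orderOf_eq_one]
      rw [this]; group
    obtain ⟨C, hC⟩ : ∃ C, C = Subgroup.centralizer ({z} : Set G) := ⟨_, rfl⟩
    have hCz : Subgroup.centralizer ((Subgroup.zpowers z : Subgroup G) : Set G) = C := by
      rw [hC, Subgroup.zpowers_eq_closure, Subgroup.centralizer_closure]
    have hZn : (Subgroup.zpowers z).Normal := by
      constructor
      intro w hw g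
      obtain ⟨k, rfl⟩ := Subgroup.mem_zpowers_iff.mp hw
      have : g * z ^ k * g⁻¹ = (g * z * g⁻¹) ^ k := (conj_zpow).symm
      rw [this]
      exact zpow_mem (hconj g) k
    have hCn : C.Normal := by rw [← hCz]; infer_instance
    have hPC : (P : Subgroup G) ≤ C := by rw [hC]; exact (cyc_frob hP).le_centralizer (hRP hzR)
    refine Cfsg.Agent.H23.isPSolvable_of_extension C ?_ ?_
    · obtain ⟨k, hk⟩ := (cyc_frob hP).complement (hRP hzR) hz1
      rw [← hC] at hk
      refine Cfsg.Agent.H23.isPSolvable_of_quotient (pPrimeCore p C) (Or.inr ?_) ?_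
      · exact Cfsg.Agent.H1.pPrimeCore_coprime p C
      · apply Cfsg.Agent.H23.isPSolvable_of_isPGroup
        exact IsPGroup.of_card hk
    · apply Cfsg.Agent.H23.isPSolvable_of_card_coprime
      apply Nat.Coprime.symm
      apply (Nat.Prime.coprime_iff_not_dvd hp.out).mpr
      intro h2
      exact P.not_dvd_index (h2.trans (Subgroup.index_dvd_of_le hPC))
  · refine caseA ((pPrimeCore p N).map N.subtype) ?_ ?_ ?_
    · have : (pPrimeCore p N).Characteristic := Cfsg.Agent.H1.pPrimeCore_characteristic p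
      infer_instance
    · intro h2
      exact h1 ((Subgroup.map_eq_bot_iff_of_injective _ N.subtype_injective).mp h2)
    · rw [Nat.card_congr ((pPrimeCore p N).equivMapOfInjective N.subtype N.subtype_injective).symm.toEquiv]
      exact Cfsg.Agent.H1.pPrimeCore_coprime p N

/-- Let G be a finite group whose Sylow p-subgroups are cyclic. Then G is p-solvable if and only if every two elements of order p of G generate a p-solvable subgroup. -/
theorem result {G : Type*} [Group G] [Finite G] {p : ℕ} [Fact p.Prime] (P : Sylow p G) (hP : IsCyclic ↥(P : Subgroup G)) :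
    Cfsg.IsPSolvable p G ↔ ∀ x y : G, orderOf x = p → orderOf y = p → Cfsg.IsPSolvable p ↥(Subgroup.closure ({x, y} : Set G)) := by
  constructor
  · intro h x y _ _
    exact Cfsg.Agent.H23.isPSolvable_subgroup _ h
  · intro h
    exact main p _ G rfl P hP h

end Cfsg.Agent.S1950
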