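import Cfsg.Statements.S1951
import Cfsg.Agent.H14.Pair3

set_option autoImplicit false
open Cfsg

namespace Cfsg.Agent.S1951

theorem npc_centralizes {C : Type*} [Group C] [Finite C] {p : ℕ} [hp : Fact p.Prime]
    (h : Cfsg.HasNormalPComplement p C) {Q : Subgroup C} (hQ : IsPGroup p Q)
    (hQi : ¬ p ∣ Q.index) (hab : ∀ a ∈ Q, ∀ b ∈ Q, a * b = b * a) {g : C}
    (hg : g ∈ Subgroup.normalizer (Q : Set C)) : ∀ a ∈ Q, a * g = g * a := by
  obtain ⟨P, N, hN, hc⟩ := h
  obtain ⟨Q', hQ'⟩ : ∃ Q' : Sylow p C, (Q' : Subgroup C) = Q := by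
    refine ⟨hQ.toSylow hQi, rfl⟩
  have hNc : Nat.Coprime (Nat.card N) p := by
    have h1 := hc.index_eq_card
    have h2 := hc.symm.index_eq_card
    rw [← h1]
    exact (Nat.Prime.coprime_iff_not_dvd hp.out).mpr P.not_dvd_index |>.symm
  have hdis : N ⊓ Q = ⊥ := by
    apply Subgroup.inf_eq_bot_of_coprime
    obtain ⟨k, hk⟩ := hQ.exists_card_eq
    rw [hk]
    exact hNc.pow_right k
  have hsup : N ⊔ Q = ⊤ := by
    have h1 : (N ⊔ Q).index = 1 := by
      have h2 : (N ⊔ Q).index ∣ N.index := Subgroup.index_dvd_of_le le_sup_left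
      have h3 : (N ⊔ Q).index ∣ Q.index := Subgroup.index_dvd_of_le le_sup_right
      have h4 : N.index = Nat.card (P : Subgroup C) := hc.symm.index_eq_card
      obtain ⟨k, hk⟩ := P.isPGroup'.exists_card_eq
      rw [h4, hk] at h2
      have h5 : Nat.Coprime (p ^ k) Q.index :=
        Nat.Coprime.pow_left k ((Nat.Prime.coprime_iff_not_dvd hp.out).mpr hQi)
      exact Nat.dvd_one.mp (h5 ▸ Nat.dvd_gcd h2 h3)
    exact Subgroup.index_eq_one.mp h1
  have hgt : g ∈ N ⊔ Q := by rw [hsup]; trivial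
  obtain ⟨n, hn, u, hu, rfl⟩ := Subgroup.mem_sup_of_normal_left.mp hgt
  intro a ha
  have hun : u ∈ Subgroup.normalizer (Q : Set C) := Subgroup.le_normalizer hu
  have hnn : n ∈ Subgroup.normalizer (Q : Set C) := by
    have := mul_mem hg (inv_mem hun)
    rwa [mul_inv_cancel_right] at this
  have h1 : n * a * n⁻¹ ∈ Q := (Subgroup.mem_normalizer_iff.mp hnn a).mp ha
  have h2 : n * a * n⁻¹ * a⁻¹ ∈ Q := mul_mem h1 (inv_mem ha)
  have h3 : n * a * n⁻¹ * a⁻¹ ∈ N := by
    have : n * a * n⁻¹ * a⁻¹ = n * (a * n⁻¹ * a⁻¹) := by group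
    rw [this]
    exact mul_mem hn (hN.conj_mem _ (inv_mem hn) a)
  have h4 : n * a * n⁻¹ * a⁻¹ ∈ N ⊓ Q := ⟨h3, h2⟩
  rw [hdis, Subgroup.mem_bot] at h4
  have h5 : n * a = a * n := by
    have h6 : n * a * n⁻¹ = a := by
      calc n * a * n⁻¹ = n * a * n⁻¹ * a⁻¹ * a := by group
        _ = a := by rw [h4, one_mul]
    calc n * a = n * a * n⁻¹ * n := by group
      _ = a * n := by rw [h6]
  calc a * (n * u) = a * n * u := by group
    _ = n * a * u := by rw [h5]
    _ = n * (a * u) := by group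
    _ = n * (u * a) := by rw [hab a ha u hu]
    _ = n * u * a := by group

/-- Let p be a prime and P a nontrivial elementary abelian Sylow p-subgroup of a finite nonabelian simple group G whose nonidentity elements are all conjugate in G. Suppose that two elements of P are conjugate in G only if they are conjugate in N_G(P), that the centralizer of every element of order p of P has a normal p-complement, and that every two elements of order p of G generate a p-solvable subgroup. Then p = 2. -/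
theorem result {G : Type*} [Group G] [Finite G] [IsSimpleGroup G] (hG : ¬ IsMulCommutative G) {p : ℕ} [Fact p.Prime] (P : Sylow p G)
    (hP1 : (P : Subgroup G) ≠ ⊥) (hPe : Cfsg.IsElementaryAbelian p (P : Subgroup G))
    (hconj : ∀ x ∈ (P : Subgroup G), ∀ y ∈ (P : Subgroup G), x ≠ 1 → y ≠ 1 → ∃ g : G, g * x * g⁻¹ = y)
    (ha : ∀ x ∈ (P : Subgroup G), ∀ y ∈ (P : Subgroup G), (∃ g : G, g * x * g⁻¹ = y) →
      ∃ n ∈ Subgroup.normalizer ((P : Subgroup G) : Set G), n * x * n⁻¹ = y)
    (hb : ∀ x ∈ (P : Subgroup G), orderOf x = p → Cfsg.HasNormalPComplement p ↥(Subgroup.centralizer ({x} : Set G)))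
    (hc : ∀ x y : G, orderOf x = p → orderOf y = p → Cfsg.IsPSolvable p ↥(Subgroup.closure ({x, y} : Set G))) :
    p = 2 := by
  classical
  have := Fintype.ofFinite G
  by_contra hp2
  have hp : p.Prime := Fact.out
  have hcomm : ∀ a ∈ (P : Subgroup G), ∀ b ∈ (P : Subgroup G), a * b = b * a := by
    intro a ha b hb
    have := hPe.1.is_comm.comm (⟨a, ha⟩ : (P : Subgroup G)) ⟨b, hb⟩
    exact congrArg Subtype.val this
  have hordP : ∀ x ∈ (P : Subgroup G), x ≠ 1 → orderOf x = p := by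
    intro x hx hx1
    exact orderOf_eq_prime (hPe.2 x hx) hx1
  have hF : Cfsg.Agent.H11.FrobSyl p P := by
    refine ⟨hcomm, fun z hz hz1 g hg => ?_⟩
    obtain ⟨hgC, hgN⟩ := hg
    have hnpc := hb z hz (hordP z hz hz1)
    have hPC : (P : Subgroup G) ≤ Subgroup.centralizer ({z} : Set G) := by
      intro y hy
      rw [Subgroup.mem_centralizer_singleton_iff]
      exact hcomm y hy z hz
    have hQp : IsPGroup p ((P : Subgroup G).subgroupOf (Subgroup.centralizer ({z} : Set G))) :=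
      (P.subtype hPC).isPGroup'
    have hQi : ¬ p ∣ ((P : Subgroup G).subgroupOf (Subgroup.centralizer ({z} : Set G))).index :=
      (P.subtype hPC).not_dvd_index
    have hgn : (⟨g, hgC⟩ : Subgroup.centralizer ({z} : Set G)) ∈
        Subgroup.normalizer (((P : Subgroup G).subgroupOf (Subgroup.centralizer ({z} : Set G)) : Subgroup _) : Set _) := by
      rw [Subgroup.mem_normalizer_iff]
      intro h
      rw [Subgroup.mem_subgroupOf, Subgroup.mem_subgroupOf]
      exact Subgroup.mem_normalizer_iff.mp hgN h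
    have h1 := npc_centralizes hnpc hQp hQi (by
      intro a ha b hb
      exact Subtype.ext (hcomm _ (Subgroup.mem_subgroupOf.mp ha) _ (Subgroup.mem_subgroupOf.mp hb))) hgn
    rw [Subgroup.mem_centralizer_iff]
    intro a ha
    have h2 := h1 ⟨a, hPC ha⟩ (Subgroup.mem_subgroupOf.mpr ha)
    exact congrArg Subtype.val h2
  obtain ⟨⟨x, hx⟩, hx1'⟩ := Subgroup.ne_bot_iff_exists_ne_one.mp hP1
  have hx1 : x ≠ 1 := fun h => hx1' (Subtype.ext h)
  refine Cfsg.Agent.H14.Pair.pair_main hp2 P hP1 hF hx hx1 ?_ ?_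
  · intro z hz hz1
    obtain ⟨g, hg⟩ := hconj x hx z hz hx1 hz1
    exact isConj_iff.mpr ⟨g, hg⟩
  · intro g
    have ox := hordP x hx hx1
    have oy : orderOf (g * x * g⁻¹) = p := by rw [Cfsg.Agent.H11.orderOf_conj, ox]
    refine Cfsg.Agent.H14.Pair.pair_key hp2 ox oy ?_ (hc x _ ox oy)
    intro Q hQ a ha b hb
    obtain ⟨R, hR⟩ := hQ.exists_le_sylow
    obtain ⟨c, hc'⟩ := MulAction.exists_smul_eq G R P
    have h1 : ∀ y ∈ Q, c * y * c⁻¹ ∈ (P : Subgroup G) := by
      intro y hy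
      rw [← hc']
      exact Subgroup.smul_mem_pointwise_smul y (MulAut.conj c) (R : Subgroup G) (hR hy)
    have h2 := hcomm _ (h1 a ha) _ (h1 b hb)
    have h3 : c * (a * b) * c⁻¹ = c * (b * a) * c⁻¹ := by
      calc c * (a * b) * c⁻¹ = (c * a * c⁻¹) * (c * b * c⁻¹) := by group
        _ = (c * b * c⁻¹) * (c * a * c⁻¹) := h2
        _ = c * (b * a) * c⁻¹ := by group
    exact mul_left_cancel (mul_right_cancel h3)

end Cfsg.Agent.S1951
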