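import Cfsg.Statements.S1952
import Cfsg.Agent.H18.WrZp2

set_option autoImplicit false
open Cfsg
open Subgroup Cfsg.Agent.H18 Cfsg.Agent.H18.WrZp

namespace Cfsg.Agent.S1952

/-- Let P be a finite p-group with a normal elementary abelian subgroup A of index p, and let x ∈ A and y ∈ P with y outside A. If the product of the p conjugates y^(-i) x y^i (i = 0, …, p−1) is not the identity, then the wreath product Z_p ≀ Z_p, realised as a Sylow p-subgroup of the symmetric group of degree p², is a homomorphic image of P. -/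
theorem result {P : Type*} [Group P] [Finite P] {p : ℕ} [Fact p.Prime] (hP : IsPGroup p P) (A : Subgroup P) [A.Normal]
    (hA : Cfsg.IsElementaryAbelian p A) (hidx : A.index = p) (x y : P) (hx : x ∈ A) (hy : y ∉ A)
    (hprod : ((List.range p).map (fun i => (y ^ i)⁻¹ * x * y ^ i)).prod ≠ 1) :
    ∃ (Q : Sylow p (Equiv.Perm (Fin (p ^ 2)))) (f : P →* ↥(Q : Subgroup (Equiv.Perm (Fin (p ^ 2))))), Function.Surjective f := by
  classical
  have hp := (inferInstance : Fact p.Prime)
  obtain ⟨hAc, hAp⟩ := hA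
  letI : CommGroup A := { (inferInstance : Group A) with mul_comm := fun a b => hAc.is_comm.comm a b }
  -- the conjugation by `y⁻¹`
  let c : A →* A := 
    { toFun := fun a => ⟨y⁻¹ * a * y, by simpa using (inferInstance : A.Normal).conj_mem a a.2 y⁻¹⟩
      map_one' := by apply Subtype.ext; simp
      map_mul' := by intro a b; apply Subtype.ext; simp [mul_assoc] }
  have hTi : ∀ (i : ℕ) (a : A), (((c^[i]) a : A) : P) = (y ^ i)⁻¹ * a * y ^ i := by
    intro i
    induction i with
    | zero => intro a; simp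
    | succ i ih =>
      intro a
      rw [Function.iterate_succ_apply, ih (c a)]
      show (y ^ i)⁻¹ * (y⁻¹ * a * y) * y ^ i = _
      rw [pow_succ']; group
  have hypA : y ^ p ∈ A := by
    have h1 := pow_card_eq_one' (x := (QuotientGroup.mk y : P ⧸ A))
    rw [← Subgroup.index, hidx, ← QuotientGroup.mk_pow, QuotientGroup.eq_one_iff] at h1
    exact h1
  have hTp : ∀ a, (c^[p]) a = a := by
    intro a
    apply Subtype.ext
    rw [hTi]
    have := congrArg Subtype.val (hAc.is_comm.comm a ⟨y ^ p, hypA⟩)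
    have h2 : (a : P) * y ^ p = y ^ p * a := this
    show (y ^ p)⁻¹ * a * y ^ p = a
    rw [mul_assoc, h2]; group
  have hpr : ∀ n : ℕ, ((∏ i ∈ Finset.range n, (c^[i]) (⟨x, hx⟩ : A) : A) : P) =
      ((List.range n).map (fun i => (y ^ i)⁻¹ * x * y ^ i)).prod := by
    intro n
    induction n with
    | zero => simp
    | succ n ih =>
      rw [Finset.prod_range_succ, List.range_succ, List.map_append, List.prod_append, List.map_singleton,
        List.prod_singleton, ← ih, Subgroup.coe_mul, hTi]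
  have hsum : ∏ i ∈ Finset.range p, (c^[i]) (⟨x, hx⟩ : A) ≠ 1 := by
    intro h1
    apply hprod
    rw [← hpr, h1]; rfl
  obtain ⟨ψ, hψ, hcard⟩ := grp_lin (p := p) (fun a => Subtype.ext (hAp a a.2)) c hTp ⟨x, hx⟩ hsum
  have hindex : ψ.ker.index = p := by
    rw [Subgroup.index_ker, MonoidHom.range_eq_top.2 hψ, Subgroup.card_top]
    exact Nat.card_zmod p
  set H := ψ.ker.map A.subtype with hH
  have hHi : H.index = p ^ 2 := by
    rw [hH, Subgroup.index_map_subtype, hindex, hidx, pow_two]
  refine of_core hP H hHi ?_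
  have h1 : Nat.card H.normalCore ≤ Nat.card {a : A // ∀ i : ℕ, ψ ((c^[i]) a) = 1} := by
    have hmem : ∀ b ∈ H.normalCore, ∃ hb : b ∈ A, ∀ i : ℕ, ψ ((c^[i]) ⟨b, hb⟩) = 1 := by
      intro b hb
      have hbH := H.normalCore_le hb
      have hbA : b ∈ A := by
        obtain ⟨a, -, rfl⟩ := hbH
        exact a.2
      refine ⟨hbA, fun i => ?_⟩
      have h2 : (y ^ i)⁻¹ * b * ((y ^ i)⁻¹)⁻¹ ∈ H := hb _
      obtain ⟨a, ha, h3⟩ := h2
      have h4 : a = (c^[i]) ⟨b, hbA⟩ := by
        apply Subtype.ext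
        rw [hTi]
        have h5 : (a : P) = (y ^ i)⁻¹ * b * ((y ^ i)⁻¹)⁻¹ := h3
        rw [h5, inv_inv]
      rw [← h4]; exact ha
    refine Nat.card_le_card_of_injective (fun b : H.normalCore => (⟨⟨b.1, (hmem b.1 b.2).1⟩, (hmem b.1 b.2).2⟩ :
      {a : A // ∀ i : ℕ, ψ ((c^[i]) a) = 1})) ?_
    intro b b' h
    have h2 := congrArg (fun z => ((z.1 : A) : P)) h
    exact Subtype.ext h2
  have h2 := H.normalCore.index_mul_card
  have h3 := A.index_mul_card
  rw [hidx] at h3
  have h4 : p ^ (p + 1) * Nat.card H.normalCore ≤ H.normalCore.index * Nat.card H.normalCore := by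
    rw [h2, ← h3, pow_succ', mul_assoc]
    exact Nat.mul_le_mul_left _ ((Nat.mul_le_mul_left _ h1).trans hcard)
  exact Nat.le_of_mul_le_mul_right h4 Nat.card_pos

end Cfsg.Agent.S1952
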