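import Cfsg.Statements.S1953
import Cfsg.Agent.H14.CenB
import Cfsg.Agent.H14.CenC
import Cfsg.Agent.H2.QD8
import Cfsg.Agent.L.KCtl2
import Cfsg.Agent.L.KChar
import Cfsg.Agent.H19.KNpc

set_option autoImplicit false
open Cfsg

namespace Cfsg.Agent.S1953

universe u

open Cfsg.Agent.L Cfsg.Agent.H19 Cfsg.Agent.H14.Cen

theorem fc_of_qd_free {G : Type u} [Group G] [Finite G] {p : ℕ} [hp : Fact p.Prime] (hp2 : p ≠ 2)
    (hfree : ¬ Involves ↥(qd p) G) : FC p {kInfLower} G := by
  have hst : ∀ (K R : Subgroup G) [hR : (R.subgroupOf K).Normal],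
      IsNormalizerPStable p (↥K ⧸ R.subgroupOf K) := by
    intro K R hR
    exact H2.normalizerPStable_of_qd_free hp2 (fun h => hfree (H2.hasSec_section h))
  refine fc_of_sections ?_ ?_ _ (inv_refl G)
  · intro W' hW'; rw [Set.mem_singleton_iff] at hW'; subst hW'; exact kInfLower_isCharP
  · intro K R hR hc
    refine fc_of_normal kInfLower_isCharP (fun T => ?_)
    refine (kInf_normal_of_stable hc (fun N hN => ?_) (sylIn_top T)).1
    exact nps_section hst _ (inv_quot (involves_section K R) N)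

theorem mtAll_kInf {G : Type u} [Group G] [Finite G] {p : ℕ} [hp : Fact p.Prime] (hp2 : p ≠ 2)
    (hfree : ¬ Involves ↥(qd p) G) (T : Sylow p G) :
    MtAll (nz (inducedFunctor kInfLower (T : Subgroup G))) (T : Subgroup G) := by
  have h := fc_of_qd_free hp2 hfree
  have h𝓦 : ∀ W' ∈ ({kInfLower} : Set (∀ (Q : Type u) [Group Q], Subgroup Q)), IsCharPFunctor.{u} p W' := by
    intro W' hW'; rw [Set.mem_singleton_iff] at hW'; subst hW'; exact kInfLower_isCharP
  have hS := sylIn_top T
  intro A g hA hg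
  have r := (fcsf_iff (fam_conj h𝓦 G) hS).1 h A g (Subgroup.mem_top _) hA (by
    rw [cs_coe]; exact hg)
  obtain ⟨x, hx, hx2⟩ := Real.collapse (N := nz (inducedFunctor kInfLower (T : Subgroup G))) (by
    rintro y ⟨_, ⟨W', hW', rfl⟩, -, hy⟩
    rw [Set.mem_singleton_iff] at hW'
    subst hW'
    exact hy) r
  exact ⟨x, hx, fun a ha => hx2 a ha⟩

/-- Let p be an odd prime and P a Sylow p-subgroup of the finite group G, and suppose that for no p-subgroup Q of G does N_G(Q)/C_G(Q) have a section isomorphic to SL₂(p). Call a subgroup Q of P centric-radical when Z(Q) is a Sylow p-subgroup of C_G(Q) and the only normal subgroup X of N_G(Q) containing Q·C_G(Q) such that the index of Q·C_G(Q) in X is a power of p is Q·C_G(Q) itself (that is, N_G(Q)/Q·C_G(Q) has no nontrivial normal p-subgroup). Then there is a centric-radical subgroup Q of P contained in every centric-radical subgroup of P; it is normal in P, and N_G(Q) controls strong fusion in P: whenever a subgroup A of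 P has g A g⁻¹ ≤ P, the element g is a product h c with h in N_G(Q) and c centralizing A. -/
theorem result {G : Type*} [Group G] [Finite G] {p : ℕ} [Fact p.Prime] (hp : p ≠ 2) (P : Sylow p G)
    (hfree : ∀ Q : Subgroup G, IsPGroup p ↥Q → ¬ ∃ (H K : Subgroup G) (_ : (K.subgroupOf H).Normal),
      Subgroup.centralizer (Q : Set G) ≤ K ∧ K ≤ H ∧ H ≤ Subgroup.normalizer (Q : Set G) ∧
      Nonempty ((↥H ⧸ K.subgroupOf H) ≃* Matrix.SpecialLinearGroup (Fin 2) (ZMod p)))
    (cr : Subgroup G → Prop)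
    (hcr : ∀ Q : Subgroup G, cr Q ↔ (Q ≤ (P : Subgroup G) ∧
      (∃ R : Sylow p ↥(Subgroup.centralizer (Q : Set G)),
        (R : Subgroup ↥(Subgroup.centralizer (Q : Set G))).map (Subgroup.centralizer (Q : Set G)).subtype = Q ⊓ Subgroup.centralizer (Q : Set G)) ∧
      ∀ X : Subgroup G, X ≤ Subgroup.normalizer (Q : Set G) →
        (∀ n ∈ Subgroup.normalizer (Q : Set G), X.map (MulAut.conj n).toMonoidHom = X) →
        Q ⊔ Subgroup.centralizer (Q : Set G) ≤ X → (∃ k : ℕ, (Q ⊔ Subgroup.centralizer (Q : Set G)).relIndex X = p ^ k) →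
        X = Q ⊔ Subgroup.centralizer (Q : Set G))) :
    ∃ Q : Subgroup G, cr Q ∧ (∀ R : Subgroup G, cr R → Q ≤ R) ∧ (∀ x ∈ (P : Subgroup G), Q.map (MulAut.conj x).toMonoidHom = Q) ∧
      ∀ A : Subgroup G, A ≤ (P : Subgroup G) → ∀ g : G, A.map (MulAut.conj g).toMonoidHom ≤ (P : Subgroup G) →
        ∃ h ∈ Subgroup.normalizer (Q : Set G), ∃ c ∈ Subgroup.centralizer (A : Set G), g = h * c := by
  have hqd : ¬ Involves ↥(qd p) G := by
    intro h
    obtain ⟨T, hT, H, K, hK, h1, h2, h3, h4⟩ := sl_section_of_qd h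
    exact hfree T hT ⟨H, K, hK, h1, h2, h3, h4⟩
  have hct := mtAll_kInf hp hqd P
  obtain ⟨K, hK⟩ : ∃ K, K = inducedFunctor kInfLower (P : Subgroup G) := ⟨_, rfl⟩
  rw [← hK] at hct
  have hctx : Ctx p (P : Subgroup G) K := by
    refine ⟨sylIn_top P, ?_, ?_, ?_⟩
    · rw [hK]; exact Subgroup.map_subtype_le _
    · rw [hK]
      exact Subgroup.le_normalizer.trans ((H19.kInfLower_npc hp).normalizer_le (P : Subgroup G))
    · intro x hx
      have h1 : (⟨x, hx.1⟩ : (P : Subgroup G)) ∈
          Subgroup.centralizer (kInfLower (P : Subgroup G) : Set (P : Subgroup G)) := by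
        rw [Subgroup.mem_centralizer_iff]
        intro y hy
        apply Subtype.ext
        have h2 : (y : G) ∈ K := by rw [hK]; exact ⟨y, hy, rfl⟩
        exact Subgroup.mem_centralizer_iff.1 hx.2 _ h2
      have h3 := (cent_kInf P.2).1 h1
      rw [hK]
      exact ⟨_, h3, rfl⟩
  have hct' := ctrl hctx hct
  have hPQ := P_le_nz_QQ hctx
  refine ⟨QQ (P : Subgroup G) K, ?_, ?_, ?_, ?_⟩
  · rw [hcr]
    refine ⟨inf_le_left, ⟨(QQ_syl hctx).toSylow, (QQ_syl hctx).map_toSylow⟩, ?_⟩
    intro X hX hXn hB hidx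
    exact radical hctx hct hX hXn hB hidx
  · intro R hR
    rw [hcr] at hR
    obtain ⟨hRP, ⟨R', hR'⟩, hrad⟩ := hR
    refine le_of_cr (sylIn_top P) hPQ inf_le_left hct' hRP ?_ hrad
    have h1 := sylIn_of_sylow R'
    rw [hR'] at h1
    have h2 := h1.eq_of_le (P.2.to_le inf_le_left) inf_le_right
      (inf_le_inf_right (Subgroup.centralizer (R : Set G)) hRP)
    rw [← h2]
    exact inf_le_left
  · intro x hx
    exact mem_nz_iff.1 (hPQ hx)
  · intro A hA g hg
    obtain ⟨m, hm, hmg⟩ := hct' A g hA hg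
    refine ⟨m, hm, m⁻¹ * g, ?_, by group⟩
    rw [Subgroup.mem_centralizer_iff]
    intro a ha
    have h2 := hmg a ha
    calc a * (m⁻¹ * g) = m⁻¹ * (m * a * m⁻¹) * g := by group
      _ = m⁻¹ * (g * a * g⁻¹) * g := by rw [h2]
      _ = m⁻¹ * g * a := by group

end Cfsg.Agent.S1953
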