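import Cfsg.Statements.S1956
import Cfsg.Agent.H14.Conj

set_option autoImplicit false
open Cfsg

namespace Cfsg.Agent.S1956

/-- Let P be a Sylow p-subgroup of the finite group G such that every element of P of order dividing p (dividing 4 when p = 2) is central in P. Then the fusion of these elements is controlled by N_G(P): if such an element a of P has g a g⁻¹ in P, then g = n c with n normalizing P and c commuting with a. -/
theorem result {G : Type*} [Group G] [Finite G] {p : ℕ} [Fact p.Prime] (P : Sylow p G)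
    (hcen : ∀ a ∈ (P : Subgroup G), (a ^ p = 1 ∨ (p = 2 ∧ a ^ 4 = 1)) → ∀ y ∈ (P : Subgroup G), a * y = y * a) :
    ∀ a ∈ (P : Subgroup G), (a ^ p = 1 ∨ (p = 2 ∧ a ^ 4 = 1)) → ∀ g : G, g * a * g⁻¹ ∈ (P : Subgroup G) →
      ∃ n ∈ Subgroup.normalizer ((P : Subgroup G) : Set G), ∃ c : G, c * a = a * c ∧ g = n * c := by
  intro a ha hap g hg
  obtain ⟨b, hb⟩ : ∃ b, b = g * a * g⁻¹ := ⟨_, rfl⟩
  rw [← hb] at hg
  have hbp : b ^ p = 1 ∨ (p = 2 ∧ b ^ 4 = 1) := by
    rw [hb, conj_pow, conj_pow]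
    rcases hap with h | ⟨h, h'⟩
    · left; rw [h]; simp
    · right; refine ⟨h, ?_⟩; rw [h']; simp
  have hPC : (P : Subgroup G) ≤ Subgroup.centralizer ({b} : Set G) := by
    intro y hy
    rw [Subgroup.mem_centralizer_singleton_iff]
    exact (hcen b hg hbp y hy).symm
  have hPC2 : H14.cj g (P : Subgroup G) ≤ Subgroup.centralizer ({b} : Set G) := by
    rintro _ ⟨y, hy, rfl⟩
    rw [Subgroup.mem_centralizer_singleton_iff, hb]
    have := hcen a ha hap y hy
    simp only [MulEquiv.coe_toMonoidHom, MulAut.conj_apply]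
    calc g * y * g⁻¹ * (g * a * g⁻¹) = g * (y * a) * g⁻¹ := by group
      _ = g * (a * y) * g⁻¹ := by rw [this]
      _ = _ := by group
  have hS1 := H14.Sylow.isSylIn_of_le P hPC
  obtain ⟨c, hc, hle⟩ := hS1.exists_cj_le hPC2 (H14.isPGroup_cj.2 P.isPGroup')
  rw [H14.cj_cj] at hle
  have heq : H14.cj (c * g) (P : Subgroup G) = P :=
    Subgroup.eq_of_le_of_card_ge hle (by rw [H14.card_cj])
  rw [Subgroup.mem_centralizer_singleton_iff] at hc
  refine ⟨c * g, H14.mem_normalizer_cj.2 heq, (c * g)⁻¹ * g, ?_, by group⟩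
  have h1 : c⁻¹ * b * c = b := by rw [mul_assoc, ← hc]; group
  have h2 : (c * g)⁻¹ * g * a * ((c * g)⁻¹ * g)⁻¹ = a := by
    calc (c * g)⁻¹ * g * a * ((c * g)⁻¹ * g)⁻¹ = g⁻¹ * (c⁻¹ * (g * a * g⁻¹) * c) * g := by group
      _ = g⁻¹ * b * g := by rw [← hb, h1]
      _ = a := by rw [hb]; group
  rw [mul_inv_eq_iff_eq_mul] at h2
  exact h2

end Cfsg.Agent.S1956
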