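import Cfsg.Statements.S2001
import Cfsg.Agent.H14.Gold

set_option autoImplicit false
open Cfsg

namespace Cfsg.Agent.S2001

open Cfsg.Agent.H14
open scoped commutatorElement

theorem sup_at {G : Type*} [Group G] [Finite G] {p : ℕ} [Fact p.Prime] {W V : Subgroup G → Subgroup G}
    (hW : Cfsg.IsConjugacyFunctor p W) (hV : Cfsg.IsConjugacyFunctor p V) {H T R : Subgroup G}
    (hT : IsSylIn p T H) (hR : IsSylIn p R H)
    (h : T ⊓ ⁅H, H⁆ ≤ ⁅Subgroup.normalizer ((W T : Subgroup G) : Set G), Subgroup.normalizer ((W T : Subgroup G) : Set G)⁆ ⊓ T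
      ⊔ ⁅Subgroup.centralizer ((V T : Subgroup G) : Set G), Subgroup.centralizer ((V T : Subgroup G) : Set G)⁆ ⊓ T) :
    R ⊓ ⁅H, H⁆ ≤ ⁅Subgroup.normalizer ((W R : Subgroup G) : Set G), Subgroup.normalizer ((W R : Subgroup G) : Set G)⁆ ⊓ R
      ⊔ ⁅Subgroup.centralizer ((V R : Subgroup G) : Set G), Subgroup.centralizer ((V R : Subgroup G) : Set G)⁆ ⊓ R := by
  obtain ⟨y, hy, hy'⟩ := hR.exists_cj_eq hT
  have h1 := cj_mono (g := y) h
  rw [cj_inf, commutator_cj, cj_eq_of_mem hy, cj_sup, cj_inf, cj_inf, commutator_cj, commutator_cj,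
    ← normalizer_cj, ← centralizer_cj, ← cf_cj hW hT.pgroup, ← cf_cj hV hT.pgroup, hy'] at h1
  exact h1

theorem main {G : Type*} [Group G] [Finite G] {p : ℕ} [Fact p.Prime] (P : Sylow p G)
    (W V : Subgroup G → Subgroup G) (hW : Cfsg.IsConjugacyFunctor p W) (hV : Cfsg.IsConjugacyFunctor p V)
    (hWZ : ∀ H : Subgroup G, IsPGroup p ↥H → H ⊓ Subgroup.centralizer ((H : Subgroup G) : Set G) ≤ W H)
    (hVmono : ∀ H K : Subgroup G, IsPGroup p ↥H → IsPGroup p ↥K → H ≠ ⊥ → K ≠ ⊥ → H ⊓ Subgroup.centralizer ((H : Subgroup G) : Set G) ≤ K ⊓ Subgroup.centralizer ((K : Subgroup G) : Set G) → V H ≤ V K)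
    (hloc : ∀ H : Subgroup G, (P : Subgroup G) ⊓ Subgroup.centralizer (((P : Subgroup G) : Subgroup G) : Set G) ≤ H → H ≤ (P : Subgroup G) →
      ∃ Q : Subgroup G, IsSylIn p Q (Subgroup.normalizer (H : Set G)) ∧
        Q ⊓ ⁅Subgroup.normalizer (H : Set G), Subgroup.normalizer (H : Set G)⁆ ≤
        ⁅Subgroup.normalizer ((W Q : Subgroup G) : Set G), Subgroup.normalizer ((W Q : Subgroup G) : Set G)⁆ ⊓ Q
      ⊔ ⁅Subgroup.centralizer ((V Q : Subgroup G) : Set G), Subgroup.centralizer ((V Q : Subgroup G) : Set G)⁆ ⊓ Q)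
    (hP : (P : Subgroup G) ≠ ⊥) (k : ℕ) :
    ∀ U : Subgroup G, Cfsg.IsWellPlaced p W (P : Subgroup G) U →
      (P : Subgroup G) ⊓ Subgroup.centralizer (((P : Subgroup G) : Subgroup G) : Set G) ≤ U →
      Nat.card (P : Subgroup G) < k + Nat.card ↥((P : Subgroup G) ⊓ Subgroup.normalizer (U : Set G)) →
      ((P : Subgroup G) ⊓ Subgroup.normalizer (U : Set G)) ⊓ ⁅Subgroup.normalizer (U : Set G), Subgroup.normalizer (U : Set G)⁆ ≤
        ⁅Subgroup.normalizer ((W (P : Subgroup G) : Subgroup G) : Set G), Subgroup.normalizer ((W (P : Subgroup G) : Subgroup G) : Set G)⁆ ⊓ (P : Subgroup G)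
      ⊔ ⁅Subgroup.centralizer ((V (P : Subgroup G) : Subgroup G) : Set G), Subgroup.centralizer ((V (P : Subgroup G) : Subgroup G) : Set G)⁆ ⊓ (P : Subgroup G) := by
  have hPp := P.isPGroup'
  induction k with
  | zero =>
    intro U hU hZ hk
    exact absurd (Subgroup.card_le_of_le (inf_le_left : (P : Subgroup G) ⊓ Subgroup.normalizer (U : Set G) ≤ P)) (by omega)
  | succ k ih =>
    intro U hU hZU hk
    obtain ⟨R, hR⟩ : ∃ R : Subgroup G, R = (P : Subgroup G) ⊓ Subgroup.normalizer (U : Set G) := ⟨_, rfl⟩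
    have hRP : R ≤ P := by rw [hR]; exact inf_le_left
    have hRp : IsPGroup p R := hPp.to_le hRP
    have hUR : U ≤ R := by rw [hR]; exact le_inf hU.1 Subgroup.le_normalizer
    have hZR : (P : Subgroup G) ⊓ Subgroup.centralizer (((P : Subgroup G) : Subgroup G) : Set G) ≤ 
        R ⊓ Subgroup.centralizer (R : Set G) := by
      refine le_inf (hZU.trans hUR) (inf_le_right.trans (Subgroup.centralizer_le hRP))
    obtain ⟨Q, hQ, hQ2⟩ := hloc U hZU hU.1
    have hRS : IsSylIn p R (Subgroup.normalizer (U : Set G)) := by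
      rw [hR]; exact FN.isSylIn (hU.2 0) hPp
    have h1 := sup_at hW hV hQ hRS hQ2
    rw [← hR]
    by_cases hRS : R = P
    · rw [hRS] at h1
      rw [hRS]; exact h1
    have hRne : R ≠ ⊥ := by
      intro h
      have hb : (P : Subgroup G) ⊓ Subgroup.centralizer (((P : Subgroup G) : Subgroup G) : Set G) = ⊥ := by
        rw [eq_bot_iff]; exact (hZU.trans hUR).trans h.le
      have hnt : Nontrivial (P : Subgroup G) := (Subgroup.nontrivial_iff_ne_bot _).2 hP
      have hc : Nontrivial (Subgroup.center (P : Subgroup G)) := hPp.center_nontrivial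
      obtain ⟨⟨⟨z, hzP⟩, hzc⟩, hz1⟩ := exists_ne (1 : Subgroup.center (P : Subgroup G))
      apply hz1
      have : z ∈ (P : Subgroup G) ⊓ Subgroup.centralizer (((P : Subgroup G) : Subgroup G) : Set G) := by
        refine Subgroup.mem_inf.2 ⟨hzP, Subgroup.mem_centralizer_iff.2 fun y hy => ?_⟩
        have := Subgroup.mem_center_iff.1 hzc ⟨y, hy⟩
        exact congrArg Subtype.val this
      rw [hb, Subgroup.mem_bot] at this
      ext; exact this
    refine h1.trans (sup_le ?_ ?_)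
    · have hRlt : R < (P : Subgroup G) := lt_of_le_of_ne hRP hRS
      have hVF : Cfsg.IsWellPlaced p W (P : Subgroup G) (W R) := by
        have := IsWellPlaced.tower hW hPp hU 1
        rw [functorTower_succ, stage, functorTower_zero, ← hR] at this
        exact this
      have hRN : R < (P : Subgroup G) ⊓ Subgroup.normalizer ((W R : Subgroup G) : Set G) :=
        (lt_inf_normalizer_of_lt hPp hRlt).trans_le (inf_le_inf_left _ (cf_normalizer_le hW hRp))
      have hcard := card_lt_of_lt hRN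
      rw [← hR] at hk
      rw [inf_comm]
      exact (inf_le_inf_right _ hRN.le).trans (ih (W R) hVF (hZR.trans (hWZ R hRp)) (by omega))
    · refine le_trans ?_ le_sup_right
      have := Subgroup.centralizer_le (s := ((V (P : Subgroup G) : Subgroup G) : Set G)) (hVmono P R hPp hRp hP hRne hZR)
      exact inf_le_inf (Subgroup.commutator_mono this this) hRP

/-- Let p be a prime dividing the order of the finite group G, P a Sylow p-subgroup, W a conjugacy functor for p on G with Z(H) ≤ W(H) for every nontrivial p-subgroup H, and V a central functor: a conjugacy functor with V(H) ≤ Z(H), and V(H) ≤ V(K) whenever Z(H) ≤ Z(K), for nontrivial p-subgroups H, K. Say that W with V controls transfer in a subgroup L when some Sylow p-subgroup Q of L satisfies Q ∩ L' = (Q ∩ (N_L(W(Q)))')·(Q ∩ (C_L(V(Q)))') as a product of two subgroups. If W with V controls transfer in N_G(H) for every subgroup H with Z(P) ≤ H ≤ P, then W with V controls transfer in G. -/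
theorem result {G : Type*} [Group G] [Finite G] {p : ℕ} [Fact p.Prime] (hdiv : p ∣ Nat.card G) (P : Sylow p G) (W V : Subgroup G → Subgroup G) (hW : Cfsg.IsConjugacyFunctor p W) (hV : Cfsg.IsConjugacyFunctor p V) (hWZ : ∀ H : Subgroup G, IsPGroup p ↥H → H ⊓ Subgroup.centralizer ((H : Subgroup G) : Set G) ≤ W H) (hVZ : ∀ H : Subgroup G, IsPGroup p ↥H → V H ≤ H ⊓ Subgroup.centralizer ((H : Subgroup G) : Set G)) (hVmono : ∀ H K : Subgroup G, IsPGroup p ↥H → IsPGroup p ↥K → H ≠ ⊥ → K ≠ ⊥ → H ⊓ Subgroup.centralizer ((H : Subgroup G) : Set G) ≤ K ⊓ Subgroup.centralizer ((K : Subgroup G) : Set G) → V H ≤ V K) (hloc : ∀ H : Subgroup G, (P : Subgroup G) ⊓ Subgroup.centralizer (((P : Subgroup G) : Subgroup G) : Set G) ≤ H → H ≤ (P : Subgroup G) → ∃ Q : Subgroup G, Q ≤ Subgroup.normalizer ((H : Subgroup G) : Set G) ∧ IsPGroup p ↥Q ∧ ¬ p ∣ (Q).relIndex (Subgroup.normalizer ((H : Subgroup G) : Set G)) ∧ ∀ x : G, x ∈ Q ⊓ ⁅Subgroup.normalizer ((H : Subgroup G) : Set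 G), Subgroup.normalizer ((H : Subgroup G) : Set G)⁆ ↔ ∃ a ∈ Q ⊓ ⁅Subgroup.normalizer ((H : Subgroup G) : Set G) ⊓ Subgroup.normalizer ((W Q : Subgroup G) : Set G), Subgroup.normalizer ((H : Subgroup G) : Set G) ⊓ Subgroup.normalizer ((W Q : Subgroup G) : Set G)⁆, ∃ b ∈ Q ⊓ ⁅Subgroup.normalizer ((H : Subgroup G) : Set G) ⊓ Subgroup.centralizer ((V Q : Subgroup G) : Set G), Subgroup.normalizer ((H : Subgroup G) : Set G) ⊓ Subgroup.centralizer ((V Q : Subgroup G) : Set G)⁆, x = a * b) : ∃ Q : Subgroup G, IsPGroup p ↥Q ∧ ¬ p ∣ Q.index ∧ ∀ x : G, x ∈ Q ⊓ commutator G ↔ ∃ a ∈ Q ⊓ ⁅Subgroup.normalizer ((W Q : Subgroup G) : Set G), Subgroup.normalizer ((W Q : Subgroup G) : Set G)⁆, ∃ b ∈ Q ⊓ ⁅Subgroup.centralizer ((V Q : Subgroup G) : Set G), Subgroup.centralizer ((V Q : Subgroup G) : Set G)⁆, x = a * b := by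
  have hPp := P.isPGroup'
  have hPne : (P : Subgroup G) ≠ ⊥ := by
    intro h
    have h1 := P.card_eq_multiplicity
    rw [h, Subgroup.card_bot] at h1
    have h2 : 0 < (Nat.card G).factorization p :=
      (Fact.out : p.Prime).factorization_pos_of_dvd Nat.card_pos.ne' hdiv
    have h3 := Nat.one_lt_pow h2.ne' (Fact.out : p.Prime).one_lt
    omega
  have hloc' : ∀ H : Subgroup G, (P : Subgroup G) ⊓ Subgroup.centralizer (((P : Subgroup G) : Subgroup G) : Set G) ≤ H → H ≤ (P : Subgroup G) →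
      ∃ Q : Subgroup G, IsSylIn p Q (Subgroup.normalizer (H : Set G)) ∧
        Q ⊓ ⁅Subgroup.normalizer (H : Set G), Subgroup.normalizer (H : Set G)⁆ ≤
        ⁅Subgroup.normalizer ((W Q : Subgroup G) : Set G), Subgroup.normalizer ((W Q : Subgroup G) : Set G)⁆ ⊓ Q
      ⊔ ⁅Subgroup.centralizer ((V Q : Subgroup G) : Set G), Subgroup.centralizer ((V Q : Subgroup G) : Set G)⁆ ⊓ Q := by
    intro H hH1 hH2
    obtain ⟨Q, h1, h2, h3, h4⟩ := hloc H hH1 hH2
    refine ⟨Q, ⟨h1, h2, h3⟩, fun x hx => ?_⟩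
    obtain ⟨a, ha, b, hb, rfl⟩ := (h4 x).1 hx
    rw [Subgroup.mem_inf] at ha hb
    exact mul_mem (Subgroup.mem_sup_left (Subgroup.mem_inf.2 ⟨Subgroup.commutator_mono inf_le_right inf_le_right ha.2, ha.1⟩))
      (Subgroup.mem_sup_right (Subgroup.mem_inf.2 ⟨Subgroup.commutator_mono inf_le_right inf_le_right hb.2, hb.1⟩))
  have hmain := main P W V hW hV hWZ hVmono hloc' hPne (Nat.card (P : Subgroup G) + 1)
  refine ⟨P, hPp, P.not_dvd_index, fun x => ?_⟩
  -- both factors are normalized by P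
  have hPN : (P : Subgroup G) ≤ Subgroup.normalizer ((W (P : Subgroup G) : Subgroup G) : Set G) :=
    Subgroup.le_normalizer.trans (cf_normalizer_le hW hPp)
  have hfoc := focal_le_of_base P {U | Cfsg.IsWellPlaced p W (P : Subgroup G) U} (fun U hU => ⟨hU.1, hU.2 0⟩)
    (chain_wp P hW) (⁅Subgroup.normalizer ((W (P : Subgroup G) : Subgroup G) : Set G), Subgroup.normalizer ((W (P : Subgroup G) : Subgroup G) : Set G)⁆ ⊓ (P : Subgroup G)
      ⊔ ⁅Subgroup.centralizer ((V (P : Subgroup G) : Subgroup G) : Set G), Subgroup.centralizer ((V (P : Subgroup G) : Subgroup G) : Set G)⁆ ⊓ (P : Subgroup G)) (by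
      intro U hU hcen x hx u hu
      have hUP : U ≤ (P : Subgroup G) := hU.1
      have hUN : U ≤ (P : Subgroup G) ⊓ Subgroup.normalizer (U : Set G) := le_inf hU.1 Subgroup.le_normalizer
      refine hmain U hU ?_ (by omega) (Subgroup.mem_inf.2 ⟨hUN (mul_mem (inv_mem hu) ?_), ?_⟩)
      · refine le_trans (le_inf inf_le_left (inf_le_right.trans (Subgroup.centralizer_le hUP))) hcen
      · exact (Subgroup.mem_normalizer_iff.1 hx u).1 hu
      · have : u⁻¹ * (x * u * x⁻¹) = ⁅u⁻¹, x⁆ := by rw [commutatorElement_def]; group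
        rw [this]
        exact Subgroup.commutator_mem_commutator (inv_mem (Subgroup.le_normalizer hu)) hx)
  constructor
  · intro hx
    rw [← commutator_def] at hfoc
    have h1 := hfoc hx
    have hn : (⁅Subgroup.centralizer ((V (P : Subgroup G) : Subgroup G) : Set G), Subgroup.centralizer ((V (P : Subgroup G) : Subgroup G) : Set G)⁆ ⊓ (P : Subgroup G)) ≤
        Subgroup.normalizer ((⁅Subgroup.normalizer ((W (P : Subgroup G) : Subgroup G) : Set G), Subgroup.normalizer ((W (P : Subgroup G) : Subgroup G) : Set G)⁆ ⊓ (P : Subgroup G) : Subgroup G) : Set G) := by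
      intro y hy
      rw [Subgroup.mem_inf] at hy
      rw [mem_normalizer_cj, cj_inf, commutator_cj, cj_eq_of_mem (hPN hy.2), cj_eq_of_mem hy.2]
    rw [← SetLike.mem_coe, Subgroup.coe_mul_of_right_le_normalizer_left _ _ hn, Set.mem_mul] at h1
    obtain ⟨a, ha, b, hb, rfl⟩ := h1
    refine ⟨a, ?_, b, ?_, rfl⟩
    · have := Subgroup.mem_inf.1 ha
      exact Subgroup.mem_inf.2 ⟨this.2, this.1⟩
    · have := Subgroup.mem_inf.1 hb
      exact Subgroup.mem_inf.2 ⟨this.2, this.1⟩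
  · rintro ⟨a, ha, b, hb, rfl⟩
    rw [Subgroup.mem_inf] at ha hb
    refine Subgroup.mem_inf.2 ⟨mul_mem ha.1 hb.1, mul_mem ?_ ?_⟩
    · rw [commutator_def]; exact Subgroup.commutator_mono le_top le_top ha.2
    · rw [commutator_def]; exact Subgroup.commutator_mono le_top le_top hb.2

end Cfsg.Agent.S2001
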