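import Cfsg.Statements.S2002
import Cfsg.Agent.H14.Gold

set_option autoImplicit false
open Cfsg

namespace Cfsg.Agent.S2002

open Cfsg.Agent.H14

theorem LC_of_list {G : Type*} [Group G] {X R : Set G} (l : List G) : ∀ (A : Set G), (∀ b ∈ l, b⁻¹ ∈ X) →
    (∀ k ≤ l.length, rc (l.take k).prod A ⊆ R) → LC X R A (l.prod)⁻¹ := by
  induction l with
  | nil =>
    intro A _ hk
    have := hk 0 (Nat.zero_le _)
    exact LC.nil (by simpa using this) (by intro a _; simp)
  | cons b l ih =>
    intro A hl hk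
    rw [List.prod_cons, mul_inv_rev]
    have h0 := hk 0 (Nat.zero_le _)
    refine LC.cons (by simpa using h0) (hl b (by simp)) (ih _ (fun c hc => hl c (by simp [hc])) ?_)
    intro k hk'
    have := hk (k+1) (by simpa using hk')
    rw [List.take_succ_cons, List.prod_cons] at this
    rwa [lc_eq_rc, inv_inv, rc_rc]

theorem list_of_LC {G : Type*} [Group G] {X R A : Set G} {g : G} (h : LC X R A g) :
    ∃ c ∈ Subgroup.centralizer A, ∃ l : List G, (∀ b ∈ l, b⁻¹ ∈ X) ∧ g⁻¹ = c * l.prod ∧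
      ∀ k ≤ l.length, rc (l.take k).prod A ⊆ R := by
  induction h with
  | @nil A g hA hg =>
    refine ⟨g⁻¹, ?_, [], by simp, by simp, ?_⟩
    · refine inv_mem (Subgroup.mem_centralizer_iff.2 fun a ha => ?_)
      have := hg a ha
      calc a * g = (g * a * g⁻¹) * g := by rw [this]
        _ = _ := by group
    · intro k hk
      have : k = 0 := by simpa using hk
      subst this; simpa using hA
  | @cons A x g hA hx h ih =>
    obtain ⟨c, hc, l, hl, hg, hk⟩ := ih
    refine ⟨x⁻¹ * c * x, ?_, x⁻¹ :: l, ?_, ?_, ?_⟩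
    · refine Subgroup.mem_centralizer_iff.2 fun a ha => ?_
      have := Subgroup.mem_centralizer_iff.1 hc (x * a * x⁻¹) ⟨a, ha, rfl⟩
      calc a * (x⁻¹ * c * x) = x⁻¹ * (x * a * x⁻¹ * c) * x := by group
        _ = x⁻¹ * (c * (x * a * x⁻¹)) * x := by rw [this]
        _ = _ := by group
    · intro b hb
      rcases List.mem_cons.1 hb with rfl | hb
      · rwa [inv_inv]
      · exact hl b hb
    · rw [mul_inv_rev, hg, List.prod_cons]; group
    · intro k hk'
      cases k with
      | zero => simpa using hA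
      | succ k =>
        rw [List.take_succ_cons, List.prod_cons]
        have := hk k (by simpa using hk')
        rwa [lc_eq_rc, rc_rc] at this

theorem LC_at {G : Type*} [Group G] [Finite G] {p : ℕ} [Fact p.Prime] {σ : Subgroup G → Set G}
    (hσ : ∀ Q : Subgroup G, IsPGroup p Q → ∀ y, lc y (σ Q) ⊆ σ (cj y Q)) {H T R : Subgroup G}
    (hT : IsSylIn p T H) (hR : IsSylIn p R H)
    (h : ∀ (A : Set G) (x : G), x ∈ H → A ⊆ T → lc x A ⊆ T → LC ((H : Set G) ∩ σ T) T A x) 
    {A : Set G} {x : G} (hx : x ∈ H) (hA : A ⊆ R) (hA' : lc x A ⊆ R) : LC ((H : Set G) ∩ σ R) R A x := by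
  obtain ⟨y, hy, hy'⟩ := hR.exists_cj_eq hT
  have e : lc y (T : Set G) = R := by rw [lc_coe, hy']
  have eT : (T : Set G) = lc y⁻¹ (R : Set G) := by rw [← e, lc_lc]; simp
  have h2 := h (lc y⁻¹ A) (y⁻¹ * x * y) (mul_mem (mul_mem (inv_mem hy) hx) hy)
    (by rw [eT]; exact lc_mono hA)
    (by
      rw [eT, lc_lc]
      have e2 : y⁻¹ * x * y * y⁻¹ = y⁻¹ * x := by group
      rw [e2, ← lc_lc]; exact lc_mono hA')
  have h3 := h2.conj y
  rw [lc_lc, mul_inv_cancel, lc_one, e] at h3
  have e3 : y * (y⁻¹ * x * y) * y⁻¹ = x := by group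
  rw [e3] at h3
  refine h3.mono ?_ subset_rfl subset_rfl
  rintro _ ⟨z, ⟨hz1, hz2⟩, rfl⟩
  refine ⟨mul_mem (mul_mem hy hz1) (inv_mem hy), ?_⟩
  rw [← hy']
  exact hσ T hT.pgroup y ⟨z, hz2, rfl⟩

/-- steps -/
def sg {G : Type*} [Group G] (W V : Subgroup G → Subgroup G) (Q : Subgroup G) : Set G :=
  {x | x ∈ Subgroup.normalizer ((W Q : Subgroup G) : Set G) ∨ x ∈ Subgroup.centralizer ((V Q : Subgroup G) : Set G)}

theorem main {G : Type*} [Group G] [Finite G] {p : ℕ} [Fact p.Prime] (P : Sylow p G)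
    (W V : Subgroup G → Subgroup G) (hW : Cfsg.IsConjugacyFunctor p W) (hV : Cfsg.IsConjugacyFunctor p V)
    (hWZ : ∀ H : Subgroup G, IsPGroup p ↥H → H ⊓ Subgroup.centralizer ((H : Subgroup G) : Set G) ≤ W H)
    (hVmono : ∀ H K : Subgroup G, IsPGroup p ↥H → IsPGroup p ↥K → H ≠ ⊥ → K ≠ ⊥ → H ⊓ Subgroup.centralizer ((H : Subgroup G) : Set G) ≤ K ⊓ Subgroup.centralizer ((K : Subgroup G) : Set G) → V H ≤ V K)
    (hloc : ∀ H : Subgroup G, (P : Subgroup G) ⊓ Subgroup.centralizer (((P : Subgroup G) : Subgroup G) : Set G) ≤ H → H ≤ (P : Subgroup G) →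
      ∃ Q : Subgroup G, IsSylIn p Q (Subgroup.normalizer (H : Set G)) ∧
        ∀ (A : Set G) (x : G), x ∈ Subgroup.normalizer (H : Set G) → A ⊆ Q → lc x A ⊆ Q →
          LC ((Subgroup.normalizer (H : Set G) : Set G) ∩ sg W V Q) Q A x)
    (hP : (P : Subgroup G) ≠ ⊥) (k : ℕ) :
    ∀ U : Subgroup G, Cfsg.IsWellPlaced p W (P : Subgroup G) U →
      (P : Subgroup G) ⊓ Subgroup.centralizer (((P : Subgroup G) : Subgroup G) : Set G) ≤ U →
      Nat.card (P : Subgroup G) < k + Nat.card ↥((P : Subgroup G) ⊓ Subgroup.normalizer (U : Set G)) →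
      ∀ (A : Set G) (x : G), x ∈ Subgroup.normalizer (U : Set G) →
      A ⊆ ((P : Subgroup G) ⊓ Subgroup.normalizer (U : Set G) : Subgroup G) →
      lc x A ⊆ ((P : Subgroup G) ⊓ Subgroup.normalizer (U : Set G) : Subgroup G) →
      LC (sg W V P) (P : Subgroup G) A x := by
  have hPp := P.isPGroup'
  induction k with
  | zero =>
    intro U hU hZ hk
    exact absurd (Subgroup.card_le_of_le (inf_le_left : (P : Subgroup G) ⊓ Subgroup.normalizer (U : Set G) ≤ P)) (by omega)
  | succ k ih =>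
    intro U hU hZU hk A x hx hA hA'
    obtain ⟨R, hR⟩ : ∃ R : Subgroup G, R = (P : Subgroup G) ⊓ Subgroup.normalizer (U : Set G) := ⟨_, rfl⟩
    have hRP : R ≤ P := by rw [hR]; exact inf_le_left
    have hRp : IsPGroup p R := hPp.to_le hRP
    have hUR : U ≤ R := by rw [hR]; exact le_inf hU.1 Subgroup.le_normalizer
    have hZR : (P : Subgroup G) ⊓ Subgroup.centralizer (((P : Subgroup G) : Subgroup G) : Set G) ≤ 
        R ⊓ Subgroup.centralizer (R : Set G) := by
      refine le_inf (hZU.trans hUR) (inf_le_right.trans (Subgroup.centralizer_le hRP))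
    rw [← hR] at hA hA'
    obtain ⟨Q, hQ, hQ2⟩ := hloc U hZU hU.1
    have hRS : IsSylIn p R (Subgroup.normalizer (U : Set G)) := by
      rw [hR]; exact FN.isSylIn (hU.2 0) hPp
    have h1 := LC_at (σ := sg W V) (by
      rintro T hT y _ ⟨z, hz | hz, rfl⟩
      · left
        rw [cf_cj hW hT, normalizer_cj]; exact conj_mem_cj.2 hz
      · right
        rw [cf_cj hV hT, centralizer_cj]; exact conj_mem_cj.2 hz) hQ hRS hQ2 hx hA hA'
    have h1' : LC (sg W V R) (R : Set G) A x := h1.mono Set.inter_subset_right subset_rfl subset_rfl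
    by_cases hRS : R = P
    · rwa [hRS] at h1'
    have hRne : R ≠ ⊥ := by
      intro h
      have hb : (P : Subgroup G) ⊓ Subgroup.centralizer (((P : Subgroup G) : Subgroup G) : Set G) = ⊥ := by
        rw [eq_bot_iff]; exact (hZU.trans hUR).trans h.le
      -- V P ≠ ⊥, V P ≤ Z(P)?  use: W-free argument; centre of nontrivial p-group
      have hnt : Nontrivial (P : Subgroup G) := (Subgroup.nontrivial_iff_ne_bot _).2 hP
      have hc : Nontrivial (Subgroup.center (P : Subgroup G)) := hPp.center_nontrivial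
      obtain ⟨⟨⟨z, hzP⟩, hzc⟩, hz1⟩ := exists_ne (1 : Subgroup.center (P : Subgroup G))
      apply hz1
      have : z ∈ (P : Subgroup G) ⊓ Subgroup.centralizer (((P : Subgroup G) : Subgroup G) : Set G) := by
        refine Subgroup.mem_inf.2 ⟨hzP, Subgroup.mem_centralizer_iff.2 fun y hy => ?_⟩
        have := Subgroup.mem_center_iff.1 hzc ⟨y, hy⟩
        exact congrArg Subtype.val this
      rw [hb, Subgroup.mem_bot] at this
      ext; exact this
    refine h1'.refine (R' := (P : Subgroup G)) hRP ?_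
    intro B y hB hy hB'
    have hRlt : R < (P : Subgroup G) := lt_of_le_of_ne hRP hRS
    rcases hy with hy | hy
    · have hVF : Cfsg.IsWellPlaced p W (P : Subgroup G) (W R) := by
        have := IsWellPlaced.tower hW hPp hU 1
        rw [functorTower_succ, stage, functorTower_zero, ← hR] at this
        exact this
      have hRN : R < (P : Subgroup G) ⊓ Subgroup.normalizer ((W R : Subgroup G) : Set G) :=
        (lt_inf_normalizer_of_lt hPp hRlt).trans_le (inf_le_inf_left _ (cf_normalizer_le hW hRp))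
      have hcard := card_lt_of_lt hRN
      rw [← hR] at hk
      exact ih (W R) hVF (hZR.trans (hWZ R hRp)) (by omega) B y hy (hB.trans hRN.le) (hB'.trans hRN.le)
    · refine LC.single (hB.trans hRP) (Or.inr ?_) (hB'.trans hRP)
      exact Subgroup.centralizer_le (hVmono P R hPp hRp hP hRne hZR) hy

/-- Let p be a prime dividing the order of the finite group G, P a Sylow p-subgroup, W a conjugacy functor for p on G with Z(H) ≤ W(H) for every nontrivial p-subgroup H, and V a central functor (a conjugacy functor with V(H) ≤ Z(H), and V(H) ≤ V(K) whenever Z(H) ≤ Z(K)). Say that W with V controls strong fusion in a subgroup L when some Sylow p-subgroup Q of L has the property: whenever X ⊆ Q and a ∈ L with a⁻¹Xa ⊆ Q, then a = c b with c ∈ C_L(X) and b = b₁ ⋯ bₙ a product of elements each in N_L(W(Q)) or in C_L(V(Q)) such that every partial conjugate (b₁ ⋯ bₖ)⁻¹ X (b₁ ⋯ bₖ) lies in Q. If W with V controls strong fusion in N_G(H) for every subgroup H with Z(P) ≤ H ≤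 P, then W with V controls strong fusion in G. -/
theorem result {G : Type*} [Group G] [Finite G] {p : ℕ} [Fact p.Prime] (hdiv : p ∣ Nat.card G) (P : Sylow p G) (W V : Subgroup G → Subgroup G) (hW : Cfsg.IsConjugacyFunctor p W) (hV : Cfsg.IsConjugacyFunctor p V) (hWZ : ∀ H : Subgroup G, IsPGroup p ↥H → H ⊓ Subgroup.centralizer ((H : Subgroup G) : Set G) ≤ W H) (hVZ : ∀ H : Subgroup G, IsPGroup p ↥H → V H ≤ H ⊓ Subgroup.centralizer ((H : Subgroup G) : Set G)) (hVmono : ∀ H K : Subgroup G, IsPGroup p ↥H → IsPGroup p ↥K → H ≠ ⊥ → K ≠ ⊥ → H ⊓ Subgroup.centralizer ((H : Subgroup G) : Set G) ≤ K ⊓ Subgroup.centralizer ((K : Subgroup G) : Set G) → V H ≤ V K) (hloc : ∀ H : Subgroup G, (P : Subgroup G) ⊓ Subgroup.centralizer (((P : Subgroup G) : Subgroup G) : Set G) ≤ H → H ≤ (P : Subgroup G) → ∃ Q : Subgroup G, Q ≤ Subgroup.normalizer ((H : Subgroup G) : Set G) ∧ IsPGroup p ↥Q ∧ ¬ p ∣ (Q).relIndex (Subgroup.normalizer ((H : Subgroup G) : Set G)) ∧ ∀ (X : Set G) (a : G),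 X ⊆ Q → a ∈ Subgroup.normalizer ((H : Subgroup G) : Set G) → (fun x => a⁻¹ * x * a) '' X ⊆ Q → ∃ c ∈ Subgroup.normalizer ((H : Subgroup G) : Set G) ⊓ Subgroup.centralizer X, ∃ (n : ℕ) (b : Fin n → G), (∀ i, b i ∈ Subgroup.normalizer ((H : Subgroup G) : Set G) ⊓ Subgroup.normalizer ((W Q : Subgroup G) : Set G) ∨ b i ∈ Subgroup.normalizer ((H : Subgroup G) : Set G) ⊓ Subgroup.centralizer ((V Q : Subgroup G) : Set G)) ∧ a = c * (List.ofFn b).prod ∧ ∀ k : ℕ, k ≤ n → (fun x => (((List.ofFn b).take k).prod)⁻¹ * x * ((List.ofFn b).take k).prod) '' ((fun x => c⁻¹ * x * c) '' X) ⊆ Q) : ∃ Q : Subgroup G, IsPGroup p ↥Q ∧ ¬ p ∣ Q.index ∧ ∀ (X : Set G) (a : G), X ⊆ Q → (fun x => a⁻¹ * x * a) '' X ⊆ Q → ∃ c ∈ Subgroup.centralizer X, ∃ (n : ℕ) (b : Fin n → G), (∀ i, b i ∈ ⊤ ⊓ Subgroup.normalizer ((W Q : Subgroup G) : Set G) ∨ b i ∈ ⊤ ⊓ Subgroup.centralizer ((V Q : Subgroup G) : Set G)) ∧ a = c * (List.ofFn b).prod ∧ ∀ k : ℕ, k ≤ n → (fun x => (((List.ofFn b).take k).prod)⁻¹ *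 x * ((List.ofFn b).take k).prod) '' ((fun x => c⁻¹ * x * c) '' X) ⊆ Q := by
  have hPp := P.isPGroup'
  have hPne : (P : Subgroup G) ≠ ⊥ := by
    intro h
    have h1 := P.card_eq_multiplicity
    rw [h, Subgroup.card_bot] at h1
    have h2 : 0 < (Nat.card G).factorization p :=
      (Fact.out : p.Prime).factorization_pos_of_dvd Nat.card_pos.ne' hdiv
    have h3 := Nat.one_lt_pow h2.ne' (Fact.out : p.Prime).one_lt
    omega
  have hloc' : ∀ H : Subgroup G, (P : Subgroup G) ⊓ Subgroup.centralizer (((P : Subgroup G) : Subgroup G) : Set G) ≤ H → H ≤ (P : Subgroup G) →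
      ∃ Q : Subgroup G, IsSylIn p Q (Subgroup.normalizer (H : Set G)) ∧
        ∀ (A : Set G) (x : G), x ∈ Subgroup.normalizer (H : Set G) → A ⊆ Q → lc x A ⊆ Q →
          LC ((Subgroup.normalizer (H : Set G) : Set G) ∩ sg W V Q) Q A x := by
    intro H hH1 hH2
    obtain ⟨Q, h1, h2, h3, h4⟩ := hloc H hH1 hH2
    refine ⟨Q, ⟨h1, h2, h3⟩, fun A x hx hA hA' => ?_⟩
    obtain ⟨c, hc, n, b, hb, he, hk⟩ := h4 A x⁻¹ hA (inv_mem hx) (by rw [lc_eq_rc] at hA'; exact hA')
    rw [Subgroup.mem_inf] at hc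
    have hcA : rc c A = A := by
      ext y
      rw [mem_rc]
      constructor
      · intro hy
        have := Subgroup.mem_centralizer_iff.1 hc.2 _ hy
        have h5 : c * y * c⁻¹ = y := by
          have h6 : c * y * c⁻¹ * c = c * (c * y * c⁻¹) := this
          have h7 : c * y = c * (c * y * c⁻¹) := by rw [← h6]; group
          exact (mul_left_cancel h7).symm
        rwa [h5] at hy
      · intro hy
        have := Subgroup.mem_centralizer_iff.1 hc.2 _ hy
        have h5 : c * y * c⁻¹ = y := by rw [← this]; group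
        rwa [h5]
    have h5 := LC_of_list (X := ((Subgroup.normalizer (H : Set G) : Set G) ∩ sg W V Q)) (R := (Q : Set G)) (List.ofFn b) A (by
        intro z hz
        rw [List.mem_ofFn] at hz
        obtain ⟨i, rfl⟩ := hz
        rcases hb i with h | h
        · rw [Subgroup.mem_inf] at h
          exact ⟨inv_mem h.1, Or.inl (inv_mem h.2)⟩
        · rw [Subgroup.mem_inf] at h
          exact ⟨inv_mem h.1, Or.inr (inv_mem h.2)⟩) (by
        intro k hk'
        have := hk k (by simpa using hk')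
        change rc _ (rc c A) ⊆ _ at this
        rwa [hcA] at this)
    refine h5.congr fun a ha => ?_
    have h6 : x = (List.ofFn b).prod⁻¹ * c⁻¹ := by
      have := congrArg (·⁻¹) he
      simpa using this
    have h7 : c⁻¹ * a * c = a := by
      have := Subgroup.mem_centralizer_iff.1 hc.2 _ ha
      rw [mul_assoc, this]; group
    rw [h6]
    calc (List.ofFn b).prod⁻¹ * a * (List.ofFn b).prod⁻¹⁻¹ = (List.ofFn b).prod⁻¹ * (c⁻¹ * a * c) * (List.ofFn b).prod⁻¹⁻¹ := by rw [h7]
      _ = _ := by group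
  have hmain := main P W V hW hV hWZ hVmono hloc' hPne (Nat.card (P : Subgroup G) + 1)
  refine ⟨P, hPp, P.not_dvd_index, fun X a hX ha => ?_⟩
  have h1 := LC_of_base P {U | Cfsg.IsWellPlaced p W (P : Subgroup G) U} (fun U hU => ⟨hU.1, hU.2 0⟩)
    (chain_wp P hW) (sg W V P) (by
      intro U hU hcen x hx
      have hUP : U ≤ (P : Subgroup G) := hU.1
      have hUN : U ≤ (P : Subgroup G) ⊓ Subgroup.normalizer (U : Set G) := le_inf hU.1 Subgroup.le_normalizer
      refine hmain U hU ?_ (by omega) _ _ hx hUN ?_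
      · refine le_trans (le_inf inf_le_left (inf_le_right.trans (Subgroup.centralizer_le hUP))) hcen
      · rw [lc_coe, mem_normalizer_cj.1 hx]; exact hUN) X a⁻¹ hX (by rw [lc_eq_rc, inv_inv]; exact ha)
  obtain ⟨c, hc, l, hl, hg, hk⟩ := list_of_LC h1
  rw [inv_inv] at hg
  have hcX : rc c X = X := by
    ext y
    rw [mem_rc]
    constructor
    · intro hy
      have := Subgroup.mem_centralizer_iff.1 hc _ hy
      have h5 : c * y * c⁻¹ = y := by
        have h6 : c * y * c⁻¹ * c = c * (c * y * c⁻¹) := this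
        have h7 : c * y = c * (c * y * c⁻¹) := by rw [← h6]; group
        exact (mul_left_cancel h7).symm
      rwa [h5] at hy
    · intro hy
      have := Subgroup.mem_centralizer_iff.1 hc _ hy
      have h5 : c * y * c⁻¹ = y := by rw [← this]; group
      rwa [h5]
  refine ⟨c, hc, l.length, l.get, ?_, ?_, ?_⟩
  · intro i
    have := hl (l.get i) (List.get_mem l i)
    rcases this with h | h
    · left; rw [top_inf_eq]; have := inv_mem h; rwa [inv_inv] at this
    · right; rw [top_inf_eq]; have := inv_mem h; rwa [inv_inv] at this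
  · rw [List.ofFn_get]; exact hg
  · intro k hk'
    rw [List.ofFn_get]
    change rc _ (rc c X) ⊆ _
    rw [hcX]
    exact hk k hk'

end Cfsg.Agent.S2002
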