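import Cfsg.Statements.S2015
import Cfsg.Agent.L.KCtl2

set_option autoImplicit false
universe u
open Cfsg

namespace Cfsg.Agent.S2015

/-- For p ≥ 5, every finite p-group P has a characteristic subgroup K containing Z(P), depending only on P, whose normalizer controls transfer wherever P is a Sylow subgroup: for every finite group G and every embedding ι of P onto a Sylow p-subgroup of G, the intersection of ι(P) with the derived subgroup of G equals its intersection with the derived subgroup of N_G(ι(K)). -/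
theorem result (p : ℕ) [Fact p.Prime] (hp : 5 ≤ p) (P : Type u) [Group P] [Finite P] (hP : IsPGroup p P) : ∃ K : Subgroup P, K.Characteristic ∧ Subgroup.center P ≤ K ∧ ∀ (G : Type u) [Group G] [Finite G] (ι : P →* G), Function.Injective ι → (∃ T : Sylow p G, (T : Subgroup G) = ι.range) → ι.range ⊓ commutator G = ι.range ⊓ (commutator ↥(Subgroup.normalizer ((K.map ι : Subgroup G) : Set G))).map (Subgroup.normalizer ((K.map ι : Subgroup G) : Set G)).subtype := by
  haveI hfin := hP
  refine ⟨Cfsg.kInfLower P, ?_, ?_, ?_⟩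
  · rw [Subgroup.characteristic_iff_map_eq]
    intro φ
    exact Cfsg.Agent.L.iso_kInfLower φ
  · exact (Subgroup.center_le_centralizer _).trans (Cfsg.Agent.L.cent_kInf hP).1
  · intro G _ _ ι hι hT
    obtain ⟨T, hT⟩ := hT
    have hS := Cfsg.Agent.L.sylIn_top T
    have hW := Cfsg.Agent.L.kInfLower_isCharP.{u} (p := p)
    have h𝓦 : ∀ W' ∈ ({Cfsg.kInfLower} : Set (∀ (Q : Type u) [Group Q], Subgroup Q)), Cfsg.IsCharPFunctor.{u} p W' := by
      intro W' hW'; rw [Set.mem_singleton_iff] at hW'; subst hW'; exact hW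
    have hfun : Cfsg.inducedFunctor Cfsg.kInfLower ι.range = (Cfsg.kInfLower P).map ι := by
      let e : P ≃* ι.range := MonoidHom.ofInjective hι
      have h1 := Cfsg.Agent.L.iso_kInfLower e
      rw [Cfsg.inducedFunctor, ← h1, Subgroup.map_map]
      congr 1
    have key := (Cfsg.Agent.L.tc_iff h𝓦 hS).1 (Cfsg.Agent.L.tc_kInf hp G)
    have hK0 : Cfsg.Agent.L.K0 {Cfsg.kInfLower} (T : Subgroup G) = (T : Subgroup G) ⊓
        ⁅Cfsg.Agent.L.nz (Cfsg.inducedFunctor Cfsg.kInfLower (T : Subgroup G)),
          Cfsg.Agent.L.nz (Cfsg.inducedFunctor Cfsg.kInfLower (T : Subgroup G))⁆ := by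
      rw [Cfsg.Agent.L.K0, Cfsg.Agent.L.fam, iSup_image, iSup_singleton]
    rw [hK0, hT, hfun] at key
    rw [Subgroup.map_subtype_commutator]
    apply le_antisymm
    · exact key
    · exact inf_le_inf_left _ (Subgroup.commutator_mono le_top le_top)

end Cfsg.Agent.S2015
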