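import Cfsg.Statements.S2163
import Cfsg.Agent.H15.TI4

set_option autoImplicit false
open Cfsg

namespace Cfsg.Agent.S2163

open scoped Matrix in
theorem main {F : Type*} [Field F] [CharP F 2] {n : ℕ} (ℓ : ℕ) (h1 : 1 ≤ ℓ) (h2 : 2 * ℓ ≤ n) (N : Matrix (Fin n) (Fin n) F)
    (hN : N = Matrix.of (fun i j : Fin n => if j.val < ℓ ∧ i.val = j.val + (n - ℓ) then (1 : F) else 0)) :
    N * N = 0 ∧ (1 + N).det = 1 ∧ N.rank = ℓ := by
  have hNa : ∀ i j, N i j = if j.val < ℓ ∧ i.val = j.val + (n - ℓ) then (1 : F) else 0 := by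
    intro i j; rw [hN]; rfl
  refine ⟨?_, ?_, ?_⟩
  · ext i j
    rw [Matrix.mul_apply, Matrix.zero_apply]
    apply Finset.sum_eq_zero
    intro k _
    rw [hNa, hNa]
    split_ifs with h3 h4
    · omega
    · rw [mul_zero]
    · rw [zero_mul]
    · rw [zero_mul]
  · rw [Matrix.det_of_lowerTriangular]
    · apply Finset.prod_eq_one
      intro i _
      have hi := i.2
      rw [Matrix.add_apply, Matrix.one_apply_eq, hNa, if_neg (by omega), add_zero]
    · intro i j hij
      have hij' : i < j := hij
      have hij2 : i.val < j.val := hij'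
      rw [Matrix.add_apply, Matrix.one_apply_ne hij'.ne, hNa, if_neg (by omega), add_zero]
  · refine Cfsg.Agent.H15.TI.rank_of_factor (ℓ := ℓ) (Matrix.of fun i k => if i.val = k.val + (n - ℓ) then 1 else 0)
      (Matrix.of fun k j => if j.val = k.val then 1 else 0) (Matrix.of fun k i => if i.val = k.val + (n - ℓ) then 1 else 0)
      (Matrix.of fun j k => if j.val = k.val then 1 else 0) ?_ ?_ ?_
    · ext i j
      have hi := i.2
      rw [hNa, Matrix.mul_apply]
      by_cases hj : j.val < ℓ
      · rw [Finset.sum_eq_single (⟨j.val, hj⟩ : Fin ℓ)]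
        · simp only [Matrix.of_apply, if_true, mul_one, hj, true_and]
        · intro k _ hk
          simp only [Matrix.of_apply]
          rw [if_neg (fun h => hk (Fin.ext h.symm) : ¬ j.val = k.val), mul_zero]
        · intro h; exact absurd (Finset.mem_univ _) h
      · rw [if_neg (fun h => hj h.1)]
        symm
        apply Finset.sum_eq_zero
        intro k _
        have hk := k.2
        simp only [Matrix.of_apply]
        rw [if_neg (by omega : ¬ j.val = k.val), mul_zero]
    · ext k k'
      have hk := k.2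
      rw [Matrix.mul_apply, Finset.sum_eq_single (⟨k.val + (n - ℓ), by omega⟩ : Fin n)]
      · simp only [Matrix.of_apply, if_true, one_mul, Matrix.one_apply]
        have e : (k.val + (n - ℓ) = k'.val + (n - ℓ)) ↔ k = k' := by rw [Fin.ext_iff]; omega
        simp only [e]
      · intro i _ hi
        simp only [Matrix.of_apply]
        rw [if_neg (fun h => hi (Fin.ext h) : ¬ i.val = k.val + (n - ℓ)), zero_mul]
      · intro h; exact absurd (Finset.mem_univ _) h
    · ext k k'
      have hk := k.2
      rw [Matrix.mul_apply, Finset.sum_eq_single (⟨k.val, by omega⟩ : Fin n)]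
      · simp only [Matrix.of_apply, if_true, one_mul, Matrix.one_apply]
        have e : (k.val = k'.val) ↔ k = k' := by rw [Fin.ext_iff]
        simp only [e]
      · intro i _ hi
        simp only [Matrix.of_apply]
        rw [if_neg (fun h => hi (Fin.ext h) : ¬ i.val = k.val), zero_mul]
      · intro h; exact absurd (Finset.mem_univ _) h

/-- Over a finite field of characteristic two and for n ≥ 3: for every ℓ with 1 ≤ ℓ and 2ℓ ≤ n, the matrix j_ℓ that is the identity plus the entries 1 in positions (n − ℓ + i, i) for i < ℓ (an identity block of size ℓ in the lower left corner) lies in SL_n(F), has order 2, and j_ℓ − 1 has rank ℓ. Together with the conjugacy criterion by rank, these matrices represent the conjugacy classes of involutions of SL_n(F). -/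
theorem result {F : Type*} [Field F] [Fintype F] [CharP F 2] {n : ℕ} (hn : 3 ≤ n) (ℓ : ℕ) (h1 : 1 ≤ ℓ) (h2 : 2 * ℓ ≤ n) :
    ∃ a : Matrix.SpecialLinearGroup (Fin n) F, (a : Matrix (Fin n) (Fin n) F) = 1 + Matrix.of (fun i j : Fin n => if j.val < ℓ ∧ i.val = j.val + (n - ℓ) then (1 : F) else 0) ∧ orderOf a = 2 ∧ ((a : Matrix (Fin n) (Fin n) F) - 1).rank = ℓ := by
  obtain ⟨hN, hd, hr⟩ := main (F := F) ℓ h1 h2 _ rfl
  set N : Matrix (Fin n) (Fin n) F := Matrix.of (fun i j : Fin n => if j.val < ℓ ∧ i.val = j.val + (n - ℓ) then (1 : F) else 0) with hNdef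
  let a : Matrix.SpecialLinearGroup (Fin n) F := ⟨1 + N, hd⟩
  have ha : (a : Matrix (Fin n) (Fin n) F) - 1 = N := by
    show 1 + N - 1 = N
    rw [add_sub_cancel_left]
  refine ⟨a, rfl, ?_, by rw [ha]; exact hr⟩
  haveI : Fact (Nat.Prime 2) := ⟨Nat.prime_two⟩
  apply orderOf_eq_prime
  · rw [pow_two]
    apply Subtype.ext
    show (1 + N) * (1 + N) = 1
    have h3 : N + N = 0 := by
      rw [← two_smul F N, Cfsg.Agent.H15.TI.two_zero', zero_smul]
    rw [mul_add, add_mul, add_mul, hN, mul_one, one_mul, mul_one, add_zero, add_assoc, h3, add_zero]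
  · intro h
    have h3 : (a : Matrix (Fin n) (Fin n) F) = 1 := congrArg (fun x : Matrix.SpecialLinearGroup (Fin n) F => (x : Matrix (Fin n) (Fin n) F)) h
    rw [h3, sub_self] at ha
    rw [← ha, Matrix.rank_zero] at hr
    omega

end Cfsg.Agent.S2163
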