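import Cfsg.Statements.S2165
import Cfsg.Agent.H15.TI4

set_option autoImplicit false
open Cfsg

namespace Cfsg.Agent.S2165



/-- In SU_n(q), q even, n ≥ 3 (matrices of determinant 1 over the field with q² elements preserving Σ u_i v_i^q): for every ℓ with 1 ≤ ℓ and 2ℓ ≤ n, the permutation matrix of the involution of {0, …, n−1} exchanging i and n − ℓ + i for each i < ℓ lies in SU_n(q), has order 2, and differs from the identity by a matrix of rank ℓ. So every rank between 1 and n/2 occurs for involutions of SU_n(q). -/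
theorem result {F : Type*} [Field F] [Fintype F] [CharP F 2] {n q : ℕ} (hF : Fintype.card F = q ^ 2) (hn : 3 ≤ n) (ℓ : ℕ) (h1 : 1 ≤ ℓ) (h2 : 2 * ℓ ≤ n) :
    ∃ a : ↥(Cfsg.SU n F q), (((a : Matrix.SpecialLinearGroup (Fin n) F) : Matrix (Fin n) (Fin n) F) = Matrix.of (fun i j : Fin n => if (j.val < ℓ ∧ i.val = j.val + (n - ℓ)) ∨ (i.val < ℓ ∧ j.val = i.val + (n - ℓ)) ∨ (i = j ∧ ℓ ≤ i.val ∧ i.val < n - ℓ) then (1 : F) else 0)) ∧ orderOf a = 2 ∧ ((((a : Matrix.SpecialLinearGroup (Fin n) F) : Matrix (Fin n) (Fin n) F)) - 1).rank = ℓ := by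
  have hr := Cfsg.Agent.H15.TI.PM_rank F h1 h2
  let a : Matrix.SpecialLinearGroup (Fin n) F := ⟨Cfsg.Agent.H15.TI.PM F n ℓ, Cfsg.Agent.H15.TI.PM_det F h2⟩
  have haU : a ∈ Cfsg.SU n F q := fun u v => Cfsg.Agent.H15.TI.PG_mem_GU (q := q) h2 u v
  refine ⟨⟨a, haU⟩, rfl, ?_, hr⟩
  haveI : Fact (Nat.Prime 2) := ⟨Nat.prime_two⟩
  apply orderOf_eq_prime
  · rw [pow_two]
    apply Subtype.ext
    apply Subtype.ext
    exact Cfsg.Agent.H15.TI.PM_sq F h2
  · intro h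
    have h3 : Cfsg.Agent.H15.TI.PM F n ℓ = 1 := congrArg (fun x : ↥(Cfsg.SU n F q) => ((x : Matrix.SpecialLinearGroup (Fin n) F) : Matrix (Fin n) (Fin n) F)) h
    rw [h3, sub_self, Matrix.rank_zero] at hr
    omega

end Cfsg.Agent.S2165
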