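import Cfsg.Statements.S2166
import Cfsg.Agent.H15.TI2

set_option autoImplicit false
open Cfsg

namespace Cfsg.Agent.S2166



/-- Conjugacy of involutions in the symplectic group Sp_{2m}(F), F a finite field of characteristic two, m ≥ 2 (Sp taken as the matrices A with A J Aᵀ = J, acting on column vectors, with the alternating form f(u, v) = u ⬝ (J v)). For an involution t write V(t) for the set of vectors v with f(v, t v) = 0 (a subspace). Two involutions a, b are conjugate in Sp_{2m}(F) exactly when a − 1 and b − 1 have the same rank and, in case that rank is even, V(a) and V(b) have the same number of elements. -/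
theorem result {F : Type*} [Field F] [Fintype F] [CharP F 2] {m : ℕ} (hm : 2 ≤ m) (a b : ↥(Matrix.symplecticGroup (Fin m) F)) (ha : orderOf a = 2) (hb : orderOf b = 2) :
    IsConj a b ↔ ((((a : ↥(Matrix.symplecticGroup (Fin m) F)) : Matrix (Fin m ⊕ Fin m) (Fin m ⊕ Fin m) F) - 1).rank = (((b : ↥(Matrix.symplecticGroup (Fin m) F)) : Matrix (Fin m ⊕ Fin m) (Fin m ⊕ Fin m) F) - 1).rank ∧
      (Even (((a : ↥(Matrix.symplecticGroup (Fin m) F)) : Matrix (Fin m ⊕ Fin m) (Fin m ⊕ Fin m) F) - 1).rank → Nat.card {v : Fin m ⊕ Fin m → F // Cfsg.sympForm m F v (Matrix.mulVec ((a : ↥(Matrix.symplecticGroup (Fin m) F)) : Matrix (Fin m ⊕ Fin m) (Fin m ⊕ Fin m) F) v) = 0} = Nat.card {v : Fin m ⊕ Fin m → F // Cfsg.sympForm m F v (Matrix.mulVec ((b : ↥(Matrix.symplecticGroup (Fin m) F)) : Matrix (Fin m ⊕ Fin m) (Fin m ⊕ Fin m) F) v) = 0})) := by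
  rw [Cfsg.Agent.H15.TI.sp_conj_iff ha hb]
  refine and_congr_right fun hr => ?_
  have hq : 1 < Nat.card F := by rw [Nat.card_eq_fintype_card]; exact Fintype.one_lt_card
  have hpos : 0 < Nat.card F ^ (2 * m) := pow_pos (by omega) _
  constructor
  · intro h _
    by_cases hA : Cfsg.Agent.H17.iA (Cfsg.Agent.H17.spIG m F a)
    · rw [Cfsg.Agent.H15.TI.sp_card_alt hA, Cfsg.Agent.H15.TI.sp_card_alt (h.1 hA)]
    · have h1 := Cfsg.Agent.H15.TI.sp_card ha hA
      have h2 := Cfsg.Agent.H15.TI.sp_card hb (fun hB => hA (h.2 hB))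
      exact Nat.eq_of_mul_eq_mul_right (by omega) (h1.trans h2.symm)
  · intro h
    have key : ∀ c d : ↥(Matrix.symplecticGroup (Fin m) F), orderOf d = 2 →
        Nat.card {v : Fin m ⊕ Fin m → F // Cfsg.sympForm m F v (Matrix.mulVec ((c : ↥(Matrix.symplecticGroup (Fin m) F)) : Matrix (Fin m ⊕ Fin m) (Fin m ⊕ Fin m) F) v) = 0} = Nat.card {v : Fin m ⊕ Fin m → F // Cfsg.sympForm m F v (Matrix.mulVec ((d : ↥(Matrix.symplecticGroup (Fin m) F)) : Matrix (Fin m ⊕ Fin m) (Fin m ⊕ Fin m) F) v) = 0} →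
        Cfsg.Agent.H17.iA (Cfsg.Agent.H17.spIG m F c) → Cfsg.Agent.H17.iA (Cfsg.Agent.H17.spIG m F d) := by
      intro c d hd hcd hc
      by_contra hdA
      have h1 := Cfsg.Agent.H15.TI.sp_card hd hdA
      rw [← hcd, Cfsg.Agent.H15.TI.sp_card_alt hc] at h1
      nlinarith
    constructor
    · intro hA
      exact key a b hb (h (Cfsg.Agent.H15.TI.sp_even ha hA)) hA
    · intro hB
      exact key b a ha (h (by rw [hr]; exact Cfsg.Agent.H15.TI.sp_even hb hB)).symm hB

end Cfsg.Agent.S2166
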