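import Cfsg.Statements.S2171
import Cfsg.Agent.H15.TI2

set_option autoImplicit false
open Cfsg

namespace Cfsg.Agent.S2171

theorem aux {F : Type*} [Field F] [Fintype F] [CharP F 2] {k : ℕ} (hk : 3 ≤ k) {a b : F} (hab : ∀ z₁ z₂ : F, z₁ ^ 2 + a * z₁ * z₂ + b * z₂ ^ 2 = 0 → z₁ = 0 ∧ z₂ = 0)
    (q : ((Fin k ⊕ Fin k) ⊕ Fin 2 → F) → F) (hq : ⇑(Cfsg.Agent.H5.qMinus k F a b) = q) (t : ↥(Cfsg.isometryGroup F q)) :
    t ∈ Cfsg.Omega F q ↔ Even ((((t : ↥(Cfsg.isometryGroup F q)) : GL ((Fin k ⊕ Fin k) ⊕ Fin 2) F) : Matrix ((Fin k ⊕ Fin k) ⊕ Fin 2) ((Fin k ⊕ Fin k) ⊕ Fin 2) F) - 1).rank := by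
  subst hq
  have hV : Module.finrank F ((Fin k ⊕ Fin k) ⊕ Fin 2 → F) = 2 * (k + 1) := by rw [Module.finrank_fintype_fun_eq_card, Fintype.card_sum, Fintype.card_sum, Fintype.card_fin, Fintype.card_fin]; ring
  have hnd : Cfsg.Agent.H5.ND (Cfsg.Agent.H5.qMinus k F a b) := Cfsg.Agent.H5.nd_minus hab
  exact Cfsg.Agent.H15.TI.omega_even hnd (Cfsg.Agent.H5.rg_top hnd (fun _ => by rw [hV]; omega)) hV t

/-- For the quadratic form Σ x_i y_i + (z₁² + c z₁ z₂ + d z₂²) in dimension 2m with anisotropic binary part over a finite field F of characteristic two, m ≥ 4 (minus type): an element of order 2 of the full isometry group O lies in the commutator subgroup Ω of O exactly when t − 1 has even rank. -/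
theorem result {F : Type*} [Field F] [Fintype F] [CharP F 2] {m : ℕ} (hm : 4 ≤ m) (c d : F) (hcd : ∀ z₁ z₂ : F, z₁ ^ 2 + c * z₁ * z₂ + d * z₂ ^ 2 = 0 → z₁ = 0 ∧ z₂ = 0) (t : ↥(Cfsg.isometryGroup F (Cfsg.quadFormMinus (m - 1) F c d))) (ht : orderOf t = 2) :
    t ∈ Cfsg.Omega F (Cfsg.quadFormMinus (m - 1) F c d) ↔ Even ((((t : ↥(Cfsg.isometryGroup F (Cfsg.quadFormMinus (m - 1) F c d))) : GL ((Fin (m - 1) ⊕ Fin (m - 1)) ⊕ Fin 2) F) : Matrix ((Fin (m - 1) ⊕ Fin (m - 1)) ⊕ Fin 2) ((Fin (m - 1) ⊕ Fin (m - 1)) ⊕ Fin 2) F) - 1).rank := by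
  exact aux (by omega) hcd (Cfsg.quadFormMinus (m - 1) F c d) (Cfsg.Agent.H5.qMinus_coe (m - 1) F c d) t

end Cfsg.Agent.S2171
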