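import Cfsg.Statements.S2172
import Cfsg.Agent.H15.TI2

set_option autoImplicit false
open Cfsg

namespace Cfsg.Agent.S2172

theorem aux {F : Type*} [Field F] [Fintype F] [CharP F 2] {m : ℕ} (hm : 4 ≤ m) (q : (Fin m ⊕ Fin m → F) → F) (hq : ⇑(Cfsg.Agent.H5.qPlus m F) = q)
    (t s : ↥(Cfsg.isometryGroup F q)) (ht : orderOf t = 2) (htO : t ∈ Cfsg.Omega F q) (hconj : IsConj t s) :
    (¬ (((((t : ↥(Cfsg.isometryGroup F q)) : GL (Fin m ⊕ Fin m) F) : Matrix (Fin m ⊕ Fin m) (Fin m ⊕ Fin m) F) - 1).rank = m ∧ ∀ v : Fin m ⊕ Fin m → F, q (v + Matrix.mulVec (((t : ↥(Cfsg.isometryGroup F q)) : GL (Fin m ⊕ Fin m) F) : Matrix (Fin m ⊕ Fin m) (Fin m ⊕ Fin m) F) v) = 0) →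
      ∃ g ∈ Cfsg.Omega F q, g * t * g⁻¹ = s) ∧
    ((((((t : ↥(Cfsg.isometryGroup F q)) : GL (Fin m ⊕ Fin m) F) : Matrix (Fin m ⊕ Fin m) (Fin m ⊕ Fin m) F) - 1).rank = m ∧ ∀ v : Fin m ⊕ Fin m → F, q (v + Matrix.mulVec (((t : ↥(Cfsg.isometryGroup F q)) : GL (Fin m ⊕ Fin m) F) : Matrix (Fin m ⊕ Fin m) (Fin m ⊕ Fin m) F) v) = 0) →
      ((∃ g ∈ Cfsg.Omega F q, g * t * g⁻¹ = s) ↔
        Even (Module.finrank F ↥(LinearMap.range (Matrix.toLin' ((((t : ↥(Cfsg.isometryGroup F q)) : GL (Fin m ⊕ Fin m) F) : Matrix (Fin m ⊕ Fin m) (Fin m ⊕ Fin m) F) - 1)) ⊓ LinearMap.range (Matrix.toLin' ((((s : ↥(Cfsg.isometryGroup F q)) : GL (Fin m ⊕ Fin m) F) : Matrix (Fin m ⊕ Fin m) (Fin m ⊕ Fin m) F) - 1)))))) := by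
  subst hq
  have hV : Module.finrank F (Fin m ⊕ Fin m → F) = 2 * m := by rw [Module.finrank_fintype_fun_eq_card, Fintype.card_sum, Fintype.card_fin]; ring
  have hnd : Cfsg.Agent.H5.ND (Cfsg.Agent.H5.qPlus m F) := Cfsg.Agent.H5.nd_plus
  have hrg := Cfsg.Agent.H5.rg_top hnd (fun _ => by rw [hV]; omega)
  have hM : ∀ U : Submodule F (Fin m ⊕ Fin m → F), Cfsg.Agent.H5.TS (Cfsg.Agent.H5.qPlus m F) U → Module.finrank F U ≤ m :=
    fun U hU => hU.finrank_le hnd hV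
  have H := Cfsg.Agent.H17.iset_plus (F := F) m
  have hsp : (∀ v : Fin m ⊕ Fin m → F, Cfsg.Agent.H5.qPlus m F (v + Matrix.mulVec (((t : ↥(Cfsg.isometryGroup F _)) : GL (Fin m ⊕ Fin m) F) : Matrix (Fin m ⊕ Fin m) (Fin m ⊕ Fin m) F) v) = 0) ↔
      ∀ v, Cfsg.Agent.H5.pB (Cfsg.Agent.H5.qPlus m F) v (Cfsg.Agent.H5.ogEquiv (Cfsg.Agent.H5.qPlus m F) t v - v) = 0 := by
    refine forall_congr' fun v => ?_
    have h1 : Cfsg.Agent.H5.qPlus m F (Cfsg.Agent.H5.ogEquiv (Cfsg.Agent.H5.qPlus m F) t v - v) =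
      Cfsg.Agent.H5.pB (Cfsg.Agent.H5.qPlus m F) v (Cfsg.Agent.H5.ogEquiv (Cfsg.Agent.H5.qPlus m F) t v - v) := H.nT _ (Cfsg.Agent.H17.ogIG _ (Cfsg.Agent.H5.ogEquiv _ t)).2 v
    rw [← h1]
    have h2 : Cfsg.Agent.H5.ogEquiv (Cfsg.Agent.H5.qPlus m F) t v - v = v + Matrix.mulVec (((t : ↥(Cfsg.isometryGroup F _)) : GL (Fin m ⊕ Fin m) F) : Matrix (Fin m ⊕ Fin m) (Fin m ⊕ Fin m) F) v := by
      rw [Cfsg.Agent.H5.ogEquiv_apply, sub_eq_add_neg, add_comm]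
      congr 1
      rw [neg_eq_iff_add_eq_zero, ← two_smul F v, Cfsg.Agent.H17.two_zero, zero_smul]
    rw [h2]
  rw [Cfsg.Agent.H15.TI.rank_eq, hsp, Cfsg.Agent.H15.TI.range_eq, Cfsg.Agent.H15.TI.range_eq]
  constructor
  · intro h
    exact Cfsg.Agent.H15.TI.conj_omega H hnd hrg hV (by omega) le_rfl hM t s ht hconj (fun h' => h ⟨h'.1, h'.2.1⟩)
  · rintro ⟨h1, h2⟩
    exact Cfsg.Agent.H15.TI.conj_omega_special H hnd hrg hV rfl hM t s ht htO hconj h1 h2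

/-- Splitting of involution classes from O to Ω for the hyperbolic quadratic form Q = Σ x_i y_i in dimension 2m over a finite field F of characteristic two, m ≥ 4. Let t, s be involutions of the commutator subgroup Ω that are conjugate in the full isometry group O. If it is not the case that t − 1 has rank m and Q(v + t v) = 0 for every vector v, then t and s are conjugate by an element of Ω. If t − 1 has rank m and Q(v + t v) = 0 for all v, then t and s are conjugate by an element of Ω exactly when the intersection of the images of t − 1 and s − 1 has even dimension (so the class of t in O meets at most two classes of Ω). -/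
theorem result {F : Type*} [Field F] [Fintype F] [CharP F 2] {m : ℕ} (hm : 4 ≤ m) (t s : ↥(Cfsg.isometryGroup F (Cfsg.quadFormPlus m F))) (ht : orderOf t = 2) (hs : orderOf s = 2) (htO : t ∈ Cfsg.Omega F (Cfsg.quadFormPlus m F)) (hsO : s ∈ Cfsg.Omega F (Cfsg.quadFormPlus m F)) (hconj : IsConj t s) :
    (¬ (((((t : ↥(Cfsg.isometryGroup F (Cfsg.quadFormPlus m F))) : GL (Fin m ⊕ Fin m) F) : Matrix (Fin m ⊕ Fin m) (Fin m ⊕ Fin m) F) - 1).rank = m ∧ ∀ v : Fin m ⊕ Fin m → F, Cfsg.quadFormPlus m F (v + Matrix.mulVec (((t : ↥(Cfsg.isometryGroup F (Cfsg.quadFormPlus m F))) : GL (Fin m ⊕ Fin m) F) : Matrix (Fin m ⊕ Fin m) (Fin m ⊕ Fin m) F) v) = 0) →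
      ∃ g ∈ Cfsg.Omega F (Cfsg.quadFormPlus m F), g * t * g⁻¹ = s) ∧
    ((((((t : ↥(Cfsg.isometryGroup F (Cfsg.quadFormPlus m F))) : GL (Fin m ⊕ Fin m) F) : Matrix (Fin m ⊕ Fin m) (Fin m ⊕ Fin m) F) - 1).rank = m ∧ ∀ v : Fin m ⊕ Fin m → F, Cfsg.quadFormPlus m F (v + Matrix.mulVec (((t : ↥(Cfsg.isometryGroup F (Cfsg.quadFormPlus m F))) : GL (Fin m ⊕ Fin m) F) : Matrix (Fin m ⊕ Fin m) (Fin m ⊕ Fin m) F) v) = 0) →
      ((∃ g ∈ Cfsg.Omega F (Cfsg.quadFormPlus m F), g * t * g⁻¹ = s) ↔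
        Even (Module.finrank F ↥(LinearMap.range (Matrix.toLin' ((((t : ↥(Cfsg.isometryGroup F (Cfsg.quadFormPlus m F))) : GL (Fin m ⊕ Fin m) F) : Matrix (Fin m ⊕ Fin m) (Fin m ⊕ Fin m) F) - 1)) ⊓ LinearMap.range (Matrix.toLin' ((((s : ↥(Cfsg.isometryGroup F (Cfsg.quadFormPlus m F))) : GL (Fin m ⊕ Fin m) F) : Matrix (Fin m ⊕ Fin m) (Fin m ⊕ Fin m) F) - 1)))))) := by
  exact aux hm (Cfsg.quadFormPlus m F) (Cfsg.Agent.H5.qPlus_coe m F) t s ht htO hconj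

end Cfsg.Agent.S2172
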