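import Cfsg.Statements.S2174
import Cfsg.Agent.H15.ChevInvF4
import Cfsg.Agent.H15.ChevInv9

set_option autoImplicit false
open Cfsg

namespace Cfsg.Agent.S2174

open Cfsg.Agent.H15.Chev in
theorem no_fusion {F : Type*} [Field F] {r s : Fin Cfsg.Lie.chevF4.nroots}
    (h : ((r : ℕ) = 47 ∧ (s : ℕ) = 44)) {g : GL Cfsg.Lie.chevF4.Idx F} (hg : g ∈ Cfsg.Lie.chevF4.group F)
    (he : g * Cfsg.Agent.H6.xg Cfsg.Lie.chevF4 F r 1 * g⁻¹ = Cfsg.Agent.H6.xg Cfsg.Lie.chevF4 F s 1) : False := by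
  have hr : (r : ℕ) + 1 = Cfsg.Lie.chevF4.nroots := by rw [h.1]; rfl
  obtain ⟨w, hw⟩ := root_fusion Cfsg.Agent.H6.TF4.good Cfsg.Agent.H6.TF4.ext hr (by rw [h.2]; norm_num)
    one_ne_zero one_ne_zero hg he
  have hL : ∀ i < 4, ∀ r < 48, r ∈ ([0, 1, 2, 4, 5, 6, 15, 16, 17, 21, 22, 23, 24, 25, 26, 30, 31, 32, 41, 42, 43, 45, 46, 47] : List ℕ) → Cfsg.Lie.chevF4.reflectRoot i r ∈ ([0, 1, 2, 4, 5, 6, 15, 16, 17, 21, 22, 23, 24, 25, 26, 30, 31, 32, 41, 42, 43, 45, 46, 47] : List ℕ) := by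
    decide +kernel
  have h1 := W_stable Cfsg.Agent.H6.TF4.good (L := {r | r ∈ ([0, 1, 2, 4, 5, 6, 15, 16, 17, 21, 22, 23, 24, 25, 26, 30, 31, 32, 41, 42, 43, 45, 46, 47] : List ℕ)}) hL w r (by rw [h.1]; decide)
  rw [hw, h.2] at h1
  exact absurd h1 (by decide)

/-- Conjugacy classes of involutions in the Chevalley group of type F₄ over a finite field F of characteristic two (the matrix group generated by the root elements x_r(t)). In this problem's root numbering for type F₄ (the Chevalley data module; fundamental roots p₁, p₂ short and p₃, p₄ long; roots indexed by their coefficient vectors in increasing order) let r = 47 be the highest root (2,4,3,2), s = 44 the highest short root (2,3,2,1), and α = 39 = (1,2,2,1), β = 45 = (2,4,2,1), an orthogonal short/long pair; consider the four elements x_r(1), x_s(1), x_r(1)x_s(1), x_α(1)x_β(1). Then: each invertible matrix equal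 to one of these four products lies in the group and has order 2; every element of order 2 of the group is conjugate in the group to one of them; and no two of them are conjugate in the group (so, the four matrices being distinct, the group has exactly four conjugacy classes of involutions). -/
theorem result {F : Type*} [Field F] [Fintype F] [CharP F 2] :
    (∀ y : GL Cfsg.Lie.chevF4.Idx F, ((y : GL Cfsg.Lie.chevF4.Idx F) : Matrix Cfsg.Lie.chevF4.Idx Cfsg.Lie.chevF4.Idx F) ∈ [Cfsg.Lie.chevF4.x F 47 1, Cfsg.Lie.chevF4.x F 44 1, Cfsg.Lie.chevF4.x F 47 1 * Cfsg.Lie.chevF4.x F 44 1, Cfsg.Lie.chevF4.x F 39 1 * Cfsg.Lie.chevF4.x F 45 1] → y ∈ Cfsg.Lie.chevF4.group F ∧ orderOf y = 2) ∧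
    (∀ g ∈ Cfsg.Lie.chevF4.group F, orderOf g = 2 → ∃ y ∈ Cfsg.Lie.chevF4.group F, ((y : GL Cfsg.Lie.chevF4.Idx F) : Matrix Cfsg.Lie.chevF4.Idx Cfsg.Lie.chevF4.Idx F) ∈ [Cfsg.Lie.chevF4.x F 47 1, Cfsg.Lie.chevF4.x F 44 1, Cfsg.Lie.chevF4.x F 47 1 * Cfsg.Lie.chevF4.x F 44 1, Cfsg.Lie.chevF4.x F 39 1 * Cfsg.Lie.chevF4.x F 45 1] ∧ ∃ h ∈ Cfsg.Lie.chevF4.group F, h * g * h⁻¹ = y) ∧
    (∀ y₁ ∈ Cfsg.Lie.chevF4.group F, ∀ y₂ ∈ Cfsg.Lie.chevF4.group F, ((y₁ : GL Cfsg.Lie.chevF4.Idx F) : Matrix Cfsg.Lie.chevF4.Idx Cfsg.Lie.chevF4.Idx F) ∈ [Cfsg.Lie.chevF4.x F 47 1, Cfsg.Lie.chevF4.x F 44 1, Cfsg.Lie.chevF4.x F 47 1 * Cfsg.Lie.chevF4.x F 44 1, Cfsg.Lie.chevF4.x F 39 1 * Cfsg.Lie.chevF4.x F 45 1] → ((y₂ : GL Cfsg.Lie.chevF4.Idx F) : Matrix Cfsg.Lie.chevF4.Idx Cfsg.Lie.chevF4.Idx F) ∈ [Cfsg.Lie.chevF4.x F 47 1, Cfsg.Lie.chevF4.x F 44 1, Cfsg.Lie.chevF4.x F 47 1 * Cfsg.Lie.chevF4.x F 44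 1, Cfsg.Lie.chevF4.x F 39 1 * Cfsg.Lie.chevF4.x F 45 1] →
      (∃ h ∈ Cfsg.Lie.chevF4.group F, h * y₁ * h⁻¹ = y₂) → ((y₁ : GL Cfsg.Lie.chevF4.Idx F) : Matrix Cfsg.Lie.chevF4.Idx Cfsg.Lie.chevF4.Idx F) = ((y₂ : GL Cfsg.Lie.chevF4.Idx F) : Matrix Cfsg.Lie.chevF4.Idx Cfsg.Lie.chevF4.Idx F)) := by
  have h2 : (2 : F) = 0 := CharTwo.two_eq_zero
  have hV := Cfsg.Agent.H15.Chev.evC_of (F := F) Cfsg.Agent.H6.TF4.good Cfsg.Agent.H6.TF4.ext h2
    Cfsg.Agent.H15.Chev.IF4.hEv Cfsg.Agent.H15.Chev.IF4.hSym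
  have key := Cfsg.Agent.H15.Chev.classes3' (F := F) Cfsg.Agent.H6.TF4.good Cfsg.Agent.H6.TF4.ext hV
    Cfsg.Agent.H15.Chev.IF4.EE Cfsg.Agent.H15.Chev.IF4.EE_eq 64 48 52 rfl rfl (by norm_num)
    Cfsg.Agent.H15.Chev.IF4.T Cfsg.Agent.H15.Chev.IF4.hA Cfsg.Agent.H15.Chev.IF4.hB
    Cfsg.Agent.H15.Chev.IF4.RC Cfsg.Agent.H15.Chev.IF4.hC Cfsg.Agent.H15.Chev.IF4.hTR (by
      intro e₁ he₁ e₂ he₂ hlen hc
      obtain ⟨h, hh, hc⟩ := hc
      simp only [Cfsg.Agent.H15.Chev.IF4.RC, List.mem_cons, List.not_mem_nil, or_false] at he₁ he₂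
      rcases he₁ with rfl | rfl | rfl | rfl <;> rcases he₂ with rfl | rfl | rfl | rfl <;>
        first
        | rfl
        | exact absurd hlen (by decide)
        | skip
      · exfalso
        simp only [Cfsg.Agent.H15.Chev.prodX, List.map_cons, List.map_nil, List.prod_cons, List.prod_nil, mul_one] at hc
        exact no_fusion (r := ⟨47, by decide⟩) (s := ⟨44, by decide⟩) ⟨rfl, rfl⟩ hh hc
      · exfalso
        simp only [Cfsg.Agent.H15.Chev.prodX, List.map_cons, List.map_nil, List.prod_cons, List.prod_nil, mul_one] at hc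
        refine no_fusion (r := ⟨47, by decide⟩) (s := ⟨44, by decide⟩) (g := h⁻¹) ⟨rfl, rfl⟩ (inv_mem hh) ?_
        change h⁻¹ * Cfsg.Agent.H6.xg Cfsg.Lie.chevF4 F 47 1 * h⁻¹⁻¹ = Cfsg.Agent.H6.xg Cfsg.Lie.chevF4 F 44 1
        rw [← hc]; group)
  simp only [Cfsg.Agent.H15.Chev.IF4.RC, List.map_cons, List.map_nil, Cfsg.Agent.H15.Chev.prodX, List.prod_cons,
    List.prod_nil, mul_one, Units.val_mul, Cfsg.Agent.H6.TF4.good.coe_xg] at key
  exact key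

end Cfsg.Agent.S2174
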