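import Cfsg.Statements.S2177
import Cfsg.Agent.H15.ChevCent9

set_option autoImplicit false
open Cfsg

namespace Cfsg.Agent.S2177

open Cfsg.Agent.H15.Chev in
theorem no_fusion {F : Type*} [Field F] {g : GL Cfsg.Lie.chevG2.Idx F} (hg : g ∈ Cfsg.Lie.chevG2.group F)
    (he : g * Cfsg.Agent.H6.xg Cfsg.Lie.chevG2 F 11 1 * g⁻¹ = Cfsg.Agent.H6.xg Cfsg.Lie.chevG2 F 9 1) : False := by
  have i11 : (11 : ℕ) < Cfsg.Lie.chevG2.nroots := by rw [CG2.nr]; norm_num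
  have i9 : (9 : ℕ) < Cfsg.Lie.chevG2.nroots := by rw [CG2.nr]; norm_num
  obtain ⟨w, hw⟩ := root_fusion Cfsg.Agent.H6.TG2.good Cfsg.Agent.H6.TG2.ext (r := ⟨11, i11⟩) (s := ⟨9, i9⟩)
    CG2.nr.symm (by norm_num) one_ne_zero one_ne_zero hg he
  have h1 := W_stable Cfsg.Agent.H6.TG2.good CG2.Lg_stable w ⟨11, i11⟩ (show (11 : ℕ) ∈ CG2.Lg by decide)
  rw [hw] at h1
  exact absurd h1 (show ¬ ((9 : ℕ) ∈ CG2.Lg) by decide)

/-- Conjugacy classes of involutions in the Chevalley group of type G₂ over a finite field F of characteristic two with at least four elements (the matrix group generated by the root elements x_r(t)). In this problem's root numbering for type G₂ (the Chevalley data module; p₁ = a short, p₂ = b long; roots indexed by coefficient vectors in increasing order) let 11 be the highest root 3a + 2b (long) and 9 the short root 2a + b; consider x_{3a+2b}(1) and x_{2a+b}(1). Then: each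 invertible matrix equal to one of these two products lies in the group and has order 2; every element of order 2 of the group is conjugate in the group to one of them; and no two of them are conjugate in the group (so, the two matrices being distinct, the group has exactly two conjugacy classes of involutions). -/
theorem result {F : Type*} [Field F] [Fintype F] [CharP F 2] (hF : 4 ≤ Fintype.card F) :
    (∀ y : GL Cfsg.Lie.chevG2.Idx F, ((y : GL Cfsg.Lie.chevG2.Idx F) : Matrix Cfsg.Lie.chevG2.Idx Cfsg.Lie.chevG2.Idx F) ∈ [Cfsg.Lie.chevG2.x F 11 1, Cfsg.Lie.chevG2.x F 9 1] → y ∈ Cfsg.Lie.chevG2.group F ∧ orderOf y = 2) ∧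
    (∀ g ∈ Cfsg.Lie.chevG2.group F, orderOf g = 2 → ∃ y ∈ Cfsg.Lie.chevG2.group F, ((y : GL Cfsg.Lie.chevG2.Idx F) : Matrix Cfsg.Lie.chevG2.Idx Cfsg.Lie.chevG2.Idx F) ∈ [Cfsg.Lie.chevG2.x F 11 1, Cfsg.Lie.chevG2.x F 9 1] ∧ ∃ h ∈ Cfsg.Lie.chevG2.group F, h * g * h⁻¹ = y) ∧
    (∀ y₁ ∈ Cfsg.Lie.chevG2.group F, ∀ y₂ ∈ Cfsg.Lie.chevG2.group F, ((y₁ : GL Cfsg.Lie.chevG2.Idx F) : Matrix Cfsg.Lie.chevG2.Idx Cfsg.Lie.chevG2.Idx F) ∈ [Cfsg.Lie.chevG2.x F 11 1, Cfsg.Lie.chevG2.x F 9 1] → ((y₂ : GL Cfsg.Lie.chevG2.Idx F) : Matrix Cfsg.Lie.chevG2.Idx Cfsg.Lie.chevG2.Idx F) ∈ [Cfsg.Lie.chevG2.x F 11 1, Cfsg.Lie.chevG2.x F 9 1] →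
      (∃ h ∈ Cfsg.Lie.chevG2.group F, h * y₁ * h⁻¹ = y₂) → ((y₁ : GL Cfsg.Lie.chevG2.Idx F) : Matrix Cfsg.Lie.chevG2.Idx Cfsg.Lie.chevG2.Idx F) = ((y₂ : GL Cfsg.Lie.chevG2.Idx F) : Matrix Cfsg.Lie.chevG2.Idx Cfsg.Lie.chevG2.Idx F)) := by
  have hG := Cfsg.Agent.H6.TG2.good
  have hE := Cfsg.Agent.H6.TG2.ext
  have h2 : (2 : F) = 0 := CharTwo.two_eq_zero
  have i11 : (11 : ℕ) < Cfsg.Lie.chevG2.nroots := by rw [Cfsg.Agent.H15.Chev.CG2.nr]; norm_num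
  have i9 : (9 : ℕ) < Cfsg.Lie.chevG2.nroots := by rw [Cfsg.Agent.H15.Chev.CG2.nr]; norm_num
  have hord : ∀ r : ℕ, r < Cfsg.Lie.chevG2.nroots → orderOf (Cfsg.Agent.H6.xg Cfsg.Lie.chevG2 F r 1) = 2 := by
    intro r hr
    apply orderOf_eq_prime
    · rw [pow_two]; exact Cfsg.Agent.H15.Chev.CG2.x2 h2 r 1
    · exact hG.xg_ne_one hE hr one_ne_zero
  have hmem : ∀ y : GL Cfsg.Lie.chevG2.Idx F, ((y : GL Cfsg.Lie.chevG2.Idx F) : Matrix Cfsg.Lie.chevG2.Idx Cfsg.Lie.chevG2.Idx F) ∈ [Cfsg.Lie.chevG2.x F 11 1, Cfsg.Lie.chevG2.x F 9 1] →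
      y = Cfsg.Agent.H6.xg Cfsg.Lie.chevG2 F 11 1 ∨ y = Cfsg.Agent.H6.xg Cfsg.Lie.chevG2 F 9 1 := by
    intro y hy
    rw [List.mem_cons, List.mem_singleton] at hy
    rcases hy with hy | hy
    · exact Or.inl (hG.eq_xg_iff.1 hy)
    · exact Or.inr (hG.eq_xg_iff.1 hy)
  refine ⟨?_, ?_, ?_⟩
  · intro y hy
    rcases hmem y hy with rfl | rfl
    · exact ⟨hG.xg_mem_group _ _, hord 11 i11⟩
    · exact ⟨hG.xg_mem_group _ _, hord 9 i9⟩
  · intro g hg ho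
    have hg2 : g * g = 1 := by
      have := pow_orderOf_eq_one g
      rwa [ho, pow_two] at this
    have hne : g ≠ 1 := by
      rintro rfl
      rw [orderOf_one] at ho
      omega
    rcases Cfsg.Agent.H15.Chev.CG2.cj_all hg hg2 hne with ⟨h, hh, he⟩ | ⟨h, hh, he⟩
    · exact ⟨_, hG.xg_mem_group 11 1, by rw [hG.coe_xg]; simp, h, hh, he⟩
    · exact ⟨_, hG.xg_mem_group 9 1, by rw [hG.coe_xg]; simp, h, hh, he⟩
  · intro y₁ _ y₂ _ hy₁ hy₂ hc
    obtain ⟨h, hh, hc⟩ := hc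
    rcases hmem y₁ hy₁ with rfl | rfl <;> rcases hmem y₂ hy₂ with rfl | rfl
    · rfl
    · exact absurd (no_fusion hh hc) id
    · refine absurd (no_fusion (inv_mem hh) ?_) id
      rw [← hc]; group
    · rfl

end Cfsg.Agent.S2177
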