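import Cfsg.Statements.S2178
import Cfsg.Agent.H15.ChevCent2

set_option autoImplicit false
open Cfsg

namespace Cfsg.Agent.S2178

open Cfsg.Lie Cfsg.Agent.H6 Cfsg.Agent.H15.Chev

theorem two_zero {F : Type*} [Field F] [CharP F 2] : (2 : F) = 0 := by
  have := CharP.cast_eq_zero F 2
  exact_mod_cast this

theorem even_zero {F : Type*} [Field F] [CharP F 2] {z : ℤ} (h : z % 2 = 0) : ((z : ℤ) : F) = 0 := by
  obtain ⟨k, rfl⟩ := Int.dvd_of_emod_eq_zero h
  push_cast
  rw [two_zero, zero_mul]

theorem ev : ∀ s < 48, 24 ≤ s → ∀ c ∈ chevF4.commTerms 44 s, c.2.1 % 2 = 0 := by decide +kernel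

/-- the centralizer with three root subgroups -/
theorem conv {F : Type*} [Field F] (a b c : ℕ) :
    chevF4.posUnipotent F ⊔ Subgroup.closure {g : GL chevF4.Idx F | ∃ s ∈ [a, b, c], ∃ k : F,
      (g : Matrix chevF4.Idx chevF4.Idx F) = chevF4.x F s k} =
    chevF4.posUnipotent F ⊔ chevF4.rootSubgroup F a ⊔ chevF4.rootSubgroup F b ⊔ chevF4.rootSubgroup F c := by
  unfold ChevalleyDatum.rootSubgroup
  rw [sup_assoc, sup_assoc]
  congr 1
  rw [← Subgroup.closure_union, ← Subgroup.closure_union]
  congr 1
  ext g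
  simp only [List.mem_cons, List.not_mem_nil, or_false, Set.mem_union, Set.mem_ofPred_eq]
  constructor
  · rintro ⟨s, rfl | rfl | rfl, k, hk⟩
    · exact Or.inl ⟨k, hk⟩
    · exact Or.inr (Or.inl ⟨k, hk⟩)
    · exact Or.inr (Or.inr ⟨k, hk⟩)
  · rintro (⟨k, hk⟩ | ⟨k, hk⟩ | ⟨k, hk⟩)
    · exact ⟨_, Or.inl rfl, k, hk⟩
    · exact ⟨_, Or.inr (Or.inl rfl), k, hk⟩
    · exact ⟨_, Or.inr (Or.inr rfl), k, hk⟩

/-- Centralizers of the long and the short root involutions in the Chevalley group G of type F₄ over a finite field F of characteristic two (this problem's root numbering for type F₄, from the Chevalley data module: fundamental roots p₁, p₂ short, p₃, p₄ long, with indices 33, 27, 25, 24, their negatives 14, 20, 22, 23; highest root 47, highest short root 44; U the subgroup generated by the positive root subgroups). For an element t of G with matrix x_47(1): the centralizer of t in G is the subgroup generated by U and the root subgroups X_{−p₁}, X_{−p₂}, X_{−p₃} (the unipotent radical of the maximal parabolic subgroup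 whose Levi factor has fundamental roots p₁, p₂, p₃, together with that Levi factor's root subgroups; the Levi factor is of type C₃). For an element u of G with matrix x_44(1): the centralizer of u in G is generated by U and X_{−p₂}, X_{−p₃}, X_{−p₄} (the same construction for the Levi factor with fundamental roots p₂, p₃, p₄, of type B₃). -/
theorem result {F : Type*} [Field F] [Fintype F] [CharP F 2] (t u : GL Cfsg.Lie.chevF4.Idx F) (ht : (t : Matrix Cfsg.Lie.chevF4.Idx Cfsg.Lie.chevF4.Idx F) = Cfsg.Lie.chevF4.x F 47 1) (hu : (u : Matrix Cfsg.Lie.chevF4.Idx Cfsg.Lie.chevF4.Idx F) = Cfsg.Lie.chevF4.x F 44 1) :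
    Cfsg.Lie.chevF4.group F ⊓ Subgroup.centralizer {t} = Cfsg.Lie.chevF4.posUnipotent F ⊔ Cfsg.Lie.chevF4.rootSubgroup F 14 ⊔ Cfsg.Lie.chevF4.rootSubgroup F 20 ⊔ Cfsg.Lie.chevF4.rootSubgroup F 22 ∧
    Cfsg.Lie.chevF4.group F ⊓ Subgroup.centralizer {u} = Cfsg.Lie.chevF4.posUnipotent F ⊔ Cfsg.Lie.chevF4.rootSubgroup F 20 ⊔ Cfsg.Lie.chevF4.rootSubgroup F 22 ⊔ Cfsg.Lie.chevF4.rootSubgroup F 23 := by
  constructor
  · rw [← conv]
    exact cent_list TF4.good TF4.ext (r := 47) (by decide +kernel) (by decide +kernel) (by decide +kernel)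
      (fun s h1 h2 u => comm_top TF4.good TF4.ext (by decide +kernel) h2 (by decide +kernel) h1 u 1) two_zero
      (k0 := 3) (by decide +kernel) (by decide +kernel) (by decide +kernel) _ (by decide +kernel) (by decide +kernel) t ht
  · rw [← conv]
    exact cent_list TF4.good TF4.ext (r := 44) (by decide +kernel) (by decide +kernel) (by decide +kernel)
      (fun s h1 h2 v => comm_of_even TF4.good TF4.ext (by decide +kernel) h2 (by decide +kernel) h1
        (Or.inr fun c hc => even_zero (ev s h2 h1 c hc)) v 1) two_zero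
      (k0 := 0) (by decide +kernel) (by decide +kernel) (by decide +kernel) _ (by decide +kernel) (by decide +kernel) u hu

end Cfsg.Agent.S2178
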