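import Cfsg.Statements.S2180
import Cfsg.Agent.H15.ChevCent7
import Cfsg.Agent.H15.ChevCent2

set_option autoImplicit false
open Cfsg

namespace Cfsg.Agent.S2180



/-- Centralizers of involutions in the Chevalley group G of type G₂ over a finite field F of characteristic two with at least four elements (this problem's root numbering for type G₂, from the Chevalley data module: a = p₁ short with index 7, b = p₂ long with index 6, −a = 4, −b = 5, 2a + b = 9, 3a + b = 10, 3a + 2b = 11; U generated by the positive root subgroups). For an element z of G with matrix x_{3a+2b}(1): the centralizer of z in G is generated by U and X_{−a}. For an element t of G with matrix x_{2a+b}(1): the centralizer of t in G is generated by X_{2a+b}, X_{3a+b}, X_{3a+2b}, X_b and X_{−b}. -/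
theorem result {F : Type*} [Field F] [Fintype F] [CharP F 2] (hF : 4 ≤ Fintype.card F) (z t : GL Cfsg.Lie.chevG2.Idx F) (hz : (z : Matrix Cfsg.Lie.chevG2.Idx Cfsg.Lie.chevG2.Idx F) = Cfsg.Lie.chevG2.x F 11 1) (ht : (t : Matrix Cfsg.Lie.chevG2.Idx Cfsg.Lie.chevG2.Idx F) = Cfsg.Lie.chevG2.x F 9 1) :
    Cfsg.Lie.chevG2.group F ⊓ Subgroup.centralizer {z} = Cfsg.Lie.chevG2.posUnipotent F ⊔ Cfsg.Lie.chevG2.rootSubgroup F 4 ∧
    Cfsg.Lie.chevG2.group F ⊓ Subgroup.centralizer {t} = Cfsg.Lie.chevG2.rootSubgroup F 9 ⊔ Cfsg.Lie.chevG2.rootSubgroup F 10 ⊔ Cfsg.Lie.chevG2.rootSubgroup F 11 ⊔ Cfsg.Lie.chevG2.rootSubgroup F 6 ⊔ Cfsg.Lie.chevG2.rootSubgroup F 5 := by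
  have h2 : (2 : F) = 0 := CharTwo.two_eq_zero
  refine ⟨?_, ?_⟩
  · have key := Cfsg.Agent.H15.Chev.cent_list Cfsg.Agent.H6.TG2.good Cfsg.Agent.H6.TG2.ext (r := 11) (by decide +kernel)
      (by decide +kernel) (by decide +kernel)
      (fun s h1 h2 u => Cfsg.Agent.H15.Chev.comm_top Cfsg.Agent.H6.TG2.good Cfsg.Agent.H6.TG2.ext (by decide +kernel) h2
        (by decide +kernel) h1 u 1) h2
      (k0 := 1) (by decide +kernel) (by decide +kernel) (by decide +kernel) [4] (by decide +kernel) (by decide +kernel) z hz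
    rw [key]
    congr 1
    unfold Cfsg.Lie.ChevalleyDatum.rootSubgroup
    congr 1
    ext g
    simp
  · have ht' : t = Cfsg.Agent.H6.xg Cfsg.Lie.chevG2 F 9 1 := Cfsg.Agent.H6.TG2.good.eq_xg_iff.1 ht
    rw [ht']
    exact Cfsg.Agent.H15.Chev.CG2.cent9 h2

end Cfsg.Agent.S2180
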