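import Cfsg.Statements.S2181
import Cfsg.Agent.H15.ChevInvE7

set_option autoImplicit false
open Cfsg

namespace Cfsg.Agent.S2181



/-- The Chevalley group of type E₇ over a finite field of characteristic two (the matrix group generated by the root elements) has exactly five conjugacy classes of elements of order 2. -/
theorem result {F : Type*} [Field F] [Fintype F] [CharP F 2] :
    (ConjClasses.mk '' {g : ↥(Cfsg.Lie.chevE7.group F) | orderOf g = 2}).ncard = 5 := by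
  have h2 : (2 : F) = 0 := CharTwo.two_eq_zero
  have hV := Cfsg.Agent.H15.Chev.evC_of (F := F) Cfsg.Agent.H6.TE7.good Cfsg.Agent.H6.TE7.ext h2
    Cfsg.Agent.H15.Chev.IE7.hEv Cfsg.Agent.H15.Chev.IE7.hSym
  exact Cfsg.Agent.H15.Chev.classes_card (F := F) Cfsg.Agent.H6.TE7.good Cfsg.Agent.H6.TE7.ext hV
    Cfsg.Agent.H15.Chev.IE7.EE Cfsg.Agent.H15.Chev.IE7.EE_eq 256 126 133 rfl rfl (by norm_num)
    Cfsg.Agent.H15.Chev.IE7.T Cfsg.Agent.H15.Chev.IE7.hA Cfsg.Agent.H15.Chev.IE7.hB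
    Cfsg.Agent.H15.Chev.IE7.RC Cfsg.Agent.H15.Chev.IE7.hC Cfsg.Agent.H15.Chev.IE7.hTR Cfsg.Agent.H15.Chev.IE7.hnd

end Cfsg.Agent.S2181
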