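import Cfsg.Statements.S2186
import Cfsg.Agent.H15.ChevPair

set_option autoImplicit false
open Cfsg

namespace Cfsg.Agent.S2186

open Cfsg.Lie Cfsg.Agent.H6 Cfsg.Agent.H15.Chev

theorem key {F : Type*} [Field F] [Fintype F] [CharP F 2] {D : ChevalleyDatum} {N : ℕ} {η : ℕ → ℕ → ℤ}
    {rc : ℕ → ℕ → ℤ} (hG : Good D N η rc) (hE : Ext D rc) (h0 : 0 < D.nroots) (hneg : D.neg (D.nroots - 1) = 0)
    (g : GL D.Idx F) (hg : g ∈ D.group F) :
    IsPGroup 2 ↥(D.rootSubgroup F (D.nroots - 1) ⊔ (D.rootSubgroup F (D.nroots - 1)).map (MulAut.conj g).toMonoidHom) ∨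
    ∃ h ∈ D.group F, (D.rootSubgroup F (D.nroots - 1) ⊔
      (D.rootSubgroup F (D.nroots - 1)).map (MulAut.conj g).toMonoidHom).map (MulAut.conj h).toMonoidHom =
      D.rootSubgroup F (D.nroots - 1) ⊔ D.rootSubgroup F 0 := by
  have f2 : Fact (Nat.Prime 2) := ⟨Nat.prime_two⟩
  have h := long_pair (F := F) hG hE (r := ⟨D.nroots - 1, by omega⟩) (by simp; omega) hg
  rcases h with ⟨n, hn⟩ | h
  · left
    exact isPGroup_of_conj hG hE 2 hn
  · right
    rw [← hneg]
    exact h

/-- Let G be the Chevalley group of type G₂ (over a field with at least four elements), D₄, E₆, E₇ or E₈ over a finite field F of characteristic two, and let X be the root subgroup of the highest root (the last root index) — a long root subgroup, of order |F|. For every g in G, the subgroup generated by X and its conjugate g X g⁻¹ is either a 2-group or is conjugate by an element of G to the subgroup generated by X and the root subgroup of the lowest root (index 0, the negative of the highest root), which is a copy of SL₂(F). -/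
theorem result {F : Type*} [Field F] [Fintype F] [CharP F 2] (D : Cfsg.Lie.ChevalleyDatum) (hD : D ∈ [Cfsg.Lie.chevG2, Cfsg.Lie.chevD4, Cfsg.Lie.chevE6, Cfsg.Lie.chevE7, Cfsg.Lie.chevE8]) (hF : D = Cfsg.Lie.chevG2 → 4 ≤ Fintype.card F) (g : GL D.Idx F) (hg : g ∈ D.group F) :
    IsPGroup 2 ↥(D.rootSubgroup F (D.nroots - 1) ⊔ (D.rootSubgroup F (D.nroots - 1)).map (MulAut.conj g).toMonoidHom) ∨
    ∃ h ∈ D.group F, (D.rootSubgroup F (D.nroots - 1) ⊔ (D.rootSubgroup F (D.nroots - 1)).map (MulAut.conj g).toMonoidHom).map (MulAut.conj h).toMonoidHom = D.rootSubgroup F (D.nroots - 1) ⊔ D.rootSubgroup F 0 := by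
  simp only [List.mem_cons, List.not_mem_nil, or_false] at hD
  rcases hD with rfl | rfl | rfl | rfl | rfl
  · exact key TG2.good TG2.ext (by decide +kernel) (by decide +kernel) g hg
  · exact key TD4.good TD4.ext (by decide +kernel) (by decide +kernel) g hg
  · exact key TE6.good TE6.ext (by decide +kernel) (by decide +kernel) g hg
  · exact key TE7.good TE7.ext (by decide +kernel) (by decide +kernel) g hg
  · exact key TE8.good TE8.ext (by decide +kernel) (by decide +kernel) g hg

end Cfsg.Agent.S2186
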