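import Cfsg.Statements.S2214
import Cfsg.Agent.H15.ChevFix
import Cfsg.Agent.H6.ChevExtTab

set_option autoImplicit false
open Cfsg

namespace Cfsg.Agent.S2214



/-- Let k be an algebraically closed field of prime characteristic p, G the adjoint Chevalley group of type G₂, B₂, D₄, F₄, E₆, E₇ or E₈ over k (the matrix group generated by the root elements x_s(t), t ∈ k, acting on the Lie algebra), q = p^a with a ≥ 1, and K a subgroup of G containing every root element x_s(t) with t^q = t and consisting of matrices all of whose entries c satisfy c^q = c. Then the centralizer of K in G is trivial, and the normalizer of K in G is exactly the set of elements of G all of whose entries c satisfy c^q = c. -/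
theorem result {k : Type*} [Field k] [IsAlgClosed k] (p : ℕ) [Fact p.Prime] [CharP k p] (D : Cfsg.Lie.ChevalleyDatum) (hD : D ∈ [Cfsg.Lie.chevG2, Cfsg.Lie.chevB2, Cfsg.Lie.chevD4, Cfsg.Lie.chevF4, Cfsg.Lie.chevE6, Cfsg.Lie.chevE7, Cfsg.Lie.chevE8]) (a : ℕ) (ha : 1 ≤ a) (K : Subgroup (GL D.Idx k)) (hKG : K ≤ D.group k)
    (hLK : Subgroup.closure {g : GL D.Idx k | ∃ (s : ℕ) (t : k), t ^ (p ^ a) = t ∧ (g : Matrix D.Idx D.Idx k) = D.x k s t} ≤ K)
    (hKfix : ∀ g ∈ K, ∀ i j : D.Idx, ((g : Matrix D.Idx D.Idx k) i j) ^ (p ^ a) = (g : Matrix D.Idx D.Idx k) i j) :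
    D.group k ⊓ Subgroup.centralizer (K : Set (GL D.Idx k)) = ⊥ ∧
    ∀ g : GL D.Idx k, g ∈ D.group k → (g ∈ Subgroup.normalizer (K : Set (GL D.Idx k)) ↔ ∀ i j : D.Idx, ((g : Matrix D.Idx D.Idx k) i j) ^ (p ^ a) = (g : Matrix D.Idx D.Idx k) i j) := by
  obtain ⟨N, η, rc, hG, hE⟩ := Cfsg.Agent.H6.exists_ext hD
  set σ : k →+* k := iterateFrobenius k p a with hσ
  have hσt : ∀ t : k, σ t = t ^ p ^ a := fun t => iterateFrobenius_def p a t
  have hfix : ∀ g : GL D.Idx k, (∀ i j : D.Idx, ((g : Matrix D.Idx D.Idx k) i j) ^ (p ^ a) = (g : Matrix D.Idx D.Idx k) i j) ↔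
      Cfsg.Agent.H15.Chev.Phm D σ g = g := by
    intro g
    constructor
    · intro h
      apply Units.ext
      ext i j
      rw [← h i j, ← hσt]
      rfl
    · intro h i j
      rw [← hσt]
      conv_rhs => rw [← h]
      rfl
  have hL : Cfsg.Agent.H15.Chev.LS D σ ≤ K := by
    refine le_trans ?_ hLK
    unfold Cfsg.Agent.H15.Chev.LS
    rw [Subgroup.closure_le]
    rintro _ ⟨s, t, ht, rfl⟩
    exact Subgroup.subset_closure ⟨s, t, by rw [← hσt]; exact ht, hG.coe_xg s t⟩
  have hKf : ∀ g ∈ K, Cfsg.Agent.H15.Chev.Phm D σ g = g := fun g hg => (hfix g).1 (hKfix g hg)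
  constructor
  · rw [eq_bot_iff]
    rintro z ⟨hz, hzc⟩
    rw [Subgroup.mem_bot]
    apply Cfsg.Agent.H15.Chev.cent_LS hG hE σ hz
    intro x hx
    have h1 := (Subgroup.mem_centralizer_iff.1 hzc) x (hL hx)
    rw [← h1, mul_inv_cancel_right]
  · intro g hg
    rw [hfix g]
    constructor
    · intro h
      apply Cfsg.Agent.H15.Chev.fixed_of_norm hG hE σ hL hKf hg
      intro x hx
      exact (Subgroup.mem_normalizer_iff.1 h x).1 hx
    · intro h
      rw [Subgroup.mem_normalizer_iff]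
      intro x
      constructor
      · intro hx
        exact Cfsg.Agent.H15.Chev.norm_of_fixed hG hE σ hKG hL hKf hg h hx
      · intro hx
        have h' : Cfsg.Agent.H15.Chev.Phm D σ g⁻¹ = g⁻¹ := by rw [map_inv, h]
        have := Cfsg.Agent.H15.Chev.norm_of_fixed hG hE σ hKG hL hKf (inv_mem hg) h' hx
        have e : g⁻¹ * (g * x * g⁻¹) * g⁻¹⁻¹ = x := by group
        rwa [e] at this

end Cfsg.Agent.S2214
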