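import Cfsg.Statements.S2222
import Cfsg.Agent.H15.SylowSym
import Cfsg.Agent.H15.SylowAlt5

set_option autoImplicit false

open Cfsg

namespace Cfsg.Agent.S2222

open MulAction

/-- If the normaliser of a Sylow subgroup contained in `H` normalises `H` then `H` is pronormal. -/
theorem pronormal_of_normalizer_sylow {G : Type*} [Group G] [Finite G] {p : ℕ} [Fact p.Prime]
    (H : Subgroup G) (S : Sylow p G) (hS : (S : Subgroup G) ≤ H)
    (hN : Subgroup.normalizer ((S : Subgroup G) : Set G) ≤ Subgroup.normalizer (H : Set G)) :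
    Cfsg.IsPronormal H := by
  intro g
  set K := H ⊔ H.map (MulAut.conj g).toMonoidHom with hK
  have h1 : (S : Subgroup G) ≤ K := hS.trans le_sup_left
  have h2 : ((g • S : Sylow p G) : Subgroup G) ≤ K := by
    refine le_trans ?_ le_sup_right
    rintro _ ⟨s, hs, rfl⟩
    exact ⟨s, hS hs, rfl⟩
  obtain ⟨k, hk⟩ := MulAction.exists_smul_eq K ((g • S).subtype h2) (S.subtype h1)
  simp_rw [Sylow.smul_subtype, Subgroup.smul_def, smul_smul] at hk
  have h4 : k.1 * g ∈ Subgroup.normalizer ((S : Subgroup G) : Set G) :=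
    Sylow.smul_eq_iff_mem_normalizer.mp (Sylow.subtype_injective hk)
  have h5 := hN h4
  refine ⟨k.1⁻¹, K.inv_mem k.2, ?_⟩
  rw [Subgroup.mem_normalizer_iff_map_conj_eq] at h5
  have h6 : (H.map (MulAut.conj g).toMonoidHom) =
      (H.map (MulAut.conj (k.1 * g)).toMonoidHom).map (MulAut.conj k.1⁻¹).toMonoidHom := by
    rw [Subgroup.map_map]
    congr 1
    ext x
    simp [MulAut.conj_apply, mul_assoc]
  rw [h6]
  have h7 : H.map (MulAut.conj (k.1 * g)).toMonoidHom = H := h5
  rw [h7]

/-- In the alternating group of degree n ≥ 5 every subgroup H of odd index is pronormal: for every element g, the subgroups H and gHg⁻¹ are conjugate by an element of the subgroup they generate. -/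
theorem result (n : ℕ) (hn : 5 ≤ n)
    (H : Subgroup (alternatingGroup (Fin n))) (hH : Odd H.index) : Cfsg.IsPronormal H := by
  -- a Sylow 2-subgroup inside H
  obtain ⟨T⟩ : Nonempty (Sylow 2 H) := inferInstance
  have hT : IsPGroup 2 ((T : Subgroup H).map H.subtype) := T.isPGroup'.map _
  have hTi : ¬ 2 ∣ ((T : Subgroup H).map H.subtype).index := by
    rw [Subgroup.index_map_subtype]
    intro h
    rcases (Nat.Prime.dvd_mul Nat.prime_two).mp h with h | h
    · exact T.not_dvd_index h
    · obtain ⟨k, hk⟩ := hH; omega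
  let S : Sylow 2 (alternatingGroup (Fin n)) := hT.toSylow hTi
  have hS : (S : Subgroup (alternatingGroup (Fin n))) ≤ H := by
    rintro _ ⟨x, _, rfl⟩; exact x.2
  apply pronormal_of_normalizer_sylow H S hS
  rcases Nat.eq_or_lt_of_le hn with h5 | h6
  · subst h5
    exact Cfsg.Agent.H15.normalizer_sylow_alt5_le S H hS
  · rw [Cfsg.Agent.H15.normalizer_sylow_alternating (by rw [Fintype.card_fin]; omega) S]
    exact hS.trans Subgroup.le_normalizer

end Cfsg.Agent.S2222
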