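import Cfsg.Statements.S2231
import Cfsg.Agent.H2.QD8
import Cfsg.Agent.H5.SL2

set_option autoImplicit false
set_option linter.style.haveILetI false
set_option linter.unusedVariables false
set_option linter.unusedSectionVars false
open Cfsg

namespace Cfsg.Agent.S2231

universe u v

theorem comm_of_sylow {G : Type*} [Group G] [Finite G] {p : ℕ} [Fact p.Prime] (T₀ : Sylow p G)
    (h : ∀ x ∈ (T₀ : Subgroup G), ∀ y ∈ (T₀ : Subgroup G), x * y = y * x) (P : Subgroup G) (hP : IsPGroup p P) :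
    ∀ x ∈ P, ∀ y ∈ P, x * y = y * x := by
  intro x hx y hy
  obtain ⟨T, hT⟩ := hP.exists_le_sylow
  have e : T ≃* T₀ := Sylow.equiv T T₀
  have h1 : (⟨x, hT hx⟩ : T) * ⟨y, hT hy⟩ = ⟨y, hT hy⟩ * ⟨x, hT hx⟩ := by
    apply e.injective
    rw [map_mul, map_mul]
    exact Subtype.ext (h _ (e _).2 _ (e _).2)
  exact congrArg Subtype.val h1

theorem not_involves_of_comm {G : Type u} [Group G] [Finite G] {p : ℕ} [Fact p.Prime]
    (h : ∀ P : Subgroup G, IsPGroup p P → ∀ x ∈ P, ∀ y ∈ P, x * y = y * x) :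
    ¬ Cfsg.Involves ↥(Cfsg.qd p) G := by
  rintro ⟨K, R, hR, ⟨e⟩⟩
  obtain ⟨P⟩ : Nonempty (Sylow p K) := inferInstance
  have hs : Function.Surjective (e.toMonoidHom.comp (QuotientGroup.mk' (R.subgroupOf K))) :=
    e.surjective.comp (QuotientGroup.mk'_surjective _)
  apply (H2.qd_sylow_card (P.mapSurjective hs)).2
  refine ⟨⟨?_⟩⟩
  rintro ⟨a, ha⟩ ⟨b, hb⟩
  rw [Sylow.coe_mapSurjective] at ha hb
  obtain ⟨x, hx, rfl⟩ := ha
  obtain ⟨y, hy, rfl⟩ := hb
  apply Subtype.ext
  show _ * _ = _ * _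
  rw [← map_mul, ← map_mul]
  congr 1
  apply Subtype.ext
  exact h ((P : Subgroup K).map K.subtype) (P.isPGroup'.map _) _ ⟨x, hx, rfl⟩ _ ⟨y, hy, rfl⟩

/-- Let p be an odd prime and K a finite field of characteristic p. Then Qd(p) (the natural semidirect product of an elementary abelian group of order p² by SL₂(p)) is not involved in the projective special linear group PSL₂(K). -/
theorem result {p : ℕ} [Fact p.Prime] (hp : p ≠ 2) {K : Type*} [Field K] [Fintype K] [CharP K p] : ¬ Cfsg.Involves ↥(Cfsg.qd p) (Matrix.ProjectiveSpecialLinearGroup (Fin 2) K) := by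
  haveI : Finite (Matrix.ProjectiveSpecialLinearGroup (Fin 2) K) := inferInstance
  apply not_involves_of_comm
  obtain ⟨T, hT⟩ := H5.exists_sylow_lineStab0 (F := K) p
  have hs : Function.Surjective (QuotientGroup.mk' (Subgroup.center (Matrix.SpecialLinearGroup (Fin 2) K))) :=
    QuotientGroup.mk'_surjective _
  apply comm_of_sylow (T.mapSurjective hs)
  intro x hx y hy
  rw [Sylow.coe_mapSurjective] at hx hy
  obtain ⟨a, ha, rfl⟩ := hx
  obtain ⟨b, hb, rfl⟩ := hy
  rw [← map_mul, ← map_mul]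
  congr 1
  rw [SetLike.mem_coe, hT, H5.mem_lineStab0_iff] at ha hb
  obtain ⟨s, rfl⟩ := ha
  obtain ⟨t, rfl⟩ := hb
  apply Subtype.ext
  ext i j
  fin_cases i <;> fin_cases j <;> simp [Matrix.SpecialLinearGroup.transvection_coe, Matrix.mul_apply, Fin.sum_univ_two, add_comm]

end Cfsg.Agent.S2231
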