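import Cfsg.Statements.S2232
import Cfsg.Agent.H2.TIQd
import Cfsg.Agent.H18.PSU3f

set_option autoImplicit false
set_option linter.style.haveILetI false
set_option linter.unusedVariables false
set_option linter.unusedSectionVars false
open Cfsg

namespace Cfsg.Agent.S2232

open Cfsg.Agent.H18 Matrix Cfsg.Agent.H5 Cfsg.Agent.H5.FormData Cfsg.Agent.H15.IrrLin


theorem stv_smul {F : Type*} [Field F] {q : ℕ} {v : Fin 3 → F} {a : F} (ha : a ≠ 0) :
    stv q (a • v) = stv q v := by
  ext g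
  rw [mem_stv, mem_stv, sv_smul]
  constructor
  · intro h
    have := congrArg (fun x => a⁻¹ • x) h
    simpa [smul_smul, inv_mul_cancel₀ ha] using this
  · intro h; rw [h]

theorem stv_ti {F : Type*} [Field F] {σ : F →+* F} {q : ℕ} (hσ : ∀ x, σ x = x ^ q) (hσ2 : ∀ a, σ (σ a) = a)
    {v w u v' : Fin 3 → F} (hf : Fr σ v w u) (hv0' : v' ≠ 0) (hv' : (hB (Fin 3) σ (v') (v')) = 0) {g : SU 3 F q} (hg1 : g ≠ 1)
    (hg : sv g v = v) (hg' : sv g v' = v') : stv q v' = stv q v := by
  obtain ⟨c, d, h1, h2, h3⟩ := stab_struct hσ hσ2 hf hg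
  have hexp := hf.exp hσ2 v'
  set α := (hB (Fin 3) σ (w) (v')) with hα
  set β := (hB (Fin 3) σ (v) (v')) with hβ
  set γ := (hB (Fin 3) σ (u) (v')) with hγ
  by_cases hb : β = 0
  · have hγ0 : γ = 0 := by
      have e1 : (hB (Fin 3) σ (v') (v')) = α * (hB (Fin 3) σ (v') (v)) + γ * (hB (Fin 3) σ (v') (u)) := by
        conv_lhs => rw [show (hB (Fin 3) σ (v') (v')) = (hB (Fin 3) σ (v') (α • v + β • w + γ • u)) by rw [← hexp]]
        rw [hb, zero_smul, add_zero, map_add, map_smul, map_smul, smul_eq_mul, smul_eq_mul]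
      have e2 : (hB (Fin 3) σ (v') (v)) = 0 := by
        rw [← hB_symm hσ2, ← hβ, hb, map_zero]
      have e3 : (hB (Fin 3) σ (v') (u)) = σ γ := by rw [← hB_symm hσ2]
      rw [hv', e2, e3, mul_zero, zero_add] at e1
      rcases mul_eq_zero.1 e1.symm with h | h
      · exact h
      · exact (map_eq_zero σ).1 h
    rw [hb, hγ0, zero_smul, zero_smul, add_zero, add_zero] at hexp
    have ha : α ≠ 0 := by
      intro h; rw [h, zero_smul] at hexp; exact hv0' hexp
    rw [hexp, stv_smul ha]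
  · exfalso
    have e1 : sv g v' = α • v + β • (w - σ c • u + d • v) + γ • (u + c • v) := by
      conv_lhs => rw [hexp]
      rw [sv_add, sv_add, sv_smul, sv_smul, sv_smul, hg, h1, h2]
    have e2 : (β * d + γ * c) • v + (0 : F) • w + (-(β * σ c)) • u = 0 := by
      have : sv g v' - v' = 0 := by rw [hg', sub_self]
      rw [e1] at this
      conv_lhs at this => rw [show v' = α • v + β • w + γ • u from hexp]
      rw [← this]
      module
    have hli := Fintype.linearIndependent_iff.1 hf.indep ![β * d + γ * c, 0, -(β * σ c)] (by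
      rw [Fin.sum_univ_three]
      simpa using e2)
    have h5 : -(β * σ c) = 0 := hli 2
    have h6 : β * d + γ * c = 0 := hli 0
    have hc : c = 0 := by
      rw [neg_eq_zero] at h5
      rcases mul_eq_zero.1 h5 with h | h
      · exact absurd h hb
      · exact (map_eq_zero σ).1 h
    have hd : d = 0 := by
      rw [hc, mul_zero, add_zero] at h6
      rcases mul_eq_zero.1 h6 with h | h
      · exact absurd h hb
      · exact h
    rw [hc, zero_smul, add_zero] at h1
    rw [hc, hd, map_zero, zero_smul, zero_smul, sub_zero, add_zero] at h2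
    apply hg1
    apply sv_ext
    intro y
    rw [sv_one, hf.exp hσ2 y, sv_add, sv_add, sv_smul, sv_smul, sv_smul, hg, h1, h2]

/-- Let p be an odd prime, q a power of p and K a finite field with q² elements. Then Qd(p) (the natural semidirect product of an elementary abelian group of order p² by SL₂(p)) is not involved in the projective special unitary group PSU₃(q) realised over K. -/
theorem result {p : ℕ} [Fact p.Prime] (hp : p ≠ 2) {K : Type*} [Field K] [Fintype K] [CharP K p] (n : ℕ) (hn : 1 ≤ n) (hK : Fintype.card K = (p ^ n) ^ 2) : ¬ Cfsg.Involves ↥(Cfsg.qd p) (Cfsg.PSU 3 K (p ^ n)) := by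
  classical
  have hpr : p.Prime := Fact.out
  have hpq : p ∣ p ^ n := dvd_pow_self p (by omega)
  obtain ⟨σ, hσ, hσ2, hσ1⟩ := exists_frob hK
  intro h
  have h' : Cfsg.Involves (Cfsg.qdOver (ZMod p)) (SU 3 K (p ^ n)) :=
    Cfsg.Agent.H28.involves_of_quotient (Subgroup.center (SU 3 K (p ^ n))) h
  haveI : Finite (SU 3 K (p ^ n)) := inferInstance
  refine Cfsg.Agent.H2.TIQd.not_involves_of_TI (p := p) ?_ h'
  intro P P' hne
  obtain ⟨v, hv0, hv, hPv⟩ := exists_fixed (σ := σ) hK hσ hσ2 hpq P.2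
  obtain ⟨w, u, hf⟩ := exists_fr hσ1 hσ2 hv0 hv
  have hPs : stv (p ^ n) v = (P : Subgroup (SU 3 K (p ^ n))) :=
    P.3 (stv_isPGroup hσ hσ2 hf) (fun g hg => hPv g hg)
  obtain ⟨v', hv0', hv', hPv'⟩ := exists_fixed (σ := σ) hK hσ hσ2 hpq P'.2
  obtain ⟨w', u', hf'⟩ := exists_fr hσ1 hσ2 hv0' hv'
  have hPs' : stv (p ^ n) v' = (P' : Subgroup (SU 3 K (p ^ n))) :=
    P'.3 (stv_isPGroup hσ hσ2 hf') (fun g hg => hPv' g hg)
  obtain ⟨g, hg⟩ := Subgroup.ne_bot_iff_exists_ne_one.1 hne
  have hg1 : (g : SU 3 K (p ^ n)) ≠ 1 := fun h => hg (Subtype.ext h)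
  have := stv_ti hσ hσ2 hf hv0' hv' hg1 (hPv g g.2.1) (hPv' g g.2.2)
  apply Sylow.ext
  rw [← hPs, ← hPs', this]

end Cfsg.Agent.S2232
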