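import Cfsg.Statements.S2244
import Cfsg.Agent.H15.WCl4

set_option autoImplicit false
open Cfsg

namespace Cfsg.Agent.S2244

open Cfsg.Agent.H6 Cfsg.Agent.H15.WCl in
theorem g2case {F : Type*} [Field F] [Fintype F] (h : 4 ≤ Fintype.card F) (X : Subgroup (GL Cfsg.Lie.chevG2.Idx F))
    (hXU : X ≤ Cfsg.Lie.chevG2.posUnipotent F)
    (hwc : ∀ g ∈ Cfsg.Lie.chevG2.group F, X.map (MulAut.conj g).toMonoidHom ≤ Cfsg.Lie.chevG2.posUnipotent F →
      X.map (MulAut.conj g).toMonoidHom = X) :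
    ∃ J : Set ℕ, (∀ j ∈ J, j < Cfsg.Lie.chevG2.rank) ∧ X = Cfsg.Lie.chevG2.unipotentRadical F J := by
  have hG := TG2.good
  have hE := TG2.ext
  have hB : ∀ b ∈ Cfsg.Lie.chevG2.borelSubgroup F, ∀ x ∈ X, b * x * b⁻¹ ∈ X := by
    intro b hb x hx
    have h1 := hwc b (hG.borel_le hb) (by
      rintro _ ⟨y, hy, rfl⟩
      exact hG.borel_conj_pos hb (hXU hy))
    rw [← h1]
    exact ⟨x, hx, rfl⟩
  exact weakly_closed hG hE hXU hwc (sepG2 hG hE h (fun b hb => hB b (Subgroup.mem_sup_right hb))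
    (fun b hb => hB b (Subgroup.mem_sup_left hb))) (cert_of (by decide +kernel) certG2)

/-- Weakly closed unipotent subgroups of Chevalley groups: let G be the Chevalley group of type G₂, B₂, D₄, F₄, E₆, E₇ or E₈ over a finite field F (the matrix group generated by the root elements), with |F| ≠ 2, and |F| ≠ 3 as well for the types G₂, B₂, D₄, F₄. Let U be the subgroup generated by the positive root subgroups. If X ≤ U is weakly closed in U with respect to G (every G-conjugate of X lying in U equals X), then X is the unipotent radical U_J of a standard parabolic subgroup for some set J of fundamental roots. -/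
theorem result {F : Type*} [Field F] [Fintype F] (D : Cfsg.Lie.ChevalleyDatum) (hD : D ∈ [Cfsg.Lie.chevG2, Cfsg.Lie.chevB2, Cfsg.Lie.chevD4, Cfsg.Lie.chevF4, Cfsg.Lie.chevE6, Cfsg.Lie.chevE7, Cfsg.Lie.chevE8])
    (h2 : Fintype.card F ≠ 2) (h3 : D ∈ [Cfsg.Lie.chevG2, Cfsg.Lie.chevB2, Cfsg.Lie.chevD4, Cfsg.Lie.chevF4] → Fintype.card F ≠ 3)
    (X : Subgroup (GL D.Idx F)) (hXU : X ≤ D.posUnipotent F)
    (hwc : ∀ g ∈ D.group F, X.map (MulAut.conj g).toMonoidHom ≤ D.posUnipotent F → X.map (MulAut.conj g).toMonoidHom = X) :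
    ∃ J : Set ℕ, (∀ j ∈ J, j < D.rank) ∧ X = D.unipotentRadical F J := by
  open Cfsg.Agent.H6 Cfsg.Agent.H15.WCl in
  have h1 : 1 < Fintype.card F := Fintype.one_lt_card
  simp only [List.mem_cons, List.not_mem_nil, or_false] at hD h3
  rcases hD with rfl | rfl | rfl | rfl | rfl | rfl | rfl
  · have h4 := h3 (Or.inl rfl)
    exact g2case (by omega) X hXU hwc
  · have h4 := h3 (Or.inr (Or.inl rfl))
    exact Cfsg.Agent.H15.WCl.generic Cfsg.Agent.H6.TB2.good Cfsg.Agent.H6.TB2.ext hXU hwc Cfsg.Agent.H15.WCl.domB2 (by omega) Cfsg.Agent.H15.WCl.certB2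
  · have h4 := h3 (Or.inr (Or.inr (Or.inl rfl)))
    exact Cfsg.Agent.H15.WCl.generic Cfsg.Agent.H6.TD4.good Cfsg.Agent.H6.TD4.ext hXU hwc Cfsg.Agent.H15.WCl.domD4 (by omega) Cfsg.Agent.H15.WCl.certD4
  · have h4 := h3 (Or.inr (Or.inr (Or.inr rfl)))
    exact Cfsg.Agent.H15.WCl.generic Cfsg.Agent.H6.TF4.good Cfsg.Agent.H6.TF4.ext hXU hwc Cfsg.Agent.H15.WCl.domF4 (by omega) Cfsg.Agent.H15.WCl.certF4
  · exact Cfsg.Agent.H15.WCl.generic Cfsg.Agent.H6.TE6.good Cfsg.Agent.H6.TE6.ext hXU hwc Cfsg.Agent.H15.WCl.domE6 (by omega) Cfsg.Agent.H15.WCl.certE6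
  · exact Cfsg.Agent.H15.WCl.generic Cfsg.Agent.H6.TE7.good Cfsg.Agent.H6.TE7.ext hXU hwc Cfsg.Agent.H15.WCl.domE7 (by omega) Cfsg.Agent.H15.WCl.certE7
  · exact Cfsg.Agent.H15.WCl.generic Cfsg.Agent.H6.TE8.good Cfsg.Agent.H6.TE8.ext hXU hwc Cfsg.Agent.H15.WCl.domE8 (by omega) Cfsg.Agent.H15.WCl.certE8

end Cfsg.Agent.S2244
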