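import Cfsg.Statements.S2245
import Cfsg.Agent.H15.SylowSym
import Cfsg.Agent.H15.SylowAlt5
import Cfsg.Agent.H15.SylowMax

set_option autoImplicit false

open Cfsg

namespace Cfsg.Agent.S2245

open Equiv MulAction Cfsg.Agent.H15

/-- stabiliser of a point, in a subgroup -/
theorem alt_case {n : ℕ} (hn : 5 ≤ n) (k : ℕ) (hk : 2 ≤ k) (hnk : n = 2 ^ k + 1)
    (R : Sylow 2 (alternatingGroup (Fin n))) :
    ∃! M : Subgroup (alternatingGroup (Fin n)), IsCoatom M ∧
      (R : Subgroup (alternatingGroup (Fin n))) ≤ M := by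
  obtain ⟨P, hP⟩ := exists_sylow_perm R
  have hcard : Fintype.card (Fin n) = 2 ^ k + 1 := by rw [Fintype.card_fin, hnk]
  have h2k : 2 ∣ 2 ^ k := dvd_pow_self 2 (by omega)
  obtain ⟨e, he⟩ := exists_fixed_of_odd P (by rw [hcard]; exact (even_iff_two_dvd.mpr h2k).add_one)
  let N : Subgroup (alternatingGroup (Fin n)) :=
    (stabilizer (Perm (Fin n)) e).subgroupOf (alternatingGroup (Fin n))
  have hNmem : ∀ g : alternatingGroup (Fin n), g ∈ N ↔ g.1 e = e := fun g => Iff.rfl
  have hRN : (R : Subgroup (alternatingGroup (Fin n))) ≤ N := by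
    intro g hg
    rw [hNmem]
    exact he _ ((hP g).mp hg)
  have hmain : ∀ K : Subgroup (alternatingGroup (Fin n)),
      (R : Subgroup (alternatingGroup (Fin n))) ≤ K → K ≠ ⊤ → K ≤ N := by
    intro K hRK hKtop
    by_contra hcon
    obtain ⟨g, hg, hge⟩ : ∃ g ∈ K, g.1 e ≠ e := by
      by_contra h
      push Not at h
      exact hcon (fun g hg => (hNmem g).mpr (h g hg))
    apply hKtop
    set K2 := K.map (alternatingGroup (Fin n)).subtype with hK2
    have hPK : ∀ p ∈ P, p ∈ alternatingGroup (Fin n) → p ∈ K2 := by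
      intro p hp hpA
      exact ⟨⟨p, hpA⟩, hRK ((hP ⟨p, hpA⟩).mpr hp), rfl⟩
    have hKe : ∃ g ∈ K2, g e ≠ e := ⟨g.1, ⟨g, hg, rfl⟩, hge⟩
    have hprim := primitive_of_card P k hk hcard e he K2 hPK hKe
    have h3c : ∃ g ∈ K2, g.IsThreeCycle := by
      by_cases h5 : n = 5
      · subst h5
        have hne : K ≠ R := by
          rintro rfl
          exact hge (he _ ((hP g).mp hg))
        obtain ⟨c, hc, hc3⟩ := exists_threeCycle_alt5 R K hRK hne
        exact ⟨c.1, ⟨c, hc, rfl⟩, hc3⟩
      · have h9 : 9 ≤ Fintype.card (Fin n) := by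
          rw [hcard]
          have hk3 : 3 ≤ k := by
            by_contra h
            have : k = 2 := by omega
            subst this
            apply h5; rw [hnk]; norm_num
          have : 2 ^ 3 ≤ 2 ^ k := Nat.pow_le_pow_right (by norm_num) hk3
          omega
        exact exists_threeCycle_of_card P h9 e he K2 hPK hKe
    obtain ⟨c, hc, hc3⟩ := h3c
    have hle := Equiv.Perm.alternatingGroup_le_of_isPreprimitive_of_isThreeCycle_mem hprim hc3 hc
    rw [eq_top_iff]
    intro x _
    obtain ⟨y, hy, hyx⟩ := hle x.2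
    have : y = x := Subtype.ext hyx
    rwa [← this]
  refine existsUnique_coatom _ N hRN ?_ hmain
  -- N ≠ ⊤
  intro hN
  obtain ⟨a, ha⟩ := exists_notMem_of_card_lt (s := ({e} : Finset (Fin n))) (by
    rw [Finset.card_singleton, Fintype.card_fin]; omega)
  obtain ⟨b, hb⟩ := exists_notMem_of_card_lt (s := ({e, a} : Finset (Fin n))) (by
    refine lt_of_le_of_lt Finset.card_le_two ?_
    rw [Fintype.card_fin]; omega)
  simp only [Finset.mem_insert, Finset.mem_singleton, not_or] at ha hb
  have h3 : swap e a * swap e b ∈ alternatingGroup (Fin n) := by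
    rw [Equiv.Perm.mem_alternatingGroup, map_mul, Perm.sign_swap (Ne.symm ha),
      Perm.sign_swap (Ne.symm hb.1)]; rfl
  have h4 : (⟨_, h3⟩ : alternatingGroup (Fin n)) ∈ N := by rw [hN]; trivial
  rw [hNmem] at h4
  have h5 : (swap e a * swap e b) e = b := by
    rw [Perm.mul_apply, swap_apply_left, swap_apply_of_ne_of_ne hb.1 hb.2]
  rw [h5] at h4
  exact hb.1 h4

theorem perm_case {n : ℕ} (hn : 5 ≤ n) (k : ℕ) (hk : 2 ≤ k) (hnk : n = 2 ^ k + 1)
    (P : Sylow 2 (Perm (Fin n))) :
    ∃! M : Subgroup (Perm (Fin n)), IsCoatom M ∧ (P : Subgroup (Perm (Fin n))) ≤ M := by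
  have hcard : Fintype.card (Fin n) = 2 ^ k + 1 := by rw [Fintype.card_fin, hnk]
  have h2k : 2 ∣ 2 ^ k := dvd_pow_self 2 (by omega)
  obtain ⟨e, he⟩ := exists_fixed_of_odd P (by rw [hcard]; exact (even_iff_two_dvd.mpr h2k).add_one)
  have hpe : partner P e = e := (partner_eq_iff P e).mpr he
  obtain ⟨a, ha⟩ := exists_notMem_of_card_lt (s := ({e} : Finset (Fin n))) (by
    rw [Finset.card_singleton, Fintype.card_fin]; omega)
  simp only [Finset.mem_singleton] at ha
  have hpa : partner P a ≠ a := fun h => ha (partner_fixed_unique P a e h hpe)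
  refine existsUnique_coatom _ (stabilizer (Perm (Fin n)) e) (fun g hg => he g hg) ?_ ?_
  · intro hN
    have : swap e a ∈ stabilizer (Perm (Fin n)) e := by rw [hN]; trivial
    have h2 : swap e a e = e := this
    rw [swap_apply_left] at h2
    exact ha h2
  · intro K hPK hKtop
    by_contra hcon
    obtain ⟨g, hg, hge⟩ : ∃ g ∈ K, g e ≠ e := by
      by_contra h
      push Not at h
      exact hcon (fun g hg => h g hg)
    apply hKtop
    have hprim := primitive_of_card P k hk hcard e he K (fun p hp _ => hPK hp) ⟨g, hg, hge⟩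
    exact Equiv.Perm.subgroup_eq_top_of_isPreprimitive_of_isSwap_mem hprim _
      ⟨a, partner P a, hpa.symm, rfl⟩ (hPK (partner_mem P a))

/-- For n ≥ 5 with n ≠ 6, a Sylow 2-subgroup of the alternating group A_n lies in exactly one maximal subgroup of A_n if and only if n = 2^k + 1 for some k ≥ 2; the same holds for the symmetric group S_n. -/
theorem result (n : ℕ) (hn : 5 ≤ n) (h6 : n ≠ 6) :
    ((∀ R : Sylow 2 ↥(alternatingGroup (Fin n)), (∃! M : Subgroup ↥(alternatingGroup (Fin n)), IsCoatom M ∧ (R : Subgroup ↥(alternatingGroup (Fin n))) ≤ M) ↔ ∃ k : ℕ, 2 ≤ k ∧ n = 2 ^ k + 1) ∧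
    (∀ R : Sylow 2 (Equiv.Perm (Fin n)), (∃! M : Subgroup (Equiv.Perm (Fin n)), IsCoatom M ∧ (R : Subgroup (Equiv.Perm (Fin n))) ≤ M) ↔ ∃ k : ℕ, 2 ≤ k ∧ n = 2 ^ k + 1)) := by
  constructor
  · intro R
    constructor
    · intro h
      by_contra hne
      obtain ⟨P, hP⟩ := exists_sylow_perm R
      obtain ⟨A, B, hA, hB, hA', hB', hAB⟩ := exists_two_overgroups P (by rwa [Fintype.card_fin])
        (by rwa [Fintype.card_fin])
      have hprop : ∀ C : Subgroup (Perm (Fin n)), (P : Subgroup (Perm (Fin n))) ≤ C → C ≠ ⊤ →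
          C.subgroupOf (alternatingGroup (Fin n)) ≠ ⊤ := by
        intro C hPC hC h
        apply hC
        rw [Subgroup.subgroupOf_eq_top] at h
        -- a swap
        have hex : ∃ a, partner P a ≠ a := by
          by_contra hcon
          push Not at hcon
          have : Fintype.card (Fin n) ≤ 1 := Fintype.card_le_one_iff.mpr
            (fun a b => partner_fixed_unique P a b (hcon a) (hcon b))
          rw [Fintype.card_fin] at this
          omega
        obtain ⟨a, ha⟩ := hex
        rw [eq_top_iff]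
        intro x _
        rcases Int.units_eq_one_or (Perm.sign x) with h1 | h1
        · exact h (Equiv.Perm.mem_alternatingGroup.mpr h1)
        · have h2 : x * swap a (partner P a) ∈ alternatingGroup (Fin n) := by
            rw [Equiv.Perm.mem_alternatingGroup, map_mul, h1, Perm.sign_swap ha.symm]; rfl
          have h3 := C.mul_mem (h h2) (hPC (partner_mem P a))
          rwa [mul_assoc, swap_mul_self, mul_one] at h3
      refine not_existsUnique_coatom (R : Subgroup (alternatingGroup (Fin n)))
        (A.subgroupOf (alternatingGroup (Fin n))) (B.subgroupOf (alternatingGroup (Fin n)))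
        (fun g hg => hA ((hP g).mp hg)) (fun g hg => hB ((hP g).mp hg)) (hprop A hA hA')
        (hprop B hB hB') ?_ h
      exact alt_sup_eq_top P A B (by rw [Fintype.card_fin]; omega) hA hB hAB
    · rintro ⟨k, hk, hnk⟩
      exact alt_case hn k hk hnk R
  · intro P
    constructor
    · intro h
      by_contra hne
      obtain ⟨A, B, hA, hB, hA', hB', hAB⟩ := exists_two_overgroups P (by rwa [Fintype.card_fin])
        (by rwa [Fintype.card_fin])
      exact not_existsUnique_coatom (P : Subgroup (Perm (Fin n))) A B hA hB hA' hB' hAB h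
    · rintro ⟨k, hk, hnk⟩
      exact perm_case hn k hk hnk P

end Cfsg.Agent.S2245
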