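import Cfsg.Statements.S2250
import Cfsg.Agent.H20.SpRk2

set_option autoImplicit false
open Cfsg


namespace Cfsg.Agent.S2250


/-- The normal 2-rank of the symplectic group over a finite field of odd order: for n ≥ 1 and S a Sylow 2-subgroup of Sp_{2n}(F), the largest rank of an elementary abelian subgroup of S that is normal in S equals n. -/
theorem result {F : Type*} [Field F] [Fintype F] (hF : Odd (Fintype.card F)) (n : ℕ) (hn : 1 ≤ n) (S : Sylow 2 ↥(Matrix.symplecticGroup (Fin n) F)) :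
    ((∃ E : Subgroup ↥(S : Subgroup ↥(Matrix.symplecticGroup (Fin n) F)), E.Normal ∧ Cfsg.IsElementaryAbelian 2 E ∧ 2 ^ (n) ≤ Nat.card ↥E) ∧
      ∀ E : Subgroup ↥(S : Subgroup ↥(Matrix.symplecticGroup (Fin n) F)), E.Normal → Cfsg.IsElementaryAbelian 2 E → Nat.card ↥E ≤ 2 ^ (n)) := by
  classical
  haveI : Fact (Nat.Prime 2) := ⟨Nat.prime_two⟩
  haveI : Finite (Matrix.symplecticGroup (Fin n) F) := by
    haveI : Finite (Matrix (Fin n ⊕ Fin n) (Fin n ⊕ Fin n) F) := inferInstance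
    exact Subtype.finite
  constructor
  · obtain ⟨T, E, hT, hET, hn', hcomm, hsq, hcard⟩ := Cfsg.Agent.H20.SpRk.exists_T hF n
    let S0 : Sylow 2 (Matrix.symplecticGroup (Fin n) F) := Sylow.ofCard T hT
    obtain ⟨g, hg⟩ := MulAction.exists_smul_eq (Matrix.symplecticGroup (Fin n) F) S0 S
    have h1 : (S : Subgroup (Matrix.symplecticGroup (Fin n) F)) = T.map (MulAut.conj g).toMonoidHom := by
      rw [← hg]
      rfl
    have hE1 : E.map (MulAut.conj g).toMonoidHom ≤ (S : Subgroup (Matrix.symplecticGroup (Fin n) F)) := by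
      rw [h1]
      exact Subgroup.map_mono hET
    refine ⟨(E.map (MulAut.conj g).toMonoidHom).subgroupOf S, ⟨?_⟩, ⟨⟨⟨?_⟩⟩, ?_⟩, ?_⟩
    · rintro ⟨e, heS⟩ he ⟨s, hs⟩
      rw [Subgroup.mem_subgroupOf] at he ⊢
      rw [h1] at hs
      obtain ⟨t, ht, rfl⟩ := hs
      obtain ⟨e0, he0, he0'⟩ := he
      have he0'' : e = g * e0 * g⁻¹ := he0'.symm
      refine ⟨t * e0 * t⁻¹, hn' t ht e0 he0, ?_⟩
      show g * (t * e0 * t⁻¹) * g⁻¹ = (g * t * g⁻¹) * e * (g * t * g⁻¹)⁻¹
      rw [he0'']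
      group
    · rintro ⟨⟨a, haS⟩, ha⟩ ⟨⟨b, hbS⟩, hb⟩
      rw [Subgroup.mem_subgroupOf] at ha hb
      obtain ⟨a0, ha0, ha0'⟩ := ha
      obtain ⟨b0, hb0, hb0'⟩ := hb
      have ha1 : a = g * a0 * g⁻¹ := ha0'.symm
      have hb1 : b = g * b0 * g⁻¹ := hb0'.symm
      apply Subtype.ext
      apply Subtype.ext
      show a * b = b * a
      rw [ha1, hb1]
      have := hcomm a0 ha0 b0 hb0
      calc g * a0 * g⁻¹ * (g * b0 * g⁻¹) = g * (a0 * b0) * g⁻¹ := by group
        _ = g * (b0 * a0) * g⁻¹ := by rw [this]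
        _ = g * b0 * g⁻¹ * (g * a0 * g⁻¹) := by group
    · rintro ⟨a, haS⟩ ha
      rw [Subgroup.mem_subgroupOf] at ha
      obtain ⟨a0, ha0, ha0'⟩ := ha
      have ha1 : a = g * a0 * g⁻¹ := ha0'.symm
      apply Subtype.ext
      show a ^ 2 = 1
      rw [ha1, sq]
      calc g * a0 * g⁻¹ * (g * a0 * g⁻¹) = g * (a0 * a0) * g⁻¹ := by group
        _ = 1 := by rw [hsq a0 ha0]; simp
    · refine hcard.trans (le_of_eq ?_)
      rw [Nat.card_congr (Subgroup.subgroupOfEquivOfLe hE1).toEquiv]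
      exact (Subgroup.card_map_of_injective (MulAut.conj g).injective).symm
  · intro E _ hE
    obtain ⟨hcm, he⟩ := hE
    refine Cfsg.Agent.H20.SpRk.card_le (Cfsg.Agent.H20.SpRk.two_ne hF) (A := E) (fun a => a.1.1.1) ?_ ?_ ?_ ?_
    · intro a b hab
      exact Subtype.ext (Subtype.ext (Subtype.ext hab))
    · intro a
      exact a.1.1.2
    · intro a b
      have := hcm.is_comm.comm a b
      exact congrArg (fun t : E => t.1.1.1) this
    · intro a
      have := he a.1 a.2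
      rw [sq] at this
      exact congrArg (fun t : ↥(S : Subgroup (Matrix.symplecticGroup (Fin n) F)) => t.1.1) this


end Cfsg.Agent.S2250
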