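import Cfsg.Statements.S2254
import Mathlib
import Cfsg.Agent.H5.NilPerm6

set_option autoImplicit false
open Cfsg

namespace Cfsg.Agent.S2254

/-- Let n ≡ 3 (mod 4). Then every nilpotent subgroup of the symmetric group on n letters has order at most 3 times the order of a Sylow 2-subgroup of the symmetric group on n − 3 letters; the bound is attained by a nilpotent subgroup isomorphic to the direct product of such a Sylow 2-subgroup with a cyclic group of order 3; and any two nilpotent subgroups attaining the bound are conjugate. -/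
theorem result  (n : ℕ) (hn : n % 4 = 3)
    (P : Sylow 2 (Equiv.Perm (Fin (n - 3)))) :
    (∀ N : Subgroup (Equiv.Perm (Fin n)), Group.IsNilpotent N → Nat.card N ≤ 3 * Nat.card P) ∧
    (∃ M : Subgroup (Equiv.Perm (Fin n)), Group.IsNilpotent M ∧ Nat.card M = 3 * Nat.card P ∧
      Nonempty (M ≃* (↥(P : Subgroup (Equiv.Perm (Fin (n - 3)))) × Multiplicative (ZMod 3)))) ∧
    (∀ N₁ N₂ : Subgroup (Equiv.Perm (Fin n)), Group.IsNilpotent N₁ → Group.IsNilpotent N₂ →
      Nat.card N₁ = 3 * Nat.card P → Nat.card N₂ = 3 * Nat.card P →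
      ∃ g : Equiv.Perm (Fin n), N₂ = N₁.map (MulAut.conj g).toMonoidHom) := by
  refine ⟨?_, ?_, ?_⟩
  · intro N hN
    rw [Cfsg.Agent.H5.card_sylow_perm]
    have h := Cfsg.Agent.H5.nil_bound n (Fin n) N (by simp) hN
    rwa [Cfsg.Agent.H5.gn, if_pos hn] at h
  · obtain ⟨ψ, hψ, -⟩ := Cfsg.Agent.H5.exists_psi (show n = (n - 3) + 3 by omega) (P : Subgroup (Equiv.Perm (Fin (n - 3)))).subtype Subtype.val_injective
    haveI : Fact (Nat.Prime 2) := ⟨Nat.prime_two⟩
    haveI : Group.IsNilpotent (P : Subgroup (Equiv.Perm (Fin (n - 3)))) := P.isPGroup'.isNilpotent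
    refine ⟨ψ.range, Cfsg.Agent.H5.nilp_range ψ inferInstance, ?_, ⟨(MonoidHom.ofInjective hψ).symm⟩⟩
    rw [← Nat.card_congr (MonoidHom.ofInjective hψ).toEquiv, Nat.card_prod]
    simp [mul_comm]
  · intro N₁ N₂ h₁ h₂ hc₁ hc₂
    rw [Cfsg.Agent.H5.card_sylow_perm] at hc₁ hc₂
    exact Cfsg.Agent.H5.ext_conj hn N₁ N₂ h₁ h₂ hc₁ hc₂

end Cfsg.Agent.S2254
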