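import Cfsg.Statements.S2255
import Mathlib
import Cfsg.Agent.H5.NilPerm8

set_option autoImplicit false
open Cfsg

namespace Cfsg.Agent.S2255

/-- Let n be a natural number not congruent to 3 modulo 4, with n ∉ {5, 6, 9}. Then every nilpotent subgroup of the alternating group on n letters has order at most the order of a Sylow 2-subgroup of the alternating group (so the nilpotent subgroups of largest order are exactly the Sylow 2-subgroups). -/
theorem result  (n : ℕ) (hn : n % 4 ≠ 3)
    (h5 : n ≠ 5) (h6 : n ≠ 6) (h9 : n ≠ 9)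
    (N : Subgroup (alternatingGroup (Fin n))) (hN : Group.IsNilpotent N)
    (P : Sylow 2 (alternatingGroup (Fin n))) :
    Nat.card N ≤ Nat.card P := by
  rcases Nat.lt_or_ge n 2 with h | h
  · haveI : Subsingleton (Fin n) := by
      have : n = 0 ∨ n = 1 := by omega
      rcases this with rfl | rfl <;> infer_instance
    have h1 : Nat.card N = 1 := Nat.card_unique
    rw [h1]; exact Nat.card_pos
  · have h1 := Cfsg.Agent.H5.card_sylow_alt n h P
    have h2 := Cfsg.Agent.H5.alt_bound (B := 2 ^ Cfsg.Agent.H5.sv n) N hN
      (fun G hG ho => Cfsg.Agent.H5.odd_alt1 hn h h5 h6 h9 G hG ho) (by rw [Cfsg.Agent.H5.gn, if_neg hn])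
    omega

end Cfsg.Agent.S2255
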