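import Cfsg.Statements.S2256
import Mathlib
import Cfsg.Agent.H5.NilPerm8

set_option autoImplicit false
open Cfsg

namespace Cfsg.Agent.S2256

/-- Let n ≡ 3 (mod 4) with n ≥ 7. Then every nilpotent subgroup of the alternating group on n letters has order at most 3 times the order of a Sylow 2-subgroup of the alternating group on n − 3 letters; the bound is attained by a nilpotent subgroup isomorphic to the direct product of such a Sylow 2-subgroup with a cyclic group of order 3; and any two nilpotent subgroups of the alternating group attaining the bound are conjugate in it. -/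
theorem result  (n : ℕ) (hn : n % 4 = 3) (h7 : 7 ≤ n)
    (P : Sylow 2 (alternatingGroup (Fin (n - 3)))) :
    (∀ N : Subgroup (alternatingGroup (Fin n)), Group.IsNilpotent N → Nat.card N ≤ 3 * Nat.card P) ∧
    (∃ M : Subgroup (alternatingGroup (Fin n)), Group.IsNilpotent M ∧ Nat.card M = 3 * Nat.card P ∧
      Nonempty (M ≃* (↥(P : Subgroup (alternatingGroup (Fin (n - 3)))) × Multiplicative (ZMod 3)))) ∧
    (∀ N₁ N₂ : Subgroup (alternatingGroup (Fin n)), Group.IsNilpotent N₁ → Group.IsNilpotent N₂ →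
      Nat.card N₁ = 3 * Nat.card P → Nat.card N₂ = 3 * Nat.card P →
      ∃ g : alternatingGroup (Fin n), N₂ = N₁.map (MulAut.conj g).toMonoidHom) := by
  have h1 := Cfsg.Agent.H5.card_sylow_alt (n - 3) (by omega) P
  refine ⟨?_, ?_, ?_⟩
  · intro N hN
    have h2 := Cfsg.Agent.H5.alt_bound (B := 3 * 2 ^ Cfsg.Agent.H5.sv (n - 3)) N hN
      (fun G hG ho => Cfsg.Agent.H5.odd_alt2 hn h7 G hG ho) (by rw [Cfsg.Agent.H5.gn, if_pos hn])
    omega
  · obtain ⟨ψ, hψ, hψs⟩ := Cfsg.Agent.H5.exists_psi (show n = (n - 3) + 3 by omega)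
      ((alternatingGroup (Fin (n - 3))).subtype.comp (P : Subgroup (alternatingGroup (Fin (n - 3)))).subtype)
      (Subtype.val_injective.comp Subtype.val_injective)
    haveI : Fact (Nat.Prime 2) := ⟨Nat.prime_two⟩
    haveI : Group.IsNilpotent (P : Subgroup (alternatingGroup (Fin (n - 3)))) := P.isPGroup'.isNilpotent
    let ψ' := ψ.codRestrict (alternatingGroup (Fin n)) (fun x => by
      rw [Equiv.Perm.mem_alternatingGroup, hψs]
      exact Equiv.Perm.mem_alternatingGroup.mp x.1.1.2)
    have hψ' : Function.Injective ψ' := fun a b hab => hψ (congrArg Subtype.val hab)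
    refine ⟨ψ'.range, Cfsg.Agent.H5.nilp_range ψ' inferInstance, ?_, ⟨(MonoidHom.ofInjective hψ').symm⟩⟩
    rw [← Nat.card_congr (MonoidHom.ofInjective hψ').toEquiv, Nat.card_prod]
    simp [mul_comm]
  · intro N₁ N₂ hN₁ hN₂ hc₁ hc₂
    have hev : ¬ Odd (Nat.card P) := by
      have h2 : 3 ≤ Cfsg.Agent.H5.sv (n - 3) := by
        have := Cfsg.Agent.H5.sv_mono (show 4 ≤ n - 3 by omega)
        rw [Cfsg.Agent.H5.sv4] at this
        exact this
      have h3 : 2 * Nat.card P = 2 * (2 * 2 ^ (Cfsg.Agent.H5.sv (n - 3) - 2)) := by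
        rw [h1, ← pow_succ', ← pow_succ']; congr 1; omega
      have h4 : Nat.card P = 2 * 2 ^ (Cfsg.Agent.H5.sv (n - 3) - 2) := by omega
      rw [h4, Nat.not_odd_iff_even]
      exact even_two_mul _
    refine Cfsg.Agent.H5.s2256_conj' hn N₁ N₂ hN₁ hN₂ (by rw [hc₁]; omega) (by rw [hc₂]; omega) ?_ ?_
    · rw [hc₁]; intro h; exact hev (Nat.odd_mul.mp h).2
    · rw [hc₂]; intro h; exact hev (Nat.odd_mul.mp h).2

end Cfsg.Agent.S2256
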