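import Cfsg.Statements.S2268
import Mathlib

set_option autoImplicit false
open Cfsg

namespace Cfsg.Agent.S2268



/-- Let G be a finite group with an abelian Sylow p-subgroup P and let Q ≤ P. Then N_G(Q) = (N_G(Q) ∩ N_G(P))·C_G(Q), so that N_G(Q)/C_G(Q) is a homomorphic image of the subgroup (N_G(Q) ∩ N_G(P))/C_G(P) of N_G(P)/C_G(P); in particular the order of N_G(Q)/C_G(Q) divides the order of N_G(P)/C_G(P). -/
theorem result {G : Type*} [Group G] [Finite G] {p : ℕ} [Fact p.Prime]
    (P : Sylow p G) (hP : IsMulCommutative (P : Subgroup G)) (Q : Subgroup G) (hQ : Q ≤ (P : Subgroup G)) :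
    Subgroup.normalizer (Q : Set G) =
      (Subgroup.normalizer (Q : Set G) ⊓ Subgroup.normalizer ((P : Subgroup G) : Set G)) ⊔ Subgroup.centralizer (Q : Set G) ∧
    ((Subgroup.centralizer (Q : Set G)).subgroupOf (Subgroup.normalizer (Q : Set G))).index ∣ ((Subgroup.centralizer ((P : Subgroup G) : Set G)).subgroupOf (Subgroup.normalizer ((P : Subgroup G) : Set G))).index := by
  have hcomm : ∀ a ∈ (P : Subgroup G), ∀ b ∈ (P : Subgroup G), a * b = b * a := by
    intro a ha b hb
    have := hP.is_comm.comm (⟨a, ha⟩ : (P : Subgroup G)) ⟨b, hb⟩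
    exact congrArg Subtype.val this
  have hPC : (P : Subgroup G) ≤ Subgroup.centralizer (Q : Set G) := by
    intro a ha
    rw [Subgroup.mem_centralizer_iff]
    intro b hb
    exact (hcomm a ha b (hQ hb)).symm
  have hCN : Subgroup.centralizer (Q : Set G) ≤ Subgroup.normalizer (Q : Set G) := by
    intro a ha
    rw [Subgroup.mem_normalizer_iff]
    intro h
    rw [Subgroup.mem_centralizer_iff] at ha
    constructor
    · intro hh
      rw [← ha h hh, mul_inv_cancel_right]; exact hh
    · intro hh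
      have h1 := ha _ hh
      have h2 : h = a * h * a⁻¹ := by
        have h3 : a * h * a⁻¹ * a = a * (a * h * a⁻¹) := h1
        rw [inv_mul_cancel_right] at h3
        have h4 := mul_left_cancel h3
        exact h4
      rw [h2]; exact hh
  have hPC2 : Subgroup.centralizer ((P : Subgroup G) : Set G) ≤ Subgroup.centralizer (Q : Set G) :=
    Subgroup.centralizer_le hQ
  have hCP : Subgroup.centralizer ((P : Subgroup G) : Set G) ≤
      Subgroup.normalizer ((P : Subgroup G) : Set G) := by
    intro a ha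
    rw [Subgroup.mem_normalizer_iff]
    intro h
    rw [Subgroup.mem_centralizer_iff] at ha
    constructor
    · intro hh
      rw [← ha h hh, mul_inv_cancel_right]; exact hh
    · intro hh
      have h1 := ha _ hh
      have h2 : h = a * h * a⁻¹ := by
        have h3 : a * h * a⁻¹ * a = a * (a * h * a⁻¹) := h1
        rw [inv_mul_cancel_right] at h3
        exact mul_left_cancel h3
      rw [h2]; exact hh
  have hfrat : ∀ g ∈ Subgroup.normalizer (Q : Set G), ∃ c ∈ Subgroup.centralizer (Q : Set G),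
      c * g ∈ Subgroup.normalizer ((P : Subgroup G) : Set G) := by
    intro g hg
    -- g P g⁻¹ ≤ C(Q)
    let C := Subgroup.centralizer (Q : Set G)
    have hgP : ((g • P : Sylow p G) : Subgroup G) ≤ C := by
      intro x hx
      rw [Sylow.coe_subgroup_smul, Subgroup.mem_pointwise_smul_iff_inv_smul_mem] at hx
      have hx' : g⁻¹ * x * g ∈ (P : Subgroup G) := by
        simpa [MulAut.smul_def] using hx
      have h1 := hPC hx'
      rw [Subgroup.mem_centralizer_iff] at h1 ⊢
      intro q hq
      have hq' : g⁻¹ * q * g ∈ Q := by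
        have := (Subgroup.mem_normalizer_iff.mp (inv_mem hg) q).mp hq
        simpa using this
      have h2 := h1 _ hq'
      have h3 : g⁻¹ * (q * x) * g = g⁻¹ * (x * q) * g := by
        calc g⁻¹ * (q * x) * g = (g⁻¹ * q * g) * (g⁻¹ * x * g) := by group
          _ = (g⁻¹ * x * g) * (g⁻¹ * q * g) := h2
          _ = _ := by group
      exact mul_left_cancel (mul_right_cancel h3)
    obtain ⟨c, hc⟩ := MulAction.exists_smul_eq C ((g • P).subtype hgP) (P.subtype hPC)
    refine ⟨c.1, c.2, ?_⟩
    refine Sylow.smul_eq_iff_mem_normalizer.mp ?_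
    rw [mul_smul]
    rw [Sylow.smul_subtype] at hc
    exact Sylow.subtype_injective hc
  have hsup : Subgroup.normalizer (Q : Set G) =
      (Subgroup.normalizer (Q : Set G) ⊓ Subgroup.normalizer ((P : Subgroup G) : Set G)) ⊔
        Subgroup.centralizer (Q : Set G) := by
    apply le_antisymm
    · intro g hg
      obtain ⟨c, hc, hcg⟩ := hfrat g hg
      have h1 : g = c⁻¹ * (c * g) := by group
      rw [h1]
      refine mul_mem (Subgroup.mem_sup_right (inv_mem hc)) (Subgroup.mem_sup_left ⟨?_, hcg⟩)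
      exact mul_mem (hCN hc) hg
    · exact sup_le inf_le_left hCN
  refine ⟨hsup, ?_⟩
  let X := Subgroup.normalizer (Q : Set G) ⊓ Subgroup.normalizer ((P : Subgroup G) : Set G)
  let NQ := Subgroup.normalizer (Q : Set G)
  let K := (Subgroup.centralizer (Q : Set G)).subgroupOf NQ
  have hKn : K.Normal := by
    constructor
    rintro ⟨c, hcN⟩ hc ⟨g, hg⟩
    rw [Subgroup.mem_subgroupOf] at hc ⊢
    show g * c * g⁻¹ ∈ _
    have hc' : c ∈ Subgroup.centralizer (Q : Set G) := hc
    rw [Subgroup.mem_centralizer_iff] at hc' ⊢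
    intro q hq
    have hq' : g⁻¹ * q * g ∈ Q := by
      have := (Subgroup.mem_normalizer_iff.mp (inv_mem hg) q).mp hq
      simpa using this
    have h2 := hc' _ hq'
    calc q * (g * c * g⁻¹) = g * ((g⁻¹ * q * g) * c) * g⁻¹ := by group
      _ = g * (c * (g⁻¹ * q * g)) * g⁻¹ := by rw [h2]
      _ = _ := by group
  let f : X →* NQ ⧸ K := (QuotientGroup.mk' K).comp (Subgroup.inclusion inf_le_left)
  have hf : Function.Surjective f := by
    intro y
    obtain ⟨⟨g, hg⟩, rfl⟩ := QuotientGroup.mk_surjective y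
    obtain ⟨c, hc, hcg⟩ := hfrat g hg
    refine ⟨⟨c * g, mul_mem (hCN hc) hg, hcg⟩, ?_⟩
    show (QuotientGroup.mk (⟨c * g, _⟩ : NQ) : NQ ⧸ K) = QuotientGroup.mk ⟨g, hg⟩
    have h1 : (QuotientGroup.mk (⟨c, hCN hc⟩ : NQ) : NQ ⧸ K) = 1 :=
      (QuotientGroup.eq_one_iff _).mpr hc
    have h2 : (⟨c * g, mul_mem (hCN hc) hg⟩ : NQ) = ⟨c, hCN hc⟩ * ⟨g, hg⟩ := rfl
    rw [h2, QuotientGroup.mk_mul, h1, one_mul]
  have hker : f.ker = (Subgroup.centralizer (Q : Set G)).subgroupOf X := by
    ext x
    rw [MonoidHom.mem_ker]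
    show (QuotientGroup.mk (⟨x.1, _⟩ : NQ) : NQ ⧸ K) = 1 ↔ _
    rw [QuotientGroup.eq_one_iff]
    rfl
  have h1 : K.index = (Subgroup.centralizer (Q : Set G)).relIndex X := by
    have h2 := Subgroup.index_ker f
    rw [hker, MonoidHom.range_eq_top.mpr hf, Nat.card_congr Subgroup.topEquiv.toEquiv] at h2
    exact h2.symm
  show K.index ∣ (Subgroup.centralizer ((P : Subgroup G) : Set G)).relIndex
    (Subgroup.normalizer ((P : Subgroup G) : Set G))
  rw [h1]
  refine (Subgroup.relIndex_dvd_of_le_left X hPC2).trans ?_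
  have h3 : Subgroup.centralizer ((P : Subgroup G) : Set G) ≤ X := le_inf (hPC2.trans hCN) hCP
  rw [← Subgroup.relIndex_mul_relIndex _ X _ h3 inf_le_right]
  exact Dvd.intro _ rfl

end Cfsg.Agent.S2268
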