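import Cfsg.Statements.S2269
import Mathlib
import Cfsg.Agent.H5.AltSyl2

set_option autoImplicit false
open Cfsg

namespace Cfsg.Agent.S2269

/-- Let n ≥ 5 and let P be an abelian Sylow p-subgroup of the alternating group A_n. Then N(P)/C(P) (taken in A_n) has even order, or P is cyclic, except when n = 5 and p = 2, where P is a four-group and N(P)/C(P) has order 3. -/
theorem result (n : ℕ) (hn : 5 ≤ n) {p : ℕ} [Fact p.Prime]
    (P : Sylow p (alternatingGroup (Fin n))) (hP : IsMulCommutative (P : Subgroup (alternatingGroup (Fin n)))) :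
    (¬ (n = 5 ∧ p = 2) → 2 ∣ ((Subgroup.centralizer ((P : Subgroup (alternatingGroup (Fin n))) : Set (alternatingGroup (Fin n)))).subgroupOf (Subgroup.normalizer ((P : Subgroup (alternatingGroup (Fin n))) : Set (alternatingGroup (Fin n))))).index ∨ IsCyclic (P : Subgroup (alternatingGroup (Fin n)))) ∧
    ((n = 5 ∧ p = 2) → ((Subgroup.centralizer ((P : Subgroup (alternatingGroup (Fin n))) : Set (alternatingGroup (Fin n)))).subgroupOf (Subgroup.normalizer ((P : Subgroup (alternatingGroup (Fin n))) : Set (alternatingGroup (Fin n))))).index = 3 ∧ IsKleinFour (P : Subgroup (alternatingGroup (Fin n)))) := by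
  refine ⟨fun h => ?_, fun h => ?_⟩
  · by_cases hc : IsCyclic (P : Subgroup (alternatingGroup (Fin n)))
    · exact Or.inr hc
    · left
      by_cases hp2 : p = 2
      · subst hp2
        exact absurd (Cfsg.Agent.H5.s2269_two n (by omega) P hP) id
      · exact Cfsg.Agent.H5.s2269_odd n hp2 P hP hc
  · obtain ⟨rfl, rfl⟩ := h
    exact Cfsg.Agent.H5.s2269_five P hP

end Cfsg.Agent.S2269
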