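import Cfsg.Statements.S2270
-- import your own Cfsg.Agent.* helpers here

set_option autoImplicit false
open Cfsg

namespace Cfsg.Agent.S2270

/-- Let n ≥ 3, p an odd prime, and P an abelian Sylow p-subgroup of the symmetric group S_n (with p dividing n!, so that P ≠ 1). Then N(P)/C(P) has even order. -/
theorem result (n : ℕ) (hn : 3 ≤ n) {p : ℕ} [Fact p.Prime] (hp : p ≠ 2) (hpn : p ≤ n)
    (P : Sylow p (Equiv.Perm (Fin n))) (hP : IsMulCommutative (P : Subgroup (Equiv.Perm (Fin n)))) :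
    2 ∣ ((Subgroup.centralizer ((P : Subgroup (Equiv.Perm (Fin n))) : Set (Equiv.Perm (Fin n)))).subgroupOf (Subgroup.normalizer ((P : Subgroup (Equiv.Perm (Fin n))) : Set (Equiv.Perm (Fin n))))).index := by
  classical
  obtain ⟨x, hxP, hx1⟩ : ∃ x ∈ (P : Subgroup (Equiv.Perm (Fin n))), x ≠ 1 := by
    by_contra hcon
    push Not at hcon
    have hbot : (P : Subgroup (Equiv.Perm (Fin n))) = ⊥ := by
      rw [eq_bot_iff]; intro y hy; exact Subgroup.mem_bot.2 (hcon y hy)
    have hdvd : p ∣ Nat.card (Equiv.Perm (Fin n)) := by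
      rw [Nat.card_eq_fintype_card, Fintype.card_perm, Fintype.card_fin]
      exact (Nat.Prime.dvd_factorial Fact.out).2 hpn
    have := P.dvd_card_of_dvd_card hdvd
    rw [hbot] at this
    simp at this
    exact (Fact.out : p.Prime).one_lt.ne' this
  have hxinv : x⁻¹ ≠ x := by
    intro h
    have h2 : x ^ 2 = 1 := by rw [pow_two]; nth_rewrite 1 [← h]; simp
    obtain ⟨k, hk⟩ := (IsPGroup.iff_orderOf.1 P.isPGroup') (⟨x, hxP⟩ : (P : Subgroup (Equiv.Perm (Fin n))))
    have hk' : orderOf x = p ^ k := by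
      rw [← hk]; exact (Subgroup.orderOf_mk x hxP).symm
    have hd : orderOf x ∣ 2 := orderOf_dvd_of_pow_eq_one h2
    rw [hk'] at hd
    rcases (Nat.dvd_prime Nat.prime_two).1 hd with h1 | h1
    · rw [← hk', orderOf_eq_one_iff] at h1; exact hx1 h1
    · have hk0 : k ≠ 0 := by rintro rfl; simp at h1
      have : p ∣ 2 := h1 ▸ dvd_pow_self p hk0
      exact hp ((Nat.prime_dvd_prime_iff_eq Fact.out Nat.prime_two).1 this)
  obtain ⟨g, hg⟩ : ∃ g : Equiv.Perm (Fin n), g⁻¹ * x * g = x⁻¹ := by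
    have : IsConj x x⁻¹ := by
      rw [Equiv.Perm.isConj_iff_cycleType_eq, Equiv.Perm.cycleType_inv]
    obtain ⟨c, hc⟩ := isConj_iff.1 this
    exact ⟨c⁻¹, by simpa using hc⟩
  have hgP : g⁻¹ * x * g ∈ P := by rw [hg]; exact (P : Subgroup (Equiv.Perm (Fin n))).inv_mem hxP
  obtain ⟨m, hmN, hm⟩ := P.conj_eq_normalizer_conj_of_mem x g hxP hgP
  rw [hg] at hm
  -- m⁻¹ x m = x⁻¹
  set N := Subgroup.normalizer ((P : Subgroup (Equiv.Perm (Fin n))) : Set (Equiv.Perm (Fin n))) with hN
  set K := (Subgroup.centralizer ((P : Subgroup (Equiv.Perm (Fin n))) : Set (Equiv.Perm (Fin n)))).subgroupOf N with hK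
  by_contra hodd
  have hodd' : Odd K.index := by
    rcases Nat.even_or_odd K.index with h | h
    · exact absurd h.two_dvd hodd
    · exact h
  have : K.Normal := inferInstance
  have hmem := Subgroup.pow_index_mem K (⟨m, hmN⟩ : N)
  rw [hK, Subgroup.mem_subgroupOf, Subgroup.mem_centralizer_iff] at hmem
  have hcomm := hmem x hxP
  have hpow : ∀ k : ℕ, (m ^ k)⁻¹ * x * m ^ k = if Even k then x else x⁻¹ := by
    intro k
    induction k with
    | zero => simp
    | succ k ih =>
      have : (m ^ (k + 1))⁻¹ * x * m ^ (k + 1) = m⁻¹ * ((m ^ k)⁻¹ * x * m ^ k) * m := by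
        rw [pow_succ]; group
      rw [this, ih]
      by_cases hk : Even k
      · rw [if_pos hk, if_neg (by simpa [Nat.even_add_one] using hk), ← hm]
      · rw [if_neg hk, if_pos (by simpa [Nat.even_add_one] using hk)]
        have := congrArg (·⁻¹) hm
        simp only [mul_inv_rev, inv_inv] at this
        rw [← mul_assoc] at this
        exact this.symm
  have h1 := hpow K.index
  rw [if_neg (Nat.not_even_iff_odd.2 hodd')] at h1
  apply hxinv
  rw [← h1]
  have h2 : x * m ^ K.index = m ^ K.index * x := by rw [hK]; simpa using hcomm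
  rw [mul_assoc, h2]; simp

end Cfsg.Agent.S2270
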