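import Cfsg.Statements.S2286
import Cfsg.Agent.H1.PrF

set_option autoImplicit false
open Cfsg

namespace Cfsg.Agent.S2286

/-- For every finite field F, SL_2(F) and PSL_2(F) have presentations with 3 generators and at most 9 relations; when F has characteristic 2, PSL_2(F) has a presentation with 3 generators and at most 5 relations. -/
theorem result {F : Type*} [Field F] [Fintype F] :
    (∃ rels : Finset (FreeGroup (Fin 3)), rels.card ≤ 9 ∧ Nonempty (PresentedGroup (↑rels : Set (FreeGroup (Fin 3))) ≃* Matrix.SpecialLinearGroup (Fin 2) F)) ∧ (∃ rels : Finset (FreeGroup (Fin 3)), rels.card ≤ 9 ∧ Nonempty (PresentedGroup (↑rels : Set (FreeGroup (Fin 3))) ≃* Matrix.ProjectiveSpecialLinearGroup (Fin 2) F)) ∧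
    (CharP F 2 → ∃ rels : Finset (FreeGroup (Fin 3)), rels.card ≤ 5 ∧ Nonempty (PresentedGroup (↑rels : Set (FreeGroup (Fin 3))) ≃* Matrix.ProjectiveSpecialLinearGroup (Fin 2) F)) := by
  classical
  have key : CharP F 2 → ∃ rels : Finset (FreeGroup (Fin 3)), rels.card ≤ 5 ∧
      Nonempty (PresentedGroup (↑rels : Set (FreeGroup (Fin 3))) ≃* Matrix.SpecialLinearGroup (Fin 2) F) := by
    intro h2
    exact Cfsg.Agent.H1.Pres.sl_even' F
  have key2 : CharP F 2 → ∃ rels : Finset (FreeGroup (Fin 3)), rels.card ≤ 5 ∧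
      Nonempty (PresentedGroup (↑rels : Set (FreeGroup (Fin 3))) ≃* Matrix.ProjectiveSpecialLinearGroup (Fin 2) F) := by
    intro h2
    obtain ⟨rels, h1, ⟨e⟩⟩ := key h2
    obtain ⟨e'⟩ := Cfsg.Agent.H1.Pres.sl_equiv_psl F
    exact ⟨rels, h1, ⟨e.trans e'⟩⟩
  obtain ⟨p, hp⟩ := CharP.exists F
  haveI : Fact p.Prime := ⟨CharP.char_is_prime F p⟩
  letI : Algebra (ZMod p) F := ZMod.algebra F p
  by_cases h2 : p = 2
  · subst h2
    refine ⟨?_, ?_, key2⟩
    · obtain ⟨rels, h1, h3⟩ := key hp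
      exact ⟨rels, h1.trans (by norm_num), h3⟩
    · obtain ⟨rels, h1, h3⟩ := key2 hp
      exact ⟨rels, h1.trans (by norm_num), h3⟩
  · have h20 : (2 : F) ≠ 0 := by
      intro h
      have h3 : ((2 : ℕ) : F) = 0 := by exact_mod_cast h
      rw [CharP.cast_eq_zero_iff F p] at h3
      exact h2 ((Nat.prime_dvd_prime_iff_eq (Fact.out) Nat.prime_two).1 h3)
    refine ⟨Cfsg.Agent.H1.Pres.sl_odd (p := p) F h20, Cfsg.Agent.H1.Pres.psl_odd (p := p) F h20, key2⟩

end Cfsg.Agent.S2286
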