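import Cfsg.Statements.S2337
import Cfsg.Agent.H15.SzChB
import Cfsg.Agent.H15.SzLie

set_option autoImplicit false
open Cfsg

namespace Cfsg.Agent.S2337



/-- For the Suzuki group Sz(q), q = 2^(2m+1) with m ≥ 1 (realised inside Sp₄ over the field with q elements), every irreducible complex representation of degree at least 2 has degree at least 2^m·(q − 1). -/
theorem result {F : Type*} [Field F] [Fintype F] (m : ℕ) (hm : 1 ≤ m) (hF : Fintype.card F = 2 ^ (2 * m + 1)) :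
    (∀ (k : ℕ) (ρ : Representation ℂ (Cfsg.Lie.Sz F (2 ^ (m + 1))) (Fin k → ℂ)), ρ.IsIrreducible → 2 ≤ k → 2 ^ m * (2 ^ (2 * m + 1) - 1) ≤ k) := by
  have hS : Cfsg.Agent.H15.Suz.SzF F m := ⟨hm, hF⟩
  intro k ρ hρ hk
  let e := Cfsg.Agent.H15.Suz.lieEquiv F m
  have hirr : IsIrrCharacter _ ρ.character := ⟨k, ρ, hρ, rfl⟩
  have h1 := (Cfsg.Agent.H3.isIrr_comp_equiv_iff e (χ := ρ.character)).mpr hirr
  have h2 : (fun x => ρ.character (e x)) 1 = (k : ℂ) := by simp
  have h3 := Cfsg.Agent.H15.Suz.min_degree m h1 h2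
    (Cfsg.Agent.H15.Suz.exists_ne_of_two_le m h1 h2 (by omega))
  rwa [hF] at h3

end Cfsg.Agent.S2337
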