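import Cfsg.Statements.S2354
import Cfsg.Agent.H15.SzLaw

set_option autoImplicit false
open Cfsg

namespace Cfsg.Agent.S2354

open Cfsg.Agent.H15.Suz

/-- A non-trivial law holds in only finitely many Suzuki groups: for every non-trivial element w of the free group on countably many generators there is N such that for q = 2^(2m+1) with m ≥ N some substitution of elements of the Suzuki group over the field with q elements into w is not the identity. -/
theorem result (w : FreeGroup ℕ) (hw : w ≠ 1) :
    ∃ N : ℕ, ∀ (F : Type*) [Field F] [Fintype F] (m : ℕ), 1 ≤ m → N ≤ m →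
      Fintype.card F = 2 ^ (2 * m + 1) →
      ∃ f : ℕ → ↥(Cfsg.Lie.Sz F (2 ^ (m + 1))), FreeGroup.lift f w ≠ 1 := by
  refine ⟨Bd w.toWord, ?_⟩
  intro F _ _ m hm hN hF
  have hS : SzF F m := ⟨hm, hF⟩
  obtain ⟨f, hf⟩ := not_law (F := F) (m := m) hw hN
  refine ⟨fun i => lieEquiv F m (f i), fun h => hf ?_⟩
  have h1 : FreeGroup.lift (fun i => lieEquiv F m (f i)) =
      (lieEquiv F m).toMonoidHom.comp (FreeGroup.lift f) := by
    ext i
    simp
  rw [h1] at h
  have h2 : lieEquiv F m (FreeGroup.lift f w) = 1 := h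
  rwa [EmbeddingLike.map_eq_one_iff] at h2

end Cfsg.Agent.S2354
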