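import Cfsg.Statements.S2355
import Cfsg.Agent.H16.LawE

set_option autoImplicit false
open Cfsg

namespace Cfsg.Agent.S2355

set_option linter.all false

open Cfsg.Agent.H16

lemma card_mat_le {ι F : Type} [Fintype ι] [DecidableEq ι] [Fintype F] {B : ℕ} (hB : 1 ≤ B) (h1 : Fintype.card ι ≤ B) (h2 : Fintype.card F ≤ B) :
    Nat.card (Matrix ι ι F) ≤ B ^ (B * B) := by
  classical
  have : Nat.card (Matrix ι ι F) = Fintype.card F ^ (Fintype.card ι * Fintype.card ι) := by
    have h : Nat.card (Matrix ι ι F) = Nat.card (ι → ι → F) := rfl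
    rw [h, Nat.card_eq_fintype_card, Fintype.card_fun, Fintype.card_fun, ← pow_mul]
  rw [this]
  exact (Nat.pow_le_pow_left h2 _).trans (Nat.pow_le_pow_right hB (Nat.mul_le_mul h1 h1))

lemma card_quot_le {G Gt : Type*} [Group Gt] [Group G] [Finite Gt] (e : G ≃* Gt ⧸ Subgroup.center Gt) : Nat.card G ≤ Nat.card Gt := by
  rw [Nat.card_congr e.toEquiv]
  exact Nat.card_le_card_of_surjective _ (QuotientGroup.mk'_surjective _)

lemma card_sl_le {ι F : Type} [Fintype ι] [DecidableEq ι] [Field F] [Fintype F] : Nat.card (Matrix.SpecialLinearGroup ι F) ≤ Nat.card (Matrix ι ι F) := by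
  classical
  exact Nat.card_le_card_of_injective (fun A : Matrix.SpecialLinearGroup ι F => (A : Matrix ι ι F)) Subtype.val_injective

lemma card_gl_le {ι F : Type} [Fintype ι] [DecidableEq ι] [Field F] [Fintype F] : Nat.card (Matrix.GeneralLinearGroup ι F) ≤ Nat.card (Matrix ι ι F) := by
  classical
  exact Nat.card_le_card_of_injective (fun A : Matrix.GeneralLinearGroup ι F => (A : Matrix ι ι F)) Units.val_injective

lemma card_omega_le {ι F : Type} [Fintype ι] [DecidableEq ι] [Field F] [Fintype F] (Q : (ι → F) → F) : Nat.card (Cfsg.Omega F Q) ≤ Nat.card (Matrix ι ι F) := by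
  classical
  have h1 : Nat.card (Cfsg.Omega F Q) ≤ Nat.card (Cfsg.isometryGroup F Q) := Nat.card_le_card_of_injective (fun A => (A : Cfsg.isometryGroup F Q)) Subtype.val_injective
  have h2 : Nat.card (Cfsg.isometryGroup F Q) ≤ Nat.card (Matrix.GeneralLinearGroup ι F) := Nat.card_le_card_of_injective (fun A => (A : Matrix.GeneralLinearGroup ι F)) Subtype.val_injective
  exact (h1.trans h2).trans card_gl_le

/-- A non-trivial law is satisfied by only finitely many finite simple groups that are alternating or classical, up to isomorphism: for every non-trivial element w of the free group on countably many generators there is a bound N such that every alternating group of degree ≥ 5 and every simple classical group (linear, symplectic, unitary or orthogonal, in this problem's sense) in which w is a law has order at most N. -/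
theorem result (w : FreeGroup ℕ) (hw : w ≠ 1) :
    ∃ N : ℕ, ∀ (G : Type*) [Group G] [Finite G],
      (Cfsg.IsAlternating G ∨ Cfsg.IsPSL G ∨ Cfsg.IsPSp G ∨ Cfsg.IsPSU G ∨ Cfsg.IsPOmegaOdd G ∨
          Cfsg.IsPOmegaPlus G ∨ Cfsg.IsPOmegaMinus G) →
      (∀ f : ℕ → G, FreeGroup.lift f w = 1) → Nat.card G ≤ N := by
  classical
  obtain ⟨NA, hA⟩ := lawF_Alt w hw
  obtain ⟨N1, h1⟩ := lawF_SL w hw
  obtain ⟨N2, h2⟩ := lawF_classical w hw
  obtain ⟨N3, h3⟩ := lawF_SU w hw
  obtain ⟨N, hN⟩ : ∃ N, N = NA + N1 + N2 + N3 + 3 := ⟨_, rfl⟩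
  obtain ⟨B, hB⟩ : ∃ B, B = 4 * N ^ 2 := ⟨_, rfl⟩
  have hNN : N ≤ N ^ 2 := by nlinarith
  refine ⟨max (NA.factorial) (B ^ (B * B)), fun G _ _ hG hlaw => ?_⟩
  have hB1 : 1 ≤ B := by nlinarith
  have hBN : 4 * N ≤ B := by nlinarith
  have contra : ∀ (Gt : Type) [Group Gt] (e : G ≃* Gt ⧸ Subgroup.center Gt), ¬ LawF w Gt := by
    intro Gt _ e hl
    obtain ⟨f, hf⟩ := hl.quot e
    exact hf (hlaw f)
  rcases hG with h | h | h | h | h | h | h
  · obtain ⟨n, hn, ⟨e⟩⟩ := h
    refine le_trans ?_ (le_max_left _ _)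
    have hnA : n < NA := by
      by_contra hcon
      push Not at hcon
      obtain ⟨f, hf⟩ := hA n hcon
      apply hf
      have h5 := lift_comp e.symm.toMonoidHom f w
      have h6 := hlaw (fun i => e.symm.toMonoidHom (f i))
      rw [h5] at h6
      have h7 : FreeGroup.lift f w = 1 := by
        have : e.symm (FreeGroup.lift f w) = 1 := h6
        rwa [EmbeddingLike.map_eq_one_iff] at this
      rw [h7]; exact Subgroup.one_mem _
    rw [Nat.card_congr e.toEquiv]
    calc Nat.card (alternatingGroup (Fin n)) ≤ Nat.card (Equiv.Perm (Fin n)) := Nat.card_le_card_of_injective (fun A => (A : Equiv.Perm (Fin n))) Subtype.val_injective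
      _ = n.factorial := by rw [Nat.card_eq_fintype_card, Fintype.card_perm, Fintype.card_fin]
      _ ≤ NA.factorial := Nat.factorial_le hnA.le
  · obtain ⟨F, _, _, n, hn, _, ⟨e⟩⟩ := h
    refine le_trans ?_ (le_max_right _ _)
    have hlt : n < N1 ∧ Fintype.card F < N1 := by
      by_contra hcon
      exact contra _ e (h1 F n hn (by omega))
    exact ((card_quot_le e).trans card_sl_le).trans (card_mat_le hB1 (by rw [Fintype.card_fin]; omega) (by omega))
  · obtain ⟨F, _, _, m, hm, _, ⟨e⟩⟩ := h
    refine le_trans ?_ (le_max_right _ _)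
    have hlt : m < N2 ∧ Fintype.card F < N2 := by
      by_contra hcon
      exact contra _ e ((h2 F m (by omega)).1 hm)
    haveI : Finite (Matrix.symplecticGroup (Fin m) F) := Finite.of_injective (fun A => (A : Matrix (Fin m ⊕ Fin m) (Fin m ⊕ Fin m) F)) Subtype.val_injective
    have hle : Nat.card (Matrix.symplecticGroup (Fin m) F) ≤ Nat.card (Matrix (Fin m ⊕ Fin m) (Fin m ⊕ Fin m) F) :=
      Nat.card_le_card_of_injective (fun A => (A : Matrix (Fin m ⊕ Fin m) (Fin m ⊕ Fin m) F)) Subtype.val_injective
    exact ((card_quot_le e).trans hle).trans (card_mat_le hB1 (by rw [Fintype.card_sum, Fintype.card_fin]; omega) (by omega))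
  · obtain ⟨F, _, _, n, q, hF, hn, _, ⟨e⟩⟩ := h
    refine le_trans ?_ (le_max_right _ _)
    have hlt : n < N3 ∧ q < N3 := by
      by_contra hcon
      exact contra _ e (h3 F n q hF (by omega) (by omega))
    have hle : Nat.card (Cfsg.SU n F q) ≤ Nat.card (Matrix.SpecialLinearGroup (Fin n) F) :=
      Nat.card_le_card_of_injective (fun A => (A : Matrix.SpecialLinearGroup (Fin n) F)) Subtype.val_injective
    refine (((card_quot_le e).trans hle).trans card_sl_le).trans (card_mat_le hB1 (by rw [Fintype.card_fin]; omega) ?_)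
    rw [hF]
    have : q ≤ N := by omega
    nlinarith
  · obtain ⟨F, _, _, m, hm, _, ⟨e⟩⟩ := h
    refine le_trans ?_ (le_max_right _ _)
    have hlt : m < N2 ∧ Fintype.card F < N2 := by
      by_contra hcon
      exact contra _ e (((h2 F m (by omega)).2 (by omega)).2.1)
    exact ((card_quot_le e).trans (card_omega_le _)).trans (card_mat_le hB1 (by rw [Fintype.card_sum, Fintype.card_sum, Fintype.card_fin, Fintype.card_unit]; omega) (by omega))
  · obtain ⟨F, _, _, m, hm, ⟨e⟩⟩ := h
    refine le_trans ?_ (le_max_right _ _)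
    have hlt : m < N2 ∧ Fintype.card F < N2 := by
      by_contra hcon
      exact contra _ e (((h2 F m (by omega)).2 (by omega)).1)
    exact ((card_quot_le e).trans (card_omega_le _)).trans (card_mat_le hB1 (by rw [Fintype.card_sum, Fintype.card_fin]; omega) (by omega))
  · obtain ⟨F, _, _, m, a, b, hm, _, ⟨e⟩⟩ := h
    refine le_trans ?_ (le_max_right _ _)
    have hlt : m - 1 < N2 ∧ Fintype.card F < N2 := by
      by_contra hcon
      exact contra _ e (((h2 F (m - 1) (by omega)).2 (by omega)).2.2 a b)
    exact ((card_quot_le e).trans (card_omega_le _)).trans (card_mat_le hB1 (by rw [Fintype.card_sum, Fintype.card_sum, Fintype.card_fin, Fintype.card_fin]; omega) (by omega))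

end Cfsg.Agent.S2355
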