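import Cfsg.Statements.S2361
import Mathlib
import Cfsg.Agent.H5.Ree15
import Cfsg.Agent.H5.Ree34

set_option autoImplicit false
open Cfsg

namespace Cfsg.Agent.S2361

/-- Let R be the small Ree group over the field with q = 3^(2m+1) ≥ 27 elements. Every solvable subgroup of R lies in the normalizer of a Sylow 2-subgroup, of a Sylow 3-subgroup, or of a cyclic subgroup of order (q−1)/2, (q+1)/4, q − 3^(m+1) + 1 or q + 3^(m+1) + 1. -/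
theorem result {K : Type*} [Field K] [Fintype K] {m : ℕ} (hm : 1 ≤ m)
    (hK : Fintype.card K = 3 ^ (2 * m + 1)) (S : Subgroup ↥(Cfsg.Lie.twistedG2 K (3 ^ m)))
    (hS : Group.IsSolvable S) :
    ∃ A : Subgroup ↥(Cfsg.Lie.twistedG2 K (3 ^ m)), S ≤ Subgroup.normalizer (A : Set ↥(Cfsg.Lie.twistedG2 K (3 ^ m))) ∧
      ((∃ P : Sylow 2 ↥(Cfsg.Lie.twistedG2 K (3 ^ m)), A = P) ∨
       (∃ P : Sylow 3 ↥(Cfsg.Lie.twistedG2 K (3 ^ m)), A = P) ∨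
       (IsCyclic A ∧ (Nat.card A = (3 ^ (2 * m + 1) - 1) / 2 ∨ Nat.card A = (3 ^ (2 * m + 1) + 1) / 4 ∨
          Nat.card A = 3 ^ (2 * m + 1) - 3 ^ (m + 1) + 1 ∨ Nat.card A = 3 ^ (2 * m + 1) + 3 ^ (m + 1) + 1))) := by
  obtain ⟨σ, h⟩ := Cfsg.Agent.H6.WG2.exists_ctx hK
  haveI := Cfsg.Agent.H5.Ree.finite_ree hK h (Cfsg.Agent.H6.WG2.fl_of_card hK)
  obtain ⟨n, R⟩ := Cfsg.Agent.H5.Ree.ra hm hK
  have h1 := R.good_all (hK ▸ Cfsg.Agent.H5.Ree.rb3 hK) (Cfsg.Agent.H5.Ree.ic hm hK) (Cfsg.Agent.H5.Ree.ux hK) (r := 3 ^ (m + 1)) (by rw [hK]; exact Cfsg.Agent.H5.Ree.r_sq m)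
    (by rw [hK]; have := Cfsg.Agent.H5.Ree.r_lt hm; omega) (S := S) hS
  rw [hK] at h1
  exact h1

end Cfsg.Agent.S2361
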