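import Cfsg.Statements.S2450
import Cfsg.Agent.H16.Trace

set_option autoImplicit false
open Cfsg

namespace Cfsg.Agent.S2450

open Matrix H16

section
variable {F : Type*} [Field F] [Fintype F]

local notation "SL₂" => Matrix.SpecialLinearGroup (Fin 2) F
local notation "M₂" => Matrix (Fin 2) (Fin 2) F

lemma par_form {A : SL₂} (hA : ¬ IsScal (A : M₂)) {e : F} (he : e * e = 1) (ht : (A : M₂).trace = e + e) :
    ∃ (ν : F) (D : SL₂), ν ≠ 0 ∧ (D : M₂) = !![e, ν; 0, e] ∧ IsConj A D := by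
  obtain ⟨c, hc, h1⟩ := sl2_exists_conj_cform A hA
  rw [ht] at h1
  have hd : (!![e, -c⁻¹; 0, e] : M₂).det = 1 := by rw [det_fin_two_of, he]; ring
  obtain ⟨D, hD⟩ : ∃ D : SL₂, (D : M₂) = !![e, -c⁻¹; 0, e] := ⟨⟨_, hd⟩, rfl⟩
  have hh : (!![c, 0; -e, c⁻¹] : M₂).det = 1 := by rw [det_fin_two_of]; field_simp; ring
  obtain ⟨H, hH⟩ : ∃ D : SL₂, (D : M₂) = !![c, 0; -e, c⁻¹] := ⟨⟨_, hh⟩, rfl⟩
  refine ⟨-c⁻¹, D, neg_ne_zero.2 (inv_ne_zero hc), hD, h1.trans ?_⟩
  apply IsConj.symm
  rw [isConj_iff]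
  refine ⟨H, ?_⟩
  rw [mul_inv_eq_iff_eq_mul]
  apply sl_ext
  rw [Matrix.SpecialLinearGroup.coe_mul, Matrix.SpecialLinearGroup.coe_mul, hH, hD, cform_coe]
  ext i j
  fin_cases i <;> fin_cases j <;> simp [Matrix.mul_apply, Fin.sum_univ_two]
  · field_simp
    linear_combination he
  · field_simp

lemma par_trace {A B : SL₂} (hA : ¬ IsScal (A : M₂)) (hB : ¬ IsScal (B : M₂)) {e : F} (he : e * e = 1) (ht : (A : M₂).trace = e + e) :
    ∃ μ : F, μ ≠ 0 ∧ ∀ x y : F, (x, y) ≠ (0, 0) → ∃ A' B' : SL₂, IsConj A A' ∧ IsConj B B' ∧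
      ((A' * B' : SL₂) : M₂).trace = e * (B : M₂).trace + μ * nf (B : M₂).trace 1 (x, y) := by
  obtain ⟨ν, D, hν, hD, hAD⟩ := par_form hA he ht
  obtain ⟨c, hc, hB1⟩ := sl2_exists_conj_cform B hB
  refine ⟨ν * c⁻¹, mul_ne_zero hν (inv_ne_zero hc), ?_⟩
  intro x y hxy
  -- h with first column (x, c⁻¹ y)
  obtain ⟨h, hh0, hh1⟩ : ∃ h : SL₂, (h : M₂) 0 0 = x ∧ (h : M₂) 1 0 = c⁻¹ * y := by
    by_cases hx : x = 0
    · have hy : y ≠ 0 := by
        rintro rfl; exact hxy (by rw [hx])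
      refine ⟨⟨!![x, -(c * y⁻¹); c⁻¹ * y, 0], ?_⟩, rfl, rfl⟩
      rw [det_fin_two_of]; field_simp; ring
    · refine ⟨⟨!![x, 0; c⁻¹ * y, x⁻¹], ?_⟩, rfl, rfl⟩
      rw [det_fin_two_of]; field_simp; ring
  refine ⟨h * D * h⁻¹, cform (B : M₂).trace c hc, hAD.trans (isConj_iff.2 ⟨h, rfl⟩), hB1, ?_⟩
  have hdet : (h : M₂) 0 0 * (h : M₂) 1 1 - (h : M₂) 0 1 * (h : M₂) 1 0 = 1 := by
    rw [← det_fin_two]; exact h.2
  rw [Matrix.SpecialLinearGroup.coe_mul, Matrix.SpecialLinearGroup.coe_mul, Matrix.SpecialLinearGroup.coe_mul, hD, cform_coe, sl_inv_coe]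
  rw [hh0, hh1] at hdet
  rw [trace_fin_two, trace_fin_two (h : M₂)]
  simp only [nf, Matrix.mul_apply, Fin.sum_univ_two, Matrix.sub_apply, Matrix.smul_apply, Matrix.one_apply_eq, smul_eq_mul,
    Matrix.one_apply_ne (show (0 : Fin 2) ≠ 1 by decide), Matrix.one_apply_ne (show (1 : Fin 2) ≠ 0 by decide), Matrix.of_apply, Matrix.cons_val', Matrix.cons_val_zero,
    Matrix.cons_val_one, Matrix.cons_val_fin_one, hh0, hh1]
  field_simp
  field_simp at hdet
  generalize (h : M₂) 1 1 = w at *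
  generalize (h : M₂) 0 1 = z at *
  generalize (B : M₂).trace = t at *
  ring_nf
  ring_nf at hdet
  linear_combination (e * t) * hdet

lemma core {A B : SL₂} (hA : ¬ IsScal (A : M₂)) (hB : ¬ IsScal (B : M₂)) (h4 : 4 ≤ Fintype.card F) (hA4 : (A : M₂).trace ^ 2 = 4) {τ : F}
    (hP : ∀ A' B' : SL₂, IsConj A A' → IsConj B B' → ((A' * B' : SL₂) : M₂).trace = τ ∨ ((A' * B' : SL₂) : M₂).trace = -τ) : False := by
  classical
  obtain ⟨e, he, ht⟩ : ∃ e : F, e * e = 1 ∧ (A : M₂).trace = e + e := by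
    rcases two_or_neg_two hA4 with h | h
    · exact ⟨1, one_mul 1, h⟩
    · exact ⟨-1, by ring, h⟩
  obtain ⟨μ, hμ, hW⟩ := par_trace hA hB he ht
  set β := (B : M₂).trace with hβ
  -- the value set
  have key : ∀ s : Finset F, (∀ w ∈ s, ∃ x y : F, (x, y) ≠ (0, 0) ∧ nf β 1 (x, y) = w) → s.card ≤ 2 := by
    intro s hs
    refine le_trans (Finset.card_le_card_of_injOn (t := {τ, -τ}) (fun w => e * β + μ * w) ?_ ?_) Finset.card_le_two
    · intro w hw
      obtain ⟨x, y, hxy, hn⟩ := hs w hw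
      obtain ⟨A', B', h1, h2, h3⟩ := hW x y hxy
      rw [hn] at h3
      simp only [Finset.coe_insert, Finset.coe_singleton, Set.mem_insert_iff, Set.mem_singleton_iff]
      rw [← h3]
      exact hP A' B' h1 h2
    · intro a _ b _ hab
      simp only at hab
      have : μ * a = μ * b := by linear_combination hab
      exact mul_left_cancel₀ hμ this
  by_cases hcase : ∀ w : F, w ≠ 0 → ∃ p : F × F, nf β 1 p = w
  · have := key (Finset.univ.erase 0) (by
      intro w hw
      obtain ⟨⟨x, y⟩, hp⟩ := hcase w (Finset.ne_of_mem_erase hw)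
      refine ⟨x, y, ?_, hp⟩
      intro h
      rw [h] at hp
      apply Finset.ne_of_mem_erase hw
      rw [← hp]; simp [nf])
    rw [Finset.card_erase_of_mem (Finset.mem_univ _), Finset.card_univ] at this
    omega
  · -- q odd and β² = 4
    have hβ4 : β ^ 2 = 4 := by
      by_contra h
      exact hcase (fun w _ => nf_pos_universal β h w)
    have hodd : ringChar F ≠ 2 := by
      intro h
      haveI : CharP F 2 := by rw [← h]; infer_instance
      exact hcase (fun w _ => nf_universal_char_two β w)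
    have h20 : (2 : F) ≠ 0 := Ring.two_ne_zero hodd
    have hoddc := FiniteField.odd_card_of_char_ne_two hodd
    -- choose s ≠ 0, 1, -1
    obtain ⟨s, hs⟩ : ∃ s : F, s ∉ ({0, 1, -1} : Finset F) := by
      by_contra hcon
      push Not at hcon
      have h5 : (Finset.univ : Finset F).card ≤ ({0, 1, -1} : Finset F).card := Finset.card_le_card (fun x _ => hcon x)
      have h6 : ({0, 1, -1} : Finset F).card ≤ 3 := Finset.card_le_three
      rw [Finset.card_univ] at h5
      omega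
    simp only [Finset.mem_insert, Finset.mem_singleton, not_or] at hs
    have hs1 : s ^ 2 ≠ 1 := by
      intro h
      have : (s - 1) * (s + 1) = 0 := by linear_combination h
      rcases mul_eq_zero.1 this with h | h
      · exact hs.2.1 (by linear_combination h)
      · exact hs.2.2 (by linear_combination h)
    have h7 := key {0, 1, s ^ 2} (by
      intro w hw
      simp only [Finset.mem_insert, Finset.mem_singleton] at hw
      rcases hw with hw | hw | hw
      · refine ⟨-(β / 2), 1, ?_, ?_⟩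
        · intro h; exact one_ne_zero (Prod.mk.inj h).2
        · rw [hw]; simp only [nf]
          field_simp
          linear_combination -hβ4
      · refine ⟨1, 0, ?_, ?_⟩
        · intro h; exact one_ne_zero (Prod.mk.inj h).1
        · rw [hw]; simp only [nf]; ring
      · refine ⟨s, 0, ?_, ?_⟩
        · intro h; exact hs.1 (Prod.mk.inj h).1
        · rw [hw]; simp only [nf]; ring)
    rw [Finset.card_insert_of_notMem, Finset.card_pair (Ne.symm hs1)] at h7
    · omega
    · simp only [Finset.mem_insert, Finset.mem_singleton, not_or]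
      exact ⟨zero_ne_one, (pow_ne_zero 2 hs.1).symm⟩

end

/-- The Arad–Herzog conjecture for PSL(2,q): let F be a finite field with q ≥ 4 elements. For any two non-identity elements a, b of PSL(2,F), the set of products of a conjugate of a with a conjugate of b is not a single conjugacy class. -/
theorem result {F : Type*} [Field F] [Fintype F] (h4 : 4 ≤ Fintype.card F)
    (a b : Matrix.ProjectiveSpecialLinearGroup (Fin 2) F) (ha : a ≠ 1) (hb : b ≠ 1) (c : Matrix.ProjectiveSpecialLinearGroup (Fin 2) F) :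
    {g : Matrix.ProjectiveSpecialLinearGroup (Fin 2) F | ∃ u v : Matrix.ProjectiveSpecialLinearGroup (Fin 2) F, g = (u * a * u⁻¹) * (v * b * v⁻¹)} ≠ {g | IsConj c g} := by
  classical
  intro hset
  obtain ⟨A, rfl⟩ := QuotientGroup.mk_surjective a
  obtain ⟨B, rfl⟩ := QuotientGroup.mk_surjective b
  obtain ⟨C, rfl⟩ := QuotientGroup.mk_surjective c
  have hA : ¬ H16.IsScal (A : Matrix (Fin 2) (Fin 2) F) := fun h => ha (H16.psl_mk_one_iff.2 h)
  have hB : ¬ H16.IsScal (B : Matrix (Fin 2) (Fin 2) F) := fun h => hb (H16.psl_mk_one_iff.2 h)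
  have hP : ∀ A' B' : Matrix.SpecialLinearGroup (Fin 2) F, IsConj A A' → IsConj B B' →
      ((A' * B' : Matrix.SpecialLinearGroup (Fin 2) F) : Matrix (Fin 2) (Fin 2) F).trace = (C : Matrix (Fin 2) (Fin 2) F).trace ∨
      ((A' * B' : Matrix.SpecialLinearGroup (Fin 2) F) : Matrix (Fin 2) (Fin 2) F).trace = -(C : Matrix (Fin 2) (Fin 2) F).trace := by
    intro A' B' h1 h2
    obtain ⟨u, hu⟩ := H16.psl_conj h1
    obtain ⟨v, hv⟩ := H16.psl_conj h2
    have hmem : (QuotientGroup.mk (A' * B') : Matrix.ProjectiveSpecialLinearGroup (Fin 2) F) ∈ {g : Matrix.ProjectiveSpecialLinearGroup (Fin 2) F | ∃ u v : Matrix.ProjectiveSpecialLinearGroup (Fin 2) F, g = (u * QuotientGroup.mk A * u⁻¹) * (v * QuotientGroup.mk B * v⁻¹)} := by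
      refine ⟨u, v, ?_⟩
      rw [← hu, ← hv]; rfl
    rw [hset] at hmem
    obtain ⟨w, hw⟩ := isConj_iff.1 hmem
    obtain ⟨W, rfl⟩ := QuotientGroup.mk_surjective w
    have hw' : (QuotientGroup.mk (W * C * W⁻¹) : Matrix.ProjectiveSpecialLinearGroup (Fin 2) F) = QuotientGroup.mk (A' * B') := hw
    have htr : ((W * C * W⁻¹ : Matrix.SpecialLinearGroup (Fin 2) F) : Matrix (Fin 2) (Fin 2) F).trace = (C : Matrix (Fin 2) (Fin 2) F).trace :=
      (H16.sl2_trace_conj (isConj_iff.2 ⟨W, rfl⟩)).symm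
    rcases H16.psl_mk_eq_iff.1 hw' with h | h
    · left; rw [h, htr]
    · right; rw [h, Matrix.SpecialLinearGroup.coe_neg, Matrix.trace_neg, htr]
  by_cases hA4 : (A : Matrix (Fin 2) (Fin 2) F).trace ^ 2 = 4
  · exact core hA hB h4 hA4 hP
  · by_cases hB4 : (B : Matrix (Fin 2) (Fin 2) F).trace ^ 2 = 4
    · apply core hB hA h4 hB4 (τ := (C : Matrix (Fin 2) (Fin 2) F).trace)
      intro B' A' h1 h2
      have := hP A' B' h2 h1
      rwa [Matrix.SpecialLinearGroup.coe_mul, Matrix.trace_mul_comm, ← Matrix.SpecialLinearGroup.coe_mul] at this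
    · have hall : ∀ γ : F, γ = (C : Matrix (Fin 2) (Fin 2) F).trace ∨ γ = -(C : Matrix (Fin 2) (Fin 2) F).trace := by
        intro γ
        obtain ⟨A', h1, h2⟩ := H16.macbeath hB4 (A : Matrix (Fin 2) (Fin 2) F).trace γ
        have := hP A' B (H16.sl2_isConj_of_universal (t := (A : Matrix (Fin 2) (Fin 2) F).trace) (fun c _ => H16.nf_pos_universal _ hA4 c) hA
          (H16.not_scal_of_trace (by rw [h1]; exact hA4)) rfl h1) (IsConj.refl B)
        rwa [h2] at this
      have h5 : (Finset.univ : Finset F).card ≤ ({(C : Matrix (Fin 2) (Fin 2) F).trace, -(C : Matrix (Fin 2) (Fin 2) F).trace} : Finset F).card :=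
        Finset.card_le_card (fun x _ => by
          rw [Finset.mem_insert, Finset.mem_singleton]; exact hall x)
      have h6 := Finset.card_le_two (a := (C : Matrix (Fin 2) (Fin 2) F).trace) (b := -(C : Matrix (Fin 2) (Fin 2) F).trace)
      rw [Finset.card_univ] at h5
      omega

end Cfsg.Agent.S2450
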