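import Cfsg.Statements.S2455
import Cfsg.Agent.H16.Trace

set_option autoImplicit false
open Cfsg

namespace Cfsg.Agent.S2455

/-- A strong covering result in the direction of Thompson's conjecture (non-identity elements) for PSL(2,q), q odd: let F be a finite field of odd characteristic p with at least 5 elements and let x ∈ PSL(2,F) have order greater than 2 and not divisible by p (so x is not unipotent). Then every non-identity element of PSL(2,F) is a product of two conjugates of x. -/
theorem result {F : Type*} [Field F] [Fintype F] (p : ℕ) [Fact p.Prime] [CharP F p] (hp : p ≠ 2) (h5 : 5 ≤ Fintype.card F)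
    (x : Matrix.ProjectiveSpecialLinearGroup (Fin 2) F) (hx2 : 2 < orderOf x) (hxp : ¬ p ∣ orderOf x) : ∀ g : Matrix.ProjectiveSpecialLinearGroup (Fin 2) F, g ≠ 1 → ∃ u v : Matrix.ProjectiveSpecialLinearGroup (Fin 2) F, g = (u * x * u⁻¹) * (v * x * v⁻¹) := by
  have h2 : (2 : F) ≠ 0 := by
    intro h
    have := (CharP.cast_eq_zero_iff F p 2).1 (by exact_mod_cast h)
    exact hp ((Nat.prime_dvd_prime_iff_eq Fact.out Nat.prime_two).1 this)
  obtain ⟨A, rfl⟩ := QuotientGroup.mk_surjective x
  have ha0 := H16.trace_ne_zero_of_order hx2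
  have ha4 := H16.trace_sq_ne_of_order p hx2 hxp
  intro g hg
  obtain ⟨C, rfl⟩ := QuotientGroup.mk_surjective g
  have hC : ¬ H16.IsScal (C : Matrix (Fin 2) (Fin 2) F) := fun h => hg (H16.psl_mk_one_iff.2 h)
  by_cases ht : (C : Matrix (Fin 2) (Fin 2) F).trace ^ 2 = 4
  · -- choose the lift with trace -2
    obtain ⟨D, hD, hDt⟩ : ∃ D : Matrix.SpecialLinearGroup (Fin 2) F, (D = C ∨ D = -C) ∧ (D : Matrix (Fin 2) (Fin 2) F).trace = -1 + -1 := by
      rcases H16.two_or_neg_two ht with h | h
      · refine ⟨-C, Or.inr rfl, ?_⟩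
        rw [Matrix.SpecialLinearGroup.coe_neg, Matrix.trace_neg, h]; ring
      · exact ⟨C, Or.inl rfl, h⟩
    have hCD : (QuotientGroup.mk C : Matrix.ProjectiveSpecialLinearGroup (Fin 2) F) = QuotientGroup.mk D := H16.psl_mk_eq_iff.2 hD
    rw [hCD] at hg ⊢
    have hDs : ¬ H16.IsScal (D : Matrix (Fin 2) (Fin 2) F) := fun h => hg (H16.psl_mk_one_iff.2 h)
    obtain ⟨A', h3, h4⟩ := H16.macbeath_par hDs (e := -1) (by ring) hDt (α := (A : Matrix (Fin 2) (Fin 2) F).trace)
      (δ := (A : Matrix (Fin 2) (Fin 2) F).trace * (D : Matrix (Fin 2) (Fin 2) F).trace - (A : Matrix (Fin 2) (Fin 2) F).trace) (by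
        rw [hDt]
        intro h
        have : (A : Matrix (Fin 2) (Fin 2) F).trace * 2 = 0 := by linear_combination -h
        rcases mul_eq_zero.1 this with h | h
        · exact ha0 h
        · exact h2 h)
    exact H16.psl_prod_of_trace ha4 ha4 h3 h4
  · obtain ⟨A', h3, h4⟩ := H16.macbeath ht (A : Matrix (Fin 2) (Fin 2) F).trace
      ((A : Matrix (Fin 2) (Fin 2) F).trace * (C : Matrix (Fin 2) (Fin 2) F).trace - (A : Matrix (Fin 2) (Fin 2) F).trace)
    exact H16.psl_prod_of_trace ha4 ha4 h3 h4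

end Cfsg.Agent.S2455
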