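import Cfsg.Statements.S2456
import Cfsg.Agent.H16.Trace

set_option autoImplicit false
open Cfsg

namespace Cfsg.Agent.S2456

/-- A strong covering result in the direction of Thompson's conjecture (non-identity elements) for PSL(2,q), q even: let F be a finite field of characteristic 2 with q ≥ 4 elements and let x ∈ PSL(2,F) have order greater than 2 and not dividing q + 1. Then every non-identity element of PSL(2,F) is a product of two conjugates of x. -/
theorem result {F : Type*} [Field F] [Fintype F] [CharP F 2] (h4 : 4 ≤ Fintype.card F)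
    (x : Matrix.ProjectiveSpecialLinearGroup (Fin 2) F) (hx2 : 2 < orderOf x) (hxq : ¬ orderOf x ∣ Fintype.card F + 1) : ∀ g : Matrix.ProjectiveSpecialLinearGroup (Fin 2) F, g ≠ 1 → ∃ u v : Matrix.ProjectiveSpecialLinearGroup (Fin 2) F, g = (u * x * u⁻¹) * (v * x * v⁻¹) := by
  classical
  obtain ⟨A, rfl⟩ := QuotientGroup.mk_surjective x
  have ha0 := H16.trace_ne_zero_of_order hx2
  have h20 : (2 : F) = 0 := CharTwo.two_eq_zero
  have h40 : (4 : F) = 0 := by
    have : (4 : F) = 2 * 2 := by norm_num
    rw [this, h20, zero_mul]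
  have ha4 : (A : Matrix (Fin 2) (Fin 2) F).trace ^ 2 ≠ 4 := by
    rw [h40]; exact pow_ne_zero 2 ha0
  -- A is split
  obtain ⟨l, hl, hll, hA⟩ : ∃ l : F, l ≠ 0 ∧ l * l ≠ 1 ∧ (A : Matrix (Fin 2) (Fin 2) F).trace = l + l⁻¹ := by
    rcases H16.nonscal_cases (A : Matrix (Fin 2) (Fin 2) F).trace with h | h | ⟨e, he, h⟩
    · exfalso
      apply hxq
      have h1 := H16.orderOf_dvd_card_cent A
      rw [H16.card_cent_sl2_ell A h] at h1
      refine dvd_trans ?_ h1
      apply orderOf_dvd_of_pow_eq_one
      rw [H16.psl_pow_mk, pow_orderOf_eq_one]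
      rfl
    · exact h
    · exfalso
      apply ha0
      rw [h]
      have : e + e = 2 * e := by ring
      rw [this, h20, zero_mul]
  intro g hg
  obtain ⟨C, rfl⟩ := QuotientGroup.mk_surjective g
  have hC : ¬ H16.IsScal (C : Matrix (Fin 2) (Fin 2) F) := fun h => hg (H16.psl_mk_one_iff.2 h)
  by_cases ht : (C : Matrix (Fin 2) (Fin 2) F).trace ^ 2 = 4
  · have ht0 : (C : Matrix (Fin 2) (Fin 2) F).trace = 1 + 1 := by
      rcases H16.two_or_neg_two ht with h | h
      · exact h
      · rw [h]
        have : (1 : F) = -1 := by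
          have : (1 : F) + 1 = 0 := by norm_num; exact h20
          linear_combination this
        rw [← this]
    obtain ⟨A', h3, h4⟩ := H16.macbeath_par_split hC (one_mul 1) ht0 hl
    apply H16.psl_prod_of_trace ha4 ha4 (A' := A') (by rw [h3, hA])
    rw [h4, hA, ht0]
    ring
  · obtain ⟨A', h3, h4⟩ := H16.macbeath ht (A : Matrix (Fin 2) (Fin 2) F).trace
      ((A : Matrix (Fin 2) (Fin 2) F).trace * (C : Matrix (Fin 2) (Fin 2) F).trace - (A : Matrix (Fin 2) (Fin 2) F).trace)
    exact H16.psl_prod_of_trace ha4 ha4 h3 h4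

end Cfsg.Agent.S2456
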