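import Cfsg.Statements.S2457
import Cfsg.Agent.H15.SzChO
import Cfsg.Agent.H15.SzLie

set_option autoImplicit false
open Cfsg

namespace Cfsg.Agent.S2457



/-- A strong covering result in the direction of Thompson's conjecture (non-identity elements) for the Suzuki groups: let q = 2^(2m+1) ≥ 8, F the field with q elements and Sz(q) the Suzuki group over F. For every element x of Sz(q) of order greater than 2, every non-identity element of Sz(q) is a product of two conjugates of x. -/
theorem result {F : Type*} [Field F] [Fintype F] (m : ℕ) (hm : 1 ≤ m) (hF : Fintype.card F = 2 ^ (2 * m + 1))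
    (x : Cfsg.Lie.Sz F (2 ^ (m + 1))) (hx2 : 2 < orderOf x) : ∀ g : Cfsg.Lie.Sz F (2 ^ (m + 1)), g ≠ 1 → ∃ u v : Cfsg.Lie.Sz F (2 ^ (m + 1)), g = (u * x * u⁻¹) * (v * x * v⁻¹) := by
  have hS' : Cfsg.Agent.H15.Suz.SzF F m := ⟨hm, hF⟩
  intro g hg
  let e := Cfsg.Agent.H15.Suz.lieEquiv F m
  have hx1 : e.symm x ≠ 1 := by
    intro h
    have : x = 1 := by simpa using h
    rw [this, orderOf_one] at hx2
    omega
  have hx3 : e.symm x * e.symm x ≠ 1 := by
    intro h
    rw [← map_mul] at h
    have h2 : x * x = 1 := e.symm.map_eq_one_iff.mp h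
    have h3 : orderOf x ∣ 2 := orderOf_dvd_of_pow_eq_one (by rw [sq]; exact h2)
    have := Nat.le_of_dvd (by norm_num) h3
    omega
  have hg1 : e.symm g ≠ 1 := by
    intro h
    apply hg
    simpa using h
  obtain ⟨u, v, huv⟩ := Cfsg.Agent.H15.Suz.exists_prod m hx1 hx3 hg1
  refine ⟨e u, e v, ?_⟩
  have := congrArg e huv
  simpa using this

end Cfsg.Agent.S2457
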