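import Cfsg.Statements.S2459
import Cfsg.Agent.H29.ThreeFac

set_option autoImplicit false
open Cfsg

namespace Cfsg.Agent.S2459

open Matrix

theorem conj_lower {F : Type*} [Field F] (b0 b1 b2 a c d : F) (h01 : b0 ≠ b1) (h02 : b0 ≠ b2) (h12 : b1 ≠ b2) :
    ∃ N : Matrix (Fin 3) (Fin 3) F, N.det = 1 ∧
      !![b0, 0, 0; a, b1, 0; c, d, b2] * N = N * !![b0, 0, 0; 0, b1, 0; 0, 0, b2] := by
  have e01 := sub_ne_zero.2 h01
  have e02 := sub_ne_zero.2 h02
  have e12 := sub_ne_zero.2 h12
  refine ⟨!![1, 0, 0; a / (b0 - b1), 1, 0; (c + d * (a / (b0 - b1))) / (b0 - b2), d / (b1 - b2), 1], ?_, ?_⟩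
  · simp [Matrix.det_fin_three]
  · ext i j
    fin_cases i <;> fin_cases j <;> simp [Matrix.mul_apply, Fin.sum_univ_three]
    · field_simp
      ring
    · field_simp
      ring
    · field_simp
      ring

theorem conj_upper {F : Type*} [Field F] (b0 b1 b2 a c d : F) (h01 : b0 ≠ b1) (h02 : b0 ≠ b2) (h12 : b1 ≠ b2) :
    ∃ N : Matrix (Fin 3) (Fin 3) F, N.det = 1 ∧
      !![b0, a, c; 0, b1, d; 0, 0, b2] * N = N * !![b0, 0, 0; 0, b1, 0; 0, 0, b2] := by
  have e01 := sub_ne_zero.2 h01.symm
  have e02 := sub_ne_zero.2 h02.symm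
  have e12 := sub_ne_zero.2 h12.symm
  refine ⟨!![1, a / (b1 - b0), (a * (d / (b2 - b1)) + c) / (b2 - b0); 0, 1, d / (b2 - b1); 0, 0, 1], ?_, ?_⟩
  · simp [Matrix.det_fin_three]
  · ext i j
    fin_cases i <;> fin_cases j <;> simp [Matrix.mul_apply, Fin.sum_univ_three]
    · field_simp
      ring
    · field_simp
      ring
    · field_simp
      ring

theorem fact4 {F : Type*} [Field F] (M : Matrix (Fin 3) (Fin 3) F) (hM : M.det = 1) (y : F) (hy0 : y ≠ 0)
    (h0 : M 0 0 = 1) (h1 : M 0 0 * M 1 1 - M 0 1 * M 1 0 = y ^ 2) :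
    ∃ a b c a' b' c' : F, M = !![1, 0, 0; a, y, 0; b, c, y⁻¹] * !![1, a', b'; 0, y, c'; 0, 0, y⁻¹] := by
  refine ⟨M 1 0, M 2 0, (M 2 1 - M 0 1 * M 2 0) / y, M 0 1, M 0 2, (M 1 2 - M 0 2 * M 1 0) / y, ?_⟩
  rw [h0, one_mul] at h1
  have h11 : M 1 1 = y ^ 2 + M 0 1 * M 1 0 := by linear_combination h1
  rw [Matrix.det_fin_three, h0, h11] at hM
  have h22 : M 2 2 = M 2 0 * M 0 2 + (M 2 1 - M 0 1 * M 2 0) / y * ((M 1 2 - M 0 2 * M 1 0) / y) + y⁻¹ * y⁻¹ := by
    field_simp
    linear_combination hM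
  ext i j
  fin_cases i <;> fin_cases j <;> simp [Matrix.mul_apply, Fin.sum_univ_three, h0]
  · rw [h11]; ring
  · field_simp
    ring
  · field_simp
    ring
  · exact h22

theorem core {F : Type*} [Field F] [Fintype F] (X : Matrix (Fin 3) (Fin 3) F) (hX : X.det = 1)
    (H : ∀ M : Matrix (Fin 3) (Fin 3) F, M.det = 1 → (∀ c : F, M ≠ c • (1 : Matrix (Fin 3) (Fin 3) F)) →
      ∃ N P Q B C : Matrix (Fin 3) (Fin 3) F, N.det = 1 ∧ P.det = 1 ∧ Q.det = 1 ∧ B.det = 1 ∧ C.det = 1 ∧
        M * N = N * (B * C) ∧ B * P = P * X ∧ C * Q = Q * X)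
    (g : Matrix.ProjectiveSpecialLinearGroup (Fin 3) F) (hg : g ≠ 1) :
    ∃ u v : Matrix.ProjectiveSpecialLinearGroup (Fin 3) F,
      g = (u * (QuotientGroup.mk (⟨X, hX⟩ : Matrix.SpecialLinearGroup (Fin 3) F) : Matrix.ProjectiveSpecialLinearGroup (Fin 3) F) * u⁻¹) *
        (v * (QuotientGroup.mk (⟨X, hX⟩ : Matrix.SpecialLinearGroup (Fin 3) F) : Matrix.ProjectiveSpecialLinearGroup (Fin 3) F) * v⁻¹) := by
  obtain ⟨m, rfl⟩ := QuotientGroup.mk_surjective g
  have hns : ∀ c : F, (m : Matrix (Fin 3) (Fin 3) F) ≠ c • (1 : Matrix (Fin 3) (Fin 3) F) := by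
    intro c hc
    apply hg
    rw [QuotientGroup.eq_one_iff, Subgroup.mem_center_iff]
    intro k
    apply Subtype.ext
    rw [Matrix.SpecialLinearGroup.coe_mul, Matrix.SpecialLinearGroup.coe_mul, hc]
    simp
  obtain ⟨N, P, Q, B, C, hN, hP, hQ, hB, hC, h1, h2, h3⟩ := H m.1 m.2 hns
  let x : Matrix.SpecialLinearGroup (Fin 3) F := ⟨X, hX⟩
  let n : Matrix.SpecialLinearGroup (Fin 3) F := ⟨N, hN⟩
  let p : Matrix.SpecialLinearGroup (Fin 3) F := ⟨P, hP⟩
  let q : Matrix.SpecialLinearGroup (Fin 3) F := ⟨Q, hQ⟩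
  let b : Matrix.SpecialLinearGroup (Fin 3) F := ⟨B, hB⟩
  let c : Matrix.SpecialLinearGroup (Fin 3) F := ⟨C, hC⟩
  have e1 : m * n = n * (b * c) := Subtype.ext h1
  have e2 : b * p = p * x := Subtype.ext h2
  have e3 : c * q = q * x := Subtype.ext h3
  refine ⟨QuotientGroup.mk (n * p), QuotientGroup.mk (n * q), ?_⟩
  have e4 : m = (n * p) * x * (n * p)⁻¹ * ((n * q) * x * (n * q)⁻¹) := by
    have e1' : m = n * (b * c) * n⁻¹ := eq_mul_inv_of_mul_eq e1
    have e2' : b = p * x * p⁻¹ := eq_mul_inv_of_mul_eq e2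
    have e3' : c = q * x * q⁻¹ := eq_mul_inv_of_mul_eq e3
    rw [e1', e2', e3']
    group
  exact congrArg (QuotientGroup.mk : _ → Matrix.ProjectiveSpecialLinearGroup (Fin 3) F) e4

/-! ### the field with three elements -/

/-- digit of a coded matrix -/
def dg (P k : ℕ) : ℕ := P / 3 ^ k % 3

/-- the determinant is one -/
def detOK (A : ℕ) : Bool :=
  (dg A 0 * dg A 4 * dg A 8 + dg A 1 * dg A 5 * dg A 6 + dg A 2 * dg A 3 * dg A 7) % 3 ==
    (1 + (dg A 0 * dg A 5 * dg A 7 + dg A 1 * dg A 3 * dg A 8 + dg A 2 * dg A 4 * dg A 6)) % 3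

/-- `A B = C D` -/
def mulOK (A B C D : ℕ) : Bool :=
  (List.range 3).all fun i => (List.range 3).all fun j =>
    (dg A (3 * i) * dg B j + dg A (3 * i + 1) * dg B (3 + j) + dg A (3 * i + 2) * dg B (6 + j)) % 3 ==
    (dg C (3 * i) * dg D j + dg C (3 * i + 1) * dg D (3 + j) + dg C (3 * i + 2) * dg D (6 + j)) % 3

/-- the table -/
def tab : List (ℕ × ℕ × ℕ × ℕ × ℕ) :=
  [(2223,3495,3395,13962,18487), (8784,3162,3395,16149,18487), (15345,3741,3395,18336,18487), (2466,3324,3872,16798,18289), (9027,4308,3872,17527,18289), (15588,3171,3872,13882,18289),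
   (2709,3825,3584,18985,18055), (9270,984,3584,13153,18055), (15831,3735,3584,16069,18055), (2304,984,3454,13153,4837), (8865,3735,3454,16069,4837), (15426,3825,3454,18985,4837),
   (2547,3990,3297,15340,3874), (9108,3489,3297,18256,3874), (15669,3426,3297,14611,3874), (2790,3324,3089,16798,1453), (9351,4308,3089,17527,1453), (15912,3171,3089,13882,1453),
   (2385,3324,2387,16798,9862), (8946,4308,2387,17527,9862), (15507,3171,2387,13882,9862), (2628,3171,2465,13882,9628), (9189,3324,2465,16798,9628), (15750,4308,2465,17527,9628),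
   (2871,3735,3558,16069,11581), (9432,3825,3558,18985,11581), (15993,984,3558,13153,11581), (4419,3345,3520,14691,17263), (10980,3408,3520,19065,17263), (17541,3828,3520,16878,17263),
   (4662,3735,3250,16069,15616), (11223,984,3250,13153,15616), (17784,3825,3250,18985,15616), (4905,3489,3772,18256,16840), (11466,3990,3772,15340,16840), (18027,3426,3772,14611,16840),
   (4500,984,3227,13153,2893), (11061,3825,3227,18985,2893), (17622,3735,3227,16069,2893), (4743,3489,3016,18256,1930), (11304,3990,3016,15340,1930), (17865,3426,3016,14611,1930),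
   (4986,4308,3597,17527,5341), (11547,3324,3597,16798,5341), (18108,3171,3597,13882,5341), (4581,3489,2341,18256,13021), (11142,3990,2341,15340,13021), (17703,3426,2341,14611,13021),
   (4824,3825,3363,18985,9142), (11385,3735,3363,16069,9142), (17946,984,3363,13153,9142), (5067,3426,2731,14611,12553), (11628,3489,2731,18256,12553), (18189,3990,2731,15340,12553),
   (13152,2709,3370,1414,9225), (15339,2751,860,15050,13281), (17526,2229,3239,7461,2262), (13395,3735,3358,16069,9379), (15582,3825,3358,18985,9379), (17769,984,3358,13153,9379),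
   (13638,3825,3557,18985,11332), (15825,984,3557,13153,11332), (18012,3735,3557,16069,11332), (13233,3723,2388,14759,14087), (15420,3687,3597,11838,5341), (17607,2223,3546,901,11175),
   (13476,3324,2479,16798,18778), (15663,4308,2479,17527,18778), (17850,3171,2479,13882,18778), (13719,3489,2744,18256,17086), (15906,3426,2744,14611,17086), (18093,3990,2744,15340,17086),
   (13314,2958,2659,9654,5987), (15501,2265,860,14753,13281), (17688,3681,3562,3091,11092), (13557,3990,3623,15340,6550), (15744,3489,3623,18256,6550), (17931,3426,3623,14611,6550),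
   (13800,4308,3274,17527,3400), (15987,3171,3274,13882,3400), (18174,3324,3274,16798,3400), (13161,3162,3959,16149,7639), (2226,3741,3959,18336,7639), (10974,3495,3959,13962,7639),
   (13404,3990,3628,15340,10351), (2469,3489,3628,18256,10351), (11217,3426,3628,14611,10351), (13647,3489,3017,18256,13033), (2712,3426,3017,14611,13033), (11460,3990,3017,15340,13033),
   (13242,3324,2788,16798,18526), (2307,4308,2788,17527,18526), (11055,3171,2788,13882,18526), (13485,3489,2342,18256,16834), (2550,3426,2342,14611,16834), (11298,3990,2342,15340,16834),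
   (13728,3735,3254,16069,15871), (2793,3825,3254,18985,15871), (11541,984,3254,13153,15871), (13323,3489,3773,18256,1924), (2388,3426,3773,14611,1924), (11136,3990,3773,15340,1924),
   (13566,3825,3450,18985,4606), (2631,984,3450,13153,4606), (11379,3735,3450,16069,4606), (13809,3171,4075,13882,5830), (2874,3324,4075,16798,5830), (11622,4308,4075,17527,5830),
   (13170,3408,4180,19065,8602), (8796,3345,4180,14691,8602), (4422,3828,4180,16878,8602), (13413,3324,3088,16798,9865), (9039,4308,3088,17527,9865), (4665,3171,3088,13882,9865),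
   (13656,4308,3287,17527,11818), (9282,3171,3287,13882,11818), (4908,3324,3287,16798,11818), (13251,3489,2651,18256,17311), (8877,3426,2651,14611,17311), (4503,3990,2651,15340,17311),
   (13494,3825,3589,18985,17806), (9120,984,3589,13153,17806), (4746,3735,3589,16069,17806), (13737,3324,2386,16798,18301), (9363,4308,2386,17527,18301), (4989,3171,2386,13882,18301),
   (13332,3324,3871,16798,1438), (8958,4308,3871,17527,1438), (4584,3171,3871,13882,1438), (13575,3426,4226,14611,4120), (9201,3990,4226,15340,4120), (4827,3489,4226,18256,4120),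
   (13818,3735,3228,16069,2428), (9444,3825,3228,18985,2428), (5070,984,3228,13153,2428), (6594,993,993,13319,13319), (8781,993,4296,13319,17693), (10968,993,3975,13319,15506),
   (6837,3171,2385,13882,1441), (9024,4308,2385,17527,1441), (11211,3324,2385,16798,1441), (7080,3426,2340,14611,1936), (9267,3489,2340,18256,1936), (11454,3990,2340,15340,1936),
   (6675,2265,3366,14753,8979), (8862,3687,2790,11838,955), (11049,2952,888,5281,13352), (6918,3426,3771,14611,13027), (9105,3489,3771,18256,13027), (11292,3990,3771,15340,13027),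
   (7161,3171,3870,13882,9877), (9348,4308,3870,17527,9877), (11535,3324,3870,16798,9877), (6756,984,828,13153,13183), (8943,984,3585,13153,17557), (11130,984,3255,13153,15370),
   (6999,984,855,13153,13678), (9186,3825,855,18985,13678), (11373,3735,855,16069,13678), (7242,984,882,13153,13444), (9429,3825,882,18985,13444), (11616,3735,882,16069,13444),
   (6603,3741,2869,18336,5530), (2229,3162,2869,16149,5530), (17538,3495,2869,13962,5530), (6846,3171,2790,13882,955), (2472,4308,2790,17527,955), (17781,3324,2790,16798,955),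
   (7089,3735,3449,16069,5095), (2715,984,3449,13153,5095), (18024,3825,3449,18985,5095), (6684,3489,3317,18256,8401), (2310,3990,3317,15340,8401), (17619,3426,3317,14611,8401),
   (6927,3825,3362,18985,8896), (2553,3735,3362,16069,8896), (17862,984,3362,13153,8896), (7170,3990,3892,15340,10849), (2796,3426,3892,14611,10849), (18105,3489,3892,18256,10849),
   (6765,984,857,13153,13426), (2391,3825,857,18985,13426), (17700,3735,857,16069,13426), (7008,984,884,13153,13192), (2634,3825,884,18985,13192), (17943,3735,884,16069,13192),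
   (7251,984,830,13153,13687), (2877,3825,830,18985,13687), (18186,3735,830,16069,13687), (6612,3828,2570,16878,4306), (15360,3345,2570,14691,4306), (4425,3408,2570,19065,4306),
   (6855,3825,3223,18985,2656), (15603,3735,3223,16069,2656), (4668,984,3223,13153,2656), (7098,3426,2664,14611,1693), (15846,3489,2664,18256,1693), (4911,3990,2664,15340,1693),
   (6693,3324,3607,16798,7915), (15441,3171,3607,13882,7915), (4506,4308,3607,17527,7915), (6936,4308,4139,17527,12055), (15684,3324,4139,16798,12055), (4749,3171,4139,13882,12055),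
   (7179,3735,3562,16069,11092), (15927,984,3562,13153,11092), (4992,3825,3562,18985,11092), (6774,984,883,13153,13669), (15522,3825,883,18985,13669), (4587,3735,883,16069,13669),
   (7017,984,829,13153,13435), (15765,3825,829,18985,13435), (4830,3735,829,16069,13435), (7260,984,856,13153,13201), (16008,3825,856,18985,13201), (5073,3735,856,16069,13201)]

/-- validity of an entry -/
def valid (t : ℕ × ℕ × ℕ × ℕ × ℕ) : Bool :=
  detOK t.2.1 && detOK t.2.2.1 && detOK t.2.2.2.1 && detOK t.2.2.2.2 &&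
  mulOK t.1 6643 t.2.2.2.1 t.2.2.2.2 && mulOK t.2.2.2.1 t.2.1 t.2.1 8993 && mulOK t.2.2.2.2 t.2.2.1 t.2.2.1 8993

theorem tab_valid : (tab.all valid) = true := by decide +kernel

/-- completeness of the table -/
theorem tab_full : ((List.range 3).all fun a => (List.range 3).all fun b => (List.range 3).all fun c =>
    (List.range 3).all fun d => (List.range 3).all fun e => (List.range 3).all fun f =>
    (!((a * f) % 3 == (2 + b * e) % 3)) || tab.any fun t => t.1 == 3 * a + 9 * b + 27 + 81 * c + 243 * d + 2187 * e + 6561 * f) = true := by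
  decide +kernel

/-- decoded matrix -/
def mx (F : Type*) [Field F] (P : ℕ) : Matrix (Fin 3) (Fin 3) F :=
  Matrix.of fun i j => ((dg P (3 * i.1 + j.1) : ℕ) : F)

theorem mx_apply {F : Type*} [Field F] (P : ℕ) (i j : Fin 3) : mx F P i j = ((dg P (3 * i.1 + j.1) : ℕ) : F) := rfl

theorem cast_mod {F : Type*} [Field F] [CharP F 3] {a b : ℕ} (h : a % 3 = b % 3) : (a : F) = (b : F) :=
  (CharP.natCast_eq_natCast F 3).2 h

theorem det_mx {F : Type*} [Field F] [CharP F 3] {A : ℕ} (h : detOK A = true) : (mx F A).det = 1 := by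
  unfold detOK at h
  rw [beq_iff_eq] at h
  have h1 := cast_mod (F := F) h
  push_cast at h1
  rw [Matrix.det_fin_three]
  simp only [mx_apply]
  norm_num
  linear_combination h1

theorem mul_mx {F : Type*} [Field F] [CharP F 3] {A B C D : ℕ} (h : mulOK A B C D = true) :
    mx F A * mx F B = mx F C * mx F D := by
  unfold mulOK at h
  simp only [List.all_eq_true, List.mem_range, beq_iff_eq] at h
  ext i j
  have h1 := cast_mod (F := F) (h i.1 i.2 j.1 j.2)
  push_cast at h1
  rw [Matrix.mul_apply, Matrix.mul_apply, Fin.sum_univ_three, Fin.sum_univ_three]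
  simp only [mx_apply]
  norm_num
  exact h1

theorem mx_one {F : Type*} [Field F] : mx F 6643 = 1 := by
  ext i j
  rw [mx_apply]
  fin_cases i <;> fin_cases j <;> simp [dg]

theorem lift3 {F : Type*} [Field F] [Fintype F] [CharP F 3] (h3 : Fintype.card F = 3) (x : F) : ∃ k : ℕ, k < 3 ∧ x = (k : F) := by
  have h := FiniteField.pow_card x
  rw [h3] at h
  have h1 : x * ((x - 1) * (x + 1)) = 0 := by linear_combination h
  rcases mul_eq_zero.1 h1 with h2 | h2
  · exact ⟨0, by norm_num, by rw [h2]; simp⟩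
  · rcases mul_eq_zero.1 h2 with h4 | h4
    · exact ⟨1, by norm_num, by rw [sub_eq_zero.1 h4]; simp⟩
    · refine ⟨2, by norm_num, ?_⟩
      have h5 : ((3 : ℕ) : F) = 0 := CharP.cast_eq_zero F 3
      push_cast at h5 ⊢
      linear_combination h4 - h5

theorem ord_aux {F : Type*} [Field F] (X : Matrix (Fin 3) (Fin 3) F) (hX : X.det = 1) (n : ℕ) (h : X ^ n = 1) :
    orderOf (QuotientGroup.mk (⟨X, hX⟩ : Matrix.SpecialLinearGroup (Fin 3) F) : Matrix.ProjectiveSpecialLinearGroup (Fin 3) F) ∣ n := by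
  apply orderOf_dvd_of_pow_eq_one
  let x : Matrix.SpecialLinearGroup (Fin 3) F := ⟨X, hX⟩
  have h8 : x ^ n = 1 := by
    apply Subtype.ext
    rw [Matrix.SpecialLinearGroup.coe_pow, Matrix.SpecialLinearGroup.coe_one]
    exact h
  have h10 := congrArg (QuotientGroup.mk : _ → Matrix.ProjectiveSpecialLinearGroup (Fin 3) F) h8
  exact h10

theorem case3 {F : Type*} [Field F] [Fintype F] [CharP F 3] (h3 : Fintype.card F = 3)
    (M : Matrix (Fin 3) (Fin 3) F) (hM : M.det = 1) (hns : ∀ c : F, M ≠ c • (1 : Matrix (Fin 3) (Fin 3) F)) :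
    ∃ N P Q B C : Matrix (Fin 3) (Fin 3) F, N.det = 1 ∧ P.det = 1 ∧ Q.det = 1 ∧ B.det = 1 ∧ C.det = 1 ∧
        M * N = N * (B * C) ∧ B * P = P * mx F 8993 ∧ C * Q = Q * mx F 8993 := by
  obtain ⟨v, t, hvt⟩ := H29.ThreeFac.exists_v M hns
  set w := M *ᵥ v with hw
  let N : Matrix (Fin 3) (Fin 3) F := Matrix.of fun i j => ![v i, w i, t i / H29.ThreeFac.D v w t] j
  have n0 : ∀ i, N i 0 = v i := fun i => rfl
  have n1 : ∀ i, N i 1 = w i := fun i => rfl
  have n2 : ∀ i, N i 2 = t i / H29.ThreeFac.D v w t := fun i => rfl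
  have hN : N.det = 1 := by
    rw [Matrix.det_fin_three]
    simp only [n0, n1, n2]
    field_simp
    rw [H29.ThreeFac.D_eq]
    ring
  have hNu : IsUnit N.det := by rw [hN]; exact isUnit_one
  have hNN : N * N⁻¹ = 1 := Matrix.mul_nonsing_inv _ hNu
  have hNN' : N⁻¹ * N = 1 := Matrix.nonsing_inv_mul _ hNu
  set M' := N⁻¹ * M * N with hM'
  have hM'd : M'.det = 1 := by
    rw [hM', Matrix.det_mul, Matrix.det_mul, hM, mul_one, ← Matrix.det_mul, hNN', Matrix.det_one]
  have hMN : M * N = N * M' := by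
    rw [hM', ← mul_assoc, ← mul_assoc, hNN, one_mul]
  have hcol0 : N *ᵥ Pi.single 0 1 = v := by
    ext i; rw [Matrix.mulVec_single_one]; exact n0 i
  have hcol1 : N *ᵥ Pi.single 1 1 = w := by
    ext i; rw [Matrix.mulVec_single_one]; exact n1 i
  have hM0 : M' *ᵥ Pi.single 0 1 = Pi.single 1 1 := by
    rw [hM', ← Matrix.mulVec_mulVec, hcol0, ← Matrix.mulVec_mulVec, ← hw, ← hcol1, Matrix.mulVec_mulVec, hNN',
      Matrix.one_mulVec]
  have m0 : ∀ i, M' i 0 = (Pi.single 1 1 : Fin 3 → F) i := by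
    intro i
    rw [← hM0, Matrix.mulVec_single_one]; rfl
  have m00 : M' 0 0 = 0 := m0 0
  have m10 : M' 1 0 = 1 := m0 1
  have m20 : M' 2 0 = 0 := m0 2
  obtain ⟨a, ha, ea⟩ := lift3 h3 (M' 0 1)
  obtain ⟨b, hb, eb⟩ := lift3 h3 (M' 0 2)
  obtain ⟨c, hc, ec⟩ := lift3 h3 (M' 1 1)
  obtain ⟨d, hd, ed⟩ := lift3 h3 (M' 1 2)
  obtain ⟨e, he, ee⟩ := lift3 h3 (M' 2 1)
  obtain ⟨f, hf, ef⟩ := lift3 h3 (M' 2 2)
  have hdet : (a * f) % 3 = (2 + b * e) % 3 := by
    rw [Matrix.det_fin_three, m00, m10, m20, ea, eb, ec, ed, ee, ef] at hM'd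
    have h5 : ((3 : ℕ) : F) = 0 := CharP.cast_eq_zero F 3
    have h6 : ((a * f : ℕ) : F) = ((2 + b * e : ℕ) : F) := by
      push_cast at h5 ⊢
      linear_combination (-1) * hM'd - h5
    exact (CharP.natCast_eq_natCast F 3).1 h6
  have hfull := tab_full
  simp only [List.all_eq_true, List.mem_range] at hfull
  have h7 := hfull a ha b hb c hc d hd e he f hf
  rw [Bool.or_eq_true] at h7
  rcases h7 with h7 | h7
  · rw [beq_iff_eq.2 hdet] at h7
    exact absurd h7 (by decide)
  rw [List.any_eq_true] at h7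
  obtain ⟨t, ht, ht1⟩ := h7
  rw [beq_iff_eq] at ht1
  have hv := List.all_eq_true.1 tab_valid t ht
  unfold valid at hv
  simp only [Bool.and_eq_true] at hv
  obtain ⟨⟨⟨⟨⟨⟨q1, q2⟩, q3⟩, q4⟩, q5⟩, q6⟩, q7⟩ := hv
  refine ⟨N, mx F t.2.1, mx F t.2.2.1, mx F t.2.2.2.1, mx F t.2.2.2.2, hN, det_mx q1, det_mx q2, det_mx q3, det_mx q4,
    ?_, mul_mx q6, mul_mx q7⟩
  rw [hMN, ← mul_mx (F := F) q5, mx_one, mul_one]
  congr 1
  ext i j
  rw [mx_apply, ht1]
  set cd := 3 * a + 9 * b + 27 + 81 * c + 243 * d + 2187 * e + 6561 * f with hcd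
  have k0 : dg cd 0 = 0 := by unfold dg; rw [hcd]; norm_num; omega
  have k1 : dg cd 1 = a := by unfold dg; rw [hcd]; norm_num; omega
  have k2 : dg cd 2 = b := by unfold dg; rw [hcd]; norm_num; omega
  have k3 : dg cd 3 = 1 := by unfold dg; rw [hcd]; norm_num; omega
  have k4 : dg cd 4 = c := by unfold dg; rw [hcd]; norm_num; omega
  have k5 : dg cd 5 = d := by unfold dg; rw [hcd]; norm_num; omega
  have k6 : dg cd 6 = 0 := by unfold dg; rw [hcd]; norm_num; omega
  have k7 : dg cd 7 = e := by unfold dg; rw [hcd]; norm_num; omega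
  have k8 : dg cd 8 = f := by unfold dg; rw [hcd]; norm_num; omega
  fin_cases i <;> fin_cases j
  · show M' 0 0 = ((dg cd 0 : ℕ) : F); rw [m00, k0]; simp
  · show M' 0 1 = ((dg cd 1 : ℕ) : F); rw [ea, k1]
  · show M' 0 2 = ((dg cd 2 : ℕ) : F); rw [eb, k2]
  · show M' 1 0 = ((dg cd 3 : ℕ) : F); rw [m10, k3]; simp
  · show M' 1 1 = ((dg cd 4 : ℕ) : F); rw [ec, k4]
  · show M' 1 2 = ((dg cd 5 : ℕ) : F); rw [ed, k5]
  · show M' 2 0 = ((dg cd 6 : ℕ) : F); rw [m20, k6]; simp
  · show M' 2 1 = ((dg cd 7 : ℕ) : F); rw [ee, k7]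
  · show M' 2 2 = ((dg cd 8 : ℕ) : F); rw [ef, k8]

/-- A form of Thompson's conjecture for PSL(3,q), q > 2 (covering the non-identity elements), with a semisimple class: for F a finite field of characteristic p with more than 2 elements there is an element x of PSL(3,F) of order prime to p such that every non-identity element of PSL(3,F) is a product of two conjugates of x. -/
theorem result {F : Type*} [Field F] [Fintype F] (p : ℕ) [Fact p.Prime] [CharP F p] (h3 : 3 ≤ Fintype.card F) :
    ∃ x : Matrix.ProjectiveSpecialLinearGroup (Fin 3) F, ¬ p ∣ orderOf x ∧ ∀ g : Matrix.ProjectiveSpecialLinearGroup (Fin 3) F, g ≠ 1 → ∃ u v : Matrix.ProjectiveSpecialLinearGroup (Fin 3) F, g = (u * x * u⁻¹) * (v * x * v⁻¹) := by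
  by_cases hc : Fintype.card F = 3
  · -- the field with three elements
    have hp : p = 3 := by
      have h1 : p ∣ 3 := by
        rw [← hc]
        obtain ⟨n, hp, hn⟩ := FiniteField.card F p
        rw [hn]
        exact dvd_pow_self p n.2.ne'
      exact (Nat.prime_dvd_prime_iff_eq (Fact.out) Nat.prime_three).1 h1
    subst hp
    have hX : (mx F 8993).det = 1 := det_mx (by decide)
    refine ⟨QuotientGroup.mk (⟨mx F 8993, hX⟩ : Matrix.SpecialLinearGroup (Fin 3) F), ?_, core _ hX (fun M h1 h2 => case3 hc M h1 h2)⟩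
    intro hd
    have h8 : (mx F 8993) ^ 8 = 1 := by
      have s1 : mx F 8993 * mx F 8993 = mx F 15634 := by
        rw [mul_mx (F := F) (C := 15634) (D := 6643) (by decide), mx_one, mul_one]
      have s2 : mx F 15634 * mx F 15634 = mx F 13285 := by
        rw [mul_mx (F := F) (C := 13285) (D := 6643) (by decide), mx_one, mul_one]
      have s3 : mx F 13285 * mx F 13285 = 1 := by
        rw [mul_mx (F := F) (C := 6643) (D := 6643) (by decide), mx_one, mul_one]
      rw [show (8 : ℕ) = 2 * 2 * 2 by norm_num, pow_mul, pow_mul, pow_two (mx F 8993), s1, pow_two (mx F 15634), s2, pow_two (mx F 13285), s3]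
    have h9 := ord_aux _ hX 8 h8
    have := hd.trans h9
    omega
  · -- at least four elements
    have hy : ∃ y : F, y ≠ 0 ∧ y ≠ 1 ∧ y ≠ -1 := by
      by_contra hcon
      push Not at hcon
      classical
      have h1 : (Finset.univ : Finset F) ⊆ {0, 1, -1} := by
        intro y _
        simp only [Finset.mem_insert, Finset.mem_singleton]
        by_cases h0 : y = 0
        · exact Or.inl h0
        by_cases h1 : y = 1
        · exact Or.inr (Or.inl h1)
        exact Or.inr (Or.inr (hcon y h0 h1))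
      have h2 := Finset.card_le_card h1
      have h4 : ({0, 1, -1} : Finset F).card ≤ 3 := Finset.card_le_three
      rw [Finset.card_univ] at h2
      omega
    obtain ⟨y, hy0, hy1, hy2⟩ := hy
    have hyi1 : (1 : F) ≠ y⁻¹ := fun h => hy1 (by rw [← inv_inv y, ← h, inv_one])
    have hyi : y ≠ y⁻¹ := by
      intro h
      have h1 : (y - 1) * (y + 1) = 0 := by
        have : y * y = 1 := by
          nth_rewrite 2 [h]
          exact mul_inv_cancel₀ hy0
        linear_combination this
      rcases mul_eq_zero.1 h1 with h2 | h2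
      · exact hy1 (sub_eq_zero.1 h2)
      · exact hy2 (eq_neg_of_add_eq_zero_left h2)
    have hX : (!![1, 0, 0; 0, y, 0; 0, 0, y⁻¹] : Matrix (Fin 3) (Fin 3) F).det = 1 := by
      rw [Matrix.det_fin_three]
      simp [hy0]
    refine ⟨QuotientGroup.mk (⟨_, hX⟩ : Matrix.SpecialLinearGroup (Fin 3) F), ?_, core _ hX ?_⟩
    · intro hd
      have hq : 1 < Fintype.card F := by omega
      have h8 : (!![1, 0, 0; 0, y, 0; 0, 0, y⁻¹] : Matrix (Fin 3) (Fin 3) F) ^ (Fintype.card F - 1) = 1 := by
        have h9 : (!![1, 0, 0; 0, y, 0; 0, 0, y⁻¹] : Matrix (Fin 3) (Fin 3) F) = Matrix.diagonal ![1, y, y⁻¹] := by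
          ext i j
          fin_cases i <;> fin_cases j <;> simp [Matrix.diagonal]
        rw [h9, Matrix.diagonal_pow, ← Matrix.diagonal_one]
        congr 1
        ext i
        fin_cases i
        · simp
        · simpa using FiniteField.pow_card_sub_one_eq_one y hy0
        · simpa using FiniteField.pow_card_sub_one_eq_one y hy0
      have h9 := ord_aux _ hX _ h8
      have h10 : p ∣ Fintype.card F := by
        obtain ⟨n, hp, hn⟩ := FiniteField.card F p
        rw [hn]
        exact dvd_pow_self p n.2.ne'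
      have h11 := (Nat.dvd_sub_iff_right hq.le h10).1 (hd.trans h9)
      exact (Fact.out : p.Prime).one_lt.ne' (Nat.dvd_one.1 h11)
    · intro M hM hns
      obtain ⟨N, M', hN, hM', hMN, h0, h1, -⟩ := H29.ThreeFac.normal_form M hM hns 1 (y ^ 2)
      obtain ⟨a, b, c, a', b', c', hf⟩ := fact4 M' hM' y hy0 h0 h1
      obtain ⟨P, hP, hP2⟩ := conj_lower 1 y y⁻¹ a b c hy1.symm hyi1 hyi
      obtain ⟨Q, hQ, hQ2⟩ := conj_upper 1 y y⁻¹ a' b' c' hy1.symm hyi1 hyi
      refine ⟨N, P, Q, _, _, hN, hP, hQ, ?_, ?_, by rw [hMN, hf], hP2, hQ2⟩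
      · rw [Matrix.det_fin_three]; simp [hy0]
      · rw [Matrix.det_fin_three]; simp [hy0]

end Cfsg.Agent.S2459
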