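import Cfsg.Statements.S2466
import Cfsg.Agent.H16.AltOrders

set_option autoImplicit false
open Cfsg

namespace Cfsg.Agent.S2466

open Cfsg.Agent.H16

/-- Adjacency of odd primes in the prime graph of the alternating groups: let r ≠ s be odd primes at most n. The alternating group of degree n has an element of order r·s if and only if r + s ≤ n. -/
theorem result (n r s : ℕ) (hr : r.Prime) (hs : s.Prime) (hr2 : r ≠ 2) (hs2 : s ≠ 2) (hrs : r ≠ s) (hrn : r ≤ n) (hsn : s ≤ n) :
    (r * s ∈ Set.range (orderOf : alternatingGroup (Fin n) → ℕ)) ↔ r + s ≤ n := by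
  rw [mem_range_orderOf_alternating_iff]
  have h1r := hr.one_lt
  have h1s := hs.one_lt
  have hr3 : 3 ≤ r := by have := hr.two_le; omega
  have hs3 : 3 ≤ s := by have := hs.two_le; omega
  have hcop : Nat.Coprime r s := (Nat.coprime_primes hr hs).2 hrs
  constructor
  · rintro ⟨m, hsum, h2, -, hlcm⟩
    obtain ⟨x, hx, hrx⟩ := exists_mem_dvd_of_prime_dvd_lcm hr m (by rw [hlcm]; exact dvd_mul_right r s)
    obtain ⟨y, hy, hsy⟩ := exists_mem_dvd_of_prime_dvd_lcm hs m (by rw [hlcm]; exact dvd_mul_left s r)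
    have key := countP_weight_le_sum m (fun x => r ∣ x) (fun x => s ∣ x) r s (by
      intro z hz
      have hz2 := h2 z hz
      by_cases h1 : r ∣ z <;> by_cases h3 : s ∣ z
      · rw [if_pos h1, if_pos h3]
        have : r * s ≤ z := Nat.le_of_dvd (by omega) (hcop.mul_dvd_of_dvd_of_dvd h1 h3)
        nlinarith
      · rw [if_pos h1, if_neg h3]; exact Nat.le_of_dvd (by omega) h1
      · rw [if_neg h1, if_pos h3, zero_add]; exact Nat.le_of_dvd (by omega) h3
      · rw [if_neg h1, if_neg h3]; omega)
    have c1 : 1 ≤ m.countP (fun x => r ∣ x) := Multiset.countP_pos.2 ⟨x, hx, hrx⟩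
    have c2 : 1 ≤ m.countP (fun x => s ∣ x) := Multiset.countP_pos.2 ⟨y, hy, hsy⟩
    nlinarith
  · intro h
    refine ⟨{r, s}, ?_, ?_, ?_, ?_⟩
    · simpa using h
    · intro a ha
      simp at ha
      rcases ha with rfl | rfl <;> omega
    · have ho1 : Odd r := hr.odd_of_ne_two hr2
      have ho2 : Odd s := hs.odd_of_ne_two hs2
      have : Even (r + s + 2) := (ho1.add_odd ho2).add (by decide)
      simpa using this
    · have : Multiset.lcm {r, s} = lcm r (lcm s 1) := by
        rw [Multiset.insert_eq_cons, Multiset.lcm_cons, ← Multiset.cons_zero, Multiset.lcm_cons, Multiset.lcm_zero]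
      rw [this, lcm_one_right, normalize_eq]
      exact hcop.lcm_eq_mul

end Cfsg.Agent.S2466
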