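import Cfsg.Statements.S2467
import Cfsg.Agent.H16.AltOrders

set_option autoImplicit false
open Cfsg

namespace Cfsg.Agent.S2467

open Cfsg.Agent.H16

/-- Adjacency of 2 and an odd prime in the prime graph of the alternating groups: let r be an odd prime at most n, with n ≥ 4. The alternating group of degree n has an element of order 2r if and only if r + 4 ≤ n. -/
theorem result (n r : ℕ) (hn : 4 ≤ n) (hr : r.Prime) (hr2 : r ≠ 2) (hrn : r ≤ n) :
    (2 * r ∈ Set.range (orderOf : alternatingGroup (Fin n) → ℕ)) ↔ r + 4 ≤ n := by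
  rw [mem_range_orderOf_alternating_iff]
  have hr3 : 3 ≤ r := by have := hr.two_le; omega
  have hodd : Odd r := hr.odd_of_ne_two hr2
  have hcop : Nat.Coprime 2 r := (Nat.coprime_primes Nat.prime_two hr).2 (Ne.symm hr2)
  constructor
  · rintro ⟨m, hsum, h2, hev, hlcm⟩
    obtain ⟨x, hx, hrx⟩ := exists_mem_dvd_of_prime_dvd_lcm hr m (by rw [hlcm]; exact dvd_mul_left r 2)
    obtain ⟨y, hy, hsy⟩ := exists_mem_dvd_of_prime_dvd_lcm Nat.prime_two m (by rw [hlcm]; exact dvd_mul_right 2 r)
    have key := countP_weight_le_sum m (fun x => Even x) (fun x => r ∣ x) 2 r (by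
      intro z hz
      have hz2 := h2 z hz
      by_cases h1 : Even z <;> by_cases h3 : r ∣ z
      · rw [if_pos h1, if_pos h3]
        have : 2 * r ≤ z := Nat.le_of_dvd (by omega) (hcop.mul_dvd_of_dvd_of_dvd h1.two_dvd h3)
        omega
      · rw [if_pos h1, if_neg h3]; omega
      · rw [if_neg h1, if_pos h3, zero_add]; exact Nat.le_of_dvd (by omega) h3
      · rw [if_neg h1, if_neg h3]; omega)
    have c1 : 1 ≤ m.countP (fun x => r ∣ x) := Multiset.countP_pos.2 ⟨x, hx, hrx⟩
    have c2 : 1 ≤ m.countP (fun x => Even x) := Multiset.countP_pos.2 ⟨y, hy, even_iff_two_dvd.2 hsy⟩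
    have c3 : Even (m.countP (fun x => Even x)) := (even_sum_add_card_iff m).1 hev
    obtain ⟨t, ht⟩ := c3
    have c4 : 2 ≤ m.countP (fun x => Even x) := by omega
    nlinarith
  · intro h
    refine ⟨{2, 2, r}, ?_, ?_, ?_, ?_⟩
    · simp; omega
    · intro a ha
      simp at ha
      rcases ha with rfl | rfl <;> omega
    · have : Even (2 + (2 + r) + 3) := by
        obtain ⟨k, hk⟩ := hodd
        exact ⟨k + 4, by omega⟩
      simpa using this
    · have : Multiset.lcm {2, 2, r} = lcm 2 (lcm 2 (lcm r 1)) := by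
        rw [Multiset.insert_eq_cons, Multiset.lcm_cons, Multiset.insert_eq_cons, Multiset.lcm_cons, ← Multiset.cons_zero, Multiset.lcm_cons, Multiset.lcm_zero]
      rw [this, lcm_one_right, normalize_eq]
      have e : lcm 2 r = 2 * r := hcop.lcm_eq_mul
      rw [e]
      show Nat.lcm 2 (2 * r) = 2 * r
      exact Nat.lcm_eq_right (dvd_mul_right 2 r)

end Cfsg.Agent.S2467
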