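import Cfsg.Statements.S2478
import Cfsg.Agent.H16.ClsGL3

set_option autoImplicit false
open Cfsg

namespace Cfsg.Agent.S2478

/-- The number of conjugacy classes of GL(n,q): for F a finite field with q elements and n ≥ 1, the number k of conjugacy classes of GL(n,F) satisfies q^n − q^(n−1) ≤ k ≤ q^n. -/
theorem result {F : Type*} [Field F] [Fintype F] (n : ℕ) (hn : 1 ≤ n) :
    Fintype.card F ^ n - Fintype.card F ^ (n - 1) ≤ Nat.card (ConjClasses (Matrix.GeneralLinearGroup (Fin n) F)) ∧ Nat.card (ConjClasses (Matrix.GeneralLinearGroup (Fin n) F)) ≤ Fintype.card F ^ n := by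
  classical
  refine ⟨?_, Cfsg.Agent.H16.ClsGL.card_classes_le n⟩
  obtain ⟨p, hp⟩ := CharP.exists F
  haveI := hp
  haveI : Fact p.Prime := ⟨(CharP.char_is_prime_or_zero F p).resolve_right (CharP.char_ne_zero_of_finite F p)⟩
  have h1 := Cfsg.Agent.H16.SSim.card_gl_ss (F := F) p (n := n) hn
  have h2 : Fintype.card F ^ n - Fintype.card F ^ (n - 1) = (Fintype.card F - 1) * Fintype.card F ^ (n - 1) := by
    rw [Nat.sub_mul, one_mul, ← pow_succ', Nat.sub_add_cancel hn]
  rw [h2, ← h1]
  exact Nat.card_le_card_of_injective (fun c => c.1) Subtype.val_injective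

end Cfsg.Agent.S2478
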