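import Cfsg.Statements.S2485
import Cfsg.Agent.H16.Trace

set_option autoImplicit false
open scoped Pointwise
open Cfsg

namespace Cfsg.Agent.S2485

open Matrix H16

section
variable {q k : ℕ} [hqp : Fact q.Prime]

local notation "M₂" => Matrix (Fin 2) (Fin 2) (ZMod q)

lemma neg_one_nonsq (hk : q + 1 = 2 ^ k) (hq : 7 ≤ q) (c : ZMod q) : c * c ≠ -1 := by
  intro h
  have h1 : IsSquare (-1 : ZMod q) := ⟨c, h.symm⟩
  have h2 := ZMod.mod_four_ne_three_of_sq_eq_neg_one (p := q) (y := c) (by rw [pow_two]; exact h)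
  apply h2
  have h3 : 2 ≤ k := by
    by_contra hn
    have : k < 2 := by omega
    interval_cases k <;> omega
  obtain ⟨m, rfl⟩ := Nat.exists_eq_add_of_le h3
  rw [pow_add] at hk
  omega

lemma sum_sq_ne {a b : ZMod q} (hns : ∀ c : ZMod q, c * c ≠ -1) (hab : (a, b) ≠ (0, 0)) : a * a + b * b ≠ 0 := by
  intro h
  by_cases hb : b = 0
  · rw [hb] at h
    have : a * a = 0 := by linear_combination h
    exact hab (by rw [hb, mul_self_eq_zero.1 this])
  · apply hns (a / b)
    field_simp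
    linear_combination h

/-- the element of order 4 -/
noncomputable def A0 (q : ℕ) [Fact q.Prime] : GL (Fin 2) (ZMod q) := GeneralLinearGroup.mkOfDetNeZero !![0, 1; -1, 0] (by rw [det_fin_two_of]; simp)

lemma A0_coe : (A0 q : M₂) = !![0, 1; -1, 0] := rfl

lemma center_gl {g : GL (Fin 2) (ZMod q)} : g ∈ Subgroup.center (GL (Fin 2) (ZMod q)) ↔ IsScal (g : M₂) := by
  rw [Matrix.GeneralLinearGroup.mem_center_iff_val_mem_range_scalar]
  constructor
  · rintro ⟨r, hr⟩
    rw [isScal_iff]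
    refine ⟨r, ?_⟩
    rw [← hr]
    ext i j
    fin_cases i <;> fin_cases j <;> simp
  · intro h
    rw [isScal_iff] at h
    obtain ⟨r, hr⟩ := h
    refine ⟨r, ?_⟩
    rw [hr]
    ext i j
    fin_cases i <;> fin_cases j <;> simp


lemma gl_ext {a b : GL (Fin 2) (ZMod q)} (h : (a : M₂) = b) : a = b := Units.ext h

local notation "GG" => GL (Fin 2) (ZMod q)
local notation "PP" => GL (Fin 2) (ZMod q) ⧸ Subgroup.center (GL (Fin 2) (ZMod q))

noncomputable def m1 (hns : ∀ c : ZMod q, c * c ≠ -1) (a b : ZMod q) (h : (a, b) ≠ (0, 0)) : GL (Fin 2) (ZMod q) :=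
  GeneralLinearGroup.mkOfDetNeZero !![a, b; -b, a] (by
    rw [det_fin_two_of]; have := sum_sq_ne hns h; intro h'; apply this; linear_combination h')

noncomputable def m2 (hns : ∀ c : ZMod q, c * c ≠ -1) (a b : ZMod q) (h : (a, b) ≠ (0, 0)) : GL (Fin 2) (ZMod q) :=
  GeneralLinearGroup.mkOfDetNeZero !![a, b; b, -a] (by
    rw [det_fin_two_of]; have := sum_sq_ne hns h; intro h'; apply this; linear_combination -h')

lemma m1_coe (hns : ∀ c : ZMod q, c * c ≠ -1) (a b : ZMod q) (h : (a, b) ≠ (0, 0)) : (m1 hns a b h : M₂) = !![a, b; -b, a] := rfl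
lemma m2_coe (hns : ∀ c : ZMod q, c * c ≠ -1) (a b : ZMod q) (h : (a, b) ≠ (0, 0)) : (m2 hns a b h : M₂) = !![a, b; b, -a] := rfl

/-- the centralizer of the class of A0, and its preimage -/
noncomputable def C0 (q : ℕ) [Fact q.Prime] : Subgroup (GL (Fin 2) (ZMod q) ⧸ Subgroup.center (GL (Fin 2) (ZMod q))) :=
  Subgroup.centralizer {QuotientGroup.mk (A0 q)}

lemma mem_C0_iff {g : GG} : (QuotientGroup.mk g : PP) ∈ C0 q ↔ ∃ c : ZMod q, (A0 q : M₂) * g = c • ((g : M₂) * A0 q) := by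
  unfold C0
  rw [Subgroup.mem_centralizer_singleton_iff]
  have e : (QuotientGroup.mk g : PP) * QuotientGroup.mk (A0 q) = QuotientGroup.mk (A0 q) * QuotientGroup.mk g ↔
      (QuotientGroup.mk (g * A0 q) : PP) = QuotientGroup.mk (A0 q * g) := Iff.rfl
  rw [e, QuotientGroup.eq, center_gl, isScal_iff]
  constructor
  · rintro ⟨c, hc⟩
    refine ⟨c, ?_⟩
    have h1 : A0 q * g = (g * A0 q) * ((g * A0 q)⁻¹ * (A0 q * g)) := by group
    have h2 : (A0 q : M₂) * g = ((g * A0 q : GG) : M₂) * (((g * A0 q)⁻¹ * (A0 q * g) : GG) : M₂) := by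
      rw [← Units.val_mul, ← Units.val_mul, ← h1]
    rw [h2, hc, Matrix.mul_smul, Matrix.mul_one]
    rfl
  · rintro ⟨c, hc⟩
    refine ⟨c, ?_⟩
    rw [Units.val_mul, Units.val_mul, hc, Matrix.mul_smul]
    rw [show (((g * A0 q)⁻¹ : GG) : M₂) * ((g : M₂) * (A0 q : M₂)) = 1 from by
      rw [← Units.val_mul g, ← Units.val_mul, inv_mul_cancel, Units.val_one]]

lemma C0_forms (hns : ∀ c : ZMod q, c * c ≠ -1) {g : GG} (hg : (QuotientGroup.mk g : PP) ∈ C0 q) :
    ∃ (a b : ZMod q) (h : (a, b) ≠ (0, 0)), g = m1 hns a b h ∨ g = m2 hns a b h := by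
  obtain ⟨c, hc⟩ := mem_C0_iff.1 hg
  rw [A0_coe] at hc
  have h00 := congrFun (congrFun hc 0) 0
  have h01 := congrFun (congrFun hc 0) 1
  have h10 := congrFun (congrFun hc 1) 0
  have h11 := congrFun (congrFun hc 1) 1
  simp [Matrix.mul_apply, Fin.sum_univ_two] at h00 h01 h10 h11
  have hdet : (g : M₂) 0 0 * (g : M₂) 1 1 - (g : M₂) 0 1 * (g : M₂) 1 0 ≠ 0 := by
    rw [← det_fin_two]
    exact (Matrix.isUnit_iff_isUnit_det _).1 g.isUnit |>.ne_zero
  have hne : ((g : M₂) 0 0, (g : M₂) 0 1) ≠ (0, 0) := by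
    intro h
    apply hdet
    rw [(Prod.mk.inj h).1, (Prod.mk.inj h).2]; ring
  refine ⟨(g : M₂) 0 0, (g : M₂) 0 1, hne, ?_⟩
  have hc2 : (c - 1) * (c + 1) = 0 := by
    by_contra hcc
    apply hne
    have e1 : ((c - 1) * (c + 1)) * (g : M₂) 0 0 = 0 := by linear_combination -c * h01 - h10
    have e2 : ((c - 1) * (c + 1)) * (g : M₂) 0 1 = 0 := by linear_combination c * h00 + h11
    rw [(mul_eq_zero.1 e1).resolve_left hcc, (mul_eq_zero.1 e2).resolve_left hcc]
  rcases mul_eq_zero.1 hc2 with h | h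
  · left
    have hc1 : c = 1 := by linear_combination h
    rw [hc1] at h00 h01
    apply gl_ext
    rw [m1_coe]
    ext i j
    fin_cases i <;> fin_cases j <;> simp [h00, h01]
  · right
    have hc1 : c = -1 := by linear_combination h
    rw [hc1] at h00 h01
    apply gl_ext
    rw [m2_coe]
    ext i j
    fin_cases i <;> fin_cases j <;> simp [h00, h01]

lemma m1_mem (hns : ∀ c : ZMod q, c * c ≠ -1) (a b : ZMod q) (h : (a, b) ≠ (0, 0)) : (QuotientGroup.mk (m1 hns a b h) : PP) ∈ C0 q := by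
  rw [mem_C0_iff]
  refine ⟨1, ?_⟩
  rw [m1_coe, A0_coe]
  ext i j
  fin_cases i <;> fin_cases j <;> simp [Matrix.mul_apply, Fin.sum_univ_two]

lemma m2_mem (hns : ∀ c : ZMod q, c * c ≠ -1) (a b : ZMod q) (h : (a, b) ≠ (0, 0)) : (QuotientGroup.mk (m2 hns a b h) : PP) ∈ C0 q := by
  rw [mem_C0_iff]
  refine ⟨-1, ?_⟩
  rw [m2_coe, A0_coe]
  ext i j
  fin_cases i <;> fin_cases j <;> simp [Matrix.mul_apply, Fin.sum_univ_two]

lemma card_comap (h2 : (2 : ZMod q) ≠ 0) (hns : ∀ c : ZMod q, c * c ≠ -1) : Nat.card ((C0 q).comap (QuotientGroup.mk' (Subgroup.center (GL (Fin 2) (ZMod q))))) = 2 * (q ^ 2 - 1) := by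
  classical
  let X := {p : ZMod q × ZMod q // p ≠ (0, 0)}
  have hX : Nat.card X = q ^ 2 - 1 := by
    rw [Nat.card_eq_fintype_card, Fintype.card_subtype_compl]
    simp [ZMod.card, pow_two]
  let f : X ⊕ X → (C0 q).comap (QuotientGroup.mk' (Subgroup.center (GL (Fin 2) (ZMod q)))) :=
    Sum.elim (fun p => ⟨m1 hns p.1.1 p.1.2 p.2, m1_mem hns _ _ _⟩) (fun p => ⟨m2 hns p.1.1 p.1.2 p.2, m2_mem hns _ _ _⟩)
  have hf : Function.Bijective f := by
    constructor
    · rintro (⟨⟨a, b⟩, h⟩ | ⟨⟨a, b⟩, h⟩) (⟨⟨a', b'⟩, h'⟩ | ⟨⟨a', b'⟩, h'⟩) hab <;> have hab' := congrArg (fun x => ((x.1 : GG) : M₂)) hab <;>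
        simp only [f, Sum.elim_inl, Sum.elim_inr, m1_coe, m2_coe] at hab'
      · have e00 := congrFun (congrFun hab' 0) 0
        have e01 := congrFun (congrFun hab' 0) 1
        simp at e00 e01
        subst e00; subst e01; rfl
      · exfalso
        have e00 := congrFun (congrFun hab' 0) 0
        have e01 := congrFun (congrFun hab' 0) 1
        have e10 := congrFun (congrFun hab' 1) 0
        have e11 := congrFun (congrFun hab' 1) 1
        simp at e00 e01 e10 e11
        apply h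
        have k1 : (2 : ZMod q) * a = 0 := by linear_combination e11 + e00
        have k2 : (2 : ZMod q) * b = 0 := by linear_combination -e10 + e01
        rw [(mul_eq_zero.1 k1).resolve_left h2, (mul_eq_zero.1 k2).resolve_left h2]
      · exfalso
        have e00 := congrFun (congrFun hab' 0) 0
        have e01 := congrFun (congrFun hab' 0) 1
        have e10 := congrFun (congrFun hab' 1) 0
        have e11 := congrFun (congrFun hab' 1) 1
        simp at e00 e01 e10 e11
        apply h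
        have k1 : (2 : ZMod q) * a = 0 := by linear_combination -e11 + e00
        have k2 : (2 : ZMod q) * b = 0 := by linear_combination e10 + e01
        rw [(mul_eq_zero.1 k1).resolve_left h2, (mul_eq_zero.1 k2).resolve_left h2]
      · have e00 := congrFun (congrFun hab' 0) 0
        have e01 := congrFun (congrFun hab' 0) 1
        simp at e00 e01
        subst e00; subst e01; rfl
    · rintro ⟨g, hg⟩
      obtain ⟨a, b, h, hg' | hg'⟩ := C0_forms hns hg
      · exact ⟨Sum.inl ⟨(a, b), h⟩, Subtype.ext hg'.symm⟩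
      · exact ⟨Sum.inr ⟨(a, b), h⟩, Subtype.ext hg'.symm⟩
  rw [← Nat.card_congr (Equiv.ofBijective f hf), Nat.card_sum, hX]
  ring

lemma C0_pgroup (hk : q + 1 = 2 ^ k) (hns : ∀ c : ZMod q, c * c ≠ -1) : IsPGroup 2 (C0 q) := by
  rintro ⟨x, hx⟩
  obtain ⟨g, rfl⟩ := QuotientGroup.mk_surjective x
  obtain ⟨a, b, h, hg | hg⟩ := C0_forms hns hx
  · refine ⟨k, ?_⟩
    apply Subtype.ext
    show (QuotientGroup.mk g : PP) ^ (2 ^ k) = 1
    have : (QuotientGroup.mk g : PP) ^ (2 ^ k) = QuotientGroup.mk (g ^ (2 ^ k)) := rfl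
    rw [this, QuotientGroup.eq_one_iff, center_gl, ← hk, hg]
    -- (a + b A)^q = a - b A
    have hA : (m1 hns a b h : M₂) = a • (1 : M₂) + b • (!![0, 1; -1, 0] : M₂) := by
      rw [m1_coe]; ext i j; fin_cases i <;> fin_cases j <;> simp
    have hA2 : (!![0, 1; -1, 0] : M₂) ^ 2 = -1 := by
      rw [pow_two]; ext i j; fin_cases i <;> fin_cases j <;> simp [Matrix.mul_apply, Fin.sum_univ_two]
    have hcomm : Commute (a • (1 : M₂)) (b • (!![0, 1; -1, 0] : M₂)) := by
      unfold Commute SemiconjBy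
      rw [Matrix.smul_mul, Matrix.one_mul, Matrix.mul_smul, Matrix.mul_one]
    have hq4 : ∃ m, q = 4 * m + 3 := by
      have h3 : 2 ≤ k := by
        by_contra hn
        have : k < 2 := by omega
        have := hqp.out.two_le
        interval_cases k
        · omega
        · omega
      obtain ⟨j, rfl⟩ := Nat.exists_eq_add_of_le h3
      rw [pow_add] at hk
      refine ⟨2 ^ j - 1, ?_⟩
      have : 0 < 2 ^ j := by positivity
      omega
    obtain ⟨m, hm⟩ := hq4
    have hAq : (!![0, 1; -1, 0] : M₂) ^ q = -(!![0, 1; -1, 0] : M₂) := by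
      have e : q = 2 * (2 * m + 1) + 1 := by omega
      have e' : (!![0, 1; -1, 0] : M₂) ^ q = (!![0, 1; -1, 0] : M₂) ^ (2 * (2 * m + 1) + 1) := congrArg (fun n : ℕ => (!![0, 1; -1, 0] : M₂) ^ n) e
      rw [e', pow_succ, pow_mul, hA2, Odd.neg_one_pow ⟨m, rfl⟩, neg_one_mul]
    have hpow : (m1 hns a b h : M₂) ^ q = a • (1 : M₂) - b • (!![0, 1; -1, 0] : M₂) := by
      rw [hA, add_pow_char_of_commute q hcomm, _root_.smul_pow, _root_.smul_pow, one_pow, hAq, ZMod.pow_card, ZMod.pow_card, smul_neg, sub_eq_add_neg]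
    rw [Units.val_pow_eq_pow_val, pow_succ, hpow, hA]
    rw [isScal_iff]
    refine ⟨a * a + b * b, ?_⟩
    rw [pow_two] at hA2
    rw [sub_mul, mul_add, mul_add, Matrix.smul_mul, Matrix.smul_mul, Matrix.smul_mul, Matrix.smul_mul, Matrix.one_mul, Matrix.one_mul, Matrix.mul_smul,
      Matrix.mul_one, Matrix.mul_smul, hA2, smul_smul, smul_smul, smul_smul, smul_smul, mul_comm b a, add_smul, smul_neg]
    abel
  · refine ⟨1, ?_⟩
    apply Subtype.ext
    show (QuotientGroup.mk g : PP) ^ (2 ^ 1) = 1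
    have : (QuotientGroup.mk g : PP) ^ (2 ^ 1) = QuotientGroup.mk (g ^ (2 ^ 1)) := rfl
    rw [this, QuotientGroup.eq_one_iff, center_gl, hg, Units.val_pow_eq_pow_val, m2_coe, pow_one, pow_two]
    refine ⟨?_, ?_, ?_⟩ <;> simp [Matrix.mul_apply, Fin.sum_univ_two] <;> ring

lemma C0_index (hk : q + 1 = 2 ^ k) (hq : 7 ≤ q) (h2 : (2 : ZMod q) ≠ 0) (hns : ∀ c : ZMod q, c * c ≠ -1) : ¬ 2 ∣ (C0 q).index := by
  rw [← Subgroup.index_comap_of_surjective _ (QuotientGroup.mk'_surjective (Subgroup.center (GL (Fin 2) (ZMod q))))]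
  have h1 := Subgroup.index_mul_card ((C0 q).comap (QuotientGroup.mk' (Subgroup.center (GL (Fin 2) (ZMod q)))))
  rw [card_comap h2 hns, Matrix.card_GL_field, Fin.prod_univ_two] at h1
  simp only [Fin.val_zero, Fin.val_one, pow_zero, pow_one, Fintype.card_eq_nat_card, Nat.card_zmod] at h1
  rintro ⟨j, hj⟩
  rw [hj] at h1
  have h3 : 2 ≤ k := by
    by_contra hn
    have : k < 2 := by omega
    interval_cases k <;> omega
  obtain ⟨i, rfl⟩ := Nat.exists_eq_add_of_le h3
  rw [pow_add] at hk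
  obtain ⟨m, hm⟩ : ∃ m, q = 4 * m + 3 := by
    refine ⟨2 ^ i - 1, ?_⟩
    have : 0 < 2 ^ i := by positivity
    omega
  have hpos : 0 < q ^ 2 - 1 := by
    have : 1 < q ^ 2 := by nlinarith
    omega
  have h4 : 4 * j = q ^ 2 - q := by
    apply Nat.eq_of_mul_eq_mul_left hpos
    rw [← h1]; ring
  rw [hm] at h4
  have h5 : (4 * m + 3) ^ 2 - (4 * m + 3) = 4 * (4 * m * m + 5 * m + 1) + 2 := by
    have : (4 * m + 3) ^ 2 = 4 * (4 * m * m + 5 * m + 1) + 2 + (4 * m + 3) := by ring
    omega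
  omega


/-- no eigenvectors -/
lemma no_eig (hns : ∀ c : ZMod q, c * c ≠ -1) {A : M₂} (hA : A * A = -1) {v : Fin 2 → ZMod q} (hv : v ≠ 0) {l : ZMod q} (h : A.mulVec v = l • v) : False := by
  have h1 : (A * A).mulVec v = (l * l) • v := by
    rw [← Matrix.mulVec_mulVec, h, Matrix.mulVec_smul, h, smul_smul]
  rw [hA, Matrix.neg_mulVec, Matrix.one_mulVec] at h1
  apply hv
  have h2 : (l * l + 1) • v = 0 := by
    rw [add_smul, one_smul, ← h1]; simp
  rcases smul_eq_zero.1 h2 with h3 | h3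
  · exact absurd (by linear_combination h3) (hns l)
  · exact h3

lemma anti_zero (hns : ∀ c : ZMod q, c * c ≠ -1) {A M : M₂} (hA : A * A = -1) (hAM : A * M = -(M * A)) (hd : M.det = 0) : M = 0 := by
  obtain ⟨v, hv, hMv⟩ := Matrix.exists_mulVec_eq_zero_iff.2 hd
  have hMAv : M.mulVec (A.mulVec v) = 0 := by
    have : M * A = -(A * M) := by rw [hAM, neg_neg]
    rw [Matrix.mulVec_mulVec, this, Matrix.neg_mulVec, ← Matrix.mulVec_mulVec, hMv, Matrix.mulVec_zero, neg_zero]
  set w := A.mulVec v with hw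
  by_cases hdet : v 0 * w 1 - v 1 * w 0 = 0
  · exfalso
    by_cases h0 : v 0 = 0
    · have h1 : v 1 ≠ 0 := by
        intro h1; apply hv; ext i; fin_cases i
        · exact h0
        · exact h1
      apply no_eig hns hA hv (l := w 1 / v 1)
      rw [← hw]
      ext i
      fin_cases i
      · show w 0 = w 1 / v 1 * v 0
        rw [h0, zero_mul] at hdet
        have : v 1 * w 0 = 0 := by linear_combination -hdet
        rw [(mul_eq_zero.1 this).resolve_left h1, h0]; ring
      · show w 1 = w 1 / v 1 * v 1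
        field_simp
    · apply no_eig hns hA hv (l := w 0 / v 0)
      rw [← hw]
      ext i
      fin_cases i
      · show w 0 = w 0 / v 0 * v 0
        field_simp
      · show w 1 = w 0 / v 0 * v 1
        field_simp
        linear_combination hdet
  · -- M * P = 0 with P invertible
    have e1 := congrFun hMv 0
    have e2 := congrFun hMv 1
    have e3 := congrFun hMAv 0
    have e4 := congrFun hMAv 1
    simp only [Matrix.mulVec, dotProduct, Fin.sum_univ_two, Pi.zero_apply] at e1 e2 e3 e4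
    ext i j
    rw [Matrix.zero_apply]
    fin_cases i <;> fin_cases j <;> simp only [Fin.zero_eta, Fin.mk_one]
    · apply mul_left_cancel₀ hdet; rw [mul_zero]; linear_combination w 1 * e1 - v 1 * e3
    · apply mul_left_cancel₀ hdet; rw [mul_zero]; linear_combination v 0 * e3 - w 0 * e1
    · apply mul_left_cancel₀ hdet; rw [mul_zero]; linear_combination w 1 * e2 - v 1 * e4
    · apply mul_left_cancel₀ hdet; rw [mul_zero]; linear_combination v 0 * e4 - w 0 * e2

lemma mk_commute {g h : GG} {c : ZMod q} (hc : (g : M₂) * h = c • ((h : M₂) * g)) :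
    (QuotientGroup.mk g : PP) * QuotientGroup.mk h = QuotientGroup.mk h * QuotientGroup.mk g := by
  have e : (QuotientGroup.mk (h * g) : PP) = QuotientGroup.mk (g * h) := by
    rw [QuotientGroup.eq, center_gl, isScal_iff]
    refine ⟨c, ?_⟩
    rw [Units.val_mul, Units.val_mul, hc, Matrix.mul_smul]
    rw [show (((h * g)⁻¹ : GG) : M₂) * ((h : M₂) * (g : M₂)) = 1 from by
      rw [← Units.val_mul h, ← Units.val_mul, inv_mul_cancel, Units.val_one]]
  exact e.symm

lemma exists_common (h2 : (2 : ZMod q) ≠ 0) (hns : ∀ c : ZMod q, c * c ≠ -1) {A B : GG} (hA : (A : M₂) * A = -1) (hB : (B : M₂) * B = -1) :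
    ∃ m : PP, m ≠ 1 ∧ m * QuotientGroup.mk A = QuotientGroup.mk A * m ∧ m * QuotientGroup.mk B = QuotientGroup.mk B * m := by
  set M : M₂ := (A : M₂) * B - (B : M₂) * A with hM
  have hAM : (A : M₂) * M = -(M * (A : M₂)) := by
    rw [hM]
    have : (A : M₂) * ((A : M₂) * B - (B : M₂) * A) = ((A : M₂) * A) * B - A * B * A := by noncomm_ring
    rw [this, hA]
    have h3 : ((A : M₂) * B - (B : M₂) * A) * A = A * B * A - B * ((A : M₂) * A) := by noncomm_ring
    rw [h3, hA]
    noncomm_ring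
  have hBM : (B : M₂) * M = -(M * (B : M₂)) := by
    rw [hM]
    have : (B : M₂) * ((A : M₂) * B - (B : M₂) * A) = B * A * B - ((B : M₂) * B) * A := by noncomm_ring
    rw [this, hB]
    have h3 : ((A : M₂) * B - (B : M₂) * A) * B = A * ((B : M₂) * B) - B * A * B := by noncomm_ring
    rw [h3, hB]
    noncomm_ring
  by_cases hd : M.det = 0
  · have hM0 := anti_zero hns hA hAM hd
    refine ⟨QuotientGroup.mk A, ?_, rfl, ?_⟩
    · intro h1
      have h1' : (A : GG) ∈ Subgroup.center (GL (Fin 2) (ZMod q)) := (QuotientGroup.eq_one_iff A).1 h1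
      rw [center_gl, isScal_iff] at h1'
      obtain ⟨c, hc⟩ := h1'
      rw [hc] at hA
      have := congrFun (congrFun hA 0) 0
      simp at this
      exact hns c this
    · apply mk_commute (c := 1)
      rw [one_smul, ← sub_eq_zero]; exact hM0
  · refine ⟨QuotientGroup.mk (GeneralLinearGroup.mkOfDetNeZero M hd), ?_, ?_, ?_⟩
    · intro h1
      have h1' : (GeneralLinearGroup.mkOfDetNeZero M hd) ∈ Subgroup.center (GL (Fin 2) (ZMod q)) := (QuotientGroup.eq_one_iff _).1 h1
      rw [center_gl, isScal_iff] at h1'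
      obtain ⟨c, hc⟩ := h1'
      have hc' : M = c • (1 : M₂) := hc
      rw [hc'] at hAM hd
      rw [Matrix.mul_smul, Matrix.mul_one, Matrix.smul_mul, Matrix.one_mul] at hAM
      have h3 : (2 * c) • (A : M₂) = 0 := by
        rw [two_mul, add_smul]; nth_rewrite 1 [hAM]; simp
      rcases smul_eq_zero.1 h3 with h4 | h4
      · rw [(mul_eq_zero.1 h4).resolve_left h2] at hd
        simp at hd
      · rw [h4] at hA
        have := congrFun (congrFun hA 0) 0
        simp at this
    · apply mk_commute (c := -1)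
      show M * (A : M₂) = (-1 : ZMod q) • ((A : M₂) * M)
      rw [hAM]; simp
    · apply mk_commute (c := -1)
      show M * (B : M₂) = (-1 : ZMod q) • ((B : M₂) * M)
      rw [hBM]; simp

end

/-- Let q = 2^k − 1 ≥ 7 be a prime and let G = PGL(2,q), the general linear group of degree 2 over the field with q elements modulo its centre. Then any two Sylow 2-subgroups of G have a non-trivial intersection: for a Sylow 2-subgroup H and every x ∈ G, H ∩ H^x ≠ 1. -/
theorem result {q k : ℕ} [Fact q.Prime] (hk : q + 1 = 2 ^ k) (hq : 7 ≤ q)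
    (H : Sylow 2 (GL (Fin 2) (ZMod q) ⧸ Subgroup.center (GL (Fin 2) (ZMod q))))
    (x : GL (Fin 2) (ZMod q) ⧸ Subgroup.center (GL (Fin 2) (ZMod q))) :
    (H : Subgroup (GL (Fin 2) (ZMod q) ⧸ Subgroup.center (GL (Fin 2) (ZMod q)))) ⊓ MulAut.conj x • (H : Subgroup _) ≠ ⊥ := by
  have hns := neg_one_nonsq hk hq
  have h2 : (2 : ZMod q) ≠ 0 := by
    intro h
    have h3 : ((2 : ℕ) : ZMod q) = 0 := by exact_mod_cast h
    rw [ZMod.natCast_eq_zero_iff] at h3
    have := Nat.le_of_dvd (by norm_num) h3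
    omega
  let P0 : Sylow 2 (GL (Fin 2) (ZMod q) ⧸ Subgroup.center (GL (Fin 2) (ZMod q))) := (C0_pgroup hk hns).toSylow (C0_index hk hq h2 hns)
  obtain ⟨g, hg⟩ := MulAction.exists_smul_eq (GL (Fin 2) (ZMod q) ⧸ Subgroup.center (GL (Fin 2) (ZMod q))) P0 H
  have hH : (H : Subgroup (GL (Fin 2) (ZMod q) ⧸ Subgroup.center (GL (Fin 2) (ZMod q)))) = MulAut.conj g • (C0 q) := by
    rw [← hg]; rfl
  obtain ⟨g', rfl⟩ := QuotientGroup.mk_surjective g
  obtain ⟨x', rfl⟩ := QuotientGroup.mk_surjective x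
  have hA0 : ((A0 q : GL (Fin 2) (ZMod q)) : Matrix (Fin 2) (Fin 2) (ZMod q)) * A0 q = -1 := by
    rw [A0_coe]
    ext i j
    fin_cases i <;> fin_cases j <;> simp [Matrix.mul_apply, Fin.sum_univ_two]
  have hconj : ∀ y A : GL (Fin 2) (ZMod q), (A : Matrix (Fin 2) (Fin 2) (ZMod q)) * A = -1 → ((y * A * y⁻¹ : GL (Fin 2) (ZMod q)) : Matrix (Fin 2) (Fin 2) (ZMod q)) * (y * A * y⁻¹ : GL (Fin 2) (ZMod q)) = -1 := by
    intro y A hA
    rw [← Units.val_mul]
    have e : y * A * y⁻¹ * (y * A * y⁻¹) = y * (A * A) * y⁻¹ := by group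
    rw [e, Units.val_mul, Units.val_mul, Units.val_mul, hA, mul_neg, mul_one, neg_mul, ← Units.val_mul, mul_inv_cancel, Units.val_one]
  obtain ⟨m, hm1, hmA, hmB⟩ := exists_common h2 hns (hconj g' _ hA0) (hconj x' _ (hconj g' _ hA0))
  intro hbot
  apply hm1
  rw [← Subgroup.mem_bot, ← hbot, Subgroup.mem_inf, hH, Subgroup.mem_pointwise_smul_iff_inv_smul_mem, Subgroup.mem_pointwise_smul_iff_inv_smul_mem,
    Subgroup.mem_pointwise_smul_iff_inv_smul_mem]
  have key : ∀ u : GL (Fin 2) (ZMod q) ⧸ Subgroup.center (GL (Fin 2) (ZMod q)), m * (u * QuotientGroup.mk (A0 q) * u⁻¹) = (u * QuotientGroup.mk (A0 q) * u⁻¹) * m →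
      u⁻¹ * m * u ∈ C0 q := by
    intro u hu
    unfold C0
    rw [Subgroup.mem_centralizer_singleton_iff]
    calc u⁻¹ * m * u * QuotientGroup.mk (A0 q) = u⁻¹ * (m * (u * QuotientGroup.mk (A0 q) * u⁻¹)) * u := by group
      _ = QuotientGroup.mk (A0 q) * (u⁻¹ * m * u) := by rw [hu]; group
  constructor
  · have := key (QuotientGroup.mk g') hmA
    rw [← map_inv, MulAut.smul_def, MulAut.conj_apply, inv_inv]
    exact this
  · have := key (QuotientGroup.mk x' * QuotientGroup.mk g') (by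
      have e : (QuotientGroup.mk (x' * (g' * A0 q * g'⁻¹) * x'⁻¹) : GL (Fin 2) (ZMod q) ⧸ Subgroup.center (GL (Fin 2) (ZMod q))) =
        QuotientGroup.mk x' * QuotientGroup.mk g' * QuotientGroup.mk (A0 q) * (QuotientGroup.mk x' * QuotientGroup.mk g')⁻¹ := by
        rw [← QuotientGroup.mk_mul, ← QuotientGroup.mk_mul, ← QuotientGroup.mk_inv, ← QuotientGroup.mk_mul]
        congr 1
        group
      rw [e] at hmB
      exact hmB)
    rw [← map_inv, ← map_inv, MulAut.smul_def, MulAut.conj_apply, MulAut.smul_def, MulAut.conj_apply, inv_inv, inv_inv]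
    rw [_root_.mul_inv_rev] at this
    convert this using 1
    group

end Cfsg.Agent.S2485
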