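import Cfsg.Statements.S2487
import Cfsg.Agent.H16.SylO2

set_option autoImplicit false
open scoped Pointwise
open Cfsg

namespace Cfsg.Agent.S2487

/-- Let m ≥ 4 and let G be the full isometry group of the hyperbolic quadratic form x₁y₁ + ⋯ + x_m y_m on the 2m-dimensional space over the field with 2 elements (the orthogonal group O⁺(2m,2), which contains Ω⁺(2m,2) with index 2). Then any two Sylow 2-subgroups of G have a non-trivial intersection: for a Sylow 2-subgroup H and every x ∈ G, H ∩ H^x ≠ 1. -/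
theorem result {F : Type*} [Field F] [Fintype F] (hF : Fintype.card F = 2) {m : ℕ} (hm : 4 ≤ m)
    (H : Sylow 2 (Cfsg.isometryGroup F (Cfsg.quadFormPlus m F)))
    (x : Cfsg.isometryGroup F (Cfsg.quadFormPlus m F)) :
    (H : Subgroup (Cfsg.isometryGroup F (Cfsg.quadFormPlus m F))) ⊓ MulAut.conj x • (H : Subgroup _) ≠ ⊥ := by
  classical
  open Cfsg.Agent.H5 in
  have key : ∀ (e : Cfsg.isometryGroup F (Cfsg.quadFormPlus m F) ≃* OG (qPlus m F)),
      (H : Subgroup (Cfsg.isometryGroup F (Cfsg.quadFormPlus m F))) ⊓ MulAut.conj x • (H : Subgroup _) ≠ ⊥ := by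
    intro e hbot
    have hfin : Module.finrank F (Fin m ⊕ Fin m → F) = 2 * m := by
      rw [Module.finrank_fintype_fun_eq_card]; simp; ring
    obtain ⟨E, hE, hEm⟩ := std_max (F := F) m
    haveI : Fact (Nat.Prime 2) := ⟨Nat.prime_two⟩
    let P : Sylow 2 (OG (qPlus m F)) := Sylow.mapSurjective (f := e.toMonoidHom) e.surjective H
    let P' : Sylow 2 (OG (qPlus m F)) := Sylow.mapSurjective (f := e.toMonoidHom) e.surjective (x • H)
    have h1 := Cfsg.Agent.H16.SylO.sylow_inf nd_plus hfin (by rw [Nat.card_eq_fintype_card, hF]) (by omega) hE hEm P P'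
    apply h1
    rw [eq_bot_iff]
    rintro y ⟨⟨a, ha, hay⟩, ⟨b, hb, hby⟩⟩
    have hab : a = b := e.injective (hay.trans hby.symm)
    subst hab
    have h2 : a ∈ (H : Subgroup (Cfsg.isometryGroup F (Cfsg.quadFormPlus m F))) ⊓ MulAut.conj x • (H : Subgroup _) := ⟨ha, hb⟩
    rw [hbot, Subgroup.mem_bot] at h2
    rw [h2] at hay
    rw [Subgroup.mem_bot, ← hay]
    exact map_one e
  have e0 := Cfsg.Agent.H5.ogEquiv (Cfsg.Agent.H5.qPlus m F)
  rw [Cfsg.Agent.H5.qPlus_coe] at e0
  exact key e0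

end Cfsg.Agent.S2487
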