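import Cfsg.Statements.S2490
import Cfsg.Agent.H9.PGC

set_option autoImplicit false
open Cfsg

namespace Cfsg.Agent.S2490

/-- Let G be a finite group of order 7920 = 2⁴·3²·5·11 (the order of the smallest Mathieu group) and suppose its prime graph (vertices the prime divisors of the order, distinct p, q joined when there is an element of order pq) is disconnected: the prime divisors split into two non-empty parts with no element of order pq for p in one part and q in the other. Then G is simple. -/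
theorem result {G : Type*} [Group G] [Finite G] (hord : Nat.card G = 7920)
    (hdisc : (∃ A : Set ℕ, (∃ a ∈ A, a.Prime ∧ a ∣ Nat.card G) ∧ (∃ b ∉ A, b.Prime ∧ b ∣ Nat.card G) ∧
      ∀ a ∈ A, ∀ b ∉ A, a.Prime → b.Prime → a ∣ Nat.card G → b ∣ Nat.card G → ¬ ∃ g : G, orderOf g = a * b)) :
    IsSimpleGroup G := by
  obtain ⟨A, ⟨a, haA, hap, had⟩, ⟨b, hbA, hbp, hbd⟩, hno⟩ := hdisc
  haveI : Nontrivial G := by
    rw [← Finite.one_lt_card_iff_nontrivial, hord]; norm_num
  by_contra hns
  have hns' : ∃ N : Subgroup G, N.Normal ∧ N ≠ ⊥ ∧ N ≠ ⊤ := by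
    by_contra hcon
    push Not at hcon
    exact hns ⟨fun N hN => by
      by_cases h : N = ⊥
      · exact Or.inl h
      · exact Or.inr (hcon N hN h)⟩
  have hA : ∀ (x : G) (r s : ℕ), r.Prime → s.Prime → r ≠ s → orderOf x = r →
      s ∣ Nat.card (Subgroup.centralizer ({x} : Set G)) → (r ∈ A ↔ s ∈ A) := by
    intro x r s hr hs hrs hx hsC
    haveI := Fact.mk hs
    obtain ⟨y, hy⟩ := exists_prime_orderOf_dvd_card' (G := Subgroup.centralizer ({x} : Set G)) s hsC
    have hy' : orderOf (y : G) = s := by rw [Subgroup.orderOf_coe]; exact hy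
    have hc : Commute x (y : G) := (Subgroup.mem_centralizer_singleton_iff.mp y.2).symm
    have hxy : orderOf (x * y) = r * s := by
      rw [hc.orderOf_mul_eq_mul_orderOf_of_coprime (by rw [hx, hy']; exact (Nat.coprime_primes hr hs).mpr hrs), hx, hy']
    have hrd : r ∣ Nat.card G := by rw [← hx]; exact orderOf_dvd_natCard x
    have hsd : s ∣ Nat.card G := by rw [← hy']; exact orderOf_dvd_natCard _
    constructor
    · intro h
      by_contra h2
      exact hno r h s h2 hr hs hrd hsd ⟨_, hxy⟩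
    · intro h
      by_contra h2
      exact hno s h r h2 hs hr hsd hrd ⟨_, by rw [hxy, mul_comm]⟩
  have key : (2 ∈ A ↔ 11 ∈ A) ∧ (3 ∈ A ↔ 11 ∈ A) ∧ (5 ∈ A ↔ 11 ∈ A) := by
    by_cases h : ∃ N : Subgroup G, N.Normal ∧ N ≠ ⊥ ∧ ¬ 11 ∣ Nat.card N
    · obtain ⟨N, hN, hN1, h11⟩ := h
      exact H9.PG.conn_case1 hord hA hN hN1 h11
    · push Not at h
      exact H9.PG.conn_case2 hord hA h hns'
  have hpr : ∀ r : ℕ, r.Prime → r ∣ Nat.card G → (r ∈ A ↔ 11 ∈ A) := by
    intro r hr hrd
    rw [hord] at hrd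
    have h1 : r ∣ 2 ^ 4 * 3 ^ 2 * 5 * 11 := hrd
    rcases (hr.dvd_mul).mp h1 with h2 | h2
    · rcases (hr.dvd_mul).mp h2 with h3 | h3
      · rcases (hr.dvd_mul).mp h3 with h4 | h4
        · rw [(Nat.prime_dvd_prime_iff_eq hr Nat.prime_two).mp (hr.dvd_of_dvd_pow h4)]; exact key.1
        · rw [(Nat.prime_dvd_prime_iff_eq hr Nat.prime_three).mp (hr.dvd_of_dvd_pow h4)]; exact key.2.1
      · rw [(Nat.prime_dvd_prime_iff_eq hr Nat.prime_five).mp h3]; exact key.2.2
    · rw [(Nat.prime_dvd_prime_iff_eq hr (by norm_num)).mp h2]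
  exact hbA ((hpr b hbp hbd).mpr ((hpr a hap had).mp haA))

end Cfsg.Agent.S2490
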