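import Cfsg.Statements.S2503
import Cfsg.Agent.H16.Trace
import Cfsg.Agent.H16.McKay3

set_option autoImplicit false
open Cfsg

namespace Cfsg.Agent.S2503

open Matrix H16

section
variable {F : Type*} [Field F] [Fintype F] [DecidableEq F] [CharP F 2]

local notation "SL₂" => Matrix.SpecialLinearGroup (Fin 2) F
local notation "M₂" => Matrix (Fin 2) (Fin 2) F
local notation "PL₂" => Matrix.ProjectiveSpecialLinearGroup (Fin 2) F

lemma mk_inj : Function.Injective (QuotientGroup.mk' (Subgroup.center (Matrix.SpecialLinearGroup (Fin 2) F))) := by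
  intro A B h
  have h1 : (QuotientGroup.mk A : PL₂) = QuotientGroup.mk B := h
  rcases psl_mk_eq_iff.1 h1 with h2 | h2
  · exact h2.symm
  · rw [h2]
    apply sl_ext
    rw [Matrix.SpecialLinearGroup.coe_neg]
    ext i j
    rw [Matrix.neg_apply, CharTwo.neg_eq]

/-- element of the torus with given first column -/
lemma exists_torus_elt {t x y : F} (h : nf t 1 (x, y) = 1) : ∃ m : SL₂, m ∈ Subgroup.centralizer ({cform t 1 one_ne_zero} : Set SL₂) ∧
    (m : M₂) 0 0 = x ∧ (m : M₂) 1 0 = y := by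
  have hd : (!![x, -y; y, x + t * y] : M₂).det = 1 := by
    rw [det_fin_two_of]; simp only [nf] at h; linear_combination h
  obtain ⟨m, hm⟩ : ∃ D : SL₂, (D : M₂) = !![x, -y; y, x + t * y] := ⟨⟨_, hd⟩, rfl⟩
  refine ⟨m, ?_, by rw [hm]; rfl, by rw [hm]; rfl⟩
  rw [mem_cent_iff, hm, cform_coe]
  ext i j
  fin_cases i <;> fin_cases j <;> simp [Matrix.mul_apply, Fin.sum_univ_two] <;> ring

lemma aba {t : F} (ht : ∀ c : F, c ^ 2 - c * t + 1 ≠ 0) (g : SL₂) :
    ∃ a ∈ Subgroup.centralizer ({cform t 1 one_ne_zero} : Set SL₂), ∃ b ∈ UU F, ∃ c ∈ Subgroup.centralizer ({cform t 1 one_ne_zero} : Set SL₂), g = a * b * c := by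
  have h20 : (2 : F) = 0 := CharTwo.two_eq_zero
  have hr : ringChar F = 2 := ringChar.eq F 2
  obtain ⟨α, hα⟩ := FiniteField.isSquare_of_char_two hr (nf t 1 ((g : M₂) 0 0, (g : M₂) 1 0) - 1)
  obtain ⟨β, hβ⟩ := FiniteField.isSquare_of_char_two hr (nf t 1 ((g : M₂) 0 1, (g : M₂) 1 1) - 1)
  have hdet : (g : M₂) 0 0 * (g : M₂) 1 1 - (g : M₂) 0 1 * (g : M₂) 1 0 = 1 := by
    rw [← det_fin_two]; exact g.2
  have hQ : ∀ x y : F, α * α * x ^ 2 + β * β * y ^ 2 = 0 →
      nf t 1 ((g : M₂) 0 0 * x + (g : M₂) 0 1 * y, (g : M₂) 1 0 * x + (g : M₂) 1 1 * y) = nf t 1 (x, y) := by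
    intro x y h
    rw [← hα, ← hβ] at h
    simp only [nf] at h ⊢
    linear_combination h + (t * x * y) * hdet + x * y * ((g : M₂) 0 0 * (g : M₂) 0 1 + (g : M₂) 1 0 * (g : M₂) 1 1 + t * (g : M₂) 0 1 * (g : M₂) 1 0) * h20
  have hne : ∀ x y : F, (x, y) ≠ (0, 0) → nf t 1 (x, y) ≠ 0 := by
    intro x y hxy h
    simp only [nf] at h
    by_cases hy : y = 0
    · rw [hy] at h
      have : x ^ 2 = 0 := by linear_combination h
      exact hxy (by rw [hy, pow_eq_zero_iff (by norm_num) |>.1 this])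
    · apply ht (-(x / y))
      field_simp
      linear_combination h
  obtain ⟨x, y, hxy, h0⟩ : ∃ x y : F, (x, y) ≠ (0, 0) ∧ α * α * x ^ 2 + β * β * y ^ 2 = 0 := by
    by_cases hab : (β, α) = (0, 0)
    · refine ⟨1, 0, ?_, ?_⟩
      · intro h; exact one_ne_zero (Prod.mk.inj h).1
      · rw [(Prod.mk.inj hab).1, (Prod.mk.inj hab).2]; ring
    · refine ⟨β, α, hab, ?_⟩
      linear_combination (α * α * β * β) * h20
  obtain ⟨s, hs⟩ := FiniteField.isSquare_of_char_two hr (nf t 1 (x, y))⁻¹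
  have hn0 := hne x y hxy
  have h1 : nf t 1 (s * x, s * y) = 1 := by
    have h3 := nf_smul t 1 s (x, y)
    rw [pow_two, ← hs, inv_mul_cancel₀ hn0] at h3
    exact h3
  have h2 := hQ (s * x) (s * y) (by linear_combination (s ^ 2) * h0)
  rw [h1] at h2
  obtain ⟨c, hc, hc0, hc1⟩ := exists_torus_elt h1
  obtain ⟨a, ha, ha0, ha1⟩ := exists_torus_elt h2
  have hb : a⁻¹ * g * c ∈ UU F := by
    have e1 : a * (a⁻¹ * g * c) = g * c := by group
    generalize a⁻¹ * g * c = b at e1 ⊢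
    have e2 : (a : M₂) * (b : M₂) = (g : M₂) * (c : M₂) := by
      rw [← Matrix.SpecialLinearGroup.coe_mul, ← Matrix.SpecialLinearGroup.coe_mul, e1]
    have e00 := congrFun (congrFun e2 0) 0
    have e10 := congrFun (congrFun e2 1) 0
    simp only [Matrix.mul_apply, Fin.sum_univ_two] at e00 e10
    rw [hc0, hc1, ha0] at e00
    rw [hc0, hc1, ha1] at e10
    have hda : (a : M₂) 0 0 * (a : M₂) 1 1 - (a : M₂) 0 1 * (a : M₂) 1 0 = 1 := by
      rw [← det_fin_two]; exact a.2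
    rw [ha0, ha1] at hda
    set X := (g : M₂) 0 0 * (s * x) + (g : M₂) 0 1 * (s * y) with hX
    set Y := (g : M₂) 1 0 * (s * x) + (g : M₂) 1 1 * (s * y) with hY
    -- X b00 + a01 b10 = X, Y b00 + a11 b10 = Y
    have hb0 : (b : M₂) 0 0 = 1 := by
      linear_combination (a : M₂) 1 1 * e00 - (a : M₂) 0 1 * e10 + (1 - (b : M₂) 0 0) * hda
    have hb1 : (b : M₂) 1 0 = 0 := by
      linear_combination X * e10 - Y * e00 + (- (b : M₂) 1 0) * hda
    rw [mem_UU]
    obtain ⟨a', h3, _, h5⟩ := eq_us (g := b) hb1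
    refine ⟨(b : M₂) 0 1, ?_⟩
    rw [h5]
    have : a' = 1 := Units.ext (by rw [h3]; exact hb0)
    rw [this]
    rfl
  refine ⟨a, ha, a⁻¹ * g * c, hb, c⁻¹, inv_mem hc, ?_⟩
  group

end

/-- Let F be a finite field with q = 2^t ≥ 4 elements and L = PSL(2,F). Then L has a cyclic subgroup A of order q + 1 and an elementary abelian 2-subgroup B of order q such that L = ABA: every element of L is a product a·b·a' with a, a' ∈ A and b ∈ B. -/
theorem result {F : Type*} [Field F] [Fintype F]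
    (h2 : 2 ∣ Fintype.card F) (h4 : 4 ≤ Fintype.card F) :
    ∃ A B : Subgroup (Matrix.ProjectiveSpecialLinearGroup (Fin 2) F),
      IsCyclic A ∧ Nat.card A = Fintype.card F + 1 ∧ IsMulCommutative B ∧ (∀ b ∈ B, b * b = 1) ∧
        Nat.card B = Fintype.card F ∧
        ∀ g : Matrix.ProjectiveSpecialLinearGroup (Fin 2) F, ∃ a ∈ A, ∃ b ∈ B, ∃ c ∈ A, g = a * b * c := by
  classical
  haveI hch : CharP F 2 := by
    obtain ⟨n, hp, hn⟩ := FiniteField.card F (ringChar F)
    rw [hn] at h2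
    have := (Nat.prime_dvd_prime_iff_eq Nat.prime_two hp).1 (Nat.prime_two.dvd_of_dvd_pow h2)
    rw [this]
    infer_instance
  obtain ⟨t, ht⟩ := H16.exists_elliptic F
  have hct := H16.cform_trace t 1 one_ne_zero
  have ht' : ∀ c : F, c ^ 2 - c * ((H16.cform t 1 one_ne_zero : Matrix.SpecialLinearGroup (Fin 2) F) : Matrix (Fin 2) (Fin 2) F).trace + 1 ≠ 0 := by
    rw [hct]; exact ht
  have hcyc := H16.cent_cyclic_ell ht'
  have hcard := H16.card_cent_sl2_ell _ ht'
  set T := Subgroup.centralizer ({H16.cform t 1 one_ne_zero} : Set (Matrix.SpecialLinearGroup (Fin 2) F)) with hT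
  set f := QuotientGroup.mk' (Subgroup.center (Matrix.SpecialLinearGroup (Fin 2) F)) with hf
  have hinj : Function.Injective f := mk_inj
  refine ⟨T.map f, (H16.UU F).map f, ?_, ?_, ?_, ?_, ?_, ?_⟩
  · exact isCyclic_of_surjective (T.equivMapOfInjective f hinj) (T.equivMapOfInjective f hinj).surjective
  · rw [← Nat.card_congr (T.equivMapOfInjective f hinj).toEquiv, hcard]
  · refine ⟨⟨?_⟩⟩
    rintro ⟨a, ha⟩ ⟨b, hb⟩
    obtain ⟨a', ha', rfl⟩ := Subgroup.mem_map.1 ha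
    obtain ⟨b', hb', rfl⟩ := Subgroup.mem_map.1 hb
    obtain ⟨x, rfl⟩ := H16.mem_UU.1 ha'
    obtain ⟨y, rfl⟩ := H16.mem_UU.1 hb'
    apply Subtype.ext
    show f (H16.us 1 x) * f (H16.us 1 y) = f (H16.us 1 y) * f (H16.us 1 x)
    rw [← map_mul, ← map_mul]
    congr 1
    apply H16.sl_ext
    rw [Matrix.SpecialLinearGroup.coe_mul, Matrix.SpecialLinearGroup.coe_mul, H16.us_coe, H16.us_coe]
    ext i j
    fin_cases i <;> fin_cases j <;> simp [Matrix.mul_apply, Fin.sum_univ_two]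
    ring
  · intro b hb
    obtain ⟨b', hb', rfl⟩ := Subgroup.mem_map.1 hb
    obtain ⟨y, rfl⟩ := H16.mem_UU.1 hb'
    rw [← map_mul]
    have : H16.us 1 y * H16.us 1 y = 1 := by
      apply H16.sl_ext
      rw [Matrix.SpecialLinearGroup.coe_mul, H16.us_coe]
      ext i j
      fin_cases i <;> fin_cases j <;> simp [Matrix.mul_apply, Fin.sum_univ_two]
      exact CharTwo.add_self_eq_zero y
    rw [this, map_one]
  · rw [← Nat.card_congr ((H16.UU F).equivMapOfInjective f hinj).toEquiv, H16.card_UU]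
  · intro g
    obtain ⟨g', rfl⟩ := QuotientGroup.mk'_surjective _ g
    obtain ⟨a, ha, b, hb, c, hc, h⟩ := aba ht g'
    refine ⟨f a, Subgroup.mem_map_of_mem f ha, f b, Subgroup.mem_map_of_mem f hb, f c, Subgroup.mem_map_of_mem f hc, ?_⟩
    rw [← map_mul, ← map_mul, ← h]

end Cfsg.Agent.S2503
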