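import Cfsg.Statements.S2504
import Cfsg.Agent.H16.AbP2

set_option autoImplicit false
open Cfsg

namespace Cfsg.Agent.S2504

/-- The largest order of an abelian subgroup of the alternating group of degree n is 3^k when n = 3k, 4·3^(k−1) when n = 3k + 1, and 16·3^(k−2) when n = 3k + 2, for every k ≥ 2 (so for all degrees n ≥ 6). -/
theorem result (k : ℕ) (hk : 2 ≤ k) :
    IsGreatest {c : ℕ | ∃ A : Subgroup (alternatingGroup (Fin (3 * k))), IsMulCommutative A ∧ Nat.card A = c} (3 ^ k) ∧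
    IsGreatest {c : ℕ | ∃ A : Subgroup (alternatingGroup (Fin (3 * k + 1))), IsMulCommutative A ∧ Nat.card A = c}
      (4 * 3 ^ (k - 1)) ∧
    IsGreatest {c : ℕ | ∃ A : Subgroup (alternatingGroup (Fin (3 * k + 2))), IsMulCommutative A ∧ Nat.card A = c}
      (16 * 3 ^ (k - 2)) := by
  obtain ⟨k, rfl⟩ := Nat.exists_eq_add_of_le' hk
  refine ⟨⟨(Cfsg.Agent.H16.AbP.hasA_3k _).toAlt, fun c hc => ?_⟩, ⟨?_, fun c hc => ?_⟩, ⟨?_, fun c hc => ?_⟩⟩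
  · rw [← Cfsg.Agent.H16.AbP.f_3k]; exact (Cfsg.Agent.H16.AbP.alt_le hc).1
  · have h := (Cfsg.Agent.H16.AbP.hasA_add Cfsg.Agent.H16.AbP.hasA_four (Cfsg.Agent.H16.AbP.hasA_3k (k + 1))).toAlt
    have e : 4 + 3 * (k + 1) = 3 * (k + 2) + 1 := by ring
    rw [e] at h
    exact h
  · show c ≤ 4 * 3 ^ (k + 1)
    rw [← Cfsg.Agent.H16.AbP.f_3k1]; exact (Cfsg.Agent.H16.AbP.alt_le hc).1
  · have h := (Cfsg.Agent.H16.AbP.hasA_add (Cfsg.Agent.H16.AbP.hasA_add Cfsg.Agent.H16.AbP.hasA_four Cfsg.Agent.H16.AbP.hasA_four) (Cfsg.Agent.H16.AbP.hasA_3k k)).toAlt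
    have e : 4 + 4 + 3 * k = 3 * (k + 2) + 2 := by ring
    rw [e] at h
    exact h
  · exact (Cfsg.Agent.H16.AbP.alt_le hc).2 _ rfl

end Cfsg.Agent.S2504
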