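import Cfsg.Statements.S2505
import Cfsg.Agent.H16.AbP

set_option autoImplicit false
open Cfsg

namespace Cfsg.Agent.S2505

/-- The largest order of an abelian subgroup of the symmetric group of degree n is 3^k when n = 3k, 4·3^(k−1) when n = 3k + 1, and 2·3^k when n = 3k + 2, for every k ≥ 1. -/
theorem result (k : ℕ) (hk : 1 ≤ k) :
    IsGreatest {c : ℕ | ∃ A : Subgroup (Equiv.Perm (Fin (3 * k))), IsMulCommutative A ∧ Nat.card A = c} (3 ^ k) ∧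
    IsGreatest {c : ℕ | ∃ A : Subgroup (Equiv.Perm (Fin (3 * k + 1))), IsMulCommutative A ∧ Nat.card A = c}
      (4 * 3 ^ (k - 1)) ∧
    IsGreatest {c : ℕ | ∃ A : Subgroup (Equiv.Perm (Fin (3 * k + 2))), IsMulCommutative A ∧ Nat.card A = c}
      (2 * 3 ^ k) := by
  obtain ⟨k, rfl⟩ := Nat.exists_eq_add_of_le' hk
  refine ⟨⟨Cfsg.Agent.H16.AbP.has_3k _, fun c hc => ?_⟩, ⟨?_, fun c hc => ?_⟩, ⟨?_, fun c hc => ?_⟩⟩
  · rw [← Cfsg.Agent.H16.AbP.f_3k]; exact Cfsg.Agent.H16.AbP.has_le hc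
  · have h := Cfsg.Agent.H16.AbP.has_add (Cfsg.Agent.H16.AbP.has_cyc 2) (Cfsg.Agent.H16.AbP.has_3k k)
    have e : 2 + 2 + 3 * k = 3 * (k + 1) + 1 := by ring
    rw [e] at h
    exact h
  · show c ≤ 4 * 3 ^ k
    rw [← Cfsg.Agent.H16.AbP.f_3k1]; exact Cfsg.Agent.H16.AbP.has_le hc
  · have h := Cfsg.Agent.H16.AbP.has_add (Cfsg.Agent.H16.AbP.has_3k (k + 1)) (Cfsg.Agent.H16.AbP.has_cyc 0)
    rw [mul_comm (3 ^ (k + 1))] at h
    exact h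
  · rw [← Cfsg.Agent.H16.AbP.f_3k2]; exact Cfsg.Agent.H16.AbP.has_le hc

end Cfsg.Agent.S2505
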