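import Cfsg.Statements.S2510
import Cfsg.Agent.H17.PSLOrders

set_option autoImplicit false
open Cfsg

namespace Cfsg.Agent.S2510


open Cfsg.Agent.H17

/-- Let F be a finite field with q = p^a elements, n ≥ 2 (with q ≥ 4 when n = 2), L = PSL(n, F), and let r be a prime dividing q − 1 and not dividing n. Then for every m the direct product L × L × L × (ℤ/r)^m has the same set of element orders as L × L × L; and if n − 1 ≠ p^j for every j ≥ 0 (so never when n = 2, since 1 = p^0), then already L × L × (ℤ/r)^m has the same set of element orders as L × L. -/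
theorem result {F : Type*} [Field F] [Fintype F] (p a n r m : ℕ) (hp : p.Prime) (ha : 1 ≤ a) (hF : Fintype.card F = p ^ a)
    (hn : 2 ≤ n) (hn2 : n = 2 → 4 ≤ Fintype.card F) (hr : r.Prime) (hrq : r ∣ Fintype.card F - 1) (hrn : ¬ r ∣ n) :
    Set.range (orderOf : Matrix.ProjectiveSpecialLinearGroup (Fin n) F × Matrix.ProjectiveSpecialLinearGroup (Fin n) F × Matrix.ProjectiveSpecialLinearGroup (Fin n) F × Multiplicative (Fin m → ZMod r) → ℕ) =
      Set.range (orderOf : Matrix.ProjectiveSpecialLinearGroup (Fin n) F × Matrix.ProjectiveSpecialLinearGroup (Fin n) F × Matrix.ProjectiveSpecialLinearGroup (Fin n) F → ℕ) ∧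
    ((¬ ∃ j : ℕ, n - 1 = p ^ j) →
      Set.range (orderOf : Matrix.ProjectiveSpecialLinearGroup (Fin n) F × Matrix.ProjectiveSpecialLinearGroup (Fin n) F × Multiplicative (Fin m → ZMod r) → ℕ) =
        Set.range (orderOf : Matrix.ProjectiveSpecialLinearGroup (Fin n) F × Matrix.ProjectiveSpecialLinearGroup (Fin n) F → ℕ)) := by
  classical
  haveI : Fact p.Prime := ⟨hp⟩
  have hn0 : n ≠ 0 := by omega
  haveI hchar : CharP F p := charP_of_card_eq_prime_pow hF
  have hF' : Nat.card F = p ^ a := by rw [Nat.card_eq_fintype_card, hF]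
  have hrq' : r ∣ Nat.card F - 1 := by rw [Nat.card_eq_fintype_card]; exact hrq
  -- minimal T
  obtain ⟨T, hT1, hT2⟩ : ∃ T, p ^ T < n ∧ n ≤ p ^ (T + 1) := by
    have hex : ∃ t, n ≤ p ^ t := ⟨n, (Nat.lt_pow_self hp.one_lt).le⟩
    have h1 := Nat.find_spec hex
    have h2 : Nat.find hex ≠ 0 := by
      intro h
      rw [h, pow_zero] at h1
      omega
    obtain ⟨T, hT⟩ := Nat.exists_eq_succ_of_ne_zero h2
    refine ⟨T, ?_, ?_⟩
    · have := Nat.find_min hex (m := T) (by omega)
      omega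
    · rw [← Nat.succ_eq_add_one, ← hT]; exact h1
  have hqp : Nat.Coprime p (Nat.card F - 1) := by
    rw [Nat.Prime.coprime_iff_not_dvd hp]
    intro h
    have h1 : p ∣ Nat.card F := by rw [hF']; exact dvd_pow_self p (by omega)
    have h2 : 1 ≤ Nat.card F := Nat.card_pos
    have h3 : p ∣ Nat.card F - (Nat.card F - 1) := Nat.dvd_sub h1 h
    rw [Nat.sub_sub_self h2] at h3
    exact hp.one_lt.ne' (Nat.dvd_one.mp h3)
  have hAP : Nat.Coprime (singerOrd (Nat.card F) n) (p ^ (T + 1)) := by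
    apply Nat.Coprime.pow_right
    apply Nat.Coprime.symm
    rw [Nat.Prime.coprime_iff_not_dvd hp]
    intro h
    have h1 : p ∣ Nat.card F ^ n - 1 := by
      refine h.trans ((Nat.div_dvd_of_dvd (Nat.gcd_dvd_left _ _)).trans (Nat.div_dvd_of_dvd ?_))
      simpa using Nat.sub_dvd_pow_sub_pow (Nat.card F) 1 n
    have h2 : p ∣ Nat.card F ^ n := by
      rw [hF', ← pow_mul]; exact dvd_pow_self p (by positivity)
    have h3 : 1 ≤ Nat.card F ^ n := Nat.one_le_pow _ _ Nat.card_pos
    have h4 : p ∣ Nat.card F ^ n - (Nat.card F ^ n - 1) := Nat.dvd_sub h2 h1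
    rw [Nat.sub_sub_self h3] at h4
    exact hp.one_lt.ne' (Nat.dvd_one.mp h4)
  have himp := fun g : Matrix.ProjectiveSpecialLinearGroup (Fin n) F =>
    psl_dichotomy (F := F) hn0 p (T + 1) hT2 r hr hrn hrq' g
  obtain ⟨ζ, hζ⟩ := exists_orderOf_units (F := F) r hr hrq'
  have hx := psl_singer (F := F) hn0
  constructor
  · refine orders_prod3 r _ _ m hr hAP himp hx ?_ ?_
    · refine ⟨QuotientGroup.mk' (Subgroup.center (Matrix.SpecialLinearGroup (Fin n) F)) (unipJ F n n), ?_⟩
      have ho := orderOf_unipJ F n p T n (by omega) le_rfl hT1 hT2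
      rw [orderOf_psl_mk_of_coprime hn0, ho]
      rw [ho]
      exact Nat.Coprime.pow_left _ (Nat.Coprime.coprime_dvd_right (Nat.gcd_dvd_right _ _) hqp)
    · obtain ⟨h, hch, hoh⟩ := exists_commute_unipJ F n hn r hr hrn ζ hζ
      refine ⟨QuotientGroup.mk' (Subgroup.center (Matrix.SpecialLinearGroup (Fin n) F)) h, ?_⟩
      rw [orderOf_psl_mk_of_coprime hn0, hoh]
      rw [hoh]
      exact Nat.Coprime.coprime_dvd_right (Nat.gcd_dvd_left _ _) ((Nat.Prime.coprime_iff_not_dvd hr).mpr hrn)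
  · intro hj
    have hlt : p ^ T < n - 1 := by
      have : n - 1 ≠ p ^ T := fun h => hj ⟨T, h⟩
      omega
    refine orders_prod2 r _ _ m hr hAP himp hx ?_
    obtain ⟨h, hch, hoh⟩ := exists_commute_unipJ F n hn r hr hrn ζ hζ
    have ho := orderOf_unipJ F n p T (n - 1) (by omega) (by omega) hlt (by omega)
    refine ⟨QuotientGroup.mk' (Subgroup.center (Matrix.SpecialLinearGroup (Fin n) F)) (unipJ F n (n - 1) * h), ?_⟩
    have hpr : Nat.Coprime p r := Nat.Coprime.coprime_dvd_right hrq' hqp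
    have hou : orderOf (unipJ F n (n - 1) * h) = p ^ (T + 1) * r := by
      rw [hch.orderOf_mul_eq_mul_orderOf_of_coprime, ho, hoh]
      rw [ho, hoh]
      exact Nat.Coprime.pow_left _ hpr
    rw [orderOf_psl_mk_of_coprime hn0, hou]
    rw [hou]
    apply Nat.Coprime.mul_left
    · exact Nat.Coprime.pow_left _ (Nat.Coprime.coprime_dvd_right (Nat.gcd_dvd_right _ _) hqp)
    · exact Nat.Coprime.coprime_dvd_right (Nat.gcd_dvd_left _ _) ((Nat.Prime.coprime_iff_not_dvd hr).mpr hrn)

end Cfsg.Agent.S2510
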