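import Cfsg.Statements.S2511
import Cfsg.Agent.H17.SuOrdF
import Cfsg.Agent.H17.UH90

set_option autoImplicit false
open Cfsg

namespace Cfsg.Agent.S2511


open Cfsg.Agent.H17

/-- Let F be a finite field with q² elements, q = p^a, n ≥ 3 with (n, q) ≠ (3, 2), L = PSU(n, q) realised over F, and let r be a prime dividing q + 1 and not dividing n. Then for every m the direct product L × L × L × (ℤ/r)^m has the same set of element orders as L × L × L; and if n − 1 is not a power of p, then already L × L × (ℤ/r)^m has the same set of element orders as L × L. -/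
theorem result {F : Type*} [Field F] [Fintype F] (p a n q r m : ℕ) (hp : p.Prime) (ha : 1 ≤ a) (hq : q = p ^ a) (hF : Fintype.card F = q ^ 2)
    (hn : 3 ≤ n) (hn3 : ¬ (n = 3 ∧ q = 2)) (hr : r.Prime) (hrq : r ∣ q + 1) (hrn : ¬ r ∣ n) :
    Set.range (orderOf : Cfsg.PSU n F q × Cfsg.PSU n F q × Cfsg.PSU n F q × Multiplicative (Fin m → ZMod r) → ℕ) = Set.range (orderOf : Cfsg.PSU n F q × Cfsg.PSU n F q × Cfsg.PSU n F q → ℕ) ∧
    ((¬ ∃ j : ℕ, n - 1 = p ^ j) →
      Set.range (orderOf : Cfsg.PSU n F q × Cfsg.PSU n F q × Multiplicative (Fin m → ZMod r) → ℕ) = Set.range (orderOf : Cfsg.PSU n F q × Cfsg.PSU n F q → ℕ)) := by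
  classical
  haveI : Fact p.Prime := ⟨hp⟩
  obtain ⟨σ, hσ, hσσ, hσne⟩ := exists_frobE (F := F) hF
  have hσ2 : ∀ x, σ (σ x) = x := fun x => congrArg (fun f : F ≃+* F => f x) hσσ
  have hσ' : ∀ x, (σ : F →+* F) x = x ^ q := hσ
  have hσ1 : (σ : F →+* F) ≠ RingHom.id F := by
    intro h
    apply hσne
    ext x
    exact congrArg (fun f : F →+* F => f x) h
  have hF' : Nat.card F = q ^ 2 := by rw [Nat.card_eq_fintype_card, hF]
  haveI hchar : CharP F p := charP_of_card_eq_prime_pow (p := p) (f := a * 2) (by rw [hF, hq, ← pow_mul])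
  have hq2 : 2 ≤ q := by
    rw [hq]
    calc 2 ≤ p := hp.two_le
      _ = p ^ 1 := (pow_one _).symm
      _ ≤ p ^ a := Nat.pow_le_pow_right hp.pos ha
  have hn2 : 2 ≤ n := by omega
  have hpq : p ∣ q := by rw [hq]; exact dvd_pow_self p (by omega)
  have hpr : Nat.Coprime p r := by
    rw [Nat.coprime_primes hp hr]
    rintro rfl
    have h1 := (Nat.dvd_add_right hpq).mp hrq
    exact hp.one_lt.ne' (Nat.dvd_one.mp h1)
  -- element of order r
  obtain ⟨ζ, hζ, hζ1⟩ : ∃ ζ : F, orderOf ζ = r ∧ ζ ^ (q + 1) = 1 := by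
    obtain ⟨ζ, hζ⟩ := exists_orderOf_units (F := F) r hr (by
      rw [hF', sq_sub_one']; exact hrq.mul_left _)
    exact ⟨ζ, hζ, by obtain ⟨t, ht⟩ := hrq; rw [ht, pow_mul, ← hζ, pow_orderOf_eq_one, one_pow]⟩
  -- minimal T
  obtain ⟨T, hT1, hT2⟩ : ∃ T, p ^ T < n ∧ n ≤ p ^ (T + 1) := by
    have hex : ∃ t, n ≤ p ^ t := ⟨n, (Nat.lt_pow_self hp.one_lt).le⟩
    have h1 := Nat.find_spec hex
    have h2 : Nat.find hex ≠ 0 := by
      intro h
      rw [h, pow_zero] at h1
      omega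
    obtain ⟨T, hT⟩ := Nat.exists_eq_succ_of_ne_zero h2
    refine ⟨T, ?_, ?_⟩
    · have := Nat.find_min hex (m := T) (by omega)
      omega
    · rw [← Nat.succ_eq_add_one, ← hT]; exact h1
  have hAP : Nat.Coprime (suA q n) (p ^ (T + 1)) := by
    apply Nat.Coprime.pow_right
    apply Nat.Coprime.symm
    rw [Nat.Prime.coprime_iff_not_dvd hp]
    intro h
    have h1 : p ∣ suN q n := by
      rw [← suB_mul q n (by omega)]
      refine dvd_mul_of_dvd_left (h.trans ?_) _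
      unfold suA
      exact Nat.div_dvd_of_dvd (Nat.gcd_dvd_left _ _)
    have h2 : p ∣ q ^ n := dvd_pow hpq (by omega)
    have h3 : 1 ≤ q ^ n := Nat.one_le_pow _ _ (by omega)
    unfold suN at h1
    by_cases he : Even n
    · rw [if_pos he] at h1
      have h4 : p ∣ q ^ n - (q ^ n - 1) := Nat.dvd_sub h2 h1
      rw [Nat.sub_sub_self h3] at h4
      exact hp.one_lt.ne' (Nat.dvd_one.mp h4)
    · rw [if_neg he] at h1
      have h4 := (Nat.dvd_add_right h2).mp h1
      exact hp.one_lt.ne' (Nat.dvd_one.mp h4)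
  have himp := fun g : Cfsg.PSU n F q => su_dichotomy (F := F) hF hσ hσ2 hn2 p a (T + 1) hq hT2 hr hrn hζ hζ1 g
  have hx : ∃ x : Cfsg.PSU n F q, suA q n ∣ orderOf x := by
    apply exu_order (σ := (σ : F →+* F)) hF hσ' hn2
    by_cases he : Even n
    · exact exu_even hF' hσ' hσ1 hσ2 p a hq he (by omega)
    · exact exu_odd hF' hσ' hσ1 hσ2 p a hq he
  have hPr : Nat.Coprime (p ^ (T + 1)) r := Nat.Coprime.pow_left _ hpr
  constructor
  · refine orders_prod3 r _ _ m hr hAP himp hx ?_ ?_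
    · obtain ⟨M, hM1, hM2, hM3⟩ := exu_unip (σ := (σ : F →+* F)) hF hσ' p T (m := n) (by omega) hT1 hT2
      exact exu_order hF hσ' hn2 ⟨M, hM1, hM2, fun j c hj => (hM3 j c hj).2⟩
    · obtain ⟨l, rfl⟩ : ∃ l, n = l + 1 := ⟨n - 1, by omega⟩
      have h1 := exu_prod (σ := (σ : F →+* F)) (q := q) hσ' hσ1 hσ2 (m := l) (M := 1) Matrix.det_one (fun u v => by rw [Matrix.one_mulVec, Matrix.one_mulVec]) (P := 1)
        (fun j c hj => ⟨by
          haveI : Nonempty (Fin l) := ⟨⟨0, by omega⟩⟩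
          rw [one_pow] at hj
          have h2 := congrFun (congrFun hj ⟨0, by omega⟩) ⟨0, by omega⟩
          rw [Matrix.smul_apply, Matrix.one_apply_eq, smul_eq_mul, mul_one] at h2
          exact h2.symm, one_dvd _⟩) hr hrn (Nat.coprime_one_left r) hζ hζ1
      rw [one_mul] at h1
      exact exu_order hF hσ' hn2 h1
  · intro hj
    have hlt : p ^ T < n - 1 := by
      have : n - 1 ≠ p ^ T := fun h => hj ⟨T, h⟩
      omega
    refine orders_prod2 r _ _ m hr hAP himp hx ?_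
    obtain ⟨l, rfl⟩ : ∃ l, n = l + 1 := ⟨n - 1, by omega⟩
    rw [Nat.add_sub_cancel] at hlt
    obtain ⟨M, hM1, hM2, hM3⟩ := exu_unip (σ := (σ : F →+* F)) hF hσ' p T (m := l) (by omega) hlt (by omega)
    exact exu_order hF hσ' hn2 (exu_prod (σ := (σ : F →+* F)) (q := q) hσ' hσ1 hσ2 hM1 hM2 hM3 hr hrn hPr hζ hζ1)

end Cfsg.Agent.S2511
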