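import Cfsg.Statements.S2512
import Cfsg.Agent.H17.SpOrdC
import Cfsg.Agent.H17.OddTwo

set_option autoImplicit false
open Cfsg

namespace Cfsg.Agent.S2512


open Cfsg.Agent.H17

/-- Let F be a finite field of odd order q = p^a, n ≥ 2 (with q ≥ 3 automatic), and L = PSp(2n, F). Then for every m the direct product L × L × L × (ℤ/2)^m has the same set of element orders as L × L × L; and if 2n − 1 is not a power of p, then already L × L × (ℤ/2)^m has the same set of element orders as L × L. -/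
theorem result {F : Type*} [Field F] [Fintype F] (p a n m : ℕ) (hp : p.Prime) (ha : 1 ≤ a) (hF : Fintype.card F = p ^ a) (hodd : Odd (Fintype.card F))
    (hn : 2 ≤ n) :
    Set.range (orderOf : Cfsg.PSp n F × Cfsg.PSp n F × Cfsg.PSp n F × Multiplicative (Fin m → ZMod 2) → ℕ) = Set.range (orderOf : Cfsg.PSp n F × Cfsg.PSp n F × Cfsg.PSp n F → ℕ) ∧
    ((¬ ∃ j : ℕ, 2 * n - 1 = p ^ j) →
      Set.range (orderOf : Cfsg.PSp n F × Cfsg.PSp n F × Multiplicative (Fin m → ZMod 2) → ℕ) = Set.range (orderOf : Cfsg.PSp n F × Cfsg.PSp n F → ℕ)) := by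
  classical
  haveI : Fact p.Prime := ⟨hp⟩
  haveI hchar : CharP F p := charP_of_card_eq_prime_pow hF
  have hF' : Nat.card F = p ^ a := by rw [Nat.card_eq_fintype_card, hF]
  have h2 : (2 : F) ≠ 0 := Cfsg.Agent.H17.two_ne_of_odd hodd
  haveI : NeZero (2 : F) := ⟨h2⟩
  have hqodd : Odd (Nat.card F) := by rw [Nat.card_eq_fintype_card]; exact hodd
  have hp2 : Odd p := by
    rw [hF', Nat.odd_pow_iff (by omega)] at hqodd
    exact hqodd
  -- minimal T
  obtain ⟨T, hT1, hT2⟩ : ∃ T, p ^ T < 2 * n ∧ 2 * n ≤ p ^ (T + 1) := by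
    have hex : ∃ t, 2 * n ≤ p ^ t := ⟨2 * n, (Nat.lt_pow_self hp.one_lt).le⟩
    have h1 := Nat.find_spec hex
    have h2 : Nat.find hex ≠ 0 := by
      intro h
      rw [h, pow_zero] at h1
      omega
    obtain ⟨T, hT⟩ := Nat.exists_eq_succ_of_ne_zero h2
    refine ⟨T, ?_, ?_⟩
    · have := Nat.find_min hex (m := T) (by omega)
      omega
    · rw [← Nat.succ_eq_add_one, ← hT]; exact h1
  obtain ⟨Q, hQ⟩ : ∃ Q, Q = Nat.card F ^ n := ⟨_, rfl⟩
  have hQodd : Odd Q := by rw [hQ]; exact hqodd.pow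
  have hQ1 : 1 < Q := by rw [hQ]; exact Nat.one_lt_pow (by omega) Finite.one_lt_card
  have hpQ : p ∣ Q := by
    rw [hQ, hF', ← pow_mul]
    exact dvd_pow_self p (by positivity)
  have hAP : Nat.Coprime (oddTor (Nat.card F) n) (p ^ (T + 1)) := by
    apply Nat.Coprime.pow_right
    apply Nat.Coprime.symm
    rw [Nat.Prime.coprime_iff_not_dvd hp]
    intro h
    unfold oddTor at h
    rw [← hQ] at h
    obtain ⟨t, ht⟩ := hQodd
    by_cases h4 : Q % 4 = 3
    · rw [if_pos h4] at h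
      have h5 : p ∣ Q - 1 := by
        have : Q - 1 = (Q - 1) / 2 * 2 := by omega
        rw [this]; exact h.mul_right 2
      have h6 := Nat.dvd_sub hpQ h5
      have h7 : Q - (Q - 1) = 1 := by omega
      rw [h7] at h6
      exact hp.one_lt.ne' (Nat.dvd_one.mp h6)
    · rw [if_neg h4] at h
      have h5 : p ∣ Q + 1 := by
        have : Q + 1 = (Q + 1) / 2 * 2 := by omega
        rw [this]; exact h.mul_right 2
      have h6 := (Nat.dvd_add_right hpQ).mp h5
      exact hp.one_lt.ne' (Nat.dvd_one.mp h6)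
  have himp := fun g : Cfsg.PSp n F => sp_dichotomy (F := F) p hn hT2 hqodd g
  have hx : ∃ x : Cfsg.PSp n F, oddTor (Nat.card F) n ∣ orderOf x := by
    unfold oddTor
    rw [← hQ]
    obtain ⟨t, ht⟩ := hQodd
    by_cases h4 : Q % 4 = 3
    · rw [if_pos h4]
      obtain ⟨A, hA, -, hA2⟩ := exists_torus_pos (F := F) n (by omega)
      rw [← hQ] at hA2
      refine ⟨_, order_PSp hn hA (fun j hj => ?_)⟩
      have h5 := hA2 j hj
      have h6 : Q - 1 = 2 * ((Q - 1) / 2) := by omega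
      rw [h6] at h5
      exact Nat.dvd_of_mul_dvd_mul_left (by norm_num) h5
    · rw [if_neg h4]
      obtain ⟨A, hA, -, hA2⟩ := exists_torus_neg (F := F) n (by omega)
      rw [← hQ] at hA2
      refine ⟨_, order_PSp hn hA (fun j hj => ?_)⟩
      have h5 := hA2 j hj
      have h6 : Q + 1 = 2 * ((Q + 1) / 2) := by omega
      rw [h6] at h5
      exact Nat.dvd_of_mul_dvd_mul_left (by norm_num) h5
  have h1n : 1 ≤ n := by omega
  constructor
  · refine orders_prod3 2 _ _ m Nat.prime_two hAP himp hx ?_ ?_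
    · obtain ⟨C, hC, hC2, hC3⟩ := exists_unip (F := F) p h1n (c := T + 1) (Or.inr (by simpa using hT1))
      refine ⟨_, order_PSp hn hC (fun j hj => ?_)⟩
      rcases hj with hj | hj
      · exact hC2 j hj
      · exact absurd hj (hC3 j)
    · obtain ⟨h, hh⟩ := exists_prime_orderOf_dvd_card' 2 (two_dvd_PSp (F := F) hn)
      exact ⟨h, dvd_of_eq hh.symm⟩
  · intro hj
    refine orders_prod2 2 _ _ m Nat.prime_two hAP himp hx ?_
    have hpT : Odd (p ^ T) := hp2.pow
    have hne : 2 * n - 1 ≠ p ^ T := fun h => hj ⟨T, h⟩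
    obtain ⟨l, rfl⟩ : ∃ l, n = 1 + l := ⟨n - 1, by omega⟩
    have hl : 1 ≤ l := by omega
    obtain ⟨C, hC, hC2, hC3⟩ := exists_unip (F := F) p hl (c := T + 1) (Or.inr (by
      obtain ⟨t, ht⟩ := hpT
      simp only [Nat.add_sub_cancel]
      omega))
    obtain ⟨A, hA, hA2⟩ := exists_neg_torus (F := F) 1 (by norm_num) (m := 1) odd_one (Or.inl (one_dvd _))
    obtain ⟨D, hD, hD2⟩ := exists_sp_prod hA hC
    refine ⟨_, order_PSp hn hD (fun j hj => ?_)⟩
    rcases hj with hj | hj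
    · obtain ⟨e1, e2⟩ := (hD2 j).1 hj
      exact Nat.Coprime.mul_dvd_of_dvd_of_dvd (Nat.Coprime.pow_left _ (Nat.coprime_two_right.mpr hp2)) (hC2 j e2) (by simpa using hA2 j e1)
    · exact absurd ((hD2 j).2 hj).2 (hC3 j)

end Cfsg.Agent.S2512
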