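import Cfsg.Statements.S2513
import Cfsg.Agent.H17.GLOrders

set_option autoImplicit false
open Cfsg

namespace Cfsg.Agent.S2513


open Module Polynomial

theorem orderOf_pi_dvd_iff {ι : Type*} {G : Type*} [Group G] (x : ι → G) (m : ℕ) :
    orderOf x ∣ m ↔ ∀ i, orderOf (x i) ∣ m := by
  simp only [orderOf_dvd_iff_pow_eq_one]
  constructor
  · intro h i
    exact congrFun h i
  · intro h
    funext i
    exact h i

theorem key (S : Type*) [Group S] [Finite S] (n k : ℕ) (hk : (n + 3) / 2 ≤ k)
    (h1 : ∀ r e : ℕ, r.Prime → r ≠ 2 → e ≠ 0 → ∀ g : S, orderOf g = r ^ e →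
      ∃ d, 1 ≤ d ∧ d ≤ n ∧ r ^ e ∣ 2 ^ d - 1)
    (h2 : ∀ a b : ℕ, a ≠ 0 → b ≠ 0 → a + b = n → ∃ g : S, orderOf g = Nat.lcm (2 ^ a - 1) (2 ^ b - 1))
    (h3 : ∃ g : S, orderOf g = 2 ^ n - 1) :
    Set.range (orderOf : (Fin k → S) → ℕ) = Set.range (orderOf : (Fin ((n + 3) / 2) → S) → ℕ) := by
  classical
  have hdiv : ∀ (g : S) (m : ℕ), m ∣ orderOf g → ∃ g' : S, orderOf g' = m := by
    intro g m hm
    refine ⟨g ^ (orderOf g / m), ?_⟩
    have hm0 : orderOf g ≠ 0 := (orderOf_pos g).ne'
    rw [orderOf_pow_orderOf_div hm0 hm]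
  apply Set.Subset.antisymm
  · rintro _ ⟨x, rfl⟩
    set m := orderOf x with hm
    have hm0 : m ≠ 0 := by
      rw [hm]; exact (orderOf_pos x).ne'
    -- for each prime r
    have hA : ∀ r ∈ m.primeFactors, ∃ g : S, orderOf g = r ^ (m.factorization r) := by
      intro r hr
      have hrp : r.Prime := Nat.prime_of_mem_primeFactors hr
      have : ∃ j, r ^ (m.factorization r) ∣ orderOf (x j) := by
        by_contra hcon
        push Not at hcon
        have h4 : ∀ j, orderOf (x j) ∣ m / r := by
          intro j
          have h5 : orderOf (x j) ∣ m := (orderOf_pi_dvd_iff x m).mp (dvd_of_eq hm.symm) j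
          have h6 : (orderOf (x j)) ≠ 0 := fun h => hm0 (Nat.eq_zero_of_zero_dvd (h ▸ h5))
          have hrm : r ∣ m := Nat.dvd_of_mem_primeFactors hr
          have hmr0 : m / r ≠ 0 := (Nat.div_pos (Nat.le_of_dvd (Nat.pos_of_ne_zero hm0) hrm) hrp.pos).ne'
          rw [← Nat.factorization_le_iff_dvd h6 hmr0, Nat.factorization_div hrm]
          intro s
          have h7 := (Nat.factorization_le_iff_dvd h6 hm0).mpr h5 s
          simp only [Finsupp.coe_tsub, Pi.sub_apply]
          by_cases hs : s = r
          · subst hs
            have h8 : ¬ m.factorization s ≤ (orderOf (x j)).factorization s := by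
              intro h9
              exact hcon j ((hrp.pow_dvd_iff_le_factorization h6).mpr h9)
            rw [Nat.Prime.factorization_self hrp]
            omega
          · rw [Nat.Prime.factorization hrp, Finsupp.single_eq_of_ne hs]
            omega
        have h10 := (orderOf_pi_dvd_iff x (m / r)).mpr h4
        rw [← hm] at h10
        have h11 := Nat.le_of_dvd (Nat.div_pos (Nat.le_of_dvd (Nat.pos_of_ne_zero hm0) (Nat.dvd_of_mem_primeFactors hr)) hrp.pos) h10
        exact absurd h11 (not_le.mpr (Nat.div_lt_self (Nat.pos_of_ne_zero hm0) hrp.one_lt))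
      obtain ⟨j, hj⟩ := this
      exact hdiv _ _ hj
    have hB : ∀ r ∈ m.primeFactors, r ≠ 2 → ∃ d, 1 ≤ d ∧ d ≤ n ∧ r ^ (m.factorization r) ∣ 2 ^ d - 1 := by
      intro r hr h2
      obtain ⟨g, hg⟩ := hA r hr
      exact h1 r _ (Nat.prime_of_mem_primeFactors hr) h2
        (Nat.pos_iff_ne_zero.mp ((Nat.prime_of_mem_primeFactors hr).factorization_pos_of_dvd hm0
          (Nat.dvd_of_mem_primeFactors hr))) g hg
    choose! d hd1 hd2 hd3 using hB
    -- the index
    let idx : ℕ → ℕ := fun r => if r = 2 then (n + 3) / 2 - 1 else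
      if 2 * d r < n then d r else if 2 * d r = n then 0 else n - d r
    have hidx : ∀ r ∈ m.primeFactors, idx r < (n + 3) / 2 := by
      intro r hr
      simp only [idx]
      have h5 := hd2 r hr
      split_ifs with h6 h7 h8
      · omega
      · omega
      · omega
      · have := hd2 r hr h6
        omega
    have hcop' : ∀ (P : ℕ → Prop) [DecidablePred P] (N : ℕ), (∀ r ∈ m.primeFactors, P r → r ^ (m.factorization r) ∣ N) →
        (∏ r ∈ m.primeFactors with P r, r ^ (m.factorization r)) ∣ N := by
      intro P _ N hN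
      apply Finset.prod_dvd_of_isRelPrime
      · intro r hr s hs hrs
        rw [Finset.mem_coe, Finset.mem_filter] at hr hs
        exact Nat.coprime_iff_isRelPrime.mp (Nat.coprime_pow_primes _ _ (Nat.prime_of_mem_primeFactors hr.1)
          (Nat.prime_of_mem_primeFactors hs.1) hrs)
      · intro r hr
        rw [Finset.mem_filter] at hr
        exact hN r hr.1 hr.2
    have hlt : ∀ r ∈ m.primeFactors, r ≠ 2 → idx r < (n + 3) / 2 - 1 := by
      intro r hr h6
      simp only [idx, if_neg h6]
      have h5 := hd2 r hr h6
      have h4 := hd1 r hr h6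
      split_ifs <;> omega
    -- elements for indices
    have hC : ∀ i : Fin ((n + 3) / 2), ∃ g : S,
        orderOf g = ∏ r ∈ m.primeFactors with idx r = i, r ^ (m.factorization r) := by
      intro i
      have hcop := hcop' (fun r => idx r = i)
      by_cases hi : (i : ℕ) = (n + 3) / 2 - 1
      · by_cases h2m : 2 ∈ m.primeFactors
        · obtain ⟨g, hg⟩ := hA 2 h2m
          refine hdiv g _ ?_
          rw [hg]
          apply hcop
          intro r hr hri
          have : r = 2 := by
            by_contra h6
            have := hlt r hr h6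
            omega
          rw [this]
        · have : m.primeFactors.filter (fun r => idx r = i) = ∅ := by
            rw [Finset.filter_eq_empty_iff]
            intro r hr hri
            have h7 : r ≠ 2 := fun h => h2m (h ▸ hr)
            have := hlt r hr h7
            omega
          rw [this]
          exact ⟨1, by simp⟩
      · have hne : ∀ r, idx r = i → r ≠ 2 := by
          intro r hri h
          apply hi
          rw [← hri, h]
          simp [idx]
        by_cases hi0 : (i : ℕ) = 0
        · obtain ⟨g, hg⟩ := h3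
          refine hdiv g _ ?_
          rw [hg]
          apply hcop
          intro r hr hri
          have h8 := hne r hri
          have h9 := hd1 r hr h8
          have h10 := hd2 r hr h8
          refine (hd3 r hr h8).trans ?_
          simp only [idx, if_neg h8, hi0] at hri
          split_ifs at hri with h11 h12
          · omega
          · rw [← h12]
            exact Nat.pow_sub_one_dvd_pow_sub_one 2 (Dvd.intro_left 2 rfl)
          · have : d r = n := by omega
            rw [this]
        · obtain ⟨g, hg⟩ := h2 i (n - i) hi0 (by have := i.2; omega) (by have := i.2; omega)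
          refine hdiv g _ ?_
          rw [hg]
          apply hcop
          intro r hr hri
          have h8 := hne r hri
          have h9 := hd1 r hr h8
          have h10 := hd2 r hr h8
          have h13 := hd3 r hr h8
          simp only [idx, if_neg h8] at hri
          split_ifs at hri with h11 h12
          · rw [hri] at h13
            exact h13.trans (Nat.dvd_lcm_left _ _)
          · omega
          · have : d r = n - i := by omega
            rw [this] at h13
            exact h13.trans (Nat.dvd_lcm_right _ _)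
    choose y hy using hC
    refine ⟨y, ?_⟩
    apply Nat.dvd_antisymm
    · rw [orderOf_pi_dvd_iff]
      intro i
      rw [hy i]
      apply hcop' (fun r => idx r = i)
      intro r hr _
      exact Nat.ordProj_dvd m r
    · have h14 : m = ∏ r ∈ m.primeFactors with True, r ^ (m.factorization r) := by
        rw [Finset.filter_true]
        exact (Nat.factorization_prod_pow_eq_self hm0).symm
      rw [h14]
      apply hcop' (fun _ => True)
      intro r hr _
      have h15 := (orderOf_pi_dvd_iff y _).mp dvd_rfl ⟨idx r, hidx r hr⟩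
      refine Dvd.dvd.trans ?_ h15
      rw [hy]
      apply Finset.dvd_prod_of_mem (fun r => r ^ (m.factorization r))
      rw [Finset.mem_filter]
      exact ⟨hr, rfl⟩
  · rintro _ ⟨y, rfl⟩
    refine ⟨fun j => if h : (j : ℕ) < (n + 3) / 2 then y ⟨j, h⟩ else 1, ?_⟩
    apply Nat.dvd_antisymm
    · rw [orderOf_pi_dvd_iff]
      intro j
      split_ifs with h
      · exact (orderOf_pi_dvd_iff y _).mp dvd_rfl ⟨j, h⟩
      · rw [orderOf_one]; exact one_dvd _
    · rw [orderOf_pi_dvd_iff]
      intro i
      have := (orderOf_pi_dvd_iff (fun j : Fin k => if h : (j : ℕ) < (n + 3) / 2 then y ⟨j, h⟩ else 1) _).mp dvd_rfl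
        ⟨i, lt_of_lt_of_le i.2 hk⟩
      simpa using this

/-- Let F be the field with two elements, n ≥ 2, L = PSL(n, F) and k₀ = ⌊(n + 3)/2⌋. Then for every k ≥ k₀ the direct product of k copies of L has the same set of element orders as the direct product of k₀ copies of L. -/
theorem result {F : Type*} [Field F] [Fintype F] (hF : Fintype.card F = 2) (n k : ℕ) (hn : 2 ≤ n) (hk : (n + 3) / 2 ≤ k) :
    Set.range (orderOf : (Fin k → Matrix.ProjectiveSpecialLinearGroup (Fin n) F) → ℕ) = Set.range (orderOf : (Fin ((n + 3) / 2) → Matrix.ProjectiveSpecialLinearGroup (Fin n) F) → ℕ) := by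
  classical
  have hF' : Nat.card F = 2 := by rw [Nat.card_eq_fintype_card, hF]
  -- all units are trivial
  haveI hsub : Subsingleton Fˣ := by
    have : Nat.card Fˣ = 1 := by rw [Nat.card_units, hF']
    exact (Nat.card_eq_one_iff_unique.mp this).1
  -- order-preserving isomorphism
  have hker : Function.Injective (Matrix.SpecialLinearGroup.toGL : Matrix.SpecialLinearGroup (Fin n) F →* _) :=
    Matrix.SpecialLinearGroup.toGL_injective
  have hcen : Subgroup.center (Matrix.SpecialLinearGroup (Fin n) F) = ⊥ := by
    rw [eq_bot_iff]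
    intro g hg
    rw [Matrix.SpecialLinearGroup.mem_center_iff] at hg
    obtain ⟨r, hr, hg⟩ := hg
    have hr0 : r ≠ 0 := by
      rintro rfl
      rw [Fintype.card_fin, zero_pow (by omega)] at hr
      exact zero_ne_one hr
    have hr1 : r = 1 := congrArg Units.val (Subsingleton.elim (Units.mk0 r hr0) 1)
    rw [Subgroup.mem_bot]
    apply Subtype.ext
    rw [← hg, hr1, map_one]
    rfl
  let e : Matrix.ProjectiveSpecialLinearGroup (Fin n) F ≃* Matrix.SpecialLinearGroup (Fin n) F :=
    (QuotientGroup.quotientMulEquivOfEq hcen).trans QuotientGroup.quotientBot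
  have hGL : ∀ g : GL (Fin n) F, ∃ x : Matrix.ProjectiveSpecialLinearGroup (Fin n) F, orderOf x = orderOf g := by
    intro g
    have hdet : (g : Matrix (Fin n) (Fin n) F).det = 1 := by
      have := Subsingleton.elim (Matrix.GeneralLinearGroup.det g) 1
      exact congrArg Units.val this
    have hg : ∃ s : Matrix.SpecialLinearGroup (Fin n) F, Matrix.SpecialLinearGroup.toGL s = g :=
      ⟨⟨g, hdet⟩, Units.ext rfl⟩
    obtain ⟨s, rfl⟩ := hg
    refine ⟨e.symm s, ?_⟩
    rw [MulEquiv.orderOf_eq, orderOf_injective _ hker]
  refine key _ n k hk ?_ ?_ ?_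
  · intro r e' hr hr2 he' g hg
    have h1 : orderOf (Matrix.SpecialLinearGroup.toGL (e g)) = r ^ e' := by
      rw [orderOf_injective _ hker, MulEquiv.orderOf_eq, hg]
    have := Cfsg.Agent.H17.prime_pow_dvd_of_orderOf (F := F) r e' hr he' ?_ _ h1
    · rwa [hF'] at this
    · haveI : CharP F 2 := charP_of_card_eq_prime (by rw [hF])
      intro h
      rw [CharP.cast_eq_zero_iff F 2] at h
      exact hr2 ((Nat.prime_dvd_prime_iff_eq Nat.prime_two hr).mp h).symm
  · intro a b ha hb hab
    obtain ⟨g, hg⟩ := Cfsg.Agent.H17.exists_orderOf_gl_pair (F := F) n a b ha hb hab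
    obtain ⟨x, hx⟩ := hGL g
    exact ⟨x, by rw [hx, hg, hF']⟩
  · obtain ⟨g, hg⟩ := Cfsg.Agent.H17.exists_orderOf_gl_singer (F := F) n (by omega)
    obtain ⟨x, hx⟩ := hGL g
    exact ⟨x, by rw [hx, hg, hF']⟩

end Cfsg.Agent.S2513
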