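import Cfsg.Statements.S2514

set_option autoImplicit false
open Cfsg

namespace Cfsg.Agent.S2514

theorem hdown {K : Type*} [Group K] [Finite K] (x : K) (n : ℕ) (hn : n ∣ orderOf x) : ∃ y : K, orderOf y = n := by
  have hpos : 0 < orderOf x := orderOf_pos x
  have hn0 : n ≠ 0 := by rintro rfl; rw [zero_dvd_iff] at hn; omega
  refine ⟨x ^ (orderOf x / n), ?_⟩
  rw [orderOf_pow_of_dvd (Nat.div_pos (Nat.le_of_dvd hpos hn) (Nat.pos_of_ne_zero hn0)).ne' (Nat.div_dvd_of_dvd hn)]
  exact Nat.div_div_self hn hpos.ne'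

theorem hup {K : Type*} [Group K] [Finite K] (x : K) : ∃ m ∈ {n : ℕ | n ∈ Set.range (orderOf : K → ℕ) ∧ ∀ m ∈ Set.range (orderOf : K → ℕ), n ∣ m → m = n}, orderOf x ∣ m := by
  have hfin : (Set.range (orderOf : K → ℕ) ∩ {n | orderOf x ∣ n}).Finite := (Set.finite_range _).inter_of_left _
  obtain ⟨m, hm, hmax⟩ := hfin.exists_maximalFor id _ ⟨orderOf x, ⟨x, rfl⟩, dvd_rfl⟩
  refine ⟨m, ⟨hm.1, ?_⟩, hm.2⟩
  intro m' hm' hd
  have h1 : m' ≤ m := by
    by_contra hlt
    have := hmax ⟨hm', dvd_trans hm.2 hd⟩ (le_of_not_ge hlt)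
    simp at this
    omega
  obtain ⟨y, rfl⟩ := hm'
  exact le_antisymm h1 (Nat.le_of_dvd (orderOf_pos y) hd)

/-- For a finite group X write μ(X) for the set of element orders of X that are maximal under divisibility. Let G and H be finite groups and k ≥ 1 such that μ(H) ⊆ μ(G) and μ(G) has fewer than k elements outside μ(H). Then the direct product of k copies of G has the same set of element orders as the direct product of k − 1 copies of G with H. -/
theorem result {G H : Type*} [Group G] [Finite G] [Group H] [Finite H] (k : ℕ) (hk : 1 ≤ k)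
    (hsub : {n : ℕ | n ∈ Set.range (orderOf : H → ℕ) ∧ ∀ m ∈ Set.range (orderOf : H → ℕ), n ∣ m → m = n} ⊆ {n : ℕ | n ∈ Set.range (orderOf : G → ℕ) ∧ ∀ m ∈ Set.range (orderOf : G → ℕ), n ∣ m → m = n})
    (hfew : ({n : ℕ | n ∈ Set.range (orderOf : G → ℕ) ∧ ∀ m ∈ Set.range (orderOf : G → ℕ), n ∣ m → m = n} \ {n : ℕ | n ∈ Set.range (orderOf : H → ℕ) ∧ ∀ m ∈ Set.range (orderOf : H → ℕ), n ∣ m → m = n}).ncard < k) :
    Set.range (orderOf : (Fin k → G) → ℕ) = Set.range (orderOf : (Fin (k - 1) → G) × H → ℕ) := by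
  classical
  obtain ⟨j, rfl⟩ : ∃ j, k = j + 1 := ⟨k - 1, by omega⟩
  have hpi : ∀ {ι : Type} (x : ι → G) (n : ℕ), orderOf x ∣ n ↔ ∀ i, orderOf (x i) ∣ n := by
    intro ι x n
    simp only [orderOf_dvd_iff_pow_eq_one, funext_iff, Pi.pow_apply, Pi.one_apply]
  have hprod : ∀ (x : Fin j → G) (h : H) (n : ℕ), orderOf (x, h) ∣ n ↔ (∀ i, orderOf (x i) ∣ n) ∧ orderOf h ∣ n := by
    intro x h n
    rw [Prod.orderOf, Nat.lcm_dvd_iff, hpi]
  ext N
  constructor
  · rintro ⟨x, rfl⟩
    choose m hm hmd using fun i => hup (x i)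
    by_cases hc : ∃ i, m i ∈ {n : ℕ | n ∈ Set.range (orderOf : H → ℕ) ∧ ∀ m ∈ Set.range (orderOf : H → ℕ), n ∣ m → m = n}
    · obtain ⟨i, hi⟩ := hc
      obtain ⟨h0, hh0⟩ := hi.1
      obtain ⟨h, hh⟩ := hdown h0 (orderOf (x i)) (by rw [hh0]; exact hmd i)
      refine ⟨(fun l => x (i.succAbove l), h), ?_⟩
      apply Nat.dvd_right_iff_eq.mp
      intro n
      refine (hprod _ _ n).trans ?_
      rw [hpi, hh]
      constructor
      · rintro ⟨h1, h2⟩ l
        rcases Fin.eq_self_or_eq_succAbove i l with rfl | ⟨l', rfl⟩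
        · exact h2
        · exact h1 l'
      · intro h1
        exact ⟨fun l => h1 _, h1 i⟩
    · push Not at hc
      obtain ⟨i, i', hne, heq⟩ : ∃ i i' : Fin (j + 1), i ≠ i' ∧ m i = m i' := by
        by_contra hcon
        push Not at hcon
        have hinj : Function.Injective m := by
          intro a b hab
          by_contra hne
          exact hcon a b hne hab
        have hfin : ({n : ℕ | n ∈ Set.range (orderOf : G → ℕ) ∧ ∀ m ∈ Set.range (orderOf : G → ℕ), n ∣ m → m = n} \ {n : ℕ | n ∈ Set.range (orderOf : H → ℕ) ∧ ∀ m ∈ Set.range (orderOf : H → ℕ), n ∣ m → m = n}).Finite :=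
          ((Set.finite_range (orderOf : G → ℕ)).subset (fun n hn => hn.1)).subset Set.diff_subset
        have h1 : (Set.range m).ncard = j + 1 := by
          rw [← Set.image_univ, Set.ncard_image_of_injective _ hinj, Set.ncard_univ, Nat.card_eq_fintype_card, Fintype.card_fin]
        have h2 : Set.range m ⊆ ({n : ℕ | n ∈ Set.range (orderOf : G → ℕ) ∧ ∀ m ∈ Set.range (orderOf : G → ℕ), n ∣ m → m = n} \ {n : ℕ | n ∈ Set.range (orderOf : H → ℕ) ∧ ∀ m ∈ Set.range (orderOf : H → ℕ), n ∣ m → m = n}) := by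
          rintro _ ⟨l, rfl⟩
          exact ⟨hm l, hc l⟩
        have h3 := Set.ncard_le_ncard h2 hfin
        omega
      obtain ⟨g0, hg0⟩ := (hm i).1
      obtain ⟨g', hg'⟩ := hdown g0 (Nat.lcm (orderOf (x i)) (orderOf (x i'))) (by
        rw [hg0]; exact Nat.lcm_dvd (hmd i) (by rw [heq]; exact hmd i'))
      refine ⟨(fun l => Function.update x i' g' (i.succAbove l), 1), ?_⟩
      apply Nat.dvd_right_iff_eq.mp
      intro n
      refine (hprod _ _ n).trans ?_
      rw [hpi]
      obtain ⟨l0, hl0⟩ : ∃ l0, i.succAbove l0 = i' := Fin.exists_succAbove_eq hne.symm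
      constructor
      · rintro ⟨h1, -⟩ l
        have h2 := h1 l0
        rw [hl0, Function.update_self, hg'] at h2
        by_cases hli : l = i
        · subst hli; exact dvd_trans (Nat.dvd_lcm_left _ _) h2
        · by_cases hli' : l = i'
          · subst hli'; exact dvd_trans (Nat.dvd_lcm_right _ _) h2
          · obtain ⟨l', rfl⟩ := Fin.exists_succAbove_eq hli
            have h3 := h1 l'
            rwa [Function.update_of_ne hli'] at h3
      · intro h1
        refine ⟨fun l => ?_, by simp⟩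
        by_cases hli' : i.succAbove l = i'
        · rw [hli', Function.update_self, hg']; exact Nat.lcm_dvd (h1 i) (h1 i')
        · rw [Function.update_of_ne hli']; exact h1 _
  · rintro ⟨⟨x, h⟩, rfl⟩
    obtain ⟨m, hm, hmd⟩ := hup h
    obtain ⟨g0, hg0⟩ := (hsub hm).1
    obtain ⟨g, hg⟩ := hdown g0 (orderOf h) (by rw [hg0]; exact hmd)
    refine ⟨Fin.cons g x, ?_⟩
    apply Nat.dvd_right_iff_eq.mp
    intro n
    refine (hpi _ n).trans ?_
    refine Iff.trans ?_ (hprod _ _ n).symm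
    rw [Fin.forall_fin_succ]
    simp only [Fin.cons_zero, Fin.cons_succ, hg]
    tauto

end Cfsg.Agent.S2514
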