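import Cfsg.Statements.S2516

set_option autoImplicit false
open Cfsg

namespace Cfsg.Agent.S2516

/-- Let F be a field of characteristic p > 0, V a non-zero finite-dimensional F-vector space, G a finite group and ρ a representation of G on V; form the semidirect product V ⋊ G. For g ∈ G of order k, the coset Vg contains an element of order pk if and only if the minimal polynomial of ρ(g) does not divide 1 + X + ⋯ + X^(k−1). -/
theorem result {F : Type*} [Field F] (p : ℕ) [Fact p.Prime] [CharP F p] {V : Type*} [AddCommGroup V] [Module F V] [FiniteDimensional F V] [Nontrivial V]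
    {G : Type*} [Group G] [Finite G] (ρ : Representation F G V) (g : G) :
    (∃ x : Multiplicative V ⋊[(MulAutMultiplicative V).symm.toMonoidHom.comp
        ((DistribMulAction.toAddAut ((V →ₗ[F] V)ˣ) V).comp ρ.asGroupHom)] G,
        x.right = g ∧ orderOf x = p * orderOf g) ↔
      ¬ (minpoly F (ρ g) ∣ ∑ i ∈ Finset.range (orderOf g), (Polynomial.X : Polynomial F) ^ i) := by
  classical
  set φ : G →* MulAut (Multiplicative V) := (MulAutMultiplicative V).symm.toMonoidHom.comp
        ((DistribMulAction.toAddAut ((V →ₗ[F] V)ˣ) V).comp ρ.asGroupHom) with hφ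
  have hact : ∀ (h : G) (v : V), φ h (Multiplicative.ofAdd v) = Multiplicative.ofAdd (ρ h v) := by
    intro h v
    rfl
  have hpow : ∀ (v : V) (n : ℕ), ((⟨Multiplicative.ofAdd v, g⟩ : Multiplicative V ⋊[φ] G) ^ n) =
      ⟨Multiplicative.ofAdd ((∑ i ∈ Finset.range n, (ρ g) ^ i) v), g ^ n⟩ := by
    intro v n
    induction n with
    | zero => simp
    | succ n ih =>
      rw [pow_succ, ih]
      ext
      · simp only [SemidirectProduct.mul_left]
        rw [hact, ← ofAdd_add, Finset.sum_range_succ, LinearMap.add_apply, map_pow]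
      · simp only [SemidirectProduct.mul_right, pow_succ]
  have hk : 0 < orderOf g := orderOf_pos g
  have hN : ∀ v : V, (⟨Multiplicative.ofAdd v, g⟩ : Multiplicative V ⋊[φ] G) ^ (orderOf g) =
      SemidirectProduct.inl (Multiplicative.ofAdd ((∑ i ∈ Finset.range (orderOf g), (ρ g) ^ i) v)) := by
    intro v
    rw [hpow, pow_orderOf_eq_one]
    rfl
  have hord : ∀ v : V, orderOf (⟨Multiplicative.ofAdd v, g⟩ : Multiplicative V ⋊[φ] G) =
      orderOf g * orderOf (Multiplicative.ofAdd ((∑ i ∈ Finset.range (orderOf g), (ρ g) ^ i) v)) := by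
    intro v
    have h1 : orderOf g ∣ orderOf (⟨Multiplicative.ofAdd v, g⟩ : Multiplicative V ⋊[φ] G) := by
      have := orderOf_map_dvd (SemidirectProduct.rightHom : Multiplicative V ⋊[φ] G →* G) (⟨Multiplicative.ofAdd v, g⟩)
      simpa using this
    have h2 := orderOf_pow_of_dvd (x := (⟨Multiplicative.ofAdd v, g⟩ : Multiplicative V ⋊[φ] G)) hk.ne' h1
    rw [hN, orderOf_injective _ SemidirectProduct.inl_injective] at h2
    rw [h2, Nat.mul_div_cancel' h1]
  have hsum : (∑ i ∈ Finset.range (orderOf g), (ρ g) ^ i) = Polynomial.aeval (ρ g) (∑ i ∈ Finset.range (orderOf g), (Polynomial.X : Polynomial F) ^ i) := by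
    simp
  have hp : p.Prime := Fact.out
  have hpsmul : ∀ w : V, p • w = 0 := by
    intro w
    have : (p : F) • w = 0 := by rw [CharP.cast_eq_zero, zero_smul]
    rwa [Nat.cast_smul_eq_nsmul] at this
  rw [minpoly.dvd_iff, ← hsum]
  constructor
  · rintro ⟨x, hx, hxo⟩ h0
    obtain ⟨v, g'⟩ := x
    simp only at hx
    subst hx
    have h1 := hord (Multiplicative.toAdd v)
    have h2 : (⟨Multiplicative.ofAdd (Multiplicative.toAdd v), g'⟩ : Multiplicative V ⋊[φ] G) = ⟨v, g'⟩ := rfl
    rw [h2, hxo, h0, LinearMap.zero_apply, ofAdd_zero, orderOf_one, mul_one] at h1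
    have h3 := hp.one_lt
    have h4 : 1 * orderOf g' < p * orderOf g' := Nat.mul_lt_mul_of_pos_right h3 hk
    rw [h1, one_mul] at h4
    exact lt_irrefl _ h4
  · intro h0
    obtain ⟨v, hv⟩ : ∃ v, (∑ i ∈ Finset.range (orderOf g), (ρ g) ^ i) v ≠ 0 := by
      by_contra hcon
      push Not at hcon
      exact h0 (LinearMap.ext hcon)
    refine ⟨⟨Multiplicative.ofAdd v, g⟩, rfl, ?_⟩
    rw [hord, mul_comm]
    congr 1
    apply orderOf_eq_prime
    · rw [← ofAdd_nsmul, hpsmul]; rfl
    · intro h; exact hv h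

end Cfsg.Agent.S2516
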