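import Cfsg.Statements.S2521

set_option autoImplicit false
open Cfsg

namespace Cfsg.Agent.S2521

open scoped Pointwise

/-- Let B be a finite group that is the semidirect product of a nilpotent normal subgroup U by an abelian subgroup T (U ∩ T = 1, UT = B), and let t ∈ T have centralizer exactly T. Then every element of the coset tU is conjugate to t in B: for each u ∈ U there is b ∈ B with b t b⁻¹ = t u. -/
theorem result {B : Type*} [Group B] [Finite B] (U T : Subgroup B) [U.Normal] (hU : Group.IsNilpotent ↥U) (hT : IsMulCommutative ↥T)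
    (hcompl : Subgroup.IsComplement' U T) (t : B) (ht : t ∈ T) (hreg : Subgroup.centralizer ({t} : Set B) = T) (u : B) (hu : u ∈ U) :
    ∃ b : B, b * t * b⁻¹ = t * u := by
  classical
  -- B/U is abelian
  have hfin : Finite B := inferInstance
  -- conjugates of t lie in tU
  have hmem : ∀ b : B, t⁻¹ * (b * t * b⁻¹) ∈ U := by
    intro b
    have hb : b ∈ (U : Set B) * (T : Set B) := by
      rw [hcompl.mul_eq]; exact Set.mem_univ b
    obtain ⟨v, hv, s, hs, rfl⟩ := Set.mem_mul.mp hb
    have hst : s * t * s⁻¹ = t := by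
      have : s * t = t * s := by
        have := hT.is_comm.comm (⟨s, hs⟩ : T) ⟨t, ht⟩
        simpa [Subtype.ext_iff] using this
      rw [this]; group
    have h1 : t⁻¹ * ((v * s) * t * (v * s)⁻¹) = (t⁻¹ * v * t) * v⁻¹ := by
      have : (v * s) * t * (v * s)⁻¹ = v * (s * t * s⁻¹) * v⁻¹ := by group
      rw [this, hst]; group
    show t⁻¹ * ((v * s) * t * (v * s)⁻¹) ∈ U
    rw [h1]
    have h2 : t⁻¹ * v * t ∈ U := by
      have := Subgroup.Normal.conj_mem (inferInstance : U.Normal) v hv t⁻¹
      simpa using this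
    exact U.mul_mem h2 (U.inv_mem hv)
  -- define the map B ⧸ C(t) → U
  let f : B ⧸ (Subgroup.centralizer ({t} : Set B)) → U :=
    Quotient.lift (fun b : B => (⟨t⁻¹ * (b * t * b⁻¹), hmem b⟩ : U)) (by
      intro a b hab
      have hab' : a⁻¹ * b ∈ Subgroup.centralizer ({t} : Set B) := QuotientGroup.leftRel_apply.mp hab
      rw [Subgroup.mem_centralizer_singleton_iff] at hab'
      apply Subtype.ext
      show t⁻¹ * (a * t * a⁻¹) = t⁻¹ * (b * t * b⁻¹)
      have : a * t * a⁻¹ = b * t * b⁻¹ := by
        have h3 : a⁻¹ * b * t = t * (a⁻¹ * b) := hab'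
        have h4 : b * t * b⁻¹ = a * (a⁻¹ * b * t) * b⁻¹ := by group
        rw [h4, h3]; group
      rw [this])
  have hinj : Function.Injective f := by
    intro x y
    induction x using QuotientGroup.induction_on with
    | H a =>
      induction y using QuotientGroup.induction_on with
      | H b =>
        intro h
        have h' : t⁻¹ * (a * t * a⁻¹) = t⁻¹ * (b * t * b⁻¹) := congrArg Subtype.val h
        have h5 : a * t * a⁻¹ = b * t * b⁻¹ := mul_left_cancel h'
        rw [QuotientGroup.eq, Subgroup.mem_centralizer_singleton_iff]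
        have h6 : a⁻¹ * (a * t * a⁻¹) * b = a⁻¹ * (b * t * b⁻¹) * b := by rw [h5]
        have h7 : a⁻¹ * b * t = a⁻¹ * (b * t * b⁻¹) * b := by group
        rw [h7, ← h6]; group
  have hcard : Nat.card (B ⧸ (Subgroup.centralizer ({t} : Set B))) = Nat.card U := by
    have h1 : Nat.card (B ⧸ (Subgroup.centralizer ({t} : Set B))) = T.index := by
      rw [hreg]; rfl
    rw [h1, hcompl.index_eq_card]
  have hbij : Function.Bijective f := by
    rw [Nat.bijective_iff_injective_and_card]
    exact ⟨hinj, hcard⟩
  obtain ⟨x, hx⟩ := hbij.2 ⟨u, hu⟩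
  induction x using QuotientGroup.induction_on with
  | H b =>
    refine ⟨b, ?_⟩
    have h8 : t⁻¹ * (b * t * b⁻¹) = u := congrArg Subtype.val hx
    rw [← h8]; group


end Cfsg.Agent.S2521
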