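import Cfsg.Statements.S2553
import Cfsg.Agent.H29.Deg8
import Cfsg.Agent.H19.ZpStar
import Cfsg.Agent.S0495
import Cfsg.Agent.S0255
import Cfsg.Agent.S0256

set_option autoImplicit false
open Cfsg

namespace Cfsg.Agent.S2553

set_option linter.style.haveILetI false
open Subgroup MulAction
open Cfsg.Agent.H29.TrivRad Cfsg.Agent.H29.Deg8 Cfsg.Agent.H29.PrimeDeg
open scoped Pointwise

abbrev V := Fin 4 → ZMod 2
abbrev GL4 := GL (Fin 4) (ZMod 2)

set_option maxRecDepth 100000 in
theorem fam (v0 : V) (h : v0 ≠ 0) : ((Finset.univ.filter (fun w : V => w ≠ 0 ∧ w ≠ v0)).image (fun w => ({w, w + v0} : Finset V))).card ≤ 7 := by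
  revert v0
  decide +kernel

theorem add_self (v : V) : v + v = 0 := by
  ext i
  have : ∀ a : ZMod 2, a + a = 0 := by decide
  exact this (v i)

/-- the simple group of order 1344 would act trivially on small sets -/
theorem trivial_small {H Y : Type*} [Group H] [Finite H] [MulAction H Y] [Finite Y] (hs : IsSimpleGroup H) (hc : Nat.card H = 1344)
    (hY : Nat.card Y ≤ 7) (h : H) (y : Y) : h • y = y := by
  have hk := (inferInstance : (MulAction.toPermHom H Y).ker.Normal).eq_bot_or_eq_top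
  rcases hk with h1 | h1
  · exfalso
    have hinj := (MonoidHom.ker_eq_bot_iff _).1 h1
    have h2 := Subgroup.card_dvd_of_injective _ hinj
    rw [Nat.card_perm, hc] at h2
    have h3 : (Nat.card Y).factorial ∣ Nat.factorial 7 := Nat.factorial_dvd_factorial hY
    exact absurd (h2.trans h3) (by decide +kernel)
  · have h2 : h ∈ (MulAction.toPermHom H Y).ker := by rw [h1]; trivial
    have h3 := congrArg (fun f : Equiv.Perm Y => f y) (MonoidHom.mem_ker.1 h2)
    exact h3

theorem no_1344 (H : Subgroup GL4) (hs : IsSimpleGroup H) (hc : Nat.card H = 1344) : False := by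
  classical
  letI act : MulAction H V :=
    { smul := fun h v => (h : GL4).1.mulVec v
      one_smul := fun v => by
        change ((1 : H) : GL4).1.mulVec v = v
        simp
      mul_smul := fun a b v => by
        change ((a * b : H) : GL4).1.mulVec v = (a : GL4).1.mulVec ((b : GL4).1.mulVec v)
        rw [Matrix.mulVec_mulVec]; rfl }
  have hsm : ∀ (h : H) (v : V), h • v = (h : GL4).1.mulVec v := fun _ _ => rfl
  have hadd : ∀ (h : H) (v w : V), h • (v + w) = h • v + h • w := fun h v w => by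
    rw [hsm, hsm, hsm, Matrix.mulVec_add]
  have hzero : ∀ h : H, h • (0 : V) = 0 := fun h => by rw [hsm, Matrix.mulVec_zero]
  have hfaith : ∀ h : H, (∀ v : V, h • v = v) → h = 1 := by
    intro h hv
    apply Subtype.ext
    apply Units.ext
    change (h : GL4).1 = 1
    apply Matrix.mulVec_injective
    funext v
    rw [Matrix.one_mulVec]
    exact hv v
  have hcV : Nat.card V = 16 := by
    rw [Nat.card_eq_fintype_card]; decide
  -- orbits of nonfixed vectors are large
  have horb : ∀ v : V, (∃ h : H, h • v ≠ v) → 8 ≤ (orbit H v).ncard := by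
    rintro v ⟨h, hv⟩
    by_contra hcon
    have h1 : Nat.card (orbit H v) ≤ 7 := by rw [Nat.card_coe_set_eq]; omega
    have h2 := trivial_small hs hc h1 h (⟨v, mem_orbit_self v⟩ : orbit H v)
    exact hv (congrArg Subtype.val h2)
  have hne0 : ∀ (h : H) (v : V), v ≠ 0 → h • v ≠ 0 := by
    intro h v hv h1
    apply hv
    have := congrArg (fun w => h⁻¹ • w) h1
    simp only [inv_smul_smul, hzero] at this
    exact this
  have hsub : ∀ v : V, v ≠ 0 → orbit H v ⊆ ({0}ᶜ : Set V) := by
    rintro v hv _ ⟨h, rfl⟩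
    exact hne0 h v hv
  have hc15 : ({0}ᶜ : Set V).ncard = 15 := by
    rw [Set.ncard_compl, Set.ncard_singleton, hcV]
  obtain ⟨v0, hv0, hfix⟩ : ∃ v0 : V, v0 ≠ 0 ∧ ∀ h : H, h • v0 = v0 := by
    by_contra hcon
    push Not at hcon
    obtain ⟨v1, hv1⟩ : ∃ v : V, v ≠ 0 := ⟨1, by decide⟩
    have h1 := horb v1 (hcon v1 hv1)
    by_cases hall : orbit H v1 = ({0}ᶜ : Set V)
    · have h2 : (orbit H v1).ncard ∣ 1344 := by
        rw [← MulAction.index_stabilizer, ← hc]
        exact Subgroup.index_dvd_card _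
      rw [hall, hc15] at h2
      norm_num at h2
    · obtain ⟨v2, hv2, hv2'⟩ : ∃ v2 ∈ ({0}ᶜ : Set V), v2 ∉ orbit H v1 := by
        by_contra h3
        push Not at h3
        exact hall (Set.Subset.antisymm (hsub v1 hv1) h3)
      have h3 := horb v2 (hcon v2 hv2)
      have hdis : Disjoint (orbit H v1) (orbit H v2) := by
        rw [Set.disjoint_left]
        intro w hw1 hw2
        apply hv2'
        rw [← MulAction.orbit_eq_iff] at hw1 hw2 ⊢
        rw [← hw2, hw1]
      have h4 := Set.ncard_union_eq hdis (Set.toFinite _) (Set.toFinite _)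
      have h5 := Set.ncard_le_ncard (Set.union_subset (hsub v1 hv1) (hsub v2 hv2)) (Set.toFinite _)
      rw [hc15, h4] at h5
      omega
  -- the cosets
  have hpair : ∀ (h : H) (v : V), v ≠ 0 → v ≠ v0 → h • v = v ∨ h • v = v + v0 := by
    intro h v hv hvv
    have hsmul : ∀ (h : H) (w : V), h • ({w, w + v0} : Finset V) = {h • w, h • w + v0} := by
      intro h w
      rw [Finset.smul_finset_insert, Finset.smul_finset_singleton, hadd, hfix]
    have hle : (orbit H ({v, v + v0} : Finset V)).ncard ≤ 7 := by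
      refine le_trans ?_ (fam v0 hv0)
      rw [← Set.ncard_coe_finset]
      apply Set.ncard_le_ncard _ (Set.toFinite _)
      rintro _ ⟨g, rfl⟩
      rw [Finset.coe_image]
      refine ⟨g • v, ?_, (hsmul g v).symm⟩
      rw [Finset.mem_coe, Finset.mem_filter]
      refine ⟨Finset.mem_univ _, hne0 g v hv, fun h1 => hvv ?_⟩
      have h2 : g • v = g • v0 := by rw [h1, hfix]
      exact smul_left_cancel g h2
    have h1 := trivial_small hs hc (by rw [Nat.card_coe_set_eq]; exact hle) h
      (⟨{v, v + v0}, mem_orbit_self _⟩ : orbit H ({v, v + v0} : Finset V))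
    have h2 : h • ({v, v + v0} : Finset V) = {v, v + v0} := congrArg Subtype.val h1
    rw [hsmul] at h2
    have h3 : h • v ∈ ({v, v + v0} : Finset V) := by rw [← h2]; exact Finset.mem_insert_self _ _
    rw [Finset.mem_insert, Finset.mem_singleton] at h3
    exact h3
  have hsq : ∀ h : H, h * h = 1 := by
    intro h
    apply hfaith
    intro v
    rw [mul_smul]
    by_cases hv : v = 0
    · rw [hv, hzero, hzero]
    by_cases hvv : v = v0
    · rw [hvv, hfix, hfix]
    rcases hpair h v hv hvv with h1 | h1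
    · rw [h1, h1]
    · rw [h1, hadd, h1, hfix, add_assoc, add_self, add_zero]
  haveI : Fact (Nat.Prime 7) := ⟨by norm_num⟩
  obtain ⟨t, ht⟩ := exists_prime_orderOf_dvd_card' (G := H) 7 (by rw [hc]; norm_num)
  have h1 : orderOf t ∣ 2 := orderOf_dvd_of_pow_eq_one (by rw [sq]; exact hsq t)
  rw [ht] at h1
  norm_num at h1

/-- GL_n(2) is PSL_n(2) -/
theorem psl_gl (n : ℕ) : Nonempty (Matrix.ProjectiveSpecialLinearGroup (Fin n) (ZMod 2) ≃* GL (Fin n) (ZMod 2)) := by
  have h1 : Function.Bijective (Matrix.SpecialLinearGroup.toGL : Matrix.SpecialLinearGroup (Fin n) (ZMod 2) →* GL (Fin n) (ZMod 2)) := by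
    constructor
    · intro a b h
      apply Subtype.ext
      exact congrArg (fun g : GL (Fin n) (ZMod 2) => g.1) h
    · intro g
      have hd : g.1.det = 1 := by
        have h2 : IsUnit g.1.det := (Matrix.isUnit_iff_isUnit_det _).1 g.isUnit
        have h3 : ∀ a : ZMod 2, a ≠ 0 → a = 1 := by decide
        exact h3 _ h2.ne_zero
      exact ⟨⟨g.1, hd⟩, Units.ext rfl⟩
  have h2 : Subgroup.center (Matrix.SpecialLinearGroup (Fin n) (ZMod 2)) = ⊥ := by
    rw [eq_bot_iff]
    intro x hx
    obtain ⟨r, hr, hs⟩ := Matrix.SpecialLinearGroup.mem_center_iff.1 hx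
    rw [Subgroup.mem_bot]
    apply Subtype.ext
    rw [← hs]
    have h3 : ∀ a : ZMod 2, a = 0 ∨ a = 1 := by decide
    rcases h3 r with rfl | rfl
    · rcases Nat.eq_zero_or_pos n with hn | hn
      · subst hn
        ext i; exact i.elim0
      · exfalso
        rw [Fintype.card_fin, zero_pow (by omega)] at hr
        exact zero_ne_one hr
    · rw [map_one]; rfl
  have h3 : Function.Bijective (QuotientGroup.mk' (Subgroup.center (Matrix.SpecialLinearGroup (Fin n) (ZMod 2)))) := by
    constructor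
    · rw [injective_iff_map_eq_one]
      intro x hx
      have h4 := (QuotientGroup.eq_one_iff x).1 hx
      rw [h2, Subgroup.mem_bot] at h4
      exact h4
    · exact QuotientGroup.mk'_surjective _
  exact ⟨(MulEquiv.ofBijective _ h3).symm.trans (MulEquiv.ofBijective _ h1)⟩

theorem gl3_of_168 {K : Type*} [Group K] [Finite K] (h : NS K) (hc : Nat.card K = 168) : Nonempty (K ≃* GL (Fin 3) (ZMod 2)) := by
  haveI := h.simple168 hc
  haveI : Fact (Nat.Prime 7) := ⟨by norm_num⟩
  haveI : Fact (Nat.Prime 2) := ⟨Nat.prime_two⟩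
  obtain ⟨e1⟩ := Cfsg.Agent.S0495.result (G := K) hc (F := ZMod 7) (ZMod.card 7)
  obtain ⟨e2⟩ := Cfsg.Agent.S0255.result (F := ZMod 7) (K := ZMod 2) (ZMod.card 7) (ZMod.card 2)
  obtain ⟨e3⟩ := psl_gl 3
  exact ⟨(e1.trans e2).trans e3⟩

/-- Let H be a nontrivial subgroup of GL(4,2) (a group isomorphic to the alternating group of degree 8) whose largest normal 2-subgroup and largest normal subgroup of odd order are both trivial. Then H is isomorphic to an alternating group of degree n for some 5 ≤ n ≤ 8, to the symmetric group of degree 5 or 6, or to GL(3,2). -/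
theorem result (H : Subgroup (GL (Fin 4) (ZMod 2))) (hH : H ≠ ⊥) (hO : Cfsg.pPrimeCore 2 ↥H = ⊥) (hO2 : Cfsg.pCore 2 ↥H = ⊥) :
    (∃ n : ℕ, 5 ≤ n ∧ n ≤ 8 ∧ Nonempty (↥H ≃* alternatingGroup (Fin n))) ∨
    Nonempty (↥H ≃* Equiv.Perm (Fin 5)) ∨ Nonempty (↥H ≃* Equiv.Perm (Fin 6)) ∨ Nonempty (↥H ≃* GL (Fin 3) (ZMod 2)) := by
  classical
  haveI : Fact (Nat.Prime 2) := ⟨Nat.prime_two⟩
  have hNS : NS H := fun N hN hs => Cfsg.Agent.H19.eq_bot_of_solvable_normal (p := 2) hO2 hO hN hs
  obtain ⟨e1⟩ := psl_gl 4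
  obtain ⟨e2⟩ := Cfsg.Agent.S0256.result (F := ZMod 2) (ZMod.card 2)
  let e : GL (Fin 4) (ZMod 2) ≃* alternatingGroup (Fin 8) := e1.symm.trans e2
  let f : GL (Fin 4) (ZMod 2) →* Equiv.Perm (Fin 8) := (alternatingGroup (Fin 8)).subtype.comp e.toMonoidHom
  have hf : Function.Injective f := (alternatingGroup (Fin 8)).subtype_injective.comp e.injective
  let K : Subgroup (Equiv.Perm (Fin 8)) := H.map f
  have eH : H ≃* K := H.equivMapOfInjective f hf
  have hKA : K ≤ alternatingGroup (Fin 8) := by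
    rintro _ ⟨x, -, rfl⟩
    exact (e x).2
  have hKNS : NS K := hNS.congr eH
  haveI hnt : Nontrivial H := (Subgroup.nontrivial_iff_ne_bot H).2 hH
  have hKnt : Nontrivial K := eH.symm.toEquiv.nontrivial
  rcases perm_main K hKA hKnt hKNS with ⟨n, h5, h8, ⟨g⟩⟩ | ⟨⟨g⟩⟩ | ⟨⟨g⟩⟩ | h | ⟨h, hs⟩
  · exact Or.inl ⟨n, h5, h8, ⟨eH.trans g⟩⟩
  · exact Or.inr (Or.inl ⟨eH.trans g⟩)
  · exact Or.inr (Or.inr (Or.inl ⟨eH.trans g⟩))
  · obtain ⟨g⟩ := gl3_of_168 hKNS h
    exact Or.inr (Or.inr (Or.inr ⟨eH.trans g⟩))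
  · exfalso
    haveI := hs
    have hs' : IsSimpleGroup H := IsSimpleGroup.isSimpleGroup_of_surjective eH.symm.toMonoidHom eH.symm.surjective
    exact no_1344 H hs' (by rw [Nat.card_congr eH.toEquiv, h])

end Cfsg.Agent.S2553
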