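import Cfsg.Statements.S2648
import Cfsg.Agent.H20.SpDL3

set_option autoImplicit false
open Cfsg


namespace Cfsg.Agent.S2648


set_option linter.all false

theorem conj_bot {G : Type*} [Group G] (T P : Subgroup G) (g : G) (h : P = T.map (MulAut.conj g).toMonoidHom)
    {a : ℕ} (hT : derivedSeries T a = ⊥) : derivedSeries P a = ⊥ := by
  subst h
  exact Cfsg.Agent.H20.SpDL.ds_surj ((MulAut.conj g).toMonoidHom.subgroupMap T)
    ((MulAut.conj g).toMonoidHom.subgroupMap_surjective T) hT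

theorem syl_conj {G : Type*} [Group G] [Finite G] [Fact (Nat.Prime 2)] (S P : Sylow 2 G) :
    ∃ g : G, (P : Subgroup G) = (S : Subgroup G).map (MulAut.conj g).toMonoidHom := by
  obtain ⟨g, hg⟩ := MulAction.exists_smul_eq G S P
  exact ⟨g, by rw [← hg]; rfl⟩

/-- Let q be odd, F a field with q elements and n ≥ 1. A Sylow 2-subgroup R of the symplectic group Sp_{2n}(F) has derived length exactly k + 1, where 2^k ≤ 2n < 2^{k+1}: the (k+1)-st term of its derived series is trivial and the k-th is not. -/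
theorem result {F : Type*} [Field F] [Fintype F] [DecidableEq F] (q : ℕ) (hF : Fintype.card F = q) (hq : Odd q) (n : ℕ) (hn : 1 ≤ n) (R : Sylow 2 ↥(Matrix.symplecticGroup (Fin n) F)) : derivedSeries ↥(R : Subgroup ↥(Matrix.symplecticGroup (Fin n) F)) (Nat.log 2 (2 * n) + 1) = ⊥ ∧ derivedSeries ↥(R : Subgroup ↥(Matrix.symplecticGroup (Fin n) F)) (Nat.log 2 (2 * n)) ≠ ⊥ := by
  classical
  haveI : Fact (Nat.Prime 2) := ⟨Nat.prime_two⟩
  haveI : Finite (Matrix.symplecticGroup (Fin n) F) := by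
    haveI : Finite (Matrix (Fin n ⊕ Fin n) (Fin n ⊕ Fin n) F) := inferInstance
    exact Subtype.finite
  have hodd : Odd (Fintype.card F) := by rw [hF]; exact hq
  have hlog : Nat.log 2 (2 * n) = Nat.log 2 n + 1 := by
    rw [mul_comm]
    exact Nat.log_mul_base (by norm_num) (by omega)
  rw [hlog]
  constructor
  · obtain ⟨T, hT, hTd⟩ := Cfsg.Agent.H20.SpDL.exists_T hodd n hn
    let S0 : Sylow 2 (Matrix.symplecticGroup (Fin n) F) := Sylow.ofCard T hT
    obtain ⟨g, hg⟩ := syl_conj S0 R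
    exact conj_bot T _ g hg hTd
  · intro h
    obtain ⟨H, hHp, -, hHd⟩ := Cfsg.Agent.H20.SpDL.lower hodd n (Nat.log 2 n) (Nat.pow_log_le_self 2 (by omega))
    obtain ⟨P, hP⟩ := hHp.exists_le_sylow
    obtain ⟨g, hg⟩ := syl_conj R P
    apply hHd
    have h1 := conj_bot _ _ g hg h
    exact Cfsg.Agent.H20.SpDL.ds_inj (Subgroup.inclusion hP) (Subgroup.inclusion_injective hP) h1


end Cfsg.Agent.S2648
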