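import Cfsg.Statements.S2697
import Cfsg.Agent.H17.FieldClass

set_option autoImplicit false
open Cfsg

namespace Cfsg.Agent.S2697

/-- Let T = PSL_n(F) be simple over a finite field (n ≥ 2; |F| ≥ 4 when n = 2) and let x be a field automorphism or a graph-field automorphism of T of prime order r. Then an element y of the coset Inndiag(T)·x (that is, y = δ x with δ in the inner-diagonal group, the image of PGL_n(F)) has order r if and only if y is conjugate to x by an element of Inndiag(T). -/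
theorem result {F : Type*} [Field F] [Fintype F] {p f : ℕ} [Fact p.Prime] (hF : Fintype.card F = p ^ f) (hf : 1 ≤ f) {n : ℕ} (hn : 2 ≤ n) (hs : n = 2 → 4 ≤ Fintype.card F) (x δ : MulAut (Matrix.ProjectiveSpecialLinearGroup (Fin n) F)) (hx : Cfsg.IsFieldAutClassPSL x ∨ Cfsg.IsGraphFieldAutClassPSL x) {r : ℕ} (hr : r.Prime) (hxr : orderOf x = r) (hδ : δ ∈ Cfsg.inndiagPSL n F) :
    orderOf (δ * x) = r ↔ Cfsg.IsConjUnder (Cfsg.inndiagPSL n F) x (δ * x) := by
  classical
  have hcP : ∀ z ∈ Cfsg.inndiagPSL n F, ∃ g : Matrix.GeneralLinearGroup (Fin n) F, H17.cP g = z := by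
    intro z hz
    rw [H17.inndiag_eq] at hz
    exact H17.mem_cPrange.mp hz
  have hcP' : ∀ g : Matrix.GeneralLinearGroup (Fin n) F, H17.cP g ∈ Cfsg.inndiagPSL n F := by
    intro g
    rw [H17.inndiag_eq]
    exact H17.mem_cPrange.mpr ⟨g, rfl⟩
  obtain ⟨d, rfl⟩ := hcP δ hδ
  -- general reduction
  have key : ∀ (g : Matrix.GeneralLinearGroup (Fin n) F) (x0 : MulAut (Matrix.ProjectiveSpecialLinearGroup (Fin n) F)),
      x = H17.cP g * x0 * (H17.cP g)⁻¹ →
      (∀ a : Matrix.GeneralLinearGroup (Fin n) F, (H17.cP a * x0) ^ r = 1 →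
        ∃ b : Matrix.GeneralLinearGroup (Fin n) F, H17.cP a * x0 = H17.cP b * x0 * (H17.cP b)⁻¹) →
      (orderOf (H17.cP d * x) = r ↔ Cfsg.IsConjUnder (Cfsg.inndiagPSL n F) x (H17.cP d * x)) := by
    intro g x0 hx0 h0
    constructor
    · intro h
      have e1 : H17.cP d * x = H17.cP g * (H17.cP (g⁻¹ * d * g) * x0) * (H17.cP g)⁻¹ := by
        rw [hx0, H17.cP_mul, H17.cP_mul, H17.cP_inv]
        group
      rw [e1, H17.orderOf_conj'] at h
      obtain ⟨b, hb⟩ := h0 (g⁻¹ * d * g) (by rw [← h, pow_orderOf_eq_one])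
      refine ⟨H17.cP (g * b * g⁻¹), hcP' _, ?_⟩
      rw [e1, hb, hx0, H17.cP_mul, H17.cP_mul, H17.cP_inv]
      group
    · rintro ⟨h, _, hh⟩
      rw [hh, H17.orderOf_conj', hxr]
  rcases hx with hx | hx
  · obtain ⟨g, σ, hσ, hg⟩ := H17.field_form hn hx
    refine key g _ hg ?_
    have hor : orderOf σ = r := by
      rw [hg, H17.orderOf_conj', H17.orderOf_fP hn] at hxr
      exact hxr
    intro a ha
    exact H17.field_conj hn σ hor hr.pos a ha
  · obtain ⟨hn3, g, σ, hσ, hg⟩ := H17.gf_form hx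
    refine key g _ hg ?_
    have hor : orderOf (H17.fP n σ * H17.iP F n) = r := by
      rw [hg, H17.orderOf_conj'] at hxr
      exact hxr
    obtain ⟨h2, hσ2⟩ := H17.gf_order_prime hn3 σ hr hor
    intro a ha
    rw [h2] at ha
    exact H17.gf_conj hn hσ hσ2 a ha

end Cfsg.Agent.S2697
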