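import Cfsg.Statements.S3835
import Cfsg.Agent.H2.QD10
import Cfsg.Agent.S2231

set_option autoImplicit false
set_option linter.style.haveILetI false
set_option linter.unusedVariables false
set_option linter.unusedSectionVars false
open Cfsg

namespace Cfsg.Agent.S3835

open Cfsg.Agent.H2

open scoped commutatorElement in
theorem comm_of_small {p : ℕ} [hp : Fact p.Prime] {n : ℕ} (hn : n < p ^ 2) (P : Subgroup (Equiv.Perm (Fin n)))
    (hP : IsPGroup p P) : ∀ x ∈ P, ∀ y ∈ P, x * y = y * x := by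
  intro x hx y hy
  have key : ∀ a : Fin n, (⁅(⟨x, hx⟩ : P), ⟨y, hy⟩⁆ : P) ∈ MulAction.stabilizer P a := by
    intro a
    obtain ⟨k, hk⟩ := hP.index (MulAction.stabilizer P a)
    have h1 : (MulAction.stabilizer P a).index ≤ n := by
      rw [MulAction.index_stabilizer]
      have : Nat.card (MulAction.orbit P a) ≤ Nat.card (Fin n) :=
        Nat.card_le_card_of_injective _ Subtype.val_injective
      rw [Nat.card_fin] at this
      rwa [← Nat.card_coe_set_eq]
    have hk2 : k < 2 := by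
      by_contra h
      push Not at h
      have : p ^ 2 ≤ p ^ k := Nat.pow_le_pow_right hp.out.pos h
      omega
    by_cases hk0 : k = 0
    · rw [hk0, pow_zero, Subgroup.index_eq_one] at hk
      rw [hk]; exact Subgroup.mem_top _
    have hk1 : k = 1 := by omega
    rw [hk1, pow_one] at hk
    have hnorm : (MulAction.stabilizer P a).Normal := by
      apply Subgroup.normal_of_index_eq_minFac_card
      rw [hk]
      obtain ⟨m, hm⟩ := IsPGroup.iff_card.1 hP
      have hm0 : m ≠ 0 := by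
        intro h0
        rw [h0, pow_zero] at hm
        have h2 := Subgroup.index_dvd_card (MulAction.stabilizer P a)
        rw [hk, hm] at h2
        exact hp.out.one_lt.ne' (Nat.dvd_one.1 h2)
      rw [hm, hp.out.pow_minFac hm0]
    have hcyc : IsCyclic (P ⧸ MulAction.stabilizer P a) :=
      isCyclic_of_prime_card (p := p) (by rw [← Subgroup.index_eq_card]; exact hk)
    have hc := hcyc.isMulCommutative
    rw [← QuotientGroup.eq_one_iff]
    have h3 : (QuotientGroup.mk (⁅(⟨x, hx⟩ : P), ⟨y, hy⟩⁆) : P ⧸ MulAction.stabilizer P a) =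
        ⁅(QuotientGroup.mk (⟨x, hx⟩ : P) : P ⧸ MulAction.stabilizer P a), QuotientGroup.mk ⟨y, hy⟩⁆ := rfl
    rw [h3, commutatorElement_eq_one_iff_mul_comm]
    exact hc.is_comm.comm _ _
  have h1 : (⁅(⟨x, hx⟩ : P), ⟨y, hy⟩⁆ : P) = 1 := by
    apply Subtype.ext
    apply Equiv.ext
    intro a
    exact key a
  rw [commutatorElement_eq_one_iff_mul_comm] at h1
  exact congrArg Subtype.val h1

theorem exists_qd_perm {p : ℕ} [hp : Fact p.Prime] :
    ∃ φ : qd p →* Equiv.Perm (Fin 2 → ZMod p), Function.Injective φ := by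
  let R : Subgroup (qd p × Equiv.Perm (Fin 2 → ZMod p)) :=
    { carrier := {z | ∃ (M : Matrix.SpecialLinearGroup (Fin 2) (ZMod p)) (s : Fin 2 → ZMod p),
        (z.1 : Matrix.SpecialLinearGroup (Fin 3) (ZMod p)) = affJ M s ∧ ∀ v, z.2 v = M.1.mulVec v + s}
      mul_mem' := by
        rintro ⟨g, σ⟩ ⟨g', σ'⟩ ⟨M, s, h1, h2⟩ ⟨M', s', h1', h2'⟩
        have h1a : (g : Matrix.SpecialLinearGroup (Fin 3) (ZMod p)) = affJ M s := h1
        have h1b : (g' : Matrix.SpecialLinearGroup (Fin 3) (ZMod p)) = affJ M' s' := h1'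
        have h2a : ∀ v, σ v = M.1.mulVec v + s := h2
        have h2b : ∀ v, σ' v = M'.1.mulVec v + s' := h2'
        refine ⟨M * M', s + M.1.mulVec s', ?_, fun v => ?_⟩
        · show ((g * g' : qd p) : Matrix.SpecialLinearGroup (Fin 3) (ZMod p)) = _
          rw [Subgroup.coe_mul, h1a, h1b, affJ_mul]
        · show σ (σ' v) = _
          rw [h2b, h2a, Matrix.mulVec_add, Matrix.mulVec_mulVec, add_assoc, add_comm (M.1.mulVec s') s]
          rfl
      one_mem' := ⟨1, 0, by show ((1 : qd p) : Matrix.SpecialLinearGroup (Fin 3) (ZMod p)) = _; rw [affJ_one]; rfl,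
        fun v => by
          show v = (1 : Matrix (Fin 2) (Fin 2) (ZMod p)).mulVec v + 0
          rw [Matrix.one_mulVec, add_zero]⟩
      inv_mem' := by
        rintro ⟨g, σ⟩ ⟨M, s, h1, h2⟩
        have h1a : (g : Matrix.SpecialLinearGroup (Fin 3) (ZMod p)) = affJ M s := h1
        have h2a : ∀ v, σ v = M.1.mulVec v + s := h2
        have e3 : M.1 * (M⁻¹).1 = 1 := by
          have : (M * M⁻¹).1 = M.1 * (M⁻¹).1 := rfl
          rw [← this, mul_inv_cancel]; rfl
        refine ⟨M⁻¹, -((M⁻¹).1.mulVec s), ?_, fun v => ?_⟩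
        · show ((g⁻¹ : qd p) : Matrix.SpecialLinearGroup (Fin 3) (ZMod p)) = _
          rw [Subgroup.coe_inv, inv_eq_iff_mul_eq_one, h1a, affJ_mul, Matrix.mulVec_neg, Matrix.mulVec_mulVec, e3,
            Matrix.one_mulVec, add_neg_cancel, mul_inv_cancel, affJ_one]
        · show σ⁻¹ v = _
          rw [Equiv.Perm.inv_eq_iff_eq, h2a, Matrix.mulVec_add, Matrix.mulVec_neg, Matrix.mulVec_mulVec,
            Matrix.mulVec_mulVec, e3, Matrix.one_mulVec, Matrix.one_mulVec]
          abel }
  have hR : ∀ g σ, (g, σ) ∈ R ↔ ∃ (M : Matrix.SpecialLinearGroup (Fin 2) (ZMod p)) (s : Fin 2 → ZMod p),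
        (g : Matrix.SpecialLinearGroup (Fin 3) (ZMod p)) = affJ M s ∧ ∀ v, σ v = M.1.mulVec v + s := fun g σ => Iff.rfl
  obtain ⟨φ, hφ⟩ := exists_hom_of_graph R (by
    intro g
    obtain ⟨M, s, hMs⟩ := (mem_qd_iff _).1 g.2
    have e3 : M.1 * (M⁻¹).1 = 1 := by
      have : (M * M⁻¹).1 = M.1 * (M⁻¹).1 := rfl
      rw [← this, mul_inv_cancel]; rfl
    have e4 : (M⁻¹).1 * M.1 = 1 := by
      have : (M⁻¹ * M).1 = (M⁻¹).1 * M.1 := rfl
      rw [← this, inv_mul_cancel]; rfl
    refine ⟨⟨fun v => M.1.mulVec v + s, fun v => (M⁻¹).1.mulVec (v - s), fun v => ?_, fun v => ?_⟩, ?_⟩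
    · show (M⁻¹).1.mulVec (M.1.mulVec v + s - s) = v
      rw [add_sub_cancel_right, Matrix.mulVec_mulVec, e4, Matrix.one_mulVec]
    · show M.1.mulVec ((M⁻¹).1.mulVec (v - s)) + s = v
      rw [Matrix.mulVec_mulVec, e3, Matrix.one_mulVec, sub_add_cancel]
    · rw [hR]
      exact ⟨M, s, hMs, fun v => rfl⟩) (by
    intro σ hσ
    obtain ⟨M, s, h1, h2⟩ := (hR _ _).1 hσ
    have h3 : affJ (p := p) 1 0 = affJ M s := by rw [affJ_one, ← h1]; rfl
    obtain ⟨h4, h5⟩ := affJ_injective h3
    apply Equiv.ext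
    intro v
    rw [h2, ← h4, ← h5, add_zero]
    exact Matrix.one_mulVec v)
  refine ⟨φ, ?_⟩
  rw [injective_iff_map_eq_one]
  intro g hg
  obtain ⟨M, s, h1, h2⟩ := (hR _ _).1 ((hφ g 1).2 hg.symm)
  have h3 : s = 0 := by
    have := h2 0
    rw [Matrix.mulVec_zero, zero_add] at this
    exact this.symm
  have h4 : M = 1 := by
    apply Subtype.ext
    ext i j
    have h5 := congrFun (h2 (Pi.single j 1)) i
    rw [h3, add_zero, Matrix.mulVec_single_one] at h5
    have h6 : (Pi.single j 1 : Fin 2 → ZMod p) i = M.1 i j := h5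
    rw [← h6]
    show _ = (1 : Matrix (Fin 2) (Fin 2) (ZMod p)) i j
    rw [Matrix.one_apply, Pi.single_apply]
  apply Subtype.ext
  rw [h1, h3, h4, affJ_one]
  rfl

theorem transvection_pow_p {q : ℕ} [Fact q.Prime] {i j : Fin 2} (hij : i ≠ j) :
    (Matrix.SpecialLinearGroup.transvection hij (1 : ZMod q) : Matrix.SpecialLinearGroup (Fin 2) (ZMod q)) ^ q = 1 := by
  have key : ∀ n : ℕ, (Matrix.SpecialLinearGroup.transvection hij (n : ZMod q) :
      Matrix.SpecialLinearGroup (Fin 2) (ZMod q)) =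
      (Matrix.SpecialLinearGroup.transvection hij 1) ^ n := by
    intro n
    induction n with
    | zero => rw [Nat.cast_zero, Matrix.SpecialLinearGroup.transvection_coeff_zero, pow_zero]
    | succ n ih =>
      rw [Nat.cast_succ, Matrix.SpecialLinearGroup.transvection_add, ih, pow_succ]
  rw [← key, ZMod.natCast_self, Matrix.SpecialLinearGroup.transvection_coeff_zero]

theorem qd_char_trivial {p : ℕ} [hp : Fact p.Prime] (hp2 : p ≠ 2) (χ : qd p →* ℤˣ) (g : qd p) : χ g = 1 := by
  have hord : ∀ h : qd p, h ^ p = 1 → χ h = 1 := by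
    intro h hh
    have h1 : χ h ^ p = 1 := by rw [← map_pow, hh, map_one]
    have hodd : Odd p := hp.out.odd_of_ne_two hp2
    rcases Int.units_eq_one_or (χ h) with h2 | h2
    · exact h2
    · rw [h2, hodd.neg_one_pow] at h1
      exact absurd h1 (by decide)
  let j : Matrix.SpecialLinearGroup (Fin 2) (ZMod p) →* qd p :=
    { toFun := fun M => ⟨affJ M 0, affJ_mem_qd M 0⟩
      map_one' := Subtype.ext affJ_one
      map_mul' := fun M N => Subtype.ext (by
        show affJ (M * N) 0 = affJ M 0 * affJ N 0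
        rw [affJ_mul, Matrix.mulVec_zero, add_zero]) }
  have htop : (χ.comp j).ker = ⊤ := by
    apply eq_top_of_two
    · rw [MonoidHom.mem_ker]
      apply hord
      rw [← map_pow]
      rw [transvection_pow_p, map_one]
    · rw [MonoidHom.mem_ker]
      apply hord
      rw [← map_pow, transvection_pow_p, map_one]
  obtain ⟨M, s, hMs⟩ := (mem_qd_iff _).1 g.2
  have e : g = trans p (Multiplicative.ofAdd s) * j M := by
    apply Subtype.ext
    rw [hMs]
    show affJ M s = affJ 1 s * affJ M 0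
    rw [affJ_mul, one_mul, Matrix.mulVec_zero, add_zero]
  rw [e, map_mul]
  have h1 : χ (j M) = 1 := by
    have : M ∈ (χ.comp j).ker := by rw [htop]; exact Subgroup.mem_top _
    exact this
  rw [h1, mul_one]
  apply hord
  rw [← map_pow, ← ofAdd_nsmul]
  have : p • s = 0 := by
    funext i
    simp
  rw [this, ofAdd_zero, map_one]

/-- Let p be an odd prime and n a natural number. The alternating group of degree n has a subgroup isomorphic to Qd(p) (the natural semidirect product of an elementary abelian group of order p² by SL₂(p)) if and only if n ≥ p²; and if n < p² then Qd(p) is not even involved in it. -/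
theorem result {p : ℕ} [Fact p.Prime] (hp : p ≠ 2) (n : ℕ) : ((∃ H : Subgroup (alternatingGroup (Fin n)), Nonempty (↥H ≃* ↥(Cfsg.qd p))) ↔ p ^ 2 ≤ n) ∧ (n < p ^ 2 → ¬ Cfsg.Involves ↥(Cfsg.qd p) ↥(alternatingGroup (Fin n))) := by
  have hno : n < p ^ 2 → ¬ Cfsg.Involves ↥(Cfsg.qd p) ↥(alternatingGroup (Fin n)) := by
    intro hn
    apply S2231.not_involves_of_comm
    intro P hP x hx y hy
    apply Subtype.ext
    exact comm_of_small hn (P.map (alternatingGroup (Fin n)).subtype) (hP.map _) _ ⟨x, hx, rfl⟩ _ ⟨y, hy, rfl⟩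
  refine ⟨⟨?_, ?_⟩, hno⟩
  · rintro ⟨H, ⟨e⟩⟩
    by_contra hn
    push Not at hn
    apply hno hn
    refine ⟨H, ⊥, inferInstance, ⟨?_⟩⟩
    have e2 : (⊥ : Subgroup (alternatingGroup (Fin n))).subgroupOf H = ⊥ := Subgroup.bot_subgroupOf _
    exact (QuotientGroup.quotientMulEquivOfEq e2).trans (QuotientGroup.quotientBot.trans e)
  · intro hn
    obtain ⟨φ, hφ⟩ := exists_qd_perm (p := p)
    have hcard : Fintype.card (Fin 2 → ZMod p) ≤ Fintype.card (Fin n) := by
      rw [Fintype.card_fin, Fintype.card_fun, ZMod.card, Fintype.card_fin]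
      exact hn
    obtain ⟨ι⟩ := Function.Embedding.nonempty_of_card_le hcard
    let ψ : ↥(Cfsg.qd p) →* Equiv.Perm (Fin n) := (Equiv.Perm.viaEmbeddingHom ι).comp φ
    have hψ : Function.Injective ψ := (Equiv.Perm.viaEmbeddingHom_injective ι).comp hφ
    have hsgn : ∀ g, ψ g ∈ alternatingGroup (Fin n) := by
      intro g
      rw [Equiv.Perm.mem_alternatingGroup]
      exact qd_char_trivial hp (Equiv.Perm.sign.comp ψ) g
    let ψ' : ↥(Cfsg.qd p) →* alternatingGroup (Fin n) := ψ.codRestrict _ hsgn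
    have hψ' : Function.Injective ψ' := by
      intro a b hab
      exact hψ (congrArg Subtype.val hab)
    exact ⟨ψ'.range, ⟨(MonoidHom.ofInjective hψ').symm⟩⟩

end Cfsg.Agent.S3835
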