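import Cfsg.Statements.S2761
import Cfsg.Agent.S3835
import Cfsg.Agent.H5.Small

set_option autoImplicit false
set_option linter.style.haveILetI false
set_option linter.unusedVariables false
set_option linter.unusedSectionVars false
open Cfsg

namespace Cfsg.Agent.S2761

open Cfsg.Agent.H2

theorem card_qd (p : ℕ) [hp : Fact p.Prime] : Nat.card (qd p) = Nat.card (Matrix.SpecialLinearGroup (Fin 2) (ZMod p)) * p ^ 2 := by
  have h : (Matrix.SpecialLinearGroup (Fin 2) (ZMod p)) × (Fin 2 → ZMod p) ≃ qd p := by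
    refine Equiv.ofBijective (fun z => ⟨affJ z.1 z.2, affJ_mem_qd _ _⟩) ⟨?_, ?_⟩
    · rintro ⟨M, s⟩ ⟨M', s'⟩ h
      obtain ⟨h1, h2⟩ := affJ_injective (congrArg Subtype.val h)
      exact Prod.ext h1 h2
    · rintro ⟨g, hg⟩
      obtain ⟨M, s, hMs⟩ := (mem_qd_iff _).1 hg
      exact ⟨(M, s), Subtype.ext hMs.symm⟩
  rw [← Nat.card_congr h, Nat.card_prod, Nat.card_fun, Nat.card_zmod, Nat.card_fin]

/-- The group Qd(2), the natural semidirect product of an elementary abelian group of order 4 by SL₂(2) (realised as the affine subgroup of SL₃(2)), is isomorphic to the symmetric group of degree 4. -/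
theorem result : Nonempty (↥(Cfsg.qd 2) ≃* Equiv.Perm (Fin 4)) := by
  haveI : Fact (Nat.Prime 2) := ⟨Nat.prime_two⟩
  obtain ⟨φ, hφ⟩ := S3835.exists_qd_perm (p := 2)
  have e : (Fin 2 → ZMod 2) ≃ Fin 4 := Fintype.equivFinOfCardEq (by rw [Fintype.card_fun, ZMod.card, Fintype.card_fin]; norm_num)
  let ψ : ↥(Cfsg.qd 2) →* Equiv.Perm (Fin 4) := (e.permCongrHom.toMonoidHom).comp φ
  have hψ : Function.Injective ψ := e.permCongrHom.injective.comp hφ
  have hcard : Nat.card ↥(Cfsg.qd 2) = Nat.card (Equiv.Perm (Fin 4)) := by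
    rw [card_qd, H5.card_SL2 (q := 2) (ZMod.card 2), Nat.card_perm, Nat.card_fin]
    decide
  have hbij : Function.Bijective ψ := by
    rw [Nat.bijective_iff_injective_and_card]
    exact ⟨hψ, hcard⟩
  exact ⟨MulEquiv.ofBijective ψ hbij⟩

end Cfsg.Agent.S2761
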