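import Cfsg.Statements.S2897
import Cfsg.Agent.H18.ParChar

set_option autoImplicit false
open Cfsg
open Cfsg.Agent.H18

namespace Cfsg.Agent.S2897

/-- Let p be a prime dividing the order of the finite group G, suppose G has parabolic characteristic p, let S be a Sylow p-subgroup of G and G₁ a normal subgroup of G. If Ω₁(Z(S ∩ G₁)) is nontrivial and contained in Ω₁(Z(S)), then G₁ has parabolic characteristic p. -/
theorem result {G : Type*} [Group G] [Finite G] {p : ℕ} [Fact p.Prime] (hdiv : p ∣ Nat.card G) (hG : Cfsg.IsOfParabolicCharacteristic p G) (S : Sylow p G) (G₁ : Subgroup G) [G₁.Normal] (hne : Cfsg.omegaOne p (((S : Subgroup G) ⊓ G₁) ⊓ Subgroup.centralizer (((S : Subgroup G) ⊓ G₁ : Subgroup G) : Set G)) ≠ ⊥) (hle : Cfsg.omegaOne p (((S : Subgroup G) ⊓ G₁) ⊓ Subgroup.centralizer (((S : Subgroup G) ⊓ G₁ : Subgroup G) : Set G)) ≤ Cfsg.omegaOne p ((S : Subgroup G) ⊓ Subgroup.centralizer ((S : Subgroup G) : Set G))) : Cfsg.IsOfParabolicCharacteristic p ↥G₁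 := by
  have hS : Cfsg.Agent.L.SylIn p (S : Subgroup G) ⊤ := Cfsg.Agent.L.sylIn_top S
  have hS1 : Cfsg.Agent.L.SylIn p ((S : Subgroup G) ⊓ G₁) G₁ :=
    sylIn_inf_of_normalizes hS le_top le_normalizer_of_normal
  have hG' := (parChar_iff S).1 hG
  rw [parChar_iff hS1.toSylow]
  rw [Cfsg.Agent.L.SylIn.toSylow_coe]
  intro z hz1 hz
  have hz1' : (z : G) ≠ 1 := fun e => hz1 (Subtype.ext e)
  have hz2 : (z : G) ∈ Cfsg.omegaOne p (((S : Subgroup G) ⊓ G₁) ⊓
      Subgroup.centralizer (((S : Subgroup G) ⊓ G₁ : Subgroup G) : Set G)) := by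
    -- map the closure
    have hle : (Cfsg.omegaOne p ((((S : Subgroup G) ⊓ G₁).subgroupOf G₁) ⊓
        Subgroup.centralizer ((((S : Subgroup G) ⊓ G₁).subgroupOf G₁ : Subgroup ↥G₁) :
          Set ↥G₁))).map G₁.subtype ≤ Cfsg.omegaOne p (((S : Subgroup G) ⊓ G₁) ⊓
      Subgroup.centralizer (((S : Subgroup G) ⊓ G₁ : Subgroup G) : Set G)) := by
      rw [Cfsg.omegaOne, MonoidHom.map_closure, Subgroup.closure_le]
      rintro _ ⟨y, ⟨hy, hyp⟩, rfl⟩
      refine mem_omegaOne (Subgroup.mem_inf.2 ⟨?_, ?_⟩) ?_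
      · exact Subgroup.mem_subgroupOf.1 (Subgroup.mem_inf.1 hy).1
      · rw [Subgroup.mem_centralizer_iff]
        intro x hx
        have := Subgroup.mem_centralizer_iff.1 (Subgroup.mem_inf.1 hy).2 ⟨x, hx.2⟩ (by
          rw [SetLike.mem_coe, Subgroup.mem_subgroupOf]; exact hx)
        exact congrArg Subtype.val this
      · have := congrArg Subtype.val hyp
        simpa using this
    exact hle ⟨z, hz, rfl⟩
  have h1 := hG' (z : G) hz1' (hle hz2)
  have h2 : CP p (Subgroup.centralizer ({(z : G)} : Set G) ⊓ G₁) :=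
    h1.normal inf_le_left (le_normalizer_inf Subgroup.le_normalizer le_normalizer_of_normal)
  have h3 : (Subgroup.centralizer ({z} : Set ↥G₁)).map G₁.subtype =
      Subgroup.centralizer ({(z : G)} : Set G) ⊓ G₁ := by
    ext y
    constructor
    · rintro ⟨w, hw, rfl⟩
      refine Subgroup.mem_inf.2 ⟨?_, w.2⟩
      rw [commute_iff_mem_centralizer_singleton]
      rw [SetLike.mem_coe, commute_iff_mem_centralizer_singleton] at hw
      exact congrArg Subtype.val hw
    · intro hy
      obtain ⟨hy1, hy2⟩ := Subgroup.mem_inf.1 hy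
      refine ⟨⟨y, hy2⟩, ?_, rfl⟩
      rw [commute_iff_mem_centralizer_singleton] at hy1
      rw [SetLike.mem_coe, commute_iff_mem_centralizer_singleton]
      exact Subtype.ext hy1
  rw [← h3] at h2
  exact CP.of_map_injective G₁.subtype_injective h2

end Cfsg.Agent.S2897
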