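import Cfsg.Statements.S2898
import Cfsg.Agent.H18.ParChar
import Cfsg.Agent.H4.ZStarA

set_option autoImplicit false
open Cfsg
open Cfsg.Agent.H18
open scoped commutatorElement

namespace Cfsg.Agent.S2898

theorem eq_bot_of_cp {G : Type*} [Group G] [Finite G] {p : ℕ} [Fact p.Prime] {K D : Subgroup G}
    (h : CP p K) (hDK : D ≤ K) (hn : K ≤ Subgroup.normalizer (D : Set G))
    (hD : (Nat.card D).Coprime p) : D = ⊥ := by
  have h1 := cp_iff.1 h
  have h2 : ⁅D, pCoreOf p K⁆ = ⊥ := by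
    have h3 : ⁅D, pCoreOf p K⁆ ≤ D ⊓ pCoreOf p K :=
      le_inf (Subgroup.le_normalizer_iff_commutator_le_left.1 ((pCoreOf_le K).trans hn))
        (Subgroup.le_normalizer_iff_commutator_le_right.1 (hDK.trans (le_normalizer_pCoreOf K)))
    rw [inf_eq_bot_of_coprime hD (isPGroup_pCoreOf K)] at h3
    exact le_bot_iff.1 h3
  rw [Subgroup.commutator_eq_bot_iff_le_centralizer] at h2
  have h3 : D ≤ D ⊓ pCoreOf p K := le_inf le_rfl ((le_inf hDK h2).trans h1)
  rw [inf_eq_bot_of_coprime hD (isPGroup_pCoreOf K)] at h3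
  exact le_bot_iff.1 h3

theorem inverts {G : Type*} [Group G] [Finite G] {O : Subgroup G} [O.Normal] {w : G}
    (hw : w * w = 1) (h : ∀ x ∈ O, w * x = x * w → x = 1) : ∀ x ∈ O, w * x * w⁻¹ = x⁻¹ := by
  have hwi : w⁻¹ = w := inv_eq_of_mul_eq_one_left hw
  have hn : O.Normal := inferInstance
  let f : O → O := fun x => ⟨(x : G)⁻¹ * (w * x * w⁻¹), mul_mem (inv_mem x.2)
    (hn.conj_mem _ x.2 w)⟩
  have hinj : Function.Injective f := by
    intro x y hxy
    have h1 : (x : G)⁻¹ * (w * x * w⁻¹) = (y : G)⁻¹ * (w * y * w⁻¹) := congrArg Subtype.val hxy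
    have h2 : w * ((y : G) * (x : G)⁻¹) = ((y : G) * (x : G)⁻¹) * w := by
      have h3 : (y : G) * (x : G)⁻¹ = (w * y * w⁻¹) * (w * x * w⁻¹)⁻¹ := by
        rw [eq_mul_inv_iff_mul_eq]
        have h4 : (y : G) * ((x : G)⁻¹ * (w * x * w⁻¹)) = (y : G) * ((y : G)⁻¹ * (w * y * w⁻¹)) := by
          rw [h1]
        rw [mul_assoc, h4, mul_inv_cancel_left]
      conv_rhs => rw [h3]
      group
    have h3 := h _ (mul_mem y.2 (inv_mem x.2)) h2
    apply Subtype.ext
    rw [mul_inv_eq_one] at h3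
    exact h3.symm
  have hsur : Function.Surjective f := Finite.surjective_of_injective hinj
  intro y hy
  obtain ⟨x, hx⟩ := hsur ⟨y, hy⟩
  have h1 : (x : G)⁻¹ * (w * x * w⁻¹) = y := congrArg Subtype.val hx
  rw [← h1]
  simp only [hwi]
  have e : w * ((x : G)⁻¹ * (w * x * w)) * w = w * (x : G)⁻¹ * w * x * (w * w) := by group
  have e2 : ((x : G)⁻¹ * (w * x * w))⁻¹ = w⁻¹ * (x : G)⁻¹ * w⁻¹ * x := by group
  rw [e, hw, mul_one, e2, hwi]

/-- Let G be a finite group of even order with parabolic characteristic 2. If the centre of G ⧸ O(G) is trivial, then O(G) = 1. -/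
theorem result {G : Type*} [Group G] [Finite G] (h2 : 2 ∣ Nat.card G) (hG : Cfsg.IsOfParabolicCharacteristic 2 G) [hN : (Cfsg.oddCore G).Normal] (hZ : Subgroup.center (G ⧸ Cfsg.oddCore G) = ⊥) : Cfsg.oddCore G = ⊥ := by
  by_contra hO
  obtain ⟨S⟩ : Nonempty (Sylow 2 G) := inferInstance
  haveI : Fact (Nat.Prime 2) := ⟨Nat.prime_two⟩
  have hS : Cfsg.Agent.L.SylIn 2 (S : Subgroup G) ⊤ := Cfsg.Agent.L.sylIn_top S
  have hS1 : (S : Subgroup G) ≠ ⊥ := Sylow.ne_bot_of_dvd_card S h2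
  set O := Cfsg.oddCore G with hOdef
  have hOodd : Odd (Nat.card O) := Cfsg.Agent.H4.oddCore_odd G
  have hOcop : (Nat.card O).Coprime 2 := Nat.Coprime.symm (Nat.coprime_two_left.2 hOodd)
  have hG' := (parChar_iff S).1 hG
  -- central involutions of S invert O
  have hinv : ∀ w ∈ (S : Subgroup G), orderOf w = 2 →
      w ∈ Subgroup.centralizer ((S : Subgroup G) : Set G) → ∀ x ∈ O, w * x * w⁻¹ = x⁻¹ := by
    intro w hw ho hc
    have hw1 : w ≠ 1 := by
      rintro rfl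
      rw [orderOf_one] at ho; omega
    have hww : w * w = 1 := by
      rw [← pow_two, ← ho]; exact pow_orderOf_eq_one w
    have h1 := hG' w hw1 (mem_omegaZ_iff_of_order hw hc ho)
    have h3 : O ⊓ Subgroup.centralizer ({w} : Set G) = ⊥ := by
      refine eq_bot_of_cp h1 inf_le_right
        (le_normalizer_inf le_normalizer_of_normal Subgroup.le_normalizer) ?_
      exact Nat.Coprime.coprime_dvd_left (Subgroup.card_dvd_of_le inf_le_left) hOcop
    refine inverts hww fun x hx hcomm => ?_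
    have h4 : x ∈ O ⊓ Subgroup.centralizer ({w} : Set G) :=
      Subgroup.mem_inf.2 ⟨hx, commute_iff_mem_centralizer_singleton.2 hcomm⟩
    rw [h3] at h4
    exact h4
  obtain ⟨z, -, hzS, hzo, hzc, -⟩ := exists_central_of_normal hS.isPGroup hS hS1
    Subgroup.le_normalizer
  have hz := hinv z hzS hzo hzc
  set C := Subgroup.centralizer (O : Set G) with hC
  have hCn : C.Normal := Subgroup.normal_centralizer
  have hSC : (S : Subgroup G) ⊓ C = ⊥ := by
    by_contra hne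
    obtain ⟨w, hw, hwS, hwo, hwc, -⟩ := exists_central_of_normal
      (hS.isPGroup.to_le (inf_le_left : (S : Subgroup G) ⊓ C ≤ S)) hS hne
      (le_normalizer_inf Subgroup.le_normalizer le_normalizer_of_normal)
    apply hO
    rw [eq_bot_iff]
    intro x hx
    have h1 := hinv w hwS hwo hwc x hx
    have h3 : x * w = w * x := Subgroup.mem_centralizer_iff.1 hw.2 x hx
    rw [← h3, mul_inv_cancel_right] at h1
    have h4 : x ^ 2 = 1 := by rw [pow_two]; nth_rewrite 2 [h1]; exact mul_inv_cancel x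
    have h5 : orderOf x ∣ 2 := orderOf_dvd_of_pow_eq_one h4
    have h6 : (orderOf x).Coprime 2 := orderOf_coprime_of_card hOcop hx
    have h7 : orderOf x = 1 := Nat.Coprime.eq_one_of_dvd h6 h5
    exact orderOf_eq_one_iff.1 h7
  have hCodd : C ≤ O := by
    have h1 := sylIn_inf_of_normalizes hS (le_top : C ≤ ⊤) le_normalizer_of_normal
    rw [hSC] at h1
    have h3 := h1.not_dvd
    rw [Subgroup.relIndex_bot_left] at h3
    exact Cfsg.Agent.H4.le_oddCore hCn (Nat.not_even_iff_odd.1 fun he => h3 he.two_dvd)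
  have hcen : (QuotientGroup.mk z : G ⧸ O) ∈ Subgroup.center (G ⧸ O) := by
    rw [Subgroup.mem_center_iff]
    intro g
    obtain ⟨g, rfl⟩ := QuotientGroup.mk_surjective g
    rw [← QuotientGroup.mk_mul, ← QuotientGroup.mk_mul, eq_comm, QuotientGroup.eq]
    apply hCodd
    rw [hC, Subgroup.mem_centralizer_iff]
    intro x hx
    have hOn : O.Normal := inferInstance
    have hzi : ∀ x ∈ O, z⁻¹ * x * z = x⁻¹ := by
      intro x hx
      have h1 := hz _ (inv_mem hx)
      rw [inv_inv] at h1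
      calc z⁻¹ * x * z = z⁻¹ * (z * x⁻¹ * z⁻¹) * z := by rw [h1]
        _ = x⁻¹ := by group
    -- (z g)⁻¹ (g z) = g⁻¹ z⁻¹ g z
    have h1 : z * x * z⁻¹ = x⁻¹ := hz x hx
    have h3 : g * x⁻¹ * g⁻¹ ∈ O := hOn.conj_mem _ (inv_mem hx) g
    have h4 : z⁻¹ * (g * x⁻¹ * g⁻¹) * z = (g * x⁻¹ * g⁻¹)⁻¹ := hzi _ h3
    have h5 : ((z * g)⁻¹ * (g * z)) * x * ((z * g)⁻¹ * (g * z))⁻¹ = x := by
      calc ((z * g)⁻¹ * (g * z)) * x * ((z * g)⁻¹ * (g * z))⁻¹
          = g⁻¹ * (z⁻¹ * (g * (z * x * z⁻¹) * g⁻¹) * z) * g := by group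
        _ = x := by rw [h1, h4]; group
    rw [mul_inv_eq_iff_eq_mul] at h5
    exact h5.symm
  rw [hZ, Subgroup.mem_bot, QuotientGroup.eq_one_iff] at hcen
  have h6 : (orderOf z).Coprime 2 := orderOf_coprime_of_card hOcop hcen
  rw [hzo] at h6
  norm_num at h6

end Cfsg.Agent.S2898
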