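import Cfsg.Statements.S2904
import Cfsg.Agent.H18.Zsig

set_option autoImplicit false
open Cfsg

namespace Cfsg.Agent.S2904

/-- Zsigmondy's Theorem: for natural numbers a > 1 and n > 1 there is a prime dividing aⁿ − 1 that divides aᵏ − 1 for no natural number 0 < k < n, unless a = 2 and n = 6, or n = 2 and a + 1 is a power of two. -/
theorem result (a n : ℕ) (ha : 1 < a) (hn : 1 < n) (h6 : ¬ (a = 2 ∧ n = 6)) (h2 : ¬ (n = 2 ∧ ∃ m : ℕ, a + 1 = 2 ^ m)) : ∃ r : ℕ, r.Prime ∧ r ∣ a ^ n - 1 ∧ ∀ k : ℕ, 0 < k → k < n → ¬ r ∣ a ^ k - 1 := by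
  rcases Nat.lt_or_ge 2 n with h | h
  · exact Cfsg.Agent.H18.Zsig.zsigmondy ha h h6
  · have hn2 : n = 2 := by omega
    subst hn2
    rcases Nat.eq_two_pow_or_exists_odd_prime_and_dvd (a + 1) with ⟨k, hk⟩ | ⟨p, hp, hpd, hodd⟩
    · exact absurd ⟨rfl, k, hk⟩ h2
    · refine ⟨p, hp, ?_, ?_⟩
      · have e : a ^ 2 - 1 = (a + 1) * (a - 1) := by
          have := Nat.sq_sub_sq a 1
          rwa [one_pow] at this
        rw [e]
        exact hpd.mul_right _
      · intro k hk0 hk2
        have hk1 : k = 1 := by omega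
        subst hk1
        rw [pow_one]
        intro hd
        have h3 : p ∣ (a + 1) - (a - 1) := Nat.dvd_sub hpd hd
        have h4 : (a + 1) - (a - 1) = 2 := by omega
        rw [h4] at h3
        have h5 := Nat.le_of_dvd (by norm_num) h3
        have h6 := hp.two_le
        have h7 : p = 2 := by omega
        rw [h7] at hodd
        exact absurd hodd (by decide)

end Cfsg.Agent.S2904
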