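import Cfsg.Statements.S2907
import Cfsg.Agent.H18.PCore

set_option autoImplicit false
open Cfsg

namespace Cfsg.Agent.S2907

/-- Let X be a finite semi-extraspecial p-group and x an element of X outside the centre. Then the index of C_X(x) in X equals the order of Z(X), and the commutators [x, y], y ∈ X, form exactly the centre Z(X). -/
theorem result {X : Type*} [Group X] [Finite X] {p : ℕ} [Fact p.Prime] (hX : Cfsg.IsSemiExtraspecial p X) (x : X) (hx : x ∉ Subgroup.center X) : (Subgroup.centralizer ({x} : Set X)).index = Nat.card ↥(Subgroup.center X) ∧ {z : X | ∃ y : X, z = x * y * x⁻¹ * y⁻¹} = (Subgroup.center X : Set X) := by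
  obtain ⟨⟨hp, hf, hc⟩, hY⟩ := hX
  have hcent : ∀ y : X, x * y * x⁻¹ * y⁻¹ ∈ Subgroup.center X := by
    intro y
    rw [← hc]
    exact Subgroup.commutator_mem_commutator (Subgroup.mem_top _) (Subgroup.mem_top _)
  let f : X →* X :=
    { toFun := fun y => x * y * x⁻¹ * y⁻¹
      map_one' := by simp
      map_mul' := by
        intro y z
        have h1 := Subgroup.mem_center_iff.1 (hcent z) y
        calc x * (y * z) * x⁻¹ * (y * z)⁻¹
            = x * y * x⁻¹ * (x * z * x⁻¹ * z⁻¹ * y⁻¹) := by group
          _ = x * y * x⁻¹ * (y⁻¹ * (y * (x * z * x⁻¹ * z⁻¹)) * y⁻¹) := by group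
          _ = x * y * x⁻¹ * (y⁻¹ * (x * z * x⁻¹ * z⁻¹ * y) * y⁻¹) := by rw [h1]
          _ = x * y * x⁻¹ * y⁻¹ * (x * z * x⁻¹ * z⁻¹) := by group }
  have hfr : ∀ y, f y = x * y * x⁻¹ * y⁻¹ := fun _ => rfl
  have hker : f.ker = Subgroup.centralizer ({x} : Set X) := by
    ext y
    rw [MonoidHom.mem_ker, hfr, Subgroup.mem_centralizer_iff]
    constructor
    · intro h z hz
      rw [Set.mem_singleton_iff] at hz
      rw [hz, ← mul_inv_eq_one, mul_inv_rev, ← mul_assoc]
      exact h
    · intro h
      rw [h x rfl]; group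
  have hle : f.range ≤ Subgroup.center X := by
    rintro _ ⟨y, rfl⟩
    exact hcent y
  have hrange : f.range = Subgroup.center X := by
    by_contra hne
    have hne2 : f.range.subgroupOf (Subgroup.center X) ≠ ⊤ := by
      rw [Ne, Subgroup.subgroupOf_eq_top]
      exact fun h => hne (le_antisymm hle h)
    obtain ⟨M, hM, hfM⟩ := (eq_top_or_exists_le_coatom
      (f.range.subgroupOf (Subgroup.center X))).resolve_left hne2
    obtain ⟨hn, hsp, hcard⟩ := hY (M.map (Subgroup.center X).subtype)
      (Subgroup.map_subtype_le _) (by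
        rw [Subgroup.subgroupOf, Subgroup.comap_map_eq_self_of_injective
          (Subgroup.subtype_injective _)]
        exact hM)
    set Y := M.map (Subgroup.center X).subtype with hYdef
    have hfY : f.range ≤ Y := by
      have := Subgroup.map_mono (f := (Subgroup.center X).subtype) hfM
      rwa [Subgroup.map_subgroupOf_eq_of_le hle] at this
    have hxc : (QuotientGroup.mk' Y x) ∈ Subgroup.center (X ⧸ Y) := by
      rw [Subgroup.mem_center_iff]
      intro g
      obtain ⟨y, rfl⟩ := QuotientGroup.mk'_surjective Y g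
      have h1 : x * y * x⁻¹ * y⁻¹ ∈ Y := hfY ⟨y, rfl⟩
      have h2 : QuotientGroup.mk' Y (x * y * x⁻¹ * y⁻¹) = 1 := (QuotientGroup.eq_one_iff _).2 h1
      rw [map_mul, map_mul, map_mul, map_inv, map_inv, mul_inv_eq_one, mul_inv_eq_iff_eq_mul] at h2
      exact h2.symm
    have hZle : (Subgroup.center X).map (QuotientGroup.mk' Y) ≤ Subgroup.center (X ⧸ Y) := by
      rintro _ ⟨z, hz, rfl⟩
      rw [Subgroup.mem_center_iff]
      intro g
      obtain ⟨y, rfl⟩ := QuotientGroup.mk'_surjective Y g
      rw [← map_mul, ← map_mul, Subgroup.mem_center_iff.1 hz y]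
    have hYZ : Y ≤ Subgroup.center X := Subgroup.map_subtype_le _
    have hdvd := Subgroup.card_dvd_of_le hZle
    rw [hcard, Nat.dvd_prime Fact.out] at hdvd
    rcases hdvd with h1 | h1
    · rw [Subgroup.card_eq_one, Subgroup.map_eq_bot_iff, QuotientGroup.ker_mk'] at h1
      apply hM.1
      rw [eq_top_iff]
      intro z _
      obtain ⟨w, hw, e⟩ := h1 z.2
      rw [← Subtype.ext (a1 := w) (a2 := z) e]
      exact hw
    · have h2 := Subgroup.eq_of_le_of_card_ge hZle (by rw [hcard, h1])
      rw [← h2] at hxc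
      obtain ⟨z, hz, e⟩ := hxc
      apply hx
      rw [QuotientGroup.mk'_apply, QuotientGroup.mk'_apply, QuotientGroup.eq] at e
      have : x = z * (z⁻¹ * x) := by group
      rw [this]
      exact mul_mem hz (hYZ e)
  constructor
  · rw [← hker, Subgroup.index_ker, hrange]
  · ext z
    rw [← hrange]
    constructor
    · rintro ⟨y, rfl⟩; exact ⟨y, rfl⟩
    · rintro ⟨y, rfl⟩; exact ⟨y, rfl⟩

end Cfsg.Agent.S2907
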