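import Cfsg.Statements.S2908
import Cfsg.Agent.H18.Basics

set_option autoImplicit false
open Cfsg

namespace Cfsg.Agent.S2908

/-- Let P be a p-subgroup of a finite group, normalized by a p-subgroup A and by a subgroup B of order prime to p that commutes elementwise with A. If [P, B] ≤ [P, A], then B centralizes P. -/
theorem result {G : Type*} [Group G] [Finite G] {p : ℕ} [Fact p.Prime] (P A B : Subgroup G) (hP : IsPGroup p ↥P) (hA : IsPGroup p ↥A) (hB : ¬ p ∣ Nat.card ↥B) (hnA : A ≤ Subgroup.normalizer (P : Set G)) (hnB : B ≤ Subgroup.normalizer (P : Set G)) (hAB : ⁅A, B⁆ = ⊥) (hcomm : ⁅P, B⁆ ≤ ⁅P, A⁆) : ⁅P, B⁆ = ⊥ := by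
  have hBc : (Nat.card B).Coprime p := H18.coprime_card_iff.2 hB
  set D := ⁅P, B⁆ with hD
  by_contra hne
  have hDP : D ≤ P := Subgroup.le_normalizer_iff_commutator_le_left.1 hnB
  have hDD : ⁅D, B⁆ = D := H18.commutator_commutator_of_coprime hP hnB hBc
  have hAcB : A ≤ Subgroup.centralizer (B : Set G) := Subgroup.commutator_eq_bot_iff_le_centralizer.1 hAB
  have hcn : ∀ X Y : Subgroup G, X ≤ Subgroup.centralizer (Y : Set G) →
      X ≤ Subgroup.normalizer (Y : Set G) := by
    intro X Y hXY
    refine H18.le_normalizer_of_conj_mem fun x hx y hy => ?_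
    have := H18.le_centralizer_iff_forall.1 hXY x hx y hy
    rw [this]; simpa using hy
  have hBcA : B ≤ Subgroup.centralizer (A : Set G) := by
    rw [← Subgroup.commutator_eq_bot_iff_le_centralizer, Subgroup.commutator_comm]; exact hAB
  have hPnD : P ≤ Subgroup.normalizer (D : Set G) := Subgroup.normalizer_commutator_ge_left P B
  have hAnD : A ≤ Subgroup.normalizer (D : Set G) := H18.le_normalizer_commutator hnA (hcn _ _ hAcB)
  have hBnD : B ≤ Subgroup.normalizer (D : Set G) := Subgroup.normalizer_commutator_ge_right P B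
  have hS : IsPGroup p (A ⊔ P : Subgroup G) := H18.isPGroup_sup_of_le_normalizer hA hP hnA
  set N := ⁅D, A ⊔ P⁆ with hN
  have hlt : N < D := H18.commutator_lt_of_isPGroup (hP.to_le hDP) hS (sup_le hAnD hPnD) hne
  have hSn : A ⊔ P ≤ Subgroup.normalizer (N : Set G) := Subgroup.normalizer_commutator_ge_right _ _
  have hBn : B ≤ Subgroup.normalizer (N : Set G) :=
    H18.le_normalizer_commutator hBnD (H18.le_normalizer_sup (hcn _ _ hBcA) hnB)
  have h1 : ⁅⁅P, A⁆, B⁆ ≤ N := by
    refine H18.three_subgroups_le (le_sup_right.trans hSn) (le_sup_left.trans hSn) hBn ?_ ?_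
    · rw [hAB, Subgroup.commutator_bot_left]; exact bot_le
    · rw [Subgroup.commutator_comm B P]
      exact Subgroup.commutator_mono le_rfl le_sup_left
  have h2 : D ≤ N := by
    rw [← hDD]
    exact (Subgroup.commutator_mono hcomm le_rfl).trans h1
  exact absurd h2 (not_le_of_gt hlt)

end Cfsg.Agent.S2908
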