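import Cfsg.Statements.S2910
import Cfsg.Agent.H1.BG6
import Cfsg.Agent.H2.Frobenius
import Cfsg.Agent.H2.Residual
import Cfsg.Agent.H10.Comp

set_option autoImplicit false
open Cfsg
open Cfsg.Agent
open scoped commutatorElement

namespace Cfsg.Agent.S2910

theorem aux {G : Type*} [Group G] [Finite G] {p : ℕ} [Fact p.Prime] (hp : p ≠ 2)
    (P : Sylow p G) (hZ : Cfsg.omegaOne p (P : Subgroup G) ≤ Subgroup.center G) :
    Cfsg.HasNormalPComplement p G := by
  apply H2.hasNormalPComplement_of_centralizer
  intro X hX g hg hgp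
  obtain ⟨Q, hXQ⟩ := hX.exists_le_sylow
  obtain ⟨h, hh⟩ := MulAction.exists_smul_eq G Q P
  have hbot : Cfsg.IsElementaryAbelian p (⊥ : Subgroup G) := by
    refine ⟨⟨⟨fun a b => Subsingleton.elim _ _⟩⟩, ?_⟩
    intro a ha
    rw [Subgroup.mem_bot.1 ha, one_pow]
  have h1 : Subgroup.zpowers g ≤ Subgroup.centralizer (X : Set G) := by
    refine H1.bg1_fix hp X ⊥ (Subgroup.zpowers g) hX bot_le hbot
      ((Subgroup.zpowers_le).2 hg) (by rw [Nat.card_zpowers]; exact hgp) ?_
    rintro x ⟨hxX, -⟩ hxp
    have hx1 : h * x * h⁻¹ ∈ (P : Subgroup G) := by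
      rw [← hh]
      have : x ∈ (Q : Subgroup G) := hXQ hxX
      exact Subgroup.smul_mem_pointwise_smul x (MulAut.conj h) _ this
    have hx2 : h * x * h⁻¹ ∈ Cfsg.omegaOne p (P : Subgroup G) := by
      apply Subgroup.subset_closure
      refine ⟨hx1, ?_⟩
      rw [conj_pow, ← hxp, pow_orderOf_eq_one, mul_one, mul_inv_cancel]
    have hx3 := hZ hx2
    have hx4 : x ∈ Subgroup.center G := by
      have := (inferInstance : (Subgroup.center G).Normal).conj_mem _ hx3 h⁻¹
      have e : h⁻¹ * (h * x * h⁻¹) * h⁻¹⁻¹ = x := by group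
      rwa [e] at this
    intro y _
    rw [Subgroup.mem_centralizer_iff]
    rintro _ rfl
    exact (Subgroup.mem_center_iff.1 hx4 y).symm
  exact h1 (Subgroup.mem_zpowers g)

/-- Let p be an odd prime dividing the order of the finite group G and P a Sylow p-subgroup of G. If Ω₁(P) (generated by the elements of order dividing p) is contained in the centre of G, then G has a normal p-complement. In particular, if G is quasisimple then Ω₁(P) is not central in G. -/
theorem result {G : Type*} [Group G] [Finite G] {p : ℕ} [Fact p.Prime] (hp : p ≠ 2) (hdiv : p ∣ Nat.card G) (P : Sylow p G) (hZ : Cfsg.omegaOne p (P : Subgroup G) ≤ Subgroup.center G) : Cfsg.HasNormalPComplement p G ∧ ¬ Cfsg.IsQuasisimple G := by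
  have h1 := aux hp P hZ
  refine ⟨h1, ?_⟩
  intro hq
  rw [H2.hasNormalPComplement_iff_pResidual] at h1
  have hn : (pResidual p G).Normal := H2.pResidual_normal
  apply h1
  have hperf : commutator G = ⊤ := hq.1.1
  have h2 : commutator (G ⧸ pResidual p G) = ⊤ := by
    have h3 := congrArg (Subgroup.map (QuotientGroup.mk' (pResidual p G))) hperf
    rw [commutator_def, Subgroup.map_commutator, ← MonoidHom.range_eq_map,
      MonoidHom.range_eq_top.2 (QuotientGroup.mk'_surjective _)] at h3
    exact h3
  have h4 : Subsingleton (G ⧸ pResidual p G) := by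
    by_contra hc
    have hnt : Nontrivial (G ⧸ pResidual p G) := not_subsingleton_iff_nontrivial.1 hc
    have hpg : IsPGroup p (G ⧸ pResidual p G) := H2.isPGroup_quotient_pResidual
    have hnil := hpg.isNilpotent
    exact (IsSolvable.commutator_lt_top_of_nontrivial (G ⧸ pResidual p G)).ne h2
  have h5 : pResidual p G = ⊤ := QuotientGroup.subgroup_eq_top_of_subsingleton _ h4
  rw [h5, Subgroup.card_top]
  exact hdiv

end Cfsg.Agent.S2910
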