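import Cfsg.Statements.S2916
import Cfsg.Agent.H21.LT11
import Cfsg.Agent.H21.MA22

set_option autoImplicit false
open Cfsg

namespace Cfsg.Agent.S2916

/-- Let G be a finite group with O²(G) = G (no proper normal subgroup of 2-power index), and let t be an involution of G whose centralizer C_G(t) is isomorphic to GL₂(3). Then G is isomorphic to PSL₃(3) or to the Mathieu group M₁₁. -/
theorem result {G : Type*} [Group G] [Finite G] (hO : Cfsg.pResidual 2 G = ⊤) (t : G) (ht : orderOf t = 2) (hC : Nonempty (↥(Subgroup.centralizer ({t} : Set G)) ≃* GL (Fin 2) (ZMod 3))) : (∃ (F : Type) (_ : Field F) (_ : Fintype F), Fintype.card F = 3 ∧ Nonempty (G ≃* Matrix.ProjectiveSpecialLinearGroup (Fin 3) F)) ∨ Cfsg.Spor.IsoM11 G := by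
  obtain ⟨e⟩ := hC
  obtain ⟨hs, h | ⟨⟨f⟩⟩⟩ := Cfsg.Agent.H21.LT.main hO ht e
  · right
    haveI := hs
    exact Cfsg.Agent.H21.MA.iso_Spor h
  · left
    have hinj : Function.Injective (Cfsg.Agent.H17.mkP : Matrix.SpecialLinearGroup (Fin 3) (ZMod 3) →* _) := by
      rw [← MonoidHom.ker_eq_bot_iff, eq_bot_iff]
      intro s hs
      rw [MonoidHom.mem_ker, Cfsg.Agent.H17.mkP_eq_one_iff, Cfsg.Agent.H4.center_L33] at hs
      exact hs
    haveI : Fact (Nat.Prime 3) := ⟨by norm_num⟩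
    exact ⟨ZMod 3, inferInstance, inferInstance, by simp, ⟨f.trans (MulEquiv.ofBijective Cfsg.Agent.H17.mkP ⟨hinj, Cfsg.Agent.H17.mkP_surjective⟩)⟩⟩

end Cfsg.Agent.S2916
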