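import Cfsg.Statements.S2924
import Cfsg.Agent.H19.OddCores

set_option autoImplicit false
set_option linter.style.haveILetI false
open Cfsg

namespace Cfsg.Agent.S2924

/-- Let X be a finite group and Y an elementary abelian 2-subgroup of X of order at least 8 such that C_X(x) has no components (E(C_X(x)) = 1) for every nontrivial x ∈ Y, and F*(C_X(z)) = O₂(C_X(z)) for some nontrivial z ∈ Y. Then the subgroup generated by the cores O(C_X(y)), y ∈ Y nontrivial, has odd order and is normalized by N_X(Y). -/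
theorem result {X : Type*} [Group X] [Finite X] (Y : Subgroup X) (hY : Cfsg.IsElementaryAbelian 2 Y) (h8 : 8 ≤ Nat.card ↥Y) (hE : ∀ x ∈ Y, x ≠ 1 → Cfsg.layer ↥(Subgroup.centralizer ({x} : Set X)) = ⊥) (hz : ∃ z ∈ Y, z ≠ 1 ∧ Cfsg.generalizedFittingSubgroup ↥(Subgroup.centralizer ({z} : Set X)) = Cfsg.pCore 2 ↥(Subgroup.centralizer ({z} : Set X))) : Odd (Nat.card ↥(⨆ y : {y : X // y ∈ Y ∧ y ≠ 1}, (Cfsg.oddCore ↥(Subgroup.centralizer ({(y : X)} : Set X))).map (Subgroup.centralizer ({(y : X)} : Set X)).subtype)) ∧ Subgroup.normalizer (Y : Set X) ≤ Subgroup.normalizer ((⨆ y : {y : X // y ∈ Y ∧ y ≠ 1}, (Cfsg.oddCore ↥(Subgroup.centralizer ({(y : X)} : Set X))).map (Subgroup.centralizer ({(y : X)} : Set X)).subtype : Subgroup X) : Set X) := by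

  classical
  haveI : Fact (Nat.Prime 2) := ⟨Nat.prime_two⟩
  obtain ⟨z, hzY, hz1, hz⟩ := hz
  have hcomm : ∀ a ∈ Y, ∀ b ∈ Y, a * b = b * a := fun a ha b hb => Cfsg.Agent.H10.elab_comm hY ha hb
  have hsq : ∀ a ∈ Y, a * a = 1 := fun a ha => by rw [← sq]; exact hY.2 a ha
  have hinv : ∀ y ∈ Y, ∀ k ∈ Cfsg.centralizerPPrimeCore 2 y, z * k * z⁻¹ = k⁻¹ := fun y hy =>
    Cfsg.Agent.H19.cppc_inverted (hsq y hy) (hsq z hzY) (hcomm y hy z hzY) hz
  have hab : ∀ y ∈ Y, ∀ a ∈ Cfsg.centralizerPPrimeCore 2 y, ∀ b ∈ Cfsg.centralizerPPrimeCore 2 y, a * b = b * a :=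
    fun y hy => Cfsg.Agent.H19.comm_of_inverted (hinv y hy)
  have hbal : ∀ y ∈ Y, ∀ w ∈ Y, w ≠ 1 → Cfsg.centralizerPPrimeCore 2 y ⊓ Subgroup.centralizer {w} ≤
      Cfsg.centralizerPPrimeCore 2 w := fun y hy w hw hw1 =>
    Cfsg.Agent.H19.cppc_balance (hsq y hy) (hsq w hw) (hsq z hzY) (hcomm y hy w hw) (hcomm y hy z hzY)
      (hcomm w hw z hzY) (hE w hw hw1) hz
  obtain ⟨E, hEY, hEc⟩ := Cfsg.Agent.H10.exists_le_card_eq (p := 2) (k := 3) (Cfsg.Agent.H10.elab_isPGroup hY) (by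
    simpa using h8)
  have hEel := Cfsg.Agent.H10.elab_mono hY hEY
  have hYn : ∀ y ∈ Y, E ≤ Subgroup.normalizer (Cfsg.centralizerPPrimeCore 2 y : Set X) := by
    intro y hy e he
    apply Cfsg.Agent.H10.centralizer_le_normalizer_cppc
    rw [Subgroup.mem_centralizer_singleton_iff]
    exact hcomm e (hEY he) y hy
  have hnd : ∀ y : X, ¬ 2 ∣ Nat.card (Cfsg.centralizerPPrimeCore 2 y) := by
    intro y h
    have h1 := Cfsg.Agent.H10.cppc_coprime 2 y
    have h2 : Odd (Nat.card (Cfsg.centralizerPPrimeCore 2 y)) := Nat.coprime_two_right.mp h1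
    exact (Nat.not_even_iff_odd.mpr h2) (even_iff_two_dvd.mpr h)
  have hcc : ∀ y₁ ∈ Y, ∀ y₂ ∈ Y, Cfsg.centralizerPPrimeCore 2 y₁ ≤
      Subgroup.centralizer (Cfsg.centralizerPPrimeCore 2 y₂ : Set X) := by
    intro y₁ hy₁ y₂ hy₂
    refine Cfsg.Agent.H10.le_of_cent_le (p := 2) (k := 2) hEel (by rw [hEc]) (hnd y₁) (hYn y₁ hy₁) ?_
    intro D hDE hDc
    have h1 : Cfsg.centralizerPPrimeCore 2 y₂ ≤ Subgroup.centralizer
        ((Cfsg.centralizerPPrimeCore 2 y₁ ⊓ Subgroup.centralizer (D : Set X) : Subgroup X) : Set X) := by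
      refine Cfsg.Agent.H10.le_of_cent_le (p := 2) (k := 2) hEel (by rw [hEc]) (hnd y₂) (hYn y₂ hy₂) ?_
      intro D' hDE' hDc' a ha
      rw [Subgroup.mem_centralizer_iff]
      intro b hb
      obtain ⟨w, hw, hw1⟩ : ∃ w ∈ D ⊓ D', w ≠ 1 := by
        by_contra hno
        push Not at hno
        have h2 : D ⊓ D' = ⊥ := (Subgroup.eq_bot_iff_forall _).mpr hno
        have h3 := Cfsg.Agent.H19.card_mul_card_le hDE hDE'
        rw [h2, hDc, hDc', hEc, Subgroup.card_bot] at h3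
        norm_num at h3
      have hwY : w ∈ Y := hEY (hDE hw.1)
      have e1 : ∀ {H : Subgroup X} {u : X}, w ∈ H → u ∈ Subgroup.centralizer (H : Set X) → u ∈ Subgroup.centralizer {w} := by
        intro H u hH hu
        rw [Subgroup.mem_centralizer_singleton_iff]
        exact (Subgroup.mem_centralizer_iff.mp hu w hH).symm
      have h3 := hbal y₂ hy₂ w hwY hw1 (Subgroup.mem_inf.mpr ⟨ha.1, e1 hw.2 ha.2⟩)
      have h4 := hbal y₁ hy₁ w hwY hw1 (Subgroup.mem_inf.mpr ⟨hb.1, e1 hw.1 hb.2⟩)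
      exact hab w hwY b h4 a h3
    exact Subgroup.le_centralizer_iff.mp h1
  set W : Subgroup X := ⨆ y : {y : X // y ∈ Y ∧ y ≠ 1}, (Cfsg.oddCore ↥(Subgroup.centralizer ({(y : X)} : Set X))).map
    (Subgroup.centralizer ({(y : X)} : Set X)).subtype with hW
  have hWs : W = sSup (Set.range fun y : {y : X // y ∈ Y ∧ y ≠ 1} => Cfsg.centralizerPPrimeCore 2 (y : X)) := by
    rw [sSup_range]; rfl
  have hle : ∀ y : {y : X // y ∈ Y ∧ y ≠ 1}, Cfsg.centralizerPPrimeCore 2 (y : X) ≤ W := by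
    intro y
    exact le_iSup (fun y : {y : X // y ∈ Y ∧ y ≠ 1} => Cfsg.centralizerPPrimeCore 2 (y : X)) y
  constructor
  · have key : (Nat.card W).Coprime 2 ∧ W ≤ W ∧ ∀ y ∈ Y, W ≤ Subgroup.centralizer (Cfsg.centralizerPPrimeCore 2 y : Set X) := by
      have h1 := Cfsg.Agent.H19.sSup_mem_of_sup_closed
        (S := Set.range fun y : {y : X // y ∈ Y ∧ y ≠ 1} => Cfsg.centralizerPPrimeCore 2 (y : X))
        (P := fun H => (Nat.card H).Coprime 2 ∧ H ≤ W ∧ ∀ y ∈ Y, H ≤ Subgroup.centralizer (Cfsg.centralizerPPrimeCore 2 y : Set X))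
        ⟨_, ⟨z, hzY, hz1⟩, rfl⟩ (by
          rintro _ ⟨y, rfl⟩
          exact ⟨Cfsg.Agent.H10.cppc_coprime 2 _, hle y, fun y' hy' => hcc y y.2.1 y' hy'⟩) (by
          rintro Q R ⟨hQ1, hQ2, hQ3⟩ ⟨hR1, hR2, hR3⟩
          refine ⟨?_, sup_le hQ2 hR2, fun y hy => sup_le (hQ3 y hy) (hR3 y hy)⟩
          have h2 : Q ≤ Subgroup.centralizer (W : Set X) := by
            apply Subgroup.le_centralizer_iff.mp
            exact iSup_le fun y => Subgroup.le_centralizer_iff.mp (hQ3 y y.2.1)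
          have h3 : Q ≤ Subgroup.normalizer (R : Set X) := by
            intro q hq
            rw [Subgroup.mem_normalizer_iff]
            have h4 := h2 hq
            intro r
            have e : ∀ s ∈ R, q * s * q⁻¹ = s := by
              intro s hs
              rw [← Subgroup.mem_centralizer_iff.mp h4 s (hR2 hs)]; group
            have e' : ∀ s ∈ R, q⁻¹ * s * q = s := by
              intro s hs
              calc q⁻¹ * s * q = q⁻¹ * (s * q) := by group
                _ = q⁻¹ * (q * s) := by rw [Subgroup.mem_centralizer_iff.mp h4 s (hR2 hs)]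
                _ = s := by group
            constructor
            · intro hr
              rw [e r hr]; exact hr
            · intro hr
              have h5 := e' _ hr
              have h6 : q⁻¹ * (q * r * q⁻¹) * q = r := by group
              rw [h6] at h5
              rw [h5]; exact hr
          exact Nat.Coprime.coprime_dvd_left (Cfsg.Agent.H1.card_sup_dvd_of_le_normalizer Q R h3)
            (Nat.Coprime.mul_left hQ1 hR1))
      rw [← hWs] at h1
      exact h1
    exact Nat.coprime_two_right.mp key.1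
  · apply Cfsg.Agent.H19.le_normalizer_of_conj
    intro g hg
    have h1 : W ≤ W.comap (MulAut.conj g).toMonoidHom := by
      refine iSup_le fun y => ?_
      rintro _ ⟨k, hk, rfl⟩
      rw [Subgroup.mem_comap]
      have hgy : g * (y : X) * g⁻¹ ∈ Y := (Subgroup.mem_normalizer_iff.mp hg _).mp y.2.1
      have hgy1 : g * (y : X) * g⁻¹ ≠ 1 := by
        intro h
        apply y.2.2
        have : (y : X) = g⁻¹ * (g * y * g⁻¹) * g := by group
        rw [this, h]; group
      apply hle ⟨_, hgy, hgy1⟩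
      have h3 := Cfsg.Agent.H19.cppc_conj 2 g (y : X)
      rw [← h3]
      exact ⟨k, ⟨k, hk, rfl⟩, rfl⟩
    intro m hm
    exact h1 hm


end Cfsg.Agent.S2924
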