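import Cfsg.Statements.S2925
import Cfsg.Agent.H19.Sylow2
import Cfsg.Agent.H10.Comp

set_option autoImplicit false
set_option linter.style.haveILetI false
open Cfsg

namespace Cfsg.Agent.S2925

/-- Let K be a component of the finite group X and T a Sylow 2-subgroup of X. If some abelian normal subgroup Y of T does not normalize K, then K ⧸ Z(K) has abelian Sylow 2-subgroups. -/
theorem result {X : Type*} [Group X] [Finite X] (K : Subgroup X) (hK : Cfsg.IsComponent K) (T : Sylow 2 X) (Y : Subgroup X) (hYT : Y ≤ (T : Subgroup X)) (hYn : (Y.subgroupOf (T : Subgroup X)).Normal) (hYab : IsMulCommutative ↥Y) (hnot : ¬ Y ≤ Subgroup.normalizer (K : Set X)) (P : Sylow 2 (↥K ⧸ Subgroup.center ↥K)) : IsMulCommutative ↥(P : Subgroup (↥K ⧸ Subgroup.center ↥K)) := by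

  open Cfsg.Agent in
  haveI h2 : Fact (Nat.Prime 2) := ⟨Nat.prime_two⟩
  obtain ⟨y, hyY, hyK⟩ : ∃ y ∈ Y, y ∉ Subgroup.normalizer (K : Set X) := by
    by_contra hcon
    push Not at hcon
    exact hnot hcon
  have hYn' := (Cfsg.Agent.H18.normal_subgroupOf_iff hYT).mp hYn
  have hK' := Cfsg.Agent.H10.component_map_equiv (MulAut.conj y) hK
  set K' := K.map (MulAut.conj y).toMonoidHom with hK'def
  have hne : K ≠ K' := by
    intro h
    apply hyK
    rw [Cfsg.Agent.H18.mem_normalizer_iff_map]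
    exact h.symm
  have hcomm := Cfsg.Agent.H10.comp_commutes hK hK' hne
  rw [Subgroup.commutator_eq_bot_iff_le_centralizer] at hcomm
  have hc : ∀ a ∈ K, ∀ b ∈ K', a * b = b * a := fun a ha b hb =>
    ((Subgroup.mem_centralizer_iff.mp (hcomm ha)) b hb).symm
  have hS := Cfsg.Agent.H19.isSylowOf_inf_subnormal (Cfsg.Agent.H19.isSylowOf_top_of_sylow T) hK.1
  obtain ⟨S, hS⟩ := hS
  refine Cfsg.Agent.H19.sylow_mulCommutative_of_map (QuotientGroup.mk'_surjective (Subgroup.center K)) S ?_ P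
  intro a ha b hb
  have haT : (a : X) ∈ (T : Subgroup X) ⊓ K := by rw [← hS]; exact ⟨a, ha, rfl⟩
  have hbT : (b : X) ∈ (T : Subgroup X) ⊓ K := by rw [← hS]; exact ⟨b, hb, rfl⟩
  have hconj : ∀ c ∈ (T : Subgroup X), c⁻¹ * (y * c * y⁻¹) ∈ Y := by
    intro c hc
    have h1 : c⁻¹ * y * c ∈ Y := by
      have := (Subgroup.mem_normalizer_iff.mp (inv_mem (hYn' hc)) y).mp hyY
      simpa using this
    have := Y.mul_mem h1 (Y.inv_mem hyY)
    simpa [mul_assoc] using this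
  have h3 : ((a : X)⁻¹ * (y * a * y⁻¹)) * ((b : X)⁻¹ * (y * b * y⁻¹)) =
      ((b : X)⁻¹ * (y * b * y⁻¹)) * ((a : X)⁻¹ * (y * a * y⁻¹)) :=
    congrArg Subtype.val (hYab.is_comm.comm ⟨_, hconj _ haT.1⟩ ⟨_, hconj _ hbT.1⟩)
  have ha' : y * (a : X) * y⁻¹ ∈ K' := ⟨a, a.2, rfl⟩
  have hb' : y * (b : X) * y⁻¹ ∈ K' := ⟨b, b.2, rfl⟩
  set a' := y * (a : X) * y⁻¹ with ha'def
  set b' := y * (b : X) * y⁻¹ with hb'def
  have e1 := hc _ (inv_mem b.2) a' ha'
  have e2 := hc _ (inv_mem a.2) b' hb'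
  have h4 : ((a : X)⁻¹ * (b : X)⁻¹) * (a' * b') = ((b : X)⁻¹ * (a : X)⁻¹) * (b' * a') := by
    calc ((a : X)⁻¹ * (b : X)⁻¹) * (a' * b') = (a : X)⁻¹ * ((b : X)⁻¹ * a') * b' := by group
      _ = (a : X)⁻¹ * (a' * (b : X)⁻¹) * b' := by rw [← e1]
      _ = ((a : X)⁻¹ * a') * ((b : X)⁻¹ * b') := by group
      _ = ((b : X)⁻¹ * b') * ((a : X)⁻¹ * a') := h3
      _ = (b : X)⁻¹ * (b' * (a : X)⁻¹) * a' := by group
      _ = (b : X)⁻¹ * ((a : X)⁻¹ * b') * a' := by rw [← e2]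
      _ = _ := by group
  have h5 : (a : X) * b * (a : X)⁻¹ * (b : X)⁻¹ = b' * a' * b'⁻¹ * a'⁻¹ := by
    calc (a : X) * b * (a : X)⁻¹ * (b : X)⁻¹ = (a : X) * b * (((a : X)⁻¹ * (b : X)⁻¹) * (a' * b')) * (a' * b')⁻¹ := by group
      _ = (a : X) * b * (((b : X)⁻¹ * (a : X)⁻¹) * (b' * a')) * (a' * b')⁻¹ := by rw [h4]
      _ = _ := by group
  have h6 : (a : X) * b * (a : X)⁻¹ * (b : X)⁻¹ ∈ K' := by
    rw [h5]
    exact K'.mul_mem (K'.mul_mem (K'.mul_mem hb' ha') (K'.inv_mem hb')) (K'.inv_mem ha')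
  have h7 : a * b * a⁻¹ * b⁻¹ ∈ Subgroup.center K := by
    rw [Subgroup.mem_center_iff]
    intro k
    exact Subtype.ext (hc k k.2 _ h6)
  show ((a * b : K) : K ⧸ Subgroup.center K) = ((b * a : K) : K ⧸ Subgroup.center K)
  rw [QuotientGroup.eq]
  have h8 := Subgroup.mem_center_iff.mp h7
  have h9 : (a * b)⁻¹ * (b * a) ∈ Subgroup.center K := by
    have e : (a * b)⁻¹ * (b * a) = ((b * a)⁻¹ * (a * b * a⁻¹ * b⁻¹) * (b * a))⁻¹ := by group
    rw [e]
    refine inv_mem ?_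
    have := (inferInstance : (Subgroup.center K).Normal).conj_mem _ h7 (b * a)⁻¹
    simpa using this
  exact h9


end Cfsg.Agent.S2925
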