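import Cfsg.Statements.S2929
import Cfsg.Agent.H10.StdAlt
import Cfsg.Agent.H10.Comp
import Cfsg.Agent.H1.Basic

set_option autoImplicit false
set_option linter.all false
open Cfsg

namespace Cfsg.Agent.S2929

open Equiv Equiv.Perm
open Cfsg.Agent.H10
open scoped Pointwise

section
variable {α : Type*} [Fintype α] [DecidableEq α]

/-- the 3-cycle `a → b → c → a` -/
def t (a b c : α) : Perm α := swap a b * swap b c

omit [Fintype α] in
theorem t_a {a b c : α} (hab : a ≠ b) (hac : a ≠ c) : t a b c a = b := by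
  simp only [t, Perm.mul_apply]; grind
omit [Fintype α] in
theorem t_b {a b c : α} (hac : a ≠ c) (hbc : b ≠ c) : t a b c b = c := by
  simp only [t, Perm.mul_apply]; grind
omit [Fintype α] in
theorem t_c {a b c : α} : t a b c c = a := by
  simp only [t, Perm.mul_apply]; grind
omit [Fintype α] in
theorem t_o {a b c x : α} (ha : x ≠ a) (hb : x ≠ b) (hc : x ≠ c) : t a b c x = x := by
  simp only [t, Perm.mul_apply]; grind
omit [Fintype α] in
theorem t_rot {a b c : α} (hab : a ≠ b) (hac : a ≠ c) (hbc : b ≠ c) : t a b c = t b c a := by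
  ext x
  simp only [t, Perm.mul_apply]; grind
omit [Fintype α] in
theorem t_inv {a b c : α} (hab : a ≠ b) (hac : a ≠ c) (hbc : b ≠ c) : (t a b c)⁻¹ = t a c b := by
  rw [inv_eq_iff_mul_eq_one]
  ext x
  simp only [t, Perm.mul_apply, Perm.one_apply]; grind
omit [Fintype α] in
theorem t_conj (g : Perm α) (a b c : α) : g * t a b c * g⁻¹ = t (g a) (g b) (g c) := by
  simp only [t]
  rw [Equiv.swap_apply_apply, Equiv.swap_apply_apply]
  group
theorem t_three {a b c : α} (hab : a ≠ b) (hac : a ≠ c) (hbc : b ≠ c) : (t a b c).IsThreeCycle := by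
  have := isThreeCycle_swap_mul_swap_same (a := b) (b := a) (c := c) hab.symm hbc hac
  rwa [swap_comm b a] at this

/-- every 3-cycle moving `a` is of the form `t a b c` -/
theorem exists_t {s : Perm α} (hs : s.IsThreeCycle) {a : α} (ha : a ∈ s.support) :
    ∃ b c, a ≠ b ∧ a ≠ c ∧ b ≠ c ∧ s = t a b c ∧ s.support = {a, b, c} := by
  refine ⟨s a, s (s a), ?_, ?_, ?_, hs.eq_swap_mul_swap_iff_mem_support.mpr ha, hs.support_eq_iff_mem_support.mpr ha⟩
  all_goals have := hs.nodup_iff_mem_support.mpr ha; grind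

theorem t_supp {a b c : α} (hab : a ≠ b) (hac : a ≠ c) (hbc : b ≠ c) : (t a b c).support = {a, b, c} := by
  have h1 : a ∈ (t a b c).support := by
    rw [mem_support, t_a hab hac]; exact hab.symm
  have h2 := (t_three hab hac hbc).support_eq_iff_mem_support.mpr h1
  rwa [t_a hab hac, t_b hac hbc] at h2

/-- related by a 3-cycle of `H` -/
def rel (H : Subgroup (Perm α)) (a b : α) : Prop := a = b ∨ ∃ s ∈ H, s.IsThreeCycle ∧ a ∈ s.support ∧ b ∈ s.support

theorem rel_symm {H : Subgroup (Perm α)} {a b : α} (h : rel H a b) : rel H b a := by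
  rcases h with h | ⟨s, hs, h3, ha, hb⟩
  · exact Or.inl h.symm
  · exact Or.inr ⟨s, hs, h3, hb, ha⟩

theorem rel_t {H : Subgroup (Perm α)} {a b : α} (h : rel H a b) (hab : a ≠ b) : ∃ c, a ≠ c ∧ b ≠ c ∧ t a b c ∈ H := by
  rcases h with h | ⟨s, hs, h3, ha, hb⟩
  · exact absurd h hab
  · obtain ⟨x, y, hax, hay, hxy, hst, hsup⟩ := exists_t h3 ha
    rw [hsup] at hb
    simp only [Finset.mem_insert, Finset.mem_singleton] at hb
    rcases hb with hb | hb | hb
    · exact absurd hb.symm hab
    · subst hb; exact ⟨y, hay, hxy, hst ▸ hs⟩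
    · subst hb
      refine ⟨x, hax, hxy.symm, ?_⟩
      rw [← t_inv hax hay hxy, ← hst]
      exact H.inv_mem hs

theorem rel_trans {H : Subgroup (Perm α)} {a b d : α} (h1 : rel H a b) (h2 : rel H b d) : rel H a d := by
  by_cases hab : a = b
  · subst hab; exact h2
  by_cases hbd : b = d
  · subst hbd; exact h1
  by_cases had : a = d
  · exact Or.inl had
  obtain ⟨c, hac, hbc, hc⟩ := rel_t h1 hab
  obtain ⟨e, hbe, hde, he⟩ := rel_t h2 hbd
  by_cases hdc : d = c
  · subst hdc
    exact Or.inr ⟨t a b d, hc, t_three hab hac hbc, by rw [t_supp hab hac hbc]; simp, by rw [t_supp hab hac hbc]; simp⟩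
  · have hg := H.inv_mem hc
    rw [t_inv hab hac hbc] at hg
    have e1 : t a c b b = a := t_c
    have e2 : t a c b d = d := t_o (Ne.symm had) hdc (Ne.symm hbd)
    have h3 := H.mul_mem (H.mul_mem hg he) (H.inv_mem hg)
    rw [t_conj, e1, e2] at h3
    have h4 : a ≠ t a c b e := fun h => hbe ((t a c b).injective (e1.trans h))
    have h5 : d ≠ t a c b e := fun h => hde ((t a c b).injective (e2.trans h))
    exact Or.inr ⟨_, h3, t_three had h4 h5, by rw [t_supp had h4 h5]; simp, by rw [t_supp had h4 h5]; simp⟩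

theorem t_mem {H : Subgroup (Perm α)} {a b c : α} (hab : a ≠ b) (hac : a ≠ c) (hbc : b ≠ c) (h1 : rel H a b)
    (h2 : rel H a c) : t a b c ∈ H := by
  obtain ⟨x, hax, hbx, hx⟩ := rel_t h1 hab
  obtain ⟨y, hay, hcy, hy⟩ := rel_t h2 hac
  have inv_c : t a c b ∈ H → t a b c ∈ H := fun h => by
    have := H.inv_mem h
    rwa [t_inv hac hab hbc.symm] at this
  by_cases hxc : x = c
  · subst hxc; exact hx
  by_cases hyb : y = b
  · subst hyb; exact inv_c hy
  have h3 := H.mul_mem (H.mul_mem hy hx) (H.inv_mem hy)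
  rw [t_conj] at h3
  rw [t_a hac hay, t_o hab.symm hbc (Ne.symm hyb)] at h3
  by_cases hxy : x = y
  · subst hxy
    rw [t_c] at h3
    apply inv_c
    rw [t_rot hac hab hbc.symm]; exact h3
  · rw [t_o (Ne.symm hax) hxc hxy] at h3
    have h4 := H.inv_mem h3
    rw [t_inv hbc.symm (Ne.symm hxc) hbx] at h4
    have h5 := H.mul_mem (H.mul_mem h4 hx) (H.inv_mem h4)
    rw [t_conj, t_o hac hax hab, t_c, t_b hbc.symm (Ne.symm hbx)] at h5
    exact inv_c h5

/-- even permutations fixing `X` -/
def B (X : Finset α) : Subgroup (Perm α) := (altFix X).map (alternatingGroup α).subtype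

theorem mem_B {X : Finset α} {σ : Perm α} : σ ∈ B X ↔ σ ∈ alternatingGroup α ∧ ∀ x ∈ X, σ x = x := by
  constructor
  · rintro ⟨τ, hτ, rfl⟩
    exact ⟨τ.2, hτ⟩
  · rintro ⟨h1, h2⟩
    exact ⟨⟨σ, h1⟩, h2, rfl⟩

theorem B_eq (X : Finset α) : B X = (alternatingGroup ↥Xᶜ).map (Equiv.Perm.ofSubtype (p := (· ∈ Xᶜ))) := by
  ext σ
  constructor
  · rintro ⟨τ, hτ, rfl⟩
    rw [SetLike.mem_coe, altFix_eq_range] at hτ
    obtain ⟨ρ, rfl⟩ := hτ
    exact ⟨ρ.1, ρ.2, rfl⟩
  · rintro ⟨ρ, hρ, rfl⟩
    refine ⟨alternatingGroup.ofSubtype Xᶜ ⟨ρ, hρ⟩, ?_, rfl⟩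
    rw [SetLike.mem_coe, altFix_eq_range]
    exact ⟨_, rfl⟩

noncomputable def BEquiv (X : Finset α) : alternatingGroup ↥Xᶜ ≃* B X :=
  ((MonoidHom.ofInjective alternatingGroup.ofSubtype_injective).trans
    (MulEquiv.subgroupCongr (altFix_eq_range X).symm)).trans
    ((altFix X).equivMapOfInjective _ (alternatingGroup α).subtype_injective)

theorem B_le {H : Subgroup (Perm α)} {X : Finset α} (h : ∀ a, a ∉ X → ∀ b, b ∉ X → rel H a b) : B X ≤ H := by
  rw [B_eq, ← closure_three_cycles_eq_alternating, MonoidHom.map_closure, Subgroup.closure_le]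
  rintro _ ⟨σ, hσ, rfl⟩
  obtain ⟨a, ha⟩ : ∃ a, a ∈ σ.support := by
    have := IsThreeCycle.card_support hσ
    exact Finset.card_pos.mp (by omega)
  obtain ⟨b, c, hab, hac, hbc, hst, -⟩ := exists_t hσ ha
  have h1 : Equiv.Perm.ofSubtype σ = t (a : α) b c := by
    rw [hst]; simp only [t]
    rw [map_mul, ofSubtype_swap_eq, ofSubtype_swap_eq]
  rw [SetLike.mem_coe, h1]
  exact t_mem (fun h => hab (Subtype.ext h)) (fun h => hac (Subtype.ext h)) (fun h => hbc (Subtype.ext h))
    (h _ (Finset.mem_compl.mp a.2) _ (Finset.mem_compl.mp b.2)) (h _ (Finset.mem_compl.mp a.2) _ (Finset.mem_compl.mp c.2))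

theorem alt_solvable (β : Type*) [Fintype β] [DecidableEq β] (h : Nat.card β ≤ 4) : Group.IsSolvable (alternatingGroup β) := by
  rcases Nat.lt_or_ge (Nat.card β) 4 with h4 | h4
  · have h1 : IsMulCommutative (alternatingGroup β) := alternatingGroup.isMulCommutative_iff_card_le_three.mpr (by omega)
    exact Group.isSolvable_of_comm (fun a b => h1.is_comm.comm a b)
  · have h5 : Nat.card β = 4 := le_antisymm h h4
    have h6 := alternatingGroup.kleinFour_eq_commutator h5
    haveI := alternatingGroup.kleinFour_isKleinFour h5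
    have h8 : ∀ a b : alternatingGroup.kleinFour β, a * b = b * a := fun a b =>
      (mul_comm_of_exponent_two IsKleinFour.exponent_two a b)
    have h7 : Group.IsSolvable (alternatingGroup.kleinFour β) := Group.isSolvable_of_comm h8
    rw [h6] at h7
    haveI := h7
    have h9 : Group.IsSolvable (alternatingGroup β ⧸ commutator (alternatingGroup β)) :=
      Group.isSolvable_of_comm (fun a b => mul_comm (G := Abelianization (alternatingGroup β)) a b)
    haveI := h9
    exact Group.isSolvable_of_ker_le_range (commutator (alternatingGroup β)).subtype (QuotientGroup.mk' (commutator (alternatingGroup β)))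
      (by rw [QuotientGroup.ker_mk', Subgroup.range_subtype])

/-- points moved by no 3-cycle of `H` -/
noncomputable def Fx (H : Subgroup (Perm α)) : Finset α := by
  classical exact Finset.univ.filter fun x => ∀ s ∈ H, s.IsThreeCycle → x ∉ s.support

theorem mem_Fx {H : Subgroup (Perm α)} {x : α} : x ∈ Fx H ↔ ∀ s ∈ H, s.IsThreeCycle → x ∉ s.support := by
  unfold Fx
  simp

theorem Fx_inv {H : Subgroup (Perm α)} {g : Perm α} (hg : g ∈ H) {x : α} (hx : x ∈ Fx H) : g x ∈ Fx H := by
  rw [mem_Fx] at hx ⊢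
  intro s hs h3 hgx
  have h1 : g⁻¹ * s * g ∈ H := H.mul_mem (H.mul_mem (H.inv_mem hg) hs) hg
  have h2 : (g⁻¹ * s * g).IsThreeCycle := by
    have : IsConj s (g⁻¹ * s * g) := isConj_iff.mpr ⟨g⁻¹, by group⟩
    rw [IsThreeCycle, ← isConj_iff_cycleType_eq.mp this]; exact h3
  apply hx _ h1 h2
  rw [mem_support] at hgx ⊢
  intro h4
  apply hgx
  have h5 : g ((g⁻¹ * s * g) x) = g x := by rw [h4]
  simpa [Perm.mul_apply] using h5

theorem card_Fx_le {H : Subgroup (Perm α)} (P : Sylow 3 (Perm α)) (hP : (P : Subgroup (Perm α)) ≤ H) : (Fx H).card ≤ 2 := by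
  by_contra hlt
  obtain ⟨a, ha, b, hb, c, hc, hab, hac, hbc⟩ := Finset.two_lt_card.mp (show 2 < (Fx H).card by omega)
  let M : Subgroup (Perm α) :=
    { carrier := {g | ∀ x, x ∈ Fx H ↔ g x ∈ Fx H}
      one_mem' := fun x => Iff.rfl
      mul_mem' := fun {g h} hg hh x => (hh x).trans (hg (h x))
      inv_mem' := fun {g} hg x => by
        have := hg (g⁻¹ x)
        have e : g (g⁻¹ x) = x := g.apply_symm_apply x
        rw [e] at this
        exact this.symm }
  have hHM : H ≤ M := fun g hg x => ⟨fun hx => Fx_inv hg hx, fun hx => by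
    have := Fx_inv (H.inv_mem hg) hx
    have e : g⁻¹ (g x) = x := g.symm_apply_apply x
    rwa [e] at this⟩
  have htM : t a b c ∈ M := by
    intro x
    by_cases h1 : x = a
    · subst h1; rw [t_a hab hac]; exact ⟨fun _ => hb, fun _ => ha⟩
    by_cases h2 : x = b
    · subst h2; rw [t_b hac hbc]; exact ⟨fun _ => hc, fun _ => hb⟩
    by_cases h3 : x = c
    · subst h3; rw [t_c]; exact ⟨fun _ => ha, fun _ => hc⟩
    rw [t_o h1 h2 h3]
  have hPM := hP.trans hHM
  have h3g : IsPGroup 3 (Subgroup.zpowers (⟨t a b c, htM⟩ : M)) := by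
    apply IsPGroup.of_card (n := 1)
    rw [Nat.card_zpowers, Subgroup.orderOf_mk, (t_three hab hac hbc).orderOf, pow_one]
  haveI : Fact (Nat.Prime 3) := ⟨Nat.prime_three⟩
  obtain ⟨Q, hQ⟩ := h3g.exists_le_sylow
  obtain ⟨m, hm⟩ := MulAction.exists_smul_eq M Q (P.subtype hPM)
  have h5 : m * ⟨t a b c, htM⟩ * m⁻¹ ∈ ((P.subtype hPM : Sylow 3 M) : Subgroup M) := by
    rw [← hm]
    exact Cfsg.Agent.H1.conj_mem_conj_smul (hQ (Subgroup.mem_zpowers _))
  have h6 : (m : Perm α) * t a b c * (m : Perm α)⁻¹ ∈ P := h5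
  rw [t_conj] at h6
  have hma : (m : Perm α) a ≠ (m : Perm α) b := fun h => hab ((m : Perm α).injective h)
  have hmb : (m : Perm α) a ≠ (m : Perm α) c := fun h => hac ((m : Perm α).injective h)
  have hmc : (m : Perm α) b ≠ (m : Perm α) c := fun h => hbc ((m : Perm α).injective h)
  refine mem_Fx.mp ((m.2 a).mp ha) _ (hP h6) (t_three hma hmb hmc) ?_
  rw [t_supp hma hmb hmc]; simp

/-- the group generated by the 3-cycles -/
def K3 (H : Subgroup (Perm α)) : Subgroup (Perm α) := Subgroup.closure {s | s ∈ H ∧ s.IsThreeCycle}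

theorem K3_le (H : Subgroup (Perm α)) : K3 H ≤ H := (Subgroup.closure_le _).mpr fun s hs => hs.1

theorem conj_three {s g : Perm α} (h3 : s.IsThreeCycle) : (g * s * g⁻¹).IsThreeCycle := by
  have : IsConj s (g * s * g⁻¹) := isConj_iff.mpr ⟨g, rfl⟩
  rw [IsThreeCycle, ← isConj_iff_cycleType_eq.mp this]; exact h3

theorem K3_conj {H : Subgroup (Perm α)} {g k : Perm α} (hg : g ∈ H) (hk : k ∈ K3 H) : g * k * g⁻¹ ∈ K3 H := by
  induction hk using Subgroup.closure_induction with
  | mem s hs => exact Subgroup.subset_closure ⟨H.mul_mem (H.mul_mem hg hs.1) (H.inv_mem hg), conj_three hs.2⟩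
  | one => rw [mul_one, mul_inv_cancel]; exact one_mem _
  | mul a b _ _ ha hb =>
    have := mul_mem ha hb
    have e : g * a * g⁻¹ * (g * b * g⁻¹) = g * (a * b) * g⁻¹ := by group
    rwa [e] at this
  | inv a _ ha =>
    have := inv_mem ha
    have e : (g * a * g⁻¹)⁻¹ = g * a⁻¹ * g⁻¹ := by group
    rwa [e] at this

theorem K3_rel {H : Subgroup (Perm α)} {k : Perm α} (hk : k ∈ K3 H) (x : α) : rel H x (k x) := by
  induction hk using Subgroup.closure_induction generalizing x with
  | mem s hs =>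
    by_cases hx : x ∈ s.support
    · exact Or.inr ⟨s, hs.1, hs.2, hx, apply_mem_support.mpr hx⟩
    · left; exact (notMem_support.mp hx).symm
  | one => exact Or.inl rfl
  | mul a b _ _ ha hb => exact rel_trans (hb x) (ha (b x))
  | inv a _ ha =>
    have := ha (a⁻¹ x)
    have e : a (a⁻¹ x) = x := a.apply_symm_apply x
    rw [e] at this; exact rel_symm this

/-- complement of the class of `a` -/
noncomputable def Xc (H : Subgroup (Perm α)) (a : α) : Finset α := by
  classical exact Finset.univ.filter fun x => ¬ rel H a x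

theorem mem_Xc {H : Subgroup (Perm α)} {a x : α} : x ∈ Xc H a ↔ ¬ rel H a x := by
  unfold Xc; simp

theorem B_conj {H : Subgroup (Perm α)} {a : α} {k σ : Perm α} (hk : k ∈ K3 H) (hσ : σ ∈ B (Xc H a)) :
    k * σ * k⁻¹ ∈ B (Xc H a) := by
  rw [mem_B] at hσ ⊢
  refine ⟨(inferInstance : (alternatingGroup α).Normal).conj_mem _ hσ.1 _, fun x hx => ?_⟩
  have e : k (k⁻¹ x) = x := k.apply_symm_apply x
  have h1 : k⁻¹ x ∈ Xc H a := by
    rw [mem_Xc] at hx ⊢
    intro h
    apply hx
    have := rel_trans h (K3_rel hk (k⁻¹ x))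
    rwa [e] at this
  show k (σ (k⁻¹ x)) = x
  rw [hσ.2 _ h1, e]

theorem B_le_K3 (H : Subgroup (Perm α)) (a : α) : B (Xc H a) ≤ K3 H := by
  apply B_le
  intro x hx y hy
  rw [mem_Xc, not_not] at hx hy
  rcases rel_trans (rel_symm hx) hy with h | ⟨s, hs, h3, h4, h5⟩
  · exact Or.inl h
  · exact Or.inr ⟨s, Subgroup.subset_closure ⟨hs, h3⟩, h3, h4, h5⟩

theorem main (H : Subgroup (Perm α)) (hF : Cfsg.IsQuasisimple ↥(Cfsg.generalizedFittingSubgroup ↥H))
    (hS : ∃ P : Sylow 3 (Perm α), (P : Subgroup (Perm α)) ≤ H) :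
    ∃ X : Finset α, X.card ≤ 2 ∧ Nonempty (↥(Cfsg.generalizedFittingSubgroup ↥H) ≃* alternatingGroup ↥Xᶜ) := by
  obtain ⟨P, hP⟩ := hS
  have hFx := card_Fx_le P hP
  have hLn := genFitting_normal H
  have hcent := centralizer_genFitting_le (G := H)
  obtain ⟨L, hL⟩ : ∃ L, L = Cfsg.generalizedFittingSubgroup ↥H := ⟨_, rfl⟩
  rw [← hL] at hF hLn hcent ⊢
  have hcomp : Cfsg.IsComponent L := ⟨hLn.isSubnormal, hF⟩
  have hK'n : ((K3 H).subgroupOf H).Normal := ⟨fun n hn g => K3_conj g.2 hn⟩
  have hsub : ∀ a, ((B (Xc H a)).subgroupOf H).IsSubnormal := fun a =>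
    Subgroup.IsSubnormal.step _ ((K3 H).subgroupOf H) (Subgroup.comap_mono (B_le_K3 H a)) hK'n.isSubnormal
      ⟨fun n hn g => B_conj g.2 hn⟩
  have hLL : ⁅L, L⁆ = L := qs_commutator_self hF
  have hLK : L ≤ (K3 H).subgroupOf H := by
    rcases comp_le_or_commutes_normal hcomp hK'n with h | h
    · exact h
    exfalso
    rw [Subgroup.commutator_eq_bot_iff_le_centralizer] at h
    have hc : ∀ g ∈ L, ∀ s (hs : s ∈ H), s.IsThreeCycle → Commute (g : Perm α) s := by
      intro g hg s hs h3
      have h1 := h (show (⟨s, hs⟩ : H) ∈ (K3 H).subgroupOf H from Subgroup.subset_closure ⟨hs, h3⟩)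
      have h2 := Subgroup.mem_centralizer_iff.mp h1 g hg
      exact congrArg Subtype.val h2
    have hcomm : ∀ x ∉ Fx H, ∀ g ∈ L, ∀ h ∈ L, (g : Perm α) ((h : Perm α) x) = (h : Perm α) ((g : Perm α) x) := by
      intro x hx g hg h hh
      rw [mem_Fx] at hx
      push Not at hx
      obtain ⟨s, hs, h3, hxs⟩ := hx
      have key : ∀ g ∈ L, ∃ k : ℕ, (g : Perm α) x = (s ^ k) x := by
        intro g hg
        have h1 : (g : Perm α) x ∈ s.support := by
          rw [mem_support] at hxs ⊢
          have h2 : s ((g : Perm α) x) = (g : Perm α) (s x) := by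
            have := congrArg (fun f : Perm α => f x) (hc g hg s hs h3).eq
            exact this.symm
          rw [h2]
          exact fun h4 => hxs ((g : Perm α).injective h4)
        rw [h3.support_eq_iff_mem_support.mpr hxs] at h1
        simp only [Finset.mem_insert, Finset.mem_singleton] at h1
        rcases h1 with h1 | h1 | h1
        · exact ⟨0, by rw [h1]; rfl⟩
        · exact ⟨1, by rw [h1, pow_one]⟩
        · exact ⟨2, by rw [h1, pow_two]; rfl⟩
      obtain ⟨k, hk⟩ := key g hg
      obtain ⟨l, hl⟩ := key h hh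
      have e1 : ∀ (g : H), g ∈ L → ∀ (k : ℕ) (y : α), (g : Perm α) ((s ^ k) y) = (s ^ k) ((g : Perm α) y) := by
        intro g hg k y
        have := congrArg (fun f : Perm α => f y) ((hc g hg s hs h3).pow_right k).eq
        exact this
      rw [hl, e1 g hg, hk, e1 h hh, hl]
      show (s ^ l * s ^ k) x = (s ^ k * s ^ l) x
      rw [← pow_add, ← pow_add, add_comm]
    have hfix : ∀ x ∉ Fx H, ∀ g ∈ L, (g : Perm α) x = x := by
      intro x hx g hg
      rw [← hLL] at hg
      have h1 : ⁅L, L⁆ ≤ (MulAction.stabilizer (Perm α) x).comap H.subtype := by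
        rw [Subgroup.commutator_le]
        intro g hg h hh
        rw [Subgroup.mem_comap, MulAction.mem_stabilizer_iff]
        have h2 := hcomm x hx g⁻¹ (inv_mem hg) h⁻¹ (inv_mem hh)
        have h3 : (g : Perm α) ((h : Perm α) (((g⁻¹ : H) : Perm α) (((h⁻¹ : H) : Perm α) x))) = x := by
          rw [h2]
          have e1 : (h : Perm α) (((h⁻¹ : H) : Perm α) (((g⁻¹ : H) : Perm α) x)) = ((g⁻¹ : H) : Perm α) x :=
            (h : Perm α).apply_symm_apply _
          rw [e1]
          exact (g : Perm α).apply_symm_apply _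
        exact h3
      exact h1 hg
    have h3 : ∀ u ∈ Fx H, ∀ v ∈ Fx H, ∀ w ∈ Fx H, u = v ∨ u = w ∨ v = w := by
      intro u hu v hv w hw
      by_contra hne
      push Not at hne
      have := Finset.two_lt_card.mpr ⟨u, hu, v, hv, w, hw, hne.1, hne.2.1, hne.2.2⟩
      omega
    apply qs_not_comm hF
    refine ⟨⟨fun g h => Subtype.ext (Subtype.ext (Equiv.ext fun x => ?_))⟩⟩
    show ((g : H) : Perm α) (((h : H) : Perm α) x) = ((h : H) : Perm α) (((g : H) : Perm α) x)
    by_cases hx : x ∈ Fx H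
    · have i1 := Fx_inv (g : H).2 hx
      have i2 := Fx_inv (h : H).2 hx
      have i3 := Fx_inv (g : H).2 i2
      have i4 := Fx_inv (h : H).2 i1
      have i5 := Fx_inv (g : H).2 i1
      have i6 := Fx_inv (h : H).2 i2
      by_cases e1 : ((g : H) : Perm α) x = x
      · by_cases e2 : ((h : H) : Perm α) x = x
        · rw [e1, e2, e1]
        · have e3 : ((g : H) : Perm α) (((h : H) : Perm α) x) ≠ x := fun e => e2 (((g : H) : Perm α).injective (e.trans e1.symm))
          rcases h3 _ hx _ i2 _ i3 with e | e | e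
          · exact absurd e.symm e2
          · exact absurd e.symm e3
          · rw [← e, e1]
      · by_cases e2 : ((h : H) : Perm α) x = x
        · have e3 : ((h : H) : Perm α) (((g : H) : Perm α) x) ≠ x := fun e => e1 (((h : H) : Perm α).injective (e.trans e2.symm))
          rcases h3 _ hx _ i1 _ i4 with e | e | e
          · exact absurd e.symm e1
          · exact absurd e.symm e3
          · rw [← e, e2]
        · have e3 : ((g : H) : Perm α) x = ((h : H) : Perm α) x := by
            rcases h3 _ hx _ i1 _ i2 with e | e | e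
            · exact absurd e.symm e1
            · exact absurd e.symm e2
            · exact e
          have e4 : ((g : H) : Perm α) (((g : H) : Perm α) x) = x := by
            rcases h3 _ hx _ i1 _ i5 with e | e | e
            · exact absurd e.symm e1
            · exact e.symm
            · exact absurd (((g : H) : Perm α).injective e).symm e1
          have e5 : ((h : H) : Perm α) (((h : H) : Perm α) x) = x := by
            rcases h3 _ hx _ i2 _ i6 with e | e | e
            · exact absurd e.symm e2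
            · exact e.symm
            · exact absurd (((h : H) : Perm α).injective e).symm e2
          rw [← e3, e4, e3, e5]
    · exact hcomm x hx g g.2 h h.2
  have hex : ∃ a, L ≤ (B (Xc H a)).subgroupOf H := by
    by_contra hno
    push Not at hno
    have hcom : ∀ a, ⁅(B (Xc H a)).subgroupOf H, L⁆ = ⊥ := fun a =>
      (comp_le_or_commutes hcomp (hsub a)).resolve_left (hno a)
    have h1 : K3 H ≤ (Subgroup.centralizer (L : Set H)).map H.subtype := by
      refine (Subgroup.closure_le _).mpr ?_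
      rintro s ⟨hs, h3⟩
      obtain ⟨a, ha⟩ : ∃ a, a ∈ s.support := by
        have := IsThreeCycle.card_support h3
        exact Finset.card_pos.mp (by omega)
      have h4 : s ∈ B (Xc H a) := by
        rw [mem_B]
        refine ⟨h3.mem_alternatingGroup, fun x hx => ?_⟩
        by_contra hne
        rw [mem_Xc] at hx
        exact hx (Or.inr ⟨s, hs, h3, ha, mem_support.mpr hne⟩)
      have h5 := (Subgroup.commutator_eq_bot_iff_le_centralizer.mp (hcom a)) (show (⟨s, hs⟩ : H) ∈ (B (Xc H a)).subgroupOf H from h4)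
      exact ⟨⟨s, hs⟩, h5, rfl⟩
    apply qs_not_comm hF
    refine ⟨⟨fun g h => Subtype.ext ?_⟩⟩
    obtain ⟨z, hz, hz2⟩ := h1 (hLK g.2)
    have h2 : z = (g : H) := Subtype.ext hz2
    rw [h2] at hz
    exact (Subgroup.mem_centralizer_iff.mp hz h h.2).symm
  obtain ⟨a, ha⟩ := hex
  have hBH : B (Xc H a) ≤ H := (B_le_K3 H a).trans (K3_le H)
  let e1 : ↥((B (Xc H a)).subgroupOf H) ≃* alternatingGroup ↥(Xc H a)ᶜ :=
    (Subgroup.subgroupOfEquivOfLe hBH).trans (BEquiv (Xc H a)).symm
  have h5 : 5 ≤ Nat.card ↥(Xc H a)ᶜ := by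
    by_contra hlt
    have hsol := alt_solvable ↥(Xc H a)ᶜ (by omega)
    have h1 : Group.IsSolvable ↥((B (Xc H a)).subgroupOf H) :=
      Group.isSolvable_of_isSolvable_injective (f := e1.toMonoidHom) e1.injective
    exact qs_not_solvable hF (Group.isSolvable_of_isSolvable_injective (f := Subgroup.inclusion ha) (Subgroup.inclusion_injective ha))
  haveI hsimp : IsSimpleGroup ↥((B (Xc H a)).subgroupOf H) := by
    haveI := alternatingGroup.isSimpleGroup h5
    exact (MulEquiv.isSimpleGroup_congr e1).mpr inferInstance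
  have hLB : L = (B (Xc H a)).subgroupOf H := by
    apply le_antisymm ha
    rcases (inferInstance : (L.subgroupOf ((B (Xc H a)).subgroupOf H)).Normal).eq_bot_or_eq_top with h1 | h1
    · exfalso
      apply qs_not_comm hF
      refine ⟨⟨fun g h => ?_⟩⟩
      have h2 : ∀ g : L, g = 1 := by
        intro g
        have : (⟨(g : H), ha g.2⟩ : ↥((B (Xc H a)).subgroupOf H)) ∈ (L.subgroupOf ((B (Xc H a)).subgroupOf H)) := g.2
        rw [h1, Subgroup.mem_bot] at this
        exact Subtype.ext (congrArg (fun x : ↥((B (Xc H a)).subgroupOf H) => (x : H)) this)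
      rw [h2 g, h2 h]
    · exact Subgroup.subgroupOf_eq_top.mp h1
  refine ⟨Xc H a, ?_, ⟨(MulEquiv.subgroupCongr hLB).trans e1⟩⟩
  refine (Finset.card_le_card ?_).trans hFx
  intro x hx
  rw [mem_Fx]
  intro s hs h3 hxs
  have hsX : ∀ y ∈ s.support, y ∈ Xc H a := by
    intro y hy
    rw [mem_Xc] at hx ⊢
    exact fun h => hx (rel_trans h (Or.inr ⟨s, hs, h3, hy, hxs⟩))
  have hcs : (⟨s, hs⟩ : H) ∈ Subgroup.centralizer (L : Set H) := by
    rw [Subgroup.mem_centralizer_iff]
    intro g hg
    rw [hLB] at hg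
    have hg' := (mem_B.mp (Subgroup.mem_subgroupOf.mp hg)).2
    apply Subtype.ext
    have hd : Disjoint (g : Perm α) s := by
      intro y
      by_cases hy : y ∈ s.support
      · exact Or.inl (hg' y (hsX y hy))
      · exact Or.inr (notMem_support.mp hy)
    exact hd.commute.eq
  have h6 := hcent hcs
  rw [hLB] at h6
  have h7 := (mem_B.mp (Subgroup.mem_subgroupOf.mp h6)).2 x hx
  exact (mem_support.mp hxs) h7

end

/-- Let n ≥ 5 and let H be a subgroup of the symmetric group of degree n whose generalized Fitting subgroup F*(H) is quasisimple. If H contains a Sylow 3-subgroup of the symmetric group, then F*(H) is isomorphic to an alternating group of degree m for some m ∈ {n − 2, n − 1, n}. -/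
theorem result (n : ℕ) (hn : 5 ≤ n) (H : Subgroup (Equiv.Perm (Fin n))) (hF : Cfsg.IsQuasisimple ↥(Cfsg.generalizedFittingSubgroup ↥H)) (hS : ∃ P : Sylow 3 (Equiv.Perm (Fin n)), (P : Subgroup (Equiv.Perm (Fin n))) ≤ H) : ∃ m : ℕ, (m = n - 2 ∨ m = n - 1 ∨ m = n) ∧ Nonempty (↥(Cfsg.generalizedFittingSubgroup ↥H) ≃* ↥(alternatingGroup (Fin m))) := by
  obtain ⟨X, hX, ⟨e⟩⟩ := main H hF hS
  have hc : Xᶜ.card = n - X.card := by rw [Finset.card_compl, Fintype.card_fin]
  refine ⟨Xᶜ.card, by omega, ⟨e.trans (Equiv.altCongrHom (Fintype.equivFinOfCardEq (by rw [Fintype.card_coe])))⟩⟩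

end Cfsg.Agent.S2929
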