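import Cfsg.Statements.S2939
import Cfsg.Agent.H19.SCtl1

set_option autoImplicit false
set_option linter.style.haveILetI false
open Cfsg

namespace Cfsg.Agent.S2939


open Subgroup Cfsg Cfsg.Agent.L Cfsg.Agent.H19

theorem memb_cj {G : Type*} [Group G] [Finite G] {p : ℕ} [Fact p.Prime] {𝓕 : Set (Subgroup G)} (h𝓕 : IsNormalSet 𝓕)
    {S X : Subgroup G} (h : X ∈ sylowMembers p 𝓕 S) (g : G) : cj g X ∈ sylowMembers p 𝓕 (cj g S) := by
  rw [mem_sylowMembers_iff] at h ⊢
  refine ⟨?_, ?_⟩
  · have := h𝓕 X h.1 g⁻¹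
    rwa [subgroupConjRight, inv_inv] at this
  · rw [← cj_inf]
    exact h.2.cj g

/-- telescoping products -/
theorem prod_take_tele {G : Type*} [Group G] (n : ℕ) (y : Fin n → G) (w : ℕ → G) (h0 : w 0 = 1)
    (h : ∀ i : Fin n, w (i.val + 1) = w i.val * y i) : ∀ k ≤ n, ((List.ofFn y).take k).prod = w k := by
  intro k
  induction k with
  | zero => intro _; simp [h0]
  | succ k ih =>
    intro hk
    have hk' : k < (List.ofFn y).length := by rw [List.length_ofFn]; omega
    rw [List.prod_take_succ _ _ hk', ih (by omega), List.getElem_ofFn, h ⟨k, by omega⟩]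

theorem conjRight_sub {G : Type*} [Group G] {g : G} {A : Set G} {X : Subgroup G} :
    conjRight g A ⊆ (X : Set G) ↔ A ⊆ (cj g X : Subgroup G) := by
  constructor
  · intro h a ha
    rw [SetLike.mem_coe, mem_cj]
    exact h ⟨a, ha, rfl⟩
  · rintro h _ ⟨a, ha, rfl⟩
    have := h ha
    rwa [SetLike.mem_coe, mem_cj] at this

/-- Let p be a prime dividing the order of the finite group G and 𝓕 a family of subgroups of G closed under conjugation, with conjugates taken as X^g = g⁻¹Xg. Then 𝓕 controls Sylow p-intersections in G (any two distinct Sylow p-subgroups S and T with S ∩ T ≠ 1 are joined by a chain S = S₀, S₁, …, Sₙ = T of Sylow p-subgroups where, for each i, some member Xᵢ of 𝓕 meets both S_{i-1} and Sᵢ in Sylow p-subgroups of Xᵢ, satisfies S ∩ T ≤ Sᵢ ∩ Xᵢ, and contains an element xᵢ with Sᵢ^{xᵢ} = S_{i-1}) if and only if 𝓕 strongly controls p-fusion in G (whenever A is a subset of a Sylow p-subgroup S, A contains an element other than 1, and A^g ⊆ S, the element g factorises as g = y₁⋯yₙy with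 y ∈ N_G(S) and each yᵢ in a member Yᵢ of 𝓕 that meets S in a Sylow p-subgroup of Yᵢ, with A^{y₁⋯yᵢ} ⊆ S ∩ Yᵢ for each i). -/
theorem result {G : Type*} [Group G] [Finite G] {p : ℕ} [Fact p.Prime] (hdiv : p ∣ Nat.card G) (𝓕 : Set (Subgroup G)) (h𝓕 : Cfsg.IsNormalSet 𝓕) : Cfsg.ControlsSylowIntersections p 𝓕 ↔ Cfsg.FamilyStronglyControlsFusion p 𝓕 := by
  classical
  constructor
  · intro hc S A g hA hne hg
    obtain ⟨a, ha, ha1⟩ := hne
    obtain ⟨T, hT⟩ : ∃ T : Sylow p G, T = g • S := ⟨_, rfl⟩
    have hTc : (T : Subgroup G) = cj g (S : Subgroup G) := by rw [hT]; rfl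
    have hAT : A ⊆ ((S : Subgroup G) ⊓ (T : Subgroup G) : Subgroup G) := by
      intro b hb
      refine ⟨hA hb, ?_⟩
      rw [hTc]
      exact (conjRight_sub.1 hg) hb
    by_cases hST : S = T
    · refine ⟨0, Fin.elim0, Fin.elim0, g, ?_, fun i => i.elim0, by simp, fun i => i.elim0⟩
      rw [hST] at hTc
      have h1 : cj g (S : Subgroup G) = S := by rw [hST]; exact hTc.symm
      exact mem_nz_iff.2 h1
    obtain ⟨n, c, X, x, h0, hn, h⟩ := hc S T hST (by
      intro h
      apply ha1
      have h2 := hAT ha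
      rw [h] at h2
      exact Subgroup.mem_bot.1 h2)
    -- the accumulated products
    obtain ⟨w, hw0, hw⟩ : ∃ w : ℕ → G, w 0 = 1 ∧ ∀ i : Fin n, w (i.val + 1) = x i * w i.val := by
      refine ⟨fun k => Nat.rec 1 (fun k wk => (if h : k < n then x ⟨k, h⟩ else 1) * wk) k, rfl, ?_⟩
      intro i
      simp only [Fin.is_lt, dif_pos]
    have hcw : ∀ (k : ℕ) (hk : k < n + 1), (c ⟨k, hk⟩ : Subgroup G) = cj (w k) (S : Subgroup G) := by
      intro k
      induction k with
      | zero => intro hk; rw [hw0, cj_one, ← h0]; rfl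
      | succ k ih =>
        intro hk
        have h1 := (h ⟨k, by omega⟩).2.2.2.1
        have h2 := ih (by omega)
        have h3 : (c (Fin.succ ⟨k, by omega⟩) : Subgroup G) = cj (x ⟨k, by omega⟩) (c (Fin.castSucc ⟨k, by omega⟩) : Subgroup G) := by
          rw [← h1, subgroupConjRight, cj_cj_inv]
        have h4 : (c (Fin.castSucc ⟨k, by omega⟩) : Subgroup G) = cj (w k) (S : Subgroup G) := h2
        have h5 : (c ⟨k + 1, hk⟩ : Subgroup G) = cj (x ⟨k, by omega⟩) (cj (w k) (S : Subgroup G)) := by
          rw [← h4]; exact h3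
        rw [h5, cj_cj, ← hw ⟨k, by omega⟩]
    have hwn : cj (w n) (S : Subgroup G) = cj g (S : Subgroup G) := by
      rw [← hcw n (by omega), ← hTc, ← hn]; rfl
    obtain ⟨y, hy⟩ : ∃ y : Fin n → G, y = fun i => (w i.val)⁻¹ * w (i.val + 1) := ⟨_, rfl⟩
    have hpr := prod_take_tele n y w hw0 (fun i => by rw [hy]; group)
    have hpn : (List.ofFn y).prod = w n := by
      have := hpr n le_rfl
      rwa [List.take_of_length_le (by rw [List.length_ofFn])] at this
    refine ⟨n, fun i => cj (w i.val)⁻¹ (X i), y, (w n)⁻¹ * g, ?_, ?_, ?_, ?_⟩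
    · rw [mem_nz_iff, ← cj_cj, ← hwn, cj_inv_cj]
    · intro i
      constructor
      · have h1 := memb_cj h𝓕 (h i).1 (w i.val)⁻¹
        have h2 : (c i.castSucc : Subgroup G) = cj (w i.val) (S : Subgroup G) := hcw i.val (by omega)
        rw [h2, cj_inv_cj] at h1
        exact h1
      · rw [hy, mem_cj]
        have h1 : (w i.val)⁻¹⁻¹ * ((w i.val)⁻¹ * w (i.val + 1)) * (w i.val)⁻¹ = x i := by rw [hw i]; group
        rw [h1]
        exact (h i).2.2.1
    · rw [hpn]; group
    · intro i
      rw [hpr _ (by omega)]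
      have h1 := (h i).2.2.2.2
      have h2 : (c i.succ : Subgroup G) = cj (w (i.val + 1)) (S : Subgroup G) := hcw (i.val + 1) (by omega)
      rw [h2] at h1
      refine Set.subset_inter ?_ ?_
      · refine conjRight_sub.2 ?_
        intro b hb
        exact (h1 (hAT hb)).1
      · refine conjRight_sub.2 ?_
        intro b hb
        have h3 := (h1 (hAT hb)).2
        rw [cj_cj]
        have h4 : cj (w (i.val + 1) * (w i.val)⁻¹) (X i) = X i := by
          apply cj_eq_self_of_mem
          rw [hw i, mul_inv_cancel_right]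
          exact (h i).2.2.1
        rw [h4]; exact h3
  · intro hc S T hST hne
    obtain ⟨g, hg⟩ := MulAction.exists_smul_eq G S T
    have hTc : (T : Subgroup G) = cj g (S : Subgroup G) := by rw [← hg]; rfl
    obtain ⟨n, Y, y, y₀, hy₀, hY, hgy, h⟩ := hc S ((S : Subgroup G) ⊓ (T : Subgroup G) : Subgroup G) g inf_le_left (by
      by_contra hcon
      push Not at hcon
      apply hne
      rw [eq_bot_iff]
      intro a ha
      exact Subgroup.mem_bot.2 (hcon a ha)) (by
      refine conjRight_sub.2 ?_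
      rw [← hTc]
      exact inf_le_right)
    obtain ⟨w, hw⟩ : ∃ w : ℕ → G, w = fun k => ((List.ofFn y).take k).prod := ⟨_, rfl⟩
    have hw0 : w 0 = 1 := by rw [hw]; simp
    have hws : ∀ i : Fin n, w (i.val + 1) = w i.val * y i := by
      intro i
      rw [hw]
      have hi : i.val < (List.ofFn y).length := by rw [List.length_ofFn]; exact i.2
      simp only
      rw [List.prod_take_succ _ _ hi, List.getElem_ofFn]
    have hwn : w n = (List.ofFn y).prod := by
      rw [hw]
      simp only
      rw [List.take_of_length_le (by rw [List.length_ofFn])]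
    have hsm : ∀ k, ((w k • S : Sylow p G) : Subgroup G) = cj (w k) (S : Subgroup G) := fun k => rfl
    refine ⟨n, fun i => w i.val • S, fun i => cj (w i.val) (Y i), fun i => w i.val * y i * (w i.val)⁻¹, ?_, ?_, ?_⟩
    · simp [hw0]
    · apply Sylow.ext
      rw [hsm, Fin.val_last, hwn, hTc, hgy, ← cj_cj, mem_nz_iff.1 hy₀]
    · intro i
      have h1 := h i
      have h2 := (hY i).1
      have hwi : (((List.ofFn y).take (i.val + 1)).prod) = w (i.val + 1) := by rw [hw]
      rw [hwi] at h1
      have hYi : cj (w (i.val + 1)) (Y i) = cj (w i.val) (Y i) := by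
        rw [hws i, ← cj_cj, cj_eq_self_of_mem (hY i).2]
      refine ⟨memb_cj h𝓕 h2 (w i.val), ?_, conj_mem_cj (hY i).2, ?_, ?_⟩
      · have h3 := memb_cj h𝓕 h2 (w (i.val + 1))
        rw [hYi] at h3
        exact h3
      · change cj (w i.val * y i * (w i.val)⁻¹)⁻¹ (cj (w (i.val + 1)) (S : Subgroup G)) = cj (w i.val) (S : Subgroup G)
        rw [cj_cj, hws i]
        congr 1
        group
      · refine le_inf ?_ ?_
        · have h3 := conjRight_sub.1 (h1.trans Set.inter_subset_left)
          exact h3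
        · have h3 := conjRight_sub.1 (h1.trans Set.inter_subset_right)
          rw [hYi] at h3
          exact h3


end Cfsg.Agent.S2939
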