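import Cfsg.Statements.S2940
import Cfsg.Agent.H19.Sylow

set_option autoImplicit false
set_option linter.style.haveILetI false
open Cfsg

namespace Cfsg.Agent.S2940

/-- Let S be a Sylow p-subgroup of the finite group G and G₁, G₂ subgroups containing S with G = G₁G₂. Then for every g ∈ G there is a Sylow p-subgroup U of G with S ∩ S^g ≤ U ≤ G₁ ∩ G₂^g (conjugates taken as X^g = g⁻¹Xg). -/
theorem result {G : Type*} [Group G] [Finite G] {p : ℕ} [Fact p.Prime] (S : Sylow p G) (G₁ G₂ : Subgroup G) (h1 : (S : Subgroup G) ≤ G₁) (h2 : (S : Subgroup G) ≤ G₂) (hfact : ∀ g : G, ∃ g₁ ∈ G₁, ∃ g₂ ∈ G₂, g = g₁ * g₂) (g : G) : ∃ U : Sylow p G, (S : Subgroup G) ⊓ Cfsg.subgroupConjRight g (S : Subgroup G) ≤ (U : Subgroup G) ∧ (U : Subgroup G) ≤ G₁ ⊓ Cfsg.subgroupConjRight g G₂ := by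

  classical
  obtain ⟨a, ha, b, hb, hab⟩ := hfact g⁻¹
  have hmem : ∀ (X : Subgroup G) (y : G), y ∈ Cfsg.subgroupConjRight g X ↔ g * y * g⁻¹ ∈ X := by
    intro X y
    constructor
    · rintro ⟨z, hz, rfl⟩
      simpa [mul_assoc] using hz
    · intro h
      refine ⟨_, h, ?_⟩
      simp [mul_assoc]
  set L := G₁ ⊓ Cfsg.subgroupConjRight g G₂ with hL
  -- `a S a⁻¹ ≤ L`
  have hg : g = b⁻¹ * a⁻¹ := by
    have := congrArg (·⁻¹) hab
    simpa using this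
  have h3 : ((a • S : Sylow p G) : Subgroup G) ≤ L := by
    intro y hy
    obtain ⟨s, hs, rfl⟩ : ∃ s ∈ (S : Subgroup G), a * s * a⁻¹ = y := by
      obtain ⟨s, hs, hsy⟩ := hy
      exact ⟨s, hs, hsy⟩
    refine Subgroup.mem_inf.mpr ⟨G₁.mul_mem (G₁.mul_mem ha (h1 hs)) (G₁.inv_mem ha), ?_⟩
    have : g * (a * s * a⁻¹) * g⁻¹ = b⁻¹ * s * b := by rw [hg]; group
    exact (hmem _ _).mpr (by rw [this]; exact G₂.mul_mem (G₂.mul_mem (G₂.inv_mem hb) (h2 hs)) hb)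
  have h4 : Cfsg.Agent.H23.IsSylowOf p ((a • S : Sylow p G) : Subgroup G) L := by
    refine Cfsg.Agent.H23.isSylowOf_of_not_dvd h3 (a • S).isPGroup' fun h => ?_
    apply (a • S).not_dvd_index
    exact h.trans (Subgroup.relIndex_dvd_index_of_le h3)
  have h5 : (S : Subgroup G) ⊓ Cfsg.subgroupConjRight g (S : Subgroup G) ≤ L := by
    intro y hy
    have hy1 : y ∈ (S : Subgroup G) := hy.1
    have hy2 := (hmem _ _).mp hy.2
    exact ⟨h1 hy1, (hmem _ _).mpr (h2 hy2)⟩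
  obtain ⟨U, hU, hUle⟩ := Cfsg.Agent.H23.exists_isSylowOf_ge h5 (S.isPGroup'.to_le inf_le_left)
  obtain ⟨x, hx, hxU⟩ := h4.exists_conj hU
  refine ⟨x • (a • S), ?_, ?_⟩
  · have e : ((x • (a • S) : Sylow p G) : Subgroup G) = U := hxU
    rw [e]; exact hUle
  · have e : ((x • (a • S) : Sylow p G) : Subgroup G) = U := hxU
    rw [e]; exact hU.le


end Cfsg.Agent.S2940
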