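import Cfsg.Statements.S2945
import Cfsg.Agent.H19.JC6
import Cfsg.Agent.S2944

set_option autoImplicit false
set_option linter.style.haveILetI false
open Cfsg

namespace Cfsg.Agent.S2945

open Cfsg.Agent Cfsg.Agent.H19 Cfsg.Agent.H19.JC
open scoped commutatorElement

/-- Let G be a finite group of characteristic 2 type in which every 2-local subgroup is solvable and the centralizer of Ω₁(Z(S)) lies in N_G(S) for every Sylow 2-subgroup S, and let T be a nontrivial 2-subgroup (below, J is the Thompson subgroup generated by the elementary abelian 2-subgroups of largest order), L a subgroup in which T is a Sylow 2-subgroup with J(T) not contained in O₂(L) and C_G(O₂(L)) ≤ O₂(L), and K ≤ L a subgroup that is subnormal in ⟨K, J(T)⟩. If for some conjugate Tᵍ of T, K is a J(Tᵍ)-component with J(Tᵍ) the Thompson subgroup of every Sylow 2-subgroup of N_G(W_K) containing J(Tᵍ) (W_K = [Ω₁(Z(O₂(K))), K]), then K is a J(T)-component. -/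
theorem result {G : Type*} [Group G] [Finite G] (hL : Cfsg.IsCharacteristicTwoType G) (hN : ∀ N : Subgroup G, Cfsg.IsTwoLocal N → Group.IsSolvable ↥N)
    (hZ : ∀ S : Sylow 2 G, Subgroup.centralizer (Cfsg.omegaCenterOf (S : Subgroup G) : Set G) ≤ Subgroup.normalizer ((S : Subgroup G) : Set G)) (T : Subgroup G) (hT : IsPGroup 2 ↥T) (hT1 : T ≠ ⊥) (L : Subgroup G) (hLT : L ∈ Cfsg.jOvergroups T)
    (K : Subgroup G) (hKL : K ≤ L) (hKsn : (K.subgroupOf (K ⊔ Cfsg.thompsonSubgroupOf 2 T)).IsSubnormal)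
    (g : G) (hKg : K ∈ Cfsg.jComponentsZero (T.map (MulAut.conj g).toMonoidHom)) : Cfsg.IsJComponent T K := by
  classical
  haveI h2 : Fact (Nat.Prime 2) := ⟨Nat.prime_two⟩
  have hG : HG G := ⟨hL, hN, hZ⟩
  obtain ⟨hTL, hJL, hcL⟩ := hLT
  have hTL' := isSylowTwoIn_iff.mp hTL
  have hz := hG.zg hcL (ne_bot_of hT1 hcL)
  have hT' : IsPGroup 2 ↥(T.map (MulAut.conj g).toMonoidHom) := hT.map _
  have hT1' : T.map (MulAut.conj g).toMonoidHom ≠ ⊥ := by
    rw [Ne, Subgroup.map_eq_bot_iff_of_injective _ (MulAut.conj g).injective]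
    exact hT1
  have h44 := (S2944.result hL hN hZ _ hT' hT1' K hKg).2 g⁻¹
  rw [← H2.map_conj_mul, inv_mul_cancel, H2.map_conj_one] at h44
  apply h44
  have hc := hKg.1
  have hc3 := comp_c3 hc
  have hW4 := comp_card hc
  set P := K ⊔ thompsonSubgroupOf 2 T with hP
  have hKP : K ≤ P := le_sup_left
  have hPL : P ≤ L := sup_le hKL ((H2.thompsonSubgroupOf_le 2 T).trans hTL.1)
  have hsol : Group.IsSolvable ↥P := by
    haveI := hz.solv
    exact Group.isSolvable_of_isSolvable_injective (Subgroup.inclusion_injective hPL)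
  rw [H2.thompsonSubgroupOf_eq]
  refine sSup_le fun A hA => ?_
  have hAP : A ≤ P := hA.le_thompson.trans le_sup_right
  have h1 := eaIn_subgroupOf (eaIn_mono (eaIn_of_sylow hTL' hA) hAP hPL)
  have h3 := le_norm_wOf hsol (c3_subgroupOf hKP hc3) hKsn (by rw [card_wOf_subgroupOf hKP]; exact hW4) h1
  intro a ha
  apply mem_norm_of_le
  intro w hw
  rw [← wOf_subgroupOf hKP] at hw
  obtain ⟨v, hv, rfl⟩ := hw
  have h4 := (Subgroup.mem_normalizer_iff.mp (h3 (show (⟨a, hAP ha⟩ : ↥P) ∈ A.subgroupOf P from ha)) v).mp hv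
  rw [← wOf_subgroupOf hKP]
  exact ⟨_, h4, rfl⟩

end Cfsg.Agent.S2945
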