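import Cfsg.Statements.S2950
import Cfsg.Agent.H19.JC11
import Cfsg.Agent.S2942

set_option autoImplicit false
set_option linter.style.haveILetI false
open Cfsg

namespace Cfsg.Agent.S2950

open Cfsg.Agent Cfsg.Agent.H19 Cfsg.Agent.H19.JC
open scoped commutatorElement

/-- Uniqueness of the maximal 2-local overgroup. Let G be a finite group of characteristic 2 type in which every 2-local subgroup is solvable and the centralizer of Ω₁(Z(S)) lies in N_G(S) for every Sylow 2-subgroup S; suppose O₂(G) = 1, fix a Sylow 2-subgroup S and a 2-local subgroup M containing N_G(J(S)) (J the Thompson subgroup generated by the elementary abelian 2-subgroups of largest order). Let T be maximal (for the order of a largest elementary abelian subgroup, then the order of J(T), then the order of T) among the nontrivial 2-subgroups of M lying in a 2-local subgroup not inside M, and let K be a J(T)-component not contained in M with J(T) the Thompson subgroup of every Sylow 2-subgroup of N_G(W_K) containing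 J(T), and O₂(⟨K, T⟩) ≠ 1. Then there is exactly one maximal 2-local subgroup L of G containing ⟨K, J(T)⟩; moreover K is subnormal in L and T is a Sylow 2-subgroup of L. -/
theorem result {G : Type*} [Group G] [Finite G] (hL : Cfsg.IsCharacteristicTwoType G) (hN : ∀ N : Subgroup G, Cfsg.IsTwoLocal N → Group.IsSolvable ↥N)
    (hZ : ∀ S : Sylow 2 G, Subgroup.centralizer (Cfsg.omegaCenterOf (S : Subgroup G) : Set G) ≤ Subgroup.normalizer ((S : Subgroup G) : Set G)) (hO : Cfsg.pCore 2 G = ⊥) (S : Sylow 2 G) (M : Subgroup G) (hM : Cfsg.IsTwoLocal M)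
    (hMJ : Subgroup.normalizer (Cfsg.thompsonSubgroupOf 2 (S : Subgroup G) : Set G) ≤ M) (T : Subgroup G) (hT : T ∈ Cfsg.maxStraddlingTwoSubgroups M)
    (K : Subgroup G) (hK : K ∈ Cfsg.jComponentsOutside M T) :
    ∃ L : Subgroup G, Cfsg.IsMaximalTwoLocal L ∧ K ⊔ Cfsg.thompsonSubgroupOf 2 T ≤ L ∧
      (∀ L' : Subgroup G, Cfsg.IsMaximalTwoLocal L' → K ⊔ Cfsg.thompsonSubgroupOf 2 T ≤ L' → L' = L) ∧
      (K.subgroupOf L).IsSubnormal ∧ Cfsg.IsSylowTwoIn T L := by

  haveI h2 : Fact (Nat.Prime 2) := ⟨Nat.prime_two⟩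
  have hG : HG G := ⟨hL, hN, hZ⟩
  have hS := isSylowOf_top_of_sylow S
  obtain ⟨L, hL2, hKL, hTL, hmax⟩ := exists_max hG hS hMJ hT hK.1.1 hK.2.1 hK.2.2
  have hLM : ¬ L ≤ M := fun h => hK.2.1 (hKL.trans h)
  have hsy := sylow_of_le hG hS hMJ hT hL2 hLM hTL
  obtain ⟨-, -, h6⟩ := max_all hG hS hMJ hT hL2 hLM hsy (H2.thompsonSubgroupOf_le 2 T)
  have hJL : Cfsg.thompsonSubgroupOf 2 T ≤ L := (H2.thompsonSubgroupOf_le 2 T).trans hTL
  refine ⟨L, ⟨hL2, fun L' hL' hLL' => ?_⟩, sup_le hKL hJL, ?_, ?_, isSylowTwoIn_iff.mpr hsy⟩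
  · exact le_antisymm (hmax L' hL' (hKL.trans hLL') (hJL.trans hLL')) hLL'
  · intro L' hL' hle
    have h7 := hmax L' hL'.1 (le_sup_left.trans hle) (le_sup_right.trans hle)
    exact (hL'.2 L hL2 h7).symm
  · exact S2942.result hL hN hZ T hT.1.1 hT.1.2.1 L h6 K hK.1.1 hKL

end Cfsg.Agent.S2950
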