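import Cfsg.Statements.S2953
import Cfsg.Agent.H19.JC21

set_option autoImplicit false
set_option linter.style.haveILetI false
open Cfsg

namespace Cfsg.Agent.S2953

open Cfsg.Agent Cfsg.Agent.H19 Cfsg.Agent.H19.JC
open scoped commutatorElement

/-- Let G be a finite group of characteristic 2 type in which every 2-local subgroup is solvable and the centralizer of Ω₁(Z(S)) lies in N_G(S) for every Sylow 2-subgroup S; suppose O₂(G) = 1, fix a Sylow 2-subgroup S and a 2-local subgroup M containing N_G(J(S)) (J the Thompson subgroup generated by the elementary abelian 2-subgroups of largest order). Let T be maximal (for the order of a largest elementary abelian subgroup, then the order of J(T), then the order of T) among the nontrivial 2-subgroups of M lying in a 2-local subgroup not inside M. Then there are two distinct J(T)-components K₁, K₂ such that, with Pᵢ = ⟨Kᵢ,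 T⟩: C_G(O₂(Pᵢ)) ≤ O₂(Pᵢ), T is a Sylow 2-subgroup of Pᵢ, O₂(Pᵢ) has index 6 in Pᵢ with Pᵢ/O₂(Pᵢ) non-abelian, [Ω₁(Z(T)), Pᵢ] ≠ 1, O₂(⟨P₁, P₂⟩) = 1, and each Pᵢ lies in exactly one maximal 2-local subgroup Lᵢ of G, in which T is a Sylow 2-subgroup. -/
theorem result {G : Type*} [Group G] [Finite G] (hL : Cfsg.IsCharacteristicTwoType G) (hN : ∀ N : Subgroup G, Cfsg.IsTwoLocal N → Group.IsSolvable ↥N)
    (hZ : ∀ S : Sylow 2 G, Subgroup.centralizer (Cfsg.omegaCenterOf (S : Subgroup G) : Set G) ≤ Subgroup.normalizer ((S : Subgroup G) : Set G)) (hO : Cfsg.pCore 2 G = ⊥) (S : Sylow 2 G) (M : Subgroup G) (hM : Cfsg.IsTwoLocal M)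
    (hMJ : Subgroup.normalizer (Cfsg.thompsonSubgroupOf 2 (S : Subgroup G) : Set G) ≤ M) (T : Subgroup G) (hT : T ∈ Cfsg.maxStraddlingTwoSubgroups M) :
    ∃ K₁ K₂ : Subgroup G, K₁ ≠ K₂ ∧ Cfsg.IsJComponent T K₁ ∧ Cfsg.IsJComponent T K₂ ∧
      Cfsg.pCoreOf 2 ((K₁ ⊔ T) ⊔ (K₂ ⊔ T)) = ⊥ ∧
      ∀ P ∈ [K₁ ⊔ T, K₂ ⊔ T],
        Subgroup.centralizer (Cfsg.pCoreOf 2 P : Set G) ≤ Cfsg.pCoreOf 2 P ∧ Cfsg.IsSylowTwoIn T P ∧
        (Cfsg.pCoreOf 2 P).relIndex P = 6 ∧ ¬ ⁅P, P⁆ ≤ Cfsg.pCoreOf 2 P ∧ ⁅Cfsg.omegaCenterOf T, P⁆ ≠ ⊥ ∧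
        ∃ L : Subgroup G, Cfsg.IsMaximalTwoLocal L ∧ P ≤ L ∧ Cfsg.IsSylowTwoIn T L ∧
          ∀ L' : Subgroup G, Cfsg.IsMaximalTwoLocal L' → P ≤ L' → L' = L := by

  haveI h2 : Fact (Nat.Prime 2) := ⟨Nat.prime_two⟩
  have hG : HG G := ⟨hL, hN, hZ⟩
  have hS := isSylowOf_top_of_sylow S
  obtain ⟨K₁, hK₁⟩ := S2949.result hL hN hZ hO S M hM hMJ T hT
  obtain ⟨L₁, hu₁⟩ := uq_of hG hS hMJ hT hK₁
  obtain ⟨S₁, hS₁, hTS₁, -, -⟩ := exists_sylow_M hG hS hMJ hT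
  obtain ⟨hoz, ⟨K₂, L₂, hu₂, hK₂L⟩, -⟩ := main hG hO hS₁ hu₁ hTS₁
  have hall : ∀ K L : Subgroup G, UQ T K L →
      Subgroup.centralizer (Cfsg.pCoreOf 2 (K ⊔ T) : Set G) ≤ Cfsg.pCoreOf 2 (K ⊔ T) ∧ Cfsg.IsSylowTwoIn T (K ⊔ T) ∧
        (Cfsg.pCoreOf 2 (K ⊔ T)).relIndex (K ⊔ T) = 6 ∧ ¬ ⁅K ⊔ T, K ⊔ T⁆ ≤ Cfsg.pCoreOf 2 (K ⊔ T) ∧
        ⁅Cfsg.omegaCenterOf T, K ⊔ T⁆ ≠ ⊥ ∧
        ∃ L : Subgroup G, Cfsg.IsMaximalTwoLocal L ∧ K ⊔ T ≤ L ∧ Cfsg.IsSylowTwoIn T L ∧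
          ∀ L' : Subgroup G, Cfsg.IsMaximalTwoLocal L' → K ⊔ T ≤ L' → L' = L := by
    intro K L hu
    have hPL : K ⊔ T ≤ L := sup_le hu.KL hu.TL
    have hQ : Cfsg.pCoreOf 2 L ≤ Cfsg.pCoreOf 2 (K ⊔ T) :=
      H18.le_pCoreOf (hu.core_le.trans le_sup_right) (hPL.trans (H18.le_normalizer_pCoreOf L)) (H18.isPGroup_pCoreOf _)
    refine ⟨?_, ?_, hu.index_six (hu.T_norm hG hoz), ?_, ?_, L, hu.max, hPL, isSylowTwoIn_iff.mpr hu.syl, ?_⟩
    · exact ((Subgroup.centralizer_le (show ((Cfsg.pCoreOf 2 L : Subgroup G) : Set G) ⊆ _ from hQ)).trans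
        (hu.cent_core hG)).trans hQ
    · exact isSylowTwoIn_iff.mpr (IsSylowOf.mono hu.syl le_sup_right hPL)
    · intro h
      apply comp_not_pgroup hu.comp (H18.isPGroup_pCoreOf (p := 2) (K ⊔ T))
      refine le_trans ?_ h
      have h3 : ⁅K, Cfsg.thompsonSubgroupOf 2 T⁆ ≤ ⁅K ⊔ T, K ⊔ T⁆ :=
        Subgroup.commutator_mono le_sup_left ((H2.thompsonSubgroupOf_le 2 T).trans le_sup_right)
      rwa [hu.comp.2.1] at h3
    · intro h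
      obtain ⟨x₀, hx₀, hx1, -⟩ := exists_x0 hG hu.T2 hu.T1 hu.comp
      obtain ⟨d, hd, -, hdR⟩ := (comp_c3 hu.comp).exists_gen
      apply hx1
      apply (comp_c3 hu.comp).fpf hd hdR hx₀.2
      have h3 : x₀ ∈ Cfsg.omegaCenterOf T := by rw [hoz]; exact hx₀.1
      have h4 := Subgroup.commutator_mem_commutator h3 (Subgroup.mem_sup_left hd : d ∈ K ⊔ T)
      rw [h, Subgroup.mem_bot, commutatorElement_eq_one_iff_mul_comm] at h4
      exact h4.symm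
    · intro L' hL' hle
      have h3 : L' ≤ L := hu.uniq L' hL'.1 (le_sup_left.trans hle)
        (((H2.thompsonSubgroupOf_le 2 T).trans le_sup_right).trans hle)
      exact (hL'.2 L hu.loc h3).symm
  refine ⟨K₁, K₂, ?_, hu₁.comp, hu₂.comp, ?_, ?_⟩
  · rintro rfl
    exact hK₂L hu₁.KL
  · by_contra hne
    apply hK₂L
    have h3 : (K₁ ⊔ T) ⊔ (K₂ ⊔ T) ≤ Subgroup.normalizer (Cfsg.pCoreOf 2 ((K₁ ⊔ T) ⊔ (K₂ ⊔ T)) : Set G) :=
      H18.le_normalizer_pCoreOf _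
    have h4 := hu₁.uniq _ ⟨_, H18.isPGroup_pCoreOf _, hne, rfl⟩ ((le_sup_left.trans le_sup_left).trans h3)
      ((((H2.thompsonSubgroupOf_le 2 T).trans le_sup_right).trans le_sup_left).trans h3)
    exact ((le_sup_left.trans le_sup_right).trans h3).trans h4
  · intro P hP
    simp only [List.mem_cons, List.not_mem_nil, or_false] at hP
    rcases hP with rfl | rfl
    · exact hall K₁ L₁ hu₁
    · exact hall K₂ L₂ hu₂

end Cfsg.Agent.S2953
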