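import Cfsg.Statements.S2955
import Cfsg.Agent.H19.Sylow2
import Cfsg.Agent.H1.Basic

set_option autoImplicit false
set_option linter.style.haveILetI false
open Cfsg

namespace Cfsg.Agent.S2955


open scoped Pointwise

theorem sylowMembers_conj {G : Type*} [Group G] [Finite G] {p : ℕ} [Fact p.Prime] {𝓕 : Set (Subgroup G)}
    (h𝓕 : Cfsg.IsNormalSet 𝓕) {S X : Subgroup G} (g : G) (hX : X ∈ Cfsg.sylowMembers p 𝓕 S) :
    MulAut.conj g • X ∈ Cfsg.sylowMembers p 𝓕 (MulAut.conj g • S) := by
  obtain ⟨hXF, hP⟩ := hX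
  refine ⟨?_, ?_⟩
  · have := h𝓕 _ hXF g⁻¹
    unfold Cfsg.subgroupConjRight at this
    rw [inv_inv] at this
    exact this
  · have h1 : Cfsg.Agent.H23.IsSylowOf p (S ⊓ X) X := hP
    have h2 := Cfsg.Agent.H19.IsSylowOf.conj_both h1 g
    rw [Cfsg.Agent.H1.conj_smul_inf] at h2
    exact h2
/-- Let p be a prime dividing the order of the finite group G and 𝓕 a conjugation-closed family of subgroups that controls Sylow p-intersections in G. Suppose the Sylow p-subgroups of G are chain-connected: any two of them are joined by a chain of Sylow p-subgroups, consecutive ones distinct with nontrivial intersection, all containing the intersection of the two ends (equivalently, the graph on the Sylow p-subgroups whose edges are the distinct pairs meeting nontrivially is connected). Then for every Sylow p-subgroup S, G is generated by N_G(S) together with the members of 𝓕 that meet S in a Sylow p-subgroup of themselves. -/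
theorem result {G : Type*} [Group G] [Finite G] (p : ℕ) [Fact p.Prime] (hdiv : p ∣ Nat.card G)
    (𝓕 : Set (Subgroup G)) (h𝓕 : Cfsg.IsNormalSet 𝓕) (hc : Cfsg.ControlsSylowIntersections p 𝓕)
    (hconn : Cfsg.IsSylowChainConnected p G) (S : Sylow p G) :
    (⨆ X ∈ Cfsg.sylowMembers p 𝓕 (S : Subgroup G), X) ⊔ Subgroup.normalizer ((S : Subgroup G) : Set G) = ⊤ := by

  classical
  set H := (⨆ X ∈ Cfsg.sylowMembers p 𝓕 (S : Subgroup G), X) ⊔ Subgroup.normalizer ((S : Subgroup G) : Set G) with hH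
  have hXH : ∀ X ∈ Cfsg.sylowMembers p 𝓕 (S : Subgroup G), X ≤ H := fun X hX =>
    (le_iSup₂ (f := fun (X : Subgroup G) (_ : X ∈ Cfsg.sylowMembers p 𝓕 (S : Subgroup G)) => X) X hX).trans le_sup_left
  -- one step
  have step : ∀ (A B : Sylow p G) (X : Subgroup G) (x : G), (∃ h ∈ H, A = h • S) →
      X ∈ Cfsg.sylowMembers p 𝓕 (A : Subgroup G) → x ∈ X →
      Cfsg.subgroupConjRight x (B : Subgroup G) = (A : Subgroup G) → ∃ h ∈ H, B = h • S := by
    rintro A B X x ⟨h, hh, rfl⟩ hX hx hAB
    have h1 := sylowMembers_conj h𝓕 h⁻¹ hX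
    have h2 : MulAut.conj h⁻¹ • ((h • S : Sylow p G) : Subgroup G) = (S : Subgroup G) := by
      have : ((h • S : Sylow p G) : Subgroup G) = MulAut.conj h • (S : Subgroup G) := rfl
      rw [this, Cfsg.Agent.H1.conj_smul_smul, inv_mul_cancel, Cfsg.Agent.H1.conj_one_smul]
    rw [h2] at h1
    have h3 := hXH _ h1
    have hxH : x ∈ H := by
      have h4 : h⁻¹ * x * h ∈ MulAut.conj h⁻¹ • X := by
        rw [Cfsg.Agent.H1.mem_conj_smul]
        simpa [mul_assoc] using hx
      have h5 := H.mul_mem (H.mul_mem hh (h3 h4)) (H.inv_mem hh)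
      simpa [mul_assoc] using h5
    refine ⟨x * h, H.mul_mem hxH hh, ?_⟩
    rw [mul_smul]
    apply Sylow.ext
    have h6 : ((x • (h • S) : Sylow p G) : Subgroup G) = MulAut.conj x • ((h • S : Sylow p G) : Subgroup G) := rfl
    rw [h6, ← hAB]
    show (B : Subgroup G) = MulAut.conj x • (MulAut.conj x⁻¹ • (B : Subgroup G))
    rw [Cfsg.Agent.H1.conj_smul_smul, mul_inv_cancel, Cfsg.Agent.H1.conj_one_smul]
  have step2 : ∀ (A B : Sylow p G), (∃ h ∈ H, A = h • S) → A ≠ B → (A : Subgroup G) ⊓ (B : Subgroup G) ≠ ⊥ →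
      ∃ h ∈ H, B = h • S := by
    intro A B hA hAB hAB1
    obtain ⟨n, c, X, x, hc0, hcl, hc'⟩ := hc A B hAB hAB1
    have : ∀ i : Fin (n + 1), ∃ h ∈ H, c i = h • S := by
      intro i
      induction i using Fin.induction with
      | zero => rw [hc0]; exact hA
      | succ i ih => exact step _ _ _ _ ih (hc' i).1 (hc' i).2.2.1 (hc' i).2.2.2.1
    rw [← hcl]
    exact this _
  rw [eq_top_iff]
  intro g _
  obtain ⟨n, c, hc0, hcl, -, hc'⟩ := hconn S (g • S)
  have key : ∀ i : Fin (n + 1), ∃ h ∈ H, c i = h • S := by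
    intro i
    induction i using Fin.induction with
    | zero => rw [hc0]; exact ⟨1, H.one_mem, (one_smul _ _).symm⟩
    | succ i ih => exact step2 _ _ ih (hc' i).1 (hc' i).2
  obtain ⟨h, hh, hgS⟩ := key (Fin.last n)
  rw [hcl] at hgS
  have h1 : h⁻¹ * g ∈ Subgroup.normalizer ((S : Subgroup G) : Set G) := by
    refine Sylow.smul_eq_iff_mem_normalizer.mp ?_
    rw [mul_smul, hgS, inv_smul_smul]
  have h2 : h⁻¹ * g ∈ H := (le_sup_right : Subgroup.normalizer ((S : Subgroup G) : Set G) ≤ H) h1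
  have : g = h * (h⁻¹ * g) := by group
  rw [this]
  exact H.mul_mem hh h2


end Cfsg.Agent.S2955
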