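import Cfsg.Statements.S2958
import Cfsg.Agent.H1.Basic

set_option autoImplicit false
open Cfsg

namespace Cfsg.Agent.S2958

open Subgroup
open scoped Pointwise

/-- Let X, A, B be subgroups of a group G such that G is generated by the conjugates of X and every conjugate of X is contained in A or in B. Then A = G or B = G. -/
theorem result {G : Type*} [Group G] (X A B : Subgroup G) (hgen : (⨆ g : G, X.map (MulAut.conj g).toMonoidHom) = ⊤) (hcover : ∀ g : G, X.map (MulAut.conj g).toMonoidHom ≤ A ∨ X.map (MulAut.conj g).toMonoidHom ≤ B) : A = ⊤ ∨ B = ⊤ := by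
  have hgen' : (⨆ g : G, MulAut.conj g • X) = ⊤ := hgen
  have hcover' : ∀ g : G, MulAut.conj g • X ≤ A ∨ MulAut.conj g • X ≤ B := hcover
  by_cases hall : ∀ g : G, MulAut.conj g • X ≤ A
  · left
    rw [eq_top_iff, ← hgen']
    exact iSup_le hall
  · right
    push Not at hall
    obtain ⟨g₀, hg₀⟩ := hall
    set E : Subgroup G := ⨆ g : {g : G // ¬ MulAut.conj g • X ≤ A}, MulAut.conj (g : G) • X with hE
    have hle : ∀ g : G, ¬ MulAut.conj g • X ≤ A → MulAut.conj g • X ≤ E := by
      intro g hg
      exact le_iSup (fun g : {g : G // ¬ MulAut.conj g • X ≤ A} => MulAut.conj (g : G) • X) ⟨g, hg⟩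
    have hEB : E ≤ B := by
      refine iSup_le ?_
      rintro ⟨g, hg⟩
      exact (hcover' g).resolve_left hg
    have hAE : ∀ a ∈ A, MulAut.conj a • E ≤ E := by
      intro a ha
      have : MulAut.conj a • E = E.map (MulAut.conj a).toMonoidHom := rfl
      rw [this, hE, Subgroup.map_iSup]
      refine iSup_le ?_
      rintro ⟨g, hg⟩
      have h1 : (MulAut.conj g • X).map (MulAut.conj a).toMonoidHom = MulAut.conj (a * g) • X :=
        H1.conj_smul_smul a g X
      simp only
      rw [h1]
      refine hle _ ?_
      intro hcon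
      apply hg
      rw [← H1.conj_smul_smul] at hcon
      have h2 : MulAut.conj a • A = A := H1.conj_smul_self_of_mem ha
      rw [← h2] at hcon
      exact H1.conj_smul_le_conj_smul_iff.mp hcon
    have hAN : A ≤ normalizer (E : Set G) := by
      intro a ha
      rw [H1.mem_normalizer_iff_conj_smul]
      refine le_antisymm (hAE a ha) ?_
      have h3 := hAE a⁻¹ (A.inv_mem ha)
      rw [map_inv] at h3
      have h4 := (Subgroup.pointwise_smul_le_pointwise_smul_iff (a := MulAut.conj a)).mpr h3
      rwa [smul_inv_smul] at h4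
    have hN : normalizer (E : Set G) = ⊤ := by
      rw [eq_top_iff, ← hgen']
      refine iSup_le fun g => ?_
      by_cases hg : MulAut.conj g • X ≤ A
      · exact hg.trans hAN
      · exact (hle g hg).trans le_normalizer
    have hnorm : E.Normal := normalizer_eq_top_iff.mp hN
    rw [eq_top_iff, ← hgen']
    refine iSup_le fun g => ?_
    refine le_trans ?_ hEB
    have h5 := hle g₀ hg₀
    have h6 : MulAut.conj (g * g₀⁻¹) • (MulAut.conj g₀ • X) ≤ MulAut.conj (g * g₀⁻¹) • E :=
      H1.conj_smul_le_conj_smul_iff.mpr h5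
    rw [H1.conj_smul_smul, H1.conj_smul_normal (N := E), inv_mul_cancel_right] at h6
    exact h6

end Cfsg.Agent.S2958
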