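import Cfsg.Statements.S2962
import Cfsg.Agent.H4.ZStar2
import Cfsg.Agent.H23.Coprime
import Cfsg.Agent.H1.Coprime2
import Cfsg.Agent.H1.Cores
import Cfsg.Agent.FT

set_option autoImplicit false
set_option linter.all false
open Cfsg

open Subgroup
open scoped commutatorElement

namespace Cfsg.Agent.S2962

open Cfsg.Agent

/-- Let G be a finite group with G = QN, where N is a normal subgroup of G and Q is a non-abelian 2-subgroup with Q ∩ N = 1. Suppose that some nontrivial element t of Z(Q) ∩ [Q, Q] satisfies C_N(Q) = C_N(t). Then [N, Q] is solvable of odd order. -/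
theorem result {G : Type*} [Group G] [Finite G] (N Q : Subgroup G) [N.Normal] (hG : Q ⊔ N = ⊤) (hQ : IsPGroup 2 ↥Q) (hQna : ¬ IsMulCommutative ↥Q) (hdisj : Q ⊓ N = ⊥) (t : G) (ht1 : t ≠ 1) (htZ : t ∈ Q ⊓ Subgroup.centralizer (Q : Set G)) (htQ : t ∈ ⁅Q, Q⁆) (hC : N ⊓ Subgroup.centralizer (Q : Set G) = N ⊓ Subgroup.centralizer ({t} : Set G)) : Group.IsSolvable ↥⁅N, Q⁆ ∧ Odd (Nat.card ↥⁅N, Q⁆) := by
  classical
  have htQm : t ∈ Q := htZ.1
  have htc : ∀ q ∈ Q, q * t = t * q := fun q hq => (Subgroup.mem_centralizer_iff.mp htZ.2 q hq)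
  have hNn : N.Normal := inferInstance
  have hcj : ∀ g : G, ∀ x ∈ N, g * x * g⁻¹ ∈ N := fun g x hx => hNn.conj_mem x hx g
  have hcj' : ∀ g : G, ∀ x ∈ N, g⁻¹ * x * g ∈ N := fun g x hx => by
    have := hNn.conj_mem x hx g⁻¹; rwa [inv_inv] at this
  have hCQ : ∀ x ∈ N, x * t = t * x → ∀ q ∈ Q, x * q = q * x := by
    intro x hx hxt q hq
    have : x ∈ N ⊓ Subgroup.centralizer ({t} : Set G) :=
      ⟨hx, Subgroup.mem_centralizer_iff.mpr (by rintro _ rfl; exact hxt.symm)⟩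
    rw [← hC] at this
    exact (Subgroup.mem_centralizer_iff.mp this.2 q hq).symm
  -- isolation
  have hiso : ∀ n ∈ N, (n * t * n⁻¹) * t = t * (n * t * n⁻¹) → n * t * n⁻¹ = t := by
    intro n hn hcomm
    set m := t⁻¹ * (n * t * n⁻¹) with hm
    have hfN : ∀ q : G, q⁻¹ * (n * q * n⁻¹) ∈ N := by
      intro q
      have h1 : q⁻¹ * (n * q * n⁻¹) = (q⁻¹ * n * q) * n⁻¹ := by group
      rw [h1]
      exact N.mul_mem (hcj' q n hn) (N.inv_mem hn)
    have hmN : m ∈ N := hfN t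
    have hmt : Commute m t := by
      have h1 : Commute (n * t * n⁻¹) t := hcomm
      exact ((Commute.refl t).inv_left).mul_left h1
    have hntm : n * t * n⁻¹ = t * m := by rw [hm]; group
    -- `l ∈ N` commuting with `t` and `m` commutes with `Q` and `nQn⁻¹`
    have hL : ∀ l ∈ N, Commute l t → Commute l m → ∀ q ∈ Q, Commute l q ∧ Commute l (n * q * n⁻¹) := by
      intro l hl h1 h2 q hq
      refine ⟨hCQ l hl h1 q hq, ?_⟩
      have h3 : Commute l (n * t * n⁻¹) := by rw [hntm]; exact h1.mul_right h2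
      have h4 : (n⁻¹ * l * n) * t = t * (n⁻¹ * l * n) := by
        have h5 := h3.eq
        calc (n⁻¹ * l * n) * t = n⁻¹ * (l * (n * t * n⁻¹)) * n := by group
          _ = n⁻¹ * ((n * t * n⁻¹) * l) * n := by rw [h5]
          _ = t * (n⁻¹ * l * n) := by group
      have h6 := hCQ _ (hcj' n l hl) h4 q hq
      show l * (n * q * n⁻¹) = (n * q * n⁻¹) * l
      calc l * (n * q * n⁻¹) = n * ((n⁻¹ * l * n) * q) * n⁻¹ := by group
        _ = n * (q * (n⁻¹ * l * n)) * n⁻¹ := by rw [h6]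
        _ = (n * q * n⁻¹) * l := by group
    have hmQ := hL m hmN hmt (Commute.refl m)
    -- `f q` lies in `L`
    have hfL : ∀ q ∈ Q, Commute (q⁻¹ * (n * q * n⁻¹)) t ∧ Commute (q⁻¹ * (n * q * n⁻¹)) m := by
      intro q hq
      have h1 : Commute q t := htc q hq
      have h2 : Commute q m := ((hmQ q hq).1).symm
      have h3 : Commute (n * q * n⁻¹) m := ((hmQ q hq).2).symm
      have h4 : Commute (n * q * n⁻¹) (n * t * n⁻¹) := by
        show (n * q * n⁻¹) * (n * t * n⁻¹) = (n * t * n⁻¹) * (n * q * n⁻¹)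
        calc (n * q * n⁻¹) * (n * t * n⁻¹) = n * (q * t) * n⁻¹ := by group
          _ = n * (t * q) * n⁻¹ := by rw [htc q hq]
          _ = (n * t * n⁻¹) * (n * q * n⁻¹) := by group
      have h5 : Commute (n * q * n⁻¹) t := by
        have h6 : t = (n * t * n⁻¹) * m⁻¹ := by rw [hntm]; group
        have h7 : Commute (n * q * n⁻¹) ((n * t * n⁻¹) * m⁻¹) := h4.mul_right h3.inv_right
        rwa [← h6] at h7
      exact ⟨h1.inv_left.mul_left h5, h2.inv_left.mul_left h3⟩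
    have hff : ∀ q₁ ∈ Q, ∀ q₂ ∈ Q, Commute (q₁⁻¹ * (n * q₁ * n⁻¹)) q₂ ∧
        Commute (q₁⁻¹ * (n * q₁ * n⁻¹)) (q₂⁻¹ * (n * q₂ * n⁻¹)) := by
      intro q₁ h₁ q₂ h₂
      have h3 := hL _ (hfN q₁) (hfL q₁ h₁).1 (hfL q₁ h₁).2 q₂ h₂
      exact ⟨h3.1, h3.1.inv_right.mul_right h3.2⟩
    let F : Q →* G :=
      { toFun := fun q => (q : G)⁻¹ * (n * q * n⁻¹)
        map_one' := by simp
        map_mul' := by
          intro a b
          have h1 := (hff a a.2 (b : G)⁻¹ (Q.inv_mem b.2)).1.eq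
          simp only [Subgroup.coe_mul]
          calc ((a : G) * b)⁻¹ * (n * (a * b) * n⁻¹)
              = (b : G)⁻¹ * ((a : G)⁻¹ * (n * a * n⁻¹)) * (n * b * n⁻¹) := by group
            _ = ((a : G)⁻¹ * (n * a * n⁻¹)) * (b : G)⁻¹ * (n * b * n⁻¹) := by rw [h1]
            _ = ((a : G)⁻¹ * (n * a * n⁻¹)) * ((b : G)⁻¹ * (n * b * n⁻¹)) := by group }
    have hle : ⁅Q, Q⁆ ≤ F.ker.map Q.subtype := by
      rw [Subgroup.commutator_le]
      intro a ha b hb
      refine ⟨⁅(⟨a, ha⟩ : Q), ⟨b, hb⟩⁆, ?_, rfl⟩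
      show F _ = 1
      rw [map_commutatorElement, commutatorElement_eq_one_iff_commute]
      exact (hff a ha b hb).2
    obtain ⟨t', ht', htt⟩ := hle htQ
    have h1 : F t' = 1 := ht'
    have h2 : (t' : G)⁻¹ * (n * t' * n⁻¹) = 1 := h1
    have h3 : (t' : G) = t := htt
    rw [h3, inv_mul_eq_one] at h2
    exact h2.symm
  have hfac : ∀ g : G, ∃ n ∈ N, ∃ q ∈ Q, g = n * q := by
    intro g
    obtain ⟨n, hn, q, hq, h⟩ := H1.exists_mul_of_sup_eq_top (N := N) (H := Q) (by rw [sup_comm]; exact hG) g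
    exact ⟨n, hn, q, hq, h.symm⟩
  have hiso' : ∀ g : G, (g * t * g⁻¹) * t = t * (g * t * g⁻¹) → g * t * g⁻¹ = t := by
    intro g hg
    obtain ⟨n, hn, q, hq, rfl⟩ := hfac g
    have h1 : (n * q) * t * (n * q)⁻¹ = n * t * n⁻¹ := by
      calc (n * q) * t * (n * q)⁻¹ = n * (q * t) * q⁻¹ * n⁻¹ := by group
        _ = n * (t * q) * q⁻¹ * n⁻¹ := by rw [htc q hq]
        _ = n * t * n⁻¹ := by group
    rw [h1] at hg ⊢
    exact hiso n hn hg
  -- Sylow 2-subgroup
  obtain ⟨S, hS⟩ := hQ.exists_le_sylow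
  have htS : t ∈ (S : Subgroup G) := hS htQm
  have htcS : ∀ s ∈ (S : Subgroup G), s * t * s⁻¹ = t := by
    by_contra hcon
    push Not at hcon
    -- `C_S(t) < S`
    have hlt : (S : Subgroup G) ⊓ centralizer ({t} : Set G) < S := by
      refine lt_of_le_of_ne inf_le_left fun h => ?_
      obtain ⟨s, hs, hne⟩ := hcon
      apply hne
      rw [← h] at hs
      have := Subgroup.mem_centralizer_iff.mp hs.2 t rfl
      rw [← this]; group
    haveI : Group.IsNilpotent (S : Subgroup G) := S.isPGroup'.isNilpotent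
    have hlt' := H1.lt_normalizer_inf_of_nilpotent (this) hlt
    obtain ⟨s, hs, hs'⟩ := SetLike.exists_of_lt hlt'
    apply hs'
    have hsS : s ∈ (S : Subgroup G) := hs.2
    have hsn : s ∈ normalizer (((S : Subgroup G) ⊓ centralizer ({t} : Set G) : Subgroup G) : Set G) := hs.1
    have h1 : s * t * s⁻¹ ∈ (S : Subgroup G) ⊓ centralizer ({t} : Set G) :=
      (Subgroup.mem_normalizer_iff.mp hsn t).mp ⟨htS, Subgroup.mem_centralizer_iff.mpr (by rintro _ rfl; rfl)⟩
    have h2 := Subgroup.mem_centralizer_iff.mp h1.2 t rfl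
    have h3 := hiso' s h2.symm
    refine ⟨hsS, Subgroup.mem_centralizer_iff.mpr ?_⟩
    intro y hy
    rw [Set.mem_singleton_iff] at hy
    rw [hy]
    calc t * s = (s * t * s⁻¹) * s := by rw [h3]
      _ = s * t := by group
  have hz : ∀ g : G, t * g * t⁻¹ * g⁻¹ ∈ oddCore G := by
    intro g
    refine H4.zstar_elt S htS ?_ g
    intro g hg
    refine hiso' g ?_
    have := htcS _ hg
    calc (g * t * g⁻¹) * t = ((g * t * g⁻¹) * t * (g * t * g⁻¹)⁻¹) * (g * t * g⁻¹) := by group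
      _ = t * (g * t * g⁻¹) := by rw [this]
  haveI hOn : (oddCore G).Normal := H1.pPrimeCore_normal 2 G
  have hOodd : Odd (Nat.card (oddCore G)) := H4.oddCore_odd G
  set O := oddCore G ⊓ N with hO
  haveI hOn' : O.Normal := inferInstance
  have hOodd' : Odd (Nat.card O) := by
    have h1 : Nat.card O ∣ Nat.card (oddCore G) := H1.card_dvd_of_le' inf_le_left
    exact Odd.of_dvd_nat hOodd h1
  have hcopt : (Nat.card (zpowers t)).Coprime (Nat.card O) := by
    have h1 : IsPGroup 2 (zpowers t) := hQ.to_le (by rwa [Subgroup.zpowers_le])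
    obtain ⟨k, hk⟩ := IsPGroup.iff_card.mp h1
    rw [hk]
    exact Nat.Coprime.pow_left k ((Nat.coprime_two_left).mpr hOodd')
  have hcom : ⁅N, zpowers t⁆ ≤ O := by
    rw [Subgroup.commutator_le]
    rintro n hn _ ⟨k, rfl⟩
    have h1 : Commute (QuotientGroup.mk' O n) (QuotientGroup.mk' O t) := by
      rw [← commutatorElement_eq_one_iff_commute, ← map_commutatorElement]
      refine (QuotientGroup.eq_one_iff _).mpr ?_
      refine ⟨?_, ?_⟩
      · have h2 := (oddCore G).inv_mem (hz n)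
        have h3 : ⁅n, t⁆ = (t * n * t⁻¹ * n⁻¹)⁻¹ := by rw [commutatorElement_def]; group
        rw [h3]; exact h2
      · have h3 : ⁅n, t⁆ = n * (t * n⁻¹ * t⁻¹) := by rw [commutatorElement_def]; group
        rw [h3]; exact N.mul_mem hn (hcj t _ (N.inv_mem hn))
    have h2 : Commute (QuotientGroup.mk' O n) (QuotientGroup.mk' O (t ^ k)) := by
      rw [map_zpow]; exact h1.zpow_right k
    rw [← commutatorElement_eq_one_iff_commute, ← map_commutatorElement] at h2
    exact (QuotientGroup.eq_one_iff _).mp h2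
  have hfinal : ⁅N, Q⁆ ≤ O := by
    rw [Subgroup.commutator_le]
    intro n hn q hq
    obtain ⟨c, hc, o, ho, rfl⟩ := H23.exists_centralizer_mul (A := zpowers t) (G := N) (N := O)
      (by rw [Subgroup.normalizer_eq_top]; exact le_top) hcopt
      (Or.inl (H4.zpowers_solvable t)) inf_le_right hcom hn
    have hct : c * t = t * c := (Subgroup.mem_centralizer_iff.mp hc.2 t (mem_zpowers t)).symm
    have hcq := hCQ c hc.1 hct q hq
    have h1 : ⁅c * o, q⁆ = c * (o * (q * o⁻¹ * q⁻¹)) * c⁻¹ := by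
      have h2 : c⁻¹ * q⁻¹ = q⁻¹ * c⁻¹ := by rw [← mul_inv_rev, ← mul_inv_rev, hcq]
      rw [commutatorElement_def, mul_inv_rev]
      calc c * o * q * (o⁻¹ * c⁻¹) * q⁻¹ = c * o * q * o⁻¹ * (c⁻¹ * q⁻¹) := by group
        _ = c * o * q * o⁻¹ * (q⁻¹ * c⁻¹) := by rw [h2]
        _ = c * (o * (q * o⁻¹ * q⁻¹)) * c⁻¹ := by group
    rw [h1]
    exact hOn'.conj_mem _ (O.mul_mem ho (hOn'.conj_mem _ (O.inv_mem ho) q)) c
  have hodd : Odd (Nat.card (⁅N, Q⁆ : Subgroup G)) := Odd.of_dvd_nat hOodd' (H1.card_dvd_of_le' hfinal)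
  exact ⟨FT.odd_order hodd, hodd⟩


end Cfsg.Agent.S2962
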