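import Cfsg.Statements.S2963

set_option autoImplicit false
set_option linter.style.haveILetI false
open Cfsg

namespace Cfsg.Agent.S2963

open scoped Pointwise

open Equiv in
theorem eq_top_of_swaps {n : ℕ} (M : Subgroup (Perm (Fin n))) (a c : Fin n) (hac : a ≠ c)
    (hA : ∀ g : Perm (Fin n), g a = a → g ∈ M) (h : swap a c ∈ M) : M = ⊤ := by
  rw [eq_top_iff, ← Equiv.Perm.closure_isSwap, Subgroup.closure_le]
  have key : ∀ y, y ≠ a → swap a y ∈ M := by
    intro y hy
    by_cases hyc : y = c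
    · rw [hyc]; exact h
    · have h1 : swap c y ∈ M := hA _ (swap_apply_of_ne_of_ne hac hy.symm)
      have h2 : swap c y * swap a c * swap c y = swap a y := by
        rw [swap_mul_swap_mul_swap hac hy.symm, Equiv.swap_comm]
      rw [← h2]
      exact M.mul_mem (M.mul_mem h1 h) h1
  rintro _ ⟨x, y, hxy, rfl⟩
  by_cases hx : x = a
  · subst hx; exact key y hxy.symm
  · by_cases hy : y = a
    · subst hy; rw [Equiv.swap_comm]; exact key x hx
    · exact hA _ (swap_apply_of_ne_of_ne (Ne.symm hx) (Ne.symm hy))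
/-- Let n be odd. If the symmetric group of degree n is a minimal parabolic group for the prime 2, that is, a Sylow 2-subgroup is not normal and lies in exactly one maximal subgroup, then n = 2^m + 1 for some natural number m. -/
theorem result (n : ℕ) (hn : Odd n) (h : Cfsg.IsPMinimal 2 (Equiv.Perm (Fin n))) : ∃ m : ℕ, n = 2 ^ m + 1 := by

  classical
  haveI h2 : Fact (Nat.Prime 2) := ⟨Nat.prime_two⟩
  obtain ⟨S⟩ : Nonempty (Sylow 2 (Equiv.Perm (Fin n))) := inferInstance
  obtain ⟨hSn, M, ⟨hM, hSM⟩, huniq⟩ := h S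
  -- a fixed point
  have hmod := (S.isPGroup').card_modEq_card_fixedPoints (Fin n)
  obtain ⟨a, ha⟩ : (MulAction.fixedPoints (S : Subgroup (Equiv.Perm (Fin n))) (Fin n)).Nonempty := by
    rw [Set.nonempty_iff_ne_empty]
    intro he
    rw [he] at hmod
    rw [Nat.card_eq_fintype_card, Fintype.card_fin] at hmod
    have h3 : n ≡ 0 [MOD 2] := by simpa using hmod
    have h4 : 2 ∣ n := (Nat.modEq_zero_iff_dvd).mp h3
    exact (Nat.not_even_iff_odd.mpr hn) (even_iff_two_dvd.mpr h4)
  have haS : ∀ s ∈ (S : Subgroup (Equiv.Perm (Fin n))), s a = a := fun s hs => ha ⟨s, hs⟩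
  by_cases hb : ∃ b : Fin n, b ≠ a
  swap
  · exfalso
    push Not at hb
    haveI : Subsingleton (Fin n) := ⟨fun x y => (hb x).trans (hb y).symm⟩
    apply hSn
    have : (S : Subgroup (Equiv.Perm (Fin n))) = ⊥ := by
      rw [eq_bot_iff]
      intro s _
      exact Subgroup.mem_bot.mpr (Subsingleton.elim _ _)
    rw [this]
    infer_instance
  obtain ⟨b, hb⟩ := hb
  set Δ := MulAction.orbit (S : Subgroup (Equiv.Perm (Fin n))) b with hΔ
  have haΔ : a ∉ Δ := by
    rintro ⟨s, hs⟩
    have h3 : (s : Equiv.Perm (Fin n)) b = a := hs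
    have h4 := haS s s.2
    exact hb ((s : Equiv.Perm (Fin n)).injective (h3.trans h4.symm))
  by_cases hc : ∃ c : Fin n, c ≠ a ∧ c ∉ Δ
  · exfalso
    obtain ⟨c, hca, hcΔ⟩ := hc
    set A := MulAction.stabilizer (Equiv.Perm (Fin n)) a with hA
    set B := MulAction.stabilizer (Equiv.Perm (Fin n)) Δ with hB
    have hbΔ : b ∈ Δ := MulAction.mem_orbit_self b
    have hSA : (S : Subgroup (Equiv.Perm (Fin n))) ≤ A := fun s hs => haS s hs
    have hSB : (S : Subgroup (Equiv.Perm (Fin n))) ≤ B := by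
      intro s hs
      rw [hB, MulAction.mem_stabilizer_iff]
      have := MulAction.smul_orbit (⟨s, hs⟩ : (S : Subgroup (Equiv.Perm (Fin n)))) b
      exact this
    have hAt : A ≠ ⊤ := by
      intro h
      have h3 : Equiv.swap a b ∈ A := by rw [h]; exact Subgroup.mem_top _
      have h4 : Equiv.swap a b a = a := h3
      rw [Equiv.swap_apply_left] at h4
      exact hb h4
    have hBt : B ≠ ⊤ := by
      intro h
      have h3 : Equiv.swap b c ∈ B := by rw [h]; exact Subgroup.mem_top _
      have h4 : Equiv.swap b c • b ∈ Equiv.swap b c • Δ := Set.smul_mem_smul_set hbΔ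
      rw [MulAction.mem_stabilizer_iff.mp h3] at h4
      apply hcΔ
      have h5 : Equiv.swap b c • b = c := Equiv.swap_apply_left b c
      rwa [h5] at h4
    obtain ⟨MA, hMA, hAM⟩ := (eq_top_or_exists_le_coatom A).resolve_left hAt
    obtain ⟨MB, hMB, hBM⟩ := (eq_top_or_exists_le_coatom B).resolve_left hBt
    have e1 := huniq MA ⟨hMA, hSA.trans hAM⟩
    have e2 := huniq MB ⟨hMB, hSB.trans hBM⟩
    rw [e1] at hAM
    rw [e2] at hBM
    apply hM.1
    refine eq_top_of_swaps M a c (Ne.symm hca) (fun g hg => hAM hg) (hBM ?_)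
    rw [hB, MulAction.mem_stabilizer_iff]
    ext x
    rw [Set.mem_smul_set_iff_inv_smul_mem]
    have h6 : (Equiv.swap a c)⁻¹ • x = Equiv.swap a c x := by rw [Equiv.swap_inv]; rfl
    rw [h6]
    by_cases hxa : x = a
    · subst hxa
      rw [Equiv.swap_apply_left]
      exact ⟨fun h => absurd h hcΔ, fun h => absurd h haΔ⟩
    · by_cases hxc : x = c
      · subst hxc
        rw [Equiv.swap_apply_right]
        exact ⟨fun h => absurd h haΔ, fun h => absurd h hcΔ⟩
      · rw [Equiv.swap_apply_of_ne_of_ne hxa hxc]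
  · push Not at hc
    have h3 : Δ = {a}ᶜ := by
      ext x
      rw [Set.mem_compl_iff, Set.mem_singleton_iff]
      exact ⟨fun h hx => haΔ (hx ▸ h), fun h => hc x h⟩
    obtain ⟨m, hm⟩ := (S.isPGroup').card_orbit b
    refine ⟨m, ?_⟩
    have h4 : Nat.card Δ = 2 ^ m := hm
    rw [h3] at h4
    have h5 : Nat.card ({a}ᶜ : Set (Fin n)) = n - 1 := by
      rw [Nat.card_eq_fintype_card, Fintype.card_compl_set]
      simp
    have h6 : 0 < n := Fin.pos a
    omega


end Cfsg.Agent.S2963
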