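import Cfsg.Statements.S2998
import Cfsg.Agent.H19.Sylow2
import Cfsg.Agent.H2.Basic

set_option autoImplicit false
set_option linter.style.haveILetI false
open Cfsg

namespace Cfsg.Agent.S2998


open scoped Pointwise
/-- Let G be a finite group, p a prime, P a Sylow p-subgroup of G and x ∈ P an element such that N_G(R) ≤ C_G(x) for every nontrivial subgroup R of P. Then P ≤ C_G(x); every G-conjugate of x lying in P equals x (so g ∈ C_G(x) whenever g x g⁻¹ ∈ P); and for every normal subgroup N of G, the image of x in G ⧸ N has the same property with respect to the image of P: the normalizer of every nontrivial subgroup of the image of P centralizes the image of x. -/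
theorem result {G : Type*} [Group G] [Finite G] {p : ℕ} [Fact p.Prime] (P : Sylow p G) (x : G) (hxP : x ∈ (P : Subgroup G)) (hlc : ∀ R : Subgroup G, R ≤ (P : Subgroup G) → R ≠ ⊥ → Subgroup.normalizer (R : Set G) ≤ Subgroup.centralizer ({x} : Set G)) : (P : Subgroup G) ≤ Subgroup.centralizer ({x} : Set G) ∧ (∀ g : G, g * x * g⁻¹ ∈ (P : Subgroup G) → g * x * g⁻¹ = x) ∧ ∀ (N : Subgroup G) [N.Normal], ∀ R : Subgroup (G ⧸ N), R ≤ (P : Subgroup G).map (QuotientGroup.mk' N) → R ≠ ⊥ → Subgroup.normalizer (R : Set (G ⧸ N)) ≤ Subgroup.centralizer ({(QuotientGroup.mk x : G ⧸ N)} : Set (G ⧸ N)) := by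

  have hPC : (P : Subgroup G) ≤ Subgroup.centralizer ({x} : Set G) := by
    by_cases hP1 : (P : Subgroup G) = ⊥
    · rw [hP1]; exact bot_le
    · exact Subgroup.le_normalizer.trans (hlc _ le_rfl hP1)
  refine ⟨hPC, ?_, ?_⟩
  · intro g hg
    by_cases hx1 : x = 1
    · rw [hx1]; simp
    have hy1 : g * x * g⁻¹ ≠ 1 := by
      intro h
      apply hx1
      have := congrArg (fun z => g⁻¹ * z * g) h
      simpa [mul_assoc] using this
    have hP1 : (P : Subgroup G) ≠ ⊥ := by
      intro h
      rw [h] at hxP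
      exact hx1 (Subgroup.mem_bot.mp hxP)
    set y := g * x * g⁻¹ with hy
    have h1 := hlc (Subgroup.zpowers y) (Subgroup.zpowers_le.mpr hg) (fun h => hy1 (Subgroup.zpowers_eq_bot.mp h))
    have h2 : Subgroup.centralizer ({y} : Set G) ≤ Subgroup.centralizer ({x} : Set G) := by
      refine le_trans ?_ h1
      intro c hc
      rw [Subgroup.mem_centralizer_singleton_iff] at hc
      apply Subgroup.centralizer_le_normalizer
      rw [Subgroup.mem_centralizer_iff]
      rintro _ ⟨k, rfl⟩
      exact (Commute.zpow_left (hc : Commute c y).symm k).eq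
    have hgP : ((g • P : Sylow p G) : Subgroup G) ≤ Subgroup.centralizer ({x} : Set G) := by
      refine le_trans ?_ h2
      rintro _ ⟨u, hu, rfl⟩
      rw [Subgroup.mem_centralizer_singleton_iff]
      have h3 := Subgroup.mem_centralizer_singleton_iff.mp (hPC hu)
      show g * u * g⁻¹ * y = y * (g * u * g⁻¹)
      rw [hy]
      calc g * u * g⁻¹ * (g * x * g⁻¹) = g * (u * x) * g⁻¹ := by group
        _ = g * (x * u) * g⁻¹ := by rw [h3]
        _ = _ := by group
    have h4 := Cfsg.Agent.H19.IsSylowOf.mono (Cfsg.Agent.H19.isSylowOf_top_of_sylow (g • P)) hgP le_top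
    have h5 := Cfsg.Agent.H19.IsSylowOf.mono (Cfsg.Agent.H19.isSylowOf_top_of_sylow P) hPC le_top
    obtain ⟨c, hc, hcP⟩ := h4.exists_conj h5
    have h6 : c * g ∈ Subgroup.normalizer ((P : Subgroup G) : Set G) := by
      rw [Cfsg.Agent.H1.mem_normalizer_iff_conj_smul, ← Cfsg.Agent.H1.conj_smul_smul]
      exact hcP
    have h7 := hlc _ le_rfl hP1 h6
    have h8 : g ∈ Subgroup.centralizer ({x} : Set G) := by
      have : g = c⁻¹ * (c * g) := by group
      rw [this]
      exact mul_mem (inv_mem hc) h7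
    have h9 := Subgroup.mem_centralizer_singleton_iff.mp h8
    rw [hy, h9]; group
  · intro N hN R hR hR1 gb hgb
    obtain ⟨g, rfl⟩ := QuotientGroup.mk_surjective gb
    set π := QuotientGroup.mk' N with hπ
    set R₀ : Subgroup G := (P : Subgroup G) ⊓ R.comap π with hR₀
    have hR₀R : R₀.map π = R := by
      apply le_antisymm
      · rintro _ ⟨r, hr, rfl⟩
        exact hr.2
      · intro r hr
        obtain ⟨u, hu, rfl⟩ := hR hr
        exact ⟨u, ⟨hu, hr⟩, rfl⟩
    have hR₀1 : R₀ ≠ ⊥ := by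
      intro h
      apply hR1
      rw [← hR₀R, h, Subgroup.map_bot]
    have hRN : R.comap π = R₀ ⊔ N := by
      rw [← hR₀R, Subgroup.comap_map_eq, QuotientGroup.ker_mk']
    -- `R₀` is Sylow in `R₀ N`
    have hPN := Cfsg.Agent.H19.isSylowOf_inf_normal hN (Cfsg.Agent.H19.isSylowOf_top_of_sylow P)
    have hPNR : (P : Subgroup G) ⊓ N ≤ R₀ := by
      refine inf_le_inf_left _ ?_
      rw [hRN]; exact le_sup_right
    have hR₀s : Cfsg.Agent.H23.IsSylowOf p R₀ (R₀ ⊔ N) := by
      refine Cfsg.Agent.H23.isSylowOf_of_not_dvd le_sup_left (P.isPGroup'.to_le inf_le_left) ?_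
      intro hd
      rw [Cfsg.Agent.H2.relIndex_sup_eq_relIndex_of_normal R₀ N] at hd
      exact hPN.not_dvd (hd.trans (Subgroup.relIndex_dvd_of_le_left _ hPNR))
    have hgN : g ∈ Subgroup.normalizer ((R₀ ⊔ N : Subgroup G) : Set G) := by
      rw [← hRN]
      rw [Cfsg.Agent.H18.mem_normalizer_iff_conj] at hgb ⊢
      intro y
      rw [Subgroup.mem_comap, Subgroup.mem_comap, hgb (π y)]
      rfl
    obtain ⟨n, hn, hng⟩ := Cfsg.Agent.H19.frattini_elem hR₀s hgN
    have h1 := hlc _ inf_le_left hR₀1 hng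
    obtain ⟨r, hr, m, hm, hrm⟩ := Subgroup.mem_sup_of_normal_right.mp hn
    have h2 := hPC hr.1
    have h3 : r * (n⁻¹ * g) ∈ Subgroup.centralizer ({x} : Set G) := mul_mem h2 h1
    have h4 := Subgroup.mem_centralizer_singleton_iff.mp h3
    have h5 : (QuotientGroup.mk g : G ⧸ N) = QuotientGroup.mk (r * (n⁻¹ * g)) := by
      have hm1 : (QuotientGroup.mk m : G ⧸ N) = 1 := (QuotientGroup.eq_one_iff m).mpr hm
      rw [← hrm]
      simp only [QuotientGroup.mk_mul, QuotientGroup.mk_inv, hm1, mul_one]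
      group
    rw [Subgroup.mem_centralizer_singleton_iff, h5, ← QuotientGroup.mk_mul, ← QuotientGroup.mk_mul, h4]


end Cfsg.Agent.S2998
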