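import Cfsg.Statements.S3003
import Cfsg.Agent.H19.CharP
import Cfsg.Agent.H2.Frat
import Cfsg.Agent.H23.Coprime4

set_option autoImplicit false
set_option linter.style.haveILetI false
open Cfsg

namespace Cfsg.Agent.S3003


open scoped Pointwise

theorem index_dvd_of_sup_zpowers {U : Type*} [Group U] [Finite U] {p : ℕ} (hab : ∀ a b : U, a * b = b * a)
    (hp : ∀ a : U, a ^ p = 1) (B : Subgroup U) (a : U) (h : B ⊔ Subgroup.zpowers a = ⊤) : B.index ∣ p := by
  haveI : B.Normal := ⟨fun n hn g => by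
    have : g * n * g⁻¹ = n := by rw [hab g n]; group
    rwa [this]⟩
  rw [← Subgroup.relIndex_top_right, ← h, sup_comm, Subgroup.relIndex_sup_right]
  refine (Subgroup.relIndex_dvd_card _ _).trans ?_
  rw [Nat.card_zpowers]
  exact orderOf_dvd_of_pow_eq_one (hp a)
/-- Let G be a finite group, p a prime and Q a large p-subgroup of G: C_G(Q) ≤ Q and N_G(U) ≤ N_G(Q) for every nontrivial subgroup U of C_G(Q). Let Q ≤ G₁ ≤ G, let R be a subgroup of order prime to p normalized by G₁, and let U ≤ G₁ be a p-subgroup. If U contains a nontrivial element which is G₁-conjugate to an element of Z(Q), then C_R(U) = 1. In particular, if U is elementary abelian of order at least p² and every maximal subgroup of U contains a nontrivial element G₁-conjugate into Z(Q), then R = 1. -/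
theorem result {G : Type*} [Group G] [Finite G] {p : ℕ} [Fact p.Prime] (Q : Subgroup G) (hQp : IsPGroup p ↥Q) (hlarge : Cfsg.IsLarge Q) (G₁ : Subgroup G) (hQG : Q ≤ G₁) (R : Subgroup G) (hR : (Nat.card ↥R).Coprime p) (hGR : G₁ ≤ Subgroup.normalizer (R : Set G)) (U : Subgroup G) (hUG : U ≤ G₁) (hUp : IsPGroup p ↥U) : ((∃ x ∈ U, x ≠ 1 ∧ ∃ g ∈ G₁, g * x * g⁻¹ ∈ Q ⊓ Subgroup.centralizer (Q : Set G)) → R ⊓ Subgroup.centralizer (U : Set G) = ⊥) ∧ (Cfsg.IsElementaryAbelian p U → p ^ 2 ≤ Nat.card ↥U → (∀ U₀ : Subgroup G, U₀ ≤ U → IsCoatom (U₀.subgroupOf U) → ∃ x ∈ U₀, x ≠ 1 ∧ ∃ g ∈ G₁, g * x * g⁻¹ ∈ Q ⊓ Subgroup.centralizer (Q : Set G)) → R = ⊥) := by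

  classical
  have hRQ : R ⊓ Q = ⊥ := by
    rw [eq_bot_iff]
    intro y hy
    have h1 : (orderOf y).Coprime p := by
      have h2 : orderOf y ∣ Nat.card R := by
        have := orderOf_dvd_natCard (⟨y, hy.1⟩ : R)
        rwa [Subgroup.orderOf_mk] at this
      exact Nat.Coprime.coprime_dvd_left h2 hR
    exact Subgroup.mem_bot.mpr (Cfsg.Agent.H19.eq_one_of_mem_pGroup hQp hy.2 h1)
  have key : ∀ V : Subgroup G, V ≤ G₁ → (∃ x ∈ V, x ≠ 1 ∧ ∃ g ∈ G₁, g * x * g⁻¹ ∈ Q ⊓ Subgroup.centralizer (Q : Set G)) →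
      R ⊓ Subgroup.centralizer (V : Set G) = ⊥ := by
    rintro V hV ⟨x, hxV, hx1, g, hg, hz⟩
    set z := g * x * g⁻¹ with hzdef
    have hz1 : z ≠ 1 := by
      intro h
      apply hx1
      have := congrArg (fun z => g⁻¹ * z * g) h
      simpa [hzdef, mul_assoc] using this
    rw [eq_bot_iff]
    intro y hy
    have hyx : x * y = y * x := (Subgroup.mem_centralizer_iff.mp hy.2) x hxV
    set y' := g * y * g⁻¹ with hy'
    have hy'R : y' ∈ R := (Subgroup.mem_normalizer_iff.mp (hGR hg) y).mp hy.1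
    have hy'z : y' * z = z * y' := by
      rw [hy', hzdef]
      calc g * y * g⁻¹ * (g * x * g⁻¹) = g * (y * x) * g⁻¹ := by group
        _ = g * (x * y) * g⁻¹ := by rw [hyx]
        _ = _ := by group
    have hN : y' ∈ Subgroup.normalizer (Q : Set G) := by
      apply hlarge.2 (Subgroup.zpowers z) (Subgroup.zpowers_le.mpr hz.2) (fun h => hz1 (Subgroup.zpowers_eq_bot.mp h))
      apply Subgroup.centralizer_le_normalizer
      rw [Subgroup.mem_centralizer_iff]
      rintro _ ⟨k, rfl⟩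
      exact (Commute.zpow_left (hy'z.symm : Commute z y') k).eq
    have hC : y' ∈ Subgroup.centralizer (Q : Set G) := by
      rw [Subgroup.mem_centralizer_iff]
      intro q hq
      have h1 : y' * q * y'⁻¹ ∈ Q := (Subgroup.mem_normalizer_iff.mp hN q).mp hq
      have h2 : q * y'⁻¹ * q⁻¹ ∈ R := (Subgroup.mem_normalizer_iff.mp (hGR (hQG hq)) _).mp (R.inv_mem hy'R)
      have h3 : y' * q * y'⁻¹ * q⁻¹ ∈ R ⊓ Q := by
        refine ⟨?_, Q.mul_mem h1 (Q.inv_mem hq)⟩
        have := R.mul_mem hy'R h2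
        simpa [mul_assoc] using this
      rw [hRQ, Subgroup.mem_bot] at h3
      have h4 := mul_inv_eq_one.mp h3
      calc q * y' = (y' * q * y'⁻¹) * y' := by rw [h4]
        _ = y' * q := by group
    have h5 : y' ∈ R ⊓ Q := ⟨hy'R, hlarge.1 hC⟩
    rw [hRQ, Subgroup.mem_bot] at h5
    rw [Subgroup.mem_bot]
    have := congrArg (fun z => g⁻¹ * z * g) h5
    simpa [hy', mul_assoc] using this
  refine ⟨key U hUG, fun hel hcard hmax => ?_⟩
  have hab : ∀ a b : U, a * b = b * a := fun a b => hel.1.is_comm.comm a b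
  have hpw : ∀ a : U, a ^ p = 1 := fun a => Subtype.ext (hel.2 a a.2)
  have hcop : (Nat.card U).Coprime (Nat.card R) := (Cfsg.Agent.H23.card_coprime_of_isPGroup hUp hR).symm
  have h1 := Cfsg.Agent.H23.iSup_cocyclic_centralizer hel.1 (hUG.trans hGR) hcop
  rw [← h1, eq_bot_iff]
  refine iSup₂_le ?_
  rintro B ⟨hBU, a, ha, hBa⟩
  have hsub : B.subgroupOf U ⊔ Subgroup.zpowers (⟨a, ha⟩ : U) = ⊤ := by
    rw [eq_top_iff]
    intro u _
    have hu : (u : G) ∈ B ⊔ Subgroup.zpowers a := by rw [hBa]; exact u.2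
    have h2 : (B ⊔ Subgroup.zpowers a).subgroupOf U = B.subgroupOf U ⊔ (Subgroup.zpowers a).subgroupOf U :=
      Subgroup.subgroupOf_sup hBU (Subgroup.zpowers_le.mpr ha)
    have h3 : u ∈ (B ⊔ Subgroup.zpowers a).subgroupOf U := hu
    rw [h2] at h3
    have h4 : (Subgroup.zpowers a).subgroupOf U ≤ Subgroup.zpowers (⟨a, ha⟩ : U) := by
      intro v hv
      obtain ⟨k, hk⟩ := hv
      exact ⟨k, Subtype.ext hk⟩
    exact (sup_le_sup_left h4 _ : _ ≤ _) h3
  have hidx := index_dvd_of_sup_zpowers hab hpw _ _ hsub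
  rcases (Nat.dvd_prime (Fact.out : p.Prime)).mp hidx with h2 | h2
  · -- `B = U`
    have hBU' : B.subgroupOf U = ⊤ := Subgroup.index_eq_one.mp h2
    have hUnt : (⊥ : Subgroup U) ≠ ⊤ := by
      intro h
      have h3 : Nat.card (⊤ : Subgroup U) = 1 := by rw [← h]; simp
      rw [Subgroup.card_top] at h3
      rw [h3] at hcard
      have := (Fact.out : p.Prime).two_le
      nlinarith
    obtain ⟨C, hC, -⟩ := (eq_top_or_exists_le_coatom (⊥ : Subgroup U)).resolve_left hUnt
    have hCU : C.map U.subtype ≤ U := Subgroup.map_subtype_le _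
    have hCc : (C.map U.subtype).subgroupOf U = C := by
      ext y
      rw [Subgroup.mem_subgroupOf]
      constructor
      · rintro ⟨w, hw, hwy⟩
        have : w = y := Subtype.ext hwy
        rwa [← this]
      · intro hy
        exact ⟨y, hy, rfl⟩
    have h3 := key (C.map U.subtype) (hCU.trans hUG) (hmax _ hCU (by rw [hCc]; exact hC))
    rw [← h3]
    refine inf_le_inf_left _ (Subgroup.centralizer_le ?_)
    intro y hy
    have : (⟨y, hCU hy⟩ : U) ∈ B.subgroupOf U := by rw [hBU']; exact Subgroup.mem_top _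
    exact this
  · have h3 : IsCoatom (B.subgroupOf U) := Cfsg.Agent.H2.isCoatom_of_index_prime h2
    rw [key B (hBU.trans hUG) (hmax B hBU h3)]


end Cfsg.Agent.S3003
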