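import Cfsg.Statements.S3006
import Cfsg.Agent.H19.CLarge

set_option autoImplicit false
set_option linter.style.haveILetI false
open scoped Pointwise
open Cfsg

namespace Cfsg.Agent.S3006

/-- Let P be a finite p-group, Q a centrally large subgroup of P (|Q|·|Z(Q)| maximal among subgroups of P) and A an abelian subgroup of P of largest order. Then QA = AQ is a centrally large subgroup of P, C_{QA}(Q ∩ A) = Z(Q)·A, and the subgroup generated by all centrally large subgroups of P contains C_P(Z(J(P))), where J(P) is generated by the abelian subgroups of largest order. -/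
theorem result {p : ℕ} [Fact p.Prime] (P : Type*) [Group P] [Finite P] (hP : IsPGroup p P) (Q A : Subgroup P) (hQ : Cfsg.IsCentrallyLarge Q) (hA : A ∈ Cfsg.maxAbelianSubgroups P) : ((Q ⊔ A : Subgroup P) : Set P) = (Q : Set P) * (A : Set P) ∧ Cfsg.IsCentrallyLarge (Q ⊔ A) ∧ (Q ⊔ A) ⊓ Subgroup.centralizer ((Q ⊓ A : Subgroup P) : Set P) = (Q ⊓ Subgroup.centralizer (Q : Set P)) ⊔ A ∧ (((Q ⊓ Subgroup.centralizer (Q : Set P)) ⊔ A : Subgroup P) : Set P) = ((Q ⊓ Subgroup.centralizer (Q : Set P)) : Set P) * (A : Set P) ∧ Subgroup.centralizer ((Cfsg.thompsonSubgroupA P ⊓ Subgroup.centralizer (Cfsg.thompsonSubgroupA P : Set P) : Subgroup P) : Set P) ≤ Cfsg.centrallyLargeJoin P := by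

  classical
  obtain ⟨hQl, hQc⟩ := (Cfsg.Agent.H19.cl_iff Q).mp hQ
  obtain ⟨h1, h2, h3, h4⟩ := Cfsg.Agent.H19.cl_sup_maxAb hQ hA
  have hcA := Cfsg.Agent.H19.maxAb_centralizer hA
  have hZ : Q ⊓ Subgroup.centralizer (Q : Set P) = Subgroup.centralizer (Q : Set P) := inf_eq_right.mpr hQc
  have hself := Cfsg.Agent.H19.maxAb_centralizer h3
  have key : ∀ x ∈ (Q ⊔ A) ⊓ Subgroup.centralizer ((Q ⊓ A : Subgroup P) : Set P),
      ∃ z ∈ Subgroup.centralizer (Q : Set P), ∃ a ∈ A, z * a = x := by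
    rintro x ⟨hx1, hx2⟩
    have hx1' : x ∈ (Q : Set P) * (A : Set P) := by rw [← h1]; exact hx1
    obtain ⟨q, hq, a, ha, hqa⟩ := hx1'
    have hqa' : q * a = x := hqa
    have haC : a ∈ Subgroup.centralizer ((Q ⊓ A : Subgroup P) : Set P) := by
      rw [Subgroup.mem_centralizer_iff]
      intro y hy
      exact Cfsg.Agent.H19.maxAb_comm hA y hy.2 a ha
    have hqC : q ∈ Subgroup.centralizer ((Q ⊓ A : Subgroup P) : Set P) := by
      have : q = x * a⁻¹ := by rw [← hqa']; group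
      rw [this]
      exact mul_mem hx2 (inv_mem haC)
    have hq2 : q ∈ Subgroup.centralizer ((Subgroup.centralizer (Q : Set P) ⊔ (Q ⊓ A) : Subgroup P) : Set P) := by
      rw [Cfsg.Agent.H19.centralizer_sup]
      refine Subgroup.mem_inf.mpr ⟨?_, hqC⟩
      rw [Subgroup.mem_centralizer_iff]
      intro y hy
      exact (Subgroup.mem_centralizer_iff.mp hy q hq).symm
    rw [hself] at hq2
    have hq3 : q ∈ (Subgroup.centralizer (Q : Set P) : Set P) * ((Q ⊓ A : Subgroup P) : Set P) := by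
      rw [← h4]; exact hq2
    obtain ⟨z, hz, b, hb, hzb⟩ := hq3
    have hzb' : z * b = q := hzb
    refine ⟨z, hz, b * a, mul_mem hb.2 ha, ?_⟩
    rw [← mul_assoc, hzb', hqa']
  have hle : Subgroup.centralizer (Q : Set P) ⊔ A ≤
      (Q ⊔ A) ⊓ Subgroup.centralizer ((Q ⊓ A : Subgroup P) : Set P) := by
    refine sup_le (le_inf (hQc.trans le_sup_left) (Subgroup.centralizer_le inf_le_left)) (le_inf le_sup_right ?_)
    intro a ha
    rw [Subgroup.mem_centralizer_iff]
    intro y hy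
    exact Cfsg.Agent.H19.maxAb_comm hA y hy.2 a ha
  refine ⟨h1, h2, ?_, ?_, ?_⟩
  · rw [hZ]
    apply le_antisymm
    · intro x hx
      obtain ⟨z, hz, a, ha, rfl⟩ := key x hx
      exact mul_mem ((le_sup_left : Subgroup.centralizer (Q : Set P) ≤ _) hz) ((le_sup_right : A ≤ _) ha)
    · exact hle
  · rw [hZ]
    ext x
    constructor
    · intro hx
      obtain ⟨z, hz, a, ha, h⟩ := key x (hle hx)
      have hz' : z ∈ ((Q ⊓ Subgroup.centralizer (Q : Set P) : Subgroup P) : Set P) := ⟨hQc hz, hz⟩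
      exact ⟨z, hz', a, ha, h⟩
    · rintro ⟨z, hz, a, ha, rfl⟩
      exact mul_mem ((le_sup_left : Subgroup.centralizer (Q : Set P) ≤ _) hz.2) ((le_sup_right : A ≤ _) ha)
  · exact Cfsg.Agent.H19.centralizer_le_of_cl Cfsg.Agent.H19.cl_join Cfsg.Agent.H19.thompson_le_join


end Cfsg.Agent.S3006
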