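import Cfsg.Statements.S3008
import Cfsg.Agent.H19.CLarge3

set_option autoImplicit false
set_option linter.style.haveILetI false
open Cfsg

namespace Cfsg.Agent.S3008

/-- Let P be a finite p-group, with J(P) generated by its abelian subgroups of largest order and J̃(P) = C_P(Z(J(P))); call R ≤ P centrally large if |R|·|Z(R)| is as large as possible, and let P_MCL be generated by the minimal centrally large subgroups. Then: for every centrally large Q, Q·J(P) ⊇ J̃(P); some minimal centrally large subgroup of P is normalized by both J(P) and P_MCL; if P = J(P) and d(P)² = |P|·|Z(P)|, where d(P) is the largest order of an abelian subgroup, then every minimal centrally large subgroup of P is abelian; and if every minimal centrally large subgroup is abelian then J̃(P) = J(P). -/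
theorem result {p : ℕ} [Fact p.Prime] (P : Type*) [Group P] [Finite P] (hP : IsPGroup p P) : (∀ Q : Subgroup P, Cfsg.IsCentrallyLarge Q → Subgroup.centralizer ((Cfsg.thompsonSubgroupA P ⊓ Subgroup.centralizer (Cfsg.thompsonSubgroupA P : Set P) : Subgroup P) : Set P) ≤ Q ⊔ Cfsg.thompsonSubgroupA P) ∧ (∃ Q : Subgroup P, Cfsg.IsMinimalCentrallyLarge Q ∧ Cfsg.thompsonSubgroupA P ≤ Subgroup.normalizer (Q : Set P) ∧ Cfsg.minimalCentrallyLargeJoin P ≤ Subgroup.normalizer (Q : Set P)) ∧ (Cfsg.thompsonSubgroupA P = ⊤ → (∀ A ∈ Cfsg.maxAbelianSubgroups P, Nat.card ↥A ^ 2 = Nat.card P * Nat.card ↥(Subgroup.center P)) → ∀ Q : Subgroup P, Cfsg.IsMinimalCentrallyLarge Q → IsMulCommutative ↥Q) ∧ ((∀ Q : Subgroup P, Cfsg.IsMinimalCentrallyLarge Q → IsMulCommutative ↥Q) → Subgroup.centralizer ((Cfsg.thompsonSubgroupA P ⊓ Subgroup.centralizer (Cfsg.thompsonSubgroupA P : Set P) : Subgroup P) : Set P) = Cfsg.thompsonSubgroupA P) := by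

  classical
  haveI hnil : Group.IsNilpotent P := hP.isNilpotent
  refine ⟨fun Q hQ => Cfsg.Agent.H19.centralizer_le_of_cl (Cfsg.Agent.H19.cl_sup_thompson hQ) le_sup_right,
    Cfsg.Agent.H19.exists_mcl_invariant, ?_, ?_⟩
  · intro hJ hd Q hQ
    obtain ⟨A, hA⟩ := Cfsg.Agent.H19.exists_maxAb (G := P)
    have htop : Cfsg.IsCentrallyLarge (⊤ : Subgroup P) := by
      have h1 := Cfsg.Agent.H19.cl_join (G := P)
      have h2 := Cfsg.Agent.H19.thompson_le_join (G := P)
      rw [hJ, top_le_iff] at h2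
      rwa [h2] at h1
    have hf : Nat.card P * Nat.card ↥(Subgroup.center P) = Cfsg.maxCentralizerProduct P := by
      have h1 := ((Cfsg.Agent.H19.cl_iff (⊤ : Subgroup P)).mp htop).1
      rw [Cfsg.Agent.H19.large_iff] at h1
      rw [← h1]
      unfold Cfsg.Agent.H19.cdm
      rw [Subgroup.coe_top, Subgroup.centralizer_univ, Subgroup.card_top]
    have hAcl : Cfsg.IsCentrallyLarge A := by
      rw [Cfsg.Agent.H19.cl_iff, Cfsg.Agent.H19.large_iff]
      refine ⟨?_, (Cfsg.Agent.H19.maxAb_centralizer hA).le⟩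
      unfold Cfsg.Agent.H19.cdm
      rw [Cfsg.Agent.H19.maxAb_centralizer hA, ← hf, ← hd A hA, sq]
    have hAm : Cfsg.IsMinimalCentrallyLarge A := by
      refine ⟨hAcl, fun R' h1 h2 => le_antisymm h1 ?_⟩
      calc A = Subgroup.centralizer (A : Set P) := (Cfsg.Agent.H19.maxAb_centralizer hA).symm
        _ ≤ Subgroup.centralizer (R' : Set P) := Subgroup.centralizer_le (SetLike.coe_subset_coe.mpr h1)
        _ ≤ R' := ((Cfsg.Agent.H19.cl_iff R').mp h2).2
    exact ((Cfsg.Agent.H19.mcl_iff_maxAb hAm hA.1 Q).mp hQ).1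
  · intro hab
    obtain ⟨Q₀, hQ₀⟩ := Cfsg.Agent.H19.exists_cl (G := P)
    obtain ⟨Q, hQ, _⟩ := Cfsg.Agent.H19.exists_mcl_le hQ₀
    have h1 := Cfsg.Agent.H19.mcl_iff_maxAb hQ (hab Q hQ)
    have h2 : Cfsg.thompsonSubgroupA P = Cfsg.minimalCentrallyLargeJoin P := by
      unfold Cfsg.thompsonSubgroupA Cfsg.minimalCentrallyLargeJoin
      congr 1
      ext X
      exact (h1 X).symm
    apply le_antisymm
    · apply Cfsg.Agent.H19.centralizer_le_of_cl _ le_rfl
      rw [h2]
      exact Cfsg.Agent.H19.mcl_join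
    · exact Subgroup.le_centralizer_iff.mp inf_le_right


end Cfsg.Agent.S3008
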