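import Cfsg.Statements.S3011
import Cfsg.Agent.H4.BaerSuzuki
import Cfsg.Agent.H10.Basic

set_option autoImplicit false
set_option linter.style.haveILetI false
open Cfsg

namespace Cfsg.Agent.S3011


theorem eq_one_of_inv {G : Type*} [Group G] {a h : G} (hodd : Odd (orderOf h)) (h1 : a * h * a⁻¹ = h⁻¹)
    (h2 : a * h = h * a) : h = 1 := by
  have h3 : h = h⁻¹ := by rw [← h1, h2]; group
  have h4 : h ^ 2 = 1 := by rw [sq]; nth_rewrite 2 [h3]; group
  have h5 := orderOf_dvd_of_pow_eq_one h4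
  have h6 : orderOf h = 1 := by
    rcases (Nat.dvd_prime Nat.prime_two).mp h5 with h7 | h7
    · exact h7
    · rw [h7] at hodd; exact absurd hodd (by decide)
  exact orderOf_eq_one_iff.mp h6

theorem commute_of_sq {G : Type*} [Group G] {k h : G} (hodd : Odd (orderOf k)) (h1 : Commute (k ^ 2) h) :
    Commute k h := by
  obtain ⟨m, hm⟩ := hodd
  have : k = (k ^ 2) ^ (m + 1) := by
    rw [← pow_mul, show 2 * (m + 1) = orderOf k + 1 by omega, pow_succ, pow_orderOf_eq_one, one_mul]
  rw [this]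
  exact h1.pow_left _

theorem not_inv_odd {G : Type*} [Group G] {k h : G} (hk : Odd (orderOf k)) (hh : Odd (orderOf h))
    (h1 : k * h * k⁻¹ = h⁻¹) : h = 1 := by
  have h2 : Commute (k ^ 2) h := by
    have : k ^ 2 * h * (k ^ 2)⁻¹ = h := by
      calc k ^ 2 * h * (k ^ 2)⁻¹ = k * (k * h * k⁻¹) * k⁻¹ := by rw [sq]; group
        _ = k * h⁻¹ * k⁻¹ := by rw [h1]
        _ = (k * h * k⁻¹)⁻¹ := by group
        _ = h := by rw [h1, inv_inv]
    exact mul_inv_eq_iff_eq_mul.mp this
  exact eq_one_of_inv hh h1 (commute_of_sq hk h2).eq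

/-- Let G be a finite group and V a nontrivial elementary abelian 2-subgroup of G of order at most 4 such that, whenever an element of V inverts an element h of G of odd order, some nontrivial element of V commutes with h. Then V meets O₂(G) nontrivially. (The case of order at most 4 has a short argument from the Baer–Suzuki theorem.) -/
theorem result {G : Type*} [Group G] [Finite G] (V : Subgroup G) (hV : Cfsg.IsElementaryAbelian 2 V) (hV1 : V ≠ ⊥) (hS : Cfsg.IsSidkiPair V) (h4 : Nat.card V ≤ 4) : V ⊓ Cfsg.pCore 2 G ≠ ⊥ := by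

  classical
  haveI : Fact (Nat.Prime 2) := ⟨Nat.prime_two⟩
  intro hcon
  have hsq : ∀ v ∈ V, v * v = 1 := fun v hv => by rw [← sq]; exact hV.2 v hv
  have hVc : ∀ a ∈ V, ∀ b ∈ V, a * b = b * a := by
    intro a ha b hb
    exact congrArg Subtype.val (hV.1.is_comm.comm ⟨a, ha⟩ ⟨b, hb⟩)
  -- every nontrivial element of `V` inverts something
  have hinv : ∀ v ∈ V, v ≠ 1 → ∃ w ∈ V, w ≠ 1 ∧ w ≠ v ∧ ∃ h : G, h ≠ 1 ∧ Odd (orderOf h) ∧ v * h * v⁻¹ = h⁻¹ ∧
      w * h = h * w := by
    intro v hv hv1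
    have ho : orderOf v = 2 := orderOf_eq_prime (hV.2 v hv) hv1
    obtain ⟨g, k, h1, h2, h3⟩ := Cfsg.Agent.H4.inverts_odd_of_not_mem_core v ho (by
      intro N hN hNp hvN
      apply hv1
      have hle : N ≤ Cfsg.pCore 2 G := Cfsg.Agent.H10.le_pCore hN hNp
      have : v ∈ V ⊓ Cfsg.pCore 2 G := Subgroup.mem_inf.mpr ⟨hv, hle hvN⟩
      rw [hcon, Subgroup.mem_bot] at this
      exact this)
    obtain ⟨w, hw, hw1, hwh⟩ := hS _ v hv h2 h3
    refine ⟨w, hw, hw1, ?_, _, h1, h2, h3, hwh⟩
    rintro rfl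
    exact h1 (eq_one_of_inv h2 h3 hwh)
  obtain ⟨v₀, hv₀⟩ := Subgroup.ne_bot_iff_exists_ne_one.mp hV1
  have hv₀1 : (v₀ : G) ≠ 1 := fun h => hv₀ (Subtype.ext h)
  -- `a` commutes with `k`, inverted by `v`
  obtain ⟨a, ha, ha1, hav, k, hk1, hkodd, hvk, hak⟩ := hinv v₀ v₀.2 hv₀1
  obtain ⟨b, hb, hb1, hba, h, hh1, hhodd, hah, hbh⟩ := hinv a ha ha1
  set c := a * b with hc
  have hcV : c ∈ V := mul_mem ha hb
  -- the elements of `V`
  have hVcases : ∀ w ∈ V, w = 1 ∨ w = a ∨ w = b ∨ w = c := by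
    intro w hw
    by_contra hno
    push Not at hno
    obtain ⟨n1, n2, n3, n4⟩ := hno
    have hca : c ≠ a := by
      intro h; apply hb1
      have : a * b = a * 1 := by rw [mul_one]; exact h
      exact mul_left_cancel this
    have hcb : c ≠ b := by
      intro h; apply ha1
      have : a * b = 1 * b := by rw [one_mul]; exact h
      exact mul_right_cancel this
    have hc1 : c ≠ 1 := by
      intro h
      apply hba
      have h1 : a * b = a * a := by rw [hsq a ha]; exact h
      exact mul_left_cancel h1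
    have h5 : ({1, a, b, c, w} : Finset G).card = 5 := by
      rw [Finset.card_insert_of_notMem, Finset.card_insert_of_notMem, Finset.card_insert_of_notMem,
        Finset.card_insert_of_notMem, Finset.card_singleton]
      · simpa using n4.symm
      · simp only [Finset.mem_insert, Finset.mem_singleton, not_or]
        exact ⟨hcb.symm, n3.symm⟩
      · simp only [Finset.mem_insert, Finset.mem_singleton, not_or]
        exact ⟨hba.symm, hca.symm, n2.symm⟩
      · simp only [Finset.mem_insert, Finset.mem_singleton, not_or]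
        exact ⟨ha1.symm, hb1.symm, hc1.symm, n1.symm⟩
    have h6 : (({1, a, b, c, w} : Finset G) : Set G) ⊆ (V : Set G) := by
      intro x hx
      simp only [Finset.coe_insert, Finset.coe_singleton, Set.mem_insert_iff, Set.mem_singleton_iff] at hx
      rcases hx with rfl | rfl | rfl | rfl | rfl
      · exact one_mem V
      · exact ha
      · exact hb
      · exact hcV
      · exact hw
    have h7 := Set.ncard_le_ncard h6 (Set.toFinite _)
    rw [Set.ncard_coe_finset, h5] at h7
    have h8 : (V : Set G).ncard = Nat.card V := rfl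
    omega
  have haa := hsq a ha
  have hbb := hsq b hb
  have hai : a⁻¹ = a := inv_eq_of_mul_eq_one_left haa
  have hbi : b⁻¹ = b := inv_eq_of_mul_eq_one_left hbb
  have hcomm := hVc a ha b hb
  -- `b` inverts `k` and `c` inverts `k`, `h`
  have hch : c * h * c⁻¹ = h⁻¹ := by
    rw [hc, mul_inv_rev]
    calc a * b * h * (b⁻¹ * a⁻¹) = a * (b * h) * b⁻¹ * a⁻¹ := by group
      _ = a * (h * b) * b⁻¹ * a⁻¹ := by rw [hbh]
      _ = a * h * a⁻¹ := by group
      _ = _ := hah
  have hbk : b * k * b⁻¹ = k⁻¹ := by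
    rcases hVcases v₀ v₀.2 with h0 | h0 | h0 | h0
    · exact absurd h0 hv₀1
    · exact absurd h0.symm hav
    · rw [h0] at hvk; exact hvk
    · rw [h0, hc] at hvk
      have : b = a * (a * b) := by rw [← mul_assoc, haa, one_mul]
      rw [this]
      calc a * (a * b) * k * (a * (a * b))⁻¹ = a * ((a * b) * k * (a * b)⁻¹) * a⁻¹ := by group
        _ = a * k⁻¹ * a⁻¹ := by rw [hvk]
        _ = (a * k * a⁻¹)⁻¹ := by group
        _ = _ := by rw [hak]; group
  have hck : c * k * c⁻¹ = k⁻¹ := by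
    rw [hc, mul_inv_rev]
    calc a * b * k * (b⁻¹ * a⁻¹) = a * (b * k * b⁻¹) * a⁻¹ := by group
      _ = (a * k * a⁻¹)⁻¹ := by rw [hbk]; group
      _ = _ := by rw [hak]; group
  -- the key step: `k h k⁻¹` is inverted by `a`
  have hkey : a * (k * h * k⁻¹) * a⁻¹ = (k * h * k⁻¹)⁻¹ := by
    calc a * (k * h * k⁻¹) * a⁻¹ = (a * k) * h * k⁻¹ * a⁻¹ := by group
      _ = (k * a) * h * k⁻¹ * a⁻¹ := by rw [hak]
      _ = k * (a * h * a⁻¹) * (a * k⁻¹) * a⁻¹ := by group
      _ = k * h⁻¹ * (k⁻¹ * a) * a⁻¹ := by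
          rw [hah, show a * k⁻¹ = k⁻¹ * a from (show Commute a k from hak).inv_right.eq]
      _ = _ := by group
  have hodd' : Odd (orderOf (k * h * k⁻¹)) := by
    have : orderOf (k * h * k⁻¹) = orderOf h := by
      have := orderOf_injective (MulAut.conj k).toMonoidHom (MulAut.conj k).injective h
      simpa using this
    rw [this]; exact hhodd
  have hk2odd : Odd (orderOf (k ^ 2)) := Odd.of_dvd_nat hkodd (orderOf_pow_dvd 2)
  obtain ⟨w, hw, hw1, hwc⟩ := hS _ a ha hodd' hkey
  rcases hVcases w hw with hw0 | hw0 | hw0 | hw0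
  · exact hw1 hw0
  · -- `a` commutes with `k h k⁻¹`
    rw [hw0] at hwc
    have h3 := eq_one_of_inv hodd' hkey hwc
    apply hh1
    have : h = k⁻¹ * (k * h * k⁻¹) * k := by group
    rw [this, h3]; group
  · -- `b` commutes with `k h k⁻¹`
    rw [hw0] at hwc
    have h3 : Commute (k ^ 2) h := by
      have e1 : b * (k * h * k⁻¹) * b⁻¹ = k * h * k⁻¹ := by rw [hwc]; group
      have e2 : b * (k * h * k⁻¹) * b⁻¹ = k⁻¹ * h * k := by
        calc b * (k * h * k⁻¹) * b⁻¹ = (b * k * b⁻¹) * (b * h * b⁻¹) * (b * k * b⁻¹)⁻¹ := by group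
          _ = k⁻¹ * h * k := by
              rw [hbk, show b * h * b⁻¹ = h from by rw [hbh]; group]; group
      rw [e1] at e2
      show k ^ 2 * h = h * k ^ 2
      calc k ^ 2 * h = k * (k * h * k⁻¹) * k := by rw [sq]; group
        _ = k * (k⁻¹ * h * k) * k := by rw [e2]
        _ = _ := by rw [sq]; group
    have h4 : Commute k h := commute_of_sq hkodd h3
    have h5 : Odd (orderOf (h * k)) := by
      refine Odd.of_dvd_nat (hhodd.mul hkodd) ?_
      exact h4.symm.orderOf_mul_dvd_mul_orderOf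
    have h6 : c * (h * k) * c⁻¹ = (h * k)⁻¹ := by
      calc c * (h * k) * c⁻¹ = (c * h * c⁻¹) * (c * k * c⁻¹) := by group
        _ = h⁻¹ * k⁻¹ := by rw [hch, hck]
        _ = (k * h)⁻¹ := by group
        _ = _ := by rw [h4.eq]
    have hne : h * k ≠ 1 := by
      intro h7
      have h8 : h = k⁻¹ := eq_inv_of_mul_eq_one_left h7
      apply hh1
      apply eq_one_of_inv hhodd hah
      rw [h8]
      exact (show Commute a k from hak).inv_right.eq
    obtain ⟨w', hw', hw1', hwc'⟩ := hS _ c hcV h5 h6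
    rcases hVcases w' hw' with hw0' | hw0' | hw0' | hw0' <;> rw [hw0'] at hwc'
    · exact hw1' hw0'
    · apply hh1
      apply eq_one_of_inv hhodd hah
      have : a * (h * k) = a * h * k := by group
      rw [this] at hwc'
      have h9 : h * k * a = h * a * k := by
        rw [mul_assoc, ← hak, ← mul_assoc]
      rw [h9] at hwc'
      exact mul_right_cancel hwc'
    · apply hk1
      apply eq_one_of_inv hkodd hbk
      have h9 : b * (h * k) = h * (b * k) := by
        rw [← mul_assoc, hbh, mul_assoc]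
      rw [h9, mul_assoc] at hwc'
      exact mul_left_cancel hwc'
    · exact hne (eq_one_of_inv h5 h6 hwc')
  · -- `c` commutes with `k h k⁻¹`
    rw [hw0] at hwc
    have e1 : c * (k * h * k⁻¹) * c⁻¹ = k * h * k⁻¹ := by rw [hwc]; group
    have e2 : c * (k * h * k⁻¹) * c⁻¹ = k⁻¹ * h⁻¹ * k := by
      calc c * (k * h * k⁻¹) * c⁻¹ = (c * k * c⁻¹) * (c * h * c⁻¹) * (c * k * c⁻¹)⁻¹ := by group
        _ = k⁻¹ * h⁻¹ * k := by rw [hck, hch]; group
    rw [e1] at e2
    apply hh1
    apply not_inv_odd hk2odd hhodd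
    calc k ^ 2 * h * (k ^ 2)⁻¹ = k * (k * h * k⁻¹) * k⁻¹ := by rw [sq]; group
      _ = k * (k⁻¹ * h⁻¹ * k) * k⁻¹ := by rw [e2]
      _ = _ := by group


end Cfsg.Agent.S3011
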