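import Cfsg.Statements.S3013

set_option autoImplicit false
set_option linter.style.haveILetI false
open Cfsg

namespace Cfsg.Agent.S3013


theorem odd_mem_zpowers_sq {G : Type*} [Group G] {x : G} (hx : Odd (orderOf x)) : ∃ m : ℕ, (x ^ 2) ^ m = x := by
  obtain ⟨k, hk⟩ := hx
  refine ⟨k + 1, ?_⟩
  rw [← pow_mul, show 2 * (k + 1) = orderOf x + 1 by omega, pow_succ, pow_orderOf_eq_one, one_mul]

/-- Let G be a finite group and V a nontrivial elementary abelian 2-subgroup of G satisfying the Sidki pair condition. Let v ∈ V and let x be an element of odd order inverted by v, and put C = C_G(v) ∩ C_G(x), the centralizer of the dihedral subgroup generated by v and x. Then C ∩ V is nontrivial and satisfies the Sidki pair condition inside C: every odd-order element of C inverted by an element of C ∩ V commutes with a nontrivial element of C ∩ V. -/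
theorem result {G : Type*} [Group G] [Finite G] (V : Subgroup G) (hV : Cfsg.IsElementaryAbelian 2 V) (hV1 : V ≠ ⊥) (hS : Cfsg.IsSidkiPair V) (v x : G) (hv : v ∈ V) (hx : Odd (orderOf x)) (hinv : v * x * v⁻¹ = x⁻¹) (C : Subgroup G) (hC : C = Subgroup.centralizer ({v} : Set G) ⊓ Subgroup.centralizer ({x} : Set G)) : C ⊓ V ≠ ⊥ ∧ Cfsg.IsSidkiPair ((C ⊓ V).subgroupOf C) := by

  have hcomm : ∀ a ∈ V, ∀ b ∈ V, a * b = b * a := fun a ha b hb => by
    have := hV.1.is_comm.comm ⟨a, ha⟩ ⟨b, hb⟩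
    exact congrArg Subtype.val this
  have hsq : ∀ a ∈ V, a * a = 1 := fun a ha => by have := hV.2 a ha; rwa [pow_two] at this
  have hmemC : ∀ g, g ∈ C ↔ g * v = v * g ∧ g * x = x * g := fun g => by
    rw [hC, Subgroup.mem_inf, Subgroup.mem_centralizer_singleton_iff, Subgroup.mem_centralizer_singleton_iff]
  constructor
  · obtain ⟨w, hw, hw1, hwx⟩ := hS x v hv hx hinv
    intro h
    apply hw1
    have : w ∈ C ⊓ V := ⟨(hmemC w).mpr ⟨hcomm w hw v hv, hwx⟩, hw⟩
    rw [h] at this
    exact Subgroup.mem_bot.mp this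
  · rintro ⟨h, hhC⟩ ⟨u, huC⟩ hu hodd hinvu
    have hodd' : Odd (orderOf h) := by rwa [Subgroup.orderOf_mk] at hodd
    have huV : u ∈ V := (Subgroup.mem_subgroupOf.mp hu).2
    have hinvu' : u * h * u⁻¹ = h⁻¹ := congrArg Subtype.val hinvu
    obtain ⟨h1, h2⟩ := (hmemC h).mp hhC
    obtain ⟨h3, h4⟩ := (hmemC u).mp huC
    have hinv' : v * x = x⁻¹ * v := by rw [← hinv]; group
    have hinvu'' : u * h = h⁻¹ * u := by rw [← hinvu']; group
    have hcx : Commute x h := h2.symm
    have huv : u * v ∈ V := V.mul_mem huV hv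
    have hxh : Odd (orderOf (x * h)) := by
      have h5 := hcx.orderOf_mul_dvd_mul_orderOf
      exact (hx.mul hodd').of_dvd_nat h5
    have hvx' : v * x * v⁻¹ = x⁻¹ := hinv
    have huxh : (u * v) * (x * h) * (u * v)⁻¹ = (x * h)⁻¹ := by
      have h6 : v * h * v⁻¹ = h := by rw [← h1]; group
      have h7 : u * x⁻¹ * u⁻¹ = x⁻¹ := by
        have : u * x * u⁻¹ = x := by rw [h4]; group
        calc u * x⁻¹ * u⁻¹ = (u * x * u⁻¹)⁻¹ := by group
          _ = _ := by rw [this]
      calc (u * v) * (x * h) * (u * v)⁻¹ = u * ((v * x * v⁻¹) * (v * h * v⁻¹)) * u⁻¹ := by group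
        _ = u * (x⁻¹ * h) * u⁻¹ := by rw [hvx', h6]
        _ = (u * x⁻¹ * u⁻¹) * (u * h * u⁻¹) := by group
        _ = x⁻¹ * h⁻¹ := by rw [h7, hinvu']
        _ = (x * h)⁻¹ := by rw [hcx.eq, mul_inv_rev]
    obtain ⟨w, hwV, hw1, hw⟩ := hS (x * h) (u * v) huv hxh huxh
    have hwv : w * v = v * w := hcomm w hwV v hv
    -- `w` commutes with `x⁻¹ h`
    have hw2 : Commute w (x⁻¹ * h) := by
      have h6 : v * h * v⁻¹ = h := by rw [← h1]; group
      have h8 : x⁻¹ * h = v * (x * h) * v⁻¹ := by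
        calc x⁻¹ * h = (v * x * v⁻¹) * (v * h * v⁻¹) := by rw [hvx', h6]
          _ = _ := by group
      rw [h8]
      have e1 : Commute w v := hwv
      have e2 : Commute w (x * h) := hw
      exact (e1.mul_right e2).mul_right e1.inv_right
    have hw3 : Commute w (x * h * (x⁻¹ * h)) := Commute.mul_right hw hw2
    have h9 : x * h * (x⁻¹ * h) = h ^ 2 := by
      rw [hcx.eq, pow_two]; group
    rw [h9] at hw3
    obtain ⟨m, hm⟩ := odd_mem_zpowers_sq hodd'
    have hw4 : Commute w h := by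
      have := hw3.pow_right m
      rwa [hm] at this
    have hw5 : Commute w x := by
      have e2 : Commute w (x * h) := hw
      have := e2.mul_right hw4.inv_right
      rwa [mul_assoc, mul_inv_cancel, mul_one] at this
    have hwC : w ∈ C := (hmemC w).mpr ⟨hwv, hw5.eq⟩
    refine ⟨⟨w, hwC⟩, Subgroup.mem_subgroupOf.mpr ⟨hwC, hwV⟩, ?_, ?_⟩
    · intro h; exact hw1 (congrArg Subtype.val h)
    · exact Subtype.ext hw4.eq


end Cfsg.Agent.S3013
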