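import Cfsg.Statements.S3020
import Cfsg.Agent.H19.Sylow2
import Cfsg.Agent.H19.CharP
import Cfsg.Agent.H10.Basic

set_option autoImplicit false
set_option linter.style.haveILetI false
open Cfsg

namespace Cfsg.Agent.S3020

open Cfsg.Agent

/-- Let G be a finite group, p a prime and H an abelian p-subgroup of G that is extremely closed (for every g, the subgroup generated by H and g H g⁻¹ meets N_G(H) exactly in H). Then for every g ∈ G, the subgroup T generated by H and g H g⁻¹ is the product of H with O_{p'}(T), and H meets O_{p'}(T) trivially; that is, O_{p'}(T) is a normal p-complement of H in T. -/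
theorem result {G : Type*} [Group G] [Finite G] {p : ℕ} [Fact p.Prime] (H : Subgroup G) (hHp : IsPGroup p H) (hHab : IsMulCommutative H) (hcl : Cfsg.IsExtremelyClosed H) (g : G) (T : Subgroup G) (hT : T = H ⊔ H.map (MulAut.conj g).toMonoidHom) : H ⊔ (Cfsg.pPrimeCore p ↥T).map T.subtype = T ∧ H ⊓ (Cfsg.pPrimeCore p ↥T).map T.subtype = ⊥ := by

  have hHT : H ≤ T := by rw [hT]; exact le_sup_left
  have hcl' : T ⊓ Subgroup.normalizer (H : Set G) = H := by rw [hT]; exact hcl g
  have hsyl : H23.IsSylowOf p H T := by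
    refine H23.isSylowOf_of_normalizer ?_
    rw [hcl']
    refine H23.isSylowOf_of_not_dvd le_rfl hHp ?_
    rw [Subgroup.relIndex_self]
    exact (Fact.out : p.Prime).one_lt.not_ge ∘ Nat.le_of_dvd one_pos
  obtain ⟨P, hP⟩ := id hsyl
  have hle : Subgroup.normalizer ((P : Subgroup T) : Set T) ≤ Subgroup.centralizer ((P : Subgroup T) : Set T) := by
    intro n hn
    have hnH : (n : G) ∈ H := by
      rw [← hcl']
      refine ⟨n.2, ?_⟩
      rw [← hP]
      refine H18.mem_normalizer_iff_conj.mpr ?_
      have h1 := H18.mem_normalizer_iff_conj.mp hn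
      intro y
      constructor
      · rintro ⟨z, hz, rfl⟩
        exact ⟨n * z * n⁻¹, (h1 z).mp hz, rfl⟩
      · rintro ⟨z, hz, hzy⟩
        have h2 : (T.subtype z) = n * y * (n : G)⁻¹ := hzy
        have h3 : y = T.subtype (n⁻¹ * z * n) := by
          rw [map_mul, map_mul, h2]
          simp [mul_assoc]
        rw [h3]
        refine ⟨n⁻¹ * z * n, ?_, rfl⟩
        refine (h1 _).mpr ?_
        have e : n * (n⁻¹ * z * n) * n⁻¹ = z := by group
        rw [e]
        exact hz
    rw [Subgroup.mem_centralizer_iff]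
    intro y hy
    have hyH : (y : G) ∈ H := by rw [← hP]; exact ⟨y, hy, rfl⟩
    have h5 : (y : G) * n = n * y := congrArg (Subtype.val : H → G) (hHab.is_comm.comm ⟨_, hyH⟩ ⟨_, hnH⟩)
    exact Subtype.ext h5
  have hcomp := MonoidHom.ker_transferSylow_isComplement' P hle
  have hKle : (MonoidHom.transferSylow P hle).ker ≤ Cfsg.pPrimeCore p T :=
    H10.le_pPrimeCore (MonoidHom.normal_ker _)
      ((Nat.Prime.coprime_iff_not_dvd Fact.out).mpr (MonoidHom.not_dvd_card_ker_transferSylow P hle)).symm
  constructor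
  · apply le_antisymm (sup_le hHT (Subgroup.map_subtype_le _))
    have h1 := hcomp.sup_eq_top
    have h2 : (P : Subgroup T) ⊔ Cfsg.pPrimeCore p T = ⊤ := by
      rw [eq_top_iff, ← h1, sup_comm]
      exact sup_le_sup_left hKle _
    have h3 := congrArg (Subgroup.map T.subtype) h2
    rw [Subgroup.map_sup, hP, ← MonoidHom.range_eq_map, Subgroup.range_subtype] at h3
    exact h3.ge
  · rw [eq_bot_iff]
    intro y hy
    obtain ⟨z, hz, hzy⟩ := hy.2
    have h1 : (orderOf y).Coprime p := by
      have h2 : orderOf z ∣ Nat.card (Cfsg.pPrimeCore p T) := by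
        have := orderOf_dvd_natCard (⟨z, hz⟩ : Cfsg.pPrimeCore p T)
        rwa [Subgroup.orderOf_mk] at this
      have h3 : orderOf y = orderOf z := by rw [← hzy]; exact Subgroup.orderOf_coe z
      rw [h3]
      exact Nat.Coprime.coprime_dvd_left h2 (H10.pPrimeCore_coprime p T)
    exact Subgroup.mem_bot.mpr (H19.eq_one_of_mem_pGroup hHp hy.1 h1)


end Cfsg.Agent.S3020
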