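import Cfsg.Statements.S3021
import Cfsg.Agent.H19.CharP

set_option autoImplicit false
set_option linter.style.haveILetI false
open Cfsg

namespace Cfsg.Agent.S3021


/-- Let G be a finite group, p a prime and H a p-subgroup of G that is extremely closed (for every g, the subgroup generated by H and g H g⁻¹ meets N_G(H) exactly in H). Then every p-subgroup Q of G containing H has N_G(Q) ≤ N_G(H); in particular every Sylow p-subgroup P of G containing H normalizes H, and H is strongly closed in P with respect to G. -/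
theorem result {G : Type*} [Group G] [Finite G] {p : ℕ} [Fact p.Prime] (H : Subgroup G) (hHp : IsPGroup p H) (hcl : Cfsg.IsExtremelyClosed H) : (∀ Q : Subgroup G, IsPGroup p Q → H ≤ Q → Subgroup.normalizer (Q : Set G) ≤ Subgroup.normalizer (H : Set G)) ∧ ∀ P : Sylow p G, H ≤ (P : Subgroup G) → (P : Subgroup G) ≤ Subgroup.normalizer (H : Set G) ∧ Cfsg.IsStronglyClosed H (P : Subgroup G) := by

  have key : ∀ Q : Subgroup G, IsPGroup p Q → H ≤ Q →
      Subgroup.normalizer (Q : Set G) ≤ Subgroup.normalizer (H : Set G) := by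
    intro Q hQ hHQ g hg
    set X := H ⊔ H.map (MulAut.conj g).toMonoidHom with hX
    have hHg : H.map (MulAut.conj g).toMonoidHom ≤ Q := by
      rintro _ ⟨h, hh, rfl⟩
      exact (Subgroup.mem_normalizer_iff.mp hg h).mp (hHQ hh)
    have hXQ : X ≤ Q := sup_le hHQ hHg
    have hXp : IsPGroup p X := hQ.to_le hXQ
    have hXH : X ≤ H := by
      by_contra hne
      have hlt : H < X := lt_of_le_of_ne le_sup_left fun h => hne h.ge
      have h1 := Cfsg.Agent.H19.lt_inf_normalizer_of_lt hXp hlt
      have h2 := hcl g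
      rw [h2] at h1
      exact lt_irrefl _ h1
    have hle : H.map (MulAut.conj g).toMonoidHom ≤ H := le_sup_right.trans hXH
    rw [Subgroup.mem_normalizer_iff_map_conj_eq]
    exact Subgroup.eq_of_le_of_card_ge hle (by
      rw [Subgroup.card_map_of_injective (MulAut.conj g).injective])
  refine ⟨key, fun P hP => ?_⟩
  have hPn : (P : Subgroup G) ≤ Subgroup.normalizer (H : Set G) :=
    Subgroup.le_normalizer.trans (key P P.isPGroup' hP)
  refine ⟨hPn, hP, fun x hx g hg => ?_⟩
  have h1 : g * x * g⁻¹ ∈ H ⊔ H.map (MulAut.conj g).toMonoidHom :=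
    (le_sup_right : H.map (MulAut.conj g).toMonoidHom ≤ _) ⟨x, hx, rfl⟩
  have h2 : g * x * g⁻¹ ∈ (H ⊔ H.map (MulAut.conj g).toMonoidHom) ⊓ Subgroup.normalizer (H : Set G) :=
    ⟨h1, hPn hg⟩
  rwa [hcl g] at h2


end Cfsg.Agent.S3021
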