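import Cfsg.Statements.S3031
import Cfsg.Agent.H19.HSub2

set_option autoImplicit false
set_option linter.style.haveILetI false
open Cfsg

namespace Cfsg.Agent.S3031

open Cfsg.Agent Cfsg.Agent.H19

/-- Let G be a finite group, p the smallest prime dividing |G| and P a Sylow p-subgroup. Suppose that P is cyclic, or that P has a subgroup D with 1 < |D| < |P| such that every subgroup E of P of order |D|, and also every subgroup E of P of order 4 when |D| = 2, satisfies g E g⁻¹ ∩ N_G(E) ≤ E for all g ∈ G (E is strongly closed in its normalizer with respect to G). Then G has a normal p-complement. -/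
theorem result {G : Type*} [Group G] [Finite G] {p : ℕ} [Fact p.Prime] (hdiv : p ∣ Nat.card G)
    (hmin : ∀ q : ℕ, q.Prime → q ∣ Nat.card G → p ≤ q) (P : Sylow p G)
    (h : IsCyclic ↥(P : Subgroup G) ∨ ∃ D : Subgroup G, D ≤ (P : Subgroup G) ∧ 1 < Nat.card D ∧ Nat.card D < Nat.card (P : Subgroup G) ∧
      ∀ E : Subgroup G, E ≤ (P : Subgroup G) → (Nat.card E = Nat.card D ∨ (Nat.card D = 2 ∧ Nat.card E = 4)) →
        ∀ g : G, E.map (MulAut.conj g).toMonoidHom ⊓ Subgroup.normalizer (E : Set G) ≤ E) :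
    Cfsg.HasNormalPComplement p G := by
  have hp : p.Prime := Fact.out
  have hmf : (Nat.card G).minFac = p := by
    have h1 : Nat.card G ≠ 1 := by
      intro h1; rw [h1] at hdiv; exact hp.one_lt.ne' (Nat.dvd_one.mp hdiv)
    exact le_antisymm (Nat.minFac_le_of_dvd hp.two_le hdiv)
      (hmin _ (Nat.minFac_prime h1) (Nat.minFac_dvd _))
  rcases h with hcyc | ⟨D, hDP, hD1, hD2, hE⟩
  · haveI := hcyc
    have h1 : Subgroup.normalizer ((P : Subgroup G) : Set G) ≤ Subgroup.centralizer ((P : Subgroup G) : Set G) :=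
      IsCyclic.normalizer_le_centralizer hmf hcyc
    exact ⟨P, _, MonoidHom.normal_ker _, IsCyclic.isComplement' hmf hcyc⟩
  · obtain ⟨d, hd⟩ := H18.card_isPGroup_iff.mp (H18.isPGroup_mono P.2 hDP)
    obtain ⟨n, hn⟩ := H18.card_isPGroup_iff.mp P.2
    have hd1 : 1 ≤ d := by
      rcases Nat.eq_zero_or_pos d with h0 | h0
      · rw [hd, h0, pow_zero] at hD1; omega
      · exact h0
    have hdn : d + 1 ≤ n := by
      rw [hd, hn] at hD2
      exact (Nat.pow_lt_pow_iff_right hp.one_lt).mp hD2
    refine hasNormalPComplement_of_allSC P hd1 ?_ ?_ ?_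
    · intro E hEP hEc y hy g hg
      refine strongly_of_hsub hEP P.2 (hE E hEP ?_) hy hg
      rw [hd]; exact hEc
    · rw [hn]; exact Nat.pow_le_pow_right hp.pos hdn
    · -- smallest prime divisor
      rw [Nat.coprime_comm]
      apply Nat.Coprime.symm
      by_contra hcon
      obtain ⟨q, hq, hq1, hq2⟩ := Nat.Prime.not_coprime_iff_dvd.mp hcon
      have h1 := hmin q hq hq1
      have h2 := Nat.le_of_dvd (Nat.sub_pos_of_lt hp.one_lt) hq2
      have h3 := hp.two_le
      omega

end Cfsg.Agent.S3031
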