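import Cfsg.Statements.S3058
import Cfsg.Agent.H19.SylowGraph
import Cfsg.Agent.H23.Coprime4
import Cfsg.Agent.H19.Isolated2

set_option autoImplicit false
set_option linter.style.haveILetI false
open Cfsg

namespace Cfsg.Agent.S3058

open Cfsg.Agent
open scoped Pointwise
/-- Let p be a prime and G a finite group whose Sylow p-subgroups are not chain-connected through nontrivial intersections (so G has a strongly p-embedded subgroup). If N and M are normal subgroups of G whose orders are both divisible by p, then the order of N ∩ M is divisible by p. Consequently, among the normal subgroups of G whose order is divisible by p there is a smallest one (the intersection of all of them). -/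
theorem result {G : Type*} [Group G] [Finite G]
    (p : ℕ) [Fact p.Prime] (hG : ¬ Cfsg.IsSylowChainConnected p G)
    (N M : Subgroup G) [N.Normal] [M.Normal] (hN : p ∣ Nat.card N) (hM : p ∣ Nat.card M) :
    p ∣ Nat.card ↥(N ⊓ M) := by

  haveI hp : Fact p.Prime := inferInstance
  obtain ⟨H, hH, hpH, hse⟩ := H19.strongly_of_not_connected hG
  by_contra hD
  set D := N ⊓ M with hDdef
  have hDn : D.Normal := inferInstance
  have hDc : (Nat.card D).Coprime p := ((Nat.Prime.coprime_iff_not_dvd Fact.out).mpr hD).symm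
  obtain ⟨P, hP⟩ := H23.exists_isSylowOf p H
  have hP1 : P ≠ ⊥ := H19.IsSylowOf.ne_bot hP hpH
  have hPtop := H19.isSylowOf_top_of_normalizer_le hP (H19.normalizer_le_of_strongly hse hP.le hP.isPGroup hP1)
  have hA := H19.isSylowOf_inf_normal (N := N) inferInstance hPtop
  have hB := H19.isSylowOf_inf_normal (N := M) inferInstance hPtop
  have hcard : ∀ X : Subgroup G, X ≠ ⊥ → IsPGroup p X → p ∣ Nat.card X := by
    intro X hX hXp
    obtain ⟨n, hn⟩ := hXp.exists_card_eq
    have hn0 : n ≠ 0 := by
      rintro rfl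
      exact hX (Subgroup.card_eq_one.mp (by simpa using hn))
    rw [hn]
    exact dvd_pow_self p hn0
  obtain ⟨a, ha, hao⟩ := H2.exists_mem_orderOf_eq_prime (hcard _ (H19.IsSylowOf.ne_bot hA hN) hA.isPGroup)
  obtain ⟨b, hb, hbo⟩ := H2.exists_mem_orderOf_eq_prime (hcard _ (H19.IsSylowOf.ne_bot hB hM) hB.isPGroup)
  have hDelem : ∀ y ∈ D, (orderOf y).Coprime p := by
    intro y hy
    have h2 : orderOf y ∣ Nat.card D := by
      have := orderOf_dvd_natCard (⟨y, hy⟩ : D)
      rwa [Subgroup.orderOf_mk] at this
    exact Nat.Coprime.coprime_dvd_left h2 hDc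
  have haN : a ∈ N := ha.2
  have hbM : b ∈ M := hb.2
  have haP : a ∈ P := ha.1
  have hbP : b ∈ P := hb.1
  have hab : Commute a b := by
    have h1 : a * b * a⁻¹ * b⁻¹ ∈ D := by
      refine ⟨?_, ?_⟩
      · have h2 := (inferInstance : N.Normal).conj_mem a⁻¹ (N.inv_mem haN) b
        have := N.mul_mem haN h2
        simpa [mul_assoc] using this
      · have h2 := (inferInstance : M.Normal).conj_mem b hbM a
        exact M.mul_mem h2 (M.inv_mem hbM)
    have h2 : a * b * a⁻¹ * b⁻¹ ∈ P := P.mul_mem (P.mul_mem (P.mul_mem haP hbP) (P.inv_mem haP)) (P.inv_mem hbP)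
    have h3 := H19.eq_one_of_mem_pGroup hP.isPGroup h2 (hDelem _ h1)
    have h4 := mul_inv_eq_one.mp h3
    show a * b = b * a
    calc a * b = (a * b * a⁻¹) * a := by group
      _ = b * a := by rw [h4]
  set E : Subgroup G := Subgroup.closure {a, b} with hE
  have hcomm : ∀ x ∈ ({a, b} : Set G), ∀ y ∈ ({a, b} : Set G), x * y = y * x := by
    rintro x (rfl | rfl) y (rfl | rfl)
    · rfl
    · exact hab.eq
    · exact hab.eq.symm
    · rfl
  have hEab := Subgroup.isMulCommutative_closure hcomm
  have hEP : E ≤ P := by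
    rw [hE, Subgroup.closure_le]
    rintro x (rfl | rfl)
    · exact haP
    · exact hbP
  have haE : a ∈ E := Subgroup.subset_closure (by simp)
  have hbE : b ∈ E := Subgroup.subset_closure (by simp)
  have ha1 : a ≠ 1 := by
    rintro rfl
    rw [orderOf_one] at hao
    exact (Fact.out : p.Prime).one_lt.ne hao
  have hEnc : ¬ IsCyclic E := by
    intro hc
    have h1 := H19.mem_zpowers_of_cyclic (C := E) (p := p) (u := ⟨a, haE⟩) (v := ⟨b, hbE⟩)
      (Subtype.ext (by show a ^ p = 1; rw [← hao, pow_orderOf_eq_one])) (fun h => ha1 (congrArg Subtype.val h))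
      (Subtype.ext (by show b ^ p = 1; rw [← hbo, pow_orderOf_eq_one]))
    obtain ⟨k, hk⟩ := h1
    have hk' : a ^ k = b := congrArg Subtype.val hk
    have h2 : b ∈ D := ⟨hk' ▸ N.zpow_mem haN k, hbM⟩
    have h3 := hDelem b h2
    rw [hbo] at h3
    have := (Nat.coprime_self p).mp h3
    exact (Fact.out : p.Prime).one_lt.ne' this
  have hnorm : ∀ e ∈ H, e ≠ 1 → (∃ k, orderOf e = p ^ k) → Subgroup.centralizer ({e} : Set G) ≤ H := by
    intro e he he1 hek
    refine le_trans ?_ (H19.normalizer_le_of_strongly hse (X := Subgroup.zpowers e) (Subgroup.zpowers_le.mpr he)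
      (H19.isPGroup_zpowers hek) (fun h => he1 (Subgroup.zpowers_eq_bot.mp h)))
    intro c hc
    rw [Subgroup.mem_centralizer_singleton_iff] at hc
    apply Subgroup.centralizer_le_normalizer
    rw [Subgroup.mem_centralizer_iff]
    rintro _ ⟨k, rfl⟩
    exact (Commute.zpow_left (show Commute e c from hc.symm) k).eq
  have hEp : IsPGroup p E := hP.isPGroup.to_le hEP
  have hED : E ≤ Subgroup.normalizer (D : Set G) := by
    rw [Subgroup.normalizer_eq_top_iff.mpr hDn]; exact le_top
  have hcop : (Nat.card E).Coprime (Nat.card D) := (H23.card_coprime_of_isPGroup hEp hDc).symm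
  have hDH : D ≤ H := by
    rw [← H23.iSup_centralizer_of_not_isCyclic hEab hEnc hED hcop]
    refine iSup_le fun e => ?_
    refine inf_le_right.trans (hnorm _ (hP.le (hEP e.2.1)) e.2.2 ?_)
    obtain ⟨k, hk⟩ := (IsPGroup.iff_orderOf.mp hEp) ⟨e.1, e.2.1⟩
    exact ⟨k, by rwa [Subgroup.orderOf_mk] at hk⟩
  -- `M ≤ H`
  have hMH : M ≤ H := by
    intro m hm
    set R := Subgroup.zpowers a ⊔ D with hR
    have hRH : R ≤ H := sup_le (Subgroup.zpowers_le.mpr (hP.le haP)) hDH
    have haR : a ∈ R := (le_sup_left : Subgroup.zpowers a ≤ _) (Subgroup.mem_zpowers a)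
    have hsyl : H23.IsSylowOf p (Subgroup.zpowers a) R := by
      refine H23.isSylowOf_of_not_dvd le_sup_left (H19.isPGroup_zpowers ⟨1, by rw [pow_one]; exact hao⟩) ?_
      rw [hR, H2.relIndex_sup_eq_relIndex_of_normal]
      intro h
      exact hD (h.trans (Subgroup.relIndex_dvd_card _ _))
    have hmR : m ∈ Subgroup.normalizer (R : Set G) := by
      have key : ∀ m ∈ M, m * a * m⁻¹ ∈ R := by
        intro m hm
        have h1 : m * a * m⁻¹ * a⁻¹ ∈ D := by
          refine ⟨?_, ?_⟩
          · have h2 := (inferInstance : N.Normal).conj_mem a haN m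
            exact N.mul_mem h2 (N.inv_mem haN)
          · have h2 := (inferInstance : M.Normal).conj_mem m⁻¹ (M.inv_mem hm) a
            have := M.mul_mem hm h2
            simpa [mul_assoc] using this
        have h2 := R.mul_mem ((le_sup_right : D ≤ R) h1) haR
        simpa [mul_assoc] using h2
      have key2 : ∀ m ∈ M, MulAut.conj m • R ≤ R := by
        intro m hm
        rw [hR, H1.conj_smul_sup]
        refine sup_le ?_ ?_
        · intro y hy
          rw [H1.mem_conj_smul] at hy
          obtain ⟨k, hk⟩ := hy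
          have hk' : a ^ k = m⁻¹ * y * m := hk
          have : y = (m * a * m⁻¹) ^ k := by
            rw [conj_zpow, hk']; group
          rw [this]
          exact R.zpow_mem (key m hm) k
        · rw [H1.conj_smul_normal]
          exact le_sup_right
      rw [H1.mem_normalizer_iff_conj_smul]
      exact Subgroup.eq_of_le_of_card_ge (key2 m hm) (H1.card_conj_smul m R).ge
    obtain ⟨r, hr, hrm⟩ := H19.frattini_elem hsyl hmR
    have h1 := H19.normalizer_le_of_strongly hse (X := Subgroup.zpowers a) (Subgroup.zpowers_le.mpr (hP.le haP))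
      (H19.isPGroup_zpowers ⟨1, by rw [pow_one]; exact hao⟩) (fun h => ha1 (Subgroup.zpowers_eq_bot.mp h)) hrm
    have : m = r * (r⁻¹ * m) := by group
    rw [this]
    exact H.mul_mem (hRH hr) h1
  obtain ⟨g, hg⟩ : ∃ g, g ∉ H := by
    by_contra hcon
    push Not at hcon
    exact hH (eq_top_iff.mpr fun y _ => hcon y)
  apply hse g hg
  refine hM.trans (Subgroup.card_dvd_of_le (le_inf hMH ?_))
  have h1 : MulAut.conj g • M = M := H1.conj_smul_normal g
  have h2 : MulAut.conj g • M ≤ MulAut.conj g • H := Subgroup.pointwise_smul_le_pointwise_smul_iff.mpr hMH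
  rw [h1] at h2
  exact h2


end Cfsg.Agent.S3058
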