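import Cfsg.Statements.S3059
import Cfsg.Agent.H19.Sylow

set_option autoImplicit false
set_option linter.style.haveILetI false
open Cfsg

namespace Cfsg.Agent.S3059


/-- Let p be a prime and H a strongly p-embedded subgroup of the finite group G in the classical sense: H is proper, p divides the order of H, and H ∩ gHg⁻¹ has order prime to p for every g outside H. Then for every normal subgroup N of G of order divisible by p, G = H · O^p(N), where O^p(N) is the subgroup generated by the elements of N of order prime to p. -/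
theorem result {G : Type*} [Group G] [Finite G]
    (p : ℕ) [Fact p.Prime] (H : Subgroup G) (hH : H ≠ ⊤) (hpH : p ∣ Nat.card H)
    (hse : ∀ g : G, g ∉ H → ¬ p ∣ Nat.card ↥(H ⊓ H.map (MulAut.conj g).toMonoidHom))
    (N : Subgroup G) [N.Normal] (hN : p ∣ Nat.card N) :
    H ⊔ Subgroup.closure {g : G | g ∈ N ∧ (orderOf g).Coprime p} = ⊤ := by

  open Cfsg.Agent in
  have h0 : Subgroup.closure {g : G | g ∈ N ∧ (orderOf g).Coprime p} =
      Subgroup.map (Subgroup.subtype N) (Cfsg.pResidual p ↥N) := (Cfsg.Agent.H18.pRes_eq_closure N).symm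
  rw [h0]
  obtain ⟨P, hP⟩ := Cfsg.Agent.H23.exists_isSylowOf p H
  have hP1 : P ≠ ⊥ := Cfsg.Agent.H19.IsSylowOf.ne_bot hP hpH
  have hPtop := Cfsg.Agent.H19.isSylowOf_top_of_normalizer_le hP
    (Cfsg.Agent.H19.normalizer_le_of_strongly hse hP.le hP.isPGroup hP1)
  obtain ⟨R, hR, hRP⟩ := Cfsg.Agent.H19.exists_isSylowOf_normal_le (N := N) inferInstance hPtop
  have hRN := Cfsg.Agent.H19.normalizer_le_of_strongly hse (hRP.trans hP.le) hR.isPGroup
    (Cfsg.Agent.H19.IsSylowOf.ne_bot hR hN)
  have h1 := Cfsg.Agent.H19.frattini_sup (N := N) inferInstance hR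
  obtain ⟨S, hS⟩ := id hR
  have h2 := Cfsg.Agent.H18.sylow_map_sup_pRes S
  rw [hS] at h2
  rw [eq_top_iff, ← h1]
  refine sup_le ?_ (hRN.trans le_sup_left)
  rw [← h2]
  exact sup_le ((hRP.trans hP.le).trans le_sup_left) (by rw [h2]; exact le_sup_right)


end Cfsg.Agent.S3059
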