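import Cfsg.Statements.S3062
import Cfsg.Agent.H19.DStar2

set_option autoImplicit false
set_option linter.style.haveILetI false
open Cfsg

namespace Cfsg.Agent.S3062

/-- Let S be a finite p-group, J(S) the subgroup generated by the abelian subgroups of S of largest order and Z(J(S)) its centre. Then Z(S) ≤ D*(S) ≤ Z(J(S)), and every maximal normal abelian subgroup of S contains D*(S). -/
theorem result {S : Type*} [Group S] [Finite S] {p : ℕ} [Fact p.Prime]
    (hS : IsPGroup p S) :
    Subgroup.center S ≤ Cfsg.dStar S ∧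
    Cfsg.dStar S ≤ Cfsg.thompsonSubgroupA S ⊓ Subgroup.centralizer (Cfsg.thompsonSubgroupA S : Set S) ∧
    ∀ A : Subgroup S, A.Normal → IsMulCommutative A →
      (∀ B : Subgroup S, B.Normal → IsMulCommutative B → A ≤ B → B = A) → Cfsg.dStar S ≤ A := by
  refine ⟨le_sSup (H19.center_mem_dStarFamily S), H19.dStar_le_thompson hS, ?_⟩
  intro A hAn hA hmax
  obtain ⟨A', hAA', hn', hc', hcen⟩ := H23.exists_selfcentralizing hS A hAn hA
  have h1 : A' = A := hmax A' hn' hc' hAA'
  subst h1
  intro d hd
  rw [← hcen, Subgroup.mem_centralizer_iff]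
  intro a ha
  exact H19.dStarFamily_centralizes hS (H19.dStar_mem hS) hn' hc' a ha d hd


end Cfsg.Agent.S3062
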