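import Cfsg.Statements.S3064
import Cfsg.Agent.H19.IsoFrob
import Cfsg.Agent.H2.Frobenius

set_option autoImplicit false
set_option linter.style.haveILetI false
open Cfsg

namespace Cfsg.Agent.S3064

open Cfsg.Agent Cfsg.Agent.H19

private theorem Sylow.mem_smul_iff_inv_smul_mem' {G : Type*} [Group G] {p : ℕ} {T : Sylow p G} {g z : G}
    (hz : z ∈ (T : Subgroup G)) : g * z * g⁻¹ ∈ ((g • T : Sylow p G) : Subgroup G) := by
  rw [Sylow.coe_subgroup_smul]
  exact H1.conj_mem_conj_smul hz

/-- Let S be a Sylow p-subgroup of the finite group G and x an element of S such that (i) x is the only G-conjugate of x lying in S, and (ii) x centralizes every subgroup of order prime to p that it normalizes. Then x lies in the centre of G. -/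
theorem result {G : Type*} [Group G] [Finite G] {p : ℕ} [Fact p.Prime]
    (S : Sylow p G) (x : G) (hx : x ∈ S)
    (hU : ∀ g : G, g⁻¹ * x * g ∈ S → g⁻¹ * x * g = x)
    (hb : ∀ H : Subgroup G, (Nat.card H).Coprime p → (∀ h ∈ H, x * h * x⁻¹ ∈ H) → ∀ h ∈ H, x * h = h * x) :
    x ∈ Subgroup.center G := by
  have hxp : ∃ k : ℕ, orderOf x = p ^ k := H18.exists_pow_eq_one_iff_orderOf.mpr (H18.isPGroup_of_mem S.2 hx)
  refine isolated_central hxp ?_ hb
  intro g hg
  -- `x` and its conjugate generate a `p`-group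
  set y := g * x * g⁻¹ with hy
  have hcl : IsPGroup p (Subgroup.zpowers x ⊔ Subgroup.zpowers y : Subgroup G) := by
    refine H18.isPGroup_sup_of_le_normalizer (isPGroup_zpowers hxp) (isPGroup_zpowers ?_) ?_
    · obtain ⟨k, hk⟩ := hxp
      refine ⟨k, ?_⟩
      rw [← hk, hy]
      exact orderOf_injective (MulAut.conj g).toMonoidHom (MulAut.conj g).injective x
    · rw [Subgroup.zpowers_le]
      refine (H2.centralizer_le_normalizer (Subgroup.zpowers y)) ?_
      rw [Subgroup.mem_centralizer_iff]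
      intro z hz
      obtain ⟨k, rfl⟩ := Subgroup.mem_zpowers_iff.mp hz
      exact ((hg.zpow_right k).symm).eq
  obtain ⟨T, hT⟩ := hcl.exists_le_sylow
  obtain ⟨h, hh⟩ := MulAction.exists_smul_eq G T S
  have hmem : ∀ z ∈ (T : Subgroup G), h * z * h⁻¹ ∈ (S : Subgroup G) := by
    intro z hz
    rw [← hh]
    exact (Sylow.mem_smul_iff_inv_smul_mem' (g := h) (z := z) hz)
  have h1 : h * x * h⁻¹ ∈ (S : Subgroup G) := hmem x (hT ((le_sup_left : Subgroup.zpowers x ≤ _) (Subgroup.mem_zpowers x)))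
  have h2 : h * y * h⁻¹ ∈ (S : Subgroup G) := hmem y (hT ((le_sup_right : Subgroup.zpowers y ≤ _) (Subgroup.mem_zpowers y)))
  have h3 : h * x * h⁻¹ = x := by
    have := hU h⁻¹ (by rw [inv_inv]; exact h1)
    rwa [inv_inv] at this
  have h4 : h * y * h⁻¹ = x := by
    have h5 : h * y * h⁻¹ = (h * g)⁻¹⁻¹ * x * (h * g)⁻¹ := by rw [hy]; group
    have := hU (h * g)⁻¹ (by rw [← h5]; exact h2)
    rw [h5]; exact this
  have h6 : h * y * h⁻¹ = h * x * h⁻¹ := by rw [h3, h4]
  exact mul_left_cancel (mul_right_cancel h6)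

end Cfsg.Agent.S3064
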