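import Cfsg.Statements.S3065
import Cfsg.Agent.H19.OutSolv

set_option autoImplicit false
set_option linter.style.haveILetI false
open Cfsg

namespace Cfsg.Agent.S3065

/-- Let G be a finite non-abelian simple group with a nontrivial Sylow 2-subgroup S (that is, G has even order). If the automorphism group of S is solvable, then the outer automorphism group Out(G) = Aut(G)/Inn(G) is solvable. -/
theorem result {G : Type*} [Group G] [Finite G] [IsSimpleGroup G]
    (hG : ¬ IsMulCommutative G) (S : Sylow 2 G) (hS1 : (S : Subgroup G) ≠ ⊥) (hS : Group.IsSolvable (MulAut ↥S)) :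
    Group.IsSolvable (Cfsg.Out G) := by

  haveI := hS
  exact Cfsg.Agent.H19.out_solvable_of_range S (Cfsg.Agent.H19.hO_of_simple hG S hS1)
    (solvable_of_solvable_injective (Subgroup.subtype_injective _))


end Cfsg.Agent.S3065
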