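import Cfsg.Statements.S3067
import Cfsg.Agent.H19.CopInv2
import Cfsg.Agent.H4.ZStarF

set_option autoImplicit false
set_option linter.style.haveILetI false
open Cfsg

namespace Cfsg.Agent.S3067

/-- Let G be a finite non-abelian simple group, τ an involution of G, and α a nontrivial automorphism of G whose order is coprime to the order of G. Then α moves some element of the centralizer of τ: α does not fix C_G(τ) elementwise. -/
theorem result {G : Type*} [Group G] [Finite G] [IsSimpleGroup G]
    (hG : ¬ IsMulCommutative G) (τ : G) (hτ : orderOf τ = 2) (α : MulAut G) (hα : α ≠ 1)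
    (hcop : (orderOf α).Coprime (Nat.card G)) :
    ∃ c ∈ Subgroup.centralizer ({τ} : Set G), α c ≠ c := by

  classical
  by_contra hcon
  push Not at hcon
  have hcenter : Subgroup.center G = ⊥ := by
    rcases (inferInstance : (Subgroup.center G).Normal).eq_bot_or_eq_top with h | h
    · exact h
    · exfalso
      apply hG
      refine ⟨⟨fun a b => ?_⟩⟩
      have hb : b ∈ Subgroup.center G := by rw [h]; exact Subgroup.mem_top _
      exact (Subgroup.mem_center_iff.1 hb a)
  have hinj : Function.Injective (MulAut.conj : G →* MulAut G) := by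
    rw [injective_iff_map_eq_one]
    intro a ha
    have : a ∈ Subgroup.center G := by
      rw [Subgroup.mem_center_iff]
      intro g
      have h1 : (MulAut.conj a) g = g := by rw [ha]; rfl
      rw [MulAut.conj_apply, mul_inv_eq_iff_eq_mul] at h1
      exact h1.symm
    rw [hcenter, Subgroup.mem_bot] at this
    exact this
  have hconj : ∀ g : G, α * MulAut.conj g * α⁻¹ = MulAut.conj (α g) := by
    intro g
    ext x
    simp [MulAut.conj_apply, MulAut.mul_apply]
  have hfixiff : ∀ g : G, MulAut.conj g ∈ Subgroup.centralizer ((Subgroup.zpowers α : Subgroup (MulAut G)) : Set (MulAut G)) ↔ α g = g := by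
    intro g
    constructor
    · intro h
      have h1 := Subgroup.mem_centralizer_iff.1 h α (Subgroup.mem_zpowers α)
      apply hinj
      rw [← hconj g, h1]; group
    · intro h
      have h1 := hconj g
      rw [h, mul_inv_eq_iff_eq_mul] at h1
      rw [Subgroup.mem_centralizer_iff]
      rintro _ ⟨k, rfl⟩
      exact (Commute.zpow_left (show Commute α (MulAut.conj g) from h1) k)
  set N : Subgroup (MulAut G) := (MulAut.conj : G →* MulAut G).range with hN
  have hcard : Nat.card N = Nat.card G := (Nat.card_congr (MonoidHom.ofInjective hinj).toEquiv).symm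
  have hord : orderOf (MulAut.conj τ) = 2 := by rw [orderOf_injective _ hinj, hτ]
  have hα1 : ∀ g : G, τ * g = g * τ → α g = g := by
    intro g hg
    apply hcon g
    rw [Subgroup.mem_centralizer_iff]
    intro x hx
    rw [Set.mem_singleton_iff] at hx
    rw [hx]; exact hg
  have hdat : Cfsg.Agent.H19.CopInv (Subgroup.zpowers α) N (MulAut.conj τ) := by
    refine ⟨?_, ?_, ?_, hord, ⟨τ, rfl⟩, ?_⟩
    · apply Cfsg.Agent.H23.le_normalizer_of_conj_mem
      rintro a ha _ ⟨g, rfl⟩
      refine ⟨a g, ?_⟩
      ext x
      simp [MulAut.conj_apply, MulAut.mul_apply]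
    · rw [Nat.card_zpowers, hcard]; exact hcop
    · left; infer_instance
    · rintro _ ⟨g, rfl⟩ hx
      rw [hfixiff]
      apply hα1
      rw [← map_mul, ← map_mul] at hx
      exact (hinj hx).symm
  have hiso : Cfsg.IsIsolatedInvolution τ := by
    refine ⟨hτ, fun g hg => ?_⟩
    have h1 : α (g * τ * g⁻¹) = g * τ * g⁻¹ := hα1 _ hg
    have h2 : MulAut.conj g * MulAut.conj τ * (MulAut.conj g)⁻¹ ∈ Subgroup.centralizer ((Subgroup.zpowers α : Subgroup (MulAut G)) : Set (MulAut G)) := by
      rw [← map_mul, ← map_inv, ← map_mul, hfixiff]; exact h1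
    obtain ⟨M, hM1, hM2, hM3, hM4⟩ := hdat.normal_sub (x := MulAut.conj g) ⟨g, rfl⟩ h2
    have hnorm : (M.comap (MulAut.conj : G →* MulAut G)).Normal := by
      constructor
      intro n hn y
      rw [Subgroup.mem_comap] at hn ⊢
      rw [map_mul, map_mul, map_inv]
      exact (Subgroup.mem_normalizer_iff.1 (hM3 ⟨y, rfl⟩) _).1 hn
    rcases hnorm.eq_bot_or_eq_top with h | h
    · have h3 : τ⁻¹ * (g * τ * g⁻¹) ∈ M.comap (MulAut.conj : G →* MulAut G) := by
        rw [Subgroup.mem_comap]
        simp only [map_mul, map_inv]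
        exact hM4
      rw [h, Subgroup.mem_bot, inv_mul_eq_one] at h3
      exact h3.symm
    · exfalso
      apply hα
      ext x
      have hx : x ∈ M.comap (MulAut.conj : G →* MulAut G) := by rw [h]; exact Subgroup.mem_top _
      exact (hfixiff x).1 (hM2 hx)
  have hodd : Cfsg.oddCore G = ⊥ := by
    rcases (inferInstance : (Cfsg.oddCore G).Normal).eq_bot_or_eq_top with h | h
    · exact h
    · exfalso
      have h1 := Cfsg.Agent.H4.oddCore_odd G
      rw [h, Subgroup.card_top] at h1
      have h2 : 2 ∣ Nat.card G := by rw [← hτ]; exact orderOf_dvd_natCard τ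
      rw [← Nat.not_even_iff_odd] at h1
      exact h1 (even_iff_two_dvd.2 h2)
  have hcen := Cfsg.Agent.H4.zstar_central hodd hiso
  rw [hcenter, Subgroup.mem_bot] at hcen
  rw [hcen, orderOf_one] at hτ
  omega


end Cfsg.Agent.S3067
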