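import Cfsg.Statements.S3071
import Cfsg.Agent.H19.SCFus4

set_option autoImplicit false
set_option linter.style.haveILetI false
open Cfsg

namespace Cfsg.Agent.S3071

theorem sec_bounded {G : Type*} [Group G] {H : Subgroup G} {X : Type*} [Group X]
    (h : H2.HasSec H X) : ∃ (K L : Subgroup G) (hL : (L.subgroupOf K).Normal), K ≤ H ∧
      Nonempty ((K ⧸ L.subgroupOf K) ≃* X) := by
  obtain ⟨K, L, hL, ⟨e⟩⟩ := h
  let φ : (K.map H.subtype) →* X := e.toMonoidHom.comp ((QuotientGroup.mk' _).comp
    (K.equivMapOfInjective _ H.subtype_injective).symm.toMonoidHom)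
  have hφs : Function.Surjective φ := e.surjective.comp ((QuotientGroup.mk'_surjective _).comp
    (K.equivMapOfInjective _ H.subtype_injective).symm.surjective)
  have hk : φ.ker = (L.map H.subtype).subgroupOf (K.map H.subtype) := by
    ext x
    obtain ⟨y, rfl⟩ := (K.equivMapOfInjective _ H.subtype_injective).surjective x
    rw [MonoidHom.mem_ker]
    have h1 : φ ((K.equivMapOfInjective _ H.subtype_injective) y) = e (QuotientGroup.mk y) := by
      show e (QuotientGroup.mk ((K.equivMapOfInjective _ H.subtype_injective).symm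
        ((K.equivMapOfInjective _ H.subtype_injective) y))) = _
      rw [MulEquiv.symm_apply_apply]
    rw [h1, map_eq_one_iff e e.injective, QuotientGroup.eq_one_iff, Subgroup.mem_subgroupOf,
      Subgroup.mem_subgroupOf]
    constructor
    · intro h
      exact ⟨y, h, rfl⟩
    · rintro ⟨z, hz, hzy⟩
      have : z = (y : H) := H.subtype_injective hzy
      rw [← this]; exact hz
  haveI hn : ((L.map H.subtype).subgroupOf (K.map H.subtype)).Normal := by
    rw [← hk]; infer_instance
  exact ⟨K.map H.subtype, L.map H.subtype, hn, Subgroup.map_subtype_le _,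
    ⟨(QuotientGroup.quotientMulEquivOfEq hk.symm).trans
      (QuotientGroup.quotientKerEquivOfSurjective φ hφs)⟩⟩

/-- Let p be an odd prime and S a Sylow p-subgroup of the finite group G such that, for every subgroup P with Z(S) ≤ P ≤ S, the normalizer N_G(P) has no section isomorphic to SL₂(p). Let J(S) be the subgroup generated by the abelian subgroups of S of largest order. Then two elements of S are conjugate in G if and only if they are conjugate in N_G(Z(J(S))). -/
theorem result {G : Type*} [Group G] [Finite G] {p : ℕ} [Fact p.Prime]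
    (hp : p ≠ 2) (S : Sylow p G)
    (hfree : ∀ P : Subgroup G, (S : Subgroup G) ⊓ Subgroup.centralizer ((S : Subgroup G) : Set G) ≤ P → P ≤ S →
      ¬ ∃ (H K : Subgroup G) (hK : (K.subgroupOf H).Normal), H ≤ Subgroup.normalizer (P : Set G) ∧
        Nonempty ((H ⧸ K.subgroupOf H) ≃* Matrix.SpecialLinearGroup (Fin 2) (ZMod p))) :
    ∀ x ∈ S, ∀ y ∈ S, (∃ g : G, g * x * g⁻¹ = y) ↔
      ∃ n ∈ Subgroup.normalizer (Cfsg.centerThompsonAOf (S : Subgroup G) : Set G), n * x * n⁻¹ = y := by
  have hfree' : ∀ P : Subgroup G, (S : Subgroup G) ⊓ Subgroup.centralizer ((S : Subgroup G) : Set G) ≤ P → P ≤ S →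
      ¬ H2.HasSec (Subgroup.normalizer (P : Set G)) (Matrix.SpecialLinearGroup (Fin 2) (ZMod p)) := by
    intro P h1 h2 h3
    obtain ⟨K, L, hL, hK, e⟩ := sec_bounded h3
    exact hfree P h1 h2 ⟨K, L, hL, hK, e⟩
  have hall := H19.mtAll_of_local_cen (H19.scFun_ZJa hp).npc (fun T _ => H19.center_le_WA_ZJa T) (L.sylIn_top S)
    (fun U hU hfn => by
      have h1 := H19.SFC.mtIn (H19.scFun_ZJa hp).npc
        (H19.sfc_of_slfree hp (H19.scFun_ZJa hp) (hfree' U hU hfn.1)) (H19.SC.self (S : Subgroup G)) hfn.2 inf_le_left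
      rwa [inf_eq_left.2 (inf_le_left : (S : Subgroup G) ⊓ L.nz U ≤ S)] at h1)
  rw [H2.WA_Zf] at hall
  intro x hx y hy
  constructor
  · rintro ⟨g, rfl⟩
    obtain ⟨n, hn, h⟩ := hall (Subgroup.zpowers x) g (by rwa [Subgroup.zpowers_le]) (by
      rw [L.cj_le_iff, Subgroup.zpowers_le, L.mem_cj]
      rw [inv_inv]
      exact hy)
    exact ⟨n, hn, h x (Subgroup.mem_zpowers x)⟩
  · rintro ⟨n, -, h⟩
    exact ⟨n, h⟩


end Cfsg.Agent.S3071
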