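import Cfsg.Statements.S3075
import Cfsg.Agent.H19.PlaneSplit

set_option autoImplicit false
set_option linter.style.haveILetI false
open Cfsg

namespace Cfsg.Agent.S3075

open Cfsg.Agent.H19

/-- Let p be an odd prime and N a finite group with a normal elementary abelian subgroup A of order p² that is its own centralizer in N, such that N/A is isomorphic to SL₂(p) (over any field F with p elements). Then N splits over A: some subgroup U of N satisfies A ∩ U = 1 and AU = N. -/
theorem result {N : Type*} [Group N] [Finite N] {p : ℕ} [Fact p.Prime] (hp : p ≠ 2)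
    (A : Subgroup N) [A.Normal] (hAcomm : IsMulCommutative A) (hAcard : Nat.card A = p ^ 2) (hAexp : Monoid.exponent ↥A = p)
    (hAself : Subgroup.centralizer (A : Set N) = A)
    {F : Type*} [Field F] [Fintype F] (hF : Fintype.card F = p) (e : N ⧸ A ≃* Matrix.SpecialLinearGroup (Fin 2) F) :
    ∃ U : Subgroup N, A ⊓ U = ⊥ ∧ A ⊔ U = ⊤ := by
  classical
  have hpp : p.Prime := Fact.out
  obtain ⟨i', j', hij'⟩ := sl2_neg_one_commutator (F := F)
  obtain ⟨i, hi⟩ := QuotientGroup.mk_surjective (e.symm i')
  obtain ⟨j, hj⟩ := QuotientGroup.mk_surjective (e.symm j')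
  obtain ⟨z, hz⟩ := QuotientGroup.mk_surjective (e.symm (-1))
  have hi2 : e (i : N ⧸ A) = i' := by rw [hi, MulEquiv.apply_symm_apply]
  have hj2 : e (j : N ⧸ A) = j' := by rw [hj, MulEquiv.apply_symm_apply]
  have hz2 : e (z : N ⧸ A) = -1 := by rw [hz, MulEquiv.apply_symm_apply]
  have key : ∀ n : N, n ∈ A ↔ e (n : N ⧸ A) = 1 := by
    intro n
    rw [← QuotientGroup.eq_one_iff (N := A) n, ← map_one e, e.injective.eq_iff]
  have hne : (-1 : Matrix.SpecialLinearGroup (Fin 2) F) ≠ 1 := by
    intro h
    have h1 := congrArg (fun M : Matrix.SpecialLinearGroup (Fin 2) F => M.1 0 0) h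
    simp at h1
    have h2 : (2 : F) = 0 := by linear_combination -h1
    have h3 : (p : F) = 0 := by rw [← hF]; exact FiniteField.cast_card_eq_zero F
    obtain ⟨r, hr⟩ := hpp.odd_of_ne_two hp
    rw [hr] at h3
    push_cast at h3
    rw [h2, zero_mul, zero_add] at h3
    exact one_ne_zero h3
  refine plane_split hp A (fun a ha b hb => ?_) hAcard (fun a ha => ?_) hAself i j z ?_ ?_ ?_ ?_
  · exact congrArg Subtype.val (hAcomm.is_comm.comm (⟨a, ha⟩ : A) ⟨b, hb⟩)
  · have h1 : (⟨a, ha⟩ : A) ^ p = 1 := by rw [← hAexp]; exact Monoid.pow_exponent_eq_one _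
    exact congrArg Subtype.val h1
  · rw [key]
    simp only [QuotientGroup.mk_mul, QuotientGroup.mk_inv, QuotientGroup.mk_pow]
    rw [map_mul, map_mul, map_mul, map_mul, map_inv, map_inv, map_inv, hi2, hj2, hz2, hij']
    group
  · rw [key, hz2]; exact hne
  · rw [key]
    simp only [QuotientGroup.mk_mul, QuotientGroup.mk_inv, QuotientGroup.mk_pow]
    rw [map_pow, hz2]
    simp
  · intro n
    rw [key]
    simp only [QuotientGroup.mk_mul, QuotientGroup.mk_inv, QuotientGroup.mk_pow]
    rw [map_mul, map_mul, map_mul, map_inv, map_inv, hz2]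
    simp

end Cfsg.Agent.S3075
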