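import Cfsg.Statements.S3076
import Cfsg.Agent.H19.CentricRadical

set_option autoImplicit false
set_option linter.style.haveILetI false
open Cfsg

namespace Cfsg.Agent.S3076

open Cfsg.Agent Cfsg.Agent.H19

/-- Let P be a Sylow p-subgroup of the finite group G and H ≤ P a subgroup with N_P(H) a Sylow p-subgroup of N_G(H). Let N be the preimage in N_G(H) of O_p(N_G(H)/C_G(H)). Then H is a Sylow p-subgroup of N if and only if C_P(H) ≤ H and O_{p',p}(N_G(H)) = H·C_G(H). -/
theorem result {G : Type*} [Group G] [Finite G] {p : ℕ} [Fact p.Prime]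
    (P : Sylow p G) (H : Subgroup G) (hHP : H ≤ (P : Subgroup G))
    (hSyl : ¬ p ∣ ((P : Subgroup G) ⊓ Subgroup.normalizer (H : Set G)).relIndex (Subgroup.normalizer (H : Set G)))
    [hC : ((Subgroup.centralizer (H : Set G)).subgroupOf (Subgroup.normalizer (H : Set G))).Normal] :
    (H ≤ ((Cfsg.pCore p (↥(Subgroup.normalizer (H : Set G)) ⧸
              (Subgroup.centralizer (H : Set G)).subgroupOf (Subgroup.normalizer (H : Set G)))).comap
            (QuotientGroup.mk' _)).map (Subgroup.normalizer (H : Set G)).subtype ∧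
      ¬ p ∣ H.relIndex (((Cfsg.pCore p (↥(Subgroup.normalizer (H : Set G)) ⧸
              (Subgroup.centralizer (H : Set G)).subgroupOf (Subgroup.normalizer (H : Set G)))).comap
            (QuotientGroup.mk' _)).map (Subgroup.normalizer (H : Set G)).subtype)) ↔
    ((P : Subgroup G) ⊓ Subgroup.centralizer (H : Set G) ≤ H ∧
      (Cfsg.pPrimePCore p ↥(Subgroup.normalizer (H : Set G))).map (Subgroup.normalizer (H : Set G)).subtype =
        H ⊔ Subgroup.centralizer (H : Set G)) := by
  classical
  set M := Subgroup.normalizer (H : Set G) with hM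
  have hHM : H ≤ M := Subgroup.le_normalizer
  have hCM : Subgroup.centralizer (H : Set G) ≤ M := by
    intro c hc
    rw [hM, H18.mem_normalizer_iff_conj]
    intro x
    rw [Subgroup.mem_centralizer_iff] at hc
    constructor
    · intro hx
      rw [← hc x hx, mul_inv_cancel_right]
      exact hx
    · intro hx
      have h1 := hc _ hx
      have h2 : c * x * c⁻¹ = x := by
        have h3 : c * x = c * (c * x * c⁻¹) := by
          calc c * x = (c * x * c⁻¹) * c := by group
            _ = _ := h1
        exact (mul_left_cancel h3).symm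
      rw [← h2]; exact hx
  haveI hHn : (H.subgroupOf M).Normal := (H18.normal_subgroupOf_iff hHM).mpr le_rfl
  have hHp : IsPGroup p H := H18.isPGroup_mono P.2 hHP
  have hC' : (Subgroup.centralizer (H : Set G)).subgroupOf M = Subgroup.centralizer ((H.subgroupOf M : Subgroup M) : Set M) := by
    ext x
    rw [Subgroup.mem_subgroupOf, Subgroup.mem_centralizer_iff, Subgroup.mem_centralizer_iff]
    constructor
    · intro h y hy
      exact Subtype.ext (h y hy)
    · intro h y hy
      exact congrArg Subtype.val (h ⟨y, hHM hy⟩ hy)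
  have hT : ¬ p ∣ (((P : Subgroup G) ⊓ M).subgroupOf M).index := hSyl
  have key := centric_radical_iff (H.subgroupOf M) ((Subgroup.centralizer (H : Set G)).subgroupOf M)
    (((P : Subgroup G) ⊓ M).subgroupOf M) (H18.isPGroup_subgroupOf hHp) hC'
    (H18.isPGroup_subgroupOf (H18.isPGroup_mono P.2 inf_le_left)) hT
  set N' := ((Cfsg.pCore p (↥M ⧸ (Subgroup.centralizer (H : Set G)).subgroupOf M)).comap
            (QuotientGroup.mk' _)) with hN'
  have e1 : H ≤ N'.map M.subtype ↔ H.subgroupOf M ≤ N' := by
    constructor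
    · intro h x hx
      obtain ⟨y, hy, hyx⟩ := h hx
      rw [← Subtype.ext hyx]; exact hy
    · intro h x hx
      exact ⟨⟨x, hHM hx⟩, h hx, rfl⟩
  have e2 : H.relIndex (N'.map M.subtype) = (H.subgroupOf M).relIndex N' := by
    have h1 : H = (H.subgroupOf M).map M.subtype := by
      rw [Subgroup.subgroupOf_map_subtype, inf_of_le_left hHM]
    conv_lhs => rw [h1]
    exact Subgroup.relIndex_map_map_of_injective _ _ M.subtype_injective
  have e3 : (P : Subgroup G) ⊓ Subgroup.centralizer (H : Set G) ≤ H ↔
      ((P : Subgroup G) ⊓ M).subgroupOf M ⊓ (Subgroup.centralizer (H : Set G)).subgroupOf M ≤ H.subgroupOf M := by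
    constructor
    · rintro h x ⟨hx1, hx2⟩
      exact h ⟨hx1.1, hx2⟩
    · rintro h x ⟨hx1, hx2⟩
      have : (⟨x, hCM hx2⟩ : M) ∈ H.subgroupOf M := h ⟨⟨hx1, hCM hx2⟩, hx2⟩
      exact this
  have e4 : (Cfsg.pPrimePCore p M).map M.subtype = H ⊔ Subgroup.centralizer (H : Set G) ↔
      Cfsg.pPrimePCore p M = H.subgroupOf M ⊔ (Subgroup.centralizer (H : Set G)).subgroupOf M := by
    have h1 : H ⊔ Subgroup.centralizer (H : Set G) =
        (H.subgroupOf M ⊔ (Subgroup.centralizer (H : Set G)).subgroupOf M).map M.subtype := by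
      rw [Subgroup.map_sup, Subgroup.subgroupOf_map_subtype, Subgroup.subgroupOf_map_subtype,
        inf_of_le_left hHM, inf_of_le_left hCM]
    rw [h1]
    exact (Subgroup.map_injective M.subtype_injective).eq_iff
  rw [e1, e2, e3, e4]
  exact key

end Cfsg.Agent.S3076
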