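import Cfsg.Statements.S3081
import Cfsg.Agent.H19.SCFus4
import Cfsg.Agent.H2.QD8

set_option autoImplicit false
set_option linter.style.haveILetI false
open Cfsg

namespace Cfsg.Agent.S3081

/-- Let p be an odd prime, G a finite group in which Qd(p) (the natural semidirect product of an elementary abelian group of order p² by SL₂(p)) is not involved, P a Sylow p-subgroup and D a subgroup of P strongly closed in P with respect to G. Then N_G(Z(J(D))) controls strong G-fusion in P (for every subset A of P and every g ∈ G with gAg⁻¹ ⊆ P, some element of that normalizer acts on A exactly as g does; J(D) is generated by the abelian subgroups of D of largest order), and so does N_G(Ω₁(Z(J_e(D)))) (J_e(D) generated by the elementary abelian subgroups of largest order). -/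
theorem result {G : Type*} [Group G] [Finite G] {p : ℕ} [Fact p.Prime] (hp : p ≠ 2) (P : Sylow p G) (D : Subgroup G) (hD : Cfsg.IsStronglyClosed D (P : Subgroup G)) (hqd : ¬ Cfsg.Involves ↥(Cfsg.qd p) G) : (∀ A : Set G, A ⊆ (P : Subgroup G) → Cfsg.ControlsStrongFusionOf (Subgroup.normalizer ((Cfsg.centerThompsonAOf D) : Set G)) (P : Subgroup G) A) ∧ (∀ A : Set G, A ⊆ (P : Subgroup G) → Cfsg.ControlsStrongFusionOf (Subgroup.normalizer ((Cfsg.omegaOne p (Cfsg.centerThompsonOf p D)) : Set G)) (P : Subgroup G) A) := by
  have hG : ¬ H2.HasSec G ↥(Cfsg.qd p) := fun h => hqd h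
  have key : ∀ {W : ∀ (S : Type u_1) [Group S], Subgroup S}, H19.SCFun p W → H19.SFC p W G := by
    intro W hW
    refine H19.sfc_class hW (fun G _ => ¬ H2.HasSec G ↥(Cfsg.qd p))
      (fun G _ _ hG L hL => hG hL.of_subgroup)
      (fun G _ _ hG N _ hN => hG (hN.of_surjective (QuotientGroup.mk'_surjective N)))
      (fun G _ _ hG _ P _ hP => H19.nps_isPStableOn (H2.normalizerPStable_of_qd_free hp hG) P hP) _ G rfl hG
  constructor
  · intro A hA
    have h := key (H19.scFun_ZJa hp) P D (L.sylIn_top P) hD
    rw [H2.WA_Zf] at h
    exact h.controls A hA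
  · intro A hA
    have h := key (H19.scFun_oct hp) P D (L.sylIn_top P) hD
    rw [H19.WA_oct] at h
    exact h.controls A hA


end Cfsg.Agent.S3081
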