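import Cfsg.Statements.S3086
import Cfsg.Agent.H19.PGV12

set_option autoImplicit false
set_option linter.style.haveILetI false
open Cfsg

namespace Cfsg.Agent.S3086

/-- The P(G,V)-theorem. Let p be a prime, G a finite group acting faithfully and linearly on a finite vector space V over the field with p elements, and A a nontrivial elementary abelian p-subgroup of G such that |A|·|C_V(A)| ≥ |B|·|C_V(B)| for every subgroup B of A. Then A normalizes every component (subnormal quasisimple subgroup) of G. -/
theorem result {G V : Type*} [Group G] [Finite G] [AddCommGroup V] [Finite V] (p : ℕ) [Fact p.Prime] [Module (ZMod p) V]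
    (ρ : Representation (ZMod p) G V) (hρ : Function.Injective ρ)
    (A : Subgroup G) (hA : A ≠ ⊥) (hAel : Cfsg.IsElementaryAbelian p A)
    (hP : ∀ B : Subgroup G, B ≤ A →
      Nat.card ↥B * Nat.card {v : V // ∀ b ∈ B, ρ b v = v} ≤ Nat.card ↥A * Nat.card {v : V // ∀ a ∈ A, ρ a v = v}) :
    ∀ K : Subgroup G, Cfsg.IsComponent K → A ≤ Subgroup.normalizer (K : Set G) := by
  classical
  intro K hK a ha
  letI act : DistribMulAction G V :=
    { smul := fun g v => ρ g v
      one_smul := fun v => by
        show ρ 1 v = v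
        rw [map_one]; rfl
      mul_smul := fun g h v => by
        show ρ (g * h) v = ρ g (ρ h v)
        rw [map_mul]; rfl
      smul_zero := fun g => map_zero (ρ g)
      smul_add := fun g v w => map_add (ρ g) v w }
  have hsm : ∀ (g : G) (v : V), g • v = ρ g v := fun g v => rfl
  have hpV : ∀ v : V, p • v = 0 := by
    intro v
    have h1 : ((p : ZMod p) : ZMod p) • v = p • v := by
      rw [Nat.cast_smul_eq_nsmul]
    rw [← h1, ZMod.natCast_self, zero_smul]
  have hf : ∀ g : G, (∀ v : V, g • v = v) → g = 1 := by
    intro g hg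
    apply hρ
    rw [map_one]
    ext v
    exact hg v
  have hAc : ∀ a ∈ A, ∀ b ∈ A, a * b = b * a := by
    intro a ha b hb
    exact congrArg Subtype.val (hAel.1.is_comm.comm ⟨a, ha⟩ ⟨b, hb⟩)
  have hcf : ∀ B : Subgroup G, Nat.card {v : V // ∀ b ∈ B, ρ b v = v} = Nat.card (H19.PGV.fixS V B) := fun B => rfl
  have hm : ∀ B : Subgroup G, B ≤ A → Nat.card B * Nat.card (H19.PGV.fixS V B) ≤ Nat.card A * Nat.card (H19.PGV.fixS V A) := by
    intro B hB
    have := hP B hB
    rwa [hcf, hcf] at this
  have h := H19.PGV.top_thm hpV hf hAc hAel.2 hm hK a ha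
  rw [H19.PGV.cj_eq_iff_norm] at h
  rw [Subgroup.mem_normalizer_iff]
  exact h


end Cfsg.Agent.S3086
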