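import Cfsg.Statements.S3087

set_option autoImplicit false
set_option linter.style.haveILetI false
open Cfsg

namespace Cfsg.Agent.S3087


theorem card_relIndex {V : Type*} [Group V] {U C : Subgroup V} (hU : U ≤ C) :
    Nat.card U * U.relIndex C = Nat.card C := by
  have := Subgroup.relIndex_mul_relIndex ⊥ U C bot_le hU
  rwa [Subgroup.relIndex_bot_left, Subgroup.relIndex_bot_left] at this

/-- `|U| |W| ≤ |C| |U ⊓ W|` for subgroups `U`, `W` of `C` -/
theorem card_mul_card_le {V : Type*} [Group V] [Finite V] (U W C : Subgroup V) (hU : U ≤ C) (hW : W ≤ C) :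
    Nat.card U * Nat.card W ≤ Nat.card C * Nat.card (U ⊓ W : Subgroup V) := by
  have h1 : Nat.card (U ⊓ W : Subgroup V) * U.relIndex W = Nat.card W := by
    rw [← Subgroup.inf_relIndex_right, card_relIndex inf_le_right]
  have h2 : Nat.card U * U.relIndex C = Nat.card C := card_relIndex hU
  have h3 : U.relIndex W ≤ U.relIndex C :=
    Subgroup.relIndex_le_of_le_right hW (by
      intro h
      rw [h, mul_zero] at h2
      exact Nat.card_pos.ne h2)
  calc Nat.card U * Nat.card W = Nat.card U * U.relIndex W * Nat.card (U ⊓ W : Subgroup V) := by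
        rw [← h1]; ring
    _ ≤ Nat.card U * U.relIndex C * Nat.card (U ⊓ W : Subgroup V) := by gcongr
    _ = _ := by rw [h2]

theorem add_card_mul_card_le {V : Type*} [AddGroup V] [Finite V] (U W C I : AddSubgroup V) (hU : U ≤ C) (hW : W ≤ C)
    (hI : ∀ x, x ∈ I ↔ x ∈ U ∧ x ∈ W) :
    Nat.card U * Nat.card W ≤ Nat.card C * Nat.card I := by
  haveI hfin : Finite (Multiplicative V) := ‹Finite V›
  have h := card_mul_card_le (V := Multiplicative V) (AddSubgroup.toSubgroup U) (AddSubgroup.toSubgroup W)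
    (AddSubgroup.toSubgroup C) hU hW
  have e : Nat.card ↥(AddSubgroup.toSubgroup U ⊓ AddSubgroup.toSubgroup W : Subgroup (Multiplicative V)) = Nat.card I :=
    Nat.card_congr (Equiv.subtypeEquivRight fun x => (hI x).symm)
  rw [e] at h
  exact h

/-- the fixed points of a set of elements as an additive subgroup -/
def fixOf {G V : Type*} [Group G] [AddCommGroup V] {k : Type*} [CommSemiring k] [Module k V]
    (ρ : Representation k G V) (B : Subgroup G) : AddSubgroup V where
  carrier := {v | ∀ b ∈ B, ρ b v = v}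
  add_mem' := fun {x y} hx hy b hb => by rw [map_add, hx b hb, hy b hb]
  zero_mem' := fun b _ => map_zero _
  neg_mem' := fun {x} hx b hb => by rw [map_neg, hx b hb]

/-- Let p be a prime, G a finite group acting linearly on a finite vector space V over the field with p elements, W a G-invariant subspace, and A a subgroup of G with |A|·|C_V(A)| ≥ |B|·|C_V(B)| for every subgroup B of A. Then |A|·|C_W(A)| ≥ |B|·|C_W(B)| for every subgroup B of A that contains C_A(W); that is, the image of A in the group induced on W satisfies the same maximality condition. -/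
theorem result {G V : Type*} [Group G] [Finite G] [AddCommGroup V] [Finite V] (p : ℕ) [Fact p.Prime] [Module (ZMod p) V]
    (ρ : Representation (ZMod p) G V) (W : Submodule (ZMod p) V) (hW : ∀ g : G, ∀ w ∈ W, ρ g w ∈ W)
    (A : Subgroup G)
    (hP : ∀ B : Subgroup G, B ≤ A →
      Nat.card ↥B * Nat.card {v : V // ∀ b ∈ B, ρ b v = v} ≤ Nat.card ↥A * Nat.card {v : V // ∀ a ∈ A, ρ a v = v})
    (B : Subgroup G) (hBA : B ≤ A) (hCB : ∀ a ∈ A, (∀ w ∈ W, ρ a w = w) → a ∈ B) :
    Nat.card ↥B * Nat.card {w : W // ∀ b ∈ B, ρ b w = w} ≤ Nat.card ↥A * Nat.card {w : W // ∀ a ∈ A, ρ a w = w} := by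

  set F := fixOf ρ with hF
  set W' : AddSubgroup V := W.toAddSubgroup
  have hBA' : F A ≤ F B := fun v hv b hb => hv b (hBA hb)
  have e1 : ∀ X : Subgroup G, Nat.card {w : W // ∀ b ∈ X, ρ b w = w} = Nat.card (F X ⊓ W' : AddSubgroup V) := by
    intro X
    refine Nat.card_congr ⟨fun w => ⟨w.1.1, w.2, w.1.2⟩, fun v => ⟨⟨v.1, v.2.2⟩, v.2.1⟩, fun w => rfl, fun v => rfl⟩
  have h1 := add_card_mul_card_le (F A) (F B ⊓ W') (F B) (F A ⊓ W') hBA' inf_le_left (by
    intro x
    exact ⟨fun h => ⟨h.1, hBA' h.1, h.2⟩, fun h => ⟨h.1, h.2.2⟩⟩)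
  have h2 := hP B hBA
  have e2 : ∀ X : Subgroup G, Nat.card {v : V // ∀ b ∈ X, ρ b v = v} = Nat.card (F X) := fun X => rfl
  rw [e2, e2] at h2
  rw [e1, e1]
  have hpos : 0 < Nat.card (F A) := Nat.card_pos
  refine Nat.le_of_mul_le_mul_left ?_ hpos
  calc Nat.card (F A) * (Nat.card B * Nat.card (F B ⊓ W' : AddSubgroup V))
      = Nat.card B * (Nat.card (F A) * Nat.card (F B ⊓ W' : AddSubgroup V)) := by ring
    _ ≤ Nat.card B * (Nat.card (F B) * Nat.card (F A ⊓ W' : AddSubgroup V)) := by gcongr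
    _ = (Nat.card B * Nat.card (F B)) * Nat.card (F A ⊓ W' : AddSubgroup V) := by ring
    _ ≤ (Nat.card A * Nat.card (F A)) * Nat.card (F A ⊓ W' : AddSubgroup V) := by gcongr
    _ = _ := by ring


end Cfsg.Agent.S3087
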