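import Cfsg.Statements.S3155
import Mathlib

set_option autoImplicit false
open Cfsg

namespace Cfsg.Agent.S3155

/-- In the automorphism group of the direct product of three cyclic groups of order 4, the automorphism inverting every element is not a square. -/
theorem result {B : Type*} [CommGroup B] [Finite B] (hB : Nonempty (B ≃* Multiplicative (ZMod 4 × ZMod 4 × ZMod 4)))
    (τ : B ≃* B) : τ.trans τ ≠ MulEquiv.inv B := by
  intro h
  obtain ⟨e⟩ := hB
  let f : (ZMod 4 × ZMod 4 × ZMod 4) →+ (ZMod 4 × ZMod 4 × ZMod 4) :=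
    { toFun := fun x => Multiplicative.toAdd (e (τ (e.symm (Multiplicative.ofAdd x))))
      map_zero' := by
        rw [ofAdd_zero, map_one, map_one, map_one, toAdd_one]
      map_add' := by
        intro x y
        rw [ofAdd_add, map_mul, map_mul, map_mul, toAdd_mul] }
  let L : (ZMod 4 × ZMod 4 × ZMod 4) →ₗ[ZMod 4] (ZMod 4 × ZMod 4 × ZMod 4) := AddMonoidHom.toZModLinearMap 4 f
  have hLL : L ∘ₗ L = -LinearMap.id := by
    refine LinearMap.ext fun x => ?_
    have h1 : τ (τ (e.symm (Multiplicative.ofAdd x))) = (e.symm (Multiplicative.ofAdd x))⁻¹ := by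
      have := congrArg (fun g => g (e.symm (Multiplicative.ofAdd x))) h
      simpa using this
    change Multiplicative.toAdd (e (τ (e.symm (Multiplicative.ofAdd (Multiplicative.toAdd (e (τ (e.symm (Multiplicative.ofAdd x))))))))) = -x
    rw [ofAdd_toAdd, MulEquiv.symm_apply_apply, h1, map_inv, MulEquiv.apply_symm_apply]
    rfl
  have hdet : LinearMap.det L * LinearMap.det L = -1 := by
    rw [← LinearMap.det_comp, hLL]
    have : (-LinearMap.id : (ZMod 4 × ZMod 4 × ZMod 4) →ₗ[ZMod 4] (ZMod 4 × ZMod 4 × ZMod 4)) = (-1 : ZMod 4) • LinearMap.id := by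
      refine LinearMap.ext fun x => ?_
      change -x = (-1 : ZMod 4) • x
      exact (neg_one_smul (ZMod 4) x).symm
    have hF : Fact (1 < 4) := ⟨by norm_num⟩
    rw [this, LinearMap.det_smul, LinearMap.det_id, Module.finrank_prod, Module.finrank_prod,
      Module.finrank_self]
    decide
  have : ∀ x : ZMod 4, x * x ≠ -1 := by decide
  exact this _ hdet

end Cfsg.Agent.S3155
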