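import Cfsg.Statements.S3156
import Cfsg.Agent.H22.USyl2

set_option autoImplicit false
set_option linter.all false
open Cfsg

namespace Cfsg.Agent.S3156

open Cfsg.Agent.H22 Cfsg

variable {F : Type*} [Field F] {σ : F →+* F}

theorem no_s3 [Fintype F] (hF : Fintype.card F = 16) (hσ : ∀ x, σ x = x ^ 4) (hσ1 : σ ≠ RingHom.id F)
    [h2 : Fact ((2 : F) = 0)] [hs : Fact (∀ a : F, σ (σ a) = a)] (x r : MulAut (UG F σ))
    (hx : x * x = 1) (hr : r * r * r = 1) (hxr : x * r * x = r⁻¹) : r = 1 := by
  classical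
  have hF' : Fintype.card F = 4 ^ 2 := by rw [hF]; norm_num
  have hK : Nat.card {c : F // σ c = c} = 4 := by
    have h1 := (UG.phi_ker (σ := σ) (q := 4) (by norm_num) hF' hσ).1
    rw [← h1]
    exact Nat.card_congr (Equiv.subtypeEquivRight (fun c => (UG.mem_ker).symm))
  have hr' : ∀ c : F, σ c = c → c + σ c = (0 : F) * σ 0 := by
    intro c hc
    rw [hc]; linear_combination c * h2.out
  have hlift : ∀ a : F, ∃ x : UG F σ, x.a = a := by
    intro a
    obtain ⟨d, hd⟩ := UG.exists_phi (q := 4) (by norm_num) hF' hσ (UG.norm_fix (σ := σ) a)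
    exact ⟨⟨a, d, hd⟩, rfl⟩
  have hxx : ∀ t, x (x t) = t := fun t => by
    have := congrArg (fun f : MulAut (UG F σ) => f t) hx
    exact this
  have hrr : ∀ t, r (r (r t)) = t := fun t => by
    have := congrArg (fun f : MulAut (UG F σ) => f t) hr
    exact this
  -- x is trivial on the centre
  obtain ⟨g, h, hg, hh, hga, hha, hN, hhK⟩ := frame (q := 4) (by norm_num) hF' hσ x
  have hgg : ∀ a, g (g a) = a := by
    intro a
    obtain ⟨t, ht⟩ := hlift a
    rw [← ht, ← hg, ← hg, hxx]
  have hhh : ∀ c, σ c = c → h (h c) = c := by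
    intro c hc
    have h1 := hh ⟨0, c, hr' c hc⟩ rfl
    have h3 := hh _ h1.1
    rw [h1.2, hxx] at h3
    exact h3.2.symm
  have hA := stepA h2.out hs.out hσ1 hK g h hga hha hN hhK hgg hhh
  have hfix : ∀ z : UG F σ, z.a = 0 → σ z.b = z.b := by
    intro z hz
    have h1 := z.rel
    rw [hz, zero_mul] at h1
    linear_combination h1 - z.b * h2.out
  have hxz : ∀ z : UG F σ, z.a = 0 → x z = z := by
    intro z hz
    have h1 := hh z hz
    apply UG.ext'
    · rw [h1.1, hz]
    · rw [h1.2, hA _ (hfix z hz)]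
  obtain ⟨g', h', hg', hh', hga', hha', hN', hhK'⟩ := frame (q := 4) (by norm_num) hF' hσ r
  have hrz : ∀ z : UG F σ, z.a = 0 → r z = z := by
    intro z hz
    have h1 : (x * r * x) z = r⁻¹ z := by rw [hxr]
    have h3 : x (r (x z)) = r⁻¹ z := h1
    rw [hxz z hz, hxz _ (hh' z hz).1] at h3
    have h4 : r (r z) = z := by
      have : r (r⁻¹ z) = z := r.apply_symm_apply z
      rw [h3, this]
    have h5 := hrr z
    rw [h4] at h5
    exact h5
  have hh1 : ∀ c, σ c = c → h' c = c := by
    intro c hc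
    have h1 := hh' ⟨0, c, hr' c hc⟩ rfl
    rw [hrz _ rfl] at h1
    exact h1.2.symm
  have hg3 : ∀ a, g' (g' (g' a)) = a := by
    intro a
    obtain ⟨t, ht⟩ := hlift a
    rw [← ht, ← hg', ← hg', ← hg', hrr]
  have hNf : ∀ a : F, σ (a * σ a) = a * σ a := by
    intro a; rw [map_mul, hs.out, mul_comm]
  have hN1 : ∀ a, g' a * σ (g' a) = a * σ a := by
    intro a
    rw [← hN', hh1 _ (hNf a)]
  have hT1 : ∀ a b, g' a * σ (g' b) + σ (g' a) * g' b = a * σ b + σ a * b := by
    intro a b
    have h1 := hN1 (a + b)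
    rw [hga', map_add, map_add] at h1
    linear_combination h1 - hN1 a - hN1 b
  -- a fixed point
  obtain ⟨w, hw1, hw⟩ : ∃ w : F, w * σ w = 1 ∧ g' w = w := by
    haveI : NeZero 5 := ⟨by norm_num⟩
    let Φ : Type _ := {a : F // a * σ a = 1}
    have hc5 : Fintype.card Φ = 5 := by
      rw [← Nat.card_eq_fintype_card]
      have h1 : Nat.card (rootsOfUnity 5 F) = 5 := by
        rw [Cfsg.Agent.H5.card_rootsOfUnity_eq_gcd, Nat.card_eq_fintype_card, hF]; rfl
      rw [← h1]
      refine Nat.card_congr ⟨fun a => ⟨Units.mk a.1 (σ a.1) a.2 (by rw [mul_comm]; exact a.2), ?_⟩,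
        fun u => ⟨(u.1 : F), ?_⟩, ?_, ?_⟩
      · rw [mem_rootsOfUnity]
        apply Units.ext
        have h3 := a.2
        rw [hσ] at h3
        rw [Units.val_pow_eq_pow_val, Units.val_one]
        show a.1 ^ 5 = 1
        linear_combination h3
      · have h3 := u.2
        rw [mem_rootsOfUnity] at h3
        have h4 := congrArg (fun v : Fˣ => (v : F)) h3
        simp only [Units.val_pow_eq_pow_val, Units.val_one] at h4
        rw [hσ]; linear_combination h4
      · intro a; rfl
      · intro u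
        apply Subtype.ext
        apply Units.ext
        rfl
    let π : Equiv.Perm Φ :=
      { toFun := fun a => ⟨g' a.1, by rw [hN1]; exact a.2⟩
        invFun := fun a => ⟨g' (g' a.1), by rw [hN1, hN1]; exact a.2⟩
        left_inv := fun a => Subtype.ext (hg3 a.1)
        right_inv := fun a => Subtype.ext (hg3 a.1) }
    haveI : Fact (Nat.Prime 3) := ⟨Nat.prime_three⟩
    obtain ⟨a, ha⟩ := Equiv.Perm.exists_fixed_point_of_prime (p := 3) (n := 1) (σ := π) (by rw [hc5]; norm_num) (by
      apply Equiv.ext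
      intro a
      apply Subtype.ext
      exact hg3 a.1)
    exact ⟨a.1, a.2, congrArg Subtype.val ha⟩
  have hw0 : w ≠ 0 := by
    rintro rfl
    rw [zero_mul] at hw1
    exact zero_ne_one hw1
  have hσw0 : σ w ≠ 0 := fun h0 => hw0 ((map_eq_zero σ).1 h0)
  have hdich : ∀ a, g' a = a ∨ g' a = w * σ (a * σ w) := by
    intro a
    have e1 := hT1 a w
    rw [hw] at e1
    have e2 := hN1 a
    have e3 : (g' a - a) * (g' a - w * σ (a * σ w)) = 0 := by
      rw [map_mul, hs.out]
      have e4 := hw1
      -- multiply out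
      have : (g' a - a) * (g' a - w * (σ a * w)) * σ w = 0 := by
        have e5 : (g' a - a) * (g' a - w * (σ a * w)) * σ w = g' a * (g' a * σ w + σ (g' a) * w) - g' a * (σ (g' a) * w) - a * g' a * σ w
            - w * σ w * (g' a * (σ a * w)) + w * σ w * (w * (a * σ a)) := by ring
        rw [e5, e4, e1]
        linear_combination (- w) * e2
      exact (mul_eq_zero.1 this).resolve_right hσw0
    rcases mul_eq_zero.1 e3 with h0 | h0
    · exact Or.inl (sub_eq_zero.1 h0)
    · exact Or.inr (sub_eq_zero.1 h0)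
  have hss : ∀ a, w * σ ((w * σ (a * σ w)) * σ w) = a := by
    intro a
    simp only [map_mul, hs.out]
    linear_combination (a * (w * σ w) + a) * hw1
  have hgid : ∀ a, g' a = a := by
    intro a
    by_contra hne
    have h1 := (hdich a).resolve_left hne
    have h3 : g' (g' a) = a := by
      rcases hdich (g' a) with h4 | h4
      · exfalso
        apply hne
        have h5 := hg3 a
        rw [h4, h4] at h5
        exact h5
      · rw [h4, h1, hss]
    have h5 := hg3 a
    rw [h3] at h5
    exact hne h5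
  apply MulEquiv.ext
  intro t
  show r t = t
  have hza : (t⁻¹ * r t).a = 0 := by
    rw [UG.mul_a, UG.inv_a, hg', hgid, UG.selfadd h2.out]
  obtain ⟨z, hz⟩ : ∃ z, z = t⁻¹ * r t := ⟨_, rfl⟩
  rw [← hz] at hza
  have h1 : r t = t * z := by rw [hz]; group
  have h3 : r (r (r t)) = t * z * z * z := by
    rw [h1, map_mul, hrz z hza, h1, map_mul, map_mul, hrz z hza, h1]
  rw [hrr] at h3
  have h4 : z * z = 1 := (UG.mul_self_iff z).2 hza
  have h5 : t = t * z := by
    calc t = t * z * z * z := h3
      _ = t * (z * z) * z := by group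
      _ = t * z := by rw [h4, mul_one]
  rw [h1, ← h5]


/-- If a finite group T is isomorphic to a Sylow 2-subgroup of the projective special unitary group of dimension 3 with parameter 4 (realised over the field with 16 elements), then no subgroup of the automorphism group of T is isomorphic to the symmetric group of degree 3. -/
theorem result {T : Type*} [Group T] [Finite T] (hT : (∃ (F : Type) (_ : Field F) (_ : Fintype F), Fintype.card F = 16 ∧ ∃ S : Sylow 2 (Cfsg.PSU 3 F 4), Nonempty (T ≃* ↥(S : Subgroup (Cfsg.PSU 3 F 4))))) (H : Subgroup (MulAut T)) : ¬ Nonempty (↥H ≃* Equiv.Perm (Fin 3)) := by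
  rintro ⟨eH⟩
  obtain ⟨F, _, _, hF, S, ⟨e⟩⟩ := hT
  obtain ⟨σ, hσ, hσ2, hσ1⟩ := Cfsg.Agent.H5.exists_frob (q := 4) (F := F) (by rw [hF]; norm_num)
  haveI : Fact ((2 : F) = 0) := ⟨fact_two (n := 2) (by norm_num) (by rw [hF]; norm_num)⟩
  haveI : Fact (∀ a : F, σ (σ a) = a) := ⟨hσ2⟩
  have key : ∀ q : ℕ, q = 2 ^ 2 → ∀ S : Sylow 2 (Cfsg.PSU 3 F q), Nonempty (UG F σ ≃* (S : Subgroup (Cfsg.PSU 3 F q))) := by
    rintro _ rfl S
    exact sylow_equiv (n := 2) (by norm_num) (by rw [hF]; norm_num) σ (by intro x; rw [hσ]; norm_num) S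
  obtain ⟨e'⟩ := key 4 (by norm_num) S
  let E : UG F σ ≃* T := e'.trans e.symm
  let f : Equiv.Perm (Fin 3) →* MulAut (UG F σ) :=
    ((MulAut.congr E.symm).toMonoidHom.comp H.subtype).comp eH.symm.toMonoidHom
  have hf : Function.Injective f := by
    apply Function.Injective.comp (g := (MulAut.congr E.symm).toMonoidHom.comp H.subtype)
    · apply Function.Injective.comp (g := (MulAut.congr E.symm).toMonoidHom)
      · exact (MulAut.congr E.symm).injective
      · exact H.subtype_injective
    · exact eH.symm.injective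
  have h1 := no_s3 hF hσ hσ1 (f (Equiv.swap 0 1)) (f (finRotate 3)) (by
    rw [← map_mul, Equiv.swap_mul_self, map_one]) (by
    rw [← map_mul, ← map_mul, ← map_one f]
    congr 1
    decide) (by
    rw [← map_mul, ← map_mul, ← map_inv]
    congr 1
    decide)
  have h3 : (finRotate 3 : Equiv.Perm (Fin 3)) = 1 := hf (by rw [h1, map_one])
  revert h3
  decide

end Cfsg.Agent.S3156
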