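import Cfsg.Statements.S3157
import Cfsg.Agent.H22.Ord64e
import Cfsg.Agent.H22.Ord64f

set_option autoImplicit false
set_option linter.all false
open Cfsg

namespace Cfsg.Agent.S3157


/-- Let T be a non-abelian group of order 64 admitting automorphisms ρ of order 3 and x of order 2 with x ρ x⁻¹ = ρ⁻¹ (so they generate a symmetric group of degree 3), where ρ fixes only the identity. Then T is isomorphic to a Sylow 2-subgroup of the projective special linear group of dimension 3 over the field with 4 elements, and the subgroup of fixed points of x is dihedral of order 8 or quaternion of order 8. -/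
theorem result {T : Type*} [Group T] [Finite T] (hT : Nat.card T = 64) (hna : ¬ IsMulCommutative T) (ρ x : MulAut T) (hρ : orderOf ρ = 3) (hx : orderOf x = 2)
    (hxr : x * ρ * x⁻¹ = ρ⁻¹) (hfp : ∀ y : T, ρ y = y → y = 1) (C : Subgroup T) (hC : ∀ y : T, y ∈ C ↔ x y = y) :
    (∃ (F : Type) (_ : Field F) (_ : Fintype F), Fintype.card F = 4 ∧
        ∃ S : Sylow 2 (Matrix.ProjectiveSpecialLinearGroup (Fin 3) F), Nonempty (T ≃* ↥(S : Subgroup (Matrix.ProjectiveSpecialLinearGroup (Fin 3) F)))) ∧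
      (Nonempty (↥C ≃* DihedralGroup 4) ∨ Nonempty (↥C ≃* QuaternionGroup 2)) := by
  have hρ3 : ρ ^ 3 = 1 := by rw [← hρ]; exact pow_orderOf_eq_one ρ
  have r3 : ∀ y, ρ (ρ (ρ y)) = y := by
    intro y
    have := congrArg (fun f : MulAut T => f y) hρ3
    simpa [pow_succ, MulAut.mul_apply] using this
  have hx2' : x ^ 2 = 1 := by rw [← hx]; exact pow_orderOf_eq_one x
  have hx2 : ∀ y, x (x y) = y := by
    intro y
    have := congrArg (fun f : MulAut T => f y) hx2'
    simpa [pow_succ, MulAut.mul_apply] using this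
  have hxr' : ∀ y, x (ρ y) = ρ (ρ (x y)) := by
    intro y
    have h1 : x * ρ = ρ⁻¹ * x := by rw [← hxr]; group
    have h2 : ρ⁻¹ = ρ * ρ := by
      rw [inv_eq_iff_mul_eq_one, ← hρ3]; simp only [pow_succ, pow_zero, one_mul, mul_assoc]
    rw [h2] at h1
    have := congrArg (fun f : MulAut T => f y) h1
    simpa [MulAut.mul_apply] using this
  have D := H22.O64.dat_of r3 hfp hT (fun h => hna ⟨⟨h⟩⟩)
  obtain ⟨⟨v, w, hv, hw, hvw⟩, hCC⟩ := D.fin x hx2 hxr' C hC
  refine ⟨?_, hCC⟩
  obtain ⟨e⟩ := D.identify hv hw hvw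
  obtain ⟨S, ⟨e2⟩⟩ := H22.O64.exists_sylow H22.O64.card_K4
  exact ⟨H22.O64.K4, inferInstance, inferInstance, H22.O64.card_K4, S, ⟨e.trans e2⟩⟩

end Cfsg.Agent.S3157
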