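import Cfsg.Statements.S3178
import Cfsg.Agent.H20.ExtTransfer
import Cfsg.Agent.H20.TwoComp

set_option autoImplicit false
open Cfsg


namespace Cfsg.Agent.S3178


/-- Groups with a modular Sylow 2-subgroup have a normal 2-complement. Let S, of order 2^(n+1) with n ≥ 3, be a Sylow 2-subgroup of a finite group G, and suppose S contains an element a of order 2^n and an involution b with b a b⁻¹ = a^(2^(n-1) + 1); so S is the non-abelian 2-group with a cyclic subgroup of index 2 that is neither dihedral, semidihedral nor generalized quaternion. Then G has a normal 2-complement. -/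
theorem result {G : Type*} [Group G] [Finite G]
    (S : Sylow 2 G) (n : ℕ) (hn : 3 ≤ n) (hS : Nat.card ↥(S : Subgroup G) = 2 ^ (n + 1))
    (a b : G) (ha : a ∈ (S : Subgroup G)) (hb : b ∈ (S : Subgroup G))
    (hao : orderOf a = 2 ^ n) (hbo : orderOf b = 2) (hrel : b * a * b⁻¹ = a ^ (2 ^ (n - 1) + 1)) :
    Cfsg.HasNormalPComplement 2 G := by
  classical
  have hf : Fact (Nat.Prime 2) := ⟨Nat.prime_two⟩
  have hpn : 2 * 2 ^ (n - 1) = 2 ^ n := by rw [← pow_succ']; congr 1; omega
  have hpn2 : 2 * 2 ^ (n - 2) = 2 ^ (n - 1) := by rw [← pow_succ']; congr 1; omega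
  have hpn3 : 2 * 2 ^ (n - 3) = 2 ^ (n - 2) := by rw [← pow_succ']; congr 1; omega
  have hpos : 0 < 2 ^ (n - 3) := by positivity
  have hb2 : b ^ 2 = 1 := by rw [← hbo]; exact pow_orderOf_eq_one b
  have hMS : Subgroup.zpowers a ≤ (S : Subgroup G) := by rwa [Subgroup.zpowers_le]
  have hM : (Subgroup.zpowers a).relIndex (S : Subgroup G) = 2 := by
    have h1 : (Subgroup.zpowers a).relIndex (S : Subgroup G) * Nat.card (Subgroup.zpowers a) =
        Nat.card (S : Subgroup G) := by
      have h3 := Subgroup.relIndex_mul_relIndex (⊥ : Subgroup G) _ _ bot_le hMS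
      rw [Subgroup.relIndex_bot_left, Subgroup.relIndex_bot_left] at h3
      rw [mul_comm]; exact h3
    rw [hS, Nat.card_zpowers, hao, pow_succ'] at h1
    exact Nat.eq_of_mul_eq_mul_right (by positivity) h1
  have hidx : ((Subgroup.zpowers a).subgroupOf (S : Subgroup G)).index = 2 := hM
  -- unique involution of ⟨a⟩
  have huniq : ∀ y ∈ Subgroup.zpowers a, y ^ 2 = 1 → y ≠ 1 → y = a ^ (2 ^ (n - 1)) := by
    intro y hy hy2 hy1
    obtain ⟨k, rfl⟩ := mem_powers_iff_mem_zpowers.mpr hy
    simp only at hy2 hy1 ⊢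
    rw [← pow_mul, ← orderOf_dvd_iff_pow_eq_one, hao] at hy2
    have h1 : 2 ^ (n - 1) ∣ k := by
      rw [← hpn, mul_comm k 2] at hy2
      exact Nat.dvd_of_mul_dvd_mul_left (by norm_num) hy2
    obtain ⟨m, rfl⟩ := h1
    rw [pow_mul] at hy1 ⊢
    have hz2 : (a ^ (2 ^ (n - 1))) ^ 2 = 1 := by
      rw [← pow_mul, mul_comm, hpn, ← hao]; exact pow_orderOf_eq_one a
    rcases Nat.even_or_odd' m with ⟨j, rfl | rfl⟩
    · exfalso; apply hy1
      rw [pow_mul, hz2, one_pow]
    · rw [pow_succ, pow_mul, hz2, one_pow, one_mul]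
  have hz1 : a ^ (2 ^ (n - 1)) ≠ 1 := by
    intro h
    have := orderOf_dvd_of_pow_eq_one h
    rw [hao] at this
    have := Nat.le_of_dvd (by positivity) this
    omega
  have hbM : b ∉ Subgroup.zpowers a := by
    intro h
    have h1 : b * a * b⁻¹ = a := by
      obtain ⟨k, rfl⟩ := h
      change a ^ k * a * (a ^ k)⁻¹ = a
      group
    rw [h1, pow_succ] at hrel
    apply hz1
    exact (mul_eq_right.mp hrel.symm)
  have ha2b : (a ^ 2) * b = b * a ^ 2 := by
    have h1 : b * a ^ 2 * b⁻¹ = a ^ 2 := by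
      rw [← conj_pow, hrel, ← pow_mul]
      have : (2 ^ (n - 1) + 1) * 2 = 2 ^ n + 2 := by rw [← hpn]; ring
      rw [this, pow_add, ← hao, pow_orderOf_eq_one, one_mul]
    exact (mul_inv_eq_iff_eq_mul.mp h1).symm
  -- first use of transfer
  rcases H20.extremal_transfer S (Subgroup.zpowers a) hMS hM b 1 (by simpa using hb2)
    (by
      intro g k hk _
      have : b ^ (2 ^ k) = 1 := by
        rw [← orderOf_dvd_iff_pow_eq_one, hbo]
        exact dvd_pow_self 2 (by omega)
      rw [this]; simp [Subgroup.one_mem])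
    ((S : Subgroup G) ⊓ Subgroup.centralizer ({b} : Set G)) (S.isPGroup'.to_le inf_le_left)
    (by intro t ht; exact Subgroup.mem_centralizer_singleton_iff.mp ht.2) with ⟨g, hg, hT⟩ | ⟨N, hN, hbN⟩
  · exfalso
    have hgb : g⁻¹ * b * g = a ^ (2 ^ (n - 1)) := by
      apply huniq _ hg
      · have : g⁻¹ * b * g = g⁻¹ * b * g⁻¹⁻¹ := by rw [inv_inv]
        rw [this, conj_pow, hb2]; simp
      · intro h
        have : b = 1 := by
          have := congrArg (fun y => g * y * g⁻¹) h
          simpa [mul_assoc] using this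
        rw [this] at hbM; exact hbM (one_mem _)
    set c := a ^ (2 ^ (n - 2)) with hc
    have hcS : c ∈ (S : Subgroup G) := pow_mem ha _
    have hcb : c * b = b * c := by
      have : c = (a ^ 2) ^ (2 ^ (n - 3)) := by rw [hc, ← pow_mul, hpn3]
      rw [this]
      exact ((show Commute (a ^ 2) b from ha2b).pow_left _).eq
    have hcc : c ^ 2 = a ^ (2 ^ (n - 1)) := by rw [hc, ← pow_mul, mul_comm, hpn2]
    have hgc := hT c ⟨hcS, Subgroup.mem_centralizer_singleton_iff.mpr hcb⟩
    have hsq : (g⁻¹ * c * g) ^ 2 ∈ Subgroup.zpowers a := by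
      have := Subgroup.sq_mem_of_index_two hidx ⟨g⁻¹ * c * g, hgc⟩
      rwa [Subgroup.mem_subgroupOf] at this
    have hsq2 : (g⁻¹ * c * g) ^ 2 = g⁻¹ * a ^ (2 ^ (n - 1)) * g := by
      have h1 : g⁻¹ * c * g = g⁻¹ * c * g⁻¹⁻¹ := by rw [inv_inv]
      rw [h1, conj_pow, hcc, inv_inv]
    have hgz : g⁻¹ * a ^ (2 ^ (n - 1)) * g = a ^ (2 ^ (n - 1)) := by
      apply huniq
      · rw [← hsq2]; exact hsq
      · have : g⁻¹ * a ^ (2 ^ (n - 1)) * g = g⁻¹ * a ^ (2 ^ (n - 1)) * g⁻¹⁻¹ := by rw [inv_inv]
        rw [this, conj_pow]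
        have : (a ^ (2 ^ (n - 1))) ^ 2 = 1 := by
          rw [← pow_mul, mul_comm, hpn, ← hao]; exact pow_orderOf_eq_one a
        rw [this]; simp
      · intro h
        apply hz1
        have := congrArg (fun y => g * y * g⁻¹) h
        simpa [mul_assoc] using this
    have : b = a ^ (2 ^ (n - 1)) := by
      have h1 : g⁻¹ * b * g = g⁻¹ * a ^ (2 ^ (n - 1)) * g := by rw [hgb, hgz]
      exact mul_left_cancel (mul_right_cancel h1)
    apply hbM
    rw [this]; exact pow_mem (Subgroup.mem_zpowers a) _
  · have hNn : N.Normal := Subgroup.normal_of_index_eq_two hN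
    obtain ⟨Q, hQ⟩ := H2.exists_sylow_of_normal S N
    have hQcyc : IsCyclic Q := by
      -- order of Q
      have hle : ((S : Subgroup G).subgroupOf N).map N.subtype = N ⊓ (S : Subgroup G) := by
        rw [Subgroup.subgroupOf_map_subtype, inf_comm]
      have hcard1 : Nat.card Q = Nat.card (N ⊓ (S : Subgroup G) : Subgroup G) := by
        rw [← hle, Subgroup.card_map_of_injective N.subtype_injective, ← hQ]
      have hrel2 : (N ⊓ (S : Subgroup G)).relIndex (S : Subgroup G) = 2 := by
        rw [Subgroup.inf_relIndex_right]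
        have h1 : N.relIndex (S : Subgroup G) ∣ 2 :=
          (Subgroup.relIndex_dvd_index_of_normal N _).trans (by rw [hN])
        rcases (Nat.dvd_prime Nat.prime_two).mp h1 with h | h
        · exact absurd (Subgroup.relIndex_eq_one.mp h hb) hbN
        · exact h
      have hcard2 : Nat.card (N ⊓ (S : Subgroup G) : Subgroup G) = 2 ^ n := by
        have h3 := Subgroup.relIndex_mul_relIndex (⊥ : Subgroup G) _ _ bot_le (inf_le_right : N ⊓ (S : Subgroup G) ≤ S)
        rw [Subgroup.relIndex_bot_left, Subgroup.relIndex_bot_left, hrel2, hS, pow_succ] at h3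
        exact Nat.eq_of_mul_eq_mul_right (by norm_num) h3
      have hex : ∃ y ∈ N ⊓ (S : Subgroup G), orderOf y = 2 ^ n := by
        by_cases haN : a ∈ N
        · exact ⟨a, ⟨haN, ha⟩, hao⟩
        · refine ⟨a * b, ⟨?_, mul_mem ha hb⟩, ?_⟩
          · exact (Subgroup.mul_mem_iff_of_index_two hN).mpr
              ⟨fun h => absurd h haN, fun h => absurd h hbN⟩
          · have hbi : b⁻¹ = b := by rw [inv_eq_iff_mul_eq_one, ← pow_two, hb2]
            have h1 : (a * b) ^ 2 = a ^ (2 ^ (n - 1) + 2) := by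
              have h2 : (a * b) ^ 2 = a * (b * a * b⁻¹) := by rw [hbi, pow_two]; simp only [mul_assoc]
              rw [h2, hrel, ← pow_succ']
            have h3 : orderOf ((a * b) ^ 2) = 2 ^ (n - 1) := by
              rw [h1, orderOf_pow, hao]
              have hgcd : Nat.gcd (2 ^ n) (2 ^ (n - 1) + 2) = 2 := by
                have e1 : 2 ^ (n - 1) + 2 = 2 * (2 ^ (n - 2) + 1) := by rw [mul_add, hpn2]
                rw [e1, ← hpn, Nat.gcd_mul_left]
                have e2 : Nat.gcd (2 ^ (n - 1)) (2 ^ (n - 2) + 1) = 1 := by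
                  apply Nat.Coprime.pow_left
                  rw [Nat.coprime_two_left, ← hpn3]
                  exact ⟨2 ^ (n - 3), by ring⟩
                rw [e2]
              rw [hgcd, ← hpn]; exact Nat.mul_div_cancel_left _ (by norm_num)
            have h4 : orderOf (a * b) ∣ 2 ^ n := by
              rw [orderOf_dvd_iff_pow_eq_one, ← hpn, pow_mul, ← h3, pow_orderOf_eq_one]
            obtain ⟨k, hk1, hk2⟩ := (Nat.dvd_prime_pow Nat.prime_two).mp h4
            have h5 := orderOf_pow (n := 2) (a * b)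
            rw [h3, hk2] at h5
            have hk0 : 1 ≤ k := by
              by_contra hcon
              have : k = 0 := by omega
              rw [this] at h5
              simp at h5
              omega
            have h6 : Nat.gcd (2 ^ k) 2 = 2 := Nat.gcd_eq_right (dvd_pow_self 2 (by omega))
            rw [h6] at h5
            have h7 : 2 ^ k = 2 * 2 ^ (k - 1) := by rw [← pow_succ']; congr 1; omega
            rw [h7, Nat.mul_div_cancel_left _ (by norm_num)] at h5
            rw [hk2, h7, ← h5, hpn]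
      obtain ⟨y, hy, hyo⟩ := hex
      have h8 : IsCyclic (N ⊓ (S : Subgroup G) : Subgroup G) :=
        H20.isCyclic_of_orderOf_eq hy (by rw [hyo, hcard2])
      have h9 : IsCyclic ((Q : Subgroup N).map N.subtype) := by
        rw [hQ, hle]; exact h8
      exact (isCyclic_of_surjective (((Q : Subgroup N).equivMapOfInjective N.subtype N.subtype_injective).symm)
        (MulEquiv.surjective _))
    exact H20.hasNormalPComplement_of_normal N (k := 1) (by rw [hN, pow_one])
      (H20.hasNormalPComplement_of_cyclic Q hQcyc)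


end Cfsg.Agent.S3178
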