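import Cfsg.Statements.S3179
import Mathlib
import Cfsg.Agent.H5.UnitCenter
import Cfsg.Agent.H5.LinBasic
import Cfsg.Agent.H15.SzQuot

set_option autoImplicit false
set_option linter.all false
open Cfsg

namespace Cfsg.Agent.S3179

open Cfsg.Agent

open Matrix

theorem free9 {X : Type*} [Finite X] (τ : Equiv.Perm X) (h9 : τ ^ 9 = 1) (h : ∀ x, (τ ^ 3) x ≠ x) : 9 ∣ Nat.card X := by
  rcases isEmpty_or_nonempty X with hX | ⟨⟨x₀⟩⟩
  · rw [Nat.card_of_isEmpty]; exact dvd_zero _
  · have ho : orderOf τ = 9 := by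
      have := orderOf_eq_prime_pow (p := 3) (n := 1) (x := τ) (by
        intro h1
        exact h x₀ (by rw [show (3:ℕ) = 3^1 from rfl, h1]; rfl)) (by norm_num; exact h9)
      simpa using this
    have hst : ∀ x : X, MulAction.stabilizer (Subgroup.zpowers τ) x = ⊥ := by
      intro x
      rw [eq_bot_iff]
      rintro ⟨g, hg⟩ hgx
      obtain ⟨i, rfl⟩ := Subgroup.mem_zpowers_iff.1 hg
      have h1 : τ ^ i ∈ MulAction.stabilizer (Equiv.Perm X) x := hgx
      have h9' : τ ^ (9 : ℤ) = 1 := by exact_mod_cast h9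
      have h2 : τ ^ (9 : ℤ) ∈ MulAction.stabilizer (Equiv.Perm X) x := by
        rw [h9']; exact one_mem _
      have h3 : τ ^ ((Int.gcd i 9 : ℕ) : ℤ) ∈ MulAction.stabilizer (Equiv.Perm X) x := by
        rw [Int.gcd_eq_gcd_ab, _root_.zpow_add, _root_.zpow_mul, _root_.zpow_mul]
        exact mul_mem (zpow_mem h1 _) (zpow_mem h2 _)
      have h4 : Int.gcd i 9 ∣ 3 ^ 2 := by
        have := Int.gcd_dvd_natAbs_right i 9
        simpa using this
      obtain ⟨k, hk, hk'⟩ := (Nat.dvd_prime_pow Nat.prime_three).1 h4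
      rw [hk'] at h3
      have h5 : k = 2 := by
        by_contra hne
        have hk1 : k ≤ 1 := by omega
        have h6 : τ ^ 3 ∈ MulAction.stabilizer (Equiv.Perm X) x := by
          interval_cases k
          · have : τ ∈ MulAction.stabilizer (Equiv.Perm X) x := by simpa using h3
            exact pow_mem this 3
          · simpa using h3
        exact h x h6
      have h7 : (9 : ℤ) ∣ i := by
        have : ((Int.gcd i 9 : ℕ) : ℤ) ∣ i := Int.gcd_dvd_left ..
        rw [hk', h5] at this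
        simpa using this
      obtain ⟨j, rfl⟩ := h7
      rw [Subgroup.mem_bot]
      apply Subtype.ext
      show τ ^ (9 * j) = 1
      rw [_root_.zpow_mul, h9', _root_.one_zpow]
    rw [Nat.card_congr (MulAction.selfEquivOrbitsQuotientProd hst), Nat.card_prod, Nat.card_zpowers, ho]
    exact dvd_mul_left _ _

abbrev V := Fin 5 → ZMod 2

def φ : GL (Fin 5) (ZMod 2) →* Equiv.Perm V where
  toFun g :=
    { toFun := fun v => g.1.mulVec v
      invFun := fun v => (g⁻¹).1.mulVec v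
      left_inv := fun v => by
        show (g⁻¹).1.mulVec (g.1.mulVec v) = v
        rw [Matrix.mulVec_mulVec, ← Units.val_mul, inv_mul_cancel]
        exact Matrix.one_mulVec v
      right_inv := fun v => by
        show g.1.mulVec ((g⁻¹).1.mulVec v) = v
        rw [Matrix.mulVec_mulVec, ← Units.val_mul, mul_inv_cancel]
        exact Matrix.one_mulVec v }
  map_one' := by
    ext1 v
    exact Matrix.one_mulVec v
  map_mul' g h := by
    ext1 v
    exact (Matrix.mulVec_mulVec v g.1 h.1).symm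

theorem φ_apply (g : GL (Fin 5) (ZMod 2)) (v : V) : φ g v = g.1.mulVec v := rfl

theorem φ_inj {g : GL (Fin 5) (ZMod 2)} (h : φ g = 1) : g = 1 := by
  apply Units.ext
  have hinj : Function.Injective (Matrix.toLin' (R := ZMod 2) (m := Fin 5) (n := Fin 5)) :=
    (Matrix.toLin' (R := ZMod 2) (m := Fin 5) (n := Fin 5)).injective
  apply hinj
  apply LinearMap.ext
  intro v
  rw [Matrix.toLin'_apply]
  have h1 : φ g v = v := by rw [h]; rfl
  have h2 : g.1.mulVec v = v := h1
  rw [h2]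
  simp

theorem nine (x : GL (Fin 5) (ZMod 2)) (hx : x ^ 9 = 1) : x ^ 3 = 1 := by
  classical
  set σ := φ x with hσ
  have hσ9 : σ ^ 9 = 1 := by rw [hσ, ← map_pow, hx, map_one]
  -- the fixed points of `σ³`
  let U : AddSubgroup V :=
    { carrier := {v | (σ ^ 3) v = v}
      zero_mem' := by
        show (σ ^ 3) 0 = 0
        rw [hσ, ← map_pow, φ_apply]
        exact Matrix.mulVec_zero _
      add_mem' := by
        intro a b ha hb
        show (σ ^ 3) (a + b) = a + b
        have ha' : (σ ^ 3) a = a := ha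
        have hb' : (σ ^ 3) b = b := hb
        have : (σ ^ 3) (a + b) = (σ ^ 3) a + (σ ^ 3) b := by
          rw [hσ, ← map_pow, φ_apply, φ_apply, φ_apply]
          exact Matrix.mulVec_add _ _ _
        rw [this, ha', hb']
      neg_mem' := by
        intro a ha
        have ha' : (σ ^ 3) a = a := ha
        show (σ ^ 3) (-a) = -a
        have : (σ ^ 3) (-a) = - (σ ^ 3) a := by
          rw [hσ, ← map_pow, φ_apply, φ_apply]
          exact Matrix.mulVec_neg _ _
        rw [this, ha'] }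
  have hcomm : ∀ v, (σ ^ 3) (σ v) = σ ((σ ^ 3) v) := fun v => by
    rw [← Equiv.Perm.mul_apply, ← Equiv.Perm.mul_apply, ← pow_succ, ← pow_succ']
  let τ : Equiv.Perm {v : V // (σ ^ 3) v ≠ v} :=
    { toFun := fun v => ⟨σ v, fun h => v.2 (σ.injective (by rw [← hcomm]; exact h))⟩
      invFun := fun v => ⟨σ.symm v, fun h => v.2 (by
        have h1 := hcomm (σ.symm v)
        rw [h, Equiv.apply_symm_apply] at h1
        exact h1)⟩
      left_inv := fun v => Subtype.ext (σ.symm_apply_apply v)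
      right_inv := fun v => Subtype.ext (σ.apply_symm_apply v) }
  have hτ : ∀ (n : ℕ) (v : {v : V // (σ ^ 3) v ≠ v}), (((τ ^ n) v : {v : V // (σ ^ 3) v ≠ v}) : V) = (σ ^ n) v := by
    intro n
    induction n with
    | zero => intro v; rfl
    | succ n ih =>
      intro v
      have e1 : τ ^ (n + 1) = τ * τ ^ n := pow_succ' τ n
      have e2 : σ ^ (n + 1) = σ * σ ^ n := pow_succ' σ n
      rw [e1, e2, Equiv.Perm.mul_apply, Equiv.Perm.mul_apply, ← ih v]
      rfl
  have h9 : 9 ∣ Nat.card {v : V // (σ ^ 3) v ≠ v} := by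
    refine free9 τ ?_ ?_
    · ext1 v
      apply Subtype.ext
      rw [hτ, hσ9]
      rfl
    · intro v hv
      apply v.2
      rw [← hτ 3 v, hv]
  have hcard : Nat.card U + Nat.card {v : V // (σ ^ 3) v ≠ v} = 32 := by
    have h1 : Nat.card U = Fintype.card {v : V // (σ ^ 3) v = v} := by
      rw [← Nat.card_eq_fintype_card]
      rfl
    rw [h1, Nat.card_eq_fintype_card, ← Fintype.card_sum,
      Fintype.card_congr (Equiv.sumCompl (fun v : V => (σ ^ 3) v = v))]
    simp [V]
  have hU : Nat.card U ∣ 2 ^ 5 := by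
    have h1 := AddSubgroup.card_addSubgroup_dvd_card U
    have h2 : Nat.card V = 2 ^ 5 := by
      rw [Nat.card_eq_fintype_card]; simp [V]
    rwa [h2] at h1
  obtain ⟨k, hk, hk'⟩ := (Nat.dvd_prime_pow Nat.prime_two).1 hU
  have h0 : Nat.card {v : V // (σ ^ 3) v ≠ v} = 0 := by
    interval_cases k <;> omega
  have hall : ∀ v, (σ ^ 3) v = v := by
    intro v
    by_contra hv
    have : IsEmpty {v : V // (σ ^ 3) v ≠ v} := (Nat.card_eq_zero.1 h0).resolve_right (fun h => h.not_finite inferInstance)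
    exact this.false ⟨v, hv⟩
  apply φ_inj
  rw [map_pow, ← hσ]
  ext1 v
  exact hall v

theorem card_GL5 : Nat.card (GL (Fin 5) (ZMod 2)) = 9999360 := by
  rw [Matrix.card_GL_field, ZMod.card]
  decide

section
variable {F : Type} [Field F] [Fintype F]

theorem two_zero {n : ℕ} (hn : n ≠ 0) (hF : Fintype.card F = 2 ^ n) : (2 : F) = 0 := by
  have h1 : (Fintype.card F : F) = 0 := FiniteField.cast_card_eq_zero F
  rw [hF, Nat.cast_pow] at h1
  exact_mod_cast pow_eq_zero_iff hn |>.mp h1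

theorem exists_t (hF : Fintype.card F = 8) : ∃ t : F, t ^ 3 = t + 1 := by
  classical
  have h2 : (2 : F) = 0 := two_zero (n := 3) (by norm_num) (by rw [hF]; norm_num)
  obtain ⟨x, -, hx⟩ : ∃ x ∈ (Finset.univ : Finset F), x ∉ ({0, 1} : Finset F) := by
    apply Finset.exists_mem_notMem_of_card_lt_card
    rw [Finset.card_univ, hF]
    exact lt_of_le_of_lt (Finset.card_le_two) (by norm_num)
  simp only [Finset.mem_insert, Finset.mem_singleton, not_or] at hx
  have h8 : x ^ 8 = x := by rw [← hF]; exact FiniteField.pow_card x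
  have h7 : x ^ 7 = 1 := by
    have : x * (x ^ 7 - 1) = 0 := by linear_combination h8
    rcases mul_eq_zero.1 this with h | h
    · exact absurd h hx.1
    · exact sub_eq_zero.1 h
  have h : (x - 1) * ((x ^ 3 + x + 1) * (x ^ 3 + x ^ 2 + 1)) = 0 := by
    linear_combination h7 + x ^ 3 * (x - 1) * h2
  rcases mul_eq_zero.1 h with h | h
  · exact absurd (sub_eq_zero.1 h) hx.2
  · rcases mul_eq_zero.1 h with h | h
    · exact ⟨x, by linear_combination h - (x + 1) * h2⟩
    · refine ⟨x⁻¹, ?_⟩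
      have hx0 := hx.1
      field_simp
      linear_combination (-1 : F) * h + h2

theorem exists_nine (hF : Fintype.card F = 8) : ∃ y : ProjectiveSpecialLinearGroup (Fin 2) F, y ^ 9 = 1 ∧ y ^ 3 ≠ 1 := by
  have h2 : (2 : F) = 0 := two_zero (n := 3) (by norm_num) (by rw [hF]; norm_num)
  obtain ⟨t, ht⟩ := exists_t hF
  let M : SpecialLinearGroup (Fin 2) F := ⟨!![0, 1; 1, t], by
    rw [Matrix.det_fin_two_of]; linear_combination (-1 : F) * h2⟩
  have hN : (M * M * M).1 = !![t, 1 + t ^ 2; 1 + t ^ 2, t + 1] := by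
    show !![0, 1; 1, t] * !![0, 1; 1, t] * !![0, 1; 1, t] = _
    ext i j
    fin_cases i <;> fin_cases j <;> simp [Matrix.mul_apply, Fin.sum_univ_two]
    · ring
    · ring
    · linear_combination ht + t * h2
  have hNN : (M * M * M * (M * M * M)).1 = !![t + 1, 1 + t ^ 2; 1 + t ^ 2, t] := by
    show (M * M * M).1 * (M * M * M).1 = _
    rw [hN]
    ext i j
    fin_cases i <;> fin_cases j <;> simp [Matrix.mul_apply, Fin.sum_univ_two]
    · linear_combination t * ht + 2 * t ^ 2 * h2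
    · linear_combination t * (1 + t ^ 2) * h2
    · linear_combination t * (1 + t ^ 2) * h2
    · linear_combination t * ht + (1 + t + 2 * t ^ 2) * h2
  have hNNN : (M * M * M * (M * M * M) * (M * M * M)).1 = 1 := by
    show (M * M * M * (M * M * M)).1 * (M * M * M).1 = _
    rw [hN, hNN]
    ext i j
    fin_cases i <;> fin_cases j <;> simp [Matrix.mul_apply, Fin.sum_univ_two]
    · linear_combination t * ht + (t + 2 * t ^ 2) * h2
    · linear_combination (t + 1) * (1 + t ^ 2) * h2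
    · linear_combination t * (1 + t ^ 2) * h2
    · linear_combination t * ht + (t + 2 * t ^ 2) * h2
  have hM9 : M ^ 9 = 1 := by
    have : M ^ 9 = M * M * M * (M * M * M) * (M * M * M) := by
      rw [show (9 : ℕ) = 3 * 3 from rfl, pow_mul, pow_three' (M ^ 3), pow_three' M]
    rw [this]
    exact Subtype.ext hNNN
  refine ⟨QuotientGroup.mk M, ?_, ?_⟩
  · show (QuotientGroup.mk (M ^ 9) : ProjectiveSpecialLinearGroup (Fin 2) F) = 1
    rw [hM9]; rfl
  · intro h
    have h3 : (QuotientGroup.mk (M ^ 3) : ProjectiveSpecialLinearGroup (Fin 2) F) = 1 := h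
    have h4 : M ^ 3 ∈ Subgroup.center (SpecialLinearGroup (Fin 2) F) := (QuotientGroup.eq_one_iff _).1 h3
    rw [Matrix.SpecialLinearGroup.mem_center_iff] at h4
    obtain ⟨r, -, hr⟩ := h4
    have h5 : (M ^ 3).1 = !![t, 1 + t ^ 2; 1 + t ^ 2, t + 1] := by
      rw [pow_three']; exact hN
    rw [h5] at hr
    have h6 := congrFun (congrFun hr 0) 1
    simp at h6
    -- 1 + t² = 0 → t = 1
    have h7 : (t - 1) ^ 2 = 0 := by linear_combination (-t) * h2 - h6
    have h8 : t = 1 := sub_eq_zero.1 (pow_eq_zero_iff (by norm_num) |>.1 h7)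
    rw [h8] at ht
    have : (1 : F) = 0 := by linear_combination ht + h2
    exact one_ne_zero this
end

theorem no_eight {H : Subgroup (GL (Fin 5) (ZMod 2))} {K : Subgroup ↥H} [K.Normal] {F : Type} [Field F] [Fintype F]
    (hF : Fintype.card F = 8) (e : ↥H ⧸ K ≃* ProjectiveSpecialLinearGroup (Fin 2) F) : False := by
  obtain ⟨y, hy9, hy3⟩ := exists_nine hF
  obtain ⟨h, hh⟩ := QuotientGroup.mk_surjective (e.symm y)
  have hcard : (h : GL (Fin 5) (ZMod 2)) ^ 9999360 = 1 := by
    rw [← card_GL5]; exact pow_card_eq_one'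
  have hx9 : ((h : GL (Fin 5) (ZMod 2)) ^ 1111040) ^ 9 = 1 := by
    rw [← pow_mul]; exact hcard
  have hx3 := nine _ hx9
  have h1 : h ^ 3333120 = 1 := by
    apply Subtype.ext
    rw [← pow_mul] at hx3
    exact hx3
  have h2 : y ^ 3333120 = 1 := by
    have h3 : (e.symm y) ^ 3333120 = 1 := by
      rw [← hh, ← QuotientGroup.mk_pow, h1]; rfl
    rw [← map_pow] at h3
    exact (map_eq_one_iff e.symm e.symm.injective).1 h3
  have h6 : y ^ 6 = 1 := by
    have : y ^ 3333120 = (y ^ 9) ^ 370346 * y ^ 6 := by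
      rw [← pow_mul, ← pow_add]
    rw [this, hy9, _root_.one_pow, one_mul] at h2
    exact h2
  apply hy3
  have : y ^ 9 = y ^ 6 * y ^ 3 := by rw [← pow_add]
  rw [hy9, h6, one_mul] at this
  exact this.symm

theorem card_psl {F : Type} [Field F] [Fintype F] {n : ℕ} (hn : 2 ≤ n) (hF : Fintype.card F = 2 ^ n) :
    Nat.card (ProjectiveSpecialLinearGroup (Fin 2) F) = 2 ^ n * ((2 ^ n - 1) * (2 ^ n + 1)) := by
  have hc := Cfsg.Agent.H5.card_PSL_mul hF 2 (by omega)
  have hodd : Nat.gcd 2 (2 ^ n - 1) = 1 := by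
    rw [← Nat.coprime_iff_gcd_eq_one, Nat.coprime_two_left]
    have h1 : Even (2 ^ n) := (Nat.even_pow.2 ⟨even_two, by omega⟩)
    exact Nat.Even.sub_odd Nat.one_le_two_pow h1 odd_one
  rw [hodd, one_mul, Fin.prod_univ_two] at hc
  simp only [Fin.val_zero, Fin.val_one, pow_zero, pow_one] at hc
  obtain ⟨r, hr⟩ : ∃ r, 2 ^ n = r + 1 := ⟨2 ^ n - 1, (Nat.sub_add_cancel Nat.one_le_two_pow).symm⟩
  have hr0 : 0 < r := by
    have : 2 ^ 2 ≤ 2 ^ n := Nat.pow_le_pow_right (by norm_num) hn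
    omega
  rw [hr] at hc ⊢
  have e1 : (r + 1) ^ 2 - 1 = r * (r + 2) := by
    rw [show (r + 1) ^ 2 = r * (r + 2) + 1 by ring, Nat.add_sub_cancel]
  have e2 : (r + 1) ^ 2 - (r + 1) = r * (r + 1) := by
    rw [show (r + 1) ^ 2 = r * (r + 1) + (r + 1) by ring, Nat.add_sub_cancel]
  rw [e1, e2, Nat.add_sub_cancel] at hc
  rw [Nat.add_sub_cancel]
  apply Nat.eq_of_mul_eq_mul_left hr0
  rw [hc]; ring

/-- Let X be a section of the general linear group GL(5, 2), that is, a quotient of a subgroup of it. If X is isomorphic to PSL(2, 2^n) for some n ≥ 2, to a Suzuki group over the field with 2^(2m+1) elements for some m ≥ 1, or to PSU(3, 2^n) for some n ≥ 2, then X is isomorphic to PSL(2, 4). -/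
theorem result {H : Subgroup (GL (Fin 5) (ZMod 2))}
    {K : Subgroup ↥H} [K.Normal]
    (hX : (∃ (n : ℕ) (F : Type) (_ : Field F) (_ : Fintype F), 2 ≤ n ∧ Fintype.card F = 2 ^ n ∧
        Nonempty (↥H ⧸ K ≃* Matrix.ProjectiveSpecialLinearGroup (Fin 2) F)) ∨
      (∃ (m : ℕ) (F : Type) (_ : Field F) (_ : Fintype F), 1 ≤ m ∧ Fintype.card F = 2 ^ (2 * m + 1) ∧
        Nonempty (↥H ⧸ K ≃* ↥(Cfsg.Lie.Sz F (2 ^ (m + 1))))) ∨
      (∃ (n : ℕ) (F : Type) (_ : Field F) (_ : Fintype F), 2 ≤ n ∧ Fintype.card F = 4 ^ n ∧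
        Nonempty (↥H ⧸ K ≃* Cfsg.PSU 3 F (2 ^ n)))) :
    ∃ (F : Type) (_ : Field F) (_ : Fintype F), Fintype.card F = 4 ∧
      Nonempty (↥H ⧸ K ≃* Matrix.ProjectiveSpecialLinearGroup (Fin 2) F) := by
  have hdvd : Nat.card (↥H ⧸ K) ∣ 9999360 := by
    rw [← card_GL5]
    exact (Subgroup.card_quotient_dvd_card K).trans (Subgroup.card_subgroup_dvd_card H)
  rcases hX with ⟨n, F, _, _, hn, hF, ⟨e⟩⟩ | ⟨m, F, _, _, hm, hF, ⟨e⟩⟩ | ⟨n, F, _, _, hn, hF, ⟨e⟩⟩
  · rw [Nat.card_congr e.toEquiv, card_psl hn hF] at hdvd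
    by_cases hn11 : 11 ≤ n
    · exfalso
      have h1 : 2 ^ 11 ∣ 9999360 := ((pow_dvd_pow 2 hn11).trans (Dvd.intro _ rfl)).trans hdvd
      revert h1; decide
    · have hn' : n ≤ 10 := by omega
      interval_cases n
      · exact ⟨F, _, _, by rw [hF]; norm_num, ⟨e⟩⟩
      · exact (no_eight (by rw [hF]; norm_num) e).elim
      all_goals (exfalso; revert hdvd; norm_num)
  · exfalso
    haveI : Cfsg.Agent.H15.Suz.SzF F m := ⟨hm, hF⟩
    have hc : Nat.card ↥(Cfsg.Lie.Sz F (2 ^ (m + 1))) = (2 ^ (2 * m + 1)) ^ 2 * ((2 ^ (2 * m + 1) - 1) * ((2 ^ (2 * m + 1)) ^ 2 + 1)) := by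
      rw [← Nat.card_congr (Cfsg.Agent.H15.Suz.lieEquiv F m).toEquiv, Cfsg.Agent.H15.Suz.card_Sg (F := F) m, hF]
      ring
    rw [Nat.card_congr e.toEquiv, hc] at hdvd
    by_cases hm3 : 3 ≤ m
    · have h1 : 2 ^ 11 ∣ 9999360 := by
        refine Dvd.dvd.trans ?_ ((Dvd.intro _ rfl).trans hdvd)
        rw [← pow_mul]
        exact pow_dvd_pow 2 (by omega)
      revert h1; decide
    · have hm' : m ≤ 2 := by omega
      interval_cases m
      all_goals (revert hdvd; norm_num)
  · exfalso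
    have hF' : Fintype.card F = (2 ^ n) ^ 2 := by
      rw [hF, ← pow_mul, mul_comm, pow_mul]; norm_num
    have hc : Nat.gcd 3 (2 ^ n + 1) * ((2 ^ n + 1) * Nat.card (Cfsg.PSU 3 F (2 ^ n))) =
        (2 ^ n) ^ 3 * ∏ i ∈ Finset.range 3, (if Even i then (2 ^ n) ^ (i + 1) + 1 else (2 ^ n) ^ (i + 1) - 1) :=
      Cfsg.Agent.H5.card_PSU_mul (n := 3) hF' (by norm_num)
    rw [Nat.card_congr e.toEquiv] at hdvd
    have e3 : (∏ i ∈ Finset.range 3, (if Even i then (2 ^ n) ^ (i + 1) + 1 else (2 ^ n) ^ (i + 1) - 1)) =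
        (2 ^ n + 1) * ((2 ^ n) ^ 2 - 1) * ((2 ^ n) ^ 3 + 1) := by
      simp [Finset.prod_range_succ, Nat.even_iff]
    rw [e3] at hc
    by_cases hn4 : 4 ≤ n
    · have h1 : 2 ^ (n * 3) ∣ Nat.gcd 3 (2 ^ n + 1) * ((2 ^ n + 1) * Nat.card (Cfsg.PSU 3 F (2 ^ n))) := by
        rw [hc, pow_mul]
        exact Dvd.intro _ rfl
      have hodd : Odd (2 ^ n + 1) := by
        have h1 : Even (2 ^ n) := (Nat.even_pow.2 ⟨even_two, by omega⟩)
        exact h1.add_one
      have hco : Nat.Coprime (2 ^ (n * 3)) (2 ^ n + 1) := by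
        apply Nat.Coprime.pow_left
        exact Nat.coprime_two_left.2 hodd
      have hco' : Nat.Coprime (2 ^ (n * 3)) (Nat.gcd 3 (2 ^ n + 1)) :=
        Nat.Coprime.coprime_dvd_right (Nat.gcd_dvd_right _ _) hco
      have h2 := hco.dvd_of_dvd_mul_left (hco'.dvd_of_dvd_mul_left h1)
      have h3 : 2 ^ 11 ∣ 9999360 := (pow_dvd_pow 2 (by omega)).trans (h2.trans hdvd)
      revert h3; decide
    · have hn' : n ≤ 3 := by omega
      interval_cases n
      · have h1 : Nat.card (Cfsg.PSU 3 F (2 ^ 2)) = 62400 := by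
          norm_num at hc ⊢
          omega
        rw [h1] at hdvd
        revert hdvd; norm_num
      · have h1 : Nat.card (Cfsg.PSU 3 F (2 ^ 3)) = 5515776 := by
          norm_num at hc ⊢
          omega
        rw [h1] at hdvd
        revert hdvd; norm_num

end Cfsg.Agent.S3179
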