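import Cfsg.Statements.S3180
import Cfsg.Agent.H20.SylowTools

set_option autoImplicit false
open Cfsg

namespace Cfsg.Agent.S3180

/-- Let P be a Sylow p-subgroup of a finite group J and P₁ a subgroup of P that is weakly closed in P with respect to J. If J acts on a set and two points, each fixed by every element of P₁, lie in one J-orbit, then they lie in one orbit of the normalizer of P₁ in J. -/
theorem result {J : Type*} [Group J] [Finite J]
    {p : ℕ} [Fact p.Prime] (P : Sylow p J) (P₁ : Subgroup J) (hW : Cfsg.IsWeaklyClosed P₁ (P : Subgroup J))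
    {Ω : Type*} [MulAction J Ω] (x y : Ω) (hx : ∀ g ∈ P₁, g • x = x) (hy : ∀ g ∈ P₁, g • y = y)
    (hc : ∃ g : J, g • x = y) :
    ∃ g ∈ Subgroup.normalizer (P₁ : Set J), g • x = y := by
  obtain ⟨g, hg⟩ := hc
  have hP₁ : IsPGroup p P₁ := P.isPGroup'.to_le hW.1
  obtain ⟨s, hs, Q, hQ1, hQ2, -⟩ := H20.exists_conj_le_sylow (G := J) p (A := P₁)
    (B := P₁.map (MulAut.conj g).toMonoidHom) (H := MulAction.stabilizer J y) hP₁ (hP₁.map _)
    (fun k hk => hy k hk) (by
      rintro _ ⟨k, hk, rfl⟩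
      change (g * k * g⁻¹) • y = y
      rw [← hg, mul_smul, mul_smul, inv_smul_smul, hx k hk])
  rw [H20.map_conj_map_conj] at hQ2
  have := H20.weaklyClosed_eq hW hQ1 hQ2
  refine ⟨s * g, H20.mem_normalizer_iff_map.mpr this, ?_⟩
  rw [mul_smul, hg]
  exact hs

end Cfsg.Agent.S3180
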