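import Cfsg.Statements.S3183
import Cfsg.Agent.H20.SylowTools

set_option autoImplicit false
open Cfsg

namespace Cfsg.Agent.S3183

open Cfsg.Agent.H20

theorem mem_center_map {G : Type*} [Group G] {U : Subgroup G} {x : G} :
    x ∈ (Subgroup.center ↥U).map U.subtype ↔ x ∈ U ∧ ∀ u ∈ U, u * x = x * u := by
  constructor
  · rintro ⟨y, hy, rfl⟩
    refine ⟨y.2, fun u hu => ?_⟩
    exact congrArg Subtype.val (Subgroup.mem_center_iff.mp hy ⟨u, hu⟩)
  · rintro ⟨hx, hc⟩
    refine ⟨⟨x, hx⟩, ?_, rfl⟩
    apply Subgroup.mem_center_iff.mpr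
    rintro ⟨u, hu⟩
    exact Subtype.ext (hc u hu)

/-- Let G be a finite group in which the intersection of any two distinct Sylow 2-subgroups is contained in the centre of some Sylow 2-subgroup, and let S be a Sylow 2-subgroup. Then for every x in S the centralizer of x in S is a Sylow 2-subgroup of the centralizer of x in G (no 2-subgroup centralizing x is larger), and for every other Sylow 2-subgroup T the intersection S ∩ T lies in both the centre of S and the centre of T. -/
theorem result {G : Type*} [Group G] [Finite G]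
    (hCI : ∀ S T : Sylow 2 G, S ≠ T → ∃ U : Sylow 2 G,
      (S : Subgroup G) ⊓ (T : Subgroup G) ≤ (Subgroup.center ↥(U : Subgroup G)).map (U : Subgroup G).subtype)
    (S : Sylow 2 G) :
    (∀ x ∈ (S : Subgroup G), ∀ P : Subgroup G, IsPGroup 2 ↥P → P ≤ Subgroup.centralizer ({x} : Set G) →
        Nat.card ↥P ≤ Nat.card ↥((S : Subgroup G) ⊓ Subgroup.centralizer ({x} : Set G))) ∧
    (∀ T : Sylow 2 G, T ≠ S →
        (S : Subgroup G) ⊓ (T : Subgroup G) ≤
          (Subgroup.center ↥(S : Subgroup G)).map (S : Subgroup G).subtype ⊓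
            (Subgroup.center ↥(T : Subgroup G)).map (T : Subgroup G).subtype) := by
  have hf : Fact (Nat.Prime 2) := ⟨Nat.prime_two⟩
  have hcardZ : ∀ U V : Sylow 2 G, Nat.card ((Subgroup.center ↥(U : Subgroup G)).map (U : Subgroup G).subtype)
      = Nat.card ((Subgroup.center ↥(V : Subgroup G)).map (V : Subgroup G).subtype) := by
    intro U V
    rw [Subgroup.card_map_of_injective Subtype.val_injective,
      Subgroup.card_map_of_injective Subtype.val_injective]
    exact Nat.card_congr (Subgroup.centerCongr (Sylow.equiv U V)).toEquiv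
  have key : ∀ S : Sylow 2 G, ∀ x ∈ (S : Subgroup G), ∀ U : Sylow 2 G,
      x ∈ (Subgroup.center ↥(U : Subgroup G)).map (U : Subgroup G).subtype →
      x ∈ (Subgroup.center ↥(S : Subgroup G)).map (S : Subgroup G).subtype := by
    intro S x hxS U hxU
    have hUC : (U : Subgroup G) ≤ Subgroup.centralizer ({x} : Set G) := by
      intro u hu
      rw [Subgroup.mem_centralizer_singleton_iff]
      exact (mem_center_map.mp hxU).2 u hu
    have hCp : IsPGroup 2 ((S : Subgroup G) ⊓ Subgroup.centralizer ({x} : Set G) : Subgroup G) :=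
      S.isPGroup'.to_le inf_le_left
    obtain ⟨h, hh, Q, hQ1, hQ2, -⟩ := exists_conj_le_sylow (G := G) 2 U.isPGroup' hCp hUC inf_le_right
    have hUQ : U = Q := Sylow.ext (U.is_maximal' Q.isPGroup' hQ1).symm
    rw [← hUQ] at hQ2
    -- V = U^{h⁻¹}
    obtain ⟨V, hV⟩ : ∃ V : Sylow 2 G, (V : Subgroup G) = (U : Subgroup G).map (MulAut.conj h⁻¹).toMonoidHom :=
      ⟨h⁻¹ • U, rfl⟩
    have hCV : (S : Subgroup G) ⊓ Subgroup.centralizer ({x} : Set G) ≤ V := by
      rw [hV]; exact map_conj_mono_iff.mp hQ2
    have hVC : (V : Subgroup G) ≤ Subgroup.centralizer ({x} : Set G) := by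
      rw [hV]
      rintro _ ⟨u, hu, rfl⟩
      have : (MulAut.conj h⁻¹).toMonoidHom u = h⁻¹ * u * h := by simp
      rw [this]
      exact mul_mem (mul_mem (inv_mem hh) (hUC hu)) hh
    by_cases hVS : S = V
    · rw [mem_center_map]
      refine ⟨hxS, fun u hu => ?_⟩
      rw [hVS] at hu
      exact Subgroup.mem_centralizer_singleton_iff.mp (hVC hu)
    · obtain ⟨W, hW⟩ := hCI S V hVS
      have hE : (Subgroup.center ↥(S : Subgroup G)).map (S : Subgroup G).subtype ≤
          (S : Subgroup G) ⊓ V := by
        intro z hz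
        have hz' := mem_center_map.mp hz
        exact ⟨hz'.1, hCV ⟨hz'.1, Subgroup.mem_centralizer_singleton_iff.mpr (hz'.2 x hxS).symm⟩⟩
      have h1 : (Subgroup.center ↥(S : Subgroup G)).map (S : Subgroup G).subtype =
          (S : Subgroup G) ⊓ V := by
        apply Subgroup.eq_of_le_of_card_ge hE
        rw [hcardZ S W]
        exact Subgroup.card_le_of_le hW
      rw [h1]
      exact ⟨hxS, hCV ⟨hxS, Subgroup.mem_centralizer_singleton_iff.mpr rfl⟩⟩
  constructor
  · intro x hxS P hP hPC
    by_cases hU : ∃ U : Sylow 2 G, x ∈ (Subgroup.center ↥(U : Subgroup G)).map (U : Subgroup G).subtype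
    · obtain ⟨U, hU⟩ := hU
      have h1 := mem_center_map.mp (key S x hxS U hU)
      have h2 : (S : Subgroup G) ⊓ Subgroup.centralizer ({x} : Set G) = S := by
        apply inf_eq_left.mpr
        intro s hs
        rw [Subgroup.mem_centralizer_singleton_iff]
        exact h1.2 s hs
      rw [h2]
      obtain ⟨Q, hQ⟩ := hP.exists_le_sylow
      calc Nat.card P ≤ Nat.card Q := Subgroup.card_le_of_le hQ
        _ = Nat.card S := Nat.card_congr (Sylow.equiv Q S).toEquiv
    · push Not at hU
      have hPx : IsPGroup 2 (P ⊔ Subgroup.zpowers x : Subgroup G) := by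
        have hx : IsPGroup 2 (Subgroup.zpowers x) := S.isPGroup'.to_le (by rwa [Subgroup.zpowers_le])
        apply IsPGroup.to_sup_of_normal_right' hP hx
        intro g hg
        have hgx : g * x = x * g := Subgroup.mem_centralizer_singleton_iff.mp (hPC hg)
        rw [Subgroup.mem_normalizer_iff]
        intro k
        have : ∀ k ∈ Subgroup.zpowers x, g * k * g⁻¹ = k := by
          rintro _ ⟨j, rfl⟩
          have : Commute g (x ^ j) := (show Commute g x from hgx).zpow_right j
          change g * x ^ j * g⁻¹ = x ^ j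
          rw [this.eq, mul_inv_cancel_right]
        constructor
        · intro hk; rw [this k hk]; exact hk
        · intro hk
          have hk2 : k = g * k * g⁻¹ := by
            have h1 := this _ hk
            have h2 : g * (g * k * g⁻¹) * g⁻¹ = g * (k) * g⁻¹ := by rw [h1]
            have h3 := mul_right_cancel h2
            exact (mul_left_cancel h3).symm
          rw [hk2]; exact hk
      obtain ⟨Q, hQ⟩ := hPx.exists_le_sylow
      have hxQ : x ∈ Q := hQ (Subgroup.mem_sup_right (Subgroup.mem_zpowers x))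
      have hSQ : S = Q := by
        by_contra hne
        obtain ⟨U, hU'⟩ := hCI S Q hne
        exact hU U (hU' ⟨hxS, hxQ⟩)
      apply Subgroup.card_le_of_le
      refine le_inf ?_ hPC
      rw [hSQ]; exact le_sup_left.trans hQ
  · intro T hT
    obtain ⟨U, hU⟩ := hCI S T hT.symm
    intro x hx
    exact ⟨key S x hx.1 U (hU hx), key T x hx.2 U (hU hx)⟩

end Cfsg.Agent.S3183
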