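import Cfsg.Statements.S3184
import Cfsg.Agent.H4.ZStar2

set_option autoImplicit false
open Cfsg

namespace Cfsg.Agent.S3184

open scoped Pointwise

/-- Let G be a finite group in which the intersection of any two distinct Sylow 2-subgroups is contained in the centre of some Sylow 2-subgroup, and let S be a Sylow 2-subgroup. If C is a nontrivial cyclic characteristic subgroup of S, then the involution of C is central modulo the largest normal subgroup of odd order of G: each of its conjugates has the same image in G/O(G). -/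
theorem result {G : Type*} [Group G] [Finite G]
    (hCI : ∀ S T : Sylow 2 G, S ≠ T → ∃ U : Sylow 2 G,
      (S : Subgroup G) ⊓ (T : Subgroup G) ≤ (Subgroup.center ↥(U : Subgroup G)).map (U : Subgroup G).subtype)
    (S : Sylow 2 G) (C : Subgroup ↥(S : Subgroup G)) (hC : C ≠ ⊥) (hCc : IsCyclic ↥C) (hCh : C.Characteristic)
    (c : ↥(S : Subgroup G)) (hc : c ∈ C) (hc2 : orderOf c = 2) :
    ∀ g : G, (QuotientGroup.mk (s := Cfsg.oddCore G) (g * (c : G) * g⁻¹)) =
      QuotientGroup.mk (s := Cfsg.oddCore G) (c : G) := by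
  haveI : Fact (Nat.Prime 2) := ⟨Nat.prime_two⟩
  have hSS := H4.isSylowOf_sylow S
  -- normalizer fixes c
  have hN : ∀ n ∈ Subgroup.normalizer ((S : Subgroup G) : Set G), n * (c : G) * n⁻¹ = c := by
    intro n hn
    set α := (S : Subgroup G).normalizerMonoidHom ⟨n, hn⟩ with hα
    have h1 : α c ∈ C := by
      have h2 := hCh.fixed α
      rw [← h2] at hc
      exact hc
    have h3 : orderOf (α c) = 2 := by rw [MulEquiv.orderOf_eq, hc2]
    have h4 : (⟨α c, h1⟩ : C) = ⟨c, hc⟩ := by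
      apply H4.eq_involution_of_cyclic (Q := C)
      · rw [Subgroup.orderOf_mk, hc2]
      · rw [Subgroup.orderOf_mk, h3]
    have h5 : α c = c := congrArg Subtype.val h4
    have h6 : ((α c : (S : Subgroup G)) : G) = n * (c : G) * n⁻¹ := rfl
    rw [← h6, h5]
  have hScen : ∀ h : G, MulAut.conj h • (S : Subgroup G) ≤ Subgroup.centralizer ({h * (c : G) * h⁻¹} : Set G) := by
    intro h w hw
    rw [Cfsg.Agent.H1.mem_conj_smul] at hw
    have h1 := hN _ (Subgroup.le_normalizer hw)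
    rw [Subgroup.mem_centralizer_singleton_iff]
    have h2 : w * (h * (c : G) * h⁻¹) = h * ((h⁻¹ * w * h) * (c : G) * (h⁻¹ * w * h)⁻¹) * h⁻¹ * w := by group
    rw [h2, h1]
  have key : ∀ (h : G) (U : Subgroup G), Cfsg.Agent.H23.IsSylowOf 2 U ⊤ →
      U ≤ Subgroup.centralizer ({h * (c : G) * h⁻¹} : Set G) →
      ∃ h' : G, MulAut.conj h' • (S : Subgroup G) = U ∧ h' * (c : G) * h'⁻¹ = h * (c : G) * h⁻¹ := by
    intro h U hU hUc
    have h1 : Cfsg.Agent.H23.IsSylowOf 2 (MulAut.conj h • (S : Subgroup G)) (Subgroup.centralizer ({h * (c : G) * h⁻¹} : Set G)) :=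
      Cfsg.Agent.H19.IsSylowOf.mono (hSS.conj (by rw [Subgroup.normalizer_eq_top]; exact Subgroup.mem_top h)) (hScen h) le_top
    have h2 := Cfsg.Agent.H19.IsSylowOf.mono hU hUc le_top
    obtain ⟨v, hv, hvU⟩ := h1.exists_conj h2
    refine ⟨v * h, by rw [← Cfsg.Agent.H1.conj_smul_smul, hvU], ?_⟩
    rw [Subgroup.mem_centralizer_singleton_iff] at hv
    have h3 : (v * h) * (c : G) * (v * h)⁻¹ = v * (h * (c : G) * h⁻¹) * v⁻¹ := by group
    rw [h3, hv]; group
  have huniq : ∀ h1 h2 : G, MulAut.conj h1 • (S : Subgroup G) = MulAut.conj h2 • (S : Subgroup G) →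
      h1 * (c : G) * h1⁻¹ = h2 * (c : G) * h2⁻¹ := by
    intro h1 h2 h
    have h3 : h2⁻¹ * h1 ∈ Subgroup.normalizer ((S : Subgroup G) : Set G) := by
      rw [Cfsg.Agent.H1.mem_normalizer_iff_conj_smul, ← Cfsg.Agent.H1.conj_smul_smul, h, Cfsg.Agent.H1.conj_smul_smul,
        inv_mul_cancel, map_one, one_smul]
    have h4 := hN _ h3
    have h5 : h1 * (c : G) * h1⁻¹ = h2 * ((h2⁻¹ * h1) * (c : G) * (h2⁻¹ * h1)⁻¹) * h2⁻¹ := by group
    rw [h5, h4]
  have hone : MulAut.conj (1 : G) • (S : Subgroup G) = S := by rw [map_one, one_smul]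
  have hiso : IsIsolatedInvolution (c : G) := by
    apply H4.isolated_of_sylow S (by rw [Subgroup.orderOf_coe, hc2])
    intro g hg
    set d := g * (c : G) * g⁻¹ with hd
    have hcS : (c : G) ∈ (S : Subgroup G) := c.2
    have hg' : d ∈ (S : Subgroup G) := hg
    have hdc : d * (c : G) = (c : G) * d := by
      have := hN d (Subgroup.le_normalizer hg')
      rwa [mul_inv_eq_iff_eq_mul] at this
    obtain ⟨T, hT, hTS⟩ := Cfsg.Agent.H23.exists_isSylowOf_ge (G := Subgroup.centralizer ({d} : Set G))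
      (inf_le_right : (S : Subgroup G) ⊓ Subgroup.centralizer ({d} : Set G) ≤ Subgroup.centralizer ({d} : Set G))
      (S.2.to_le inf_le_left)
    have hgS : Cfsg.Agent.H23.IsSylowOf 2 (MulAut.conj g • (S : Subgroup G)) ⊤ :=
      hSS.conj (by rw [Subgroup.normalizer_eq_top]; exact Subgroup.mem_top g)
    have hTtop : Cfsg.Agent.H23.IsSylowOf 2 T ⊤ := by
      have h1 := Cfsg.Agent.H19.IsSylowOf.mono hgS (hScen g) le_top
      obtain ⟨v, hv, hvT⟩ := h1.exists_conj hT
      rw [← hvT]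
      exact hgS.conj (by rw [Subgroup.normalizer_eq_top]; exact Subgroup.mem_top v)
    obtain ⟨T', hT'⟩ := H4.exists_sylow_of_isSylowOf hTtop
    by_cases hTS' : S = T'
    · have h1 : (S : Subgroup G) ≤ Subgroup.centralizer ({d} : Set G) := by
        rw [hTS', hT']; exact hT.le
      obtain ⟨h', hh1, hh2⟩ := key g _ hSS h1
      have h2 := huniq h' 1 (by rw [hh1, hone])
      rw [hh2] at h2
      rw [← hd] at h2
      rw [h2]; group
    · obtain ⟨U, hU⟩ := hCI S T' hTS'
      have hcT : (c : G) ∈ T := hTS (Subgroup.mem_inf.2 ⟨hcS, by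
        rw [Subgroup.mem_centralizer_singleton_iff]; exact hdc.symm⟩)
      have hdT : d ∈ T := hTS (Subgroup.mem_inf.2 ⟨hg', by
        rw [Subgroup.mem_centralizer_singleton_iff]⟩)
      have hcomm : ∀ w, w ∈ (S : Subgroup G) ⊓ (T' : Subgroup G) → (U : Subgroup G) ≤ Subgroup.centralizer ({w} : Set G) := by
        intro w hw y hy
        obtain ⟨⟨z, hz⟩, hzc, hzw⟩ := Subgroup.mem_map.1 (hU hw)
        have h3 := congrArg Subtype.val (Subgroup.mem_center_iff.1 hzc ⟨y, hy⟩)
        rw [Subgroup.mem_centralizer_singleton_iff, ← hzw]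
        exact h3
      have hUc := hcomm (c : G) (Subgroup.mem_inf.2 ⟨hcS, by rw [hT']; exact hcT⟩)
      have hUd := hcomm d (Subgroup.mem_inf.2 ⟨hg', by rw [hT']; exact hdT⟩)
      obtain ⟨h1, hh1, hh1'⟩ := key 1 _ (H4.isSylowOf_sylow U) (by
        have : (1 : G) * (c : G) * 1⁻¹ = c := by group
        rw [this]; exact hUc)
      obtain ⟨h2, hh2, hh2'⟩ := key g _ (H4.isSylowOf_sylow U) hUd
      have h3 := huniq h1 h2 (by rw [hh1, hh2])
      rw [hh1', hh2', ← hd] at h3
      rw [← h3]; group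
  intro g
  have h1 := H4.zstar hiso g
  haveI hnorm : (oddCore G).Normal := Cfsg.Agent.H1.pPrimeCore_normal 2 G
  rw [QuotientGroup.eq]
  have h2 : (g * (c : G) * g⁻¹)⁻¹ * (c : G) = (c : G)⁻¹ * ((c : G) * g * (c : G)⁻¹ * g⁻¹) * (c : G)⁻¹⁻¹ := by group
  rw [h2]
  exact hnorm.conj_mem _ h1 _

end Cfsg.Agent.S3184
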