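import Cfsg.Statements.S3190
import Cfsg.Agent.H20.Basic
import Cfsg.Agent.H23.Coprime2

set_option autoImplicit false
open Cfsg

namespace Cfsg.Agent.S3190

theorem mem_center_map {G : Type*} [Group G] {U : Subgroup G} {x : G} :
    x ∈ (Subgroup.center ↥U).map U.subtype ↔ x ∈ U ∧ ∀ u ∈ U, u * x = x * u := by
  constructor
  · rintro ⟨y, hy, rfl⟩
    refine ⟨y.2, fun u hu => ?_⟩
    exact congrArg Subtype.val (Subgroup.mem_center_iff.mp hy ⟨u, hu⟩)
  · rintro ⟨hx, hc⟩
    refine ⟨⟨x, hx⟩, ?_, rfl⟩
    apply Subgroup.mem_center_iff.mpr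
    rintro ⟨u, hu⟩
    exact Subtype.ext (hc u hu)

/-- Let p be an odd prime and, inside a finite group, let P be a p-subgroup normalized by a Klein four-group T. Let R be a subgroup of P, normal in P and normalized by T, such that P is the product of R with the centralizer of T in P. If T centralizes the centre of P, then T centralizes the centre of R. -/
theorem result {X : Type*} [Group X] [Finite X]
    {p : ℕ} (hp : p.Prime) (hodd : Odd p) (P T R : Subgroup X) (hP : IsPGroup p ↥P) (hT : IsKleinFour ↥T)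
    (hTP : T ≤ Subgroup.normalizer (P : Set X)) (hRP : R ≤ P) (hRn : (R.subgroupOf P).Normal)
    (hTR : T ≤ Subgroup.normalizer (R : Set X)) (hfac : R ⊔ (P ⊓ Subgroup.centralizer (T : Set X)) = P)
    (hZ : T ≤ Subgroup.centralizer (((Subgroup.center ↥P).map P.subtype : Subgroup X) : Set X)) :
    T ≤ Subgroup.centralizer (((Subgroup.center ↥R).map R.subtype : Subgroup X) : Set X) := by
  have hf : Fact p.Prime := ⟨hp⟩
  set Z : Subgroup X := (Subgroup.center ↥R).map R.subtype with hZdef
  have hZR : Z ≤ R := Subgroup.map_subtype_le _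
  have hNZ : Subgroup.normalizer (R : Set X) ≤ Subgroup.normalizer (Z : Set X) :=
    H20.normalizer_le_normalizer_of_char (T := R) (C := Subgroup.center R) inferInstance
  have hTZ : T ≤ Subgroup.normalizer (Z : Set X) := hTR.trans hNZ
  have hZp : IsPGroup p Z := hP.to_le (hZR.trans hRP)
  have hT4 : Nat.card T = 4 := hT.card_four
  have hcop : (Nat.card T).Coprime (Nat.card Z) := by
    obtain ⟨n, hn⟩ := IsPGroup.iff_card.mp hZp
    rw [hn, hT4]
    apply Nat.Coprime.pow_right
    have : Nat.Coprime 2 p := (Nat.coprime_two_left).mpr hodd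
    exact Nat.Coprime.pow_left 2 this
  have hZab : IsMulCommutative Z := by
    refine ⟨⟨fun a b => Subtype.ext ?_⟩⟩
    exact (mem_center_map.mp b.2).2 a (hZR a.2)
  have hinf := H23.commutator_inf_centralizer_of_abelian hTZ hcop hZab
  set Y : Subgroup X := ⁅Z, T⁆ with hY
  have hYZ : Y ≤ Z := H23.commutator_le_of_le_normalizer hTZ
  have hRY : R ≤ Subgroup.normalizer (Y : Set X) := by
    apply H23.le_normalizer_of_conj_mem
    intro a ha g hg
    have := (mem_center_map.mp (hYZ hg)).2 a ha
    rw [this, mul_inv_cancel_right]; exact hg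
  have hPR : P ≤ Subgroup.normalizer (R : Set X) := by
    apply H23.le_normalizer_of_conj_mem
    intro a ha g hg
    have := hRn.conj_mem ⟨g, hRP hg⟩ (by rwa [Subgroup.mem_subgroupOf]) ⟨a, ha⟩
    rwa [Subgroup.mem_subgroupOf] at this
  have hCY : P ⊓ Subgroup.centralizer (T : Set X) ≤ Subgroup.normalizer (Y : Set X) := by
    intro c hc
    have h1 : c ∈ Subgroup.normalizer (Z : Set X) := hNZ (hPR hc.1)
    have h2 : c ∈ Subgroup.normalizer (T : Set X) :=
      Subgroup.centralizer_le_normalizer (T : Set X) hc.2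
    rw [Subgroup.mem_normalizer_iff_map_conj_eq] at h1 h2 ⊢
    rw [hY, Subgroup.map_commutator]
    erw [h1, h2]
  have hPY : P ≤ Subgroup.normalizer (Y : Set X) := by
    rw [← hfac]; exact sup_le hRY hCY
  have hYP : Y ≤ P := hYZ.trans (hZR.trans hRP)
  have hYbot : Y = ⊥ := by
    by_contra hne
    have hYn : (Y.subgroupOf P).Normal := by
      refine ⟨fun n hn g => ?_⟩
      rw [Subgroup.mem_subgroupOf] at hn ⊢
      exact H23.mem_normalizer_conj hPY g.2 hn
    have hne' : Y.subgroupOf P ≠ ⊥ := by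
      intro h
      apply hne
      rw [Subgroup.subgroupOf_eq_bot] at h
      rw [eq_bot_iff]
      exact (le_inf le_rfl hYP).trans (disjoint_iff_inf_le.mp h)
    have h3 := H23.inf_center_ne_bot hP hne'
    obtain ⟨⟨y, hy⟩, hy1⟩ := Subgroup.ne_bot_iff_exists_ne_one.mp h3
    apply hy1
    apply Subtype.ext
    change y = 1
    have hyY : (y : X) ∈ Y := Subgroup.mem_subgroupOf.mp hy.1
    have hyC : (y : X) ∈ Subgroup.centralizer (T : Set X) := by
      rw [Subgroup.mem_centralizer_iff]
      intro t ht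
      have := Subgroup.mem_centralizer_iff.mp (hZ ht) y ⟨y, hy.2, rfl⟩
      exact this.symm
    have : (y : X) ∈ Y ⊓ Subgroup.centralizer (T : Set X) := ⟨hyY, hyC⟩
    rw [hinf, Subgroup.mem_bot] at this
    exact Subtype.ext this
  have h4 : Z ≤ Subgroup.centralizer (T : Set X) := Subgroup.commutator_eq_bot_iff_le_centralizer.mp hYbot
  intro t ht
  rw [Subgroup.mem_centralizer_iff]
  intro z hz
  exact (Subgroup.mem_centralizer_iff.mp (h4 hz) t ht).symm

end Cfsg.Agent.S3190
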