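import Cfsg.Statements.S3195
import Cfsg.Agent.H4.BaerSuzuki

set_option autoImplicit false
open Cfsg


namespace Cfsg.Agent.S3195


/-- square root of an odd order element -/
theorem sqrt_odd {G : Type*} [Group G] {w : G} (hw : Odd (orderOf w)) : ∃ m : ℕ, w ^ m * w ^ m = w := by
  obtain ⟨m, hm⟩ := hw
  refine ⟨m + 1, ?_⟩
  rw [← pow_add]
  have : m + 1 + (m + 1) = orderOf w + 1 := by omega
  rw [this, pow_succ, pow_orderOf_eq_one, one_mul]

theorem inv_ne {G : Type*} [Group G] {w : G} (hw : Odd (orderOf w)) (h1 : w ≠ 1) : w⁻¹ ≠ w := by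
  intro h
  have h2 : w ^ 2 = 1 := by
    rw [pow_two]; nth_rewrite 1 [← h]; exact inv_mul_cancel w
  have h3 := orderOf_dvd_of_pow_eq_one h2
  rcases (Nat.dvd_prime Nat.prime_two).mp h3 with h4 | h4
  · exact h1 (orderOf_eq_one_iff.mp h4)
  · rw [h4] at hw; exact absurd hw (by decide)

theorem conj_of_inv {G : Type*} [Group G] {x w : G} (hw : Odd (orderOf w)) (h : x * w * x⁻¹ = w⁻¹) :
    ∃ v : G, v⁻¹ * x * v = x * w ∧ v * v = w ∧ x * v * x⁻¹ = v⁻¹ ∧ v ∈ Subgroup.zpowers w := by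
  obtain ⟨m, hm⟩ := sqrt_odd hw
  have h1 : x * w ^ m * x⁻¹ = (w ^ m)⁻¹ := by rw [← conj_pow, h, inv_pow]
  refine ⟨w ^ m, ?_, hm, h1, pow_mem (Subgroup.mem_zpowers w) m⟩
  have h2 : (w ^ m)⁻¹ * x = x * w ^ m := by rw [← h1]; group
  rw [h2, mul_assoc, hm]

def U {G : Type*} [Group G] (A : Subgroup G) (x w : G) : Prop :=
  w ≠ 1 ∧ Odd (orderOf w) ∧ x * w = w * x ∧ ∀ y ∈ A, y ≠ 1 → y ≠ x → y * w * y⁻¹ = w⁻¹

theorem key {G : Type*} [Group G] (A : Subgroup G) (hA : IsKleinFour ↥A)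
    (h : ∀ a ∈ A, a ≠ 1 → ∀ g : G, ∃ t ∈ A, t ≠ 1 ∧ t * (g * a * g⁻¹) = (g * a * g⁻¹) * t)
    (a b c : G) (ha : a ∈ A) (hb : b ∈ A) (hc : c ∈ A) (ha1 : a ≠ 1) (hb1 : b ≠ 1) (hc1 : c ≠ 1)
    (hab : a ≠ b) (hac : a ≠ c) (hbc : b ≠ c) (u w : G) (hu : U A b u) (hw : U A c w) :
    (u * w) * (u * w) = 1 := by
  obtain ⟨hu1, huo, hbu, hiu⟩ := hu
  obtain ⟨hw1, hwo, hcw, hiw⟩ := hw
  have hau := hiu a ha ha1 hab
  have haw := hiw a ha ha1 hac
  have hcu := hiu c hc hc1 hbc.symm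
  have hbw := hiw b hb hb1 hbc
  obtain ⟨v, hv1, hv2, hv3, hv4⟩ := conj_of_inv huo hau
  obtain ⟨v', hv1', hv2', hv3', hv4'⟩ := conj_of_inv hwo haw
  have hcv : c * v * c⁻¹ = v⁻¹ := by
    obtain ⟨k, rfl⟩ := hv4
    change c * u ^ k * c⁻¹ = (u ^ k)⁻¹
    rw [← conj_zpow, hcu, inv_zpow]
  have hbv : b * v * b⁻¹ = v := by
    obtain ⟨k, rfl⟩ := hv4
    change b * u ^ k * b⁻¹ = u ^ k
    rw [← conj_zpow]
    have : b * u * b⁻¹ = u := by rw [hbu]; group
    rw [this]
  have hmulA : ∀ s ∈ A, ∀ t ∈ A, s * t = t * s := by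
    intro s hs t ht
    have := hA.isMulCommutative.1.1 ⟨s, hs⟩ ⟨t, ht⟩
    exact congrArg Subtype.val this
  obtain ⟨t, ht, ht1, htc⟩ := h a ha ha1 (v⁻¹ * v'⁻¹)
  have hy : (v⁻¹ * v'⁻¹) * a * (v⁻¹ * v'⁻¹)⁻¹ = v⁻¹ * (a * w) * v := by
    rw [← hv1']; group
  rw [hy] at htc
  have htcases : t = a ∨ t = b ∨ t = c := by
    by_contra hcon
    push Not at hcon
    obtain ⟨h1, h2, h3⟩ := hcon
    have e1 := IsKleinFour.eq_mul_of_ne_all (G := A) (x := ⟨a, ha⟩) (y := ⟨b, hb⟩) (z := ⟨c, hc⟩)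
      (fun h => ha1 (congrArg Subtype.val h)) (fun h => hb1 (congrArg Subtype.val h)) (fun h => hab (congrArg Subtype.val h))
      (fun h => hc1 (congrArg Subtype.val h)) (fun h => hac (congrArg Subtype.val h).symm) (fun h => hbc (congrArg Subtype.val h).symm)
    have e2 := IsKleinFour.eq_mul_of_ne_all (G := A) (x := ⟨a, ha⟩) (y := ⟨b, hb⟩) (z := ⟨t, ht⟩)
      (fun h => ha1 (congrArg Subtype.val h)) (fun h => hb1 (congrArg Subtype.val h)) (fun h => hab (congrArg Subtype.val h))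
      (fun h => ht1 (congrArg Subtype.val h)) (fun h => h1 (congrArg Subtype.val h)) (fun h => h2 (congrArg Subtype.val h))
    exact h3 (congrArg Subtype.val (e2.trans e1.symm))
  have haa : a * a = 1 := by
    have := hA.2
    have h2 := IsKleinFour.mul_self (⟨a, ha⟩ : A)
    exact congrArg Subtype.val h2
  have m_av : a * v = v⁻¹ * a := mul_inv_eq_iff_eq_mul.mp hv3
  have m_avi : a * v⁻¹ = v * a := by
    calc a * v⁻¹ = v * (v⁻¹ * a) * v⁻¹ := by group
      _ = v * (a * v) * v⁻¹ := by rw [m_av]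
      _ = v * a := by group
  have m_aw : a * w = w⁻¹ * a := mul_inv_eq_iff_eq_mul.mp haw
  have m_au : a * u⁻¹ = u * a := by
    have h1 : a * u = u⁻¹ * a := mul_inv_eq_iff_eq_mul.mp hau
    calc a * u⁻¹ = u * (u⁻¹ * a) * u⁻¹ := by group
      _ = u * (a * u) * u⁻¹ := by rw [h1]
      _ = u * a := by group
  have m_bv : b * v = v * b := mul_inv_eq_iff_eq_mul.mp hbv
  have m_bvi : b * v⁻¹ = v⁻¹ * b := (show Commute b v from m_bv).inv_right.eq
  have m_bw : b * w = w⁻¹ * b := mul_inv_eq_iff_eq_mul.mp hbw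
  have m_cv : c * v = v⁻¹ * c := mul_inv_eq_iff_eq_mul.mp hcv
  have m_cvi : c * v⁻¹ = v * c := by
    calc c * v⁻¹ = v * (v⁻¹ * c) * v⁻¹ := by group
      _ = v * (c * v) * v⁻¹ := by rw [m_cv]
      _ = v * c := by group
  have m_ba : b * a = a * b := hmulA b hb a ha
  have m_ca : c * a = a * c := hmulA c hc a ha
  rcases htcases with ht | ht | ht
  · rw [ht] at htc
    have e1 : a * (v⁻¹ * (a * w) * v) = v * w * v := by
      calc a * (v⁻¹ * (a * w) * v) = (a * v⁻¹) * a * w * v := by group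
        _ = v * (a * a) * w * v := by rw [m_avi]; group
        _ = v * w * v := by rw [haa]; group
    have e2 : v⁻¹ * (a * w) * v * a = (v * w * v)⁻¹ := by
      calc v⁻¹ * (a * w) * v * a = v⁻¹ * (w⁻¹ * a) * v * a := by rw [m_aw]
        _ = v⁻¹ * w⁻¹ * (a * v) * a := by group
        _ = v⁻¹ * w⁻¹ * v⁻¹ * (a * a) := by rw [m_av]; group
        _ = (v * w * v)⁻¹ := by rw [haa]; group
    rw [e1, e2] at htc
    have e3 : (v * w * v) * (v * w * v) = 1 := by
      nth_rewrite 1 [htc]; exact inv_mul_cancel _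
    calc u * w * (u * w) = v * ((v * w * v) * (v * w * v)) * v⁻¹ := by rw [← hv2]; group
      _ = 1 := by rw [e3]; group
  · exfalso
    rw [ht] at htc
    have e1 : b * (v⁻¹ * (a * w) * v) = v⁻¹ * (a * w⁻¹) * v * b := by
      calc b * (v⁻¹ * (a * w) * v) = (b * v⁻¹) * a * w * v := by group
        _ = v⁻¹ * (b * a) * w * v := by rw [m_bvi]; group
        _ = v⁻¹ * a * (b * w) * v := by rw [m_ba]; group
        _ = v⁻¹ * a * w⁻¹ * (b * v) := by rw [m_bw]; group
        _ = v⁻¹ * (a * w⁻¹) * v * b := by rw [m_bv]; group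
    rw [e1] at htc
    apply inv_ne hwo hw1
    have := mul_right_cancel (mul_right_cancel htc)
    exact mul_left_cancel (mul_left_cancel this)
  · exfalso
    rw [ht] at htc
    have e1 : c * (v⁻¹ * (a * w) * v) = v * (a * w) * v⁻¹ * c := by
      calc c * (v⁻¹ * (a * w) * v) = (c * v⁻¹) * a * w * v := by group
        _ = v * (c * a) * w * v := by rw [m_cvi]; group
        _ = v * a * (c * w) * v := by rw [m_ca]; group
        _ = v * a * w * (c * v) := by rw [hcw]; group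
        _ = v * (a * w) * v⁻¹ * c := by rw [m_cv]; group
    rw [e1] at htc
    have e2 : v * (a * w) * v⁻¹ = v⁻¹ * (a * w) * v := mul_right_cancel htc
    have e3 : u * a * w = a * w * u := by
      calc u * a * w = v * (v * (a * w) * v⁻¹) * v := by rw [← hv2]; group
        _ = v * (v⁻¹ * (a * w) * v) * v := by rw [e2]
        _ = a * w * u := by rw [← hv2]; group
    rw [← m_au] at e3
    have e4 : u⁻¹ * w = w * u := by
      have : a * (u⁻¹ * w) = a * (w * u) := by rw [← mul_assoc, e3, mul_assoc]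
      exact mul_left_cancel this
    -- w² commutes with u
    have e5 : Commute (w * w) u := by
      have e6 : w * u⁻¹ = u * w := by
        calc w * u⁻¹ = u * (u⁻¹ * w) * u⁻¹ := by group
          _ = u * (w * u) * u⁻¹ := by rw [e4]
          _ = u * w := by group
      calc w * w * u = w * (w * u) := by group
        _ = w * (u⁻¹ * w) := by rw [e4]
        _ = (w * u⁻¹) * w := by group
        _ = u * (w * w) := by rw [e6]; group
    have e7 : Commute w u := by
      obtain ⟨m, hm⟩ := sqrt_odd hwo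
      have : w = (w * w) ^ m := by
        nth_rewrite 1 [← hm]
        rw [← pow_add, ← pow_two, ← pow_mul]; congr 1; omega
      rw [this]; exact e5.pow_left m
    apply inv_ne huo hu1
    have : u⁻¹ * w = u * w := by rw [e4, e7.eq]
    exact mul_right_cancel this

theorem pair_false {G : Type*} [Group G] (A : Subgroup G) (hA : IsKleinFour ↥A)
    (h : ∀ a ∈ A, a ≠ 1 → ∀ g : G, ∃ t ∈ A, t ≠ 1 ∧ t * (g * a * g⁻¹) = (g * a * g⁻¹) * t)
    (a b c : G) (ha : a ∈ A) (hb : b ∈ A) (hc : c ∈ A) (ha1 : a ≠ 1) (hb1 : b ≠ 1) (hc1 : c ≠ 1)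
    (hab : a ≠ b) (hac : a ≠ c) (hbc : b ≠ c) (u w : G) (hu : U A b u) (hw : U A c w) : False := by
  have h1 := key A hA h a b c ha hb hc ha1 hb1 hc1 hab hac hbc u w hu hw
  obtain ⟨hw1, hwo, hcw, hiw⟩ := hw
  have hww : U A c (w * w) := by
    refine ⟨?_, ?_, ?_, ?_⟩
    · intro h2
      apply inv_ne hwo hw1
      exact inv_eq_of_mul_eq_one_left h2
    · rw [← pow_two]
      exact Odd.of_dvd_nat hwo (orderOf_pow_dvd 2)
    · exact (show Commute c w from hcw).mul_right hcw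
    · intro y hy hy1 hyc
      have := hiw y hy hy1 hyc
      calc y * (w * w) * y⁻¹ = (y * w * y⁻¹) * (y * w * y⁻¹) := by group
        _ = (w * w)⁻¹ := by rw [this]; group
  have h2 := key A hA h a b c ha hb hc ha1 hb1 hc1 hab hac hbc u (w * w) hu hww
  apply inv_ne hu.2.1 hu.1
  have e1 : w * u * w = u⁻¹ := by
    have : u * (w * u * w) = 1 := by rw [← h1]; group
    exact (inv_eq_of_mul_eq_one_right this).symm
  have e2 : w * (w * u * w) * w = u⁻¹ := by
    have : u * (w * (w * u * w) * w) = 1 := by rw [← h2]; group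
    exact (inv_eq_of_mul_eq_one_right this).symm
  rw [e1, ← e1] at e2
  have e3 : w * u⁻¹ * w = w * u * w := by rw [← e2]; rw [e1]
  exact mul_left_cancel (mul_right_cancel e3)

/-- Let A be a Klein four-subgroup of a finite group G. If every G-conjugate of every involution of A commutes with some involution of A (its centralizer meets A nontrivially), then A meets the largest normal 2-subgroup O₂(G) nontrivially. -/
theorem result {G : Type*} [Group G] [Finite G]
    (A : Subgroup G) (hA : IsKleinFour ↥A)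
    (h : ∀ a ∈ A, a ≠ 1 → ∀ g : G, A ⊓ Subgroup.centralizer ({g * a * g⁻¹} : Set G) ≠ ⊥) :
    A ⊓ Cfsg.pCore 2 G ≠ ⊥ := by
  classical
  by_contra hcon
  have hmul : ∀ s ∈ A, ∀ t ∈ A, s * t = t * s := by
    intro s hs t ht
    exact congrArg Subtype.val (hA.isMulCommutative.1.1 ⟨s, hs⟩ ⟨t, ht⟩)
  have h' : ∀ a ∈ A, a ≠ 1 → ∀ g : G, ∃ t ∈ A, t ≠ 1 ∧ t * (g * a * g⁻¹) = (g * a * g⁻¹) * t := by
    intro a ha ha1 g
    obtain ⟨⟨t, ht1, ht2⟩, ht⟩ := Subgroup.ne_bot_iff_exists_ne_one.mp (h a ha ha1 g)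
    exact ⟨t, ht1, fun h => ht (Subtype.ext h), Subgroup.mem_centralizer_singleton_iff.mp ht2⟩
  have hord : ∀ a ∈ A, a ≠ 1 → orderOf a = 2 := by
    intro a ha ha1
    apply orderOf_eq_prime _ ha1
    have h2 := IsKleinFour.mul_self (⟨a, ha⟩ : A)
    rw [pow_two]; exact congrArg Subtype.val h2
  -- third involution
  have hthird : ∀ a ∈ A, a ≠ 1 → ∀ b ∈ A, b ≠ 1 → a ≠ b → ∀ t ∈ A, t ≠ 1 → t ≠ a → t ≠ b → t = a * b := by
    intro a ha ha1 b hb hb1 hab t ht ht1 hta htb
    have e2 := IsKleinFour.eq_mul_of_ne_all (G := A) (x := ⟨a, ha⟩) (y := ⟨b, hb⟩) (z := ⟨t, ht⟩)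
      (fun h => ha1 (congrArg Subtype.val h)) (fun h => hb1 (congrArg Subtype.val h)) (fun h => hab (congrArg Subtype.val h))
      (fun h => ht1 (congrArg Subtype.val h)) (fun h => hta (congrArg Subtype.val h)) (fun h => htb (congrArg Subtype.val h))
    exact congrArg Subtype.val e2
  have hU : ∀ a ∈ A, a ≠ 1 → ∃ t ∈ A, t ≠ 1 ∧ t ≠ a ∧ ∃ w, U A t w := by
    intro a ha ha1
    have hnot : ∀ N : Subgroup G, N.Normal → IsPGroup 2 N → a ∉ N := by
      intro N hN hNp haN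
      apply ha1
      have : a ∈ A ⊓ pCore 2 G := ⟨ha, (le_sSup (show N ∈ {N : Subgroup G | N.Normal ∧ IsPGroup 2 N} from ⟨hN, hNp⟩)) haN⟩
      rw [hcon] at this
      exact this
    obtain ⟨g, k, hw1, hwo, hwi⟩ := H4.inverts_odd_of_not_mem_core a (hord a ha ha1) hnot
    obtain ⟨w, hw⟩ : ∃ w, w = (a * (g * a * g⁻¹)) ^ 2 ^ k := ⟨_, rfl⟩
    rw [← hw] at hw1 hwo hwi
    obtain ⟨v, hv1, hv2, hv3, hv4⟩ := conj_of_inv hwo hwi
    obtain ⟨t, ht, ht1, htc⟩ := h' a ha ha1 v⁻¹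
    rw [inv_inv, hv1] at htc
    have hta : t ≠ a := by
      rintro rfl
      have h1 : t * w = w * t := by
        have : t * (t * w) = t * (w * t) := by rw [htc]; group
        exact mul_left_cancel this
      rw [h1, mul_inv_cancel_right] at hwi
      exact inv_ne hwo hw1 hwi.symm
    have htw : t * w = w * t := by
      have h1 := hmul t ht a ha
      have : a * (t * w) = a * (w * t) := by
        calc a * (t * w) = (a * t) * w := by group
          _ = t * (a * w) := by rw [← h1]; group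
          _ = a * w * t := htc
          _ = a * (w * t) := by group
      exact mul_left_cancel this
    refine ⟨t, ht, ht1, hta, w, hw1, hwo, htw, ?_⟩
    intro y hy hy1 hyt
    by_cases hya : y = a
    · rw [hya]; exact hwi
    · have hyat : y = a * t := hthird a ha ha1 t ht ht1 hta.symm y hy hy1 hya hyt
      calc y * w * y⁻¹ = a * (t * w * t⁻¹) * a⁻¹ := by rw [hyat]; group
        _ = a * w * a⁻¹ := by rw [htw]; group
        _ = w⁻¹ := hwi
  -- choose elements
  have hcard : Nat.card A = 4 := hA.card_four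
  obtain ⟨⟨a, ha⟩, ha1⟩ : ∃ a : A, a ≠ 1 := by
    by_contra hc
    push Not at hc
    have : Nat.card A ≤ 1 := by
      rw [Finite.card_le_one_iff_subsingleton]
      exact ⟨fun x y => by rw [hc x, hc y]⟩
    omega
  have ha1' : a ≠ 1 := fun h => ha1 (Subtype.ext h)
  obtain ⟨b, hb, hb1, hba, u, hu⟩ := hU a ha ha1'
  obtain ⟨d, hd, hd1, hdb, w, hw⟩ := hU b hb hb1
  -- third element distinct from b and d
  have hex3 : ∃ e ∈ A, e ≠ 1 ∧ e ≠ b ∧ e ≠ d := by
    refine ⟨b * d, mul_mem hb hd, ?_, ?_, ?_⟩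
    · intro h1
      have hbb := pow_orderOf_eq_one b
      rw [hord b hb hb1, pow_two] at hbb
      apply hdb
      have : b * d = b * b := by rw [h1, hbb]
      exact mul_left_cancel this
    · intro h1; exact hd1 (by simpa using h1)
    · intro h1; exact hb1 (by simpa using h1)
  obtain ⟨e, he, he1, heb, hed⟩ := hex3
  exact pair_false A hA h' e b d he hb hd he1 hb1 hd1 heb hed hdb.symm u w hu hw


end Cfsg.Agent.S3195
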