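import Cfsg.Statements.S3196
import Cfsg.Agent.H20.Basic
import Cfsg.Agent.H1.Cores
import Cfsg.Agent.H23.Coprime

set_option autoImplicit false
open Cfsg


namespace Cfsg.Agent.S3196


theorem zpowers_eq {G : Type*} [Group G] [Finite G] {p : ℕ} (hp : p.Prime) {g : G} (hg : g ^ p = 1)
    {h : G} (hh : h ∈ Subgroup.zpowers g) (h1 : h ≠ 1) : Subgroup.zpowers h = Subgroup.zpowers g := by
  have hf : Fact p.Prime := ⟨hp⟩
  have hg1 : g ≠ 1 := by
    rintro rfl
    rw [Subgroup.zpowers_one_eq_bot, Subgroup.mem_bot] at hh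
    exact h1 hh
  have hhp : h ^ p = 1 := by
    obtain ⟨k, rfl⟩ := hh
    change (g ^ k) ^ p = 1
    rw [← zpow_natCast, ← zpow_mul, mul_comm, zpow_mul, zpow_natCast, hg, one_zpow]
  apply Subgroup.eq_of_le_of_card_ge (Subgroup.zpowers_le.mpr hh)
  rw [Nat.card_zpowers, Nat.card_zpowers, orderOf_eq_prime hg hg1, orderOf_eq_prime hhp h1]

theorem main {G : Type*} [Group G] [Finite G] {p : ℕ} (hp : p.Prime) (KK : Set G)
    (H1 : ∀ g ∈ KK, g ≠ 1 ∧ g ^ p = 1) (H2 : ∀ g ∈ KK, ∀ h : G, h * g * h⁻¹ ∈ KK)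
    (H3 : ∀ g ∈ KK, ∀ h ∈ KK, Commute g h → g * h ≠ 1 → g * h ∈ KK)
    (H4 : ∀ g ∈ KK, ∀ h ∈ KK, Commute g h → h ∉ Subgroup.zpowers g → ∀ w ∈ KK,
      ∃ i j : ℤ, g ^ i * h ^ j ≠ 1 ∧ Commute (g ^ i * h ^ j) w)
    (H5 : ∀ g ∈ KK, ∀ h ∈ Subgroup.zpowers g, h ≠ 1 → h ∈ KK)
    (hex : ∃ g ∈ KK, ∃ h ∈ KK, Commute g h ∧ h ∉ Subgroup.zpowers g) :
    ∃ v ∈ KK, ∀ w ∈ KK, Commute v w := by
  classical
  by_contra hcon
  push Not at hcon
  -- g is a power of h for nontrivial h in ⟨g⟩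
  have hgen : ∀ g ∈ KK, ∀ h ∈ Subgroup.zpowers g, h ≠ 1 → g ∈ Subgroup.zpowers h := by
    intro g hg h hh h1
    rw [zpowers_eq hp (H1 g hg).2 hh h1]; exact Subgroup.mem_zpowers g
  have hcz : ∀ g h w : G, g ∈ Subgroup.zpowers h → Commute h w → Commute g w := by
    rintro g h w ⟨k, rfl⟩ hc
    exact hc.zpow_left k
  let P : Subgroup G → Prop := fun A => (∀ a ∈ A, ∀ b ∈ A, Commute a b) ∧ ∀ a ∈ A, a ≠ 1 → a ∈ KK
  have hPz : ∀ g ∈ KK, P (Subgroup.zpowers g) := by
    intro g hg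
    refine ⟨?_, fun a ha ha1 => H5 g hg a ha ha1⟩
    rintro _ ⟨i, rfl⟩ _ ⟨j, rfl⟩
    exact Commute.zpow_zpow_self g i j
  -- L1
  have L1 : ∀ A : Subgroup G, P A → ∀ w ∈ KK, (∀ a ∈ A, Commute a w) → P (A ⊔ Subgroup.zpowers w) := by
    intro A hA w hw hc
    have hmem : ∀ x ∈ A ⊔ Subgroup.zpowers w, ∃ a ∈ A, ∃ i : ℤ, x = a * w ^ i := by
      intro x hx
      have hle : Subgroup.zpowers w ≤ Subgroup.normalizer (A : Set G) := by
        rw [Subgroup.zpowers_le, Subgroup.mem_normalizer_iff]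
        intro h
        constructor
        · intro hh
          have : w * h * w⁻¹ = h := by rw [← (hc h hh).eq, mul_inv_cancel_right]
          rwa [this]
        · intro hh
          have h2 := hc _ hh
          have : h = w * h * w⁻¹ := by
            have h3 : w * h * w⁻¹ * w = w * (w * h * w⁻¹) := h2
            have h4 : w * h = w * (w * h * w⁻¹) := by rw [← h3]; group
            exact mul_left_cancel h4
          rw [this]; exact hh
      obtain ⟨a, ha, _, ⟨i, rfl⟩, h⟩ := (H23.mem_sup_iff_of_le_normalizer hle).mp hx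
      exact ⟨a, ha, i, h.symm⟩
    constructor
    · intro x hx y hy
      obtain ⟨a, ha, i, rfl⟩ := hmem x hx
      obtain ⟨b, hb, j, rfl⟩ := hmem y hy
      apply Commute.mul_left
      · exact (hA.1 a ha b hb).mul_right ((hc a ha).zpow_right j)
      · exact ((hc b hb).symm.zpow_left i).mul_right (Commute.zpow_zpow_self w i j)
    · intro x hx hx1
      obtain ⟨a, ha, i, rfl⟩ := hmem x hx
      by_cases ha1 : a = 1
      · subst ha1
        rw [one_mul] at hx1 ⊢
        exact H5 w hw _ ⟨i, rfl⟩ hx1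
      by_cases hw1 : w ^ i = 1
      · rw [hw1, mul_one]; exact hA.2 a ha ha1
      · exact H3 a (hA.2 a ha ha1) _ (H5 w hw _ ⟨i, rfl⟩ hw1) ((hc a ha).zpow_right i) hx1
  -- L2
  have L2 : ∀ A : Subgroup G, P A → ∀ w ∈ KK, ∀ x ∈ A, ¬ Commute x w → ∀ a ∈ A, ∃ j : ℤ, Commute (a * x ^ j) w := by
    intro A hA w hw x hx hxw a ha
    have hx1 : x ≠ 1 := by rintro rfl; exact hxw (Commute.one_left w)
    have hxK := hA.2 x hx hx1
    by_cases hax : a ∈ Subgroup.zpowers x
    · obtain ⟨k, rfl⟩ := hax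
      refine ⟨-k, ?_⟩
      change Commute (x ^ k * x ^ (-k)) w
      rw [← zpow_add, add_neg_cancel, zpow_zero]; exact Commute.one_left w
    · have ha1 : a ≠ 1 := by rintro rfl; exact hax (one_mem _)
      have haK := hA.2 a ha ha1
      obtain ⟨i, j, hij, hc⟩ := H4 x hxK a haK (hA.1 x hx a ha) hax w hw
      have haj : a ^ j ≠ 1 := by
        intro h
        rw [h, mul_one] at hij hc
        exact hxw (hcz x _ w (hgen x hxK _ ⟨i, rfl⟩ hij) hc)
      obtain ⟨k, hk⟩ := hgen a haK _ ⟨j, rfl⟩ haj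
      have hk' : (a ^ j) ^ k = a := hk
      refine ⟨i * k, ?_⟩
      have h1 : (x ^ i * a ^ j) ^ k = a * x ^ (i * k) := by
        have hc2 : Commute (x ^ i) (a ^ j) := ((hA.1 x hx a ha).zpow_left i).zpow_right j
        rw [hc2.mul_zpow, hk', ← zpow_mul]
        exact ((hA.1 x hx a ha).zpow_left (i * k)).eq
      rw [← h1]
      exact hc.zpow_left k
  -- maximal order
  obtain ⟨g0, hg0, h0, hh0, hc0, hne0⟩ := hex
  have hfin : (Set.univ : Set (Subgroup G)).Finite := Set.toFinite _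
  obtain ⟨A0, hA0, hmax⟩ := Set.exists_max_image {A : Subgroup G | P A} (fun A => Nat.card A) (Set.toFinite _)
    ⟨_, hPz g0 hg0⟩
  set m := Nat.card A0 with hm
  have hmax' : ∀ A : Subgroup G, P A → Nat.card A ≤ m := fun A hA => hmax A hA
  have hpm : p < m := by
    have h1 := L1 _ (hPz g0 hg0) h0 hh0 (by rintro _ ⟨i, rfl⟩; exact hc0.zpow_left i)
    have h2 := hmax' _ h1
    have h3 : Subgroup.zpowers g0 < Subgroup.zpowers g0 ⊔ Subgroup.zpowers h0 := by
      refine lt_of_le_of_ne le_sup_left ?_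
      intro h
      apply hne0
      rw [h]; exact Subgroup.mem_sup_right (Subgroup.mem_zpowers h0)
    have h4 : Nat.card (Subgroup.zpowers g0) < Nat.card (Subgroup.zpowers g0 ⊔ Subgroup.zpowers h0 : Subgroup G) := by
      by_contra hcon2
      push Not at hcon2
      exact h3.ne (Subgroup.eq_of_le_of_card_ge h3.le hcon2)
    rw [Nat.card_zpowers] at h4
    have hf : Fact p.Prime := ⟨hp⟩
    rw [orderOf_eq_prime (H1 g0 hg0).2 (H1 g0 hg0).1] at h4
    omega
  -- maximality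
  have hmaxl : ∀ A : Subgroup G, P A → Nat.card A = m → ∀ w ∈ KK, (∀ a ∈ A, Commute a w) → w ∈ A := by
    intro A hA hAm w hw hc
    have h1 := hmax' _ (L1 A hA w hw hc)
    have h2 : A = A ⊔ Subgroup.zpowers w := Subgroup.eq_of_le_of_card_ge le_sup_left (by omega)
    rw [h2]; exact Subgroup.mem_sup_right (Subgroup.mem_zpowers w)
  obtain ⟨⟨A, B⟩, ⟨hAP, hAm, hBP, hBm⟩, hmin⟩ := Set.exists_min_image
    {q : Subgroup G × Subgroup G | P q.1 ∧ Nat.card q.1 = m ∧ P q.2 ∧ Nat.card q.2 = m}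
    (fun q => Nat.card (q.1 ⊓ q.2 : Subgroup G)) (Set.toFinite _) ⟨(A0, A0), hA0, rfl, hA0, rfl⟩
  simp only at hAP hAm hBP hBm hmin
  have hAB : ∀ s ∈ A, s ∈ B → s = 1 := by
    by_contra hcon2
    push Not at hcon2
    obtain ⟨v, hvA, hvB, hv1⟩ := hcon2
    have hvK := hAP.2 v hvA hv1
    obtain ⟨w, hwK, hvw⟩ := hcon v hvK
    -- C_B(w)
    let C : Subgroup G := B ⊓ Subgroup.centralizer ({w} : Set G)
    have hCP : P C := ⟨fun a ha b hb => hBP.1 a ha.1 b hb.1, fun a ha ha1 => hBP.2 a ha.1 ha1⟩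
    have hCw : ∀ c ∈ C, Commute c w := fun c hc => Subgroup.mem_centralizer_singleton_iff.mp hc.2
    have hB'P := L1 C hCP w hwK hCw
    have hwC : w ∉ B := by
      intro h; exact hvw (hBP.1 v hvB w h)
    have hB'm : Nat.card (C ⊔ Subgroup.zpowers w : Subgroup G) = m := by
      apply le_antisymm (hmax' _ hB'P)
      -- |B| ≤ p |C| ≤ |B'|
      have hf : Fact p.Prime := ⟨hp⟩
      have h5 : Nat.card B ≤ Nat.card C * p := by
        have h6 : Nat.card (C × Subgroup.zpowers v) = Nat.card C * p := by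
          rw [Nat.card_prod, Nat.card_zpowers, orderOf_eq_prime (H1 v hvK).2 hv1]
        rw [← h6]
        apply Nat.card_le_card_of_surjective (fun q : C × Subgroup.zpowers v =>
          (⟨(q.1 : G) * q.2, mul_mem q.1.2.1 ((Subgroup.zpowers_le.mpr hvB) q.2.2)⟩ : B))
        rintro ⟨b, hb⟩
        obtain ⟨j, hj⟩ := L2 B hBP w hwK v hvB hvw b hb
        refine ⟨(⟨b * v ^ j, ⟨mul_mem hb (zpow_mem hvB j), Subgroup.mem_centralizer_singleton_iff.mpr hj⟩⟩,
          ⟨v ^ (-j), ⟨-j, rfl⟩⟩), ?_⟩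
        apply Subtype.ext
        change b * v ^ j * v ^ (-j) = b
        rw [mul_assoc, ← zpow_add, add_neg_cancel, zpow_zero, mul_one]
      have h7 : Nat.card (C ⊔ Subgroup.zpowers w : Subgroup G) = Nat.card C * Nat.card (Subgroup.zpowers w) := by
        apply H23.card_sup_of_inf_eq_bot
        · rw [Subgroup.zpowers_le]
          apply Subgroup.centralizer_le_normalizer
          rw [Subgroup.mem_centralizer_iff]
          intro c hc
          exact (hCw c hc).eq
        · rw [eq_bot_iff]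
          rintro s ⟨hs1, hs2⟩
          rw [Subgroup.mem_bot]
          by_contra hs
          have h8 : w ∈ Subgroup.zpowers s := hgen w hwK s hs1 hs
          exact hwC ((Subgroup.zpowers_le.mpr hs2.1) h8)
      rw [h7, Nat.card_zpowers, orderOf_eq_prime (H1 w hwK).2 (H1 w hwK).1, ← hBm]
      exact h5
    have h1 := hmin (A, C ⊔ Subgroup.zpowers w) ⟨hAP, hAm, hB'P, hB'm⟩
    simp only at h1
    have h2 : A ⊓ (C ⊔ Subgroup.zpowers w) ≤ A ⊓ B := by
      rintro s ⟨hsA, hsB⟩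
      refine ⟨hsA, ?_⟩
      have hle : Subgroup.zpowers w ≤ Subgroup.normalizer (C : Set G) := by
        rw [Subgroup.zpowers_le]
        apply Subgroup.centralizer_le_normalizer
        rw [Subgroup.mem_centralizer_iff]
        intro c hc
        exact (hCw c hc).eq
      obtain ⟨t, ht, u, hu, htu⟩ := (H23.mem_sup_iff_of_le_normalizer hle).mp hsB
      have hu1 : u = 1 := by
        by_contra hu1
        have h3 : Commute v u := by
          have h4 : u = t⁻¹ * s := by rw [← htu]; group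
          rw [h4]
          exact ((hBP.1 v hvB t ht.1).inv_right).mul_right (hAP.1 v hvA s hsA)
        exact hvw (hcz w u v (hgen w hwK u hu hu1) h3.symm).symm
      rw [← htu, hu1, mul_one]; exact ht.1
    have h3 : A ⊓ (C ⊔ Subgroup.zpowers w) = A ⊓ B := Subgroup.eq_of_le_of_card_ge h2 h1
    have h4 : v ∈ A ⊓ (C ⊔ Subgroup.zpowers w) := by rw [h3]; exact ⟨hvA, hvB⟩
    exact hvw (hB'P.1 v h4.2 w (Subgroup.mem_sup_right (Subgroup.mem_zpowers w)))
  -- choose x' in B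
  have hf : Fact p.Prime := ⟨hp⟩
  have hBne : ∃ x' ∈ B, x' ≠ 1 := by
    by_contra hcon2
    push Not at hcon2
    have : B = ⊥ := by rw [eq_bot_iff]; intro b hb; exact hcon2 b hb
    rw [this, Subgroup.card_bot] at hBm
    have := hp.one_lt
    omega
  obtain ⟨x', hx'B, hx'1⟩ := hBne
  have hx'K := hBP.2 x' hx'B hx'1
  -- nontrivial x in A commuting with x'
  obtain ⟨x, hxA, hx1, hxx'⟩ : ∃ x ∈ A, x ≠ 1 ∧ Commute x x' := by
    have hAne : ∃ g ∈ A, g ≠ 1 := by
      by_contra hcon2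
      push Not at hcon2
      have : A = ⊥ := by rw [eq_bot_iff]; intro b hb; exact hcon2 b hb
      rw [this, Subgroup.card_bot] at hAm
      have := hp.one_lt
      omega
    obtain ⟨g, hgA, hg1⟩ := hAne
    have hgK := hAP.2 g hgA hg1
    have hex2 : ∃ h ∈ A, h ∉ Subgroup.zpowers g := by
      by_contra hcon2
      push Not at hcon2
      have h1 : Nat.card A ≤ Nat.card (Subgroup.zpowers g) := Subgroup.card_le_of_le hcon2
      rw [Nat.card_zpowers, orderOf_eq_prime (H1 g hgK).2 hg1] at h1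
      omega
    obtain ⟨h, hhA, hhg⟩ := hex2
    have hh1 : h ≠ 1 := by rintro rfl; exact hhg (one_mem _)
    obtain ⟨i, j, hij, hc⟩ := H4 g hgK h (hAP.2 h hhA hh1) (hAP.1 g hgA h hhA) hhg x' hx'K
    exact ⟨_, mul_mem (zpow_mem hgA i) (zpow_mem hhA j), hij, hc⟩
  have hxK := hAP.2 x hxA hx1
  obtain ⟨y', hy'B, hxy'⟩ : ∃ y' ∈ B, ¬ Commute x y' := by
    by_contra hcon2
    push Not at hcon2
    exact hx1 (hAB x hxA (hmaxl B hBP hBm x hxK (fun b hb => (hcon2 b hb).symm)))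
  have hy'1 : y' ≠ 1 := by rintro rfl; exact hxy' (Commute.one_right x)
  have hy'K := hBP.2 y' hy'B hy'1
  obtain ⟨d, hdA, hdx'⟩ : ∃ d ∈ A, ¬ Commute d x' := by
    by_contra hcon2
    push Not at hcon2
    exact hx'1 (hAB x' (hmaxl A hAP hAm x' hx'K hcon2) hx'B)
  obtain ⟨j, hj⟩ := L2 A hAP y' hy'K x hxA hxy' d hdA
  obtain ⟨y, hy⟩ : ∃ y, y = d * x ^ j := ⟨_, rfl⟩
  rw [← hy] at hj
  have hyA : y ∈ A := by rw [hy]; exact mul_mem hdA (zpow_mem hxA j)
  have hyx' : ¬ Commute y x' := by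
    intro h
    apply hdx'
    have : d = y * x ^ (-j) := by
      rw [hy, mul_assoc, ← zpow_add, add_neg_cancel, zpow_zero, mul_one]
    rw [this]
    exact h.mul_left (hxx'.zpow_left _)
  have hy1 : y ≠ 1 := by rintro h; exact hyx' (h ▸ Commute.one_left x')
  have hxy1 : x * y ≠ 1 := by
    intro h
    have : y = x⁻¹ := eq_inv_of_mul_eq_one_right h
    apply hyx'
    rw [this]; exact hxx'.inv_left
  have hxyK : x * y ∈ KK := hAP.2 _ (mul_mem hxA hyA) hxy1
  have hx'y' : y' ∉ Subgroup.zpowers x' := by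
    intro h
    apply hxy'
    exact (hcz y' x' x h hxx'.symm).symm
  obtain ⟨i, k, hik, hc⟩ := H4 x' hx'K y' hy'K (hBP.1 x' hx'B y' hy'B) hx'y' (x * y) hxyK
  obtain ⟨x1, hx1e⟩ : ∃ x1, x1 = x' ^ i := ⟨_, rfl⟩
  obtain ⟨y1, hy1e⟩ : ∃ y1, y1 = y' ^ k := ⟨_, rfl⟩
  rw [← hx1e, ← hy1e] at hik hc
  have hx1B : x1 ∈ B := by rw [hx1e]; exact zpow_mem hx'B i
  have hy1B : y1 ∈ B := by rw [hy1e]; exact zpow_mem hy'B k
  have cxy : Commute x y := hAP.1 x hxA y hyA
  have cx1y1 : Commute x1 y1 := hBP.1 x1 hx1B y1 hy1B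
  have cxx1 : Commute x x1 := by rw [hx1e]; exact hxx'.zpow_right i
  have cyy1 : Commute y y1 := by rw [hy1e]; exact hj.zpow_right k
  have nxy1 : ¬ Commute x y1 := by
    intro h
    by_cases h1 : y1 = 1
    · rw [h1, mul_one] at hik hc
      apply hyx'
      have h2 : Commute y x1 := by
        have : y = x⁻¹ * (x * y) := by group
        rw [this]
        exact cxx1.inv_left.mul_left hc.symm
      have h3 : x' ∈ Subgroup.zpowers x1 := hgen x' hx'K x1 (by rw [hx1e]; exact ⟨i, rfl⟩) hik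
      exact (hcz x' x1 y h3 h2.symm).symm
    · apply hxy'
      have h3 : y' ∈ Subgroup.zpowers y1 := hgen y' hy'K y1 (by rw [hy1e]; exact ⟨k, rfl⟩) h1
      exact (hcz y' y1 x h3 h.symm).symm
  have nyx1 : ¬ Commute y x1 := by
    intro h
    apply nxy1
    -- x*y commutes with x1*y1, y commutes with x1, y1; x commutes with x1
    have h1 : Commute (x * y) y1 := by
      have : y1 = x1⁻¹ * (x1 * y1) := by group
      rw [this]
      exact ((cxx1.mul_left h).inv_right).mul_right hc.symm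
    have : x = (x * y) * y⁻¹ := by group
    rw [this]
    exact h1.mul_left cyy1.inv_left
  -- the commutator
  obtain ⟨c, hcdef⟩ : ∃ c, c = x⁻¹ * (y1⁻¹ * x * y1) := ⟨_, rfl⟩
  have hcdef2 : c = x1 * (y * x1⁻¹ * y⁻¹) := by
    have e1 : x1 * y1 * (x * y) = x * y * (x1 * y1) := hc.eq
    have e3 : x1 * y1 = y1 * x1 := cx1y1.eq
    have e4 : x * x1 = x1 * x := cxx1.eq
    have e5 : y * y1 = y1 * y := cyy1.eq
    have e6 : y1 * (x * x1) * y = x * (y * y1) * x1 := by
      calc y1 * (x * x1) * y = y1 * x1 * (x * y) := by rw [e4]; group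
        _ = x1 * y1 * (x * y) := by rw [e3]
        _ = x * y * (x1 * y1) := e1
        _ = x * y * (y1 * x1) := by rw [e3]
        _ = x * (y * y1) * x1 := by group
    rw [e5] at e6
    rw [hcdef]
    calc x⁻¹ * (y1⁻¹ * x * y1) = x⁻¹ * y1⁻¹ * (x * (y1 * y) * x1) * x1⁻¹ * y⁻¹ := by group
      _ = x⁻¹ * y1⁻¹ * (y1 * (x * x1) * y) * x1⁻¹ * y⁻¹ := by rw [e6]
      _ = x1 * (y * x1⁻¹ * y⁻¹) := by group
  have hc1 : c ≠ 1 := by
    intro h
    apply nxy1
    rw [h] at hcdef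
    have : x = y1⁻¹ * x * y1 := by
      have := congrArg (fun t => x * t) hcdef
      simpa [mul_assoc] using this
    have h2 : y1 * x = x * y1 := by
      calc y1 * x = y1 * (y1⁻¹ * x * y1) := by rw [← this]
        _ = x * y1 := by group
    exact h2.symm
  have hy1ne : y1 ≠ 1 := by rintro h; exact nxy1 (h ▸ Commute.one_right x)
  have hy1K : y1 ∈ KK := hBP.2 y1 hy1B hy1ne
  have hyK : y ∈ KK := hAP.2 y hyA hy1
  have ccx : Commute x c := by
    rw [hcdef2]
    exact cxx1.mul_right ((cxy.mul_right cxx1.inv_right).mul_right cxy.inv_right)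
  have ccx1 : Commute x1 c := by
    rw [hcdef]
    exact cxx1.symm.inv_right.mul_right ((cx1y1.inv_right.mul_right cxx1.symm).mul_right cx1y1)
  have hcK : c ∈ KK := by
    rw [hcdef] at hc1 ccx ⊢
    have h1 : y1⁻¹ * x * y1 ∈ KK := by
      have := H2 x hxK y1⁻¹
      rwa [inv_inv] at this
    refine H3 x⁻¹ (H5 x hxK _ (inv_mem (Subgroup.mem_zpowers x)) (by simpa using hx1)) _ h1 ?_ hc1
    have : y1⁻¹ * x * y1 = x * (x⁻¹ * (y1⁻¹ * x * y1)) := by group
    rw [this]
    exact ((Commute.refl x).mul_right ccx).inv_left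
  have hcA : c ∈ A := by
    apply hmaxl A hAP hAm c hcK
    intro a ha
    obtain ⟨j, hj⟩ := L2 A hAP y1 hy1K x hxA nxy1 a ha
    have h1 : Commute (a * x ^ j) x := hAP.1 _ (mul_mem ha (zpow_mem hxA j)) x hxA
    have h2 : Commute (a * x ^ j) c := by
      rw [hcdef]
      exact h1.inv_right.mul_right ((hj.inv_right.mul_right h1).mul_right hj)
    have h3 : a = (a * x ^ j) * x ^ (-j) := by
      rw [mul_assoc, ← zpow_add, add_neg_cancel, zpow_zero, mul_one]
    rw [h3]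
    exact h2.mul_left (ccx.zpow_left _)
  have hcB : c ∈ B := by
    apply hmaxl B hBP hBm c hcK
    intro a ha
    obtain ⟨j, hj⟩ := L2 B hBP y hyK x1 hx1B (fun h => nyx1 h.symm) a ha
    have h1 : Commute (a * x1 ^ j) x1 := hBP.1 _ (mul_mem ha (zpow_mem hx1B j)) x1 hx1B
    have h2 : Commute (a * x1 ^ j) c := by
      rw [hcdef2]
      exact h1.mul_right ((hj.mul_right h1.inv_right).mul_right hj.inv_right)
    have h3 : a = (a * x1 ^ j) * x1 ^ (-j) := by
      rw [mul_assoc, ← zpow_add, add_neg_cancel, zpow_zero, mul_one]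
    rw [h3]
    exact h2.mul_left (ccx1.zpow_left _)
  exact hc1 (hAB c hcA hcB)

/-- Let p be a prime and K a set of subgroups of order p of a finite group G, closed under conjugation, such that at least two distinct members of K commute elementwise, and whenever two distinct members X, Y of K commute: every subgroup of order p of the group XY they generate belongs to K, and every member W of K has centralizer meeting XY nontrivially. Then some member V of K commutes elementwise with every member of K and lies in O_p(G); in particular G is not simple. -/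
theorem result {G : Type*} [Group G] [Finite G]
    {p : ℕ} (hp : p.Prime) (K : Set (Subgroup G)) (hK : ∀ X ∈ K, Nat.card ↥X = p)
    (hKc : ∀ X ∈ K, ∀ g : G, X.map (MulAut.conj g).toMonoidHom ∈ K)
    (hex : ∃ X ∈ K, ∃ Y ∈ K, X ≠ Y ∧ ∀ x ∈ X, ∀ y ∈ Y, x * y = y * x)
    (ha : ∀ X ∈ K, ∀ Y ∈ K, X ≠ Y → (∀ x ∈ X, ∀ y ∈ Y, x * y = y * x) →
      ∀ Z : Subgroup G, Z ≤ X ⊔ Y → Nat.card ↥Z = p → Z ∈ K)
    (hb : ∀ X ∈ K, ∀ Y ∈ K, X ≠ Y → (∀ x ∈ X, ∀ y ∈ Y, x * y = y * x) →
      ∀ W ∈ K, (X ⊔ Y) ⊓ Subgroup.centralizer (W : Set G) ≠ ⊥) :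
    (∃ V ∈ K, (∀ W ∈ K, ∀ v ∈ V, ∀ w ∈ W, v * w = w * v) ∧ V ≤ Cfsg.pCore p G) ∧ ¬ IsSimpleGroup G := by
  classical
  have hf : Fact p.Prime := ⟨hp⟩
  let KK : Set G := {g | g ≠ 1 ∧ Subgroup.zpowers g ∈ K}
  have H1 : ∀ g ∈ KK, g ≠ 1 ∧ g ^ p = 1 := by
    rintro g ⟨h1, h2⟩
    refine ⟨h1, ?_⟩
    have := hK _ h2
    rw [Nat.card_zpowers] at this
    rw [← this]; exact pow_orderOf_eq_one g
  have H5 : ∀ g ∈ KK, ∀ h ∈ Subgroup.zpowers g, h ≠ 1 → h ∈ KK := by
    intro g hg h hh h1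
    refine ⟨h1, ?_⟩
    rw [zpowers_eq hp (H1 g hg).2 hh h1]; exact hg.2
  have H2 : ∀ g ∈ KK, ∀ h : G, h * g * h⁻¹ ∈ KK := by
    intro g hg h
    refine ⟨?_, ?_⟩
    · intro h1
      apply hg.1
      have := congrArg (fun t => h⁻¹ * t * h) h1
      simpa [mul_assoc] using this
    · have h1 := hKc _ hg.2 h
      rw [MonoidHom.map_zpowers] at h1
      exact h1
  have hcommz : ∀ g h : G, Commute g h → ∀ x ∈ Subgroup.zpowers g, ∀ y ∈ Subgroup.zpowers h, x * y = y * x := by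
    rintro g h hc _ ⟨i, rfl⟩ _ ⟨j, rfl⟩
    exact ((hc.zpow_left i).zpow_right j).eq
  have H3 : ∀ g ∈ KK, ∀ h ∈ KK, Commute g h → g * h ≠ 1 → g * h ∈ KK := by
    intro g hg h hh hc hgh
    by_cases heq : Subgroup.zpowers g = Subgroup.zpowers h
    · apply H5 h hh _ _ hgh
      exact mul_mem (heq ▸ Subgroup.mem_zpowers g) (Subgroup.mem_zpowers h)
    · refine ⟨hgh, ha _ hg.2 _ hh.2 heq (hcommz g h hc) _ ?_ ?_⟩
      · rw [Subgroup.zpowers_le]
        exact mul_mem (Subgroup.mem_sup_left (Subgroup.mem_zpowers g)) (Subgroup.mem_sup_right (Subgroup.mem_zpowers h))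
      · rw [Nat.card_zpowers]
        apply orderOf_eq_prime _ hgh
        rw [hc.mul_pow, (H1 g hg).2, (H1 h hh).2, one_mul]
  have H4 : ∀ g ∈ KK, ∀ h ∈ KK, Commute g h → h ∉ Subgroup.zpowers g → ∀ w ∈ KK,
      ∃ i j : ℤ, g ^ i * h ^ j ≠ 1 ∧ Commute (g ^ i * h ^ j) w := by
    intro g hg h hh hc hne w hw
    have hne' : Subgroup.zpowers g ≠ Subgroup.zpowers h := by
      intro h1; apply hne; rw [h1]; exact Subgroup.mem_zpowers h
    have h1 := hb _ hg.2 _ hh.2 hne' (hcommz g h hc) _ hw.2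
    obtain ⟨⟨t, ht1, ht2⟩, ht⟩ := Subgroup.ne_bot_iff_exists_ne_one.mp h1
    have hle : Subgroup.zpowers h ≤ Subgroup.normalizer ((Subgroup.zpowers g : Subgroup G) : Set G) := by
      rw [Subgroup.zpowers_le]
      apply Subgroup.centralizer_le_normalizer
      rw [Subgroup.mem_centralizer_iff]
      rintro _ ⟨i, rfl⟩
      exact (hc.zpow_left i).eq
    obtain ⟨_, ⟨i, rfl⟩, _, ⟨j, rfl⟩, rfl⟩ := (H23.mem_sup_iff_of_le_normalizer hle).mp ht1
    refine ⟨i, j, ?_, ?_⟩
    · intro h2; exact ht (Subtype.ext h2)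
    · exact (Subgroup.mem_centralizer_iff.mp ht2 w (Subgroup.mem_zpowers w)).symm
  have hgenX : ∀ X ∈ K, ∃ g ∈ KK, X = Subgroup.zpowers g := by
    intro X hX
    have h1 : X ≠ ⊥ := by
      intro h
      have := hK X hX
      rw [h, Subgroup.card_bot] at this
      exact hp.one_lt.ne this
    obtain ⟨⟨g, hg⟩, hg1⟩ := Subgroup.ne_bot_iff_exists_ne_one.mp h1
    have hg1' : g ≠ 1 := fun h => hg1 (Subtype.ext h)
    have h2 : Subgroup.zpowers g ≤ X := by rwa [Subgroup.zpowers_le]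
    have h3 : Subgroup.zpowers g = X := by
      apply Subgroup.eq_of_le_of_card_ge h2
      have h4 : Nat.card (Subgroup.zpowers g) ∣ Nat.card X := Subgroup.card_dvd_of_le h2
      rw [hK X hX] at h4 ⊢
      rcases (Nat.dvd_prime hp).mp h4 with h5 | h5
      · exfalso; apply hg1'
        rw [Nat.card_zpowers, orderOf_eq_one_iff] at h5; exact h5
      · exact h5.ge
    exact ⟨g, ⟨hg1', h3 ▸ hX⟩, h3.symm⟩
  have hex' : ∃ g ∈ KK, ∃ h ∈ KK, Commute g h ∧ h ∉ Subgroup.zpowers g := by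
    obtain ⟨X, hX, Y, hY, hXY, hc⟩ := hex
    obtain ⟨g, hg, rfl⟩ := hgenX X hX
    obtain ⟨h, hh, rfl⟩ := hgenX Y hY
    refine ⟨g, hg, h, hh, hc g (Subgroup.mem_zpowers g) h (Subgroup.mem_zpowers h), ?_⟩
    intro h1
    exact hXY (zpowers_eq hp (H1 g hg).2 h1 hh.1).symm
  obtain ⟨v, hv, hvc⟩ := main hp KK H1 H2 H3 H4 H5 hex'
  have hvW : ∀ W ∈ K, ∀ x ∈ Subgroup.zpowers v, ∀ w ∈ W, x * w = w * x := by
    intro W hW x hx w hw
    obtain ⟨g, hg, rfl⟩ := hgenX W hW
    exact hcommz v g (hvc g hg) x hx w hw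
  -- the normal closure
  have hcc : ∀ a ∈ Group.conjugatesOfSet ({v} : Set G), ∀ b ∈ Group.conjugatesOfSet ({v} : Set G),
      a * b = b * a := by
    intro a ha b hb
    rw [Group.mem_conjugatesOfSet_iff] at ha hb
    obtain ⟨y1, h1, h2⟩ := ha
    obtain ⟨y2, h3, h4⟩ := hb
    rw [Set.mem_singleton_iff] at h1 h3
    rw [h1, isConj_iff] at h2
    rw [h3, isConj_iff] at h4
    obtain ⟨c, rfl⟩ := h2
    obtain ⟨d, rfl⟩ := h4
    have h5 := hvc _ (H2 v hv (c⁻¹ * d))
    have h6 : c * v * c⁻¹ * (d * v * d⁻¹) = c * (v * ((c⁻¹ * d) * v * (c⁻¹ * d)⁻¹)) * c⁻¹ := by group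
    rw [h6, h5.eq]; group
  have hNp : IsPGroup p (Subgroup.normalClosure ({v} : Set G)) ∧
      ∀ a ∈ Subgroup.normalClosure ({v} : Set G), ∀ b ∈ Subgroup.normalClosure ({v} : Set G), a * b = b * a := by
    have hcomm := Subgroup.isMulCommutative_closure (k := Group.conjugatesOfSet ({v} : Set G)) hcc
    have hcomm' : ∀ a ∈ Subgroup.normalClosure ({v} : Set G), ∀ b ∈ Subgroup.normalClosure ({v} : Set G), a * b = b * a := by
      intro a ha b hb
      exact congrArg Subtype.val (hcomm.1.1 ⟨a, ha⟩ ⟨b, hb⟩)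
    refine ⟨?_, hcomm'⟩
    have hpw : ∀ a ∈ Subgroup.normalClosure ({v} : Set G), a ^ p = 1 := by
      intro a ha
      induction ha using Subgroup.closure_induction with
      | mem x hx =>
        rw [Group.mem_conjugatesOfSet_iff] at hx
        obtain ⟨y1, h1, h2⟩ := hx
        rw [Set.mem_singleton_iff] at h1
        rw [h1, isConj_iff] at h2
        obtain ⟨c, rfl⟩ := h2
        rw [conj_pow, (H1 v hv).2]; simp
      | one => exact one_pow p
      | mul x y hx hy ihx ihy =>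
        rw [(show Commute x y from hcomm' x hx y hy).mul_pow, ihx, ihy, one_mul]
      | inv x hx ih => rw [inv_pow, ih, inv_one]
    intro a
    exact ⟨1, Subtype.ext (by simpa using hpw a a.2)⟩
  have hvN : v ∈ Subgroup.normalClosure ({v} : Set G) :=
    Subgroup.subset_normalClosure (Set.mem_singleton v)
  refine ⟨⟨Subgroup.zpowers v, hv.2, hvW, ?_⟩, ?_⟩
  · rw [Subgroup.zpowers_le]
    exact Cfsg.Agent.H1.le_pCore Subgroup.normalClosure_normal hNp.1 hvN
  · intro hsimple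
    have hn : (Subgroup.normalClosure ({v} : Set G)).Normal := Subgroup.normalClosure_normal
    rcases hn.eq_bot_or_eq_top with h | h
    · rw [h, Subgroup.mem_bot] at hvN
      exact hv.1 hvN
    · have hab : ∀ a b : G, a * b = b * a := fun a b =>
        hNp.2 a (h ▸ Subgroup.mem_top a) b (h ▸ Subgroup.mem_top b)
      obtain ⟨g, hg, k, hk, -, hne⟩ := hex'
      have hn2 : (Subgroup.zpowers g).Normal := ⟨fun n hn t => by
        have : t * n * t⁻¹ = n := by rw [hab t n, mul_inv_cancel_right]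
        rwa [this]⟩
      rcases hn2.eq_bot_or_eq_top with h2 | h2
      · rw [Subgroup.zpowers_eq_bot] at h2; exact hg.1 h2
      · exact hne (h2 ▸ Subgroup.mem_top k)


end Cfsg.Agent.S3196
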