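import Cfsg.Statements.S3200
import Cfsg.Agent.H3.BurnsidePQ
import Cfsg.Agent.H1.Hall
import Cfsg.Agent.H2.NComp

set_option autoImplicit false
open Cfsg


namespace Cfsg.Agent.S3200


universe u

theorem solv : ∀ (n : ℕ) (H : Type u) [Group H] [Finite H], Nat.card H = n → ∀ C : Subgroup H,
    IsMulCommutative C → ¬ 2 ∣ Nat.card C → (∃ k, C.index = 2 ^ k) → Group.IsSolvable H := by
  intro n
  induction n using Nat.strong_induction_on with
  | _ n ih =>
    intro H _ _ hn C hCc hCodd ⟨k, hk⟩
    have hf : Fact (Nat.Prime 2) := ⟨Nat.prime_two⟩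
    by_cases hnt : Subsingleton H
    · infer_instance
    rw [not_subsingleton_iff_nontrivial] at hnt
    by_cases hsimple : IsSimpleGroup H
    · by_cases hC : C = ⊥
      · have hp : IsPGroup 2 H := by
          rw [IsPGroup.iff_card]
          exact ⟨k, by rw [← hk, hC, Subgroup.index_bot]⟩
        have := hp.isNilpotent
        infer_instance
      · obtain ⟨⟨g, hgC⟩, hg1⟩ := Subgroup.ne_bot_iff_exists_ne_one.mp hC
        have hg : g ≠ 1 := fun h => hg1 (Subtype.ext h)
        have hle : C ≤ Subgroup.centralizer ({g} : Set H) := by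
          intro x hx
          rw [Subgroup.mem_centralizer_singleton_iff]
          exact congrArg Subtype.val (hCc.1.1 ⟨x, hx⟩ ⟨g, hgC⟩)
        have hdvd : (Subgroup.centralizer ({g} : Set H)).index ∣ 2 ^ k := by
          rw [← hk]; exact Subgroup.index_dvd_of_le hle
        obtain ⟨j, -, hj⟩ := (Nat.dvd_prime_pow Nat.prime_two).mp hdvd
        have hprime := H3.prime_card_of_prime_power_class 2 j Nat.prime_two g hg hj
        haveI : Fact (Nat.card H).Prime := ⟨hprime⟩
        haveI : IsCyclic H := isCyclic_of_prime_card (p := Nat.card H) rfl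
        letI := IsCyclic.commGroup (α := H)
        infer_instance
    · obtain ⟨N, hN, hN0, hN1⟩ : ∃ N : Subgroup H, N.Normal ∧ N ≠ ⊥ ∧ N ≠ ⊤ := by
        by_contra hcon
        push Not at hcon
        apply hsimple
        exact { eq_bot_or_eq_top_of_normal := fun H hH => by
                  by_cases h : H = ⊥
                  · exact Or.inl h
                  · exact Or.inr (hcon H hH h) }
      have hcN : Nat.card N < n := by
        rw [← hn]
        refine lt_of_le_of_ne (Subgroup.card_le_card_group N) fun h => hN1 ?_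
        exact Subgroup.eq_top_of_card_eq N h
      have hcQ : Nat.card (H ⧸ N) < n := by
        rw [← hn, Subgroup.card_eq_card_quotient_mul_card_subgroup N]
        have h1 : 1 < Nat.card N := (Subgroup.one_lt_card_iff_ne_bot N).mpr hN0
        have h2 : 0 < Nat.card (H ⧸ N) := Nat.card_pos
        nlinarith
      have h1 : Group.IsSolvable N := by
        apply ih _ hcN N rfl (C.subgroupOf N)
        · refine ⟨⟨fun a b => ?_⟩⟩
          have h3 : ((a : N) : H) * ((b : N) : H) = ((b : N) : H) * ((a : N) : H) :=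
            congrArg Subtype.val (hCc.1.1 ⟨((a : N) : H), Subgroup.mem_subgroupOf.mp a.2⟩ ⟨((b : N) : H), Subgroup.mem_subgroupOf.mp b.2⟩)
          exact Subtype.ext (Subtype.ext h3)
        · intro h
          apply hCodd
          refine h.trans ?_
          have : Nat.card (C.subgroupOf N) = Nat.card (C ⊓ N : Subgroup H) := by
            rw [← Subgroup.subgroupOf_map_subtype, Subgroup.card_map_of_injective N.subtype_injective]
          rw [this]; exact Subgroup.card_dvd_of_le inf_le_left
        · have h2 : C.relIndex N ∣ 2 ^ k := by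
            rw [← H2.relIndex_sup_eq_relIndex_of_normal, ← hk]
            exact Subgroup.relIndex_dvd_index_of_le le_sup_left
          obtain ⟨j, -, hj⟩ := (Nat.dvd_prime_pow Nat.prime_two).mp h2
          exact ⟨j, hj⟩
      have h2 : Group.IsSolvable (H ⧸ N) := by
        apply ih _ hcQ (H ⧸ N) rfl (C.map (QuotientGroup.mk' N))
        · refine ⟨⟨?_⟩⟩
          rintro ⟨_, a, ha, rfl⟩ ⟨_, b, hb, rfl⟩
          apply Subtype.ext
          change QuotientGroup.mk' N a * QuotientGroup.mk' N b = QuotientGroup.mk' N b * QuotientGroup.mk' N a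
          rw [← map_mul, ← map_mul]
          exact congrArg _ (congrArg Subtype.val (hCc.1.1 ⟨a, ha⟩ ⟨b, hb⟩))
        · intro h
          exact hCodd (h.trans (Subgroup.card_map_dvd C _))
        · have h3 : (C.map (QuotientGroup.mk' N)).index ∣ 2 ^ k := by
            rw [← hk]; exact Subgroup.index_map_dvd C (QuotientGroup.mk'_surjective N)
          obtain ⟨j, -, hj⟩ := (Nat.dvd_prime_pow Nat.prime_two).mp h3
          exact ⟨j, hj⟩
      exact Group.isSolvable_of_ker_le_range N.subtype (QuotientGroup.mk' N) (by simp)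

/-- Let H be a finite group in which a Sylow 2-subgroup has an abelian complement (an abelian subgroup meeting it trivially whose product with it is all of H). Then H is solvable, and every subgroup and every quotient group of H again has a Sylow 2-subgroup with an abelian complement. -/
theorem result {H : Type*} [Group H] [Finite H]
    (S : Sylow 2 H) (C : Subgroup H) (hC : IsMulCommutative ↥C) (hSC : Subgroup.IsComplement' (S : Subgroup H) C) :
    Group.IsSolvable H ∧
    (∀ L : Subgroup H, ∃ (P : Sylow 2 ↥L) (D : Subgroup ↥L), IsMulCommutative ↥D ∧ Subgroup.IsComplement' (P : Subgroup ↥L) D) ∧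
    (∀ (N : Subgroup H) [N.Normal], ∃ (P : Sylow 2 (H ⧸ N)) (D : Subgroup (H ⧸ N)),
      IsMulCommutative ↥D ∧ Subgroup.IsComplement' (P : Subgroup (H ⧸ N)) D) := by
  have hf : Fact (Nat.Prime 2) := ⟨Nat.prime_two⟩
  obtain ⟨k, hk⟩ := IsPGroup.iff_card.mp S.isPGroup'
  have hidx : C.index = 2 ^ k := by rw [hSC.index_eq_card]; exact hk
  have hodd : ¬ 2 ∣ Nat.card C := by
    have h1 : (S : Subgroup H).index = Nat.card C := hSC.symm.index_eq_card
    rw [← h1]; exact S.not_dvd_index
  have hs : Group.IsSolvable H := solv _ H rfl C hC hodd ⟨k, hidx⟩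
  refine ⟨hs, ?_, ?_⟩
  · intro L
    have hsL : Group.IsSolvable L := inferInstance
    obtain ⟨a, m, hm, ham⟩ := Nat.exists_eq_two_pow_mul_odd (Nat.card_pos (α := L)).ne'
    have hcop : m.Coprime (2 ^ a) := by
      apply Nat.Coprime.pow_right
      rw [Nat.coprime_comm, Nat.coprime_two_left]; exact hm
    obtain ⟨D, hD⟩ := H1.hall_exists hsL (m := m) (n := 2 ^ a) (by rw [ham, mul_comm]) hcop
    have hDodd : ¬ 2 ∣ Nat.card D := by
      rw [hD, ← even_iff_two_dvd, Nat.not_even_iff_odd]; exact hm
    have hDidx : D.index = 2 ^ a := by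
      have h1 := D.index_mul_card
      rw [hD, ham] at h1
      exact Nat.eq_of_mul_eq_mul_right hm.pos h1
    have hCcop : (Nat.card C).Coprime (2 ^ k) := by
      apply Nat.Coprime.pow_right
      rw [Nat.coprime_comm]
      exact (Nat.Prime.coprime_iff_not_dvd Nat.prime_two).mpr hodd
    obtain ⟨g, hg⟩ := H1.hall_conj_le hs (m := Nat.card C) (n := 2 ^ k)
      (by rw [← hidx, mul_comm]; exact C.index_mul_card.symm) hCcop C (D.map L.subtype) rfl
      (by
        rw [Subgroup.card_map_of_injective L.subtype_injective, hD]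
        apply Nat.Coprime.pow_right
        rw [Nat.coprime_comm, Nat.coprime_two_left]; exact hm)
    refine ⟨default, D, ?_, (H2.isComplement'_sylow_of_card_index hDodd hDidx default).symm⟩
    refine ⟨⟨fun x y => ?_⟩⟩
    have hx : MulAut.conj g • ((x : L) : H) ∈ C :=
      hg (Subgroup.smul_mem_pointwise_smul _ _ _ ⟨(x : L), x.2, rfl⟩)
    have hy : MulAut.conj g • ((y : L) : H) ∈ C :=
      hg (Subgroup.smul_mem_pointwise_smul _ _ _ ⟨(y : L), y.2, rfl⟩)
    have h1 : (MulAut.conj g) ((x : L) : H) * (MulAut.conj g) ((y : L) : H) =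
        (MulAut.conj g) ((y : L) : H) * (MulAut.conj g) ((x : L) : H) :=
      congrArg Subtype.val (hC.1.1 ⟨_, hx⟩ ⟨_, hy⟩)
    rw [← map_mul, ← map_mul] at h1
    exact Subtype.ext (Subtype.ext ((MulAut.conj g).injective h1))
  · intro N _
    have h3 : (C.map (QuotientGroup.mk' N)).index ∣ 2 ^ k := by
      rw [← hidx]; exact Subgroup.index_map_dvd C (QuotientGroup.mk'_surjective N)
    obtain ⟨j, -, hj⟩ := (Nat.dvd_prime_pow Nat.prime_two).mp h3
    refine ⟨default, C.map (QuotientGroup.mk' N), ?_, (H2.isComplement'_sylow_of_card_index ?_ hj default).symm⟩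
    · refine ⟨⟨?_⟩⟩
      rintro ⟨_, a, ha, rfl⟩ ⟨_, b, hb, rfl⟩
      apply Subtype.ext
      change QuotientGroup.mk' N a * QuotientGroup.mk' N b = QuotientGroup.mk' N b * QuotientGroup.mk' N a
      rw [← map_mul, ← map_mul]
      exact congrArg _ (congrArg Subtype.val (hC.1.1 ⟨a, ha⟩ ⟨b, hb⟩))
    · intro h
      exact hodd (h.trans (Subgroup.card_map_dvd C _))


end Cfsg.Agent.S3200
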