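import Cfsg.Statements.S3201
import Mathlib
import Cfsg.Agent.H23.RankOne
import Cfsg.Agent.H2.Frat
import Cfsg.Agent.H1.Coprime

set_option autoImplicit false
set_option linter.all false
open Cfsg

namespace Cfsg.Agent.S3201

theorem nat_ne {m : ℕ} {k : ZMod (2 * 2 ^ m)} (hk : (k = 1 ∨ k = ((2 ^ (m-1) : ℕ) : ZMod (2 * 2 ^ m)))) (hm : 1 ≤ m) :
    k ≠ -k := by
  intro h
  have h1 : 2 * k = 0 := by
    have : k + k = 0 := by nth_rw 2 [h]; ring
    linear_combination this
  rcases hk with rfl | rfl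
  · have h2 : ((2 : ℕ) : ZMod (2 * 2 ^ m)) = 0 := by
      have : (2 : ZMod (2 * 2 ^ m)) * 1 = ((2 : ℕ) : ZMod (2 * 2 ^ m)) := by push_cast; ring
      rw [← this]; exact h1
    rw [ZMod.natCast_eq_zero_iff] at h2
    have h3 := Nat.le_of_dvd (by norm_num) h2
    have h4 : 2 ≤ 2 ^ m := by
      calc 2 = 2 ^ 1 := by norm_num
        _ ≤ 2 ^ m := Nat.pow_le_pow_right (by norm_num) hm
    omega
  · have h2 : ((2 * 2 ^ (m-1) : ℕ) : ZMod (2 * 2 ^ m)) = 0 := by
      rw [← h1]; push_cast; ring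
    rw [ZMod.natCast_eq_zero_iff] at h2
    have h3 := Nat.le_of_dvd (by positivity) h2
    have h4 : 2 ^ m = 2 * 2 ^ (m - 1) := by
      rw [← pow_succ']; congr 1; omega
    have h5 : 0 < 2 ^ (m - 1) := by positivity
    omega

/-- Let S be a finite 2-group whose centre Z(S) has n ≥ 2 distinct maximal subgroups C₁, …, Cₙ with trivial intersection such that each quotient S/Cᵢ is a non-abelian group with exactly one involution (a generalized quaternion group). Then S is the internal direct product of an elementary abelian subgroup and a non-abelian subgroup with exactly one involution. -/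
theorem result {S : Type*} [Group S] [Finite S]
    (hS : IsPGroup 2 S) (n : ℕ) (hn : 2 ≤ n) (C : Fin n → Subgroup ↥(Subgroup.center S))
    (hCmax : ∀ i, IsCoatom (C i)) (hCinj : Function.Injective C) (hCint : ⨅ i, C i = ⊥)
    (hCq : ∀ i, ∃ (_ : ((C i).map (Subgroup.center S).subtype).Normal),
      ¬ IsMulCommutative (S ⧸ (C i).map (Subgroup.center S).subtype) ∧
      ∃! x : S ⧸ (C i).map (Subgroup.center S).subtype, orderOf x = 2) :
    ∃ E Q : Subgroup S, Cfsg.IsInternalDirectProduct E Q ⊤ ∧ Cfsg.IsElementaryAbelian 2 E ∧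
      ¬ IsMulCommutative ↥Q ∧ ∃! x : ↥Q, orderOf x = 2 := by
  classical
  haveI : Fact (Nat.Prime 2) := ⟨Nat.prime_two⟩
  have hZp : IsPGroup 2 (Subgroup.center S) := hS.to_subgroup _
  have hCi : ∀ i, (C i).index = 2 := fun i => (Cfsg.Agent.H2.index_eq_of_isCoatom hZp (hCmax i)).1
  have hZ2 : ∀ z : Subgroup.center S, z ^ 2 = 1 := by
    intro z
    have : z ^ 2 ∈ ⨅ i, C i := by
      rw [Subgroup.mem_iInf]
      intro i
      exact Subgroup.sq_mem_of_index_two (hCi i) z
    rw [hCint, Subgroup.mem_bot] at this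
    exact this
  -- unique involution of S/C_i is the image of the centre
  have hout : ∀ i, ∃ c : Subgroup.center S, c ∉ C i := by
    intro i
    by_contra hcon
    push Not at hcon
    exact (hCmax i).1 (by rw [eq_top_iff]; exact fun x _ => hcon x)
  have hmemC : ∀ i (s : S), s ∈ (C i).map (Subgroup.center S).subtype ↔ ∃ h : s ∈ Subgroup.center S, (⟨s, h⟩ : Subgroup.center S) ∈ C i := by
    intro i s
    constructor
    · rintro ⟨z, hz, rfl⟩; exact ⟨z.2, hz⟩
    · rintro ⟨h, hs⟩; exact ⟨_, hs, rfl⟩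
  have hsq : ∀ i (t : S), t ^ 2 ∈ (C i).map (Subgroup.center S).subtype → t ∈ Subgroup.center S := by
    intro i t ht
    obtain ⟨hn, -, huniq⟩ := hCq i
    obtain ⟨c, hc⟩ := hout i
    by_cases htC : t ∈ (C i).map (Subgroup.center S).subtype
    · exact ((hmemC i t).1 htC).1
    have h1 : orderOf (QuotientGroup.mk' ((C i).map (Subgroup.center S).subtype) t) = 2 := by
      apply orderOf_eq_prime
      · rw [← map_pow, ← MonoidHom.mem_ker, QuotientGroup.ker_mk']; exact ht
      · intro h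
        rw [← MonoidHom.mem_ker, QuotientGroup.ker_mk'] at h
        exact htC h
    have h2 : orderOf (QuotientGroup.mk' ((C i).map (Subgroup.center S).subtype) (c : S)) = 2 := by
      apply orderOf_eq_prime
      · rw [← map_pow]
        have : (c : S) ^ 2 = 1 := congrArg Subtype.val (hZ2 c)
        rw [this, map_one]
      · intro h
        rw [← MonoidHom.mem_ker, QuotientGroup.ker_mk', hmemC] at h
        exact hc h.2
    have h3 := huniq.unique h1 h2
    have h4 : (c : S)⁻¹ * t ∈ (C i).map (Subgroup.center S).subtype := by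
      rw [← QuotientGroup.ker_mk' ((C i).map (Subgroup.center S).subtype), MonoidHom.mem_ker, map_mul, map_inv, h3,
        inv_mul_cancel]
    have h5 : t = (c : S) * ((c : S)⁻¹ * t) := by group
    rw [h5]
    exact mul_mem c.2 ((hmemC i _).1 h4).1
  have heq : ∀ t t' : S, t ∉ Subgroup.center S → t' ∉ Subgroup.center S → t ^ 2 ∈ Subgroup.center S →
      t' ^ 2 ∈ Subgroup.center S → t ^ 2 = t' ^ 2 := by
    intro t t' ht ht' h2 h2'
    have h1 : (⟨t ^ 2, h2⟩ : Subgroup.center S) * (⟨t' ^ 2, h2'⟩ : Subgroup.center S) ∈ ⨅ i, C i := by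
      rw [Subgroup.mem_iInf]
      intro i
      rw [Subgroup.mul_mem_iff_of_index_two (hCi i)]
      constructor
      · intro h; exact absurd (hsq i t ((hmemC i _).2 ⟨h2, h⟩)) ht
      · intro h; exact absurd (hsq i t' ((hmemC i _).2 ⟨h2', h⟩)) ht'
    rw [hCint, Subgroup.mem_bot] at h1
    have h3 := congrArg Subtype.val h1
    have h4 : t' ^ 2 * t' ^ 2 = 1 := by
      have := congrArg Subtype.val (hZ2 ⟨t' ^ 2, h2'⟩)
      rw [← pow_two]; exact this
    have h3' : t ^ 2 * t' ^ 2 = 1 := h3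
    exact mul_right_cancel (h3'.trans h4.symm)
  -- choose one quotient
  have hn0 : 0 < n := by omega
  obtain ⟨hn1, hna, huniq⟩ := hCq ⟨0, hn0⟩
  set C' := (C ⟨0, hn0⟩).map (Subgroup.center S).subtype with hC'
  obtain ⟨c, hc⟩ := hout ⟨0, hn0⟩
  have hc2 : orderOf (QuotientGroup.mk' C' (c : S)) = 2 := by
    apply orderOf_eq_prime
    · rw [← map_pow]
      have : (c : S) ^ 2 = 1 := congrArg Subtype.val (hZ2 c)
      rw [this, map_one]
    · intro h
      rw [← MonoidHom.mem_ker, QuotientGroup.ker_mk', hC', hmemC] at h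
      exact hc h.2
  have hquat : ∃ m, 1 ≤ m ∧ Nonempty ((S ⧸ C') ≃* QuaternionGroup (2 ^ m)) := by
    rcases Cfsg.Agent.H23.cyclic_or_quaternion (hS.to_quotient C') (fun x y hx hy => by
      rw [huniq.unique hx hy]; exact Subgroup.mem_zpowers _) with h | ⟨-, h⟩
    · exfalso; apply hna
      haveI := h
      letI := IsCyclic.commGroup (α := S ⧸ C')
      infer_instance
    · exact h
  obtain ⟨m, hm, ⟨e⟩⟩ := hquat
  set φ : S →* QuaternionGroup (2 ^ m) := e.toMonoidHom.comp (QuotientGroup.mk' C') with hφ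
  have hφs : Function.Surjective φ := e.surjective.comp (QuotientGroup.mk'_surjective C')
  have hφk : ∀ s, φ s = 1 ↔ s ∈ C' := by
    intro s
    rw [hφ, MonoidHom.comp_apply]
    show e (QuotientGroup.mk' C' s) = 1 ↔ _
    rw [map_eq_one_iff e e.injective, ← MonoidHom.mem_ker, QuotientGroup.ker_mk']
  have hC'Z : C' ≤ Subgroup.center S := fun s hs => ((hmemC _ s).1 hs).1
  haveI : NeZero (2 ^ m) := ⟨by positivity⟩
  have hφo : ∀ s, φ s = QuaternionGroup.a ((2 ^ m : ℕ) : ZMod (2 * 2 ^ m)) → s ∈ Subgroup.center S := by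
    intro s hs
    apply hsq ⟨0, hn0⟩ s
    rw [← hC', ← hφk, map_pow, hs, pow_two, QuaternionGroup.a_mul_a, QuaternionGroup.one_def]
    congr 1
    have : ((2 * 2 ^ m : ℕ) : ZMod (2 * 2 ^ m)) = 0 := ZMod.natCast_self _
    rw [← this]; push_cast; ring
  have hφc : ∀ s ∈ Subgroup.center S, ∀ g, φ s * g = g * φ s := by
    intro s hs g
    obtain ⟨t, rfl⟩ := hφs g
    rw [← map_mul, ← map_mul, Subgroup.mem_center_iff.1 hs t]
  obtain ⟨x, hx⟩ := hφs (QuaternionGroup.a 1)
  obtain ⟨y, hy⟩ := hφs (QuaternionGroup.xa 0)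
  have hx1 : (x ^ 2 ^ (m - 1)) ∉ Subgroup.center S := by
    intro h
    have h1 := hφc _ h (QuaternionGroup.xa 0)
    rw [map_pow, hx, QuaternionGroup.a_one_pow, QuaternionGroup.a_mul_xa, QuaternionGroup.xa_mul_a] at h1
    have h2 := QuaternionGroup.xa.inj h1
    rw [zero_add, zero_sub] at h2
    exact nat_ne (Or.inr rfl) hm h2.symm
  have hy1 : y ∉ Subgroup.center S := by
    intro h
    have h1 := hφc _ h (QuaternionGroup.a 1)
    rw [hy, QuaternionGroup.a_mul_xa, QuaternionGroup.xa_mul_a] at h1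
    have h2 := QuaternionGroup.xa.inj h1
    rw [zero_add, zero_sub] at h2
    exact nat_ne (Or.inl rfl) hm h2
  have hxy1 : x * y ∉ Subgroup.center S := by
    intro h
    have h1 := hφc _ h (QuaternionGroup.a 1)
    rw [map_mul, hx, hy, QuaternionGroup.a_mul_xa, QuaternionGroup.a_mul_xa, QuaternionGroup.xa_mul_a] at h1
    have h2 := QuaternionGroup.xa.inj h1
    rw [zero_sub] at h2
    apply nat_ne (m := m) (k := 1) (Or.inl rfl) hm
    have : (-1 : ZMod (2 * 2 ^ m)) + 1 - (-1) = -1 - 1 - (-1) := by rw [h2]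
    linear_combination this
  have hxN : x ^ 2 ^ m ∈ Subgroup.center S := hφo _ (by rw [map_pow, hx, QuaternionGroup.a_one_pow])
  have hyN : y ^ 2 ∈ Subgroup.center S := hφo _ (by rw [map_pow, hy, QuaternionGroup.xa_sq])
  have hxyN : (x * y) ^ 2 ∈ Subgroup.center S := hφo _ (by
    rw [map_pow, map_mul, hx, hy, QuaternionGroup.a_mul_xa, QuaternionGroup.xa_sq])
  have hxsq : (x ^ 2 ^ (m - 1)) ^ 2 = x ^ 2 ^ m := by
    rw [← pow_mul, ← pow_succ]; congr 2; omega
  have e1 : x ^ 2 ^ m = y ^ 2 := by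
    rw [← hxsq]
    exact heq _ _ hx1 hy1 (by rw [hxsq]; exact hxN) hyN
  have e2 : (x * y) ^ 2 = y ^ 2 := heq _ _ hxy1 hy1 hxyN hyN
  have e3 : y * x * y⁻¹ = x⁻¹ := by
    have h1 : x * y * x = y := by
      have : x * y * x * y = y * y := by
        rw [← pow_two y, ← e2, pow_two]; group
      exact mul_right_cancel this
    have h2 : y * x = x⁻¹ * y := by
      rw [eq_inv_mul_iff_mul_eq, ← mul_assoc]; exact h1
    rw [h2]; group
  have hnorm : Subgroup.zpowers y ≤ Subgroup.normalizer ((Subgroup.zpowers x : Subgroup S) : Set S) := by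
    rw [Subgroup.zpowers_le, Subgroup.mem_normalizer_iff]
    intro h
    constructor
    · rintro ⟨k, rfl⟩
      refine ⟨-k, ?_⟩
      show x ^ (-k) = y * x ^ k * y⁻¹
      rw [← conj_zpow, e3, inv_zpow, zpow_neg]
    · rintro ⟨k, hk⟩
      refine ⟨-k, ?_⟩
      have hk' : x ^ k = y * h * y⁻¹ := hk
      show x ^ (-k) = h
      have h1 : y⁻¹ * x * y = x⁻¹ := by
        have h2 : (y * x * y⁻¹)⁻¹ = x := by rw [e3, inv_inv]
        calc y⁻¹ * x * y = y⁻¹ * (y * x * y⁻¹)⁻¹ * y := by rw [h2]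
          _ = x⁻¹ := by group
      have h3 : h = y⁻¹ * x ^ k * y := by rw [hk']; group
      have h4 : y⁻¹ * x ^ k * y = (y⁻¹ * x * y) ^ k := by
        have := conj_zpow (a := y⁻¹) (b := x) (i := k)
        rw [inv_inv] at this
        exact this.symm
      rw [h3, h4, h1, inv_zpow, zpow_neg]
  set Q := Subgroup.zpowers x ⊔ Subgroup.zpowers y with hQ
  have hxQ : x ∈ Q := (le_sup_left : Subgroup.zpowers x ≤ Q) (Subgroup.mem_zpowers x)
  have hyQ : y ∈ Q := (le_sup_right : Subgroup.zpowers y ≤ Q) (Subgroup.mem_zpowers y)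
  have hy4 : y ^ 2 * y ^ 2 = 1 := by
    have := congrArg Subtype.val (hZ2 ⟨y ^ 2, hyN⟩)
    rw [← pow_two]; exact this
  have hxo : x ^ (2 * 2 ^ m) = 1 := by
    rw [mul_comm, pow_mul, e1, pow_two]; exact hy4
  have hxk : ∀ i : ℕ, φ (x ^ i) = 1 → x ^ i = 1 := by
    intro i hi
    rw [map_pow, hx, QuaternionGroup.a_one_pow, QuaternionGroup.one_def] at hi
    have h1 := QuaternionGroup.a.inj hi
    rw [ZMod.natCast_eq_zero_iff] at h1
    obtain ⟨l, rfl⟩ := h1
    rw [pow_mul, hxo, one_pow]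
  have hQinj : ∀ q ∈ Q, φ q = 1 → q = 1 := by
    intro q hq hq1
    obtain ⟨a, ha, b, hb, rfl⟩ := (Cfsg.Agent.H1.mem_sup_iff_of_le_normalizer hnorm).1 hq
    rw [← mem_powers_iff_mem_zpowers] at ha hb
    obtain ⟨i, rfl⟩ := ha
    obtain ⟨j, rfl⟩ := hb
    have hq1 : φ (x ^ i * y ^ j) = 1 := hq1
    show x ^ i * y ^ j = 1
    rcases Nat.even_or_odd' j with ⟨l, rfl | rfl⟩
    · have h1 : x ^ i * y ^ (2 * l) = x ^ (i + 2 ^ m * l) := by
        rw [pow_mul, ← e1, ← pow_mul, ← pow_add]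
      rw [h1] at hq1 ⊢
      exact hxk _ hq1
    · exfalso
      have h1 : x ^ i * y ^ (2 * l + 1) = x ^ (i + 2 ^ m * l) * y := by
        rw [pow_succ, pow_mul, ← e1, ← pow_mul, ← mul_assoc, ← pow_add]
      rw [h1, map_mul, map_pow, hx, hy, QuaternionGroup.a_one_pow, QuaternionGroup.a_mul_xa,
        QuaternionGroup.one_def] at hq1
      cases hq1
  have hQsurj : ∀ g, ∃ q ∈ Q, φ q = g := by
    rintro (i | i)
    · refine ⟨x ^ i.val, pow_mem hxQ _, ?_⟩
      rw [map_pow, hx, QuaternionGroup.a_one_pow, ZMod.natCast_zmod_val]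
    · refine ⟨y * x ^ i.val, mul_mem hyQ (pow_mem hxQ _), ?_⟩
      rw [map_mul, map_pow, hx, hy, QuaternionGroup.a_one_pow, ZMod.natCast_zmod_val, QuaternionGroup.xa_mul_a, zero_add]
  let f : Q →* S ⧸ C' := (QuotientGroup.mk' C').comp Q.subtype
  have hfi : Function.Injective f := by
    rw [injective_iff_map_eq_one]
    intro q hq
    apply Subtype.ext
    apply hQinj q q.2
    rw [hφ]
    show e (QuotientGroup.mk' C' (q : S)) = 1
    have : QuotientGroup.mk' C' (q : S) = 1 := hq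
    rw [this, map_one]
  have hfs : Function.Surjective f := by
    intro g
    obtain ⟨q, hq, hqg⟩ := hQsurj (e g)
    exact ⟨⟨q, hq⟩, e.injective hqg⟩
  let E := MulEquiv.ofBijective f ⟨hfi, hfs⟩
  refine ⟨C', Q, ⟨le_top, le_top, ?_, ?_, ?_⟩, ⟨?_, ?_⟩, ?_, ?_⟩
  · intro a ha b _
    exact (Subgroup.mem_center_iff.1 (hC'Z ha) b).symm
  · rw [eq_bot_iff]
    intro q hq
    exact hQinj q (Subgroup.mem_inf.1 hq).2 ((hφk q).2 (Subgroup.mem_inf.1 hq).1)
  · rw [eq_top_iff]
    intro s _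
    obtain ⟨q, hq, hqs⟩ := hQsurj (φ s)
    have h1 : s * q⁻¹ ∈ C' := by rw [← hφk, map_mul, map_inv, hqs, mul_inv_cancel]
    have h2 : s = (s * q⁻¹) * q := by group
    rw [h2]
    exact mul_mem ((le_sup_left : C' ≤ C' ⊔ Q) h1) ((le_sup_right : Q ≤ C' ⊔ Q) hq)
  · refine ⟨⟨fun a b => Subtype.ext ?_⟩⟩
    exact (Subgroup.mem_center_iff.1 (hC'Z a.2) b).symm
  · intro a ha
    exact congrArg Subtype.val (hZ2 ⟨a, hC'Z ha⟩)
  · intro h
    apply hna
    refine ⟨⟨fun a b => ?_⟩⟩
    obtain ⟨a, rfl⟩ := hfs a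
    obtain ⟨b, rfl⟩ := hfs b
    rw [← map_mul, ← map_mul, h.is_comm.comm]
  · obtain ⟨g, hg, hgu⟩ := huniq
    refine ⟨E.symm g, ?_, ?_⟩
    · show orderOf (E.symm g) = 2
      rw [MulEquiv.orderOf_eq]; exact hg
    · intro q hq
      have := hgu (E q) (by show orderOf (E q) = 2; rw [MulEquiv.orderOf_eq]; exact hq)
      rw [← this, MulEquiv.symm_apply_apply]

end Cfsg.Agent.S3201
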