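import Cfsg.Statements.S3202
import Cfsg.Agent.H23.RankOne

set_option autoImplicit false
open Cfsg

namespace Cfsg.Agent.S3202

open Subgroup Cfsg.Agent
open scoped commutatorElement

/-- if `S/D` is dicyclic-like over a central `D`, then `S'` is cyclic. -/
theorem core {S : Type*} [Group S] (D : Subgroup S) [D.Normal] (hDc : D ≤ center S)
    (x y : S) (hgen : ∀ g : S, ∃ (i : ℤ) (d : S), d ∈ D ∧ (g = x ^ i * d ∨ g = x ^ i * y * d))
    (hinv : ∃ d ∈ D, y * x * y⁻¹ = x⁻¹ * d) : IsCyclic (_root_.commutator S) := by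
  obtain ⟨d, hd, hyx⟩ := hinv
  have hdc : ∀ d ∈ D, ∀ g : S, g * d = d * g := fun d hd g => mem_center_iff.mp (hDc hd) g
  set c : S := x * x * d⁻¹ with hc
  have hdi : ∀ g : S, g * d⁻¹ = d⁻¹ * g := hdc _ (D.inv_mem hd)
  have hcx : x * c = c * x := by
    rw [hc]
    calc x * (x * x * d⁻¹) = x * x * (x * d⁻¹) := by group
      _ = x * x * (d⁻¹ * x) := by rw [hdi]
      _ = _ := by group
  have hxi : y * x * y⁻¹ = x⁻¹ * d := hyx
  have hcy : y * c * y⁻¹ = c⁻¹ := by
    have h1 : y * c * y⁻¹ = (y * x * y⁻¹) * (y * x * y⁻¹) * (y * d⁻¹ * y⁻¹) := by rw [hc]; group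
    rw [h1, hxi, hdi y]
    have h2 : x⁻¹ * d = d * x⁻¹ := hdc d hd _
    calc x⁻¹ * d * (x⁻¹ * d) * (d⁻¹ * y * y⁻¹) = (x⁻¹ * d) * x⁻¹ := by group
      _ = d * x⁻¹ * x⁻¹ := by rw [h2]
      _ = c⁻¹ := by rw [hc]; group
  haveI hCn : (zpowers c).Normal := by
    have key : ∀ g : S, g * c * g⁻¹ ∈ zpowers c := by
      intro g
      have hx1 : ∀ i : ℤ, x ^ i * c * (x ^ i)⁻¹ = c := by
        intro i
        have h : Commute (x ^ i) c := (show Commute x c from hcx).zpow_left i
        rw [h.eq]; group
      obtain ⟨i, e, he, hg | hg⟩ := hgen g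
      · have : g * c * g⁻¹ = x ^ i * (e * c * e⁻¹) * (x ^ i)⁻¹ := by rw [hg]; group
        rw [this, ← hdc e he c, mul_inv_cancel_right, hx1]
        exact mem_zpowers c
      · have : g * c * g⁻¹ = x ^ i * (y * (e * c * e⁻¹) * y⁻¹) * (x ^ i)⁻¹ := by rw [hg]; group
        rw [this, ← hdc e he c, mul_inv_cancel_right, hcy]
        have h3 : x ^ i * c⁻¹ * (x ^ i)⁻¹ = (x ^ i * c * (x ^ i)⁻¹)⁻¹ := by group
        rw [h3, hx1]
        exact inv_mem (mem_zpowers c)
    refine ⟨fun n hn g => ?_⟩
    obtain ⟨k, rfl⟩ := mem_zpowers_iff.mp hn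
    rw [← conj_zpow]
    exact zpow_mem (key g) k
  have hle : _root_.commutator S ≤ zpowers c := by
    have hq : ∀ a b : S ⧸ zpowers c, a * b = b * a := by
      let f := QuotientGroup.mk' (zpowers c)
      have hxy : f x * f y = f y * f x := by
        rw [← map_mul, ← map_mul]
        have h1 : x * y = (x * (y * x * y⁻¹)⁻¹) * (y * x) := by group
        have h2 : x * (y * x * y⁻¹)⁻¹ = c := by
          rw [hxi, hc, mul_inv_rev, inv_inv, ← hdi x]; group
        rw [h1, h2, map_mul]
        have h3 : f c = 1 := (QuotientGroup.eq_one_iff _).mpr (mem_zpowers c)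
        rw [h3, one_mul]
      have hfd : ∀ d ∈ D, ∀ g : S, f g * f d = f d * f g := by
        intro d hd g
        rw [← map_mul, ← map_mul, hdc d hd g]
      intro a b
      obtain ⟨a, rfl⟩ := QuotientGroup.mk'_surjective _ a
      obtain ⟨b, rfl⟩ := QuotientGroup.mk'_surjective _ b
      have comm2 : ∀ g : S, Commute (f x) (f g) ∧ Commute (f y) (f g) := by
        intro g
        obtain ⟨i, e, he, hg | hg⟩ := hgen g
        · rw [hg, map_mul, map_zpow]
          exact ⟨((Commute.refl _).zpow_right i).mul_right (hfd e he x),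
            ((show Commute (f y) (f x) from hxy.symm).zpow_right i).mul_right (hfd e he y)⟩
        · rw [hg, map_mul, map_mul, map_zpow]
          exact ⟨(((Commute.refl _).zpow_right i).mul_right hxy).mul_right (hfd e he x),
            (((show Commute (f y) (f x) from hxy.symm).zpow_right i).mul_right
              (Commute.refl _)).mul_right (hfd e he y)⟩
      obtain ⟨i, e, he, hg | hg⟩ := hgen a
      · show Commute (f a) (f b)
        rw [hg, map_mul, map_zpow]
        exact (((comm2 b).1.zpow_left i)).mul_left (hfd e he b).symm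
      · show Commute (f a) (f b)
        rw [hg, map_mul, map_mul, map_zpow]
        exact (((comm2 b).1.zpow_left i).mul_left (comm2 b).2).mul_left (hfd e he b).symm
    rw [_root_.commutator_def, commutator_le]
    intro a _ b _
    rw [← QuotientGroup.eq_one_iff (N := zpowers c)]
    have := hq (QuotientGroup.mk a) (QuotientGroup.mk b)
    show (QuotientGroup.mk' (zpowers c)) ⁅a, b⁆ = 1
    rw [map_commutatorElement, commutatorElement_eq_one_iff_mul_comm]
    exact this
  exact isCyclic_of_injective (inclusion hle) (inclusion_injective hle)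

/-- Let S be a finite 2-group of 2-rank exactly 2 and D a maximal subgroup of the centre of S such that S/D is a non-abelian group with exactly one involution (a generalized quaternion group). Then S has a nontrivial cyclic characteristic subgroup. -/
theorem result {S : Type*} [Group S]
    [Finite S] (hS : IsPGroup 2 S) (hr2 : Cfsg.PRankLE 2 2 S) (hr1 : ¬ Cfsg.PRankLE 2 1 S)
    (D : Subgroup ↥(Subgroup.center S)) (hD : IsCoatom D)
    (hq : ∃ (_ : (D.map (Subgroup.center S).subtype).Normal),
      ¬ IsMulCommutative (S ⧸ D.map (Subgroup.center S).subtype) ∧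
      ∃! x : S ⧸ D.map (Subgroup.center S).subtype, orderOf x = 2) :
    ∃ C : Subgroup S, C ≠ ⊥ ∧ IsCyclic ↥C ∧ C.Characteristic := by
  obtain ⟨hN, hnc, huni⟩ := hq
  haveI := hN
  set D' : Subgroup S := D.map (center S).subtype with hD'
  have hDc : D' ≤ center S := map_subtype_le D
  haveI : Fact (Nat.Prime 2) := ⟨Nat.prime_two⟩
  refine ⟨_root_.commutator S, ?_, ?_, inferInstance⟩
  · intro h
    apply hnc
    refine ⟨⟨fun a b => ?_⟩⟩
    obtain ⟨a, rfl⟩ := QuotientGroup.mk_surjective a
    obtain ⟨b, rfl⟩ := QuotientGroup.mk_surjective b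
    have h1 : ⁅a, b⁆ ∈ _root_.commutator S := commutator_mem_commutator (mem_top a) (mem_top b)
    rw [h, mem_bot, commutatorElement_eq_one_iff_mul_comm] at h1
    rw [← QuotientGroup.mk_mul, ← QuotientGroup.mk_mul, h1]
  · have hQ : IsPGroup 2 (S ⧸ D') := hS.to_quotient D'
    rcases H23.cyclic_or_quaternion hQ (fun a b ha hb => by
      obtain ⟨z, hz, hz'⟩ := huni
      rw [hz' a ha, hz' b hb]
      exact mem_zpowers z) with h | ⟨-, n, -, ⟨e⟩⟩
    · exfalso
      apply hnc
      haveI := h
      exact ⟨⟨(IsCyclic.commGroup (α := S ⧸ D')).mul_comm⟩⟩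
    · obtain ⟨x, hx⟩ := QuotientGroup.mk_surjective (e.symm (QuaternionGroup.a 1))
      obtain ⟨y, hy⟩ := QuotientGroup.mk_surjective (e.symm (QuaternionGroup.xa 0))
      have hxe : e (x : S ⧸ D') = QuaternionGroup.a 1 := by rw [hx, MulEquiv.apply_symm_apply]
      have hye : e (y : S ⧸ D') = QuaternionGroup.xa 0 := by rw [hy, MulEquiv.apply_symm_apply]
      have hxz : ∀ i : ℤ, e ((x ^ i : S) : S ⧸ D') = QuaternionGroup.a (i : ZMod (2 * 2 ^ n)) := by
        intro i
        rw [QuotientGroup.mk_zpow, map_zpow, hxe]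
        induction i using Int.induction_on with
        | zero => rw [zpow_zero, Int.cast_zero]; rfl
        | succ k ih => rw [zpow_add_one, ih, QuaternionGroup.a_mul_a]; push_cast; rfl
        | pred k ih =>
          rw [zpow_sub_one, ih]
          rw [mul_inv_eq_iff_eq_mul, QuaternionGroup.a_mul_a]
          congr 1; push_cast; ring
      haveI : NeZero (2 * 2 ^ n) := ⟨by positivity⟩
      refine core D' hDc x y ?_ ?_
      · intro g
        rcases hg : e (g : S ⧸ D') with i | i
        · refine ⟨i.val, (x ^ (i.val : ℤ))⁻¹ * g, ?_, Or.inl (by group)⟩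
          rw [← QuotientGroup.eq]
          apply e.injective
          rw [hxz, hg]; simp
        · refine ⟨(-i).val, (x ^ ((-i).val : ℤ) * y)⁻¹ * g, ?_, Or.inr (by group)⟩
          rw [← QuotientGroup.eq]
          apply e.injective
          rw [QuotientGroup.mk_mul, map_mul, hxz, hye, hg, QuaternionGroup.a_mul_xa]
          simp
      · refine ⟨x * (y * x * y⁻¹), ?_, by group⟩
        rw [← QuotientGroup.eq_one_iff]
        apply e.injective
        rw [map_one]
        simp only [QuotientGroup.mk_mul, QuotientGroup.mk_inv, map_mul, map_inv, hxe, hye]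
        have h1 : (QuaternionGroup.xa 0 * QuaternionGroup.a 1 : QuaternionGroup (2 ^ n)) =
            QuaternionGroup.a (-1) * QuaternionGroup.xa 0 := by
          rw [QuaternionGroup.xa_mul_a, QuaternionGroup.a_mul_xa]
          congr 1; ring
        rw [h1, mul_inv_cancel_right, QuaternionGroup.a_mul_a, add_neg_cancel]
        rfl

end Cfsg.Agent.S3202
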