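import Cfsg.Statements.S3206
import Cfsg.Agent.H20.AbSyl
import Cfsg.Agent.H20.FixVec
import Cfsg.Agent.H5.KleinPSL
import Cfsg.Agent.H5.PSLSimple
import Cfsg.Agent.H9.Simple
import Cfsg.Agent.H5.SL2Inv

set_option autoImplicit false
open Cfsg


namespace Cfsg.Agent.S3206


/-- `P` abelian Sylow of `E`, normal `PSL(2,q)` with trivial centralizer: `P` is a Klein four-group -/
theorem sylow_klein {E : Type*} [Group E] [Finite E] (N : Subgroup E) [N.Normal]
    {F : Type*} [Field F] [Fintype F] (hFo : Odd (Fintype.card F)) (hF3 : 3 < Fintype.card F)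
    (e : ↥N ≃* Matrix.ProjectiveSpecialLinearGroup (Fin 2) F)
    (hNc : Subgroup.centralizer (N : Set E) = ⊥) (P : Sylow 2 E)
    (hP : ∀ Q : Sylow 2 E, ∀ x ∈ (Q : Subgroup E), ∀ y ∈ (Q : Subgroup E), x * y = y * x) :
    Nat.card (P : Subgroup E) = 4 ∧ ∀ x ∈ (P : Subgroup E), x * x = 1 := by
  classical
  have h2 : (2 : F) ≠ 0 := H5.two_ne_zero_of_odd hFo
  haveI hs : IsSimpleGroup (Matrix.ProjectiveSpecialLinearGroup (Fin 2) F) :=
    H5.PSL2_isSimple (by rw [Nat.card_eq_fintype_card]; omega)
  haveI : IsSimpleGroup N := e.isSimpleGroup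
  have heven : 2 ∣ Nat.card N := by
    rw [Nat.card_congr e.toEquiv]
    obtain ⟨x, hx⟩ := H5.psl_exists_inv (F := F) h2
    have h := orderOf_dvd_natCard x
    rw [hx] at h
    exact h
  -- a Klein four subgroup of PSL
  have hcount := H5.psl_klein_count (F := F) h2
  have hpos : 0 < Nat.card {V : Subgroup (Matrix.ProjectiveSpecialLinearGroup (Fin 2) F) // IsKleinFour V} := by
    by_contra h
    have h0 : Nat.card {V : Subgroup (Matrix.ProjectiveSpecialLinearGroup (Fin 2) F) // IsKleinFour V} = 0 := by omega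
    rw [h0, mul_zero] at hcount
    have : 0 < Nat.card (Matrix.ProjectiveSpecialLinearGroup (Fin 2) F) := Nat.card_pos
    omega
  obtain ⟨⟨⟨V, hV⟩⟩⟩ := (Nat.card_pos_iff.mp hpos)
  have hcentV := H5.psl_klein_cent h2 V hV
  -- its image in E
  obtain ⟨V', hV'⟩ : ∃ V' : Subgroup E, V' = (V.comap e.toMonoidHom).map N.subtype := ⟨_, rfl⟩
  have hV'p : IsPGroup 2 V' := by
    have h1 : IsPGroup 2 V := IsPGroup.of_card (n := 2) (by rw [hV.card_four]; norm_num)
    rw [hV']
    exact (h1.comap_of_injective e.toMonoidHom e.injective).map _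
  obtain ⟨Q, hQ⟩ := hV'p.exists_le_sylow
  have hQN : (Q : Subgroup E) ≤ N := by
    apply H20.le_of_abelian N heven hNc (Q : Subgroup E) Q.isPGroup' (hP Q)
    intro h
    apply Q.not_dvd_index
    have h1 : (Q : Subgroup E).relIndex N ∣ (Q : Subgroup E).index := by
      have h3 : (Q : Subgroup E).relIndex (N ⊔ Q) ∣ (Q : Subgroup E).index :=
        Subgroup.relIndex_dvd_index_of_le le_sup_right
      have h4 : (Q : Subgroup E).relIndex (N ⊔ Q) = (Q : Subgroup E).relIndex N := H20.relIndex_sup_normal N Q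
      rwa [h4] at h3
    exact dvd_trans h h1
  -- Q is V'
  have hQV : ∀ x ∈ (Q : Subgroup E), ∃ hx : x ∈ N, e ⟨x, hx⟩ ∈ V := by
    intro x hx
    refine ⟨hQN hx, ?_⟩
    rw [← hcentV, Subgroup.mem_centralizer_iff]
    intro v hv
    have hv' : ((e.symm v : N) : E) ∈ V' := by
      rw [hV']
      refine ⟨e.symm v, ?_, rfl⟩
      rw [SetLike.mem_coe, Subgroup.mem_comap]
      change e (e.symm v) ∈ V
      rw [MulEquiv.apply_symm_apply]; exact hv
    have h3 := hP Q _ (hQ hv') x hx
    have h4 : (e.symm v) * (⟨x, hQN hx⟩ : N) = (⟨x, hQN hx⟩ : N) * (e.symm v) := Subtype.ext h3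
    have h5 := congrArg e h4
    rw [map_mul, map_mul, MulEquiv.apply_symm_apply] at h5
    exact h5
  have hQcard : Nat.card (Q : Subgroup E) = 4 := by
    apply le_antisymm
    · rw [← hV.card_four]
      refine Nat.card_le_card_of_injective (fun x : (Q : Subgroup E) => (⟨e ⟨x, (hQV x x.2).choose⟩, (hQV x x.2).choose_spec⟩ : V)) ?_
      intro x y hxy
      have h3 := congrArg (fun z : V => (z : Matrix.ProjectiveSpecialLinearGroup (Fin 2) F)) hxy
      have h4 := e.injective h3
      exact Subtype.ext (congrArg (fun z : N => (z : E)) h4)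
    · have h3 : Nat.card V' = 4 := by
        rw [hV', ← Nat.card_congr ((V.comap e.toMonoidHom).equivMapOfInjective N.subtype N.subtype_injective).toEquiv]
        rw [← hV.card_four]
        exact Nat.card_congr (e.toEquiv.subtypeEquiv (fun x => Iff.rfl))
      rw [← h3]
      exact Subgroup.card_le_of_le hQ
  have hQsq : ∀ x ∈ (Q : Subgroup E), x * x = 1 := by
    intro x hx
    obtain ⟨hxN, hxV⟩ := hQV x hx
    have h3 := IsKleinFour.mul_self (⟨_, hxV⟩ : V)
    have h4 : e ⟨x, hxN⟩ * e ⟨x, hxN⟩ = 1 := congrArg Subtype.val h3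
    rw [← map_mul] at h4
    have h5 : (⟨x, hxN⟩ : N) * ⟨x, hxN⟩ = 1 := by
      apply e.injective; rw [h4, map_one]
    exact congrArg Subtype.val h5
  -- P is conjugate to Q
  obtain ⟨g, hg⟩ := MulAction.exists_smul_eq E Q P
  constructor
  · rw [← hQcard]
    exact (Sylow.card_eq_multiplicity P).trans (Sylow.card_eq_multiplicity Q).symm
  · intro x hx
    rw [← hg] at hx
    have h3 : g⁻¹ * x * g ∈ (Q : Subgroup E) := by
      rw [Sylow.coe_subgroup_smul, Subgroup.mem_pointwise_smul_iff_inv_smul_mem] at hx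
      have h4 : (MulAut.conj g)⁻¹ • x = g⁻¹ * x * g := by
        rw [← map_inv, MulAut.smul_def, MulAut.conj_apply, inv_inv]
      rwa [h4] at hx
    have h4 := hQsq _ h3
    calc x * x = g * (g⁻¹ * x * g * (g⁻¹ * x * g)) * g⁻¹ := by group
      _ = 1 := by rw [h4]; group

/-- automorphisms fixing an abelian Sylow 2-subgroup -/
theorem aut_inner {G : Type*} [Group G] [Finite G] [IsSimpleGroup G] (hG : ¬ IsMulCommutative G)
    (h2 : 2 ∣ Nat.card G) (S : Sylow 2 G) (hS : ∀ x ∈ (S : Subgroup G), ∀ y ∈ (S : Subgroup G), x * y = y * x)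
    (φ : MulAut G) (k : ℕ) (hφ : φ ^ (2 ^ k) = 1) (hfix : ∀ s ∈ (S : Subgroup G), φ s = s) :
    ∃ g : G, ∀ x : G, φ x = g * x * g⁻¹ := by
  classical
  haveI : Fact (Nat.Prime 2) := ⟨Nat.prime_two⟩
  have hZ : Subgroup.center G = ⊥ := H9.Simple.center_eq_bot hG
  have hinj : Function.Injective (MulAut.conj : G →* MulAut G) := by
    rw [← MonoidHom.ker_eq_bot_iff, Subgroup.eq_bot_iff_forall]
    intro g hg
    rw [MonoidHom.mem_ker] at hg
    rw [← Subgroup.mem_bot, ← hZ, Subgroup.mem_center_iff]
    intro h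
    have h3 := congrArg (fun f : MulAut G => f h) hg
    have h4 : g * h * g⁻¹ = h := h3
    rw [mul_inv_eq_iff_eq_mul] at h4
    exact h4.symm
  obtain ⟨N, hN⟩ : ∃ N : Subgroup (MulAut G), N = (MulAut.conj : G →* MulAut G).range := ⟨_, rfl⟩
  have hconj : ∀ (α : MulAut G) (g : G), α * MulAut.conj g * α⁻¹ = MulAut.conj (α g) := by
    intro α g
    ext x
    change α (g * α⁻¹ x * g⁻¹) = α g * x * (α g)⁻¹
    rw [map_mul, map_mul, map_inv, MulAut.apply_inv_self]
  haveI hNn : N.Normal := by
    constructor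
    rintro n hn α
    rw [hN] at hn ⊢
    obtain ⟨g, rfl⟩ := hn
    rw [hconj]
    exact ⟨α g, rfl⟩
  let ι : G ≃* N := (MonoidHom.ofInjective hinj).trans (MulEquiv.subgroupCongr hN.symm)
  haveI : IsSimpleGroup N := ι.symm.isSimpleGroup
  have heven : 2 ∣ Nat.card N := by rw [← Nat.card_congr ι.toEquiv]; exact h2
  have hC : Subgroup.centralizer (N : Set (MulAut G)) = ⊥ := by
    rw [Subgroup.eq_bot_iff_forall]
    intro α hα
    rw [Subgroup.mem_centralizer_iff] at hα
    ext g
    apply hinj
    rw [← hconj]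
    have h3 := hα (MulAut.conj g) (by rw [hN]; exact ⟨g, rfl⟩)
    rw [← h3, mul_inv_cancel_right]
    rfl
  obtain ⟨S', hS'⟩ : ∃ S' : Subgroup (MulAut G), S' = (S : Subgroup G).map MulAut.conj := ⟨_, rfl⟩
  have hSφ : ∀ s ∈ S', φ * s = s * φ := by
    intro s hs
    rw [hS'] at hs
    obtain ⟨g, hg, rfl⟩ := hs
    have h3 := hconj φ g
    rw [hfix g hg, mul_inv_eq_iff_eq_mul] at h3
    exact h3
  have hSS : ∀ s ∈ S', ∀ r ∈ S', s * r = r * s := by
    intro s hs r hr
    rw [hS'] at hs hr
    obtain ⟨g, hg, rfl⟩ := hs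
    obtain ⟨h, hh, rfl⟩ := hr
    rw [← map_mul, ← map_mul, hS g hg h hh]
  obtain ⟨P, hP⟩ : ∃ P : Subgroup (MulAut G), P = S' ⊔ Subgroup.zpowers φ := ⟨_, rfl⟩
  have hPc : P ≤ Subgroup.centralizer (P : Set (MulAut G)) := by
    have e1 : S' ≤ Subgroup.centralizer (P : Set (MulAut G)) := by
      rw [Subgroup.le_centralizer_iff, hP]
      refine sup_le ?_ ?_
      · intro s hs
        rw [Subgroup.mem_centralizer_iff]
        exact fun r hr => hSS r hr s hs
      · rw [Subgroup.zpowers_le, Subgroup.mem_centralizer_iff]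
        exact fun s hs => (hSφ s hs).symm
    have e2 : Subgroup.zpowers φ ≤ Subgroup.centralizer (P : Set (MulAut G)) := by
      rw [Subgroup.le_centralizer_iff, hP]
      refine sup_le ?_ ?_
      · intro s hs
        rw [Subgroup.mem_centralizer_iff]
        rintro _ ⟨j, rfl⟩
        have : Commute φ s := hSφ s hs
        exact (this.zpow_left j).eq
      · rw [Subgroup.zpowers_le, Subgroup.mem_centralizer_iff]
        rintro _ ⟨j, rfl⟩
        exact ((Commute.refl φ).zpow_left j).eq
    rw [hP] at *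
    exact sup_le e1 e2
  have hPp : IsPGroup 2 P := by
    have p1 : IsPGroup 2 S' := by rw [hS']; exact S.isPGroup'.map _
    have p2 : IsPGroup 2 (Subgroup.zpowers φ) := by
      rw [IsPGroup.iff_card]
      rw [Nat.card_zpowers]
      obtain ⟨j, -, hj⟩ := (Nat.dvd_prime_pow Nat.prime_two).mp (orderOf_dvd_of_pow_eq_one hφ)
      exact ⟨j, hj⟩
    rw [hP]
    apply IsPGroup.to_sup_of_normal_right' p1 p2
    intro s hs
    rw [Subgroup.mem_normalizer_iff]
    intro x
    have hs' : s ∈ Subgroup.centralizer (P : Set (MulAut G)) := hPc (by rw [hP]; exact Subgroup.mem_sup_left hs)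
    constructor
    · intro hx
      have h3 := Subgroup.mem_centralizer_iff.mp hs' x (by rw [hP]; exact Subgroup.mem_sup_right hx)
      rw [← h3, mul_inv_cancel_right]; exact hx
    · intro hx
      have h3 := Subgroup.mem_centralizer_iff.mp hs' _ (show s * x * s⁻¹ ∈ (P : Set (MulAut G)) by rw [hP]; exact Subgroup.mem_sup_right hx)
      have h4 : s * x * s⁻¹ = x := by
        have h5 : s * (s * x * s⁻¹) * s⁻¹ = s * x * s⁻¹ := by
          rw [← h3]; group
        have h6 : s * (s * x * s⁻¹) = s * x := by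
          have := mul_right_cancel h5
          exact this
        exact mul_left_cancel h6
      rwa [h4] at hx
  have hSyl : ¬ 2 ∣ P.relIndex N := by
    intro h
    apply S.not_dvd_index
    have h3 : P.relIndex N ∣ S'.relIndex N := Subgroup.relIndex_dvd_of_le_left _ (by rw [hP]; exact le_sup_left)
    have h4 : S'.relIndex N = (S : Subgroup G).index := by
      rw [hS', hN, MonoidHom.range_eq_map, Subgroup.relIndex_map_map_of_injective _ _ hinj,
        Subgroup.relIndex_top_right]
    rw [← h4]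
    exact dvd_trans h h3
  have hfin := H20.le_of_abelian N heven hC P hPp (fun x hx y hy => Subgroup.mem_centralizer_iff.mp (hPc hy) x hx) hSyl
  have hφN : φ ∈ N := hfin (by rw [hP]; exact Subgroup.mem_sup_right (Subgroup.mem_zpowers φ))
  rw [hN] at hφN
  obtain ⟨g, hg⟩ := hφN
  exact ⟨g, fun x => by rw [← hg]; rfl⟩

theorem perfect_bot {X : Type*} [Group X] [Finite X] (T : Sylow 2 X)
    (hT : ∀ x ∈ (T : Subgroup X), ∀ y ∈ (T : Subgroup X), x * y = y * x) (hp : commutator X = ⊤) {z : X}
    (hz : z ∈ (T : Subgroup X)) (hzc : ∀ n ∈ Subgroup.normalizer (T : Set X), n * z = z * n) : z = 1 := by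
  haveI : Fact (Nat.Prime 2) := ⟨Nat.prime_two⟩
  have hTc : IsMulCommutative (T : Subgroup X) := by
    rw [isMulCommutative_iff]
    intro x y
    exact Subtype.ext (hT x x.2 y y.2)
  obtain ⟨-, h2⟩ := H2.sylow_abelian_decomp T hTc
  have h3 := H2.commutator_inf_sylow_eq_of_abelian T hTc
  rw [hp, top_inf_eq] at h3
  rw [← h3] at h2
  have h4 : z ∈ (T : Subgroup X) ⊓ ((T : Subgroup X) ⊓
      Subgroup.centralizer ((Subgroup.normalizer (T : Set X) : Subgroup X) : Set X)) := by
    refine Subgroup.mem_inf.mpr ⟨hz, Subgroup.mem_inf.mpr ⟨hz, ?_⟩⟩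
    rw [Subgroup.mem_centralizer_iff]
    exact hzc
  rw [h2, Subgroup.mem_bot] at h4
  exact h4

/-- the Sylow 2-subgroups are elementary abelian of order eight -/
theorem sylow_eight {G : Type*} [Group G] [Finite G]
    (hab : ∀ S : Sylow 2 G, ∀ x ∈ (S : Subgroup G), ∀ y ∈ (S : Subgroup G), x * y = y * x)
    (t : G) (ht : orderOf t = 2)
    (E : Subgroup G) (hE : Cfsg.IsInternalDirectProduct (Subgroup.zpowers t) E (Subgroup.centralizer ({t} : Set G)))
    {F : Type*} [Field F] [Fintype F] (hFo : Odd (Fintype.card F)) (hF3 : 3 < Fintype.card F)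
    (N : Subgroup ↥E) [N.Normal] (hN : Nonempty (↥N ≃* Matrix.ProjectiveSpecialLinearGroup (Fin 2) F))
    (hNc : Subgroup.centralizer (N : Set ↥E) = ⊥) (S : Sylow 2 G) :
    Nat.card (S : Subgroup G) = 8 ∧ ∀ x ∈ (S : Subgroup G), x * x = 1 := by
  classical
  haveI : Fact (Nat.Prime 2) := ⟨Nat.prime_two⟩
  obtain ⟨e⟩ := hN
  obtain ⟨-, hEC, hcomm, hinf, hsup⟩ := hE
  have htt : t * t = 1 := by rw [← sq, ← ht, pow_orderOf_eq_one]
  have ht1 : t ≠ 1 := by intro h; rw [h, orderOf_one] at ht; omega
  have htinv : t⁻¹ = t := inv_eq_of_mul_eq_one_left htt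
  have hPE : ∀ Q : Sylow 2 E, ∀ x ∈ (Q : Subgroup E), ∀ y ∈ (Q : Subgroup E), x * y = y * x := by
    intro Q x hx y hy
    obtain ⟨R, hR⟩ := (Q.isPGroup'.map E.subtype).exists_le_sylow
    apply Subtype.ext
    exact hab R _ (hR ⟨x, hx, rfl⟩) _ (hR ⟨y, hy, rfl⟩)
  have hEall := fun P : Sylow 2 E => sylow_klein N hFo hF3 e hNc P hPE
  have hmemC : ∀ g, g ∈ Subgroup.centralizer ({t} : Set G) ↔ g * t = t * g := fun g =>
    Subgroup.mem_centralizer_singleton_iff
  have htE : t ∉ E := by
    intro h
    have : t ∈ Subgroup.zpowers t ⊓ E := Subgroup.mem_inf.mpr ⟨Subgroup.mem_zpowers t, h⟩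
    rw [hinf, Subgroup.mem_bot] at this
    exact ht1 this
  have hclosed : ∀ g ∈ Subgroup.centralizer ({t} : Set G), g ∈ E ∨ t * g ∈ E := by
    intro g hg
    rw [← hsup, ← Subgroup.closure_eq E, Subgroup.zpowers_eq_closure, ← Subgroup.closure_union] at hg
    have hte : ∀ x ∈ E, t * x = x * t := fun x hx => hcomm t (Subgroup.mem_zpowers t) x hx
    have h0 : (g ∈ E ∨ t * g ∈ E) ∧ t * g = g * t := by
      induction hg using Subgroup.closure_induction with
      | mem x hx =>
        rcases hx with hx | hx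
        · rw [Set.mem_singleton_iff] at hx
          rw [hx]
          exact ⟨Or.inr (by rw [htt]; exact one_mem _), rfl⟩
        · exact ⟨Or.inl hx, hte x hx⟩
      | one => exact ⟨Or.inl (one_mem _), by rw [mul_one, one_mul]⟩
      | mul x y _ _ hx hy =>
        obtain ⟨hx, hx'⟩ := hx
        obtain ⟨hy, hy'⟩ := hy
        refine ⟨?_, by rw [← mul_assoc, hx', mul_assoc, hy', mul_assoc]⟩
        rcases hx with hx | hx
        · rcases hy with hy | hy
          · exact Or.inl (mul_mem hx hy)
          · right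
            have : t * (x * y) = x * (t * y) := by rw [← mul_assoc, hx', mul_assoc]
            rw [this]; exact mul_mem hx hy
        · rcases hy with hy | hy
          · right; rw [← mul_assoc]; exact mul_mem hx hy
          · left
            have : x * y = (t * x) * (t * y) := by
              rw [hx', mul_assoc, ← mul_assoc t t y, htt, one_mul]
            rw [this]; exact mul_mem hx hy
      | inv x _ hx =>
        obtain ⟨hx, hx'⟩ := hx
        have hc : Commute t x := hx'
        refine ⟨?_, hc.inv_right.eq⟩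
        rcases hx with hx | hx
        · exact Or.inl (inv_mem hx)
        · right
          have : t * x⁻¹ = (t * x)⁻¹ := by rw [mul_inv_rev, htinv]; exact hc.inv_right.eq
          rw [this]; exact inv_mem hx
    exact h0.1
  have hrel : E.relIndex (Subgroup.centralizer ({t} : Set G)) = 2 := by
    change (E.subgroupOf (Subgroup.centralizer ({t} : Set G))).index = 2
    rw [Subgroup.index_eq_two_iff]
    refine ⟨⟨t, (hmemC t).mpr rfl⟩, ?_⟩
    intro b
    have hb := (hmemC b).mp b.2
    rw [Subgroup.mem_subgroupOf, Subgroup.mem_subgroupOf, Subgroup.coe_mul]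
    rcases hclosed b b.2 with h | h
    · right
      refine ⟨h, ?_⟩
      intro h'
      apply htE
      have := mul_mem (inv_mem h) h'
      rwa [inv_mul_cancel_left] at this
    · left
      rw [hb]
      refine ⟨h, ?_⟩
      intro h'
      apply htE
      have := mul_mem h (inv_mem h')
      rwa [mul_inv_cancel_right] at this
  have hCcard : Nat.card (Subgroup.centralizer ({t} : Set G)) = Nat.card E * 2 := by
    rw [← hrel, ← Subgroup.relIndex_bot_left, ← Subgroup.relIndex_bot_left,
      Subgroup.relIndex_mul_relIndex _ _ _ bot_le hEC]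
  -- a Sylow subgroup containing t
  have hpt : IsPGroup 2 (Subgroup.zpowers t) := by
    apply IsPGroup.of_card (n := 1)
    rw [Nat.card_zpowers, ht, pow_one]
  obtain ⟨S0, hS0⟩ := hpt.exists_le_sylow
  have htS : t ∈ (S0 : Subgroup G) := hS0 (Subgroup.mem_zpowers t)
  have hS0C : (S0 : Subgroup G) ≤ Subgroup.centralizer ({t} : Set G) := by
    intro x hx
    rw [hmemC]; exact hab S0 x hx t htS
  have hsq0 : ∀ x ∈ (S0 : Subgroup G), x * x = 1 := by
    have key : ∀ x ∈ (S0 : Subgroup G), x ∈ E → x * x = 1 := by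
      intro x hx hxE
      have hp : IsPGroup 2 (Subgroup.zpowers (⟨x, hxE⟩ : E)) := by
        rw [IsPGroup.iff_card]
        rw [Nat.card_zpowers, ← Subgroup.orderOf_coe]
        obtain ⟨j, hj⟩ := (IsPGroup.iff_orderOf.mp S0.isPGroup') ⟨x, hx⟩
        rw [← Subgroup.orderOf_coe] at hj
        exact ⟨j, hj⟩
      obtain ⟨P, hP⟩ := hp.exists_le_sylow
      have := (hEall P).2 _ (hP (Subgroup.mem_zpowers _))
      exact congrArg Subtype.val this
    intro x hx
    rcases hclosed x (hS0C hx) with h | h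
    · exact key x hx h
    · have h1 := key (t * x) (mul_mem htS hx) h
      have h2 := hab S0 x hx t htS
      calc x * x = (t * t) * (x * x) := by rw [htt, one_mul]
        _ = t * (t * x) * x := by group
        _ = t * (x * t) * x := by rw [h2]
        _ = t * x * (t * x) := by group
        _ = 1 := h1
  have hcard0 : Nat.card (S0 : Subgroup G) = 8 := by
    let P0 : Sylow 2 E := default
    have h1 : Nat.card E = 4 * (P0 : Subgroup E).index := by
      rw [← (hEall P0).1, Subgroup.card_mul_index]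
    have h2 : ¬ 2 ∣ (P0 : Subgroup E).index := P0.not_dvd_index
    have h3 : Nat.card (Subgroup.centralizer ({t} : Set G)) =
        Nat.card (S0 : Subgroup G) * (S0 : Subgroup G).relIndex (Subgroup.centralizer ({t} : Set G)) := by
      rw [← Subgroup.relIndex_bot_left, ← Subgroup.relIndex_bot_left,
        Subgroup.relIndex_mul_relIndex _ _ _ bot_le hS0C]
    have h4 : ¬ 2 ∣ (S0 : Subgroup G).relIndex (Subgroup.centralizer ({t} : Set G)) := by
      intro h
      exact S0.not_dvd_index (dvd_trans h (Subgroup.relIndex_dvd_index_of_le hS0C))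
    obtain ⟨k, hk⟩ := IsPGroup.iff_card.mp S0.isPGroup'
    rw [hCcard, h1, hk] at h3
    rw [hk]
    apply Nat.dvd_antisymm
    · have hc : Nat.Coprime (2 ^ k) (P0 : Subgroup E).index :=
        Nat.Coprime.pow_left k ((Nat.Prime.coprime_iff_not_dvd Nat.prime_two).mpr h2)
      apply hc.dvd_of_dvd_mul_right
      have : 8 * (P0 : Subgroup E).index = 2 ^ k * (S0 : Subgroup G).relIndex (Subgroup.centralizer ({t} : Set G)) := by
        rw [← h3]; ring
      rw [this]; exact dvd_mul_right _ _
    · have hc : Nat.Coprime 8 ((S0 : Subgroup G).relIndex (Subgroup.centralizer ({t} : Set G))) := by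
        have : (8 : ℕ) = 2 ^ 3 := by norm_num
        rw [this]
        exact Nat.Coprime.pow_left 3 ((Nat.Prime.coprime_iff_not_dvd Nat.prime_two).mpr h4)
      apply hc.dvd_of_dvd_mul_right
      rw [← h3]
      exact ⟨(P0 : Subgroup E).index, by ring⟩
  obtain ⟨g, hg⟩ := MulAction.exists_smul_eq G S0 S
  constructor
  · rw [← hcard0]
    exact (Sylow.card_eq_multiplicity S).trans (Sylow.card_eq_multiplicity S0).symm
  · intro x hx
    rw [← hg] at hx
    have h3 : g⁻¹ * x * g ∈ (S0 : Subgroup G) := by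
      rw [Sylow.coe_subgroup_smul, Subgroup.mem_pointwise_smul_iff_inv_smul_mem] at hx
      have h4 : (MulAut.conj g)⁻¹ • x = g⁻¹ * x * g := by
        rw [← map_inv, MulAut.smul_def, MulAut.conj_apply, inv_inv]
      rwa [h4] at hx
    have h4 := hsq0 _ h3
    calc x * x = g * (g⁻¹ * x * g * (g⁻¹ * x * g)) * g⁻¹ := by group
      _ = 1 := by rw [h4]; group

/-- Let G be a non-abelian finite simple group with abelian Sylow 2-subgroups, and let t be an involution of G whose centralizer is a maximal subgroup of G and is the direct product of the subgroup generated by t with a subgroup E having a normal subgroup isomorphic to PSL(2, q), q odd and greater than 3, with trivial centralizer in E. Then every finite perfect group having a central 2-subgroup with quotient isomorphic to G has that central subgroup trivial (G has no nontrivial perfect central extension by a 2-group), and every automorphism of G of 2-power order that fixes every element of some Sylow 2-subgroup of G is inner. -/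
theorem result {G : Type*} [Group G] [Finite G] [IsSimpleGroup G]
    (hG : ¬ IsMulCommutative G) (hab : ∀ S : Sylow 2 G, IsMulCommutative ↥(S : Subgroup G))
    (t : G) (ht : orderOf t = 2) (hmax : IsCoatom (Subgroup.centralizer ({t} : Set G)))
    (E : Subgroup G) (hE : Cfsg.IsInternalDirectProduct (Subgroup.zpowers t) E (Subgroup.centralizer ({t} : Set G)))
    {F : Type*} [Field F] [Fintype F] (hFo : Odd (Fintype.card F)) (hF3 : 3 < Fintype.card F)
    (N : Subgroup ↥E) [N.Normal] (hN : Nonempty (↥N ≃* Matrix.ProjectiveSpecialLinearGroup (Fin 2) F))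
    (hNc : Subgroup.centralizer (N : Set ↥E) = ⊥) :
    (∀ (L : Type) (_ : Group L) (_ : Finite L) (Z : Subgroup L) (_ : Z.Normal), commutator L = ⊤ → Z ≤ Subgroup.center L →
        IsPGroup 2 ↥Z → Nonempty (L ⧸ Z ≃* G) → Z = ⊥) ∧
    (∀ (φ : G ≃* G) (k : ℕ), φ ^ (2 ^ k) = 1 → (∃ S : Sylow 2 G, ∀ s ∈ (S : Subgroup G), φ s = s) →
        ∃ g : G, ∀ x : G, φ x = g * x * g⁻¹) := by
  classical
  haveI : Fact (Nat.Prime 2) := ⟨Nat.prime_two⟩
  have habc : ∀ S : Sylow 2 G, ∀ x ∈ (S : Subgroup G), ∀ y ∈ (S : Subgroup G), x * y = y * x := by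
    intro S x hx y hy
    have := isMulCommutative_iff.mp (hab S) ⟨x, hx⟩ ⟨y, hy⟩
    exact congrArg Subtype.val this
  have h2G : 2 ∣ Nat.card G := by rw [← ht]; exact orderOf_dvd_natCard t
  have hperf : commutator G = ⊤ := by
    rcases (inferInstance : (commutator G).Normal).eq_bot_or_eq_top with h | h
    · exfalso
      apply hG
      rw [isMulCommutative_iff]
      intro a b
      have h1 : a * b * a⁻¹ * b⁻¹ ∈ commutator G := Subgroup.commutator_mem_commutator (Subgroup.mem_top a) (Subgroup.mem_top b)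
      rw [h, Subgroup.mem_bot, mul_inv_eq_one, mul_inv_eq_iff_eq_mul] at h1
      exact h1
    · exact h
  refine ⟨?_, ?_⟩
  · intro L _ _ Z hZn hL hZc hZp ⟨e⟩
    let π : L →* G := e.toMonoidHom.comp (QuotientGroup.mk' Z)
    have hπ : Function.Surjective π := e.surjective.comp (QuotientGroup.mk'_surjective Z)
    have hker : π.ker = Z := by
      ext x
      rw [MonoidHom.mem_ker]
      change e (QuotientGroup.mk' Z x) = 1 ↔ _
      rw [map_eq_one_iff e e.injective]
      exact QuotientGroup.eq_one_iff x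
    obtain ⟨T, hZT⟩ := hZp.exists_le_sylow
    obtain ⟨S, hS⟩ : ∃ S : Sylow 2 G, (S : Subgroup G) = (T : Subgroup L).map π := ⟨T.mapSurjective hπ, rfl⟩
    obtain ⟨hS8, hSsq⟩ := sylow_eight habc t ht E hE hFo hF3 N hN hNc S
    have hTS : ∀ x : L, x ∈ (T : Subgroup L) ↔ π x ∈ (S : Subgroup G) := by
      intro x
      rw [hS]
      constructor
      · intro hx; exact ⟨x, hx, rfl⟩
      · rintro ⟨y, hy, hyx⟩
        have h1 : y⁻¹ * x ∈ Z := by
          rw [← hker, MonoidHom.mem_ker, map_mul, map_inv, hyx, inv_mul_cancel]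
        have h2 : x = y * (y⁻¹ * x) := by group
        rw [h2]; exact mul_mem hy (hZT h1)
    have hTab : ∀ x ∈ (T : Subgroup L), ∀ y ∈ (T : Subgroup L), x * y = y * x := by
      by_contra hcon
      push Not at hcon
      obtain ⟨a, ha, b, hb, hab'⟩ := hcon
      obtain ⟨r, hr, hrZ, hrn⟩ := H20.exists_fixed_vector (T : Subgroup L) Z hZT
        (fun z hz g => (Subgroup.mem_center_iff.mp (hZc hz) g).symm)
        (fun a ha => by
          rw [← hker, MonoidHom.mem_ker, map_mul]
          exact hSsq _ ((hTS a).mp ha))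
        (by rw [← hker, Subgroup.relIndex_ker, ← hS, hS8]) ha hb hab'
      apply hrZ
      rw [← hker, MonoidHom.mem_ker]
      apply perfect_bot S (habc S) hperf ((hTS r).mp hr)
      intro m hm
      obtain ⟨n, rfl⟩ := hπ m
      have hm' : π n ∈ Subgroup.normalizer ((S : Subgroup G) : Set G) := hm
      have hn : n ∈ Subgroup.normalizer ((T : Subgroup L) : Set L) := by
        rw [Subgroup.mem_normalizer_iff]
        intro x
        rw [hTS, hTS, map_mul, map_mul, map_inv]
        exact Subgroup.mem_normalizer_iff.mp hm' (π x)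
      have h1 := hrn n hn
      rw [← hker, MonoidHom.mem_ker, map_mul, map_mul, map_mul, map_inv, map_inv, mul_inv_eq_one,
        mul_inv_eq_iff_eq_mul] at h1
      exact h1
    rw [Subgroup.eq_bot_iff_forall]
    intro z hz
    apply perfect_bot T hTab hL (hZT hz)
    intro n _
    exact Subgroup.mem_center_iff.mp (hZc hz) n
  · intro φ k hφ ⟨S, hS⟩
    exact aut_inner hG h2G S (habc S) φ k hφ hS


end Cfsg.Agent.S3206
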