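import Cfsg.Statements.S3208
import Cfsg.Agent.H20.Basic

set_option autoImplicit false
open Cfsg

namespace Cfsg.Agent.S3208

/-- Let j be an involution of a finite group G, H a subgroup of G, and T a Sylow 2-subgroup of H ∩ C_G(j) containing j such that ⟨j⟩ is a characteristic subgroup of T. Then T is a Sylow 2-subgroup of H. -/
theorem result {G : Type*} [Group G] [Finite G]
    (j : G) (hj : orderOf j = 2) (H T : Subgroup G) (hT : T ≤ H ⊓ Subgroup.centralizer ({j} : Set G)) (h2 : IsPGroup 2 ↥T)
    (hSyl : ¬ 2 ∣ T.relIndex (H ⊓ Subgroup.centralizer ({j} : Set G))) (hjT : j ∈ T)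
    (hchar : ((Subgroup.zpowers j).subgroupOf T).Characteristic) :
    ¬ 2 ∣ T.relIndex H := by
  intro hdvd
  have : Fact (Nat.Prime 2) := ⟨Nat.prime_two⟩
  have hTH : T ≤ H := hT.trans inf_le_left
  have h1 := H20.dvd_relIndex_inf_normalizer h2 hTH hdvd
  have hle : H ⊓ Subgroup.normalizer (T : Set G) ≤ H ⊓ Subgroup.centralizer ({j} : Set G) := by
    refine le_inf inf_le_left ?_
    intro g hg
    have hx : j ∈ ((Subgroup.zpowers j).subgroupOf T).map T.subtype := by
      refine ⟨⟨j, hjT⟩, ?_, rfl⟩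
      rw [SetLike.mem_coe, Subgroup.mem_subgroupOf]
      exact Subgroup.mem_zpowers j
    have hy := H20.conj_mem_map_of_char hchar hg.2 hx
    rw [Subgroup.subgroupOf_map_subtype] at hy
    have := H20.conj_eq_of_mem_zpowers hj hy.1
    rw [Subgroup.mem_centralizer_iff]
    intro y hy
    rw [Set.mem_singleton_iff] at hy
    rw [hy, this]
  apply hSyl
  refine h1.trans ?_
  rw [← Subgroup.relIndex_mul_relIndex T (H ⊓ Subgroup.normalizer (T : Set G)) _
    (le_inf hTH Subgroup.le_normalizer) hle]
  exact dvd_mul_right _ _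

end Cfsg.Agent.S3208
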