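import Cfsg.Statements.S3209
import Cfsg.Agent.H4.SL2Four

set_option autoImplicit false
open Cfsg

namespace Cfsg.Agent.S3209

open Cfsg.Agent.H4

section aux

variable {G : Type*} [Group G]

theorem mem_sup_comm (L₁ L₂ : Subgroup G) (hc : ∀ x ∈ L₁, ∀ y ∈ L₂, x * y = y * x) (y : G)
    (hy : y ∈ L₁ ⊔ L₂) : ∃ a ∈ L₁, ∃ b ∈ L₂, y = a * b := by
  rw [Subgroup.sup_eq_closure] at hy
  induction hy using Subgroup.closure_induction with
  | mem x hx =>
    rcases hx with hx | hx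
    · exact ⟨x, hx, 1, one_mem _, by simp⟩
    · exact ⟨1, one_mem _, x, hx, by simp⟩
  | one => exact ⟨1, one_mem _, 1, one_mem _, by simp⟩
  | mul x y _ _ hx hy =>
    obtain ⟨a, ha, b, hb, rfl⟩ := hx
    obtain ⟨c, hc', d, hd, rfl⟩ := hy
    refine ⟨a * c, mul_mem ha hc', b * d, mul_mem hb hd, ?_⟩
    have := hc c hc' b hb
    calc a * b * (c * d) = a * (b * c) * d := by group
      _ = a * (c * b) * d := by rw [this]
      _ = _ := by group
  | inv x _ hx =>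
    obtain ⟨a, ha, b, hb, rfl⟩ := hx
    refine ⟨a⁻¹, inv_mem ha, b⁻¹, inv_mem hb, ?_⟩
    rw [mul_inv_rev]
    exact (hc _ (inv_mem ha) _ (inv_mem hb)).symm

variable {F : Type*} [Field F]

/-- facts about one factor -/
theorem factor [Fintype F] (hF : Odd (Fintype.card F)) (L : Subgroup G)
    (e : ↥L ≃* Matrix.SpecialLinearGroup (Fin 2) F) (j : G) (hjL : j ∈ L) (hj : orderOf j = 2) :
    (∀ a ∈ L, a * a = 1 → a = 1 ∨ a = j) ∧ (∃ i ∈ L, i * i = j) ∧
    (∀ a ∈ L, ∀ b ∈ L, a * a = j → b * b = j → ∃ g ∈ L, g * b * g⁻¹ = a) := by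
  have h2 := two_ne_zero_of_odd hF
  have hjj : j * j = 1 := by rw [← pow_two, ← hj, pow_orderOf_eq_one]
  have hj1 : j ≠ 1 := by rintro rfl; simp at hj
  have hej : e ⟨j, hjL⟩ = -1 := by
    have h1 : e ⟨j, hjL⟩ * e ⟨j, hjL⟩ = 1 := by
      rw [← map_mul, ← map_one e]
      congr 1
      exact Subtype.ext hjj
    rcases sl2_sq_one h2 h1 with h | h
    · exfalso
      apply hj1
      have : (⟨j, hjL⟩ : L) = 1 := e.injective (by rw [h, map_one])
      exact congrArg Subtype.val this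
    · exact h
  refine ⟨?_, ?_, ?_⟩
  · intro a ha haa
    have h1 : e ⟨a, ha⟩ * e ⟨a, ha⟩ = 1 := by
      rw [← map_mul, ← map_one e]
      congr 1
      exact Subtype.ext haa
    rcases sl2_sq_one h2 h1 with h | h
    · left
      have : (⟨a, ha⟩ : L) = 1 := e.injective (by rw [h, map_one])
      exact congrArg Subtype.val this
    · right
      have : (⟨a, ha⟩ : L) = ⟨j, hjL⟩ := e.injective (by rw [h, hej])
      exact congrArg Subtype.val this
  · obtain ⟨A, hA⟩ := sl2_exists_four (F := F)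
    refine ⟨(e.symm A : L), (e.symm A).2, ?_⟩
    have : e.symm A * e.symm A = ⟨j, hjL⟩ := e.injective (by rw [map_mul, e.apply_symm_apply, hA, hej])
    exact congrArg Subtype.val this
  · intro a ha b hb haj hbj
    have key : ∀ c (hc : c ∈ L), c * c = j → e ⟨c, hc⟩ * e ⟨c, hc⟩ = -1 := by
      intro c hc hcj
      rw [← map_mul, ← hej]
      congr 1
      exact Subtype.ext hcj
    obtain ⟨P, hP⟩ := sl2_four_conj hF (key a ha haj) (key b hb hbj)
    refine ⟨(e.symm P : L), (e.symm P).2, ?_⟩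
    have : e.symm P * ⟨b, hb⟩ * (e.symm P)⁻¹ = ⟨a, ha⟩ := e.injective (by
      rw [map_mul, map_mul, map_inv, e.apply_symm_apply, hP])
    exact congrArg Subtype.val this

end aux

/-- Let L₁ ≅ SL₂(q₁) and L₂ ≅ SL₂(q₂), q₁ and q₂ odd, be elementwise-commuting subgroups of a finite group meeting in ⟨j⟩ for an involution j. Then L₁L₂ has exactly two conjugacy classes of involutions: the central involution j, and one further class (there is an involution x ≠ j in L₁L₂, and every involution of L₁L₂ other than j is conjugate to x by an element of L₁L₂). -/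
theorem result {G : Type*} [Group G] [Finite G]
    {F₁ : Type*} [Field F₁] [Fintype F₁] {F₂ : Type*} [Field F₂] [Fintype F₂]
    (hF₁ : Odd (Fintype.card F₁)) (hF₂ : Odd (Fintype.card F₂)) (L₁ L₂ : Subgroup G)
    (e₁ : ↥L₁ ≃* Matrix.SpecialLinearGroup (Fin 2) F₁) (e₂ : ↥L₂ ≃* Matrix.SpecialLinearGroup (Fin 2) F₂)
    (hc : ∀ x ∈ L₁, ∀ y ∈ L₂, x * y = y * x) (j : G) (hj : orderOf j = 2) (hm : L₁ ⊓ L₂ = Subgroup.zpowers j) :
    ∃ x ∈ L₁ ⊔ L₂, orderOf x = 2 ∧ x ≠ j ∧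
      ∀ y ∈ L₁ ⊔ L₂, orderOf y = 2 → y = j ∨ ∃ g ∈ L₁ ⊔ L₂, g * x * g⁻¹ = y := by
  have hj1' : j ∈ L₁ ⊓ L₂ := by rw [hm]; exact Subgroup.mem_zpowers j
  obtain ⟨hjL₁, hjL₂⟩ := hj1'
  have hjj : j * j = 1 := by rw [← pow_two, ← hj, pow_orderOf_eq_one]
  have hj1 : j ≠ 1 := by rintro rfl; simp at hj
  have hmem : ∀ c, c ∈ L₁ → c ∈ L₂ → c = 1 ∨ c = j := by
    intro c h1 h2
    have : c ∈ Subgroup.zpowers j := by rw [← hm]; exact ⟨h1, h2⟩
    obtain ⟨n, rfl⟩ := Subgroup.mem_zpowers_iff.mp this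
    rcases Int.even_or_odd' n with ⟨k, rfl | rfl⟩
    · left
      rw [zpow_mul, zpow_two, hjj, one_zpow]
    · right
      rw [zpow_add, zpow_mul, zpow_two, hjj, one_zpow, one_mul, zpow_one]
  obtain ⟨s1, ⟨i₁, hi₁, hi₁j⟩, c1⟩ := factor hF₁ L₁ e₁ j hjL₁ hj
  obtain ⟨s2, ⟨i₂, hi₂, hi₂j⟩, c2⟩ := factor hF₂ L₂ e₂ j hjL₂ hj
  have hcc := hc i₁ hi₁ i₂ hi₂
  have hl1 : L₁ ≤ L₁ ⊔ L₂ := le_sup_left
  have hl2 : L₂ ≤ L₁ ⊔ L₂ := le_sup_right
  have hni : i₁ ∉ L₂ := by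
    intro h
    rcases hmem i₁ hi₁ h with h | h
    · rw [h, one_mul] at hi₁j; exact hj1 hi₁j.symm
    · rw [h, hjj] at hi₁j; exact hj1 hi₁j.symm
  have hxx : i₁ * i₂ * (i₁ * i₂) = 1 := by
    calc i₁ * i₂ * (i₁ * i₂) = i₁ * (i₂ * i₁) * i₂ := by group
      _ = i₁ * (i₁ * i₂) * i₂ := by rw [hcc]
      _ = (i₁ * i₁) * (i₂ * i₂) := by group
      _ = 1 := by rw [hi₁j, hi₂j, hjj]
  refine ⟨i₁ * i₂, mul_mem (hl1 hi₁) (hl2 hi₂), ?_, ?_, ?_⟩
  · refine orderOf_eq_prime (by rw [pow_two, hxx]) ?_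
    intro h
    apply hni
    rw [eq_inv_of_mul_eq_one_left h]
    exact inv_mem hi₂
  · intro h
    apply hni
    have : i₁ = j * i₂⁻¹ := by rw [← h]; group
    rw [this]
    exact mul_mem hjL₂ (inv_mem hi₂)
  · intro y hy hyo
    obtain ⟨a, ha, b, hb, rfl⟩ := mem_sup_comm L₁ L₂ hc y hy
    have hab := hc a ha b hb
    have hyy : a * a * (b * b) = 1 := by
      have : (a * b) * (a * b) = 1 := by rw [← pow_two, ← hyo, pow_orderOf_eq_one]
      calc a * a * (b * b) = a * (a * b) * b := by group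
        _ = a * (b * a) * b := by rw [hab]
        _ = (a * b) * (a * b) := by group
        _ = 1 := this
    have hy1 : a * b ≠ 1 := by intro h; rw [h] at hyo; simp at hyo
    have haa2 : a * a ∈ L₂ := by
      rw [eq_inv_of_mul_eq_one_left hyy]
      exact inv_mem (mul_mem hb hb)
    rcases hmem _ (mul_mem ha ha) haa2 with h | h
    · left
      rw [h, one_mul] at hyy
      rcases s1 a ha h with rfl | rfl <;> rcases s2 b hb hyy with rfl | rfl
      · exact absurd (one_mul 1) hy1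
      · exact one_mul _
      · exact mul_one _
      · exact absurd hjj hy1
    · right
      rw [h] at hyy
      have hbb : b * b = j := by
        rw [eq_inv_of_mul_eq_one_right hyy]
        exact inv_eq_of_mul_eq_one_left hjj
      obtain ⟨g, hg, hga⟩ := c1 a ha i₁ hi₁ h hi₁j
      obtain ⟨g', hg', hga'⟩ := c2 b hb i₂ hi₂ hbb hi₂j
      refine ⟨g * g', mul_mem (hl1 hg) (hl2 hg'), ?_⟩
      have k1 := hc i₁ hi₁ g' hg'
      have k2 := hc g hg g' hg'
      have k3 := hc g⁻¹ (inv_mem hg) (g' * i₂ * g'⁻¹) (mul_mem (mul_mem hg' hi₂) (inv_mem hg'))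
      have k4 := hc g⁻¹ (inv_mem hg) g'⁻¹ (inv_mem hg')
      calc g * g' * (i₁ * i₂) * (g * g')⁻¹ = g * (g' * i₁) * i₂ * (g'⁻¹ * g⁻¹) := by group
        _ = g * (i₁ * g') * i₂ * (g'⁻¹ * g⁻¹) := by rw [k1]
        _ = g * i₁ * ((g' * i₂ * g'⁻¹) * g⁻¹) := by group
        _ = g * i₁ * (g⁻¹ * (g' * i₂ * g'⁻¹)) := by rw [k3]
        _ = (g * i₁ * g⁻¹) * (g' * i₂ * g'⁻¹) := by group
        _ = a * b := by rw [hga, hga']

end Cfsg.Agent.S3209
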