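import Cfsg.Statements.S3210
import Cfsg.Agent.S3209
import Cfsg.Agent.H4.SL2Four
import Cfsg.Agent.H5.Small

set_option autoImplicit false
open Cfsg


namespace Cfsg.Agent.S3210


open Cfsg.Agent.H4 Cfsg.Agent.S3209

section mat

variable {F : Type*} [Field F]

local notation "SL₂" => Matrix.SpecialLinearGroup (Fin 2) F

/-- the shape of elements commuting up to sign with an upper triangular unipotent element -/
theorem up_shape (h2 : (2 : F) ≠ 0) {a g : SL₂} (h10 : a 1 0 = 0) (h00 : a 0 0 = a 1 1) (h01 : a 0 1 ≠ 0)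
    (h : a * g = g * a ∨ a * g = -(g * a)) : g 1 0 = 0 ∧ g 0 0 = g 1 1 := by
  have hda := a.2
  have hdg := g.2
  rw [Matrix.det_fin_two] at hda hdg
  have hx : a 1 1 ≠ 0 := by
    intro h0
    rw [h0, h10] at hda
    simp at hda
  rcases h with h | h
  · have e := congrArg (fun m : SL₂ => (m : Matrix (Fin 2) (Fin 2) F)) h
    have e00 := congrFun (congrFun e 0) 0
    have e01 := congrFun (congrFun e 0) 1
    simp only [Matrix.SpecialLinearGroup.coe_mul, Matrix.mul_apply, Fin.sum_univ_two] at e00 e01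
    rw [h00, h10] at e00
    rw [h00] at e01
    have h3 : a 0 1 * g 1 0 = 0 := by linear_combination e00
    have h4 : g 1 0 = 0 := (mul_eq_zero.mp h3).resolve_left h01
    refine ⟨h4, ?_⟩
    apply mul_left_cancel₀ h01
    linear_combination -e01
  · have e := congrArg (fun m : SL₂ => (m : Matrix (Fin 2) (Fin 2) F)) h
    have e10 := congrFun (congrFun e 1) 0
    have e11 := congrFun (congrFun e 1) 1
    simp only [Matrix.SpecialLinearGroup.coe_neg, Matrix.SpecialLinearGroup.coe_mul, Matrix.neg_apply,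
      Matrix.mul_apply, Fin.sum_univ_two] at e10 e11
    rw [h00, h10] at e10
    rw [h10] at e11
    have h3 : (2 * a 1 1) * g 1 0 = 0 := by linear_combination e10
    have h4 : g 1 0 = 0 := (mul_eq_zero.mp h3).resolve_left (mul_ne_zero h2 hx)
    have h5 : (2 * a 1 1) * g 1 1 = 0 := by rw [h4] at e11; linear_combination e11
    have h6 : g 1 1 = 0 := (mul_eq_zero.mp h5).resolve_left (mul_ne_zero h2 hx)
    exfalso
    have hdg' : (g : Matrix (Fin 2) (Fin 2) F) 0 0 * (g : Matrix (Fin 2) (Fin 2) F) 1 1 -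
      (g : Matrix (Fin 2) (Fin 2) F) 0 1 * (g : Matrix (Fin 2) (Fin 2) F) 1 0 = 1 := hdg
    rw [h4, h6] at hdg'
    simp at hdg'

theorem lo_shape (h2 : (2 : F) ≠ 0) {a g : SL₂} (h01 : a 0 1 = 0) (h00 : a 0 0 = a 1 1) (h10 : a 1 0 ≠ 0)
    (h : a * g = g * a ∨ a * g = -(g * a)) : g 0 1 = 0 ∧ g 0 0 = g 1 1 := by
  have hda := a.2
  have hdg := g.2
  rw [Matrix.det_fin_two] at hda hdg
  have hx : a 1 1 ≠ 0 := by
    intro h0
    rw [h0, h01] at hda
    simp at hda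
  rcases h with h | h
  · have e := congrArg (fun m : SL₂ => (m : Matrix (Fin 2) (Fin 2) F)) h
    have e11 := congrFun (congrFun e 1) 1
    have e10 := congrFun (congrFun e 1) 0
    simp only [Matrix.SpecialLinearGroup.coe_mul, Matrix.mul_apply, Fin.sum_univ_two] at e11 e10
    rw [h01] at e11
    rw [h00] at e10
    have h3 : a 1 0 * g 0 1 = 0 := by linear_combination e11
    have h4 : g 0 1 = 0 := (mul_eq_zero.mp h3).resolve_left h10
    refine ⟨h4, ?_⟩
    apply mul_left_cancel₀ h10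
    linear_combination e10
  · have e := congrArg (fun m : SL₂ => (m : Matrix (Fin 2) (Fin 2) F)) h
    have e01 := congrFun (congrFun e 0) 1
    have e00 := congrFun (congrFun e 0) 0
    simp only [Matrix.SpecialLinearGroup.coe_neg, Matrix.SpecialLinearGroup.coe_mul, Matrix.neg_apply,
      Matrix.mul_apply, Fin.sum_univ_two] at e01 e00
    rw [h00, h01] at e01
    rw [h00, h01] at e00
    have h3 : (2 * a 1 1) * g 0 1 = 0 := by linear_combination e01
    have h4 : g 0 1 = 0 := (mul_eq_zero.mp h3).resolve_left (mul_ne_zero h2 hx)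
    have h5 : (2 * a 1 1) * g 0 0 = 0 := by rw [h4] at e00; linear_combination e00
    have h6 : g 0 0 = 0 := (mul_eq_zero.mp h5).resolve_left (mul_ne_zero h2 hx)
    exfalso
    have hdg' : (g : Matrix (Fin 2) (Fin 2) F) 0 0 * (g : Matrix (Fin 2) (Fin 2) F) 1 1 -
      (g : Matrix (Fin 2) (Fin 2) F) 0 1 * (g : Matrix (Fin 2) (Fin 2) F) 1 0 = 1 := hdg
    rw [h4, h6] at hdg'
    simp at hdg'

theorem scalar_of {g : SL₂} (h10 : g 1 0 = 0) (h01 : g 0 1 = 0) (h00 : g 0 0 = g 1 1) :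
    g = 1 ∨ g = -1 := by
  have hdg : (g : Matrix (Fin 2) (Fin 2) F) 0 0 * (g : Matrix (Fin 2) (Fin 2) F) 1 1 -
      (g : Matrix (Fin 2) (Fin 2) F) 0 1 * (g : Matrix (Fin 2) (Fin 2) F) 1 0 = 1 := by
    have := g.2
    rwa [Matrix.det_fin_two] at this
  rw [h00, h01, h10] at hdg
  have h1 : (g 1 1 - 1) * (g 1 1 + 1) = 0 := by linear_combination hdg
  rcases mul_eq_zero.mp h1 with h | h
  · left
    have h3 : g 1 1 = 1 := by linear_combination h
    ext i j
    fin_cases i <;> fin_cases j <;> simp [h00, h01, h10, h3]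
  · right
    have h3 : g 1 1 = -1 := by linear_combination h
    ext i j
    fin_cases i <;> fin_cases j <;> simp [h00, h01, h10, h3]

theorem indec_aux (h2 : (2 : F) ≠ 0) (A B : Subgroup SL₂) (hAB : ∀ x, ∃ a ∈ A, ∃ b ∈ B, x = a * b)
    (hc : ∀ a ∈ A, ∀ b ∈ B, a * b = b * a ∨ a * b = -(b * a))
    {a₀ : SL₂} (ha₀ : a₀ ∈ A) (h10 : a₀ 1 0 = 0) (h00 : a₀ 0 0 = a₀ 1 1) (h01 : a₀ 0 1 ≠ 0) :
    ∀ b ∈ B, b = 1 ∨ b = -1 := by
  have hup : ∀ b ∈ B, b 1 0 = 0 ∧ b 0 0 = b 1 1 := fun b hb => up_shape h2 h10 h00 h01 (hc a₀ ha₀ b hb)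
  let v : SL₂ := ⟨!![1, 0; 1, 1], by simp [Matrix.det_fin_two]⟩
  obtain ⟨a, ha, b, hb, hv⟩ := hAB v
  have hb1 := hup b hb
  have hvb : v * b = b * v ∨ v * b = -(b * v) := by
    rcases hc a ha b hb with h | h
    · left
      rw [hv]
      calc a * b * b = b * a * b := by rw [h]
        _ = b * (a * b) := mul_assoc _ _ _
    · right
      rw [hv, ← mul_assoc b a b, ← neg_mul, ← h]
  have hb2 := lo_shape h2 (a := v) (by simp [v]) (by simp [v]) (by simp [v]) hvb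
  have hbs := scalar_of hb1.1 hb2.1 hb1.2
  have hal : a 0 1 = 0 ∧ a 0 0 = a 1 1 ∧ a 1 0 ≠ 0 := by
    rcases hbs with h | h
    · rw [h, mul_one] at hv
      rw [← hv]; simp [v]
    · rw [h, mul_neg, mul_one] at hv
      have : a = -v := by rw [hv, neg_neg]
      rw [this, Matrix.SpecialLinearGroup.coe_neg]; simp [v]
  intro b' hb'
  have h3 := lo_shape h2 hal.1 hal.2.1 hal.2.2 (hc a ha b' hb')
  exact scalar_of (hup b' hb').1 h3.1 h3.2

theorem indec (h2 : (2 : F) ≠ 0) (A B : Subgroup SL₂) (hAB : ∀ x, ∃ a ∈ A, ∃ b ∈ B, x = a * b)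
    (hc : ∀ a ∈ A, ∀ b ∈ B, a * b = b * a ∨ a * b = -(b * a)) :
    (∀ a ∈ A, a = 1 ∨ a = -1) ∨ (∀ b ∈ B, b = 1 ∨ b = -1) := by
  let u : SL₂ := ⟨!![1, 1; 0, 1], by simp [Matrix.det_fin_two]⟩
  obtain ⟨a, ha, b, hb, hu⟩ := hAB u
  have hua : u * a = a * u ∨ u * a = -(a * u) := by
    rcases hc a ha b hb with h | h
    · left; rw [hu, mul_assoc, ← h]
    · right
      have : b * a = -(a * b) := by rw [h, neg_neg]
      rw [hu, mul_assoc, this, mul_neg]
  have hub : u * b = b * u ∨ u * b = -(b * u) := by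
    rcases hc a ha b hb with h | h
    · left; rw [hu, ← mul_assoc b, h]
    · right
      rw [hu, ← mul_assoc b a b, ← neg_mul, ← h]
  have hua' := up_shape h2 (a := u) (by simp [u]) (by simp [u]) (by simp [u]) hua
  have hub' := up_shape h2 (a := u) (by simp [u]) (by simp [u]) (by simp [u]) hub
  by_cases h01 : a 0 1 = 0
  · left
    have has := scalar_of hua'.1 h01 hua'.2
    have hb01 : b 0 1 ≠ 0 := by
      rcases has with h | h
      · rw [h, one_mul] at hu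
        rw [← hu]; simp [u]
      · rw [h, neg_mul, one_mul] at hu
        have : b = -u := by rw [hu, neg_neg]
        rw [this, Matrix.SpecialLinearGroup.coe_neg]; simp [u]
    have hc' : ∀ b ∈ B, ∀ a ∈ A, b * a = a * b ∨ b * a = -(a * b) := by
      intro b hb a ha
      rcases hc a ha b hb with h | h
      · left; exact h.symm
      · right; rw [h, neg_neg]
    refine indec_aux h2 B A ?_ hc' hb hub'.1 hub'.2 hb01
    intro x
    obtain ⟨a, ha, b, hb, hx⟩ := hAB x⁻¹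
    exact ⟨b⁻¹, inv_mem hb, a⁻¹, inv_mem ha, by rw [← mul_inv_rev, ← hx, inv_inv]⟩
  · right
    exact indec_aux h2 A B hAB hc ha hua'.1 hua'.2 h01

end mat

section proj

variable {G : Type*} [Group G] {F : Type*} [Field F] [Fintype F]

theorem proj (hF : Odd (Fintype.card F)) (L₁ L₂ : Subgroup G)
    (e : ↥L₁ ≃* Matrix.SpecialLinearGroup (Fin 2) F)
    (hc : ∀ x ∈ L₁, ∀ y ∈ L₂, x * y = y * x) (j : G) (hj : orderOf j = 2)
    (hm : L₁ ⊓ L₂ = Subgroup.zpowers j) (K₁ K₂ : Subgroup G)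
    (hK : K₁ ⊔ K₂ = L₁ ⊔ L₂) (hKc : ∀ x ∈ K₁, ∀ y ∈ K₂, x * y = y * x) :
    K₁ ≤ L₂ ∨ K₂ ≤ L₂ := by
  have h2 := two_ne_zero_of_odd hF
  have hjm : j ∈ L₁ ⊓ L₂ := by rw [hm]; exact Subgroup.mem_zpowers j
  have hjL : j ∈ L₁ := hjm.1
  have hjj : j * j = 1 := by rw [← pow_two, ← hj, pow_orderOf_eq_one]
  have hj1 : j ≠ 1 := by rintro rfl; simp at hj
  have hej : e ⟨j, hjL⟩ = -1 := by
    have h1 : e ⟨j, hjL⟩ * e ⟨j, hjL⟩ = 1 := by
      rw [← map_mul, ← map_one e]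
      congr 1
      exact Subtype.ext hjj
    rcases sl2_sq_one h2 h1 with h | h
    · exfalso
      apply hj1
      have : (⟨j, hjL⟩ : L₁) = 1 := e.injective (by rw [h, map_one])
      exact congrArg Subtype.val this
    · exact h
  have hzp : ∀ x ∈ L₁ ⊓ L₂, x = 1 ∨ x = j := by
    intro x hx
    rw [hm] at hx
    obtain ⟨k, rfl⟩ := hx
    rcases Int.even_or_odd' k with ⟨m, rfl | rfl⟩
    · left
      show j ^ (2 * m) = 1
      rw [zpow_mul, zpow_two, hjj, one_zpow]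
    · right
      show j ^ (2 * m + 1) = j
      rw [zpow_add, zpow_mul, zpow_two, hjj, one_zpow, one_mul, zpow_one]
  let P : Subgroup G → Subgroup (Matrix.SpecialLinearGroup (Fin 2) F) := fun K =>
    { carrier := {X | ∃ b ∈ L₂, (e.symm X : G) * b ∈ K}
      one_mem' := ⟨1, L₂.one_mem, by simp⟩
      mul_mem' := by
        rintro X Y ⟨b, hb, h⟩ ⟨c, hc', h'⟩
        refine ⟨b * c, L₂.mul_mem hb hc', ?_⟩
        have h3 := K.mul_mem h h'
        have h4 : (e.symm X : G) * b * ((e.symm Y : G) * c) = (e.symm (X * Y) : G) * (b * c) := by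
          rw [map_mul, Subgroup.coe_mul]
          have := hc (e.symm Y) (e.symm Y).2 b hb
          calc _ = (e.symm X : G) * (b * (e.symm Y : G)) * c := by group
            _ = _ := by rw [← this]; group
        rwa [h4] at h3
      inv_mem' := by
        rintro X ⟨b, hb, h⟩
        refine ⟨b⁻¹, L₂.inv_mem hb, ?_⟩
        have h3 := K.inv_mem h
        have h4 : ((e.symm X : G) * b)⁻¹ = (e.symm X⁻¹ : G) * b⁻¹ := by
          rw [map_inv, Subgroup.coe_inv, hc (e.symm X) (e.symm X).2 b hb]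
          group
        rwa [h4] at h3 }
  have hKM : K₁ ≤ L₁ ⊔ L₂ := hK ▸ le_sup_left
  have hKM' : K₂ ≤ L₁ ⊔ L₂ := hK ▸ le_sup_right
  have key : ∀ K : Subgroup G, K ≤ L₁ ⊔ L₂ → (∀ X ∈ P K, X = 1 ∨ X = -1) → K ≤ L₂ := by
    intro K hKle h x hx
    obtain ⟨a, ha, b, hb, rfl⟩ := mem_sup_comm L₁ L₂ hc x (hKle hx)
    have h3 : e ⟨a, ha⟩ ∈ P K := ⟨b, hb, by rw [e.symm_apply_apply]; exact hx⟩
    apply L₂.mul_mem _ hb
    rcases h _ h3 with h4 | h4
    · have : (⟨a, ha⟩ : L₁) = 1 := e.injective (by rw [h4, map_one])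
      have h5 : a = 1 := congrArg Subtype.val this
      rw [h5]; exact L₂.one_mem
    · have : (⟨a, ha⟩ : L₁) = ⟨j, hjL⟩ := e.injective (by rw [h4, hej])
      have h5 : a = j := congrArg Subtype.val this
      rw [h5]; exact hjm.2
  have hneg : ∀ (a b : G) (ha : a ∈ L₁) (hb : b ∈ L₁), a⁻¹ * b ∈ L₂ → e ⟨b, hb⟩ = e ⟨a, ha⟩ ∨ e ⟨b, hb⟩ = -e ⟨a, ha⟩ := by
    intro a b ha hb h
    rcases hzp _ ⟨L₁.mul_mem (L₁.inv_mem ha) hb, h⟩ with h3 | h3
    · left
      congr 1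
      exact Subtype.ext (by
        show b = a
        have : b = a * (a⁻¹ * b) := by group
        rw [this, h3, mul_one])
    · right
      have h4 : (⟨b, hb⟩ : L₁) = ⟨a, ha⟩ * ⟨j, hjL⟩ := Subtype.ext (by
        show b = a * j
        have : b = a * (a⁻¹ * b) := by group
        rw [this, h3])
      rw [h4, map_mul, hej, mul_neg, mul_one]
  have hmain := indec h2 (P K₁) (P K₂) ?_ ?_
  · rcases hmain with h | h
    · left; exact key K₁ hKM h
    · right; exact key K₂ hKM' h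
  · intro X
    have h3 : (e.symm X : G) ∈ K₁ ⊔ K₂ := by
      rw [hK]; exact Subgroup.mem_sup_left (e.symm X).2
    obtain ⟨k₁, hk₁, k₂, hk₂, hk⟩ := mem_sup_comm K₁ K₂ hKc _ h3
    obtain ⟨a₁, ha₁, b₁, hb₁, rfl⟩ := mem_sup_comm L₁ L₂ hc k₁ (hKM hk₁)
    obtain ⟨a₂, ha₂, b₂, hb₂, rfl⟩ := mem_sup_comm L₁ L₂ hc k₂ (hKM' hk₂)
    have h4 : (e.symm X : G) = (a₁ * a₂) * (b₁ * b₂) := by
      rw [hk]
      calc _ = a₁ * (b₁ * a₂) * b₂ := by group
        _ = _ := by rw [← hc a₂ ha₂ b₁ hb₁]; group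
    have h5 := hneg (a₁ * a₂) (e.symm X : G) (L₁.mul_mem ha₁ ha₂) (e.symm X).2 (by
      rw [h4, inv_mul_cancel_left]; exact L₂.mul_mem hb₁ hb₂)
    have h6 : e ⟨(e.symm X : G), (e.symm X).2⟩ = X := e.apply_symm_apply X
    rw [h6] at h5
    have h7 : e ⟨a₁ * a₂, L₁.mul_mem ha₁ ha₂⟩ = e ⟨a₁, ha₁⟩ * e ⟨a₂, ha₂⟩ := by rw [← map_mul]; rfl
    have hm1 : e ⟨a₁, ha₁⟩ ∈ P K₁ := ⟨b₁, hb₁, by rw [e.symm_apply_apply]; exact hk₁⟩
    have hm2 : e ⟨a₂, ha₂⟩ ∈ P K₂ := ⟨b₂, hb₂, by rw [e.symm_apply_apply]; exact hk₂⟩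
    rw [h7] at h5
    rcases h5 with h5 | h5
    · exact ⟨_, hm1, _, hm2, h5⟩
    · refine ⟨-e ⟨a₁, ha₁⟩, ?_, _, hm2, by rw [h5, neg_mul]⟩
      have h8 : -e ⟨a₁, ha₁⟩ = e (⟨a₁, ha₁⟩ * ⟨j, hjL⟩) := by rw [map_mul, hej, mul_neg, mul_one]
      rw [h8]
      refine ⟨j * b₁, L₂.mul_mem hjm.2 hb₁, ?_⟩
      rw [e.symm_apply_apply]
      show a₁ * j * (j * b₁) ∈ K₁
      have : a₁ * j * (j * b₁) = a₁ * (j * j) * b₁ := by group
      rw [this, hjj, mul_one]
      exact hk₁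
  · rintro X ⟨b, hb, hX⟩ Y ⟨c, hc', hY⟩
    have h3 := hKc _ hX _ hY
    have h4 := hneg ((e.symm Y : G) * (e.symm X : G)) ((e.symm X : G) * (e.symm Y : G))
      (L₁.mul_mem (e.symm Y).2 (e.symm X).2) (L₁.mul_mem (e.symm X).2 (e.symm Y).2) (by
        have h5 : (e.symm X : G) * (e.symm Y : G) * (b * c) = (e.symm Y : G) * (e.symm X : G) * (c * b) := by
          calc _ = (e.symm X : G) * ((e.symm Y : G) * b) * c := by group
            _ = (e.symm X : G) * b * ((e.symm Y : G) * c) := by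
              rw [hc (e.symm Y) (e.symm Y).2 b hb]; group
            _ = (e.symm Y : G) * c * ((e.symm X : G) * b) := h3
            _ = (e.symm Y : G) * (c * (e.symm X : G)) * b := by group
            _ = _ := by rw [← hc (e.symm X) (e.symm X).2 c hc']; group
        have h6 : ((e.symm Y : G) * (e.symm X : G))⁻¹ * ((e.symm X : G) * (e.symm Y : G)) =
            (c * b) * (b * c)⁻¹ := by
          rw [inv_mul_eq_iff_eq_mul, ← mul_assoc, ← h5]
          group
        rw [h6]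
        exact L₂.mul_mem (L₂.mul_mem hc' hb) (L₂.inv_mem (L₂.mul_mem hb hc')))
    have h7 : ∀ U V : Matrix.SpecialLinearGroup (Fin 2) F, ∀ h, e ⟨(e.symm U : G) * (e.symm V : G), h⟩ = U * V := by
      intro U V h
      have : (⟨(e.symm U : G) * (e.symm V : G), h⟩ : L₁) = e.symm (U * V) := by
        rw [map_mul]; rfl
      rw [this, e.apply_symm_apply]
    rw [h7, h7] at h4
    exact h4

theorem hbig (hF : Odd (Fintype.card F)) (L : Subgroup G)
    (e : ↥L ≃* Matrix.SpecialLinearGroup (Fin 2) F) : 2 < Nat.card L := by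
  rw [Nat.card_congr e.toEquiv]
  have h2 := two_ne_zero_of_odd hF
  let u : Matrix.SpecialLinearGroup (Fin 2) F := ⟨!![1, 1; 0, 1], by simp [Matrix.det_fin_two]⟩
  let f : Fin 3 → Matrix.SpecialLinearGroup (Fin 2) F := ![1, -1, u]
  have hf : Function.Injective f := by
    have h01 : (1 : Matrix.SpecialLinearGroup (Fin 2) F) ≠ -1 := by
      intro h
      have := congrArg (fun m : Matrix.SpecialLinearGroup (Fin 2) F => m 0 0) h
      simp at this
      apply h2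
      linear_combination this
    have h02 : (1 : Matrix.SpecialLinearGroup (Fin 2) F) ≠ u := by
      intro h
      have := congrArg (fun m : Matrix.SpecialLinearGroup (Fin 2) F => m 0 1) h
      simp [u] at this
    have h12 : (-1 : Matrix.SpecialLinearGroup (Fin 2) F) ≠ u := by
      intro h
      have := congrArg (fun m : Matrix.SpecialLinearGroup (Fin 2) F => m 0 1) h
      simp [u] at this
    intro a b hab
    fin_cases a <;> fin_cases b <;> simp_all [f]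
  have := Nat.card_le_card_of_injective f hf
  rw [Nat.card_fin] at this
  omega

theorem card_eq_aux {x y : ℕ} (hx : 1 ≤ x) (hy : 1 ≤ y) (h : x * (x ^ 2 - 1) = y * (y ^ 2 - 1)) : x = y := by
  have key : ∀ {x y : ℕ}, 1 ≤ x → x < y → x * (x ^ 2 - 1) < y * (y ^ 2 - 1) := by
    intro x y hx hxy
    have h1 : x ^ 2 < y ^ 2 := Nat.pow_lt_pow_left hxy (by norm_num)
    have h2 : 1 ≤ x ^ 2 := Nat.one_le_pow _ _ hx
    exact Nat.mul_lt_mul'' hxy (Nat.sub_lt_sub_right h2 h1)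
  rcases lt_trichotomy x y with h1 | h1 | h1
  · exact absurd h (key hx h1).ne
  · exact h1
  · exact absurd h (key hy h1).ne'

end proj

/-- Let G be a finite group with subgroups L₁ ≅ SL₂(q₁) and L₂ ≅ SL₂(q₂), q₁ and q₂ odd prime powers, which commute elementwise and meet in ⟨j⟩ for an involution j, and suppose L₁L₂ has index 2 in C_G(j). Then every element n of C_G(j) outside L₁L₂ either normalizes both L₁ and L₂, or conjugates L₁ onto L₂; in the second case q₁ = q₂ and there is an element n′ of C_G(j) outside L₁L₂ conjugating L₁ onto L₂ with n′² ∈ ⟨j⟩. -/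
theorem result {G : Type*} [Group G] [Finite G]
    {F₁ : Type*} [Field F₁] [Fintype F₁] {F₂ : Type*} [Field F₂] [Fintype F₂]
    (hF₁ : Odd (Fintype.card F₁)) (hF₂ : Odd (Fintype.card F₂)) (L₁ L₂ : Subgroup G)
    (e₁ : ↥L₁ ≃* Matrix.SpecialLinearGroup (Fin 2) F₁) (e₂ : ↥L₂ ≃* Matrix.SpecialLinearGroup (Fin 2) F₂)
    (hc : ∀ x ∈ L₁, ∀ y ∈ L₂, x * y = y * x) (j : G) (hj : orderOf j = 2) (hm : L₁ ⊓ L₂ = Subgroup.zpowers j)
    (hle : L₁ ⊔ L₂ ≤ Subgroup.centralizer ({j} : Set G)) (hi : (L₁ ⊔ L₂).relIndex (Subgroup.centralizer ({j} : Set G)) = 2) (n : G) (hn : n ∈ Subgroup.centralizer ({j} : Set G)) (hn' : n ∉ L₁ ⊔ L₂) :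
    (L₁.map (MulAut.conj n).toMonoidHom = L₁ ∧ L₂.map (MulAut.conj n).toMonoidHom = L₂) ∨
      (L₁.map (MulAut.conj n).toMonoidHom = L₂ ∧ Fintype.card F₁ = Fintype.card F₂ ∧
        ∃ n' ∈ Subgroup.centralizer ({j} : Set G), n' ∉ L₁ ⊔ L₂ ∧ L₁.map (MulAut.conj n').toMonoidHom = L₂ ∧ n' ^ 2 ∈ Subgroup.zpowers j) := by
  classical
  have hjm : j ∈ L₁ ⊓ L₂ := by rw [hm]; exact Subgroup.mem_zpowers j
  have hjj : j * j = 1 := by rw [← pow_two, ← hj, pow_orderOf_eq_one]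
  set C : Subgroup G := Subgroup.centralizer ({j} : Set G) with hC
  set M : Subgroup G := L₁ ⊔ L₂ with hM
  have hMC : (M.subgroupOf C).index = 2 := hi
  have hMn : (M.subgroupOf C).Normal := Subgroup.normal_of_index_eq_two hMC
  have hconj : ∀ x ∈ M, n * x * n⁻¹ ∈ M := by
    intro x hx
    have := hMn.conj_mem ⟨x, hle hx⟩ hx ⟨n, hn⟩
    exact this
  have hconj' : ∀ x ∈ M, n⁻¹ * x * n ∈ M := by
    intro x hx
    have := hMn.conj_mem ⟨x, hle hx⟩ hx ⟨n, hn⟩⁻¹
    simpa [Subgroup.mem_subgroupOf] using this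
  set K₁ : Subgroup G := L₁.map (MulAut.conj n).toMonoidHom with hK₁
  set K₂ : Subgroup G := L₂.map (MulAut.conj n).toMonoidHom with hK₂
  have hKK : K₁ ⊔ K₂ = M := by
    rw [hK₁, hK₂, ← Subgroup.map_sup]
    apply le_antisymm
    · rintro _ ⟨x, hx, rfl⟩
      exact hconj x hx
    · intro x hx
      exact ⟨n⁻¹ * x * n, hconj' x hx, by simp [mul_assoc]⟩
  have hKc : ∀ x ∈ K₁, ∀ y ∈ K₂, x * y = y * x := by
    rintro _ ⟨x, hx, rfl⟩ _ ⟨y, hy, rfl⟩
    rw [← map_mul, ← map_mul, hc x hx y hy]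
  have hcard₁ : Nat.card K₁ = Nat.card L₁ :=
    (Nat.card_congr (L₁.equivMapOfInjective _ (MulAut.conj n).injective).toEquiv).symm
  have hcard₂ : Nat.card K₂ = Nat.card L₂ :=
    (Nat.card_congr (L₂.equivMapOfInjective _ (MulAut.conj n).injective).toEquiv).symm
  have hjz : Nat.card (Subgroup.zpowers j) = 2 := by rw [Nat.card_zpowers, hj]
  have hb₁ := hbig hF₁ L₁ e₁
  have hb₂ := hbig hF₂ L₂ e₂
  have hp₁ := proj hF₁ L₁ L₂ e₁ hc j hj hm K₁ K₂ hKK hKc
  have hp₂ := proj hF₂ L₂ L₁ e₂ (fun x hx y hy => (hc y hy x hx).symm) j hj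
    (by rw [inf_comm]; exact hm) K₁ K₂ (by rw [hKK, hM, sup_comm]) hKc
  have hno : ∀ K : Subgroup G, K ≤ L₁ → K ≤ L₂ → Nat.card K ≤ 2 := by
    intro K h1 h2
    rw [← hjz]
    exact Subgroup.card_le_of_le (hm ▸ le_inf h1 h2)
  rcases hp₁ with h1 | h1 <;> rcases hp₂ with h3 | h3
  · exact absurd (hno K₁ h3 h1) (by omega)
  · -- swap
    right
    have hc1 : Nat.card K₁ ≤ Nat.card L₂ := Subgroup.card_le_of_le h1
    have hc2 : Nat.card K₂ ≤ Nat.card L₁ := Subgroup.card_le_of_le h3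
    have he1 : K₁ = L₂ := Subgroup.eq_of_le_of_card_ge h1 (by omega)
    have he2 : K₂ = L₁ := Subgroup.eq_of_le_of_card_ge h3 (by omega)
    have hcc : Nat.card L₁ = Nat.card L₂ := by omega
    refine ⟨he1, ?_, ?_⟩
    · rw [Nat.card_congr e₁.toEquiv, Nat.card_congr e₂.toEquiv] at hcc
      rw [Cfsg.Agent.H5.card_SL2 (F := F₁) rfl, Cfsg.Agent.H5.card_SL2 (F := F₂) rfl] at hcc
      exact card_eq_aux Fintype.card_pos Fintype.card_pos hcc
    · have hn2 : n * n ∈ M := by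
        have := Subgroup.mul_self_mem_of_index_two hMC (⟨n, hn⟩ : C)
        exact this
      obtain ⟨a, ha, b, hb, hab⟩ := mem_sup_comm L₁ L₂ hc _ hn2
      have haC : a ∈ C := hle (Subgroup.mem_sup_left ha)
      have hna : n * a * n⁻¹ ∈ L₂ := by rw [← he1]; exact ⟨a, ha, rfl⟩
      have hnb : n * b * n⁻¹ ∈ L₁ := by rw [← he2]; exact ⟨b, hb, rfl⟩
      refine ⟨n * a⁻¹, C.mul_mem hn (C.inv_mem haC), ?_, ?_, ?_⟩
      · intro h
        apply hn'
        have h5 := M.mul_mem h (Subgroup.mem_sup_left ha : a ∈ M)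
        rwa [inv_mul_cancel_right] at h5
      · apply le_antisymm
        · rintro _ ⟨x, hx, rfl⟩
          rw [← he1]
          exact ⟨a⁻¹ * x * a, L₁.mul_mem (L₁.mul_mem (L₁.inv_mem ha) hx) ha, by simp [mul_assoc]⟩
        · intro y hy
          rw [← he1] at hy
          obtain ⟨x, hx, rfl⟩ := hy
          exact ⟨a * x * a⁻¹, L₁.mul_mem (L₁.mul_mem ha hx) (L₁.inv_mem ha), by simp [mul_assoc]⟩
      · have h5 : n * (a * b) * n⁻¹ = a * b := by rw [← hab]; group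
        have h6 : (n * b * n⁻¹) * (n * a * n⁻¹) = a * b := by
          rw [← h5, hc a ha b hb]; group
        have h7 : a⁻¹ * (n * b * n⁻¹) = b * (n * a * n⁻¹)⁻¹ := by
          rw [inv_mul_eq_iff_eq_mul, ← mul_assoc, ← h6]; group
        have h8 : b * (n * a * n⁻¹)⁻¹ ∈ L₁ ⊓ L₂ :=
          ⟨by rw [← h7]; exact L₁.mul_mem (L₁.inv_mem ha) hnb, L₂.mul_mem hb (L₂.inv_mem hna)⟩
        have h9 : (n * a⁻¹) ^ 2 = (n * a * n⁻¹)⁻¹ * (b * (n * a * n⁻¹)⁻¹) * (n * a * n⁻¹) := by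
          have h10 : (n * a⁻¹) ^ 2 = (n * a * n⁻¹)⁻¹ * (n * n) * a⁻¹ := by rw [pow_two]; group
          rw [h10, hab, hc a ha b hb]
          group
        rw [h9]
        have h11 : Commute (b * (n * a * n⁻¹)⁻¹) (n * a * n⁻¹) :=
          hc _ h8.1 _ hna
        rw [mul_assoc, h11.eq, inv_mul_cancel_left, ← hm]
        exact h8
  · left
    have hc1 : K₂ = L₂ := Subgroup.eq_of_le_of_card_ge h1 (by omega)
    have hc2 : K₁ = L₁ := Subgroup.eq_of_le_of_card_ge h3 (by omega)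
    exact ⟨hc2, hc1⟩
  · exact absurd (hno K₂ h3 h1) (by omega)


end Cfsg.Agent.S3210
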