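import Cfsg.Statements.S3211
import Cfsg.Agent.H4.SwapPair

set_option autoImplicit false
open Cfsg

namespace Cfsg.Agent.S3211

open Subgroup in
theorem sl2like {G : Type*} [Group G] {F : Type*} [Field F] [Fintype F] (hF : Odd (Fintype.card F))
    (L : Subgroup G) (e : ↥L ≃* Matrix.SpecialLinearGroup (Fin 2) F) (j : G) (hj : orderOf j = 2) (hjL : j ∈ L) :
    H4.SwapPair.SL2Like L j := by
  have h2 := H4.two_ne_zero_of_odd hF
  have hjj : j * j = 1 := H4.mul_self_of_orderOf_two hj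
  have hj1 : j ≠ 1 := H4.ne_one_of_orderOf_two hj
  have hej : e ⟨j, hjL⟩ = -1 := by
    have h1 : e ⟨j, hjL⟩ * e ⟨j, hjL⟩ = 1 := by
      rw [← map_mul]
      have : (⟨j, hjL⟩ : L) * ⟨j, hjL⟩ = 1 := Subtype.ext hjj
      rw [this, map_one]
    rcases H4.sl2_sq_one h2 h1 with h | h
    · exfalso
      apply hj1
      have : (⟨j, hjL⟩ : L) = 1 := e.injective (by rw [h, map_one])
      exact congrArg Subtype.val this
    · exact h
  have hsq : ∀ x : L, (x : G) * x = j → e x * e x = -1 := by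
    intro x hx
    rw [← map_mul, ← hej]
    congr 1
    exact Subtype.ext hx
  have hsq' : ∀ x : L, e x * e x = -1 → (x : G) * x = j := by
    intro x hx
    rw [← map_mul, ← hej] at hx
    exact congrArg Subtype.val (e.injective hx)
  refine ⟨hjL, hjj, hj1, ?_, ?_, ?_, ?_, ?_⟩
  · intro x hx hxx
    have h1 : e ⟨x, hx⟩ * e ⟨x, hx⟩ = 1 := by
      rw [← map_mul]
      have : (⟨x, hx⟩ : L) * ⟨x, hx⟩ = 1 := Subtype.ext hxx
      rw [this, map_one]
    rcases H4.sl2_sq_one h2 h1 with h | h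
    · left
      have : (⟨x, hx⟩ : L) = 1 := e.injective (by rw [h, map_one])
      exact congrArg Subtype.val this
    · right
      have : (⟨x, hx⟩ : L) = ⟨j, hjL⟩ := e.injective (by rw [h, hej])
      exact congrArg Subtype.val this
  · intro a ha x hx y hy haa h3 h4
    have h5 := H4.sl2_four_comm h2 (hsq ⟨a, ha⟩ haa) (X := e ⟨x, hx⟩) (Y := e ⟨y, hy⟩)
      (by rw [← map_mul, ← map_mul]; congr 1; exact Subtype.ext h3)
      (by rw [← map_mul, ← map_mul]; congr 1; exact Subtype.ext h4)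
    rw [← map_mul, ← map_mul] at h5
    exact congrArg Subtype.val (e.injective h5)
  · intro a ha w hw haa h3
    have h4 : e ⟨w, hw⟩ * e ⟨a, ha⟩ * (e ⟨w, hw⟩)⁻¹ = e ⟨a, ha⟩ * (-1) := by
      rw [← hej, ← map_mul, ← map_inv, ← map_mul, ← map_mul]
      congr 1
      exact Subtype.ext h3
    exact hsq' ⟨w, hw⟩ (H4.sl2_anti h2 h4)
  · intro a ha b hb haa hbb
    obtain ⟨P, hP⟩ := H4.sl2_four_conj hF (hsq ⟨a, ha⟩ haa) (hsq ⟨b, hb⟩ hbb)
    refine ⟨(e.symm P : L), (e.symm P).2, ?_⟩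
    have h3 : e.symm P * ⟨b, hb⟩ * (e.symm P)⁻¹ = ⟨a, ha⟩ := by
      apply e.injective
      rw [map_mul, map_mul, map_inv, e.apply_symm_apply, hP]
    exact congrArg Subtype.val h3
  · obtain ⟨A, hA⟩ := H4.sl2_exists_four (F := F)
    exact ⟨(e.symm A : L), (e.symm A).2, hsq' _ (by rw [e.apply_symm_apply]; exact hA)⟩

/-- Let G be a finite group with subgroups L₁ ≅ SL₂(q₁) and L₂ ≅ SL₂(q₂), q₁ and q₂ odd prime powers, which commute elementwise and meet in ⟨j⟩ for an involution j, and suppose L₁L₂ has index 2 in C_G(j). If some n ∈ C_G(j) with n² = j interchanges L₁ and L₂ under conjugation (so that C_G(j) = L₁L₂⟨n⟩), then G = C_G(j)O(G). -/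
theorem result {G : Type*} [Group G] [Finite G]
    {F₁ : Type*} [Field F₁] [Fintype F₁] {F₂ : Type*} [Field F₂] [Fintype F₂]
    (hF₁ : Odd (Fintype.card F₁)) (hF₂ : Odd (Fintype.card F₂)) (L₁ L₂ : Subgroup G)
    (e₁ : ↥L₁ ≃* Matrix.SpecialLinearGroup (Fin 2) F₁) (e₂ : ↥L₂ ≃* Matrix.SpecialLinearGroup (Fin 2) F₂)
    (hc : ∀ x ∈ L₁, ∀ y ∈ L₂, x * y = y * x) (j : G) (hj : orderOf j = 2) (hm : L₁ ⊓ L₂ = Subgroup.zpowers j)
    (hle : L₁ ⊔ L₂ ≤ Subgroup.centralizer ({j} : Set G)) (hi : (L₁ ⊔ L₂).relIndex (Subgroup.centralizer ({j} : Set G)) = 2) (n : G) (hn : n ∈ Subgroup.centralizer ({j} : Set G))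
    (hn2 : n ^ 2 = j) (hswap : L₁.map (MulAut.conj n).toMonoidHom = L₂) :
    Subgroup.centralizer ({j} : Set G) ⊔ Cfsg.oddCore G = ⊤ := by
  have hjm : j ∈ L₁ ⊓ L₂ := by rw [hm]; exact Subgroup.mem_zpowers j
  have hsl := sl2like hF₁ L₁ e₁ j hj hjm.1
  have hn2' : n * n = j := by rw [← pow_two]; exact hn2
  have hnn : ∀ x ∈ L₁, n * x * n⁻¹ ∈ L₂ := by
    intro x hx
    rw [← hswap]
    exact ⟨x, hx, rfl⟩
  have hm' : ∀ x, x ∈ L₁ → x ∈ L₂ → x = 1 ∨ x = j := by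
    intro x h1 h2
    have h3 : x ∈ Subgroup.zpowers j := by rw [← hm]; exact Subgroup.mem_inf.2 ⟨h1, h2⟩
    obtain ⟨k, rfl⟩ := Subgroup.mem_zpowers_iff.1 h3
    rcases Int.even_or_odd' k with ⟨m, hm | hm⟩
    · left; rw [hm, zpow_mul, zpow_two, hsl.jj, one_zpow]
    · right; rw [hm, zpow_add, zpow_mul, zpow_two, hsl.jj, one_zpow, one_mul, zpow_one]
  have d : H4.SwapPair.Dat L₁ L₂ j n := by
    refine ⟨hsl, hc, hm', hn2', hnn, ?_⟩
    intro y hy
    rw [← hswap] at hy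
    obtain ⟨x, hx, rfl⟩ := hy
    have h1 : n * ((MulAut.conj n).toMonoidHom x) * n⁻¹ = (n * n) * x * (n * n)⁻¹ := by
      show n * (n * x * n⁻¹) * n⁻¹ = _
      group
    rw [h1, hn2']
    exact mul_mem (mul_mem hsl.jL hx) (inv_mem hsl.jL)
  have hnL : n ∉ L₁ ⊔ L₂ := by
    intro h
    obtain ⟨x, hx, y, hy, hxy⟩ := d.mem_L.1 h
    obtain ⟨a, ha, haa⟩ := hsl.four
    have h1 := hnn a ha
    have h2 : n * a * n⁻¹ ∈ L₁ := by
      rw [hxy]
      have h3 := hc a ha y hy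
      have h4 : x * y * a * (x * y)⁻¹ = x * (y * a) * y⁻¹ * x⁻¹ := by group
      rw [h4, ← h3]
      have h5 : x * (a * y) * y⁻¹ * x⁻¹ = x * a * x⁻¹ := by group
      rw [h5]
      exact mul_mem (mul_mem hx ha) (inv_mem hx)
    have h5 : (n * a * n⁻¹) * (n * a * n⁻¹) = j := by
      calc (n * a * n⁻¹) * (n * a * n⁻¹) = n * (a * a) * n⁻¹ := by group
        _ = j := by rw [haa, d.nj, mul_inv_cancel_right]
    rcases hm' _ h2 h1 with h3 | h3
    · rw [h3, one_mul] at h5; exact hsl.j1 h5.symm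
    · rw [h3, hsl.jj] at h5; exact hsl.j1 h5.symm
  have hidx : ∀ x, x * j = j * x → x ∈ L₁ ⊔ L₂ ∨ ∃ y ∈ L₁ ⊔ L₂, x = y * n := by
    intro x hx
    have hxC : x ∈ Subgroup.centralizer ({j} : Set G) := Subgroup.mem_centralizer_singleton_iff.2 hx
    by_cases h : x ∈ L₁ ⊔ L₂
    · exact Or.inl h
    · right
      refine ⟨x * n⁻¹, ?_, by group⟩
      have h1 : ((L₁ ⊔ L₂).subgroupOf (Subgroup.centralizer ({j} : Set G))).index = 2 := hi
      have h2 := (Subgroup.mul_mem_iff_of_index_two h1 (a := ⟨x, hxC⟩) (b := ⟨n, hn⟩⁻¹)).2 (by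
        constructor
        · intro h3
          exact absurd (Subgroup.mem_subgroupOf.1 h3) h
        · intro h3
          exfalso
          apply hnL
          have := inv_mem h3
          rw [inv_inv] at this
          exact Subgroup.mem_subgroupOf.1 this)
      exact Subgroup.mem_subgroupOf.1 h2
  have hiso := d.isolated hidx hnL
  rw [eq_top_iff]
  intro g _
  obtain ⟨k, hk, c, hc', rfl⟩ := H4.zstar_factor hiso g
  exact mul_mem (Subgroup.mem_sup_right hk) (Subgroup.mem_sup_left hc')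

end Cfsg.Agent.S3211
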