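import Cfsg.Statements.S3213
import Cfsg.Agent.H4.SL2Four

set_option autoImplicit false
open Cfsg

namespace Cfsg.Agent.S3213

open Matrix Cfsg.Agent.H4

section SL

variable {K : Type*} [Field K] [Fintype K]

theorem five_eq (hK : Fintype.card K = 5) : (5 : K) = 0 := by
  have : ((Fintype.card K : ℕ) : K) = 0 := by simp
  rw [hK] at this
  exact_mod_cast this

theorem three_ne (hK : Fintype.card K = 5) : (3 : K) ≠ 0 := by
  intro h
  have h5 := five_eq hK
  have : (1 : K) = 0 := by linear_combination 2 * h - h5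
  exact one_ne_zero this

theorem two_ne (hK : Fintype.card K = 5) : (2 : K) ≠ 0 := by
  intro h
  have h5 := five_eq hK
  have : (1 : K) = 0 := by linear_combination h5 - 2 * h
  exact one_ne_zero this

theorem exists_inv (hK : Fintype.card K = 5) (x : SpecialLinearGroup (Fin 2) K) (hx : x * x * x = 1)
    (hx1 : x ≠ 1) : ∃ y : SpecialLinearGroup (Fin 2) K, y * y = -1 ∧ y * x = x⁻¹ * y := by
  have h2 := two_ne hK
  have h3 := three_ne hK
  set a := (x : Matrix (Fin 2) (Fin 2) K) 0 0 with ha
  set b := (x : Matrix (Fin 2) (Fin 2) K) 0 1 with hb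
  set c := (x : Matrix (Fin 2) (Fin 2) K) 1 0 with hc
  set d := (x : Matrix (Fin 2) (Fin 2) K) 1 1 with hd
  have hdet : a * d - b * c = 1 := by
    have := x.2
    rwa [det_fin_two] at this
  have hxm : (x : Matrix (Fin 2) (Fin 2) K) = !![a, b; c, d] := by
    ext i j; fin_cases i <;> fin_cases j <;> rfl
  have hcube : (x : Matrix (Fin 2) (Fin 2) K) * x * x = 1 := by
    have := congrArg (fun M : SpecialLinearGroup (Fin 2) K => (M : Matrix (Fin 2) (Fin 2) K)) hx
    simpa using this
  have htr : a + d = -1 := by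
    have h00 := congrFun (congrFun hcube 0) 0
    have h01 := congrFun (congrFun hcube 0) 1
    have h10 := congrFun (congrFun hcube 1) 0
    have h11 := congrFun (congrFun hcube 1) 1
    rw [hxm] at h00 h01 h10 h11
    simp [Matrix.mul_apply, Fin.sum_univ_two] at h00 h01 h10 h11
    have e00 : ((a + d) ^ 2 - 1) * a = 1 + (a + d) := by linear_combination h00 + (a + (a + d)) * hdet
    have e11 : ((a + d) ^ 2 - 1) * d = 1 + (a + d) := by linear_combination h11 + (d + (a + d)) * hdet
    have e01 : ((a + d) ^ 2 - 1) * b = 0 := by linear_combination h01 + b * hdet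
    have e10 : ((a + d) ^ 2 - 1) * c = 0 := by linear_combination h10 + c * hdet
    by_cases ht : (a + d) ^ 2 - 1 = 0
    · rw [ht, zero_mul] at e00
      linear_combination -e00
    · exfalso
      have hb0 : b = 0 := (mul_eq_zero.mp e01).resolve_left ht
      have hc0 : c = 0 := (mul_eq_zero.mp e10).resolve_left ht
      have had : a = d := mul_left_cancel₀ ht (e00.trans e11.symm)
      rw [hb0, hc0, ← had] at h00
      rw [hb0, hc0, ← had] at hdet
      have ha1 : a = 1 := by linear_combination h00 - a * hdet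
      apply hx1
      apply sl2_ext
      rw [hxm, hb0, hc0, ← had, ha1]
      ext i j; fin_cases i <;> fin_cases j <;> simp
  have hc0 : c ≠ 0 := by
    intro h
    rw [h, mul_zero, sub_zero] at hdet
    have q : a ^ 2 + a + 1 = 0 := by linear_combination a * htr - hdet
    have hp : a ^ 5 = a := by rw [← hK]; exact FiniteField.pow_card a
    have h3' : a ^ 3 = 1 := by linear_combination (a - 1) * q
    have e2 : a ^ 2 = a := by linear_combination hp - a ^ 2 * h3'
    have ha0 : a ≠ 0 := by
      intro h0; rw [h0] at h3'; norm_num at h3'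
    have ha1 : a = 1 := by
      have : a * (a - 1) = 0 := by linear_combination e2
      rcases mul_eq_zero.mp this with h | h
      · exact absurd h ha0
      · linear_combination h
    rw [ha1] at q
    apply h3
    linear_combination q
  have hodd : Fintype.card K % 2 = 1 := by rw [hK]
  have hk : (3 / (4 * c ^ 2) : K) ≠ 0 := by
    have : (4 : K) ≠ 0 := by
      have : (4 : K) = 2 * 2 := by norm_num
      rw [this]; exact mul_ne_zero h2 h2
    positivity
  obtain ⟨u, r, hur⟩ := FiniteField.exists_root_sum_quadratic (R := K) (f := Polynomial.X ^ 2)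
    (g := Polynomial.C (3 / (4 * c ^ 2)) * Polynomial.X ^ 2 + Polynomial.C 0 * Polynomial.X + Polynomial.C 1) (by simp)
      (Polynomial.degree_quadratic hk) hodd
  simp at hur
  have h4 : (4 : K) = 2 * 2 := by norm_num
  have hur' : 4 * c ^ 2 * u ^ 2 + 3 * r ^ 2 + 4 * c ^ 2 = 0 := by
    have h40 : (4 : K) ≠ 0 := by rw [h4]; exact mul_ne_zero h2 h2
    field_simp at hur
    linear_combination hur
  set p := u + (a - d) * r / (2 * c) with hp
  set q := -((a - d) * p + b * r) / c with hq
  have e1 : (a - d) * p + b * r + c * q = 0 := by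
    rw [hq]; field_simp; ring
  have e2 : p ^ 2 + q * r = -1 := by
    have hcc : 4 * c ^ 2 * (p ^ 2 + q * r) = 4 * c ^ 2 * (-1) := by
      have hp' : 2 * c * p = 2 * c * u + (a - d) * r := by rw [hp]; field_simp
      linear_combination hur' + (2 * c * p + 2 * c * u + (a - d) * r) * hp' - 2 * (a-d) * r * hp' + 4 * c * r * e1 + 
        (3 - (a + d) + 1 - 4) * r ^ 2 * htr  + 4 * r^2 * hdet - r^2 * (a + d - 1) * htr + (a + d) * r^2 * htr
    have h40 : (4 * c ^ 2 : K) ≠ 0 := by rw [h4]; exact mul_ne_zero (mul_ne_zero h2 h2) (pow_ne_zero 2 hc0)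
    exact mul_left_cancel₀ h40 hcc
  refine ⟨⟨!![p, q; r, -p], by rw [det_fin_two_of]; linear_combination -e2⟩, ?_, ?_⟩
  · apply sl2_of_trace
    show (!![p, q; r, -p] : Matrix (Fin 2) (Fin 2) K).trace = 0
    rw [trace_fin_two_of]; ring
  · apply sl2_ext
    show (!![p, q; r, -p] : Matrix (Fin 2) (Fin 2) K) * (x : Matrix (Fin 2) (Fin 2) K) =
      ((x⁻¹ : SpecialLinearGroup (Fin 2) K) : Matrix (Fin 2) (Fin 2) K) * !![p, q; r, -p]
    rw [Matrix.SpecialLinearGroup.coe_inv, hxm, Matrix.adjugate_fin_two_of]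
    ext i j; fin_cases i <;> fin_cases j <;> simp [Matrix.mul_apply, Fin.sum_univ_two]
    · linear_combination e1
    · ring
    · ring
    · linear_combination e1

theorem exists_five (hK : Fintype.card K = 5) : ∃ u : SpecialLinearGroup (Fin 2) K, u ^ 5 = 1 ∧ u ≠ 1 := by
  have h5 := five_eq hK
  obtain ⟨g, hg⟩ : ∃ g : SpecialLinearGroup (Fin 2) K, (g : Matrix (Fin 2) (Fin 2) K) = !![1, 1; 0, 1] :=
    ⟨⟨!![1, 1; 0, 1], by rw [det_fin_two_of]; ring⟩, rfl⟩
  refine ⟨g, ?_, ?_⟩
  · apply sl2_ext
    rw [Matrix.SpecialLinearGroup.coe_pow, hg]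
    show (!![1, 1; 0, 1] : Matrix (Fin 2) (Fin 2) K) ^ 5 = 1
    have key : ∀ n : ℕ, (!![1, 1; 0, 1] : Matrix (Fin 2) (Fin 2) K) ^ n = !![1, (n : K); 0, 1] := by
      intro n
      induction n with
      | zero => ext i j; fin_cases i <;> fin_cases j <;> simp
      | succ n ih =>
        rw [pow_succ, ih]
        ext i j; fin_cases i <;> fin_cases j <;> simp [Matrix.mul_apply, Fin.sum_univ_two]
        ring
    rw [key]
    ext i j; fin_cases i <;> fin_cases j <;> simp [h5]
  · intro h
    have := congrArg (fun M : SpecialLinearGroup (Fin 2) K => (M : Matrix (Fin 2) (Fin 2) K) 0 1) h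
    simp [hg] at this

end SL

section lin

variable {F : Type*} [Field F] [Fintype F] {V : Type*} [AddCommGroup V] [Module F V] [FiniteDimensional F V]

/-- invariant subspaces of dimension `≤ 3` over the field of three elements are fixed by elements of order 5 -/
theorem fix_five (hF : Fintype.card F = 3) (U : V →ₗ[F] V) (hU : U ^ 5 = 1) (W : Submodule F V)
    (hW : ∀ v ∈ W, U v ∈ W) (hd : Module.finrank F W ≤ 3) : ∀ v ∈ W, U v = v := by
  classical
  haveI : Finite V := Module.finite_of_finite F
  haveI : Fact (Nat.Prime 5) := ⟨by norm_num⟩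
  let UW : W →ₗ[F] W := U.restrict hW
  have hUW : UW ^ 5 = 1 := by
    ext v
    have h1 : ∀ n : ℕ, ((UW ^ n) v : V) = (U ^ n) (v : V) := by
      intro n
      induction n with
      | zero => rfl
      | succ n ih => rw [pow_succ', pow_succ', Module.End.mul_apply, Module.End.mul_apply, ← ih]; rfl
    rw [h1, hU]; rfl
  haveI : Finite (Module.End F W) := DFunLike.finite _
  let uu : (Module.End F W)ˣ := ⟨UW, UW ^ 4, by rw [← pow_succ', hUW], by rw [← pow_succ, hUW]⟩
  have huu : uu ^ 5 = 1 := Units.ext hUW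
  let P : Subgroup (Module.End F W)ˣ := Subgroup.zpowers uu
  have hP : IsPGroup 5 P := by
    rw [IsPGroup.iff_card]
    rw [Nat.card_zpowers]
    have := orderOf_dvd_of_pow_eq_one huu
    rcases (Nat.dvd_prime (by norm_num)).mp this with h | h
    · exact ⟨0, by simpa using h⟩
    · exact ⟨1, by simpa using h⟩
  have hmod := hP.card_modEq_card_fixedPoints W
  -- the fixed points form a submodule
  let E : Submodule F W := LinearMap.ker (UW - LinearMap.id)
  have hE : (MulAction.fixedPoints P W : Set W) = (E : Set W) := by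
    ext v
    rw [MulAction.mem_fixedPoints, SetLike.mem_coe, LinearMap.mem_ker, LinearMap.sub_apply, sub_eq_zero]
    constructor
    · intro h
      exact h ⟨uu, Subgroup.mem_zpowers uu⟩
    · intro h m
      obtain ⟨k, hk⟩ := Subgroup.mem_zpowers_iff.mp m.2
      have hs : uu ∈ MulAction.stabilizer (Module.End F W)ˣ v := h
      have : (m : (Module.End F W)ˣ) ∈ MulAction.stabilizer (Module.End F W)ˣ v := by
        rw [← hk]; exact zpow_mem hs k
      exact this
  have hcE : Nat.card (MulAction.fixedPoints P W) = 3 ^ Module.finrank F E := by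
    rw [hE]
    have := Module.natCard_eq_pow_finrank (K := F) (V := E)
    rw [Nat.card_eq_fintype_card (α := F), hF] at this
    exact this
  have hcW : Nat.card W = 3 ^ Module.finrank F W := by
    have := Module.natCard_eq_pow_finrank (K := F) (V := W)
    rwa [Nat.card_eq_fintype_card (α := F), hF] at this
  rw [hcE, hcW] at hmod
  have hle : Module.finrank F E ≤ Module.finrank F W := Submodule.finrank_le E
  have heq : Module.finrank F E = Module.finrank F W := by
    unfold Nat.ModEq at hmod
    generalize Module.finrank F E = m at *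
    generalize Module.finrank F W = k at *
    interval_cases k <;> interval_cases m <;> first | rfl | (norm_num at hmod)
  have hEt : E = ⊤ := Submodule.eq_top_of_finrank_eq heq
  intro v hv
  have : (⟨v, hv⟩ : W) ∈ E := by rw [hEt]; trivial
  rw [LinearMap.mem_ker, LinearMap.sub_apply, sub_eq_zero] at this
  exact congrArg Subtype.val this

theorem even_inv (hF : Fintype.card F = 3) (Y : V →ₗ[F] V) (hY : Y * Y = -1) (W : Submodule F V)
    (hW : ∀ v ∈ W, Y v ∈ W) : Even (Module.finrank F W) := by
  by_contra hodd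
  rw [Nat.not_even_iff_odd] at hodd
  let YW : W →ₗ[F] W := Y.restrict hW
  have hYW : YW * YW = (-1 : F) • (1 : Module.End F W) := by
    ext v
    have := congrArg (fun T : V →ₗ[F] V => T (v : V)) hY
    simp only [Module.End.mul_apply, LinearMap.neg_apply, Module.End.one_apply] at this
    simp only [Module.End.mul_apply, LinearMap.smul_apply, Module.End.one_apply]
    show Y (Y v) = _
    rw [this]
    simp
  have hdet := congrArg LinearMap.det hYW
  rw [map_mul, LinearMap.det_smul, map_one, mul_one, hodd.neg_one_pow] at hdet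
  have : IsSquare (-1 : F) := ⟨_, hdet.symm⟩
  rw [FiniteField.isSquare_neg_one_iff] at this
  rw [hF] at this
  omega

theorem main (hF : Fintype.card F = 3) (hV : Module.finrank F V = 4) (Bf : V → V → F)
    (hB1 : ∀ u v w, Bf (u - v) w = Bf u w - Bf v w)
    (X Y t U : V →ₗ[F] V)
    (hX3 : X * X * X = 1) (hX1 : X ≠ 1) (ht1 : t ≠ 1) (htt : t * t = 1) (hU5 : U ^ 5 = 1) (hU1 : U ≠ 1)
    (htU : t * U = U * t) (hYY : Y * Y = t) (hYX : Y * X = X * X * Y)
    (hXB : ∀ v w, Bf (X v) (X w) = Bf v w) :
    Module.finrank F (LinearMap.ker (X - LinearMap.id)) = 2 ∧ ∀ v w, X v = v → X w = w → Bf v w = 0 := by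
  have h3 : (3 : F) = 0 := by
    have : ((Fintype.card F : ℕ) : F) = 0 := by simp
    rw [hF] at this
    exact_mod_cast this
  -- t = -1
  have ht : t = -1 := by
    by_contra hne
    apply hU1
    have c1 : ∀ v, t (U v) = U (t v) := fun v => congrArg (fun T : V →ₗ[F] V => T v) htU
    have c2 : ∀ v, t (t v) = v := fun v => congrArg (fun T : V →ₗ[F] V => T v) htt
    have small : ∀ W : Submodule F V, W ≠ ⊤ → Module.finrank F W ≤ 3 := by
      intro W hW
      have := Submodule.finrank_lt hW
      omega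
    have f1 := fix_five hF U hU5 (LinearMap.ker (t - LinearMap.id)) (by
      intro v hv
      rw [LinearMap.mem_ker, LinearMap.sub_apply, sub_eq_zero, LinearMap.id_apply] at hv ⊢
      rw [c1, hv]) (small _ (by
        intro h
        apply ht1
        ext v
        have : v ∈ LinearMap.ker (t - LinearMap.id) := by rw [h]; trivial
        rwa [LinearMap.mem_ker, LinearMap.sub_apply, sub_eq_zero, LinearMap.id_apply] at this))
    have f2 := fix_five hF U hU5 (LinearMap.ker (t + LinearMap.id)) (by
      intro v hv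
      rw [LinearMap.mem_ker, LinearMap.add_apply, LinearMap.id_apply] at hv ⊢
      rw [c1, ← map_add, hv, map_zero]) (small _ (by
        intro h
        apply hne
        ext v
        have : v ∈ LinearMap.ker (t + LinearMap.id) := by rw [h]; trivial
        rw [LinearMap.mem_ker, LinearMap.add_apply, LinearMap.id_apply] at this
        exact eq_neg_of_add_eq_zero_left this))
    ext v
    have m1 : v + t v ∈ LinearMap.ker (t - LinearMap.id) := by
      rw [LinearMap.mem_ker, LinearMap.sub_apply, sub_eq_zero, LinearMap.id_apply, map_add, c2, add_comm]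
    have m2 : v - t v ∈ LinearMap.ker (t + LinearMap.id) := by
      rw [LinearMap.mem_ker, LinearMap.add_apply, LinearMap.id_apply, map_sub, c2]
      abel
    have g1 := f1 _ m1
    have g2 := f2 _ m2
    have : (v + t v) + (v - t v) = (3 : F) • v - v := by module
    have hv : v = -((v + t v) + (v - t v)) := by rw [this, h3, zero_smul]; abel
    show U v = v
    conv_lhs => rw [hv]
    conv_rhs => rw [hv]
    rw [map_neg, map_add, g1, g2]
  rw [ht] at hYY
  -- the nilpotent part
  set N : V →ₗ[F] V := X - 1 with hN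
  have hN3 : N * N * N = 0 := by
    have : N * N * N = X * X * X - 1 - (3 : F) • (X * X - X) := by
      rw [hN]
      simp only [sub_mul, mul_sub, mul_one, one_mul]
      module
    rw [this, hX3, h3, zero_smul]; simp
  have hN1 : N ≠ 0 := by rw [hN]; exact sub_ne_zero.mpr hX1
  have hker : ∀ v, v ∈ LinearMap.ker (X - LinearMap.id) ↔ X v = v := by
    intro v
    rw [LinearMap.mem_ker, LinearMap.sub_apply, sub_eq_zero, LinearMap.id_apply]
  have a1 : ∀ v, Y (X v) = X (X (Y v)) := fun v => congrArg (fun T : V →ₗ[F] V => T v) hYX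
  have a2 : ∀ v, X (X (X v)) = v := fun v => congrArg (fun T : V →ₗ[F] V => T v) hX3
  have hYinv : ∀ v ∈ LinearMap.ker (X - LinearMap.id), Y v ∈ LinearMap.ker (X - LinearMap.id) := by
    intro v hv
    rw [hker] at hv ⊢
    have h := a1 v
    rw [hv] at h
    -- Y v = X X Y v
    have := congrArg X h
    rw [a2] at this
    exact this
  have hYr : ∀ v ∈ LinearMap.range N, Y v ∈ LinearMap.range N := by
    rintro _ ⟨v, rfl⟩
    refine ⟨X (Y v) + Y v, ?_⟩
    have e1 : N (X (Y v) + Y v) = X (X (Y v) + Y v) - (X (Y v) + Y v) := rfl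
    have e2 : N v = X v - v := rfl
    rw [e1, e2, map_add, map_sub, a1]
    abel
  have hW := even_inv hF Y hYY _ hYinv
  have hI := even_inv hF Y hYY (LinearMap.range N ⊓ LinearMap.ker (X - LinearMap.id)) (by
    rintro v ⟨h1, h2⟩
    exact ⟨hYr v h1, hYinv v h2⟩)
  have hIne : LinearMap.range N ⊓ LinearMap.ker (X - LinearMap.id) ≠ ⊥ := by
    have hkN : ∀ v, N v = 0 → v ∈ LinearMap.ker (X - LinearMap.id) := by
      intro v hv
      rw [hker]
      exact sub_eq_zero.mp hv
    have : ∃ v, N v ≠ 0 ∧ N (N v) = 0 := by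
      by_cases h2 : N * N = 0
      · by_contra hcon
        push Not at hcon
        apply hN1
        ext v
        by_contra hv
        exact hcon v hv (congrArg (fun T : V →ₗ[F] V => T v) h2)
      · have : ∃ v, (N * N) v ≠ 0 := by
          by_contra hcon
          push Not at hcon
          exact h2 (LinearMap.ext hcon)
        obtain ⟨v, hv⟩ := this
        exact ⟨N v, hv, congrArg (fun T : V →ₗ[F] V => T v) hN3⟩
    obtain ⟨v, hv, hv2⟩ := this
    intro h
    apply hv
    have : N v ∈ LinearMap.range N ⊓ LinearMap.ker (X - LinearMap.id) := ⟨⟨v, rfl⟩, hkN _ hv2⟩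
    rw [h] at this
    exact (Submodule.mem_bot F).mp this
  have hIpos : 0 < Module.finrank F ↥(LinearMap.range N ⊓ LinearMap.ker (X - LinearMap.id)) := by
    rw [Nat.pos_iff_ne_zero]
    intro h
    exact hIne (Submodule.finrank_eq_zero.mp h)
  have hle : Module.finrank F ↥(LinearMap.range N ⊓ LinearMap.ker (X - LinearMap.id)) ≤
      Module.finrank F ↥(LinearMap.ker (X - LinearMap.id)) := Submodule.finrank_mono inf_le_right
  have hlt : Module.finrank F ↥(LinearMap.ker (X - LinearMap.id)) < 4 := by
    rw [← hV]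
    apply Submodule.finrank_lt
    intro h
    apply hX1
    ext v
    exact (hker v).mp (by rw [h]; trivial)
  obtain ⟨k1, hk1⟩ := hW
  obtain ⟨k2, hk2⟩ := hI
  have hfin : Module.finrank F ↥(LinearMap.ker (X - LinearMap.id)) = 2 := by omega
  refine ⟨hfin, ?_⟩
  have heq : LinearMap.range N ⊓ LinearMap.ker (X - LinearMap.id) = LinearMap.ker (X - LinearMap.id) :=
    Submodule.eq_of_le_of_finrank_eq inf_le_right (by omega)
  intro v w hv hw
  have hv' : v ∈ LinearMap.range N := by
    have : v ∈ LinearMap.range N ⊓ LinearMap.ker (X - LinearMap.id) := by rw [heq, hker]; exact hv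
    exact this.1
  obtain ⟨v', rfl⟩ := hv'
  have e2 : N v' = X v' - v' := rfl
  rw [e2, hB1]
  have := hXB v' w
  rw [hw] at this
  rw [this, sub_self]

end lin

/-- Let F be the field with 3 elements and K the field with 5 elements. For every injective homomorphism φ from SL₂(K) into the symplectic group Sp₄(F) (4 × 4 matrices g with g J gᵀ = J for the standard alternating matrix J) and every element x of order 3 of SL₂(K), the vectors of F⁴ fixed by φ(x) form a 2-dimensional subspace that is totally isotropic for the alternating form defined by J. -/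
theorem result {F : Type*} [Field F] [Fintype F] (hF : Fintype.card F = 3)
    {K : Type*} [Field K] [Fintype K] (hK : Fintype.card K = 5)
    (φ : Matrix.SpecialLinearGroup (Fin 2) K →* ↥(Matrix.symplecticGroup (Fin 2) F)) (hφ : Function.Injective φ)
    (x : Matrix.SpecialLinearGroup (Fin 2) K) (hx : orderOf x = 3) :
    Module.finrank F ↥(LinearMap.ker (Matrix.toLin' ((φ x : Matrix (Fin 2 ⊕ Fin 2) (Fin 2 ⊕ Fin 2) F)) - LinearMap.id)) = 2 ∧
      ∀ v w : Fin 2 ⊕ Fin 2 → F, (φ x : Matrix (Fin 2 ⊕ Fin 2) (Fin 2 ⊕ Fin 2) F).mulVec v = v →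
        (φ x : Matrix (Fin 2 ⊕ Fin 2) (Fin 2 ⊕ Fin 2) F).mulVec w = w →
          dotProduct v ((Matrix.J (Fin 2) F).mulVec w) = 0 := by
  classical
  let co : Matrix.SpecialLinearGroup (Fin 2) K → Matrix (Fin 2 ⊕ Fin 2) (Fin 2 ⊕ Fin 2) F := fun g => (φ g : Matrix (Fin 2 ⊕ Fin 2) (Fin 2 ⊕ Fin 2) F)
  have co1 : co 1 = 1 := by
    show ((φ 1 : Matrix.symplecticGroup (Fin 2) F) : Matrix (Fin 2 ⊕ Fin 2) (Fin 2 ⊕ Fin 2) F) = 1
    rw [map_one]; rfl
  have com : ∀ g h, co (g * h) = co g * co h := by
    intro g h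
    show ((φ (g * h) : Matrix.symplecticGroup (Fin 2) F) : Matrix (Fin 2 ⊕ Fin 2) (Fin 2 ⊕ Fin 2) F) = _
    rw [map_mul]; rfl
  have coi : Function.Injective co := fun g h hgh => hφ (Subtype.ext hgh)
  let ρ : Matrix.SpecialLinearGroup (Fin 2) K → ((Fin 2 ⊕ Fin 2 → F) →ₗ[F] (Fin 2 ⊕ Fin 2 → F)) := fun g => Matrix.toLin' (co g)
  have ρ1 : ρ 1 = 1 := by show Matrix.toLin' (co 1) = 1; rw [co1, Matrix.toLin'_one]; rfl
  have ρm : ∀ g h, ρ (g * h) = ρ g * ρ h := by
    intro g h
    show Matrix.toLin' (co (g * h)) = _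
    rw [com, Matrix.toLin'_mul]; rfl
  have ρi : Function.Injective ρ := fun g h hgh => coi (Matrix.toLin'.injective hgh)
  have ρp : ∀ g (n : ℕ), ρ (g ^ n) = ρ g ^ n := by
    intro g n
    induction n with
    | zero => rw [pow_zero, pow_zero, ρ1]
    | succ n ih => rw [pow_succ, pow_succ, ρm, ih]
  have hx3 : x * x * x = 1 := by
    have := pow_orderOf_eq_one x
    rw [hx] at this
    rw [← this, pow_succ, pow_two]
  have hx1 : x ≠ 1 := by rintro rfl; simp at hx
  obtain ⟨y, hyy, hyx⟩ := exists_inv hK x hx3 hx1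
  obtain ⟨u, hu5, hu1⟩ := exists_five hK
  have hne : ∀ g, g ≠ 1 → ρ g ≠ 1 := by
    intro g hg h
    exact hg (ρi (by rw [h, ρ1]))
  have key := main hF (V := Fin 2 ⊕ Fin 2 → F) (by simp) (fun v w => dotProduct v ((Matrix.J (Fin 2) F).mulVec w))
    (fun u v w => by simp [sub_dotProduct]) (ρ x) (ρ y) (ρ (-1)) (ρ u) (by rw [← ρm, ← ρm, hx3, ρ1])
    (hne x hx1) (hne _ (sl2_neg_one_ne (two_ne hK))) (by rw [← ρm]; simp [ρ1]) (by rw [← ρp, hu5, ρ1])
    (hne u hu1) (by rw [← ρm, ← ρm]; simp) (by rw [← ρm, hyy]) (by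
      rw [← ρm, ← ρm, ← ρm, hyx]
      congr 1
      rw [inv_eq_of_mul_eq_one_left hx3]) (by
      intro v w
      show dotProduct ((co x).mulVec v) ((Matrix.J (Fin 2) F).mulVec ((co x).mulVec w)) = _
      have hs : (co x)ᵀ * Matrix.J (Fin 2) F * (co x) = Matrix.J (Fin 2) F := (SymplecticGroup.mem_iff'.mp (φ x).2)
      conv_rhs => rw [← hs]
      rw [Matrix.dotProduct_mulVec, Matrix.vecMul_mulVec, ← Matrix.dotProduct_mulVec, Matrix.mulVec_mulVec]
      )
  exact key

end Cfsg.Agent.S3213
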