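import Cfsg.Statements.S3225
import Cfsg.Agent.H20.ExtTransfer

set_option autoImplicit false
open Cfsg

namespace Cfsg.Agent.S3225

/-- Let G be a finite group of even order with no subgroup of index 2, S a Sylow 2-subgroup of G and M a subgroup of index 2 in S such that, for some n ≥ 1, every element of S outside M has order greater than 2^(n−1). Then every element of S of order 2ⁿ is conjugate in G to an element of M. -/
theorem result {G : Type*} [Group G] [Finite G] (hev : Even (Nat.card G))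
    (hG : ∀ H : Subgroup G, H.index ≠ 2) (S : Sylow 2 G) (M : Subgroup G) (hMS : M ≤ (S : Subgroup G)) (hM : M.relIndex (S : Subgroup G) = 2)
    (n : ℕ) (hn : 1 ≤ n) (hord : ∀ y ∈ (S : Subgroup G), y ∉ M → 2 ^ (n - 1) < orderOf y)
    (x : G) (hx : x ∈ (S : Subgroup G)) (hxn : orderOf x = 2 ^ n) :
    ∃ g : G, g * x * g⁻¹ ∈ M := by
  have hpow : ∀ (g : G) (k : ℕ), 1 ≤ k → g⁻¹ * x ^ (2 ^ k) * g ∈ (S : Subgroup G) →
      g⁻¹ * x ^ (2 ^ k) * g ∈ M := by
    intro g k hk hmem
    by_contra hnot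
    have h1 := hord _ hmem hnot
    have h2 : (g⁻¹ * x ^ (2 ^ k) * g) ^ (2 ^ (n - 1)) = 1 := by
      have h3 : g⁻¹ * x ^ (2 ^ k) * g = g⁻¹ * x ^ (2 ^ k) * g⁻¹⁻¹ := by rw [inv_inv]
      rw [h3, conj_pow, ← pow_mul, ← pow_add]
      have h4 : x ^ (2 ^ (k + (n - 1))) = 1 := by
        rw [← orderOf_dvd_iff_pow_eq_one, hxn]
        exact pow_dvd_pow 2 (by omega)
      rw [h4]; group
    have h5 := Nat.le_of_dvd (by positivity) (orderOf_dvd_of_pow_eq_one h2)
    omega
  rcases H20.extremal_transfer S M hMS hM x n (by rw [← hxn]; exact pow_orderOf_eq_one x) hpow ⊥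
    (IsPGroup.of_bot) (by intro t ht; rw [Subgroup.mem_bot] at ht; rw [ht]; simp) with ⟨a, ha, -⟩ | ⟨N, hN, -⟩
  · exact ⟨a⁻¹, by simpa using ha⟩
  · exact absurd hN (hG N)

end Cfsg.Agent.S3225
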