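import Cfsg.Statements.S3246
import Cfsg.Agent.H24.CharLoc
import Cfsg.Agent.H13.CharLocal2

set_option autoImplicit false
open Cfsg

namespace Cfsg.Agent.S3246

open Subgroup Cfsg.Agent.H24 Cfsg.Agent.H18

variable {G : Type*} [Group G] [Finite G]

theorem all_chP (h : (∀ M : Subgroup G, Cfsg.IsMaximalTwoLocal M → Cfsg.IsPConstrained 2 ↥M ∧ Cfsg.oddCore ↥M = ⊥) ∨
      (∀ t : G, orderOf t = 2 → Cfsg.IsPConstrained 2 ↥(Subgroup.centralizer ({t} : Set G)) ∧
        Cfsg.oddCore ↥(Subgroup.centralizer ({t} : Set G)) = ⊥))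
    (T : Subgroup G) (hT : IsPGroup 2 T) (hT1 : T ≠ ⊥) : CharLoc.ChP 2 (normalizer (T : Set G)) := by
  haveI : Fact (Nat.Prime 2) := ⟨Nat.prime_two⟩
  rcases h with h | h
  · obtain ⟨M, hNM, hM⟩ := (Set.toFinite {M : Subgroup G | IsTwoLocal M}).exists_le_maximal
      (show IsTwoLocal (normalizer (T : Set G)) from ⟨T, hT, hT1, rfl⟩)
    have hMm : IsMaximalTwoLocal M := ⟨hM.1, fun N hN hMN => le_antisymm (hM.2 hN hMN) hMN⟩
    obtain ⟨h1, h2⟩ := h M hMm
    have h3 := CharLoc.chP_inf_normalizer hT (le_normalizer.trans hNM) (CharLoc.chP_of_constrained h1 h2)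
    rwa [inf_eq_right.mpr hNM] at h3
  · haveI : Nontrivial T := (nontrivial_iff_ne_bot T).mpr hT1
    haveI hZ : Nontrivial (center T) := hT.center_nontrivial
    obtain ⟨z, hz⟩ := exists_ne (1 : center T)
    have hZp : IsPGroup 2 (center T) := hT.to_subgroup _
    have hd : 2 ∣ Nat.card (center T) := by
      obtain ⟨k, hk⟩ := IsPGroup.iff_card.mp hZp
      have h1 : 1 < Nat.card (center T) := Finite.one_lt_card
      rw [hk] at h1 ⊢
      exact dvd_pow_self 2 (by rintro rfl; simp at h1)
    obtain ⟨t, ht⟩ := exists_prime_orderOf_dvd_card' (p := 2) hd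
    have ht2 : orderOf ((t : T) : G) = 2 := by
      rw [Subgroup.orderOf_coe, Subgroup.orderOf_coe, ht]
    obtain ⟨h1, h2⟩ := h _ ht2
    refine CharLoc.chP_of_centralizer hT (t : T).2 ?_ (CharLoc.chP_of_constrained h1 h2)
    intro x hx
    rw [mem_centralizer_singleton_iff]
    have := mem_center_iff.mp t.2 ⟨x, hx⟩
    exact congrArg Subtype.val this

/-- Let G be a finite group whose Sylow 2-subgroup S has a self-centralizing normal subgroup of rank at least 3. Suppose that either every maximal 2-local subgroup of G is 2-constrained with no nontrivial normal subgroup of odd order, or the centralizer of every involution of G is 2-constrained with no nontrivial normal subgroup of odd order. Then S normalizes no nontrivial subgroup of G of odd order and every 2-local subgroup of G is 2-constrained. -/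
theorem result {G : Type*} [Group G] [Finite G]
    (S : Sylow 2 G) (A : Subgroup G) (hA : Cfsg.IsSCN (S : Subgroup G) A) (hA3 : ¬ Cfsg.PRankLE 2 2 ↥A)
    (h : (∀ M : Subgroup G, Cfsg.IsMaximalTwoLocal M → Cfsg.IsPConstrained 2 ↥M ∧ Cfsg.oddCore ↥M = ⊥) ∨
      (∀ t : G, orderOf t = 2 → Cfsg.IsPConstrained 2 ↥(Subgroup.centralizer ({t} : Set G)) ∧
        Cfsg.oddCore ↥(Subgroup.centralizer ({t} : Set G)) = ⊥)) :
    (∀ X : Subgroup G, Odd (Nat.card ↥X) → (S : Subgroup G) ≤ Subgroup.normalizer (X : Set G) → X = ⊥) ∧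
      (∀ T : Subgroup G, IsPGroup 2 ↥T → T ≠ ⊥ → Cfsg.IsPConstrained 2 ↥(Subgroup.normalizer (T : Set G))) := by
  haveI : Fact (Nat.Prime 2) := ⟨Nat.prime_two⟩
  have hall := all_chP h
  refine ⟨?_, fun T hT hT1 => CharLoc.constrained_of_chP (hall T hT hT1)⟩
  intro X hX hSX
  obtain ⟨hAS, hSA, hAc⟩ := hA
  have hAcomm : ∀ a ∈ A, ∀ b ∈ A, a * b = b * a := by
    intro a ha b hb
    rw [← hAc] at hb
    exact mem_centralizer_iff.mp (mem_inf.mp hb).2 a ha
  -- Ω₁(A)
  let W : Subgroup ↥(S : Subgroup G) :=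
    { carrier := {x | (x : G) ∈ A ∧ (x : G) ^ 2 = 1}
      one_mem' := ⟨A.one_mem, by simp⟩
      mul_mem' := by
        rintro x y ⟨hx, hx2⟩ ⟨hy, hy2⟩
        refine ⟨A.mul_mem hx hy, ?_⟩
        show ((x : G) * y) ^ 2 = 1
        rw [(show Commute (x : G) y from hAcomm _ hx _ hy).mul_pow, hx2, hy2, one_mul]
      inv_mem' := by
        rintro x ⟨hx, hx2⟩
        refine ⟨A.inv_mem hx, ?_⟩
        show ((x : G)⁻¹) ^ 2 = 1
        rw [inv_pow, hx2, inv_one] }
  haveI hWn : W.Normal := by
    refine ⟨fun w hw s => ?_⟩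
    obtain ⟨h1, h2⟩ := hw
    refine ⟨(mem_normalizer_iff.mp (hSA s.2) _).mp h1, ?_⟩
    show ((s : G) * w * (s : G)⁻¹) ^ 2 = 1
    rw [conj_pow, h2]; group
  have hWcard : 2 ^ 2 ≤ Nat.card W := by
    unfold PRankLE at hA3
    push Not at hA3
    obtain ⟨E, hE, hE2, hEc⟩ := hA3
    let f : E → W := fun e => ⟨⟨((e : A) : G), hAS (e : A).2⟩, (e : A).2, by
      have := hE2 e e.2
      exact congrArg Subtype.val this⟩
    have hf : Function.Injective f := by
      intro a b hab
      have := congrArg (fun t : W => ((t : ↥(S : Subgroup G)) : G)) hab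
      exact Subtype.ext (Subtype.ext this)
    exact hEc.le.trans (Nat.card_le_card_of_injective f hf)
  obtain ⟨K, hKW, hKn, hKc⟩ := H23.exists_normal_card S.isPGroup' W 2 hWcard
  haveI := hKn
  set U : Subgroup G := K.map (S : Subgroup G).subtype with hU
  have hUS : U ≤ (S : Subgroup G) := map_subtype_le K
  have hUc : Nat.card U = 4 := by
    rw [hU, H1.card_map_subtype, hKc]; norm_num
  have hU2 : ∀ u ∈ U, u ^ 2 = 1 := by
    rintro _ ⟨k, hk, rfl⟩
    exact (hKW hk).2
  have hUcomm : ∀ a ∈ U, ∀ b ∈ U, a * b = b * a := by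
    rintro _ ⟨a, ha, rfl⟩ _ ⟨b, hb, rfl⟩
    exact hAcomm _ (hKW ha).1 _ (hKW hb).1
  have hUM : IsMulCommutative U := ⟨⟨fun a b => Subtype.ext (hUcomm a a.2 b b.2)⟩⟩
  have hUnc : ¬ IsCyclic U := by
    intro hc
    obtain ⟨g, hg⟩ := IsCyclic.exists_ofOrder_eq_natCard (α := U)
    have h1 : (g : U) ^ 2 = 1 := Subtype.ext (hU2 g g.2)
    have h2 := orderOf_dvd_of_pow_eq_one h1
    rw [hg, hUc] at h2
    exact absurd (Nat.le_of_dvd (by norm_num) h2) (by norm_num)
  have hcop : (Nat.card U).Coprime (Nat.card X) := by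
    rw [hUc, show (4 : ℕ) = 2 ^ 2 by norm_num]
    exact Nat.Coprime.pow_left 2 (Nat.coprime_two_left.mpr hX)
  have hgen := H23.iSup_centralizer_of_not_isCyclic hUM hUnc (hUS.trans hSX) hcop
  rw [← hgen, eq_bot_iff]
  refine iSup_le fun a => ?_
  obtain ⟨u, hu, hu1⟩ := a
  have hu2 : orderOf u = 2 := orderOf_eq_prime (hU2 u hu) hu1
  rw [← eq_bot_iff]
  refine CharLoc.centralizer_inf_eq_bot S hX hSX ?_ ?_
  · -- index ≤ 2
    have hpow : ∃ k : ℕ, (centralizer ({u} : Set G)).relIndex (S : Subgroup G) = 2 ^ k := by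
      obtain ⟨k, hk⟩ := (S.2).index ((centralizer ({u} : Set G)).subgroupOf (S : Subgroup G))
      exact ⟨k, hk⟩
    have hle : (centralizer ({u} : Set G)).relIndex (S : Subgroup G) ≤ 3 := by
      -- cosets inject in U \ {1}
      show ((centralizer ({u} : Set G)).subgroupOf (S : Subgroup G)).index ≤ 3
      let C := (centralizer ({u} : Set G)).subgroupOf (S : Subgroup G)
      have hconj : ∀ s : ↥(S : Subgroup G), (s : G) * u * (s : G)⁻¹ ∈ U := by
        intro s
        obtain ⟨k, hk, hku⟩ := hu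
        exact ⟨s * k * s⁻¹, hKn.conj_mem k hk s, by rw [← hku]; rfl⟩
      let f : ↥(S : Subgroup G) ⧸ C → {x : U // x ≠ 1} := fun q =>
        Quotient.liftOn' q (fun s => ⟨⟨(s : G) * u * (s : G)⁻¹, hconj s⟩, by
          intro h
          have h1 : (s : G) * u * (s : G)⁻¹ = 1 := congrArg Subtype.val h
          exact hu1 (conj_eq_one_iff.mp h1)⟩) (by
          intro s s' hss
          rw [QuotientGroup.leftRel_apply] at hss
          have h1 : (s : G)⁻¹ * s' ∈ centralizer ({u} : Set G) := hss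
          rw [mem_centralizer_singleton_iff] at h1
          apply Subtype.ext
          apply Subtype.ext
          show (s : G) * u * (s : G)⁻¹ = (s' : G) * u * (s' : G)⁻¹
          have h2 : (s' : G) * u = s * (((s : G)⁻¹ * s') * u) := by group
          rw [h2, h1]; group)
      have hf : Function.Injective f := by
        intro q q'
        induction q using Quotient.inductionOn'
        induction q' using Quotient.inductionOn'
        rename_i s s'
        intro h
        have h1 : (s : G) * u * (s : G)⁻¹ = (s' : G) * u * (s' : G)⁻¹ :=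
          congrArg (fun t : {x : U // x ≠ 1} => ((t : U) : G)) h
        apply Quotient.sound'
        rw [QuotientGroup.leftRel_apply]
        show (s : G)⁻¹ * s' ∈ centralizer ({u} : Set G)
        rw [mem_centralizer_singleton_iff]
        calc (s : G)⁻¹ * s' * u = (s : G)⁻¹ * ((s' : G) * u * (s' : G)⁻¹) * s' := by group
          _ = u * ((s : G)⁻¹ * s') := by rw [← h1]; group
      have h1 : C.index ≤ Nat.card {x : U // x ≠ 1} := Nat.card_le_card_of_injective f hf
      have h2 : Nat.card {x : U // x ≠ 1} = 3 := by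
        classical
        haveI : Fintype U := Fintype.ofFinite U
        rw [Nat.card_eq_fintype_card, Fintype.card_subtype_compl, Fintype.card_subtype_eq,
          ← Nat.card_eq_fintype_card, hUc]
      exact h1.trans h2.le
    obtain ⟨k, hk⟩ := hpow
    rw [hk] at hle ⊢
    match k, hle with
    | 0, _ => norm_num
    | 1, _ => norm_num
    | k + 2, hle =>
      exfalso
      have : 4 ≤ 2 ^ (k + 2) := by
        rw [pow_add]; have := Nat.one_le_two_pow (n := k); omega
      omega
  · have h1 := hall (zpowers u) (IsPGroup.of_card (n := 1) (by rw [Nat.card_zpowers, hu2, pow_one])) (by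
      rw [Ne, zpowers_eq_bot]; exact hu1)
    have h2 : normalizer ((zpowers u : Subgroup G) : Set G) = centralizer ({u} : Set G) :=
      H13.normalizer_zpowers_of_order_two hu2
    rwa [h2] at h1

end Cfsg.Agent.S3246
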