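import Cfsg.Statements.S3247
import Mathlib
import Cfsg.Agent.H2.PCon
import Cfsg.Agent.H10.Basic
import Cfsg.Agent.S0631

set_option autoImplicit false
set_option linter.all false
open Cfsg

namespace Cfsg.Agent.S3247

theorem con_equiv {A B : Type*} [Group A] [Group B] [Finite A] [Finite B] {p : ℕ} [Fact p.Prime] (e : A ≃* B)
    (h : Cfsg.IsPConstrained p B) : Cfsg.IsPConstrained p A := by
  haveI := Cfsg.Agent.H1.pPrimeCore_normal p B
  refine Cfsg.Agent.H2.isPConstrained_of_surjective ((QuotientGroup.mk' (Cfsg.pPrimeCore p B)).comp e.toMonoidHom)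
    ((QuotientGroup.mk'_surjective _).comp e.surjective) ?_ (Cfsg.Agent.H10.isPConstrained_iff.1 h)
  have h1 : ((QuotientGroup.mk' (Cfsg.pPrimeCore p B)).comp e.toMonoidHom).ker =
      (Cfsg.pPrimeCore p B).map e.symm.toMonoidHom := by
    rw [← MonoidHom.comap_ker, QuotientGroup.ker_mk']
    ext x
    constructor
    · intro hx; exact ⟨e x, hx, e.symm_apply_apply x⟩
    · rintro ⟨y, hy, rfl⟩
      rw [Subgroup.mem_comap]
      have : e.toMonoidHom (e.symm.toMonoidHom y) = y := e.apply_symm_apply y
      rw [this]; exact hy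
  rw [h1, Subgroup.card_map_of_injective e.symm.injective]
  exact Cfsg.Agent.H1.pPrimeCore_coprime p B

theorem con_of_cent {G : Type*} [Group G] [Finite G] {p : ℕ} [Fact p.Prime] (T : Subgroup G) [hTn : T.Normal]
    (hT : IsPGroup p T) (h : Cfsg.IsPConstrained p ↥(Subgroup.centralizer (T : Set G))) :
    Cfsg.IsPConstrained p G := by
  haveI := Cfsg.Agent.H1.pPrimeCore_normal p G
  set N := Cfsg.pPrimeCore p G with hN
  have hNc : (Nat.card N).Coprime p := Cfsg.Agent.H1.pPrimeCore_coprime p G
  have h1 := Cfsg.Agent.H2.centralizer_map_mk (P := T) (N := N) hT hNc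
  set L := Subgroup.centralizer (T : Set G) with hL
  set D := Subgroup.centralizer ((T.map (QuotientGroup.mk' N) : Subgroup (G ⧸ N)) : Set (G ⧸ N)) with hD
  have hTnN : (T.map (QuotientGroup.mk' N)).Normal := Subgroup.Normal.map hTn _ (QuotientGroup.mk'_surjective N)
  have hDn : D.Normal := Subgroup.normal_centralizer
  have hLn : L.Normal := Subgroup.normal_centralizer
  have hker : (Cfsg.Agent.H2.resQ h1).ker = Cfsg.pPrimeCore p L := by
    rw [Cfsg.Agent.H2.resQ_ker]
    have h2 := Cfsg.Agent.H10.pPrimeCore_map_subtype p hLn.isSubnormal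
    have h3 := congrArg (Subgroup.comap L.subtype) h2
    rw [Subgroup.comap_map_eq_self_of_injective L.subtype_injective] at h3
    rw [h3]
    ext x
    simp [Subgroup.mem_subgroupOf, hN]
  have hcharD : Subgroup.centralizer (Cfsg.pCore p D : Set D) ≤ Cfsg.pCore p D := by
    haveI := Cfsg.Agent.H1.pPrimeCore_normal p L
    let e : L ⧸ Cfsg.pPrimeCore p L ≃* D :=
      (QuotientGroup.quotientMulEquivOfEq hker.symm).trans
        (QuotientGroup.quotientKerEquivOfSurjective _ (Cfsg.Agent.H2.resQ_surjective h1))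
    exact Cfsg.Agent.H10.charP_equiv e (Cfsg.Agent.H10.isPConstrained_iff.1 h)
  rw [Cfsg.Agent.H10.isPConstrained_iff]
  intro y hy
  have h4 := Cfsg.Agent.H10.pCore_map_subtype p hDn.isSubnormal
  have hyD : y ∈ D := by
    rw [hD, Subgroup.mem_centralizer_iff]
    intro t ht
    apply Subgroup.mem_centralizer_iff.1 hy
    exact (Cfsg.Agent.H1.le_pCore hTnN (hT.map _)) ht
  have h5 : (⟨y, hyD⟩ : D) ∈ Subgroup.centralizer (Cfsg.pCore p D : Set D) := by
    rw [Subgroup.mem_centralizer_iff]
    intro t ht
    apply Subtype.ext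
    apply Subgroup.mem_centralizer_iff.1 hy
    have : (t : G ⧸ N) ∈ (Cfsg.pCore p D).map D.subtype := ⟨t, ht, rfl⟩
    rw [h4] at this
    first | exact (Subgroup.mem_inf.1 this).1 | exact (Subgroup.mem_inf.1 this).2
  have h6 : y ∈ (Cfsg.pCore p D).map D.subtype := ⟨_, hcharD h5, rfl⟩
  rw [h4] at h6
  first | exact (Subgroup.mem_inf.1 h6).1 | exact (Subgroup.mem_inf.1 h6).2

theorem norm_map {G : Type*} [Group G] {T M : Subgroup G} (h : Subgroup.normalizer (T : Set G) ≤ M) :
    (Subgroup.normalizer ((T.subgroupOf M : Subgroup M) : Set M)).map M.subtype = Subgroup.normalizer (T : Set G) := by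
  have hTM : T ≤ M := Subgroup.le_normalizer.trans h
  apply le_antisymm
  · refine (Subgroup.le_normalizer_map _).trans ?_
    rw [Subgroup.subgroupOf_map_subtype, inf_eq_left.2 hTM]
  · intro x hx
    refine ⟨⟨x, h hx⟩, ?_, rfl⟩
    rw [SetLike.mem_coe, Subgroup.mem_normalizer_iff]
    intro y
    exact Subgroup.mem_normalizer_iff.1 hx y

theorem cent_map {G : Type*} [Group G] {T M : Subgroup G} (hTM : T ≤ M) (h : Subgroup.centralizer (T : Set G) ≤ M) :
    (Subgroup.centralizer ((T.subgroupOf M : Subgroup M) : Set M)).map M.subtype = Subgroup.centralizer (T : Set G) := by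
  apply le_antisymm
  · rintro _ ⟨x, hx, rfl⟩
    rw [Subgroup.mem_centralizer_iff]
    intro t ht
    exact congrArg Subtype.val (Subgroup.mem_centralizer_iff.1 hx ⟨t, hTM ht⟩ ht)
  · intro x hx
    refine ⟨⟨x, h hx⟩, ?_, rfl⟩
    rw [SetLike.mem_coe, Subgroup.mem_centralizer_iff]
    intro y hy
    exact Subtype.ext (Subgroup.mem_centralizer_iff.1 hx y hy)

/-- Let G be a finite group and p a prime; here a p-local subgroup means the normalizer of a nontrivial p-subgroup, other than G itself. If every p-local subgroup of G that is maximal among p-local subgroups is p-constrained, or if the centralizer of every element of order p of G is p-constrained, then every p-local subgroup of G is p-constrained. -/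
theorem result {G : Type*} [Group G] [Finite G] (p : ℕ) [hp : Fact p.Prime]
    (h : (∀ M : Subgroup G, (∃ T : Subgroup G, IsPGroup p ↥T ∧ T ≠ ⊥ ∧ M = Subgroup.normalizer (T : Set G)) → M ≠ ⊤ →
        (∀ M' : Subgroup G, (∃ T' : Subgroup G, IsPGroup p ↥T' ∧ T' ≠ ⊥ ∧ M' = Subgroup.normalizer (T' : Set G)) → M' ≠ ⊤ → M ≤ M' → M = M') →
        Cfsg.IsPConstrained p ↥M) ∨
      (∀ x : G, orderOf x = p → Cfsg.IsPConstrained p ↥(Subgroup.centralizer ({x} : Set G))))
    (T : Subgroup G) (hT : IsPGroup p ↥T) (hT1 : T ≠ ⊥) (hTG : Subgroup.normalizer (T : Set G) ≠ ⊤) :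
    Cfsg.IsPConstrained p ↥(Subgroup.normalizer (T : Set G)) := by
  rcases h with h | h
  · obtain ⟨M, hM, hmax⟩ := Set.Finite.exists_le_maximal
      (s := {M : Subgroup G | (∃ T : Subgroup G, IsPGroup p ↥T ∧ T ≠ ⊥ ∧ M = Subgroup.normalizer (T : Set G)) ∧ M ≠ ⊤})
      (Set.toFinite _) (show Subgroup.normalizer (T : Set G) ∈ _ from ⟨⟨T, hT, hT1, rfl⟩, hTG⟩)
    have h1 := h M hmax.1.1 hmax.1.2 (fun M' hM' hM'1 hle => le_antisymm hle (hmax.2 ⟨hM', hM'1⟩ hle))
    have h2 := (Cfsg.Agent.S0631.result h1 (T.subgroupOf M)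
      (hT.comap_of_injective M.subtype M.subtype_injective)).1
    let e := (Subgroup.normalizer ((T.subgroupOf M : Subgroup M) : Set M)).equivMapOfInjective M.subtype
      M.subtype_injective
    rw [norm_map hM] at e
    exact con_equiv e.symm h2
  · haveI : Nontrivial T := (Subgroup.nontrivial_iff_ne_bot T).2 hT1
    haveI := hT.center_nontrivial
    obtain ⟨⟨⟨x, hxT⟩, hxZ⟩, hx⟩ := exists_prime_orderOf_dvd_card' (G := Subgroup.center T) p
      ((hT.to_subgroup _).card_eq_or_dvd.resolve_left (by
        rw [Nat.card_eq_one_iff_unique]; rintro ⟨h1, -⟩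
        exact not_subsingleton _ h1))
    have hxp : orderOf x = p := by
      rw [← hx, Subgroup.orderOf_mk, Subgroup.orderOf_mk]
    have hc := h x hxp
    set M := Subgroup.centralizer ({x} : Set G) with hM
    have hTM : T ≤ M := by
      intro t ht
      rw [hM, Subgroup.mem_centralizer_singleton_iff]
      exact congrArg Subtype.val (Subgroup.mem_center_iff.1 hxZ ⟨t, ht⟩)
    have hCM : Subgroup.centralizer (T : Set G) ≤ M := by
      intro t ht
      rw [hM, Subgroup.mem_centralizer_singleton_iff]
      exact (Subgroup.mem_centralizer_iff.1 ht x hxT).symm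
    have h2 := (Cfsg.Agent.S0631.result hc (T.subgroupOf M)
      (hT.comap_of_injective M.subtype M.subtype_injective)).2
    let e := (Subgroup.centralizer ((T.subgroupOf M : Subgroup M) : Set M)).equivMapOfInjective M.subtype
      M.subtype_injective
    rw [cent_map hTM hCM] at e
    have h3 := con_equiv e.symm h2
    set N := Subgroup.normalizer (T : Set G) with hN
    have hTN : T ≤ N := Subgroup.le_normalizer
    let e' := (Subgroup.centralizer ((T.subgroupOf N : Subgroup N) : Set N)).equivMapOfInjective N.subtype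
      N.subtype_injective
    rw [cent_map hTN (Subgroup.centralizer_le_normalizer _)] at e'
    have h4 := con_equiv e' h3
    haveI : (T.subgroupOf N).Normal := Subgroup.normal_in_normalizer
    exact con_of_cent (T.subgroupOf N) (hT.comap_of_injective N.subtype N.subtype_injective) h4

end Cfsg.Agent.S3247
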