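import Cfsg.Statements.S3261
import Cfsg.Agent.H9.BSWQ
import Cfsg.Agent.H4.DihEquiv

set_option autoImplicit false
open Cfsg


namespace Cfsg.Agent.S3261


open H9.BSW H9.BSW.Alt6 in
/-- the centralizer of `t6` in `A6` is dihedral of order 8 -/
theorem cent_t6 : Nonempty (Subgroup.centralizer ({t6} : Set A6) ≃* DihedralGroup 4) := by
  have hd := d8
  have ho : orderOf a6 = 4 := by
    have := hd.card
    rwa [Nat.card_zpowers] at this
  refine H4.dihedral_equiv (a := a6) (b := s6) (hd.le (Subgroup.mem_zpowers a6)) ?_ ho hd.s2 s6_inv hd.sA ?_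
  · rw [Subgroup.mem_centralizer_singleton_iff]; exact hd.st
  · intro g hg
    rw [Subgroup.mem_centralizer_singleton_iff] at hg
    rcases hd.cent g hg with h | h
    · exact Or.inl h
    · right
      have h1 := hd.inv _ h
      have h2 : s6 * g = (g * s6)⁻¹ := by
        rw [← h1]
        have h3 : s6⁻¹ = s6 := inv_eq_of_mul_eq_one_left hd.s2
        rw [h3, mul_assoc, mul_assoc, hd.s2, mul_one]
      rw [h2]
      exact inv_mem h

open H9.BSW H9.BSW.Alt6 in
theorem cent_equiv (αt : A6) (hαt : orderOf αt = 2) (hsupp : (αt : Equiv.Perm (Fin 6)).support.card = 4) :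
    Nonempty (Subgroup.centralizer ({αt} : Set A6) ≃* Subgroup.centralizer ({t6} : Set A6)) := by
  have hct : ∀ p : Equiv.Perm (Fin 6), orderOf p = 2 → p.support.card = 4 → p.cycleType = {2, 2} := by
    intro p hp hs
    obtain ⟨n, hn⟩ := Equiv.Perm.cycleType_prime_order (σ := p) (by rw [hp]; exact Nat.prime_two)
    have h1 := Equiv.Perm.sum_cycleType p
    rw [hn, hs, Multiset.sum_replicate, hp] at h1
    have h2 : n = 1 := by
      simp only [smul_eq_mul] at h1
      omega
    rw [hn, h2, hp]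
    rfl
  have h1 : (αt : Equiv.Perm (Fin 6)).cycleType = {2, 2} := hct _ (by rw [Subgroup.orderOf_coe, hαt]) hsupp
  have h2 : (tp : Equiv.Perm (Fin 6)).cycleType = {2, 2} := by
    apply hct
    · exact orderOf_eq_prime (by rw [pow_two]; exact tp_sq) tp_ne
    · decide +kernel
  have h3 : IsConj (tp : Equiv.Perm (Fin 6)) (αt : Equiv.Perm (Fin 6)) := by
    rw [Equiv.Perm.isConj_iff_cycleType_eq, h1, h2]
  obtain ⟨σ, hσ⟩ := isConj_iff.mp h3
  let φ : A6 ≃* A6 := MulAut.conjNormal σ
  have hφ : ∀ x : A6, ((φ x : A6) : Equiv.Perm (Fin 6)) = σ * x * σ⁻¹ := fun x => MulAut.conjNormal_apply _ _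
  have hφt : φ t6 = αt := by
    apply Subtype.ext
    rw [hφ]
    exact hσ
  have hmap : (Subgroup.centralizer ({t6} : Set A6)).map φ.toMonoidHom = Subgroup.centralizer ({αt} : Set A6) := by
    ext x
    constructor
    · rintro ⟨y, hy, rfl⟩
      rw [SetLike.mem_coe, Subgroup.mem_centralizer_singleton_iff] at hy
      rw [Subgroup.mem_centralizer_singleton_iff, ← hφt]
      change φ y * φ t6 = φ t6 * φ y
      rw [← map_mul, ← map_mul, hy]
    · intro hx
      rw [Subgroup.mem_centralizer_singleton_iff] at hx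
      refine ⟨φ.symm x, ?_, ?_⟩
      · rw [SetLike.mem_coe, Subgroup.mem_centralizer_singleton_iff]
        apply φ.injective
        rw [map_mul, map_mul, MulEquiv.apply_symm_apply, hφt, hx]
      · exact φ.apply_symm_apply x
  exact ⟨((φ.subgroupMap (Subgroup.centralizer ({t6} : Set A6))).trans (MulEquiv.subgroupCongr hmap)).symm⟩

/-- Let α̃ be an involution of the alternating group A₆ that is a product of two disjoint transpositions (it lies in the centre of a Sylow 2-subgroup of A₆; its centralizer is dihedral of order 8). Let G be a finite group that has no subgroup of index 2 and contains an involution α, central in some Sylow 2-subgroup of G, with C_G(α) ≅ C_{A₆}(α̃). Then G is isomorphic to A₆ or to PSL₂(7). -/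
theorem result {G : Type*} [Group G] [Finite G]
    (hG : ∀ H : Subgroup G, H.index ≠ 2)
    (αt : ↥(alternatingGroup (Fin 6))) (hαt : orderOf αt = 2) (hsupp : (αt : Equiv.Perm (Fin 6)).support.card = 4)
    (α : G) (hα : orderOf α = 2) (S : Sylow 2 G) (hαS : α ∈ (S : Subgroup G)) (hαc : ∀ s ∈ (S : Subgroup G), s * α = α * s)
    (e : ↥(Subgroup.centralizer ({α} : Set G)) ≃* ↥(Subgroup.centralizer ({αt} : Set ↥(alternatingGroup (Fin 6))))) :
    Nonempty (G ≃* ↥(alternatingGroup (Fin 6))) ∨
      (∃ (F : Type) (_ : Field F) (_ : Fintype F), Fintype.card F = 7 ∧ Nonempty (G ≃* Matrix.ProjectiveSpecialLinearGroup (Fin 2) F)) := by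
  obtain ⟨e1⟩ := cent_t6
  obtain ⟨e2⟩ := cent_equiv αt hαt hsupp
  obtain ⟨A, s, hd⟩ := H9.BSW.D8.of_iso hα ((e.trans e2).trans e1)
  obtain ⟨P, hP, hAP, hrel⟩ := hd.sylow
  have hone := H9.BSW.one_class (fun M _ => hG M) P hAP hrel (fun x hx hx2 => hd.uniq hx hx2)
  rcases H9.BSW.psl_of_four (hd.setup hone) with ⟨_, F, hF, hFt, h9, ⟨h⟩⟩ | ⟨_, h7⟩
  · left
    obtain ⟨F', hF', hFt', h9', ⟨h'⟩⟩ := H9.BSW.Alt6.psl
    obtain ⟨i⟩ := H9.BSW.psl_iso_of_card (F := F) (F' := F') (by rw [h9, h9'])
    exact ⟨(h.trans i).trans h'.symm⟩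
  · right
    exact h7


end Cfsg.Agent.S3261
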