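import Cfsg.Statements.S3266
import Cfsg.Agent.H12.OddGr2

set_option autoImplicit false
open Cfsg

namespace Cfsg.Agent.S3266

open H12.OG H16

theorem aux {F : Type*} [Field F] [Fintype F]
    (t : Matrix.ProjectiveSpecialLinearGroup (Fin 2) F) (ht : orderOf t = 2)
    {A : Matrix.SpecialLinearGroup (Fin 2) F} (hA : (A : Matrix (Fin 2) (Fin 2) F).trace = 0)
    (hAs : ¬ IsScal (A : Matrix (Fin 2) (Fin 2) F)) : IsConj t (pr A) := by
  obtain ⟨T, rfl, h1, h2⟩ := lift_inv ht
  exact MonoidHom.map_isConj (QuotientGroup.mk' _) (conj_inv h1 h2 hA hAs)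

theorem aux2 {G : Type*} [Group G] {t x : G} (ht : orderOf t = 2) (hx : IsConj t x) :
    orderOf x = 2 := by
  obtain ⟨c, hc⟩ := isConj_iff.1 hx
  have h1 : x = MulAut.conj c t := hc.symm
  rw [h1, ← ht]
  exact orderOf_injective (MulAut.conj c).toMonoidHom (MulAut.conj c).injective t

theorem aux4 {G : Type*} [Group G] {x : G} (hx : orderOf x = 2) : x * x = 1 := by
  rw [← pow_two, ← hx, pow_orderOf_eq_one]

theorem aux3 {G : Type*} [Group G] {x y : G} (hx : orderOf x = 2) (hy : orderOf y = 2) :
    orderOf (y * x) = orderOf (x * y) := by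
  have h1 : x⁻¹ = x := by
    apply inv_eq_of_mul_eq_one_right
    rw [← pow_two, ← hx, pow_orderOf_eq_one]
  have h2 : y⁻¹ = y := by
    apply inv_eq_of_mul_eq_one_right
    rw [← pow_two, ← hy, pow_orderOf_eq_one]
  rw [← orderOf_inv (x * y), mul_inv_rev, h1, h2]

/-- Let F be a finite field with at least 4 elements and let X be a conjugacy class of involutions of PSL(2, F). The graph on X joining two distinct involutions whose product has odd order is connected and has diameter exactly 2. -/
theorem result {F : Type*} [Field F] [Fintype F] (hF : 4 ≤ Fintype.card F)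
    (t : Matrix.ProjectiveSpecialLinearGroup (Fin 2) F) (ht : orderOf t = 2) :
    (SimpleGraph.fromRel fun x y : {x : Matrix.ProjectiveSpecialLinearGroup (Fin 2) F // IsConj t x} =>
        Odd (orderOf (x.1 * y.1))).Connected ∧
      (SimpleGraph.fromRel fun x y : {x : Matrix.ProjectiveSpecialLinearGroup (Fin 2) F // IsConj t x} =>
        Odd (orderOf (x.1 * y.1))).diam = 2 := by
  apply diam_two
  · rintro ⟨x, hx⟩ ⟨y, hy⟩ hxy
    obtain ⟨A, rfl, hA, hAs⟩ := lift_inv (aux2 ht hx)
    obtain ⟨C, rfl, hC, hCs⟩ := lift_inv (aux2 ht hy)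
    rcases good hF hA hAs hC hCs with h | ⟨B, hB, h1, h2, h3, h4⟩
    · left
      rw [SimpleGraph.fromRel_adj]
      refine ⟨hxy, Or.inl ?_⟩
      exact h
    · right
      have hBs : ¬ IsScal (B : Matrix (Fin 2) (Fin 2) F) := by
        intro h
        have h5 : pr (A * B) = pr A := by
          have : pr B = 1 := pr_eq_one.2 h
          have h6 : pr (A * B) = pr A * pr B := map_mul _ A B
          rw [h6, this, mul_one]
        rw [h5, order_inv hA hAs] at h1
        exact absurd h1 (by decide)
      refine ⟨⟨pr B, aux t ht hB hBs⟩, ?_, ?_⟩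
      · rw [SimpleGraph.fromRel_adj]
        refine ⟨?_, Or.inl ?_⟩
        · intro h; exact h3 (congrArg Subtype.val h).symm
        · exact h1
      · rw [SimpleGraph.fromRel_adj]
        refine ⟨?_, Or.inl ?_⟩
        · intro h; exact h4 (congrArg Subtype.val h)
        · exact h2
  · obtain ⟨A, C, hA, hAs, hC, hCs, hAC, hACs⟩ := exists_nonadj hF
    have h1 := order_inv hAC hACs
    have h1' : orderOf (pr A * pr C) = 2 := h1
    refine ⟨⟨pr A, aux t ht hA hAs⟩, ⟨pr C, aux t ht hC hCs⟩, ?_, ?_⟩
    · intro h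
      have h2 : pr A = pr C := congrArg Subtype.val h
      have h3 : pr A * pr C = 1 := by
        rw [← h2]
        exact aux4 (order_inv hA hAs)
      rw [h3, orderOf_one] at h1'
      omega
    · rw [SimpleGraph.fromRel_adj]
      rintro ⟨-, h | h⟩
      · have h2 : Odd (orderOf (pr A * pr C)) := h
        rw [h1'] at h2
        exact absurd h2 (by decide)
      · have h2 : Odd (orderOf (pr C * pr A)) := h
        rw [aux3 (order_inv hA hAs) (order_inv hC hCs), h1'] at h2
        exact absurd h2 (by decide)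

end Cfsg.Agent.S3266
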