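import Cfsg.Statements.S3276
import Cfsg.Agent.H20.Basic
import Cfsg.Agent.H20.ElemAb

set_option autoImplicit false
open Cfsg

namespace Cfsg.Agent.S3276

/-- If the product of two involutions has even order, some involution commutes with both. -/
theorem exists_common {G : Type*} [Group G] [Finite G] (x t : G) (hx : x ^ 2 = 1) (ht : t ^ 2 = 1)
    (he : Even (orderOf (x * t))) : ∃ u : G, orderOf u = 2 ∧ Commute u x ∧ Commute u t := by
  obtain ⟨k, hk⟩ := he
  have hpos := orderOf_pos (x * t)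
  have hxi : x⁻¹ = x := by rw [inv_eq_iff_mul_eq_one, ← pow_two, hx]
  have hti : t⁻¹ = t := by rw [inv_eq_iff_mul_eq_one, ← pow_two, ht]
  have hu : orderOf ((x * t) ^ k) = 2 := by
    rw [orderOf_pow, hk]
    have h1 : Nat.gcd (k + k) k = k := by
      have : k ∣ k + k := ⟨2, by ring⟩
      exact Nat.gcd_eq_right this
    rw [h1]
    have hk0 : 0 < k := by omega
    rw [← two_mul]; exact Nat.mul_div_cancel _ hk0
  have hinv : ((x * t) ^ k)⁻¹ = (x * t) ^ k := by
    rw [inv_eq_iff_mul_eq_one, ← pow_two]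
    have := pow_orderOf_eq_one ((x * t) ^ k)
    rwa [hu] at this
  have hcx : x * (x * t) ^ k * x⁻¹ = (x * t) ^ k := by
    rw [← conj_pow]
    have : x * (x * t) * x⁻¹ = (x * t)⁻¹ := by
      rw [mul_inv_rev, hxi, hti]
      calc x * (x * t) * x = (x ^ 2) * (t * x) := by rw [pow_two]; simp only [mul_assoc]
        _ = t * x := by rw [hx, one_mul]
    rw [this, inv_pow, hinv]
  have hct : t * (x * t) ^ k * t⁻¹ = (x * t) ^ k := by
    rw [← conj_pow]
    have : t * (x * t) * t⁻¹ = (x * t)⁻¹ := by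
      rw [mul_inv_rev, hxi, hti]
      calc t * (x * t) * t = t * x * (t ^ 2) := by rw [pow_two]; simp only [mul_assoc]
        _ = t * x := by rw [ht, mul_one]
    rw [this, inv_pow, hinv]
  refine ⟨(x * t) ^ k, hu, ?_, ?_⟩
  · exact (mul_inv_eq_iff_eq_mul.mp hcx).symm
  · exact (mul_inv_eq_iff_eq_mul.mp hct).symm

/-- Two involutions whose product has odd order are conjugate. -/
theorem conj_of_odd {G : Type*} [Group G] [Finite G] (x t : G) (hx : x ^ 2 = 1) (ht : t ^ 2 = 1)
    (he : Odd (orderOf (x * t))) : IsConj x t := by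
  obtain ⟨k, hk⟩ := he
  have hxi : x⁻¹ = x := by rw [inv_eq_iff_mul_eq_one, ← pow_two, hx]
  have hti : t⁻¹ = t := by rw [inv_eq_iff_mul_eq_one, ← pow_two, ht]
  have h1 : (x * t) ^ (2 * k + 1) = 1 := by rw [← hk]; exact pow_orderOf_eq_one _
  have hinvt : t * (x * t) ^ k * t⁻¹ = ((x * t) ^ k)⁻¹ := by
    rw [← conj_pow, ← inv_pow]
    congr 1
    rw [mul_inv_rev, hxi, hti]
    calc t * (x * t) * t = t * x * (t ^ 2) := by rw [pow_two]; simp only [mul_assoc]
      _ = t * x := by rw [ht, mul_one]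
  rw [isConj_iff]
  refine ⟨(x * t) ^ k, ?_⟩
  -- (xt)^k x (xt)^{-k} = t  ;  x = (xt) t
  have hx2 : x = (x * t) * t := by
    rw [mul_assoc, ← pow_two, ht, mul_one]
  have h2 : t * ((x * t) ^ k)⁻¹ = (x * t) ^ k * t := by
    have h3 := congrArg (·⁻¹) hinvt
    simp only [mul_inv_rev, inv_inv] at h3
    rw [← mul_assoc] at h3
    exact mul_inv_eq_iff_eq_mul.mp h3
  calc (x * t) ^ k * x * ((x * t) ^ k)⁻¹ = (x * t) ^ k * ((x * t) * t) * ((x * t) ^ k)⁻¹ := by
        rw [← hx2]
    _ = (x * t) ^ k * (x * t) * (t * ((x * t) ^ k)⁻¹) := by simp only [mul_assoc]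
    _ = (x * t) ^ k * (x * t) * ((x * t) ^ k * t) := by rw [h2]
    _ = ((x * t) ^ (2 * k + 1)) * t := by
        rw [← mul_assoc, mul_assoc ((x*t)^k), ← pow_succ', ← pow_add]; congr 2; ring
    _ = t := by rw [h1, one_mul]

/-- Let x and y be commuting, non-conjugate involutions of a finite group G, and suppose that for every involution u commuting with x, each conjugate of y that commutes with u also commutes with y. Then the normal closure of y is a proper, normal, elementary abelian 2-subgroup of G; and if y is the only involution of that normal closure commuting with x, it has order at most 4. -/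
theorem result {G : Type*} [Group G] [Finite G] (x y : G) (hx : orderOf x = 2) (hy : orderOf y = 2)
    (hxy : Commute x y) (hnc : ¬ IsConj x y)
    (hstar : ∀ u : G, orderOf u = 2 → Commute u x → ∀ g : G, Commute (g * y * g⁻¹) u → Commute (g * y * g⁻¹) y) :
    Subgroup.normalClosure ({y} : Set G) ≠ ⊤ ∧ Cfsg.IsElementaryAbelian 2 (Subgroup.normalClosure ({y} : Set G)) ∧
      ((∀ u ∈ Subgroup.normalClosure ({y} : Set G), orderOf u = 2 → Commute u x → u = y) →
        Nat.card ↥(Subgroup.normalClosure ({y} : Set G)) ≤ 4) := by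
  have hx2 : x ^ 2 = 1 := by rw [← hx]; exact pow_orderOf_eq_one x
  have hy2 : y ^ 2 = 1 := by rw [← hy]; exact pow_orderOf_eq_one y
  have hcomm : ∀ g : G, Commute (g * y * g⁻¹) y := by
    intro g
    have hyg : (g * y * g⁻¹) ^ 2 = 1 := by rw [conj_pow, hy2]; simp
    rcases Nat.even_or_odd (orderOf (x * (g * y * g⁻¹))) with h | h
    · obtain ⟨u, hu, hux, huy⟩ := exists_common x _ hx2 hyg h
      exact hstar u hu hux g huy.symm
    · exfalso
      have h1 := conj_of_odd x _ hx2 hyg h
      apply hnc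
      refine h1.trans ?_
      exact (isConj_iff.mpr ⟨g, rfl⟩ : IsConj y (g * y * g⁻¹)).symm
  have hcomm2 : ∀ a ∈ Group.conjugatesOfSet ({y} : Set G), ∀ b ∈ Group.conjugatesOfSet ({y} : Set G),
      a * b = b * a := by
    intro a ha b hb
    rw [Group.mem_conjugatesOfSet_iff] at ha hb
    obtain ⟨y1, h1, h2⟩ := ha
    obtain ⟨y2, h3, h4⟩ := hb
    rw [Set.mem_singleton_iff] at h1 h3
    rw [h1, isConj_iff] at h2
    rw [h3, isConj_iff] at h4
    obtain ⟨c, rfl⟩ := h2
    obtain ⟨d, rfl⟩ := h4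
    have h5 := hcomm (d⁻¹ * c)
    have h6 : (d * ((d⁻¹ * c) * y * (d⁻¹ * c)⁻¹) * d⁻¹) * (d * y * d⁻¹)
        = (d * y * d⁻¹) * (d * ((d⁻¹ * c) * y * (d⁻¹ * c)⁻¹) * d⁻¹) := by
      have := congrArg (fun z => d * z * d⁻¹) h5.eq
      simp only [mul_assoc] at this ⊢
      simpa using this
    have h7 : d * ((d⁻¹ * c) * y * (d⁻¹ * c)⁻¹) * d⁻¹ = c * y * c⁻¹ := by group
    rwa [h7] at h6
  have hN : IsElementaryAbelian 2 (Subgroup.normalClosure ({y} : Set G)) := by
    unfold Subgroup.normalClosure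
    apply H20.isElementaryAbelian_closure hcomm2
    intro a ha
    rw [Group.mem_conjugatesOfSet_iff] at ha
    obtain ⟨y1, h1, h2⟩ := ha
    rw [Set.mem_singleton_iff] at h1
    rw [h1, isConj_iff] at h2
    obtain ⟨c, rfl⟩ := h2
    rw [conj_pow, hy2]; simp
  have hyN : y ∈ Subgroup.normalClosure ({y} : Set G) :=
    Subgroup.subset_normalClosure (Set.mem_singleton y)
  have hN' := H20.isElementaryAbelian_iff.mp hN
  refine ⟨?_, hN, ?_⟩
  · intro htop
    have hab : ∀ a b : G, a * b = b * a := fun a b =>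
      hN'.1 a (htop ▸ Subgroup.mem_top a) b (htop ▸ Subgroup.mem_top b)
    have h1 : Subgroup.normalClosure ({y} : Set G) ≤ Subgroup.zpowers y := by
      have : (Subgroup.zpowers y).Normal := ⟨fun n hn g => by
        have : g * n * g⁻¹ = n := by rw [hab g n, mul_inv_cancel_right]
        rwa [this]⟩
      apply Subgroup.normalClosure_le_normal
      rw [Set.singleton_subset_iff]
      exact Subgroup.mem_zpowers y
    have h2 : x ∈ Subgroup.zpowers y := h1 (htop ▸ Subgroup.mem_top x)
    have h3 : x = y := by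
      rcases H20.mem_zpowers_of_orderOf_two hy h2 with h | h
      · rw [h, orderOf_one] at hx; omega
      · exact h
    exact hnc (h3 ▸ IsConj.refl x)
  · intro huniq
    set N := Subgroup.normalClosure ({y} : Set G) with hNdef
    -- map n ↦ n * (x n x⁻¹)
    have hNn : N.Normal := Subgroup.normalClosure_normal
    have hxi : x⁻¹ = x := by rw [inv_eq_iff_mul_eq_one, ← pow_two, hx2]
    have hcx : ∀ n ∈ N, n * x = x * n → n = 1 ∨ n = y := by
      intro n hn hc
      by_cases h1 : n = 1
      · exact Or.inl h1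
      · right
        exact huniq n hn (orderOf_eq_prime (hN'.2 n hn) h1) hc
    let f : N →* N :=
      { toFun := fun n => ⟨n * (x * n * x⁻¹), mul_mem n.2 (hNn.conj_mem _ n.2 x)⟩
        map_one' := by apply Subtype.ext; simp
        map_mul' := by
          rintro ⟨a, ha⟩ ⟨b, hb⟩
          apply Subtype.ext
          change a * b * (x * (a * b) * x⁻¹) = a * (x * a * x⁻¹) * (b * (x * b * x⁻¹))
          have h1 := hN'.1 _ (hNn.conj_mem a ha x) b hb
          calc a * b * (x * (a * b) * x⁻¹) = a * (b * (x * a * x⁻¹)) * (x * b * x⁻¹) := by group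
            _ = a * ((x * a * x⁻¹) * b) * (x * b * x⁻¹) := by rw [h1]
            _ = _ := by group }
    have hsub : ∀ n : N, (n : G) * x = x * n → n = 1 ∨ n = ⟨y, hyN⟩ := by
      intro n hn
      rcases hcx n n.2 hn with h | h
      · left; exact Subtype.ext h
      · right; exact Subtype.ext h
    have hker : ∀ n ∈ f.ker, n = 1 ∨ n = ⟨y, hyN⟩ := by
      intro n hn
      apply hsub
      have h1 : (n : G) * (x * n * x⁻¹) = 1 := congrArg Subtype.val (MonoidHom.mem_ker.mp hn)
      have h2 : (n : G)⁻¹ = n := by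
        rw [inv_eq_iff_mul_eq_one, ← pow_two]; exact hN'.2 n n.2
      have h3 : x * n * x⁻¹ = n := by
        have := eq_inv_of_mul_eq_one_right h1
        rw [this, h2]
      rw [mul_inv_eq_iff_eq_mul] at h3
      exact h3.symm
    have hrange : ∀ n ∈ f.range, n = 1 ∨ n = ⟨y, hyN⟩ := by
      rintro _ ⟨m, rfl⟩
      apply hsub
      change (m : G) * (x * m * x⁻¹) * x = x * (m * (x * m * x⁻¹))
      have h1 := hN'.1 _ (hNn.conj_mem (m : G) m.2 x) m m.2
      rw [← h1]
      calc x * m * x⁻¹ * m * x = x * (m * (x⁻¹ * m * x)) := by group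
        _ = x * (m * (x * m * x⁻¹)) := by rw [hxi]
        _ = _ := by rw [h1]
    have hc2 : ∀ K : Subgroup N, (∀ n ∈ K, n = 1 ∨ n = ⟨y, hyN⟩) → Nat.card K ≤ 2 := by
      intro K hK
      have : (K : Set N) ⊆ {1, ⟨y, hyN⟩} := fun n hn => by
        rcases hK n hn with h | h <;> simp [h]
      calc Nat.card K = Set.ncard (K : Set N) := rfl
        _ ≤ Set.ncard ({1, ⟨y, hyN⟩} : Set N) := Set.ncard_le_ncard this
        _ ≤ 2 := (Set.ncard_insert_le _ _).trans (by rw [Set.ncard_singleton])
    have h5 : Nat.card N = Nat.card f.range * Nat.card f.ker := by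
      rw [← Nat.card_congr (QuotientGroup.quotientKerEquivRange f).toEquiv]
      exact Subgroup.card_eq_card_quotient_mul_card_subgroup f.ker
    rw [h5]
    calc _ ≤ 2 * 2 := Nat.mul_le_mul (hc2 _ hrange) (hc2 _ hker)
      _ = 4 := rfl

end Cfsg.Agent.S3276
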