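import Cfsg.Statements.S3277
import Cfsg.Agent.H20.Klein3
import Cfsg.Agent.H4.Isolated
import Cfsg.Agent.H2.Basic

set_option autoImplicit false
open Cfsg
open Subgroup

namespace Cfsg.Agent.S3277

theorem four_set {G : Type*} [Group G] [Finite G] {V : Subgroup G} (hV4 : Nat.card V = 4) (hVe : ∀ c ∈ V, c * c = 1)
    {a b : G} (ha : a ∈ V) (hb : b ∈ V) (ha1 : a ≠ 1) (hb1 : b ≠ 1) (hab : a ≠ b) :
    ∀ c ∈ V, c = 1 ∨ c = a ∨ c = b ∨ c = a * b := by
  classical
  have h1 : ({1, a, b, a * b} : Finset G).card = 4 := by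
    rw [Finset.card_insert_of_notMem, Finset.card_insert_of_notMem, Finset.card_insert_of_notMem, Finset.card_singleton]
    · rw [Finset.mem_singleton]
      intro h
      exact ha1 (right_eq_mul.1 h)
    · rw [Finset.mem_insert, Finset.mem_singleton]
      rintro (h | h)
      · exact hab h
      · exact hb1 (left_eq_mul.1 h)
    · rw [Finset.mem_insert, Finset.mem_insert, Finset.mem_singleton]
      rintro (h | h | h)
      · exact ha1 h.symm
      · exact hb1 h.symm
      · apply hab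
        have h2 := hVe b hb
        calc a = a * (b * b) := by rw [h2, mul_one]
          _ = (a * b) * b := by rw [mul_assoc]
          _ = b := by rw [← h, one_mul]
  have h2 : (({1, a, b, a * b} : Finset G) : Set G) ⊆ (V : Set G) := by
    intro c hc
    simp only [Finset.coe_insert, Finset.coe_singleton, Set.mem_insert_iff, Set.mem_singleton_iff] at hc
    rcases hc with rfl | rfl | rfl | rfl
    · exact one_mem _
    · exact ha
    · exact hb
    · exact mul_mem ha hb
  have h3 : (V : Set G).ncard ≤ (({1, a, b, a * b} : Finset G) : Set G).ncard := by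
    rw [Set.ncard_coe_finset, h1]
    exact hV4.le
  have h4 := Set.eq_of_subset_of_ncard_le h2 h3 (Set.toFinite _)
  intro c hc
  have h5 : c ∈ (({1, a, b, a * b} : Finset G) : Set G) := by rw [h4]; exact hc
  simpa only [Finset.coe_insert, Finset.coe_singleton, Set.mem_insert_iff, Set.mem_singleton_iff] using h5

theorem comm_of_sq {G : Type*} [Group G] {V : Subgroup G} (hVe : ∀ c ∈ V, c * c = 1) {c d : G} (hc : c ∈ V) (hd : d ∈ V) :
    c * d = d * c := by
  have h1 := hVe _ (mul_mem hc hd)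
  have h2 : c⁻¹ = c := inv_eq_of_mul_eq_one_left (hVe c hc)
  have h3 : d⁻¹ = d := inv_eq_of_mul_eq_one_left (hVe d hd)
  calc c * d = (c * d)⁻¹ := (inv_eq_of_mul_eq_one_left h1).symm
    _ = d * c := by rw [mul_inv_rev, h2, h3]

theorem exists_inv {G : Type*} [Group G] [Finite G] {x v : G} (hx : x * x = 1) (hv : v * v = 1) (hxv : ¬ IsConj x v) :
    ∃ j : G, j * j = 1 ∧ j ≠ 1 ∧ j * x = x * j ∧ j * v = v * j := by
  obtain ⟨w, hw⟩ : ∃ w, w = x * v := ⟨_, rfl⟩
  have hx' : x⁻¹ = x := inv_eq_of_mul_eq_one_left hx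
  have hv' : v⁻¹ = v := inv_eq_of_mul_eq_one_left hv
  have heven : Even (orderOf w) := by
    rw [← Nat.not_odd_iff_even]
    intro hodd
    rw [hw] at hodd
    obtain ⟨k, hk⟩ := Cfsg.Agent.H4.conj_of_odd hx hv hodd
    exact hxv (isConj_iff.2 ⟨_, hk⟩)
  obtain ⟨m, hm⟩ := heven
  have hmpos : 0 < m := by
    have := orderOf_pos w
    omega
  have hw2 : w ^ m * w ^ m = 1 := by rw [← pow_add, ← hm, pow_orderOf_eq_one]
  have hwm : (w ^ m)⁻¹ = w ^ m := inv_eq_of_mul_eq_one_left hw2
  have h1 : x * w * x⁻¹ = w⁻¹ := by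
    rw [hw, mul_inv_rev, hv', hx', ← mul_assoc, hx, one_mul]
  have h2 : v * w * v⁻¹ = w⁻¹ := by
    rw [hw, mul_inv_rev, hv', hx', mul_assoc, mul_assoc, hv, mul_one]
  refine ⟨w ^ m, hw2, ?_, ?_, ?_⟩
  · intro h
    have := orderOf_dvd_of_pow_eq_one h
    have := Nat.le_of_dvd hmpos this
    omega
  · have h3 : x * w ^ m * x⁻¹ = w ^ m := by rw [← conj_pow, h1, inv_pow, hwm]
    calc w ^ m * x = (x * w ^ m * x⁻¹) * x := by rw [h3]
      _ = x * w ^ m := by group
  · have h3 : v * w ^ m * v⁻¹ = w ^ m := by rw [← conj_pow, h2, inv_pow, hwm]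
    calc w ^ m * v = (v * w ^ m * v⁻¹) * v := by rw [h3]
      _ = v * w ^ m := by group

theorem case_two {G : Type*} [Group G] [Finite G] (x : G) (hx : orderOf x = 2) (V : Subgroup G)
    (hV : ∀ c, c ∈ V ↔ c * x = x * c) (hV4 : Nat.card V = 4) (hVe : ∀ c ∈ V, c * c = 1)
    {g : G} (hg : g ∈ normalizer (V : Set G)) (hgV : g ∉ V) {k : ℕ} (hgo : orderOf g = 2 ^ k) :
    ∃ E : Subgroup G, E.Normal ∧ Cfsg.IsElementaryAbelian 2 E ∧ (Nat.card E = 2 ∨ Nat.card E = 4) := by
  have hx1 : x ≠ 1 := by rintro rfl; rw [orderOf_one] at hx; omega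
  have hxx : x * x = 1 := by rw [← pow_two, ← hx, pow_orderOf_eq_one]
  have hxV : x ∈ V := (hV x).2 rfl
  have hgc : ∀ c ∈ V, g * c * g⁻¹ ∈ V := fun c hc => (mem_normalizer_iff.1 hg c).1 hc
  have hcomm : ∀ c ∈ V, ∀ d ∈ V, c * d = d * c := fun c hc d hd => comm_of_sq hVe hc hd
  obtain ⟨b, hb⟩ : ∃ b, b = g * x * g⁻¹ := ⟨_, rfl⟩
  have hbV : b ∈ V := by rw [hb]; exact hgc x hxV
  have hbx : x ≠ b := by
    intro h
    apply hgV
    rw [hV]
    calc g * x = (g * x * g⁻¹) * g := by group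
      _ = x * g := by rw [← hb, ← h]
  have hb1 : b ≠ 1 := by
    intro h
    rw [hb] at h
    exact hx1 (by simpa using h)
  have hfour := four_set hV4 hVe hxV hbV hx1 hb1 hbx
  obtain ⟨z, hz⟩ : ∃ z, z = x * b := ⟨_, rfl⟩
  rw [← hz] at hfour
  have hzV : z ∈ V := by rw [hz]; exact mul_mem hxV hbV
  have hz1 : z ≠ 1 := by
    intro h
    apply hbx
    have h2 := hVe b hbV
    calc x = x * (b * b) := by rw [h2, mul_one]
      _ = (x * b) * b := by rw [mul_assoc]
      _ = b := by rw [← hz, h, one_mul]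
  have hzz := hVe z hzV
  have hgz : g * z * g⁻¹ = z := by
    have h1 : g * z * g⁻¹ = b * (g * b * g⁻¹) := by rw [hz, hb]; group
    rcases hfour _ (hgc b hbV) with h | h | h | h
    · exfalso; exact hb1 (by simpa using h)
    · rw [h1, h, hz]; exact hcomm b hbV x hxV
    · exfalso
      apply hbx
      rw [hb] at h
      have : g * x * g⁻¹ = x := by
        calc g * x * g⁻¹ = g⁻¹ * (g * (g * x * g⁻¹) * g⁻¹) * g := by group
          _ = g⁻¹ * (g * x * g⁻¹) * g := by rw [h]
          _ = x := by group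
      rw [hb, this]
    · exfalso
      have h2 : g * z * g⁻¹ = x := by
        rw [h1, h, hz, hcomm x hxV b hbV, ← mul_assoc, hVe b hbV, one_mul]
      have h3 : g ^ 3 * x * (g ^ 3)⁻¹ = x := by
        calc g ^ 3 * x * (g ^ 3)⁻¹ = g * (g * (g * x * g⁻¹) * g⁻¹) * g⁻¹ := by
              simp [pow_succ, mul_assoc]
          _ = x := by rw [← hb, h, h2]
      have h4 : g ^ 3 ∈ V := by
        rw [hV]
        calc g ^ 3 * x = (g ^ 3 * x * (g ^ 3)⁻¹) * g ^ 3 := by group
          _ = x * g ^ 3 := by rw [h3]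
      have h5 := hVe _ h4
      have h6 : g ^ 6 = 1 := by rw [← h5, ← pow_add]
      have h7 := orderOf_dvd_of_pow_eq_one h6
      rw [hgo] at h7
      have h8 : 2 ^ k ∣ 2 := by
        have h9 : Nat.Coprime (2 ^ k) 3 := Nat.Coprime.pow_left k (by norm_num)
        exact h9.dvd_of_dvd_mul_right (n := 3) (m := 2) (by simpa using h7)
      rw [← hgo] at h8
      have h9 : g ^ 2 = 1 := orderOf_dvd_iff_pow_eq_one.1 h8
      apply hgV
      rw [pow_succ, h9, one_mul] at h4
      exact h4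
  have hcb : ∀ c : G, c * b = b * c → g⁻¹ * c * g ∈ V := by
    intro c hc
    rw [hV]
    have h1 : g * (g⁻¹ * c * g * x) * g⁻¹ = g * (x * (g⁻¹ * c * g)) * g⁻¹ := by
      calc g * (g⁻¹ * c * g * x) * g⁻¹ = c * (g * x * g⁻¹) := by group
        _ = (g * x * g⁻¹) * c := by rw [← hb, hc]
        _ = g * (x * (g⁻¹ * c * g)) * g⁻¹ := by group
    exact mul_left_cancel (mul_right_cancel h1)
  have hzx : ¬ IsConj x z := by
    intro h
    obtain ⟨c, hc⟩ := isConj_iff.1 h
    obtain ⟨W, hW⟩ : ∃ W : Subgroup G, W = centralizer ({z} : Set G) := ⟨_, rfl⟩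
    have hWm : ∀ d, d ∈ W ↔ d * z = z * d := by
      intro d
      rw [hW, mem_centralizer_singleton_iff]
    have hVW : V ≤ W := fun d hd => (hWm d).2 (hcomm d hd z hzV)
    have hcard : Nat.card W ≤ Nat.card V := by
      refine Nat.card_le_card_of_injective (fun d : W => (⟨c⁻¹ * d.1 * c, ?_⟩ : V)) ?_
      · rw [hV]
        have h1 := (hWm _).1 d.2
        rw [← hc] at h1
        have h2 : c * (c⁻¹ * d.1 * c * x) * c⁻¹ = c * (x * (c⁻¹ * d.1 * c)) * c⁻¹ := by
          calc c * (c⁻¹ * d.1 * c * x) * c⁻¹ = d.1 * (c * x * c⁻¹) := by group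
            _ = (c * x * c⁻¹) * d.1 := h1
            _ = _ := by group
        exact mul_left_cancel (mul_right_cancel h2)
      · intro d e hde
        have h1 := congrArg Subtype.val hde
        exact Subtype.ext (mul_left_cancel (mul_right_cancel h1))
    have hVW2 : V = W := Subgroup.eq_of_le_of_card_ge hVW hcard
    apply hgV
    rw [hVW2, hWm]
    calc g * z = (g * z * g⁻¹) * g := by group
      _ = z * g := by rw [hgz]
  have key : ∀ v : G, v * v = 1 → v ≠ 1 → ¬ IsConj x v → z * v = v * z := by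
    intro v hvv hv1 hvx
    obtain ⟨j, hjj, hj1, hjx, hjv⟩ := exists_inv hxx hvv hvx
    have hxv : x * v = v * x → z * v = v * z := by
      intro h
      rcases hfour v ((hV v).2 h.symm) with h1 | h1 | h1 | h1
      · exact absurd h1 hv1
      · rw [h1] at hvx; exact absurd (IsConj.refl x) hvx
      · exact absurd (isConj_iff.2 ⟨g, by rw [h1, hb]⟩) hvx
      · rw [h1]
    rcases hfour j ((hV j).2 hjx) with h | h | h | h
    · exact absurd h hj1
    · rw [h] at hjv
      exact hxv hjv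
    · rw [h] at hjv hjx
      have h1 := hcb v hjv.symm
      have h2 := hcb x hjx.symm
      have h3 := hcomm _ h2 _ h1
      apply hxv
      have h4 : g⁻¹ * (x * v) * g = g⁻¹ * (v * x) * g := by
        calc g⁻¹ * (x * v) * g = (g⁻¹ * x * g) * (g⁻¹ * v * g) := by group
          _ = (g⁻¹ * v * g) * (g⁻¹ * x * g) := h3
          _ = _ := by group
      exact mul_left_cancel (mul_right_cancel h4)
    · rw [h] at hjv
      exact hjv
  -- the conjugates of z commute
  have hconj : ∀ c : G, (c * z * c⁻¹) * (c * z * c⁻¹) = 1 ∧ c * z * c⁻¹ ≠ 1 ∧ ¬ IsConj x (c * z * c⁻¹) := by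
    intro c
    refine ⟨?_, ?_, ?_⟩
    · calc (c * z * c⁻¹) * (c * z * c⁻¹) = c * (z * z) * c⁻¹ := by group
        _ = 1 := by rw [hzz]; group
    · intro h; exact hz1 (by simpa using h)
    · intro h
      exact hzx (h.trans (isConj_iff.2 ⟨c⁻¹, by group⟩))
  have hcc : ∀ c d : G, (c * z * c⁻¹) * (d * z * d⁻¹) = (d * z * d⁻¹) * (c * z * c⁻¹) := by
    intro c d
    obtain ⟨h1, h2, h3⟩ := hconj (c⁻¹ * d)
    have h4 := key _ h1 h2 h3
    calc (c * z * c⁻¹) * (d * z * d⁻¹) = c * (z * ((c⁻¹ * d) * z * (c⁻¹ * d)⁻¹)) * c⁻¹ := by group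
      _ = c * (((c⁻¹ * d) * z * (c⁻¹ * d)⁻¹) * z) * c⁻¹ := by rw [h4]
      _ = _ := by group
  obtain ⟨E, hE⟩ : ∃ E : Subgroup G, E = normalClosure ({z} : Set G) := ⟨_, rfl⟩
  have hEn : E.Normal := by rw [hE]; infer_instance
  have hS : ∀ h : G, h ∈ Group.conjugatesOfSet ({z} : Set G) → ∃ c, h = c * z * c⁻¹ := by
    intro h hh
    rw [Group.mem_conjugatesOfSet_iff] at hh
    obtain ⟨a, ha, hah⟩ := hh
    rw [Set.mem_singleton_iff] at ha
    rw [ha] at hah
    obtain ⟨c, hc⟩ := isConj_iff.1 hah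
    exact ⟨c, hc.symm⟩
  have hE1 : E ≤ centralizer (Group.conjugatesOfSet ({z} : Set G)) := by
    rw [hE, normalClosure, closure_le]
    intro h hh
    obtain ⟨c, rfl⟩ := hS h hh
    rw [SetLike.mem_coe, mem_centralizer_iff]
    intro k hk
    obtain ⟨d, rfl⟩ := hS k hk
    exact hcc d c
  have hEcent : E ≤ centralizer (E : Set G) := by
    conv_lhs => rw [hE, normalClosure]
    rw [closure_le]
    intro h hh
    rw [SetLike.mem_coe, mem_centralizer_iff]
    intro k hk
    exact ((mem_centralizer_iff.1 (hE1 hk)) h hh).symm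
  have hEc : ∀ a ∈ E, ∀ b ∈ E, a * b = b * a := fun a ha b hb => (mem_centralizer_iff.1 (hEcent hb)) a ha
  have hE2 : ∀ a ∈ E, a * a = 1 := by
    have h1 : ∀ a ∈ closure (Group.conjugatesOfSet ({z} : Set G)), a * a = 1 := by
      intro a ha
      induction ha using closure_induction with
      | mem h hh => obtain ⟨c, rfl⟩ := hS h hh; exact (hconj c).1
      | one => exact one_mul 1
      | mul a b ha hb iha ihb =>
        have h2 : a * b = b * a := hEc a (by rw [hE]; exact ha) b (by rw [hE]; exact hb)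
        calc a * b * (a * b) = a * (b * a) * b := by simp only [mul_assoc]
          _ = (a * a) * (b * b) := by rw [← h2]; simp only [mul_assoc]
          _ = 1 := by rw [iha, ihb, one_mul]
      | inv a ha iha =>
        rw [← mul_inv_rev, iha, inv_one]
    intro a ha
    rw [hE] at ha
    exact h1 a ha
  have hzE : z ∈ E := by rw [hE]; exact subset_normalClosure (Set.mem_singleton z)
  have h2E : 2 ∣ Nat.card E := by
    haveI : Fact (Nat.Prime 2) := ⟨Nat.prime_two⟩
    have h1 : orderOf (⟨z, hzE⟩ : E) = 2 := by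
      rw [Subgroup.orderOf_mk]
      exact orderOf_eq_prime (by rw [pow_two]; exact hzz) hz1
    rw [← h1]; exact orderOf_dvd_natCard _
  refine ⟨E, hEn, ⟨⟨⟨fun a b => Subtype.ext (hEc a a.2 b b.2)⟩⟩, fun a ha => by rw [pow_two]; exact hE2 a ha⟩, ?_⟩
  have hEpos : 0 < Nat.card E := Nat.card_pos
  by_cases hxE : x ∈ E
  · have h1 : E ≤ V := fun e he => (hV e).2 (hEc e he x hxE)
    have h3 : Nat.card E ≤ 4 := by
      rw [← hV4]; exact Subgroup.card_le_of_le h1
    obtain ⟨m, hm⟩ := h2E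
    have : Nat.card E ≠ 0 := hEpos.ne'
    omega
  · -- the commutator map
    obtain ⟨K, hK⟩ : ∃ K : Subgroup E, K = V.subgroupOf E := ⟨_, rfl⟩
    have hK2 : Nat.card K ≤ 2 := by
      have h1 : Nat.card K ≤ Nat.card (V ⊓ E : Subgroup G) := by
        refine Nat.card_le_card_of_injective (fun k : K => (⟨k.1.1, ?_⟩ : (V ⊓ E : Subgroup G))) ?_
        · refine ⟨?_, k.1.2⟩
          exact mem_subgroupOf.1 (hK.le k.2)
        · intro a b hab
          have h : ((a : E) : G) = ((b : E) : G) := congrArg (fun w : (V ⊓ E : Subgroup G) => (w : G)) hab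
          exact Subtype.ext (Subtype.ext h)
      have h3 : Nat.card (V ⊓ E : Subgroup G) ∣ 4 := by
        rw [← hV4]; exact Subgroup.card_dvd_of_le inf_le_left
      have h4 : Nat.card (V ⊓ E : Subgroup G) ≠ 4 := by
        intro h
        have h5 : V ⊓ E = V := Subgroup.eq_of_le_of_card_ge inf_le_left (by rw [h, hV4])
        exact hxE (inf_eq_left.1 h5 hxV)
      have h5 := Nat.le_of_dvd (by norm_num) h3
      have h6 : Nat.card (V ⊓ E : Subgroup G) ≠ 3 := by
        intro h; rw [h] at h3; norm_num at h3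
      omega
    obtain ⟨f, hf⟩ : ∃ f : E →* E, ∀ e : E, ((f e : E) : G) = x * e * x⁻¹ * (e : G)⁻¹ := by
      refine ⟨{ toFun := fun e => ⟨x * e * x⁻¹ * (e : G)⁻¹, mul_mem (hEn.conj_mem e e.2 x) (inv_mem e.2)⟩
                map_one' := Subtype.ext (by simp)
                map_mul' := ?_ }, fun e => rfl⟩
      intro a b
      apply Subtype.ext
      show x * (a * b : G) * x⁻¹ * (a * b : G)⁻¹ = (x * a * x⁻¹ * (a : G)⁻¹) * (x * b * x⁻¹ * (b : G)⁻¹)
      have h1 := hEc _ (inv_mem a.2) _ (mul_mem (hEn.conj_mem b b.2 x) (inv_mem b.2))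
      calc x * (a * b : G) * x⁻¹ * (a * b : G)⁻¹ = (x * a * x⁻¹) * ((x * b * x⁻¹ * (b : G)⁻¹) * (a : G)⁻¹) := by group
        _ = (x * a * x⁻¹) * ((a : G)⁻¹ * (x * b * x⁻¹ * (b : G)⁻¹)) := by rw [h1]
        _ = _ := by group
    have hker : f.ker ≤ K := by
      intro e he
      rw [hK, mem_subgroupOf, hV]
      have h1 := congrArg Subtype.val (MonoidHom.mem_ker.1 he)
      rw [hf] at h1
      have h2 : x * (e : G) * x⁻¹ * (e : G)⁻¹ = 1 := h1
      calc (e : G) * x = (x * (e : G) * x⁻¹ * (e : G)⁻¹) * e * x := by rw [h2, one_mul]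
        _ = x * e := by group
    have hran : f.range ≤ K := by
      rintro _ ⟨e, rfl⟩
      rw [hK, mem_subgroupOf, hV, hf]
      have h1 : (x * (e : G) * x⁻¹ * (e : G)⁻¹)⁻¹ = x * (e : G) * x⁻¹ * (e : G)⁻¹ := by
        have := hE2 _ (mul_mem (hEn.conj_mem e e.2 x) (inv_mem e.2))
        exact inv_eq_of_mul_eq_one_left this
      have hx' : x⁻¹ = x := inv_eq_of_mul_eq_one_left hxx
      calc x * (e : G) * x⁻¹ * (e : G)⁻¹ * x = (x * (e : G) * x⁻¹ * (e : G)⁻¹)⁻¹ * x := by rw [h1]
        _ = (e : G) * x * (e : G)⁻¹ * x⁻¹ * x := by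
            rw [mul_inv_rev, mul_inv_rev, mul_inv_rev, inv_inv, inv_inv]; simp only [mul_assoc]
        _ = x * (x * e * x⁻¹ * (e : G)⁻¹) := by
            rw [hx', mul_assoc _ x x, hxx, mul_one]
            calc (e : G) * x * (e : G)⁻¹ = (x * x) * (e * x * (e : G)⁻¹) := by rw [hxx, one_mul]
              _ = _ := by simp only [mul_assoc]
    have h1 := Subgroup.card_mul_index f.ker
    rw [Subgroup.index_ker] at h1
    have h3 : Nat.card f.ker ≤ 2 := (Subgroup.card_le_of_le hker).trans hK2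
    have h4 : Nat.card f.range ≤ 2 := (Subgroup.card_le_of_le hran).trans hK2
    have h5 : Nat.card E ≤ 2 * 2 := by rw [← h1]; exact Nat.mul_le_mul h3 h4
    obtain ⟨m, hm⟩ := h2E
    omega

theorem case_one {G : Type*} [Group G] [Finite G] (x : G) (hx : orderOf x = 2) (V : Subgroup G)
    (hV : ∀ c, c ∈ V ↔ c * x = x * c) (hV4 : Nat.card V = 4) (hVe : ∀ c ∈ V, c * c = 1)
    (P : Sylow 2 G) (hP : (P : Subgroup G) = V) (hnc : ¬ Cfsg.HasNormalPComplement 2 G) :
    (∀ s t : G, orderOf s = 2 → orderOf t = 2 → IsConj s t) ∧ (Nat.card G = 12 → V.Normal) := by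
  haveI : Fact (Nat.Prime 2) := ⟨Nat.prime_two⟩
  have hx1 : x ≠ 1 := by rintro rfl; rw [orderOf_one] at hx; omega
  have hxx : x * x = 1 := by rw [← pow_two, ← hx, pow_orderOf_eq_one]
  have hxV : x ∈ V := (hV x).2 rfl
  have hcomm : ∀ c ∈ V, ∀ d ∈ V, c * d = d * c := fun c hc d hd => comm_of_sq hVe hc hd
  have hnle : ¬ normalizer ((P : Subgroup G) : Set G) ≤ centralizer ((P : Subgroup G) : Set G) := by
    intro hle
    exact hnc ⟨P, _, inferInstance, MonoidHom.ker_transferSylow_isComplement' P hle⟩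
  obtain ⟨g, hg, hgc⟩ := SetLike.not_le_iff_exists.1 hnle
  rw [hP] at hg hgc
  have hgV : g ∉ V := fun h => hgc (mem_centralizer_iff.2 fun c hc => (hcomm c hc g h))
  have hgm : ∀ c ∈ V, g * c * g⁻¹ ∈ V := fun c hc => (mem_normalizer_iff.1 hg c).1 hc
  -- no 2-element in the normalizer outside V
  have hno : ∀ k : ℕ, orderOf g ≠ 2 ^ k := by
    intro k hk
    have h1 : IsPGroup 2 (zpowers g) := by
      apply IsPGroup.of_card (n := k)
      rw [Nat.card_zpowers, hk]
    have h2 := h1.inf_normalizer_sylow P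
    have h3 : g ∈ zpowers g ⊓ normalizer (P : Set G) :=
      ⟨mem_zpowers g, by show g ∈ normalizer ((P : Subgroup G) : Set G); rw [hP]; exact hg⟩
    rw [h2] at h3
    apply hgV
    rw [← hP]
    exact h3.2
  have hmove : ∀ c ∈ V, c ≠ 1 → g * c * g⁻¹ ≠ c := by
    intro c hc hc1 hcg
    -- pick another element
    obtain ⟨a, ha, ha1, hac⟩ : ∃ a ∈ V, a ≠ 1 ∧ a ≠ c := by
      by_contra hcon
      push Not at hcon
      have h1 : (V : Set G) ⊆ ({1, c} : Set G) := by
        intro a ha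
        by_cases ha1 : a = 1
        · exact Or.inl ha1
        · exact Or.inr (hcon a ha ha1)
      have h2 := Set.ncard_le_ncard h1 (Set.toFinite _)
      have h3 : ({1, c} : Set G).ncard ≤ 2 := (Set.ncard_insert_le 1 {c}).trans (by rw [Set.ncard_singleton])
      have h4 : (V : Set G).ncard = 4 := hV4
      omega
    have hfour := four_set hV4 hVe hc ha hc1 ha1 (Ne.symm hac)
    have h5 : g ^ 2 * a * (g ^ 2)⁻¹ = a := by
      have e : g ^ 2 * a * (g ^ 2)⁻¹ = g * (g * a * g⁻¹) * g⁻¹ := by simp [pow_succ, mul_assoc]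
      rw [e]
      rcases hfour _ (hgm a ha) with h | h | h | h
      · exact absurd (by simpa using h) ha1
      · exfalso
        apply hac
        rw [← hcg] at h
        exact mul_left_cancel (mul_right_cancel h)
      · rw [h, h]
      · rw [h]
        calc g * (c * a) * g⁻¹ = (g * c * g⁻¹) * (g * a * g⁻¹) := by group
          _ = c * (c * a) := by rw [hcg, h]
          _ = a := by rw [← mul_assoc, hVe c hc, one_mul]
    have h6 : g ^ 2 * c * (g ^ 2)⁻¹ = c := by
      have e : g ^ 2 * c * (g ^ 2)⁻¹ = g * (g * c * g⁻¹) * g⁻¹ := by simp [pow_succ, mul_assoc]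
      rw [e, hcg, hcg]
    have h7 : ∀ d ∈ V, g ^ 2 * d * (g ^ 2)⁻¹ = d := by
      intro d hd
      rcases hfour d hd with h | h | h | h
      · rw [h]; group
      · rw [h]; exact h6
      · rw [h]; exact h5
      · rw [h]
        calc g ^ 2 * (c * a) * (g ^ 2)⁻¹ = (g ^ 2 * c * (g ^ 2)⁻¹) * (g ^ 2 * a * (g ^ 2)⁻¹) := by group
          _ = c * a := by rw [h5, h6]
    have h8 : g ^ 2 ∈ V := by
      rw [hV]
      calc g ^ 2 * x = (g ^ 2 * x * (g ^ 2)⁻¹) * g ^ 2 := by group
        _ = x * g ^ 2 := by rw [h7 x hxV]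
    have h9 : g ^ 2 ^ 2 = 1 := by
      have := hVe _ h8
      rw [← pow_add] at this
      simpa using this
    obtain ⟨k, -, hk⟩ := (Nat.dvd_prime_pow Nat.prime_two).1 (orderOf_dvd_of_pow_eq_one h9)
    exact hno k hk
  obtain ⟨b, hb⟩ : ∃ b, b = g * x * g⁻¹ := ⟨_, rfl⟩
  have hbV : b ∈ V := by rw [hb]; exact hgm x hxV
  have hb1 : b ≠ 1 := by
    intro h
    rw [hb] at h
    exact hx1 (by simpa using h)
  have hbx : x ≠ b := by rw [hb]; exact (hmove x hxV hx1).symm
  have hfour := four_set hV4 hVe hxV hbV hx1 hb1 hbx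
  have hgb : g * b * g⁻¹ = x * b := by
    rcases hfour _ (hgm b hbV) with h | h | h | h
    · exact absurd (by simpa using h) hb1
    · exfalso
      have h1 : x * b ≠ 1 := by
        intro h2
        apply hbx
        have h3 := hVe b hbV
        calc x = x * (b * b) := by rw [h3, mul_one]
          _ = (x * b) * b := by rw [mul_assoc]
          _ = b := by rw [h2, one_mul]
      apply hmove (x * b) (mul_mem hxV hbV) h1
      calc g * (x * b) * g⁻¹ = (g * x * g⁻¹) * (g * b * g⁻¹) := by group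
        _ = b * x := by rw [← hb, h]
        _ = x * b := hcomm b hbV x hxV
    · exact absurd h (hmove b hbV hb1)
    · exact h
  have hxall : ∀ v ∈ V, v ≠ 1 → IsConj x v := by
    intro v hv hv1
    have h1 : IsConj x b := isConj_iff.2 ⟨g, hb.symm⟩
    rcases hfour v hv with h | h | h | h
    · exact absurd h hv1
    · rw [h]
    · rw [h]; exact h1
    · rw [h]; exact h1.trans (isConj_iff.2 ⟨g, hgb⟩)
  have hxt : ∀ t : G, orderOf t = 2 → IsConj x t := by
    intro t ht
    have h1 : IsPGroup 2 (zpowers t) := by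
      apply IsPGroup.of_card (n := 1)
      rw [Nat.card_zpowers, ht, pow_one]
    obtain ⟨Q, hQ⟩ := h1.exists_le_sylow
    obtain ⟨c, hc⟩ := MulAction.exists_smul_eq G Q P
    have h2 : c * t * c⁻¹ ∈ V := by
      rw [← hP, ← hc]
      exact ⟨t, hQ (mem_zpowers t), rfl⟩
    have h3 : c * t * c⁻¹ ≠ 1 := by
      intro h
      have h4 : t = 1 := by simpa using h
      rw [h4, orderOf_one] at ht
      omega
    exact (hxall _ h2 h3).trans (isConj_iff.2 ⟨c⁻¹, by group⟩)
  refine ⟨fun s t hs ht => (hxt s hs).symm.trans (hxt t ht), ?_⟩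
  intro h12
  have h1 : V ≤ normalizer (V : Set G) := le_normalizer
  have h2 : 4 ∣ Nat.card (normalizer (V : Set G)) := by rw [← hV4]; exact Subgroup.card_dvd_of_le h1
  have h3 : Nat.card (normalizer (V : Set G)) ∣ 12 := by rw [← h12]; exact Subgroup.card_subgroup_dvd_card _
  have h4 : Nat.card (normalizer (V : Set G)) ≠ 4 := by
    intro h
    have h5 : V = normalizer (V : Set G) := Subgroup.eq_of_le_of_card_ge h1 (by rw [h, hV4])
    exact hgV (by rw [h5]; exact hg)
  have h5 : Nat.card (normalizer (V : Set G)) = 12 := by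
    obtain ⟨m, hm⟩ := h2
    rw [hm] at h3 h4 ⊢
    have h6 : m ∣ 3 := by
      have : 4 * m ∣ 4 * 3 := h3
      exact Nat.dvd_of_mul_dvd_mul_left (by norm_num) this
    rcases (Nat.dvd_prime Nat.prime_three).1 h6 with h | h
    · subst h; omega
    · subst h; rfl
  have h6 : normalizer (V : Set G) = ⊤ := Subgroup.eq_top_of_card_eq _ (by rw [h5, h12])
  exact normalizer_eq_top_iff.1 h6

/-- Let G be a finite group containing an involution whose centralizer is elementary abelian of order 4. If G has no normal 2-complement and no normal elementary abelian 2-subgroup of order 2 or 4, then G is isomorphic to the alternating group of degree 5 (that is, to PSL(2, 5)). -/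
theorem result {G : Type*} [Group G] [Finite G] (x : G) (hx : orderOf x = 2)
    (hC4 : Nat.card ↥(Subgroup.centralizer ({x} : Set G)) = 4) (hCe : ∀ c ∈ Subgroup.centralizer ({x} : Set G), c ^ 2 = 1)
    (hnc : ¬ Cfsg.HasNormalPComplement 2 G)
    (hne : ∀ E : Subgroup G, E.Normal → Cfsg.IsElementaryAbelian 2 E → Nat.card ↥E ≠ 2 ∧ Nat.card ↥E ≠ 4) :
    Nonempty (G ≃* ↥(alternatingGroup (Fin 5))) := by
  haveI : Fact (Nat.Prime 2) := ⟨Nat.prime_two⟩
  obtain ⟨V, hVd⟩ : ∃ V : Subgroup G, V = centralizer ({x} : Set G) := ⟨_, rfl⟩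
  have hV : ∀ c, c ∈ V ↔ c * x = x * c := by
    intro c
    rw [hVd, mem_centralizer_singleton_iff]
  have hV4 : Nat.card V = 4 := by rw [hVd]; exact hC4
  have hVe : ∀ c ∈ V, c * c = 1 := by
    intro c hc
    rw [hVd] at hc
    rw [← pow_two]; exact hCe c hc
  have hVp : IsPGroup 2 V := IsPGroup.of_card (n := 2) (by rw [hV4]; norm_num)
  obtain ⟨P, hP⟩ := hVp.exists_le_sylow
  by_cases hPV : (P : Subgroup G) = V
  · obtain ⟨hone, h12⟩ := case_one x hx V hV hV4 hVe P hPV hnc
    have hK : IsKleinFour (centralizer ({x} : Set G)) := by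
      have hcomm : ∀ c ∈ V, c * c = 1 := hVe
      refine { card_four := hC4, exponent_two := ?_ }
      refine (Nat.Prime.eq_one_or_self_of_dvd Nat.prime_two _ (Monoid.exponent_dvd_of_forall_pow_eq_one (fun c => Subtype.ext (hCe c c.2)))).resolve_left ?_
      intro h
      have h1 := Monoid.exp_eq_one_iff.1 h
      have h2 : Nat.card (centralizer ({x} : Set G)) = 1 := Nat.card_of_subsingleton 1
      omega
    rcases Cfsg.Agent.H20.klein_centralizer hx hK hone with h | h
    · exfalso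
      have h1 := h12 h
      exact (hne V h1 ⟨⟨⟨fun a b => Subtype.ext (comm_of_sq hVe a.2 b.2)⟩⟩, fun a ha => by rw [pow_two]; exact hVe a ha⟩).2 hV4
    · exact h
  · exfalso
    obtain ⟨g, hgP, hgN, hgV⟩ := Cfsg.Agent.H2.exists_mem_normalizer_not_mem P.2 (lt_of_le_of_ne hP (Ne.symm hPV))
    obtain ⟨k, hk⟩ := (IsPGroup.iff_orderOf.1 P.2) ⟨g, hgP⟩
    have hk' : orderOf g = 2 ^ k := by
      have h1 : orderOf (⟨g, hgP⟩ : (P : Subgroup G)) = orderOf g := Subgroup.orderOf_mk g hgP
      rw [← h1]; exact hk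
    obtain ⟨E, h1, h2, h3⟩ := case_two x hx V hV hV4 hVe hgN hgV hk'
    rcases h3 with h3 | h3
    · exact (hne E h1 h2).1 h3
    · exact (hne E h1 h2).2 h3

end Cfsg.Agent.S3277
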