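import Cfsg.Statements.S3279
import Cfsg.Agent.H4.ZStarF
import Cfsg.Agent.H4.Isolated

set_option autoImplicit false
open Cfsg


namespace Cfsg.Agent.S3279


/-- four distinct involutions commuting with `x`. -/
theorem four {G : Type*} [Group G] [Finite G] {x : G} (hx : orderOf x = 2)
    (h3 : Nat.card {u : ↥(Subgroup.centralizer ({x} : Set G)) // orderOf u = 2} ≤ 3)
    {a b c : G} (ha : orderOf a = 2) (hb : orderOf b = 2) (hc : orderOf c = 2)
    (cax : a * x = x * a) (cbx : b * x = x * b) (ccx : c * x = x * c)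
    (hax : a ≠ x) (hbx : b ≠ x) (hcx : c ≠ x) (hab : a ≠ b) (hac : a ≠ c) (hbc : b ≠ c) : False := by
  classical
  have mem : ∀ u : G, u * x = x * u → u ∈ Subgroup.centralizer ({x} : Set G) := by
    intro u hu
    rw [Subgroup.mem_centralizer_singleton_iff]
    exact hu
  let I := {u : ↥(Subgroup.centralizer ({x} : Set G)) // orderOf u = 2}
  have mk : ∀ u : G, u * x = x * u → orderOf u = 2 → ∃ i : I, ((i.1 : ↥(Subgroup.centralizer ({x} : Set G))) : G) = u := by
    intro u hu ho
    refine ⟨⟨⟨u, mem u hu⟩, ?_⟩, rfl⟩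
    rw [← ho, ← Subgroup.orderOf_coe]
  obtain ⟨ix, hix⟩ := mk x rfl hx
  obtain ⟨ia, hia⟩ := mk a cax ha
  obtain ⟨ib, hib⟩ := mk b cbx hb
  obtain ⟨ic, hic⟩ := mk c ccx hc
  have inj : ∀ i j : I, i = j → ((i.1 : ↥(Subgroup.centralizer ({x} : Set G))) : G) = ((j.1 : ↥(Subgroup.centralizer ({x} : Set G))) : G) := by
    intro i j h; rw [h]
  have e1 : ix ≠ ia := fun h => hax (hia.symm.trans ((inj _ _ h.symm).trans hix))
  have e2 : ix ≠ ib := fun h => hbx (hib.symm.trans ((inj _ _ h.symm).trans hix))
  have e3 : ix ≠ ic := fun h => hcx (hic.symm.trans ((inj _ _ h.symm).trans hix))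
  have e4 : ia ≠ ib := fun h => hab (hia.symm.trans ((inj _ _ h).trans hib))
  have e5 : ia ≠ ic := fun h => hac (hia.symm.trans ((inj _ _ h).trans hic))
  have e6 : ib ≠ ic := fun h => hbc (hib.symm.trans ((inj _ _ h).trans hic))
  haveI : Fintype I := Fintype.ofFinite I
  have hcard : Fintype.card I ≤ 3 := by
    rw [← Nat.card_eq_fintype_card]; exact h3
  have h4 : ({ix, ia, ib, ic} : Finset I).card = 4 := by
    rw [Finset.card_insert_of_notMem, Finset.card_insert_of_notMem, Finset.card_insert_of_notMem,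
      Finset.card_singleton]
    · simpa using e6
    · simp [e4, e5]
    · simp [e1, e2, e3]
  have h5 := Finset.card_le_univ ({ix, ia, ib, ic} : Finset I)
  omega

/-- the transported form to conjugates. -/
theorem four' {G : Type*} [Group G] [Finite G] {x : G} (hx : orderOf x = 2)
    (h3 : Nat.card {u : ↥(Subgroup.centralizer ({x} : Set G)) // orderOf u = 2} ≤ 3)
    {y : G} (hxy : IsConj x y)
    {a b c : G} (ha : orderOf a = 2) (hb : orderOf b = 2) (hc : orderOf c = 2)
    (cax : a * y = y * a) (cbx : b * y = y * b) (ccx : c * y = y * c)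
    (hax : a ≠ y) (hbx : b ≠ y) (hcx : c ≠ y) (hab : a ≠ b) (hac : a ≠ c) (hbc : b ≠ c) : False := by
  obtain ⟨g, hg⟩ := isConj_iff.mp hxy
  subst hg
  have key : ∀ u : G, orderOf (g⁻¹ * u * g) = orderOf u := by
    intro u
    have := H4.orderOf_conj u g⁻¹
    rwa [inv_inv] at this
  have kc : ∀ u : G, u * (g * x * g⁻¹) = g * x * g⁻¹ * u → (g⁻¹ * u * g) * x = x * (g⁻¹ * u * g) := by
    intro u hu
    have h1 : g⁻¹ * (u * (g * x * g⁻¹)) * g = g⁻¹ * (g * x * g⁻¹ * u) * g := by rw [hu]
    calc (g⁻¹ * u * g) * x = g⁻¹ * (u * (g * x * g⁻¹)) * g := by group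
      _ = g⁻¹ * (g * x * g⁻¹ * u) * g := h1
      _ = x * (g⁻¹ * u * g) := by group
  have kn : ∀ u : G, u ≠ g * x * g⁻¹ → g⁻¹ * u * g ≠ x := by
    intro u hu h
    apply hu
    rw [← h]; group
  have ki : ∀ u v : G, u ≠ v → g⁻¹ * u * g ≠ g⁻¹ * v * g := by
    intro u v huv h
    apply huv
    have := congrArg (fun w => g * w * g⁻¹) h
    simpa [mul_assoc] using this
  exact four hx h3 (a := g⁻¹ * a * g) (b := g⁻¹ * b * g) (c := g⁻¹ * c * g)
    (by rw [key, ha]) (by rw [key, hb]) (by rw [key, hc]) (kc a cax) (kc b cbx) (kc c ccx)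
    (kn a hax) (kn b hbx) (kn c hcx) (ki _ _ hab) (ki _ _ hac) (ki _ _ hbc)

/-- a central element in a simple group forces commutativity. -/
theorem comm_of_center {G : Type*} [Group G] [IsSimpleGroup G] {x : G} (hx1 : x ≠ 1)
    (hx : x ∈ Subgroup.center G) : ∀ a b : G, a * b = b * a := by
  have hC : Subgroup.center G = ⊤ := by
    rcases (inferInstance : (Subgroup.center G).Normal).eq_bot_or_eq_top with h | h
    · exfalso
      rw [h, Subgroup.mem_bot] at hx
      exact hx1 hx
    · exact h
  intro a b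
  have ha : b ∈ Subgroup.center G := by rw [hC]; trivial
  rw [Subgroup.mem_center_iff] at ha
  exact ha a

/-- an involution of a simple group commuting with all its conjugates. -/
theorem comm_of_conj {G : Type*} [Group G] [IsSimpleGroup G] {z : G} (hz1 : z ≠ 1)
    (hz : ∀ g : G, Commute z (g * z * g⁻¹)) : ∀ a b : G, a * b = b * a := by
  have hN : Subgroup.normalClosure ({z} : Set G) = ⊤ := by
    rcases (inferInstance : (Subgroup.normalClosure ({z} : Set G)).Normal).eq_bot_or_eq_top with h | h
    · exfalso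
      have : z ∈ Subgroup.normalClosure ({z} : Set G) := Subgroup.subset_normalClosure rfl
      rw [h, Subgroup.mem_bot] at this
      exact hz1 this
    · exact h
  apply comm_of_center hz1
  rw [Subgroup.mem_center_iff]
  intro g
  have hg : g ∈ Subgroup.normalClosure ({z} : Set G) := by rw [hN]; trivial
  have hle : Subgroup.normalClosure ({z} : Set G) ≤ Subgroup.centralizer ({z} : Set G) := by
    rw [Subgroup.normalClosure, Subgroup.closure_le]
    intro w hw
    rw [Group.mem_conjugatesOfSet_iff] at hw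
    obtain ⟨a, ha, haw⟩ := hw
    rw [Set.mem_singleton_iff] at ha
    subst ha
    obtain ⟨c, hc⟩ := isConj_iff.mp haw
    rw [SetLike.mem_coe, Subgroup.mem_centralizer_singleton_iff, ← hc]
    exact (hz c).eq.symm
  have h2 := hle hg
  rw [Subgroup.mem_centralizer_singleton_iff] at h2
  exact h2

/-- Let G be a finite simple group and x an involution of G whose centralizer contains at most three involutions. Then C_G(x) contains a Sylow 2-subgroup of G, and all involutions of G are conjugate. -/
theorem result {G : Type*} [Group G] [Finite G] [IsSimpleGroup G] (x : G) (hx : orderOf x = 2)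
    (h3 : Nat.card {u : ↥(Subgroup.centralizer ({x} : Set G)) // orderOf u = 2} ≤ 3) :
    (∃ S : Sylow 2 G, (S : Subgroup G) ≤ Subgroup.centralizer ({x} : Set G)) ∧
      ∀ u v : G, orderOf u = 2 → orderOf v = 2 → IsConj u v := by
  classical
  have hxx : x * x = 1 := by rw [← sq, ← hx, pow_orderOf_eq_one]
  have hx1 : x ≠ 1 := by intro h; rw [h, orderOf_one] at hx; omega
  -- the odd core is trivial
  have hO : Cfsg.oddCore G = ⊥ := by
    apply H4.oddCore_eq_bot_of
    intro N hN hodd
    rcases hN.eq_bot_or_eq_top with h | h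
    · exact h
    · exfalso
      rw [h] at hodd
      exact H4.not_odd_card_of_mem (K := ⊤) (Subgroup.mem_top x) hx hodd
  by_cases hab : ∀ a b : G, a * b = b * a
  · -- abelian case: unique involution
    have hu : ∀ u : G, orderOf u = 2 → u = x := by
      intro u hu
      by_contra hne
      have hz : Subgroup.zpowers x = ⊤ := by
        haveI : (Subgroup.zpowers x).Normal := ⟨fun n hn g => by
          rw [hab g n, mul_assoc, mul_inv_cancel, mul_one]; exact hn⟩
        rcases (inferInstance : (Subgroup.zpowers x).Normal).eq_bot_or_eq_top with h | h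
        · exfalso
          rw [Subgroup.zpowers_eq_bot] at h
          exact hx1 h
        · exact h
      have hu2 : u ∈ Subgroup.zpowers x := by rw [hz]; trivial
      rw [Subgroup.mem_zpowers_iff] at hu2
      obtain ⟨k, hk⟩ := hu2
      rcases Int.even_or_odd k with ⟨m, hm⟩ | ⟨m, hm⟩
      · rw [hm, zpow_add, ← (Commute.refl x).mul_zpow, hxx, one_zpow] at hk
        rw [← hk, orderOf_one] at hu
        omega
      · rw [hm, zpow_add, zpow_one, two_mul, zpow_add, ← (Commute.refl x).mul_zpow, hxx, one_zpow, one_mul] at hk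
        exact hne hk.symm
    refine ⟨⟨default, ?_⟩, ?_⟩
    · intro s _
      rw [Subgroup.mem_centralizer_singleton_iff]
      exact hab _ _
    · intro u v h1 h2
      rw [hu u h1, hu v h2]
  -- nonabelian case
  have hnc : ∀ t : G, orderOf t = 2 → ¬ Cfsg.IsIsolatedInvolution t := by
    intro t ht hiso
    apply hab
    exact comm_of_center (by intro h; rw [h, orderOf_one] at ht; omega) (H4.zstar_central hO hiso)
  -- x is conjugate to another y commuting with it
  have hex : ∃ g : G, Commute x (g * x * g⁻¹) ∧ g * x * g⁻¹ ≠ x := by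
    by_contra hcon
    push Not at hcon
    exact hnc x hx ⟨hx, hcon⟩
  obtain ⟨g, hcg, hgx⟩ := hex
  obtain ⟨y, hy⟩ : ∃ y, y = g * x * g⁻¹ := ⟨_, rfl⟩
  rw [← hy] at hcg hgx
  have hconj : IsConj x y := by rw [isConj_iff]; exact ⟨g, hy.symm⟩
  have hyo : orderOf y = 2 := by rw [hy, H4.orderOf_conj, hx]
  have hyy : y * y = 1 := by rw [← sq, ← hyo, pow_orderOf_eq_one]
  have hy1 : y ≠ 1 := by intro h; rw [h, orderOf_one] at hyo; omega
  obtain ⟨z, hz⟩ : ∃ z, z = x * y := ⟨_, rfl⟩
  have hzz : z * z = 1 := by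
    rw [hz]
    calc x * y * (x * y) = x * (y * x) * y := by group
      _ = x * (x * y) * y := by rw [hcg.eq]
      _ = (x * x) * (y * y) := by group
      _ = 1 := by rw [hxx, hyy, one_mul]
  have hz1 : z ≠ 1 := by
    intro h
    apply hgx
    have : x * y = x * x := by rw [← hz, h, hxx]
    exact mul_left_cancel this
  have hzo : orderOf z = 2 := orderOf_eq_prime (by rw [sq, hzz]) hz1
  have hzx : z ≠ x := by
    intro h
    apply hy1
    have : x * y = x * 1 := by rw [← hz, h, mul_one]
    exact mul_left_cancel this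
  have hzy : z ≠ y := by
    intro h
    apply hx1
    have : x * y = 1 * y := by rw [← hz, h, one_mul]
    exact mul_right_cancel this
  have czx : z * x = x * z := by
    rw [hz, mul_assoc, ← hcg.eq]
  have czy : z * y = y * z := by
    rw [hz, ← mul_assoc, ← hcg.eq]
  have cyx : y * x = x * y := hcg.eq.symm
  -- involutions commuting with x
  have hCx : ∀ u : G, orderOf u = 2 → u * x = x * u → u = x ∨ u = y ∨ u = z := by
    intro u hu hc
    by_contra hcon
    push Not at hcon
    exact four hx h3 hu hyo hzo hc cyx czx hcon.1 hgx hzx hcon.2.1 hcon.2.2 (Ne.symm hzy)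
  have hCy : ∀ u : G, orderOf u = 2 → u * y = y * u → u = x ∨ u = y ∨ u = z := by
    intro u hu hc
    by_contra hcon
    push Not at hcon
    exact four' hx h3 hconj hu hx hzo hc cyx.symm czy hcon.2.1 (Ne.symm hgx) hzy hcon.1 hcon.2.2 (Ne.symm hzx)
  -- z is conjugate to x
  have hxz : IsConj x z := by
    by_contra hnz
    apply hab
    apply comm_of_conj hz1
    intro k
    obtain ⟨w, hw⟩ : ∃ w, w = k * z * k⁻¹ := ⟨_, rfl⟩
    rw [← hw]
    have hzw : IsConj z w := by rw [isConj_iff]; exact ⟨k, hw.symm⟩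
    have hwo : orderOf w = 2 := by rw [hw, H4.orderOf_conj, hzo]
    have hww : w * w = 1 := by rw [← sq, ← hwo, pow_orderOf_eq_one]
    have hnx : w ≠ x := by
      intro h; apply hnz; rw [← h]; exact hzw.symm
    have hny : w ≠ y := by
      intro h; apply hnz
      have h2 : IsConj y z := by rw [← h]; exact hzw.symm
      exact hconj.trans h2
    have heven : Even (orderOf (x * w)) := by
      by_contra hodd
      rw [Nat.not_even_iff_odd] at hodd
      obtain ⟨m, hm⟩ := H4.conj_of_odd hxx hww hodd
      apply hnz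
      have h2 : IsConj x w := by rw [isConj_iff]; exact ⟨_, hm⟩
      exact h2.trans hzw.symm
    have hne0 : orderOf (x * w) ≠ 0 := (orderOf_pos _).ne'
    obtain ⟨c1, c2⟩ := H4.commute_pow_half hxx hww hne0 heven
    have ho := H4.even_pow_half hne0 heven
    rcases hCx _ ho c1.eq with h | h | h
    · rw [h] at c2
      rcases hCx w hwo c2.eq.symm with h' | h' | h'
      · exact absurd h' hnx
      · exact absurd h' hny
      · rw [h']
    · rw [h] at c2
      rcases hCy w hwo c2.eq.symm with h' | h' | h'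
      · exact absurd h' hnx
      · exact absurd h' hny
      · rw [h']
    · rw [h] at c2
      exact c2
  have hCz : ∀ u : G, orderOf u = 2 → u * z = z * u → u = x ∨ u = y ∨ u = z := by
    intro u hu hc
    by_contra hcon
    push Not at hcon
    exact four' hx h3 hxz hu hx hyo hc czx.symm czy.symm hcon.2.2 (Ne.symm hzx) (Ne.symm hzy) hcon.1 hcon.2.1 (Ne.symm hgx)
  -- a Sylow 2-subgroup containing x
  haveI : Fact (Nat.Prime 2) := ⟨Nat.prime_two⟩
  have hpx : IsPGroup 2 (Subgroup.zpowers x) := by
    apply IsPGroup.of_card (n := 1)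
    rw [Nat.card_zpowers, hx, pow_one]
  obtain ⟨S, hS⟩ := hpx.exists_le_sylow
  have hxS : x ∈ (S : Subgroup G) := hS (Subgroup.mem_zpowers x)
  -- central involution of S
  haveI : Nontrivial (S : Subgroup G) := ⟨⟨⟨x, hxS⟩, 1, fun h => hx1 (congrArg Subtype.val h)⟩⟩
  have hctr : ∃ w : G, w ∈ (S : Subgroup G) ∧ orderOf w = 2 ∧ ∀ s ∈ (S : Subgroup G), s * w = w * s := by
    have hnt := S.isPGroup'.center_nontrivial
    have hdvd : 2 ∣ Nat.card (Subgroup.center (S : Subgroup G)) := by
      have hp := S.isPGroup'.to_subgroup (Subgroup.center (S : Subgroup G))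
      obtain ⟨n, hn⟩ := IsPGroup.iff_card.mp hp
      rw [hn]
      have : n ≠ 0 := by
        intro h
        rw [h, pow_zero] at hn
        have := (Nat.card_eq_one_iff_unique.mp hn).1
        exact not_subsingleton _ this
      exact dvd_pow_self 2 this
    obtain ⟨w, hw⟩ := exists_prime_orderOf_dvd_card' 2 hdvd
    refine ⟨((w : (S : Subgroup G)) : G), (w : (S : Subgroup G)).2, ?_, ?_⟩
    · rw [Subgroup.orderOf_coe, Subgroup.orderOf_coe, hw]
    · intro s hs
      have h1 := (Subgroup.mem_center_iff.mp w.2) ⟨s, hs⟩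
      exact congrArg Subtype.val h1
  obtain ⟨w, hwS, hwo, hwc⟩ := hctr
  -- w is in V, so conjugate to x
  have hxw : IsConj x w := by
    rcases hCx w hwo (hwc x hxS).symm with h | h | h
    · rw [h]
    · rw [h]; exact hconj
    · rw [h]; exact hxz
  have hCw : ∀ u : G, orderOf u = 2 → u * w = w * u → IsConj x u := by
    intro u hu hc
    have : u = x ∨ u = y ∨ u = z := by
      rcases hCx w hwo (hwc x hxS).symm with h | h | h
      · rw [h] at hc; exact hCx u hu hc
      · rw [h] at hc; exact hCy u hu hc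
      · rw [h] at hc; exact hCz u hu hc
    rcases this with h | h | h
    · rw [h]
    · rw [h]; exact hconj
    · rw [h]; exact hxz
  have hall : ∀ u : G, orderOf u = 2 → IsConj x u := by
    intro u hu
    have hpu : IsPGroup 2 (Subgroup.zpowers u) := by
      apply IsPGroup.of_card (n := 1)
      rw [Nat.card_zpowers, hu, pow_one]
    obtain ⟨k, hk⟩ := H4.mem_sylow_conj S (Subgroup.zpowers u) hpu
    have h1 := hk u (Subgroup.mem_zpowers u)
    have h2 : orderOf (k * u * k⁻¹) = 2 := by rw [H4.orderOf_conj, hu]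
    have h3 := hCw _ h2 (hwc _ h1)
    have h4 : IsConj u (k * u * k⁻¹) := by rw [isConj_iff]; exact ⟨k, rfl⟩
    exact h3.trans h4.symm
  refine ⟨?_, ?_⟩
  · obtain ⟨k, hk⟩ := isConj_iff.mp hxw.symm
    refine ⟨(MulAut.conj k) • S, ?_⟩
    intro s hs
    rw [Sylow.pointwise_smul_def, Subgroup.mem_pointwise_smul_iff_inv_smul_mem] at hs
    have h1 : k⁻¹ * s * k ∈ (S : Subgroup G) := by
      have : (MulAut.conj k)⁻¹ • s = k⁻¹ * s * k := by
        rw [← map_inv, MulAut.smul_def, MulAut.conj_apply, inv_inv]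
      rw [← this]; exact hs
    have h2 := hwc _ h1
    rw [Subgroup.mem_centralizer_singleton_iff, ← hk]
    calc s * (k * w * k⁻¹) = k * ((k⁻¹ * s * k) * w) * k⁻¹ := by group
      _ = k * (w * (k⁻¹ * s * k)) * k⁻¹ := by rw [h2]
      _ = k * w * k⁻¹ * s := by group
  · intro u v hu hv
    exact (hall u hu).symm.trans (hall v hv)


end Cfsg.Agent.S3279
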