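import Cfsg.Statements.S3278
import Cfsg.Agent.H20.KleinF
import Cfsg.Agent.S3279
import Cfsg.Agent.S0494
import Cfsg.Agent.H9.Simple
import Cfsg.Agent.H3.Perm

set_option autoImplicit false
open Cfsg


namespace Cfsg.Agent.S3278


/-- the group-theoretic facts on the situation of the theorem -/
theorem facts {G : Type*} [Group G] [Finite G] [IsSimpleGroup G] (x : G) (hx : orderOf x = 2)
    (S₀ : Subgroup G) (hle : S₀ ≤ Subgroup.centralizer ({x} : Set G)) (hK : IsKleinFour ↥S₀)
    (hodd : ¬ 2 ∣ S₀.relIndex (Subgroup.centralizer ({x} : Set G)))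
    (hn : (S₀.subgroupOf (Subgroup.centralizer ({x} : Set G))).Normal) :
    (∃ P : Sylow 2 G, (P : Subgroup G) = S₀) ∧ (∀ s t : G, orderOf s = 2 → orderOf t = 2 → IsConj s t) ∧
      (∀ a : G, Even (orderOf (a * x * a⁻¹ * x)) → orderOf (a * x * a⁻¹ * x) = 2) ∧
      Nat.card (Subgroup.normalizer (S₀ : Set G)) = 3 * Nat.card (Subgroup.centralizer ({x} : Set G)) ∧
      Nat.card {a : G // orderOf (a * x * a⁻¹ * x) = 2} = 2 * Nat.card (Subgroup.centralizer ({x} : Set G)) ∧
      4 ∣ Nat.card (Subgroup.centralizer ({x} : Set G)) := by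
  classical
  haveI := Fintype.ofFinite G
  have hmemC : ∀ g : G, g ∈ Subgroup.centralizer ({x} : Set G) ↔ g * x = x * g := fun g =>
    Subgroup.mem_centralizer_singleton_iff
  have hxx : x * x = 1 := by rw [← sq, ← hx, pow_orderOf_eq_one]
  have hx1 : x ≠ 1 := by intro h; rw [h, orderOf_one] at hx; omega
  have hcard4 : Nat.card S₀ = 4 := hK.card_four
  have hexp : ∀ s ∈ S₀, s * s = 1 := by
    intro s hs
    have h1 := IsKleinFour.mul_self (⟨s, hs⟩ : S₀)
    exact congrArg Subtype.val h1
  have hcomm : ∀ s ∈ S₀, ∀ r ∈ S₀, s * r = r * s := by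
    intro s hs r hr
    have h1 := hexp (s * r) (mul_mem hs hr)
    have h2 := hexp s hs
    have h3 := hexp r hr
    calc s * r = s * r * (r * s * (s * r)) := by
            have : r * s * (s * r) = 1 := by
              calc r * s * (s * r) = r * (s * s) * r := by group
                _ = 1 := by rw [h2, mul_one, h3]
            rw [this, mul_one]
      _ = s * (r * r) * s * (s * r) := by group
      _ = r * s * ((s * r) * (s * r)) := by
            rw [h3, mul_one, h2, one_mul, h1, mul_one]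
            have h4 : s * r * (s * r) = 1 := h1
            have h5 : (s * r)⁻¹ = s * r := inv_eq_of_mul_eq_one_left h4
            have h6 : s⁻¹ = s := inv_eq_of_mul_eq_one_left h2
            have h7 : r⁻¹ = r := inv_eq_of_mul_eq_one_left h3
            rw [← h5, mul_inv_rev, h6, h7]
      _ = r * s := by rw [h1, mul_one]
  have hord : ∀ s ∈ S₀, s ≠ 1 → orderOf s = 2 := fun s hs hs1 =>
    orderOf_eq_prime (by rw [sq, hexp s hs]) hs1
  -- involutions of C(x)
  have hinv : ∀ u : G, u * u = 1 → u * x = x * u → u ∈ S₀ := by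
    intro u hu hc
    have hoddi : Odd (S₀.subgroupOf (Subgroup.centralizer ({x} : Set G))).index := by
      rw [← Nat.not_even_iff_odd, even_iff_two_dvd]; exact hodd
    have h1 := Subgroup.pow_index_mem (S₀.subgroupOf (Subgroup.centralizer ({x} : Set G)))
      (⟨u, (hmemC u).mpr hc⟩ : Subgroup.centralizer ({x} : Set G))
    rw [Subgroup.mem_subgroupOf] at h1
    have h2 : (((⟨u, (hmemC u).mpr hc⟩ : Subgroup.centralizer ({x} : Set G)) ^
      (S₀.subgroupOf (Subgroup.centralizer ({x} : Set G))).index : Subgroup.centralizer ({x} : Set G)) : G) = u := by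
      rw [Subgroup.coe_pow]
      obtain ⟨k, hk⟩ := hoddi
      rw [hk, pow_add, pow_mul, sq, hu, one_pow, one_mul, pow_one]
    rwa [h2] at h1
  have hxS : x ∈ S₀ := hinv x hxx rfl
  have hT3 : Nat.card {s : S₀ // s ≠ 1} = 3 := by
    haveI := Fintype.ofFinite S₀
    rw [Nat.card_eq_fintype_card, Fintype.card_subtype_compl, ← Nat.card_eq_fintype_card, hcard4,
      Fintype.card_subtype_eq]
  have h3 : Nat.card {u : ↥(Subgroup.centralizer ({x} : Set G)) // orderOf u = 2} ≤ 3 := by
    rw [← hT3]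
    have hu' : ∀ u : {u : ↥(Subgroup.centralizer ({x} : Set G)) // orderOf u = 2}, ((u : ↥(Subgroup.centralizer ({x} : Set G))) : G) ∈ S₀ ∧
        ((u : ↥(Subgroup.centralizer ({x} : Set G))) : G) ≠ 1 := by
      intro u
      have ho : orderOf ((u : ↥(Subgroup.centralizer ({x} : Set G))) : G) = 2 := by
        rw [Subgroup.orderOf_coe, u.2]
      have hsq : ∀ g : G, orderOf g = 2 → g * g = 1 := by
        intro g hg
        rw [← sq, ← hg, pow_orderOf_eq_one]
      refine ⟨hinv _ (hsq _ ho) ((hmemC _).mp u.1.2), ?_⟩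
      intro h
      rw [h, orderOf_one] at ho
      omega
    refine Nat.card_le_card_of_injective (fun u => (⟨⟨_, (hu' u).1⟩, fun h => (hu' u).2 (congrArg Subtype.val h)⟩ : {s : S₀ // s ≠ 1})) ?_
    intro u v huv
    have h1 := congrArg (fun w : {s : S₀ // s ≠ 1} => ((w : S₀) : G)) huv
    exact Subtype.ext (Subtype.ext h1)
  obtain ⟨⟨S, hS⟩, hone⟩ := S3279.result x hx h3
  -- S₀ is a Sylow subgroup
  have hCcard : Nat.card (Subgroup.centralizer ({x} : Set G)) = 4 * S₀.relIndex (Subgroup.centralizer ({x} : Set G)) := by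
    rw [← hcard4, ← Subgroup.relIndex_bot_left, ← Subgroup.relIndex_bot_left,
      Subgroup.relIndex_mul_relIndex _ _ _ bot_le hle]
  haveI : Fact (Nat.Prime 2) := ⟨Nat.prime_two⟩
  have hP : ∃ P : Sylow 2 G, (P : Subgroup G) = S₀ := by
    have h0 : IsPGroup 2 S₀ := IsPGroup.of_card (n := 2) (by rw [hcard4]; norm_num)
    obtain ⟨P, hP⟩ := h0.exists_le_sylow
    refine ⟨P, ?_⟩
    symm
    apply Subgroup.eq_of_le_of_card_ge hP
    rw [Sylow.card_eq_multiplicity, ← Sylow.card_eq_multiplicity S, hcard4]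
    obtain ⟨k, hk⟩ := IsPGroup.iff_card.mp S.isPGroup'
    have hd : Nat.card (S : Subgroup G) ∣ Nat.card (Subgroup.centralizer ({x} : Set G)) :=
      Subgroup.card_dvd_of_le hS
    rw [hCcard, hk] at hd
    have hcop : Nat.Coprime (2 ^ k) (S₀.relIndex (Subgroup.centralizer ({x} : Set G))) := by
      apply Nat.Coprime.pow_left
      exact (Nat.Prime.coprime_iff_not_dvd Nat.prime_two).mpr hodd
    have hd2 : 2 ^ k ∣ 4 := hcop.dvd_of_dvd_mul_right hd
    rw [hk]
    exact Nat.le_of_dvd (by norm_num) hd2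
  -- conjugating into S₀
  have hNorm : ∀ g : G, g * x * g⁻¹ ∈ S₀ → g ∈ Subgroup.normalizer (S₀ : Set G) := by
    intro g hg
    have h1 : ∀ s ∈ S₀, g⁻¹ * s * g ∈ S₀ := by
      intro s hs
      apply hinv
      · calc g⁻¹ * s * g * (g⁻¹ * s * g) = g⁻¹ * (s * s) * g := by group
          _ = 1 := by rw [hexp s hs]; group
      · have h2 := hcomm s hs _ hg
        calc g⁻¹ * s * g * x = g⁻¹ * (s * (g * x * g⁻¹)) * g := by group
          _ = g⁻¹ * (g * x * g⁻¹ * s) * g := by rw [h2]
          _ = x * (g⁻¹ * s * g) := by group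
    have h2 : g⁻¹ ∈ Subgroup.normalizer (S₀ : Set G) := by
      rw [Subgroup.mem_normalizer_iff]
      intro s
      constructor
      · intro hs
        rw [inv_inv]; exact h1 s hs
      · intro hs
        rw [inv_inv] at hs
        -- injective map of a finite set
        let f : S₀ → S₀ := fun s => ⟨g⁻¹ * s * g, h1 s s.2⟩
        have hf : Function.Injective f := by
          intro a b hab
          have h3 : g⁻¹ * (a : G) * g = g⁻¹ * b * g := congrArg Subtype.val hab
          apply Subtype.ext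
          have h4 := mul_right_cancel h3
          exact mul_left_cancel h4
        have hfs := Finite.surjective_of_injective hf
        obtain ⟨r, hr⟩ := hfs ⟨_, hs⟩
        have h3 : g⁻¹ * (r : G) * g = g⁻¹ * s * g := congrArg Subtype.val hr
        have h4 : (r : G) = s := mul_left_cancel (mul_right_cancel h3)
        rw [← h4]; exact r.2
    have h3 := inv_mem h2
    rwa [inv_inv] at h3
  have hkey : ∀ a : G, Even (orderOf (a * x * a⁻¹ * x)) → a * x * a⁻¹ ∈ S₀ := by
    intro a he
    obtain ⟨y, hy⟩ : ∃ y, y = a * x * a⁻¹ := ⟨_, rfl⟩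
    rw [← hy] at he ⊢
    have hyy : y * y = 1 := by
      rw [hy]; calc a * x * a⁻¹ * (a * x * a⁻¹) = a * (x * x) * a⁻¹ := by group
        _ = 1 := by rw [hxx]; group
    have h0 : orderOf (y * x) ≠ 0 := (orderOf_pos _).ne'
    obtain ⟨c1, c2⟩ := H4.commute_pow_half hyy hxx h0 he
    have ho := H4.even_pow_half h0 he
    obtain ⟨w, hw⟩ : ∃ w, w = (y * x) ^ (orderOf (y * x) / 2) := ⟨_, rfl⟩
    rw [← hw] at c1 c2 ho
    have hww : w * w = 1 := by rw [← sq, ← ho, pow_orderOf_eq_one]
    have hwS : w ∈ S₀ := hinv w hww c2.eq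
    obtain ⟨g, hg⟩ := isConj_iff.mp (hone x w hx ho)
    have hgN := hNorm g (by rw [hg]; exact hwS)
    have h1 : g⁻¹ * y * g ∈ S₀ := by
      apply hinv
      · calc g⁻¹ * y * g * (g⁻¹ * y * g) = g⁻¹ * (y * y) * g := by group
          _ = 1 := by rw [hyy]; group
      · calc g⁻¹ * y * g * x = g⁻¹ * (y * (g * x * g⁻¹)) * g := by group
          _ = g⁻¹ * (g * x * g⁻¹ * y) * g := by rw [hg, c1.eq]
          _ = x * (g⁻¹ * y * g) := by group
    have h2 := (Subgroup.mem_normalizer_iff.mp hgN (g⁻¹ * y * g)).mp h1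
    have h3 : g * (g⁻¹ * y * g) * g⁻¹ = y := by group
    rw [h3] at h2
    exact h2
  have hTI : ∀ a : G, Even (orderOf (a * x * a⁻¹ * x)) → orderOf (a * x * a⁻¹ * x) = 2 := by
    intro a he
    apply hord _ (mul_mem (hkey a he) hxS)
    intro h
    rw [h, orderOf_one] at he
    exact absurd he (by decide)
  -- counting
  have hfib : ∀ y ∈ S₀, y ≠ 1 → (Finset.univ.filter (fun a : G => a * x * a⁻¹ = y)).card =
      Nat.card (Subgroup.centralizer ({x} : Set G)) := by
    intro y hy hy1
    obtain ⟨g, hg⟩ := isConj_iff.mp (hone x y hx (hord y hy hy1))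
    rw [Nat.card_eq_fintype_card, ← Fintype.card_coe]
    apply Fintype.card_congr
    refine ⟨fun a => ⟨g⁻¹ * a.1, ?_⟩, fun c => ⟨g * c.1, ?_⟩, ?_, ?_⟩
    · rw [hmemC]
      have ha := (Finset.mem_filter.mp a.2).2
      calc g⁻¹ * a.1 * x = g⁻¹ * (a.1 * x * (a.1)⁻¹) * a.1 := by group
        _ = g⁻¹ * (g * x * g⁻¹) * a.1 := by rw [ha, hg]
        _ = x * (g⁻¹ * a.1) := by group
    · rw [Finset.mem_filter]
      refine ⟨Finset.mem_univ _, ?_⟩
      have hc := (hmemC _).mp c.2
      calc g * c.1 * x * (g * c.1)⁻¹ = g * (c.1 * x) * (c.1)⁻¹ * g⁻¹ := by group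
        _ = g * (x * c.1) * (c.1)⁻¹ * g⁻¹ := by rw [hc]
        _ = g * x * g⁻¹ := by group
        _ = y := hg
    · intro a; apply Subtype.ext; simp
    · intro c; apply Subtype.ext; simp
  obtain ⟨T, hT⟩ : ∃ T : Finset G, T = Finset.univ.filter (fun y => y ∈ S₀ ∧ y ≠ 1) := ⟨_, rfl⟩
  have hTcard : T.card = 3 := by
    rw [hT, ← hT3, Nat.card_eq_fintype_card, ← Fintype.card_coe]
    apply Fintype.card_congr
    exact ⟨fun a => ⟨⟨a.1, (Finset.mem_filter.mp a.2).2.1⟩, fun h => (Finset.mem_filter.mp a.2).2.2 (congrArg Subtype.val h)⟩,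
      fun s => ⟨s.1.1, Finset.mem_filter.mpr ⟨Finset.mem_univ _, s.1.2, fun h => s.2 (Subtype.ext h)⟩⟩,
      fun a => rfl, fun s => rfl⟩
  have hconj1 : ∀ a : G, a * x * a⁻¹ ≠ 1 := by
    intro a h
    apply hx1
    have : a * x = a := by
      have := mul_eq_one_iff_eq_inv.mp h
      rwa [inv_inv] at this
    exact mul_eq_left.mp this
  have hNcard : Nat.card (Subgroup.normalizer (S₀ : Set G)) = 3 * Nat.card (Subgroup.centralizer ({x} : Set G)) := by
    have h1 : Nat.card (Subgroup.normalizer (S₀ : Set G)) =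
        (Finset.univ.filter (fun a : G => a * x * a⁻¹ ∈ S₀)).card := by
      rw [Nat.card_eq_fintype_card, ← Fintype.card_coe]
      apply Fintype.card_congr
      exact ⟨fun a => ⟨a.1, Finset.mem_filter.mpr ⟨Finset.mem_univ _, (Subgroup.mem_normalizer_iff.mp a.2 x).mp hxS⟩⟩,
        fun a => ⟨a.1, hNorm _ (Finset.mem_filter.mp a.2).2⟩, fun a => rfl, fun a => rfl⟩
    rw [h1, Finset.card_eq_sum_card_fiberwise (f := fun a => a * x * a⁻¹) (t := T)]
    · have h2 : ∀ y ∈ T, ((Finset.univ.filter (fun a : G => a * x * a⁻¹ ∈ S₀)).filter (fun a => a * x * a⁻¹ = y)).card =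
          Nat.card (Subgroup.centralizer ({x} : Set G)) := by
        intro y hy
        rw [hT, Finset.mem_filter] at hy
        rw [← hfib y hy.2.1 hy.2.2, Finset.filter_filter]
        congr 1
        ext a
        simp only [Finset.mem_filter, Finset.mem_univ, true_and]
        constructor
        · exact fun h => h.2
        · intro h; exact ⟨by rw [h]; exact hy.2.1, h⟩
      rw [Finset.sum_congr rfl h2, Finset.sum_const, hTcard, smul_eq_mul]
    · intro a ha
      have ha' := (Finset.mem_filter.mp (Finset.mem_coe.mp ha)).2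
      rw [Finset.mem_coe, hT, Finset.mem_filter]
      exact ⟨Finset.mem_univ _, ha', hconj1 a⟩
  have hcount : Nat.card {a : G // orderOf (a * x * a⁻¹ * x) = 2} = 2 * Nat.card (Subgroup.centralizer ({x} : Set G)) := by
    rw [Nat.card_eq_fintype_card, Fintype.card_subtype,
      Finset.card_eq_sum_card_fiberwise (f := fun a => a * x * a⁻¹) (t := T.erase x)]
    · have h2 : ∀ y ∈ T.erase x, ((Finset.univ.filter (fun a : G => orderOf (a * x * a⁻¹ * x) = 2)).filter (fun a => a * x * a⁻¹ = y)).card =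
          Nat.card (Subgroup.centralizer ({x} : Set G)) := by
        intro y hy
        rw [Finset.mem_erase, hT, Finset.mem_filter] at hy
        rw [← hfib y hy.2.2.1 hy.2.2.2, Finset.filter_filter]
        congr 1
        ext a
        simp only [Finset.mem_filter, Finset.mem_univ, true_and]
        constructor
        · exact fun h => h.2
        · intro h
          refine ⟨?_, h⟩
          rw [h]
          apply hord _ (mul_mem hy.2.2.1 hxS)
          intro h'
          apply hy.1
          rw [mul_eq_one_iff_eq_inv, inv_eq_of_mul_eq_one_left hxx] at h'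
          exact h'
      have hxT : x ∈ T := by rw [hT, Finset.mem_filter]; exact ⟨Finset.mem_univ _, hxS, hx1⟩
      rw [Finset.sum_congr rfl h2, Finset.sum_const, Finset.card_erase_of_mem hxT, hTcard, smul_eq_mul]
    · intro a ha
      have ha' := (Finset.mem_filter.mp (Finset.mem_coe.mp ha)).2
      rw [Finset.mem_coe, Finset.mem_erase, hT, Finset.mem_filter]
      refine ⟨?_, Finset.mem_univ _, hkey a (by rw [ha']; decide), hconj1 a⟩
      intro h
      have h' : a * x * a⁻¹ = x := h
      rw [h', hxx, orderOf_one] at ha'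
      omega
  exact ⟨hP, hone, hTI, hNcard, hcount, ⟨_, hCcard⟩⟩

/-- the arithmetic -/
theorem arith {d₂ d₃ d₄ i : ℕ} {ε : ℤ} (hε : ε = 1 ∨ ε = -1) (h2 : 5 ≤ d₂) (h3 : 3 ≤ d₃) (h4 : 3 ≤ d₄)
    (m3 : (4:ℤ) ∣ (d₃ : ℤ) - ε) (m4 : (4:ℤ) ∣ (d₄ : ℤ) + 1) (hs : (d₄ : ℤ) = 1 + d₂ + ε * d₃)
    (h : 3 * (i : ℚ) * (1 + 1 / d₂ + ε / d₃ - 1 / d₄) = 8) : i ≤ 5 := by
  have p2 : (0 : ℚ) < 1 / d₂ := by positivity
  have p3 : (0 : ℚ) < 1 / d₃ := by positivity
  have p4 : (0 : ℚ) < 1 / d₄ := by positivity
  have q4 : (1 : ℚ) / d₄ ≤ 1 / 3 := by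
    apply one_div_le_one_div_of_le (by norm_num); exact_mod_cast h4
  have q3 : (1 : ℚ) / d₃ ≤ 1 / 3 := by
    apply one_div_le_one_div_of_le (by norm_num); exact_mod_cast h3
  have key : (4 : ℚ) / 9 < 1 + 1 / d₂ + ε / d₃ - 1 / d₄ := by
    rcases hε with rfl | rfl
    · push_cast
      linarith
    · have e : ((-1 : ℤ) : ℚ) / d₃ = - (1 / d₃) := by push_cast; ring
      rw [e]
      by_cases hd3 : d₃ = 3
      · by_cases hd4 : d₄ = 3
        · have : d₂ = 5 := by
            rw [hd3, hd4] at hs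
            push_cast at hs
            omega
          rw [hd3, hd4, this]
          norm_num
        · have h7 : 7 ≤ d₄ := by omega
          have q7 : (1 : ℚ) / d₄ ≤ 1 / 7 := by
            apply one_div_le_one_div_of_le (by norm_num); exact_mod_cast h7
          linarith
      · have h7 : 7 ≤ d₃ := by omega
        have q7 : (1 : ℚ) / d₃ ≤ 1 / 7 := by
          apply one_div_le_one_div_of_le (by norm_num); exact_mod_cast h7
        linarith
  by_contra hi
  have hi6 : (6 : ℚ) ≤ i := by
    have : 6 ≤ i := by omega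
    exact_mod_cast this
  nlinarith

/-- Let G be a finite simple group with an involution x such that a Sylow 2-subgroup of C_G(x) is a Klein four-group which is normal in C_G(x). Then G is isomorphic to the alternating group of degree 5 (that is, to PSL(2, 5)). -/
theorem result {G : Type*} [Group G] [Finite G] [IsSimpleGroup G] (x : G) (hx : orderOf x = 2)
    (S₀ : Subgroup G) (hle : S₀ ≤ Subgroup.centralizer ({x} : Set G)) (hK : IsKleinFour ↥S₀)
    (hodd : ¬ 2 ∣ S₀.relIndex (Subgroup.centralizer ({x} : Set G))) (hn : (S₀.subgroupOf (Subgroup.centralizer ({x} : Set G))).Normal) :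
    Nonempty (G ≃* ↥(alternatingGroup (Fin 5))) := by
  classical
  obtain ⟨⟨P, hP⟩, hone, hTI, hN, hcount, h4⟩ := facts x hx S₀ hle hK hodd hn
  have hKP : IsKleinFour (P : Subgroup G) := by rw [hP]; exact hK
  have hG : ¬ IsMulCommutative G := by
    intro h
    have hp := H9.Simple.prime_card_of_comm h
    have h1 : 4 ∣ Nat.card G := by
      have := Subgroup.card_subgroup_dvd_card S₀
      rwa [hK.card_four] at this
    have h2 : 2 ∣ Nat.card G := dvd_trans ⟨2, rfl⟩ h1
    have h3 := (Nat.prime_dvd_prime_iff_eq Nat.prime_two hp).mp h2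
    rw [← h3] at h1
    omega
  obtain ⟨ζ₂, ζ₃, ζ₄, ε, d₂, d₃, d₄, hε, n2, n3, n4, e2, e3, e4, -, -, -, p2, p3, p4, m2, m3, m4, hs, hform⟩ :=
    H20.klein_formula P hKP hone hx hTI
  have hlin : ∀ χ : Cfsg.IrrCharacter G, (χ : G → ℂ) 1 = 1 → (χ : G → ℂ) = (fun _ => 1) := by
    intro χ h1
    obtain ⟨μ, hμ⟩ := H3.exists_hom_of_char_one (H3.irr_isChar χ.2) h1
    rw [hμ]
    funext g
    rw [H9.Simple.hom_comm_trivial hG (fun a b => mul_comm a b) μ g]
    rfl
  have k2 : d₂ ≠ 1 := by intro h; exact n2 (hlin ζ₂ (by rw [e2, h]; norm_num))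
  have k3 : d₃ ≠ 1 := by intro h; exact n3 (hlin ζ₃ (by rw [e3, h]; norm_num))
  have k4 : d₄ ≠ 1 := by intro h; exact n4 (hlin ζ₄ (by rw [e4, h]; norm_num))
  have l2 : 5 ≤ d₂ := by omega
  have l3 : 3 ≤ d₃ := by rcases hε with h | h <;> subst h <;> omega
  have l4 : 3 ≤ d₄ := by omega
  obtain ⟨N, hNdef⟩ : ∃ N : Subgroup G, N = Subgroup.normalizer (S₀ : Set G) := ⟨_, rfl⟩
  rw [← hNdef] at hN
  obtain ⟨c, hc⟩ := h4
  have hcpos : 0 < c := by
    have : 0 < Nat.card (Subgroup.centralizer ({x} : Set G)) := Nat.card_pos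
    omega
  have hGcard : Nat.card G = 12 * c * N.index := by
    rw [← Subgroup.card_mul_index N, hN, hc]; ring
  have hidx : N.index ≤ 5 := by
    apply arith hε l2 l3 l4 m3 m4 hs
    rw [hcount, hGcard, hc] at hform
    push_cast at hform
    have hc0 : (c : ℚ) ≠ 0 := by exact_mod_cast hcpos.ne'
    have : (4 * (c : ℚ)) * (3 * (N.index : ℚ) * (1 + 1 / d₂ + ε / d₃ - 1 / d₄)) = (4 * (c : ℚ)) * 8 := by
      linarith
    exact mul_left_cancel₀ (by positivity) this
  have hNtop : N ≠ ⊤ := by
    intro h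
    have hnorm : S₀.Normal := by
      rw [← Subgroup.normalizer_eq_top_iff, ← hNdef, h]
    rcases hnorm.eq_bot_or_eq_top with h' | h'
    · have := hK.card_four
      rw [h', Subgroup.card_bot] at this
      omega
    · have h1 := hK.card_four
      rw [h', Subgroup.card_top] at h1
      have h2 : Nat.card (Subgroup.centralizer ({x} : Set G)) ∣ Nat.card G := Subgroup.card_subgroup_dvd_card _
      have h3 : Nat.card N = Nat.card G := by rw [h, Subgroup.card_top]
      rw [hN, h1] at h3
      omega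
  have hfac := H9.Simple.two_mul_card_dvd_factorial hG hNtop
  have h60 : Nat.card G = 60 := by
    rw [hGcard] at hfac ⊢
    have hi0 : N.index ≠ 0 := Subgroup.index_ne_zero_of_finite
    have hi : N.index = 1 ∨ N.index = 2 ∨ N.index = 3 ∨ N.index = 4 ∨ N.index = 5 := by omega
    rcases hi with h | h | h | h | h
    · exact absurd (Subgroup.index_eq_one.mp h) hNtop
    · rw [h] at hfac
      have := Nat.le_of_dvd (by decide) hfac
      have e : Nat.factorial 2 = 2 := rfl
      omega
    · rw [h] at hfac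
      have := Nat.le_of_dvd (by decide) hfac
      have e : Nat.factorial 3 = 6 := rfl
      omega
    · rw [h] at hfac
      have := Nat.le_of_dvd (by decide) hfac
      have e : Nat.factorial 4 = 24 := rfl
      omega
    · rw [h] at hfac ⊢
      have := Nat.le_of_dvd (by decide) hfac
      have e : Nat.factorial 5 = 120 := rfl
      omega
  exact S0494.result h60


end Cfsg.Agent.S3278
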