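import Cfsg.Statements.S3282
import Cfsg.Agent.H20.Klein3
import Cfsg.Agent.H20.PslStr
import Cfsg.Agent.H9.BSWM
import Cfsg.Agent.S0253
import Cfsg.Agent.H4.ZStarF

set_option autoImplicit false
open Cfsg


namespace Cfsg.Agent.S3282


/-- the case of order 12 -/
theorem order12 {G : Type*} [Group G] [Finite G] {t : G} (ht : orderOf t = 2)
    (hK : IsKleinFour (Subgroup.centralizer ({t} : Set G)))
    (hone : ∀ s t : G, orderOf s = 2 → orderOf t = 2 → IsConj s t) (h12 : Nat.card G = 12) :
    ∃ Q D : Subgroup G, 2 * Nat.card G = Nat.card ↥Q * (Nat.card ↥Q + 1) * (Nat.card ↥Q - 1) ∧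
      (∀ x ∈ Q, x ≠ 1 → Subgroup.centralizer ({x} : Set G) = Q) ∧
      IsMulCommutative ↥D ∧ 2 * Nat.card ↥D + 1 = Nat.card ↥Q ∧ Q ⊓ D = ⊥ ∧
      Subgroup.normalizer (Q : Set G) = Q ⊔ D ∧
      ∀ X : Subgroup G, X ≤ D → X ≠ ⊥ →
        Subgroup.normalizer (X : Set G) = Subgroup.normalizer (D : Set G) ∧
        ∃ u : G, orderOf u = 2 ∧ u ∉ D ∧ (∀ d ∈ D, u * d * u⁻¹ = d⁻¹) ∧
          Subgroup.normalizer (D : Set G) = D ⊔ Subgroup.zpowers u := by
  classical
  haveI : Fact (Nat.Prime 3) := ⟨Nat.prime_three⟩
  obtain ⟨V, hV⟩ : ∃ V : Subgroup G, V = Subgroup.centralizer ({t} : Set G) := ⟨_, rfl⟩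
  have hKV : IsKleinFour V := by rw [hV]; exact hK
  have hV4 : Nat.card V = 4 := hKV.card_four
  obtain ⟨-, hN, -, -⟩ := H20.klein_facts hone t ht V (by rw [hV]) hKV
    (by rw [hV, Subgroup.relIndex_self]; norm_num) (by rw [hV, Subgroup.subgroupOf_self]; infer_instance)
  rw [← hV, hV4] at hN
  have hVn : V.Normal := by
    rw [← Subgroup.normalizer_eq_top_iff]
    apply Subgroup.eq_top_of_card_eq
    rw [hN, h12]
  have htV : t ∈ V := by rw [hV, Subgroup.mem_centralizer_singleton_iff]
  have hinV : ∀ u : G, orderOf u = 2 → u ∈ V := by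
    intro u hu
    obtain ⟨g, hg⟩ := isConj_iff.mp (hone t u ht hu)
    rw [← hg]; exact hVn.conj_mem t htV g
  -- no element of order three commutes with an involution
  have hno : ∀ u x : G, orderOf u = 2 → orderOf x = 3 → u * x ≠ x * u := by
    intro u x hu hx hc
    obtain ⟨g, hg⟩ := isConj_iff.mp (hone u t hu ht)
    have h1 : g * x * g⁻¹ ∈ V := by
      rw [hV, Subgroup.mem_centralizer_singleton_iff, ← hg]
      calc g * x * g⁻¹ * (g * u * g⁻¹) = g * (x * u) * g⁻¹ := by group
        _ = g * (u * x) * g⁻¹ := by rw [hc]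
        _ = g * u * g⁻¹ * (g * x * g⁻¹) := by group
    have h2 : orderOf (g * x * g⁻¹) ∣ 4 := by
      rw [← hV4]; exact Subgroup.orderOf_dvd_natCard _ h1
    rw [H4.orderOf_conj, hx] at h2
    omega
  let P : Sylow 3 G := default
  have hP3 : Nat.card (P : Subgroup G) = 3 := by
    have h1 := P.card_mul_index
    have h2 : ¬ 3 ∣ (P : Subgroup G).index := P.not_dvd_index
    obtain ⟨k, hk⟩ := IsPGroup.iff_card.mp P.isPGroup'
    rw [hk] at h1 ⊢
    rw [h12] at h1
    have hk2 : k < 2 := by
      by_contra hk2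
      have h9 : 9 ∣ 3 ^ k := by
        have : (9 : ℕ) = 3 ^ 2 := by norm_num
        rw [this]; exact pow_dvd_pow 3 (by omega)
      have : 9 ∣ 12 := by rw [← h1]; exact dvd_mul_of_dvd_left h9 _
      omega
    interval_cases k
    · exfalso; rw [pow_zero, one_mul] at h1; rw [h1] at h2; omega
    · norm_num
  obtain ⟨Q, hQ⟩ : ∃ Q : Subgroup G, Q = P := ⟨_, rfl⟩
  rw [← hQ] at hP3
  have hord : ∀ x ∈ Q, x ≠ 1 → orderOf x = 3 := by
    intro x hx hx1
    have h1 : orderOf x ∣ 3 := by rw [← hP3]; exact Subgroup.orderOf_dvd_natCard _ hx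
    rcases (Nat.dvd_prime Nat.prime_three).mp h1 with h | h
    · exact absurd (orderOf_eq_one_iff.mp h) hx1
    · exact h
  have hQz : ∀ x ∈ Q, x ≠ 1 → Subgroup.zpowers x = Q := by
    intro x hx hx1
    apply Subgroup.eq_of_le_of_card_ge
    · rw [Subgroup.zpowers_le]; exact hx
    · rw [Nat.card_zpowers, hord x hx hx1, hP3]
  have hNQ : Subgroup.normalizer (Q : Set G) = Q := by
    symm
    apply Subgroup.eq_of_le_of_card_ge Subgroup.le_normalizer
    have h1 : Nat.card (Subgroup.normalizer (Q : Set G)) ∣ 12 := by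
      rw [← h12]; exact Subgroup.card_subgroup_dvd_card _
    have h3 : Nat.card Q ∣ Nat.card (Subgroup.normalizer (Q : Set G)) :=
      Subgroup.card_dvd_of_le Subgroup.le_normalizer
    have hodd : Odd (Nat.card (Subgroup.normalizer (Q : Set G))) := by
      by_contra heven
      obtain ⟨u, hu, huo⟩ := H4.exists_involution heven
      haveI : Nontrivial Q := by
        rw [← Finite.one_lt_card_iff_nontrivial, hP3]; norm_num
      obtain ⟨x, hx⟩ := exists_ne (1 : Q)
      have hx1 : (x : G) ≠ 1 := fun h => hx (Subtype.ext h)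
      apply hno u x huo (hord x x.2 hx1)
      have h4 : u * x * u⁻¹ * (x : G)⁻¹ ∈ Q :=
        mul_mem ((Subgroup.mem_normalizer_iff.mp hu x).mp x.2) (inv_mem x.2)
      have h5 : u * x * u⁻¹ * (x : G)⁻¹ ∈ V := by
        have h6 := hVn.conj_mem u⁻¹ (inv_mem (hinV u huo)) x
        have h7 : u * x * u⁻¹ * (x : G)⁻¹ = u * (x * u⁻¹ * (x : G)⁻¹) := by group
        rw [h7]; exact mul_mem (hinV u huo) h6
      have h8 : u * x * u⁻¹ * (x : G)⁻¹ = 1 := by
        have h9 : orderOf (u * x * u⁻¹ * (x : G)⁻¹) ∣ 3 := by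
          rw [← hP3]; exact Subgroup.orderOf_dvd_natCard _ h4
        have h10 : orderOf (u * x * u⁻¹ * (x : G)⁻¹) ∣ 4 := by
          rw [← hV4]; exact Subgroup.orderOf_dvd_natCard _ h5
        have h11 := Nat.dvd_gcd h9 h10
        exact orderOf_eq_one_iff.mp (Nat.dvd_one.mp h11)
      rw [mul_inv_eq_one, mul_inv_eq_iff_eq_mul] at h8
      exact h8
    rw [hP3] at h3 ⊢
    obtain ⟨k, hk⟩ := hodd
    have hle := Nat.le_of_dvd (by norm_num) h1
    generalize Nat.card (Subgroup.normalizer (Q : Set G)) = z at *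
    interval_cases z <;> omega
  refine ⟨Q, ⊥, ?_, ?_, ?_, ?_, ?_, ?_, ?_⟩
  · rw [h12, hP3]
  · intro x hx hx1
    apply le_antisymm
    · intro g hg
      rw [← hNQ, ← hQz x hx hx1]
      have h1 : Subgroup.centralizer ((Subgroup.zpowers x : Subgroup G) : Set G) ≤
          Subgroup.normalizer ((Subgroup.zpowers x : Subgroup G) : Set G) :=
        H9.Simple.centralizer_le_normalizer' _
      apply h1
      rw [Subgroup.mem_centralizer_iff]
      rintro _ ⟨k, rfl⟩
      rw [Subgroup.mem_centralizer_singleton_iff] at hg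
      have : Commute g x := hg
      exact (this.zpow_right k).eq.symm
    · intro g hg
      rw [← hQz x hx hx1] at hg
      obtain ⟨k, rfl⟩ := hg
      rw [Subgroup.mem_centralizer_singleton_iff]
      exact ((Commute.refl x).zpow_left k).eq
  · infer_instance
  · rw [Subgroup.card_bot, hP3]
  · exact inf_bot_eq _
  · rw [sup_bot_eq, hNQ]
  · intro X hX hX'
    exact absurd (le_bot_iff.mp hX) hX'

/-- The abstract form of the Brauer–Suzuki–Wall Theorem. Let G be a finite group with an involution t and an abelian subgroup K of H = C_G(t) containing t, such that H = K⟨s⟩ for an involution s ∉ K with C_K(s) = ⟨t⟩ and s inverting every element of K, K ∩ K^g = 1 for every g outside H, and all involutions of G conjugate. Then G has a subgroup Q, of order q say, with |G| = q(q+1)(q−1)/2, C_G(x) = Q for every non-identity x ∈ Q, N_G(Q) = QD for an abelian subgroup D of order (q−1)/2 meeting Q trivially, and for every nontrivial subgroup X of D, N_G(X) = N_G(D) = D⟨u⟩ for some involution u ∉ D inverting D. -/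
theorem result {G : Type*} [Group G] [Finite G] (t : G) (ht : orderOf t = 2)
    (K : Subgroup G) (hKab : IsMulCommutative ↥K) (hKH : K ≤ Subgroup.centralizer ({t} : Set G)) (htK : t ∈ K)
    (s : G) (hs : orderOf s = 2) (hsH : s ∈ Subgroup.centralizer ({t} : Set G)) (hsK : s ∉ K)
    (hH : K ⊔ Subgroup.zpowers s = Subgroup.centralizer ({t} : Set G)) (hCK : K ⊓ Subgroup.centralizer ({s} : Set G) = Subgroup.zpowers t)
    (hinv : ∀ x ∈ K, s * x * s⁻¹ = x⁻¹)
    (hTI : ∀ g : G, g ∉ Subgroup.centralizer ({t} : Set G) → K ⊓ K.map (MulAut.conj g).toMonoidHom = ⊥)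
    (hconj : ∀ x y : G, orderOf x = 2 → orderOf y = 2 → IsConj x y) :
    ∃ Q D : Subgroup G, 2 * Nat.card G = Nat.card ↥Q * (Nat.card ↥Q + 1) * (Nat.card ↥Q - 1) ∧
      (∀ x ∈ Q, x ≠ 1 → Subgroup.centralizer ({x} : Set G) = Q) ∧
      IsMulCommutative ↥D ∧ 2 * Nat.card ↥D + 1 = Nat.card ↥Q ∧ Q ⊓ D = ⊥ ∧
      Subgroup.normalizer (Q : Set G) = Q ⊔ D ∧
      ∀ X : Subgroup G, X ≤ D → X ≠ ⊥ →
        Subgroup.normalizer (X : Set G) = Subgroup.normalizer (D : Set G) ∧
        ∃ u : G, orderOf u = 2 ∧ u ∉ D ∧ (∀ d ∈ D, u * d * u⁻¹ = d⁻¹) ∧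
          Subgroup.normalizer (D : Set G) = D ⊔ Subgroup.zpowers u := by
  classical
  have ht1 : t ≠ 1 := by intro h; rw [h, orderOf_one] at ht; omega
  have htt : t * t = 1 := by rw [← sq, ← ht, pow_orderOf_eq_one]
  have hs1 : s ≠ 1 := by intro h; rw [h, orderOf_one] at hs; omega
  have hss : s * s = 1 := by rw [← sq, ← hs, pow_orderOf_eq_one]
  have hsinv : s⁻¹ = s := inv_eq_of_mul_eq_one_left hss
  have hst : s * t = t * s := Subgroup.mem_centralizer_singleton_iff.mp hsH
  have hcomm : ∀ x ∈ K, ∀ y ∈ K, x * y = y * x := by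
    intro x hx y hy
    have := isMulCommutative_iff.mp hKab ⟨x, hx⟩ ⟨y, hy⟩
    exact congrArg Subtype.val this
  have hcent : ∀ g, g * t = t * g → g ∈ K ∨ g * s ∈ K := by
    intro g hg
    have hg' : g ∈ K ⊔ Subgroup.zpowers s := by
      rw [hH, Subgroup.mem_centralizer_singleton_iff]; exact hg
    have hle : K ⊔ Subgroup.zpowers s ≤ Subgroup.normalizer (K : Set G) := by
      refine sup_le Subgroup.le_normalizer ?_
      rw [Subgroup.zpowers_le, Subgroup.mem_normalizer_iff]
      intro x
      constructor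
      · intro hx; rw [hinv x hx]; exact inv_mem hx
      · intro hx
        have h1 := hinv _ hx
        have h2 : s * (s * x * s⁻¹) * s⁻¹ = x := by
          rw [hsinv]
          calc s * (s * x * s) * s = (s * s) * x * (s * s) := by group
            _ = x := by rw [hss, one_mul, mul_one]
        rw [h2] at h1
        rw [h1]; exact inv_mem hx
    -- the set K ∪ K s is closed
    have hclosed : ∀ g ∈ K ⊔ Subgroup.zpowers s, g ∈ K ∨ g * s ∈ K := by
      intro g hg
      rw [← Subgroup.closure_eq K, Subgroup.zpowers_eq_closure, ← Subgroup.closure_union] at hg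
      induction hg using Subgroup.closure_induction with
      | mem x hx =>
        rcases hx with hx | hx
        · exact Or.inl hx
        · rw [Set.mem_singleton_iff] at hx
          right; rw [hx, hss]; exact one_mem _
      | one => exact Or.inl (one_mem _)
      | mul x y _ _ hx hy =>
        have conj : ∀ z ∈ K, s * z * s ∈ K := by
          intro z hz
          have := hinv z hz
          rw [hsinv] at this
          rw [this]; exact inv_mem hz
        rcases hx with hx | hx
        · rcases hy with hy | hy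
          · exact Or.inl (mul_mem hx hy)
          · right; rw [mul_assoc]; exact mul_mem hx hy
        · rcases hy with hy | hy
          · right
            have : x * y * s = (x * s) * (s * y * s) := by
              calc x * y * s = x * (s * s) * y * s := by rw [hss, mul_one]
                _ = (x * s) * (s * y * s) := by group
            rw [this]; exact mul_mem hx (conj y hy)
          · left
            have : x * y = (x * s) * (s * (y * s) * s) := by
              calc x * y = x * (s * s) * y * (s * s) := by rw [hss, mul_one, mul_one]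
                _ = (x * s) * (s * (y * s) * s) := by group
            rw [this]; exact mul_mem hx (conj _ hy)
      | inv x _ hx =>
        rcases hx with hx | hx
        · exact Or.inl (inv_mem hx)
        · right
          have : x⁻¹ * s = s * (x * s)⁻¹ * s := by rw [mul_inv_rev, hsinv]; calc x⁻¹ * s = (s * s) * x⁻¹ * s := by rw [hss, one_mul]
              _ = s * (s * x⁻¹) * s := by group
          rw [this]
          have h1 := hinv _ (inv_mem hx)
          rw [hsinv] at h1
          rw [h1]; exact inv_mem (inv_mem hx)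
    exact hclosed g hg'
  have huniq : ∀ x ∈ K, x * x = 1 → x = 1 ∨ x = t := by
    intro x hx hxx
    have h1 : x ∈ K ⊓ Subgroup.centralizer ({s} : Set G) := by
      refine Subgroup.mem_inf.mpr ⟨hx, ?_⟩
      rw [Subgroup.mem_centralizer_singleton_iff]
      have h2 := hinv x hx
      rw [inv_eq_of_mul_eq_one_left hxx, mul_inv_eq_iff_eq_mul] at h2
      exact h2.symm
    rw [hCK] at h1
    obtain ⟨k, hk⟩ := h1
    have hk' : t ^ k = x := hk
    rcases Int.even_or_odd k with ⟨m, hm⟩ | ⟨m, hm⟩
    · left
      rw [← hk', hm, zpow_add, ← (Commute.refl t).mul_zpow, htt, one_zpow]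
    · right
      rw [← hk', hm, zpow_add, zpow_one, two_mul, zpow_add, ← (Commute.refl t).mul_zpow, htt, one_zpow, one_mul]
  have hone' : ∀ u : G, u ≠ 1 → u * u = 1 → ∃ g, g * t * g⁻¹ = u := by
    intro u hu1 hu2
    exact isConj_iff.mp (hconj t u ht (orderOf_eq_prime (by rw [sq, hu2]) hu1))
  have hset : H9.BSW.Setup G K t s (Nat.card K) := {
    hk := rfl
    comm := hcomm
    tK := htK
    t1 := ht1
    t2 := htt
    uniq := huniq
    sK := hsK
    s2 := hss
    inv := hinv
    cent := hcent
    cen := by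
      intro x hx hx1 g hg
      by_contra hcon
      have h1 := hTI g (by rw [Subgroup.mem_centralizer_singleton_iff]; exact hcon)
      have h2 : x ∈ K ⊓ K.map (MulAut.conj g).toMonoidHom := by
        refine Subgroup.mem_inf.mpr ⟨hx, ?_⟩
        rw [Subgroup.mem_map]
        refine ⟨x, hx, ?_⟩
        change g * x * g⁻¹ = x
        rw [hg, mul_inv_cancel_right]
      rw [h1, Subgroup.mem_bot] at h2
      exact hx1 h2
    one := hone' }
  haveI := Fintype.ofFinite G
  have heven : 2 ∣ Nat.card K := hset.k_even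
  have hpos : 0 < Nat.card K := Nat.card_pos
  by_cases hk4 : 4 ≤ Nat.card K
  · obtain ⟨F, hF, hFt, hch, -, ⟨e⟩⟩ := H9.BSW.bsw hset hk4
    exact H20.psl_structure hch e
  · have hk2 : Nat.card K = 2 := by omega
    have hKt : ∀ x ∈ K, x = 1 ∨ x = t := by
      intro x hx
      have h1 : orderOf x ∣ 2 := by rw [← hk2]; exact Subgroup.orderOf_dvd_natCard _ hx
      apply huniq x hx
      rw [← sq]
      exact orderOf_dvd_iff_pow_eq_one.mp h1
    have hKl : IsKleinFour (Subgroup.centralizer ({t} : Set G)) := by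
      have hmem : ∀ g, g ∈ Subgroup.centralizer ({t} : Set G) ↔ g = 1 ∨ g = t ∨ g = s ∨ g = t * s := by
        intro g
        rw [Subgroup.mem_centralizer_singleton_iff]
        constructor
        · intro hg
          rcases hcent g hg with h | h
          · rcases hKt g h with h' | h'
            · exact Or.inl h'
            · exact Or.inr (Or.inl h')
          · rcases hKt _ h with h' | h'
            · right; right; left
              rw [mul_eq_one_iff_eq_inv, hsinv] at h'
              exact h'
            · right; right; right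
              rw [← h', mul_assoc, hss, mul_one]
        · rintro (h | h | h | h)
          · rw [h, one_mul, mul_one]
          · rw [h]
          · rw [h, hst]
          · rw [h, mul_assoc, hst]
      have hts : t ≠ s := by
        intro h; exact hsK (h ▸ htK)
      have heq : Subgroup.centralizer ({t} : Set G) = H4.kleinSub htt hss hst.symm := by
        ext g
        rw [hmem, H4.mem_kleinSub]
      rw [heq]
      exact H4.kleinSub_isKleinFour htt hss hst.symm ht1 hs1 hts
    rcases H20.klein_centralizer ht hKl hconj with h12 | ⟨⟨e⟩⟩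
    · exact order12 ht hKl hconj h12
    · haveI : Fact (Nat.Prime 5) := ⟨by norm_num⟩
      obtain ⟨e'⟩ := S0253.result (F := ZMod 5) (ZMod.card 5)
      have hch : ringChar (ZMod 5) ≠ 2 := by
        rw [ZMod.ringChar_zmod_n]; norm_num
      exact H20.psl_structure hch (e.trans e'.symm)


end Cfsg.Agent.S3282
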