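import Cfsg.Statements.S3763
import Cfsg.Agent.H18.Xt2
import Cfsg.Agent.H1.Hall

set_option autoImplicit false
set_option linter.style.haveILetI false
set_option linter.unusedVariables false
set_option linter.unusedSectionVars false
open Cfsg

namespace Cfsg.Agent.S3763

open Cfsg.Agent.H18
open Cfsg.Agent.H18.Xt

theorem card_le_two_mul {G : Type*} [Group G] [Finite G] {H K : Subgroup G} (t : G)
    (h : ∀ k ∈ K, k ∈ H ∨ k * t ∈ H) : Nat.card K ≤ 2 * Nat.card H := by
  classical
  have : Nat.card K ≤ Nat.card (Bool × H) := by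
    refine Nat.card_le_card_of_injective
      (fun k : K => if hk : (k : G) ∈ H then (true, ⟨k, hk⟩)
        else (false, ⟨(k : G) * t, (h k k.2).resolve_left hk⟩)) ?_
    intro a b hab
    simp only at hab
    by_cases ha : (a : G) ∈ H
    · by_cases hb : (b : G) ∈ H
      · rw [dif_pos ha, dif_pos hb] at hab
        have := congrArg (fun q : Bool × H => (q.2 : G)) hab
        exact Subtype.ext this
      · rw [dif_pos ha, dif_neg hb] at hab
        simp at hab
    · by_cases hb : (b : G) ∈ H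
      · rw [dif_neg ha, dif_pos hb] at hab
        simp at hab
      · rw [dif_neg ha, dif_neg hb] at hab
        have := congrArg (fun q : Bool × H => (q.2 : G)) hab
        simp only at this
        exact Subtype.ext (mul_right_cancel this)
  rw [Nat.card_prod, Nat.card_eq_fintype_card (α := Bool), Fintype.card_bool] at this
  exact this

theorem two_mul_le {G : Type*} [Group G] [Finite G] {H K : Subgroup G} (h : H < K) :
    2 * Nat.card H ≤ Nat.card K := by
  have h1 := H1.card_mul_relIndex h.le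
  have h2 : H.relIndex K ≠ 1 := fun h2 => absurd (Subgroup.relIndex_eq_one.mp h2) (not_le_of_gt h)
  have h3 : H.relIndex K ≠ 0 := by
    intro h0
    rw [h0, mul_zero] at h1
    exact (Nat.card_pos (α := K)).ne h1
  rw [← h1, mul_comm]
  exact Nat.mul_le_mul_left _ (by omega)

/-- elementary abelian, elementwise -/
def EA {G : Type*} [Group G] (A : Subgroup G) : Prop :=
  (∀ a ∈ A, ∀ b ∈ A, a * b = b * a) ∧ ∀ a ∈ A, a ^ 2 = 1

def RK (E : Type*) [Group E] (r : ℕ) : Prop :=
  (∀ A : Subgroup E, EA A → Nat.card A ≤ 2 ^ r) ∧ ∃ A : Subgroup E, EA A ∧ Nat.card A = 2 ^ r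

theorem ea_sup {G : Type*} [Group G] {A : Subgroup G} (hA : EA A) {x : G} (hx : x * x = 1)
    (hc : ∀ a ∈ A, a * x = x * a) :
    ∃ B : Subgroup G, EA B ∧ A ≤ B ∧ x ∈ B ∧ ∀ b ∈ B, b ∈ A ∨ b * x ∈ A := by
  have key : ∀ a : G, a * x ∈ A → ∃ a' ∈ A, a = a' * x := fun a ha =>
    ⟨a * x, ha, by rw [mul_assoc, hx, mul_one]⟩
  have hC : ∀ a ∈ A, Commute a x := fun a ha => hc a ha
  refine ⟨{ carrier := {b | b ∈ A ∨ b * x ∈ A}
            one_mem' := Or.inl A.one_mem
            mul_mem' := ?_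
            inv_mem' := ?_ }, ⟨?_, ?_⟩, ?_, ?_, ?_⟩
  · rintro a b (ha | ha) (hb | hb)
    · exact Or.inl (A.mul_mem ha hb)
    · right
      rw [mul_assoc]; exact A.mul_mem ha hb
    · right
      have : a * b * x = (a * x) * b := by rw [mul_assoc, hc b hb, mul_assoc]
      rw [this]; exact A.mul_mem ha hb
    · left
      obtain ⟨b', hb', rfl⟩ := key b hb
      have : a * (b' * x) = (a * x) * b' := by rw [hc b' hb', mul_assoc]
      rw [this]; exact A.mul_mem ha hb'
  · rintro a (ha | ha)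
    · exact Or.inl (A.inv_mem ha)
    · right
      obtain ⟨a', ha', rfl⟩ := key a ha
      have h3 : x⁻¹ = x := inv_eq_of_mul_eq_one_left hx
      rw [mul_inv_rev, h3, ← hc _ (A.inv_mem ha'), mul_assoc, hx, mul_one]
      exact A.inv_mem ha'
  · rintro a (ha | ha) b (hb | hb)
    · exact hA.1 a ha b hb
    · obtain ⟨b', hb', rfl⟩ := key b hb
      exact Commute.mul_right (hA.1 a ha b' hb') (hC a ha)
    · obtain ⟨a', ha', rfl⟩ := key a ha
      exact Commute.mul_left (hA.1 a' ha' b hb) (hC b hb).symm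
    · obtain ⟨b', hb', rfl⟩ := key b hb
      obtain ⟨a', ha', rfl⟩ := key a ha
      exact Commute.mul_left (Commute.mul_right (hA.1 a' ha' b' hb') (hC a' ha'))
        (Commute.mul_right (hC b' hb').symm (Commute.refl x))
  · rintro a (ha | ha)
    · exact hA.2 a ha
    · obtain ⟨a', ha', rfl⟩ := key a ha
      rw [(hC a' ha').mul_pow, hA.2 a' ha', pow_two, hx, mul_one]
  · intro a ha; exact Or.inl ha
  · right
    show x * x ∈ A
    rw [hx]; exact A.one_mem
  · intro b hb; exact hb

theorem step {E : Type*} [Group E] [Finite E] {z : E} (h : Xt E z) {x y : E}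
    (hxy : x * y = z * (y * x)) (hx : x * x = 1) {r : ℕ} (hr : RK (cen x y) r) :
    RK E (r + 1) := by
  have hxc : x ∉ cen x y := by
    intro hc
    have h1 := (mem_cen.1 hc).2
    -- y * x = x * y
    rw [hxy] at h1
    exact h.ne_z_mul (y * x) h1.symm
  constructor
  · intro B hB
    -- B₁
    set B1 := B ⊓ Subgroup.centralizer ({x} : Set E) with hB1
    have hc1 : ∀ a ∈ B1, a * x = x * a := fun a ha =>
      (Subgroup.mem_centralizer_singleton_iff.1 ha.2)
    have hB1ea : EA B1 := ⟨fun a ha b hb => hB.1 a ha.1 b hb.1, fun a ha => hB.2 a ha.1⟩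
    obtain ⟨B2, hB2, hle, hxB, hall⟩ := ea_sup hB1ea hx hc1
    have hc2 : ∀ b ∈ B2, b * x = x * b := fun b hb => hB2.1 b hb x hxB
    -- card B2 ≤ 2 * r
    have hbound : Nat.card B2 ≤ 2 * 2 ^ r := by
      have h1 : Nat.card B2 ≤ 2 * Nat.card (B2 ⊓ cen x y : Subgroup E) := by
        refine card_le_two_mul x ?_
        intro b hb
        rcases h.comm y b with h2 | h2
        · left
          exact ⟨hb, mem_cen.2 ⟨(hc2 b hb).symm, h2⟩⟩
        · right
          refine ⟨B2.mul_mem hb hxB, mem_cen.2 ⟨?_, ?_⟩⟩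
          · rw [← mul_assoc, hc2 b hb]
          · exact h.comm_mul_nn h2 (h.nsymm hxy)
      have h2 : Nat.card (B2 ⊓ cen x y : Subgroup E) ≤ 2 ^ r := by
        have h3 := hr.1 (B2.subgroupOf (cen x y)) ⟨?_, ?_⟩
        · have h4 : Nat.card (B2.subgroupOf (cen x y)) = Nat.card (B2 ⊓ cen x y : Subgroup E) := by
            rw [← Subgroup.subgroupOf_map_subtype]
            exact (Subgroup.card_map_of_injective (Subgroup.subtype_injective _)).symm
          rw [h4] at h3; exact h3
        · intro a ha b hb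
          exact Subtype.ext (hB2.1 _ (Subgroup.mem_subgroupOf.1 ha) _ (Subgroup.mem_subgroupOf.1 hb))
        · intro a ha
          exact Subtype.ext (hB2.2 _ (Subgroup.mem_subgroupOf.1 ha))
      omega
    have hgoal : Nat.card B ≤ Nat.card B2 := by
      by_cases hBB : B ≤ B1
      · exact Subgroup.card_le_of_le (hBB.trans hle)
      · rw [SetLike.not_le_iff_exists] at hBB
        obtain ⟨t, ht, ht1⟩ := hBB
        have htx : ¬ t * x = x * t := fun hc =>
          ht1 ⟨ht, Subgroup.mem_centralizer_singleton_iff.2 hc⟩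
        have hxB' : x ∉ B := fun hxB => htx (hB.1 t ht x hxB)
        have h1 : Nat.card B ≤ 2 * Nat.card B1 := by
          refine card_le_two_mul t ?_
          intro b hb
          rcases h.comm x b with h2 | h2
          · left; exact ⟨hb, Subgroup.mem_centralizer_singleton_iff.2 h2.symm⟩
          · right
            refine ⟨B.mul_mem hb ht, Subgroup.mem_centralizer_singleton_iff.2 ?_⟩
            have h3 : x * t = z * (t * x) := (h.comm x t).resolve_left fun hc => htx hc.symm
            exact (h.comm_mul_nn h2 h3).symm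
        have h2 : B1 < B2 := lt_of_le_of_ne hle fun he => hxB' (by
          have : x ∈ B1 := by rw [he]; exact hxB
          exact this.1)
        exact h1.trans (two_mul_le h2)
    rw [pow_succ]
    omega
  · obtain ⟨A, hA, hcard⟩ := hr.2
    set A' := A.map (cen x y).subtype with hA'
    have hA'ea : EA A' := by
      constructor
      · rintro _ ⟨a, ha, rfl⟩ _ ⟨b, hb, rfl⟩
        exact congrArg Subtype.val (hA.1 a ha b hb)
      · rintro _ ⟨a, ha, rfl⟩
        exact congrArg Subtype.val (hA.2 a ha)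
    have hA'le : A' ≤ cen x y := Subgroup.map_subtype_le _
    have hc1 : ∀ a ∈ A', a * x = x * a := fun a ha => ((mem_cen.1 (hA'le ha)).1).symm
    obtain ⟨B, hB, hle, hxB, hall⟩ := ea_sup hA'ea hx hc1
    have hcA : Nat.card A' = 2 ^ r := by
      rw [← hcard]
      exact Subgroup.card_map_of_injective (Subgroup.subtype_injective _)
    refine ⟨B, hB, ?_⟩
    have h1 : Nat.card B ≤ 2 * Nat.card A' := card_le_two_mul x hall
    have h2 : 2 * Nat.card A' ≤ Nat.card B := two_mul_le (lt_of_le_of_ne hle fun he =>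
      hxc (hA'le (by rw [he]; exact hxB)))
    rw [hcA] at h1 h2
    rw [pow_succ]; omega

theorem rk_two {E : Type*} [Group E] [Finite E] {z : E} (h : Xt E z)
    (hno : ∀ x : E, x * x = 1 → x = 1 ∨ x = z) : RK E 1 := by
  constructor
  · intro A hA
    have h1 : Nat.card A ≤ 2 * Nat.card (⊥ : Subgroup E) := by
      refine card_le_two_mul z ?_
      intro a ha
      have h2 := hA.2 a ha
      rw [pow_two] at h2
      rcases hno a h2 with h3 | h3
      · left; rw [h3]; exact Subgroup.one_mem _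
      · right; rw [h3, h.z_sq]; exact Subgroup.one_mem _
    rw [Subgroup.card_bot] at h1
    simpa using h1
  · refine ⟨Subgroup.zpowers z, ⟨?_, ?_⟩, ?_⟩
    · intro a ha b _
      rcases (H29.mem_zpowers_of_sq h.z_sq).1 ha with rfl | rfl
      · simp
      · exact (h.z_comm b).symm
    · intro a ha
      rcases (H29.mem_zpowers_of_sq h.z_sq).1 ha with rfl | rfl
      · simp
      · rw [pow_two]; exact h.z_sq
    · rw [Nat.card_zpowers, pow_one]
      exact orderOf_eq_prime (by rw [pow_two]; exact h.z_sq) h.z_ne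

theorem rank : ∀ (n : ℕ) (E : Type*) [Group E] [Finite E] (z : E), Xt E z → Nat.card E ≤ n →
    ∃ m : ℕ, Nat.card E = 2 ^ (2 * m + 1) ∧
      ((inv2 E = 2 ^ (2 * m) + 2 ^ m ∧ RK E (m + 1)) ∨
        (1 ≤ m ∧ inv2 E = 2 ^ (2 * m) - 2 ^ m ∧ RK E m)) := by
  intro n
  induction n with
  | zero =>
    intro E _ _ z h hn
    have := Nat.card_pos (α := E)
    omega
  | succ n ih =>
    intro E _ _ z h hn
    by_cases hE : ∀ c : E, c = 1 ∨ c = z
    · have h1 := h.card_two_of hE
      exact ⟨0, by rw [h1.1]; norm_num, Or.inl ⟨by rw [h1.2]; norm_num,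
        rk_two h (fun x _ => hE x)⟩⟩
    · push Not at hE
      obtain ⟨x₀, hx₀1, hx₀z⟩ := hE
      obtain ⟨y₀, hxy₀⟩ := h.exists_pair hx₀1 hx₀z
      by_cases hno : ∀ x : E, x * x = 1 → x = 1 ∨ x = z
      · have h1 := h.card_of_no hno hxy₀
        exact ⟨1, by rw [h1.1]; norm_num, Or.inr ⟨le_rfl, by rw [h1.2]; norm_num,
          rk_two h hno⟩⟩
      · push Not at hno
        obtain ⟨x, hx, hx1, hxz⟩ := hno
        obtain ⟨y, hxy, hy⟩ := h.exists_dih hx1 hxz hx
        have hc := h.card_eq hxy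
        have hpos := Nat.card_pos (α := cen x y)
        obtain ⟨m, hm1, hm2⟩ := ih (cen x y) _ (h.cent_xt hxy) (by omega)
        have hcount := h.count_dih hxy hx hy
        have e1 : 2 ^ (2 * (m + 1) + 1) = 4 * 2 ^ (2 * m + 1) := by ring
        have e2 : 2 ^ (2 * (m + 1)) = 4 * 2 ^ (2 * m) := by ring
        have e3 : 2 ^ (m + 1) = 2 * 2 ^ m := by ring
        have e4 : 2 ^ (2 * m + 1) = 2 * 2 ^ (2 * m) := by ring
        have e5 : 2 ^ m ≤ 2 ^ (2 * m) := Nat.pow_le_pow_right (by norm_num) (by omega)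
        refine ⟨m + 1, by rw [hc, hm1, e1], ?_⟩
        rcases hm2 with ⟨hm2, hrk⟩ | ⟨hm0, hm2, hrk⟩
        · left
          refine ⟨?_, step h hxy hx hrk⟩
          rw [hcount, hm2, hm1, e2, e3, e4]; ring
        · right
          refine ⟨by omega, ?_, step h hxy hx hrk⟩
          rw [hcount, hm2, hm1, e2, e3, e4]
          omega

theorem le_iff {E : Type*} [Group E] {r : ℕ} (h : RK E r) (k : ℕ) : Cfsg.PRankLE 2 k E ↔ r ≤ k := by
  constructor
  · intro hk
    obtain ⟨A, hA, hcard⟩ := h.2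
    have h1 := hk A ⟨⟨fun a b => Subtype.ext (hA.1 a a.2 b b.2)⟩⟩ hA.2
    rw [hcard] at h1
    exact (Nat.pow_le_pow_iff_right (by norm_num)).1 h1
  · intro hk A hA hA2
    refine (h.1 A ⟨fun a ha b hb => ?_, hA2⟩).trans (Nat.pow_le_pow_right (by norm_num) hk)
    exact congrArg Subtype.val (hA.is_comm.comm ⟨a, ha⟩ ⟨b, hb⟩)

theorem rank' {E : Type*} [Group E] [Finite E] (hE : Cfsg.IsExtraspecial 2 E) {n : ℕ}
    (hn : Nat.card E = 2 ^ (2 * n + 1)) : ∃ z : E, Xt E z ∧ 
      ((inv2 E = 2 ^ (2 * n) + 2 ^ n ∧ RK E (n + 1)) ∨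
        (1 ≤ n ∧ inv2 E = 2 ^ (2 * n) - 2 ^ n ∧ RK E n)) := by
  obtain ⟨z, hxs⟩ := H29.xs_top hE
  have h := Xt.of_xs hxs
  obtain ⟨m, hm1, hm2⟩ := rank _ E z h le_rfl
  have e12 : m = n := by
    have := hm1.symm.trans hn
    have := Nat.pow_right_injective (le_refl 2) this
    simp at this; exact this
  subst e12
  exact ⟨z, h, hm2⟩

/-- Let E be an extraspecial 2-group of order 2^(2n+1). Then the largest elementary abelian subgroups of E have order 2^n or 2^(n+1); and two extraspecial 2-groups of the same order whose largest elementary abelian subgroups have the same order are isomorphic. -/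
theorem result {E : Type*} [Group E] [Finite E] (hE : Cfsg.IsExtraspecial 2 E) (n : ℕ) (hn : Nat.card E = 2 ^ (2 * n + 1)) : ((Cfsg.PRankLE 2 n E ∧ ¬ Cfsg.PRankLE 2 (n - 1) E) ∨ (Cfsg.PRankLE 2 (n + 1) E ∧ ¬ Cfsg.PRankLE 2 n E)) ∧ ∀ (E' : Type*) [Group E'] [Finite E'], Cfsg.IsExtraspecial 2 E' → Nat.card E' = Nat.card E → (∀ k : ℕ, Cfsg.PRankLE 2 k E ↔ Cfsg.PRankLE 2 k E') → Nonempty (E ≃* E') := by
  obtain ⟨z, h, hm⟩ := rank' hE hn
  constructor
  · rcases hm with ⟨-, hrk⟩ | ⟨h1, -, hrk⟩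
    · right
      rw [le_iff hrk, le_iff hrk]; omega
    · left
      rw [le_iff hrk, le_iff hrk]; omega
  · intro E' _ _ hE' hcard hk
    obtain ⟨z', h', hm'⟩ := rank' hE' (hcard.trans hn)
    have hinv : inv2 E = inv2 E' := by
      rcases hm with ⟨i1, hrk⟩ | ⟨h1, i1, hrk⟩ <;> rcases hm' with ⟨i2, hrk'⟩ | ⟨h2, i2, hrk'⟩
      · rw [i1, i2]
      · exfalso
        have h3 := (hk n).2 ((le_iff hrk' n).2 le_rfl)
        rw [le_iff hrk] at h3; omega
      · exfalso
        have h3 := (hk n).1 ((le_iff hrk n).2 le_rfl)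
        rw [le_iff hrk'] at h3; omega
      · rw [i1, i2]
    obtain ⟨e, -⟩ := Xt.classify _ E z E' z' h h' le_rfl hcard.symm hinv
    exact ⟨e⟩

end Cfsg.Agent.S3763
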