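import Cfsg.Statements.S3304
import Cfsg.Agent.H2.GL23rec
import Cfsg.Agent.H2.Six2
import Cfsg.Agent.H2.OddSolv
import Cfsg.Agent.H4.QuatEquiv
import Cfsg.Agent.H1.FusCrit
import Cfsg.Agent.H23.PSolvable
import Cfsg.Agent.S3763

set_option autoImplicit false
set_option linter.style.haveILetI false
set_option linter.unusedVariables false
set_option linter.unusedSectionVars false
open Cfsg

namespace Cfsg.Agent.S3304

open Cfsg.Agent
open Subgroup
open scoped Pointwise

theorem two_group_of_aut {X : Type*} [Group X] [Finite X] (U : Subgroup X) [U.Normal]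
    (hU : IsPGroup 2 U) (hC : centralizer (U : Set X) ≤ U)
    (hA : ∀ σ : MulAut U, Odd (orderOf σ) → σ = 1) : IsPGroup 2 X := by
  haveI : Fact (Nat.Prime 2) := ⟨Nat.prime_two⟩
  rw [IsPGroup.iff_card]
  have hall : ∀ r : ℕ, r.Prime → r ∣ Nat.card X → r = 2 := by
    intro r hr hrd
    by_contra hr2
    haveI : Fact r.Prime := ⟨hr⟩
    obtain ⟨x, hx⟩ := exists_prime_orderOf_dvd_card' (G := X) r hrd
    have h1 : (MulAut.conjNormal x : MulAut U) = 1 := by
      apply hA
      have h2 : orderOf (MulAut.conjNormal x : MulAut U) ∣ r := by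
        rw [← hx]; exact orderOf_map_dvd (MulAut.conjNormal (H := U)) x
      exact (hr.odd_of_ne_two hr2).of_dvd_nat h2
    have h2 : x ∈ centralizer (U : Set X) := by
      rw [mem_centralizer_iff]
      intro u hu
      have h3 : ((MulAut.conjNormal x : MulAut U) ⟨u, hu⟩ : X) = u := by rw [h1]; rfl
      have h4 : x * u * x⁻¹ = u := h3
      calc u * x = (x * u * x⁻¹) * x := by rw [h4]
        _ = x * u := by group
    obtain ⟨k, hk⟩ := (IsPGroup.iff_orderOf.1 hU) ⟨x, hC h2⟩
    rw [Subgroup.orderOf_mk, hx] at hk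
    have h5 : r ∣ 2 ^ k := by rw [← hk]
    exact hr2 ((Nat.prime_dvd_prime_iff_eq hr Nat.prime_two).1 (hr.dvd_of_dvd_pow h5))
  exact ⟨_, Nat.eq_prime_pow_of_unique_prime_dvd Nat.card_pos.ne' (fun {r} hr hd => hall r hr hd)⟩

theorem unique_inv {G : Type*} [Group G] [Finite G] (D0 : Subgroup G) (hD : IsPGroup 2 D0)
    (hr : ∀ A : Subgroup G, A ≤ D0 → S3763.EA A → Nat.card A ≤ 2) :
    ∀ x ∈ D0, ∀ y ∈ D0, orderOf x = 2 → orderOf y = 2 → x = y := by
  haveI : Fact (Nat.Prime 2) := ⟨Nat.prime_two⟩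
  intro x hx y hy ox oy
  have sq : ∀ w : G, orderOf w = 2 → w * w = 1 ∧ w ≠ 1 := by
    intro w hw
    refine ⟨?_, fun h => ?_⟩
    · have := pow_orderOf_eq_one w
      rwa [hw, pow_two] at this
    · rw [h, orderOf_one] at hw; omega
  have hnt : Nontrivial D0 := ⟨⟨⟨x, hx⟩, 1, fun h => (sq x ox).2 (congrArg Subtype.val h)⟩⟩
  haveI := hD.center_nontrivial
  obtain ⟨c, hc⟩ : ∃ c : center D0, orderOf c = 2 := by
    have h1 : IsPGroup 2 (center D0) := hD.to_subgroup _
    obtain ⟨k, hk⟩ := IsPGroup.iff_card.1 h1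
    have h2 : 1 < Nat.card (center D0) := Finite.one_lt_card
    have h3 : 2 ∣ Nat.card (center D0) := by
      rw [hk] at h2 ⊢
      rcases k with _ | k
      · simp at h2
      · exact dvd_pow_self 2 (by omega)
    exact exists_prime_orderOf_dvd_card' 2 h3
  have hz2 : orderOf ((c : D0) : G) = 2 := by rw [Subgroup.orderOf_coe, Subgroup.orderOf_coe]; exact hc
  have key : ∀ w ∈ D0, orderOf w = 2 → w = ((c : D0) : G) := by
    intro w hw ow
    by_contra hne
    obtain ⟨ww, w1⟩ := sq w ow
    obtain ⟨zz, z1⟩ := sq _ hz2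
    have hcomm : w * ((c : D0) : G) = (c : D0) * w := by
      have := mem_center_iff.1 c.2 ⟨w, hw⟩
      exact congrArg Subtype.val this
    have hmem : ∀ a : G, a ∈ zpowers w ↔ a = 1 ∨ a = w := fun a => H29.mem_zpowers_of_sq ww
    have hEA : S3763.EA (zpowers w) := by
      constructor
      · intro a ha b hb
        rcases (hmem a).1 ha with rfl | rfl <;> rcases (hmem b).1 hb with rfl | rfl <;> simp
      · intro a ha
        rcases (hmem a).1 ha with rfl | rfl
        · simp
        · rw [pow_two, ww]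
    obtain ⟨B, hB, hle, hzB, hall⟩ := S3763.ea_sup hEA zz (by
      intro a ha
      rcases (hmem a).1 ha with rfl | rfl
      · simp
      · exact hcomm)
    have hBD : B ≤ D0 := by
      intro b hb
      have hwD : zpowers w ≤ D0 := (zpowers_le).2 hw
      rcases hall b hb with h | h
      · exact hwD h
      · have : b = (b * ((c : D0) : G)) * ((c : D0) : G) := by rw [mul_assoc, zz, mul_one]
        rw [this]
        exact D0.mul_mem (hwD h) (c : D0).2
    have h1 := hr B hBD hB
    have h2 : 2 * Nat.card (zpowers w) ≤ Nat.card B := by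
      apply S3763.two_mul_le
      refine lt_of_le_of_ne hle fun he => ?_
      have h3 : ((c : D0) : G) ∈ zpowers w := by rw [he]; exact hzB
      rcases (hmem _).1 h3 with h4 | h4
      · exact z1 h4
      · exact hne h4.symm
    rw [Nat.card_zpowers, ow] at h2
    omega
  rw [key x hx ox, key y hy oy]

theorem lift {G : Type*} [Group G] [Finite G]
    (hI : ∀ S T : Sylow 2 G, S ≠ T → Cfsg.PRankLE 2 1 ↥((S : Subgroup G) ⊓ (T : Subgroup G)))
    (hN : ¬ ∃ P : Sylow 2 (G ⧸ Cfsg.pPrimeCore 2 G), (P : Subgroup (G ⧸ Cfsg.pPrimeCore 2 G)).Normal) :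
    IsCyclic (Cfsg.pCore 2 (G ⧸ Cfsg.pPrimeCore 2 G)) ∨
      ∃ m : ℕ, 1 ≤ m ∧ Nonempty (Cfsg.pCore 2 (G ⧸ Cfsg.pPrimeCore 2 G) ≃* QuaternionGroup (2 ^ m)) := by
  haveI : Fact (Nat.Prime 2) := ⟨Nat.prime_two⟩
  obtain ⟨P0⟩ : Nonempty (Sylow 2 (Cfsg.pPrimePCore 2 G)) := inferInstance
  have hmap := H23.map_sylow_pPrimePCore P0
  set D0 := (P0 : Subgroup ↥(Cfsg.pPrimePCore 2 G)).map (Cfsg.pPrimePCore 2 G).subtype with hD0
  have hD0p : IsPGroup 2 D0 := P0.2.map _
  set f := QuotientGroup.mk' (Cfsg.pPrimeCore 2 G) with hf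
  have hsurj : Function.Surjective f := QuotientGroup.mk'_surjective _
  obtain ⟨S, hS⟩ := hD0p.exists_le_sylow
  haveI hDn : (Cfsg.pPrimePCore 2 G).Normal := by
    unfold Cfsg.pPrimePCore
    haveI := H1.pCore_normal 2 (G ⧸ Cfsg.pPrimeCore 2 G)
    infer_instance
  obtain ⟨T, hT, hST⟩ : ∃ T : Sylow 2 G, D0 ≤ T ∧ S ≠ T := by
    by_contra hcon
    push Not at hcon
    apply hN
    refine ⟨S.mapSurjective hsurj, ?_⟩
    rw [← normalizer_eq_top_iff, eq_top_iff, Sylow.coe_mapSurjective]
    intro x _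
    obtain ⟨g, rfl⟩ := hsurj x
    have hfr := Sylow.normalizer_sup_eq_top P0
    have hg : g ∈ normalizer (D0 : Set G) ⊔ Cfsg.pPrimePCore 2 G := by rw [hD0, hfr]; trivial
    rw [sup_comm] at hg
    obtain ⟨d, hd, n, hn, rfl⟩ := (Subgroup.mem_sup_of_normal_left).1 hg
    have hnS : n ∈ normalizer ((S : Subgroup G) : Set G) := by
      rw [H1.mem_normalizer_iff_conj_smul]
      have h1 : D0 ≤ ((n • S : Sylow 2 G) : Subgroup G) := by
        have h2 : MulAut.conj n • D0 ≤ MulAut.conj n • (S : Subgroup G) :=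
          H1.conj_smul_le_conj_smul_iff.2 hS
        rwa [H1.mem_normalizer_iff_conj_smul.1 hn] at h2
      have h2 := hcon _ h1
      exact (congrArg (fun Q : Sylow 2 G => (Q : Subgroup G)) h2).symm
    rw [map_mul]
    refine Subgroup.mul_mem _ ?_ ?_
    · have h1 : f d ∈ D0.map f := by
        rw [hmap]; exact hd
      exact le_normalizer ((Subgroup.map_mono hS) h1)
    · exact Subgroup.le_normalizer_map f (mem_map_of_mem f hnS)
  have hrank : ∀ A : Subgroup G, A ≤ D0 → S3763.EA A → Nat.card A ≤ 2 := by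
    intro A hA hEA
    have hAST : A ≤ (S : Subgroup G) ⊓ (T : Subgroup G) := le_inf (hA.trans hS) (hA.trans hT)
    have h1 := hI S T hST (A.subgroupOf ((S : Subgroup G) ⊓ (T : Subgroup G)))
      ⟨⟨fun a b => Subtype.ext (Subtype.ext (hEA.1 _ (mem_subgroupOf.1 a.2) _ (mem_subgroupOf.1 b.2)))⟩⟩
      (fun a ha => Subtype.ext (hEA.2 _ (mem_subgroupOf.1 ha)))
    have h2 : Nat.card (A.subgroupOf ((S : Subgroup G) ⊓ (T : Subgroup G))) = Nat.card A :=
      Nat.card_congr (subgroupOfEquivOfLe hAST).toEquiv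
    rw [h2, pow_one] at h1
    exact h1
  have huniq := unique_inv D0 hD0p hrank
  -- D0 ≃* U
  have hinj : Function.Injective (f.comp D0.subtype) := by
    rw [injective_iff_map_eq_one]
    rintro ⟨a, ha⟩ h1
    have h2 : a ∈ Cfsg.pPrimeCore 2 G := (QuotientGroup.eq_one_iff a).1 h1
    have hcop := H1.pPrimeCore_coprime 2 G
    obtain ⟨k, hk⟩ := (IsPGroup.iff_orderOf.1 hD0p) ⟨a, ha⟩
    rw [Subgroup.orderOf_mk] at hk
    have h3 : orderOf a ∣ Nat.card (Cfsg.pPrimeCore 2 G) := Subgroup.orderOf_dvd_natCard _ h2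
    have h4 : orderOf a = 1 := by
      have hc : Nat.Coprime (orderOf a) (Nat.card (Cfsg.pPrimeCore 2 G)) := by
        rw [hk]; exact (hcop.symm).pow_left k
      exact Nat.Coprime.eq_one_of_dvd hc h3
    exact Subtype.ext (orderOf_eq_one_iff.1 h4)
  have hrange : (f.comp D0.subtype).range = Cfsg.pCore 2 (G ⧸ Cfsg.pPrimeCore 2 G) := by
    rw [MonoidHom.range_comp, range_subtype, hmap]
  have e0 : D0 ≃* Cfsg.pCore 2 (G ⧸ Cfsg.pPrimeCore 2 G) :=
    (MonoidHom.ofInjective hinj).trans (MulEquiv.subgroupCongr hrange)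
  rcases H4.cyclic_or_quaternion hD0p huniq with h | ⟨m, hm, ⟨e⟩⟩
  · exact Or.inl (isCyclic_of_surjective e0 e0.surjective)
  · exact Or.inr ⟨m, hm, ⟨e0.symm.trans e⟩⟩

theorem central_of_card_two {X : Type*} [Group X] (N : Subgroup X) [hN : N.Normal]
    (h : Nat.card N = 2) : N ≤ center X := by
  obtain ⟨b, hb, huniv⟩ := (Nat.card_eq_two_iff' (1 : N)).1 h
  intro w hw
  rw [mem_center_iff]
  intro g
  by_cases hw1 : w = 1
  · rw [hw1]; simp
  · have h1 := huniv ⟨w, hw⟩ (fun h => hw1 (congrArg Subtype.val h))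
    have h2 := huniv ⟨g * w * g⁻¹, hN.conj_mem w hw g⟩ (fun h => hw1 (by
      have h3 : g * w * g⁻¹ = 1 := congrArg Subtype.val h
      calc w = g⁻¹ * (g * w * g⁻¹) * g := by group
        _ = 1 := by rw [h3]; group))
    have h3 : g * w * g⁻¹ = w := congrArg Subtype.val (h2.trans h1.symm)
    calc g * w = (g * w * g⁻¹) * g := by group
      _ = w * g := by rw [h3]

/-- Let G be a finite solvable group in which the intersection of any two distinct Sylow 2-subgroups has 2-rank at most 1 (contains no Klein four-group). Write Q = G/O(G), O(G) the largest normal subgroup of odd order. Then Q has a normal Sylow 2-subgroup; or Q is isomorphic to GL(2,3); or Q has order 48, centre of order 2 with central quotient isomorphic to the symmetric group of degree 4, and generalized quaternion Sylow 2-subgroups of order 16 (the binary octahedral group). The last two are the two representation groups of the symmetric group of degree 4. -/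
theorem result {G : Type*} [Group G] [Finite G] (hs : Group.IsSolvable G)
    (hI : ∀ S T : Sylow 2 G, S ≠ T → Cfsg.PRankLE 2 1 ↥((S : Subgroup G) ⊓ (T : Subgroup G))) :
    (∃ P : Sylow 2 (G ⧸ Cfsg.oddCore G), (P : Subgroup (G ⧸ Cfsg.oddCore G)).Normal) ∨
    Nonempty ((G ⧸ Cfsg.oddCore G) ≃* GL (Fin 2) (ZMod 3)) ∨
    (Nat.card (G ⧸ Cfsg.oddCore G) = 48 ∧ Nat.card ↥(Subgroup.center (G ⧸ Cfsg.oddCore G)) = 2 ∧
      Nonempty ((G ⧸ Cfsg.oddCore G) ⧸ Subgroup.center (G ⧸ Cfsg.oddCore G) ≃* Equiv.Perm (Fin 4)) ∧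
      ∀ P : Sylow 2 (G ⧸ Cfsg.oddCore G), Nonempty (↥(P : Subgroup (G ⧸ Cfsg.oddCore G)) ≃* QuaternionGroup 4)) := by
  haveI : Fact (Nat.Prime 2) := ⟨Nat.prime_two⟩
  by_cases hN : ∃ P : Sylow 2 (G ⧸ Cfsg.oddCore G), (P : Subgroup (G ⧸ Cfsg.oddCore G)).Normal
  · exact Or.inl hN
  right
  have hcase := lift hI hN
  have hC := H2.charP_quotient_of_solvable (p := 2) (H23.isPSolvable_of_isSolvable hs)
  show Nonempty ((G ⧸ Cfsg.pPrimeCore 2 G) ≃* GL (Fin 2) (ZMod 3)) ∨ _
  set X := G ⧸ Cfsg.pPrimeCore 2 G with hX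
  set U := Cfsg.pCore 2 X with hU
  haveI hUn : U.Normal := H1.pCore_normal 2 X
  have hUp : IsPGroup 2 U := H1.pCore_isPGroup 2 X
  have hnot : ¬ IsPGroup 2 X := by
    intro h
    apply hN
    obtain ⟨P⟩ : Nonempty (Sylow 2 X) := inferInstance
    refine ⟨P, ?_⟩
    have : (P : Subgroup X) = ⊤ := by
      have h1 : IsPGroup 2 (⊤ : Subgroup X) := h.to_subgroup _
      exact (P.3 h1 le_top).symm
    show (P : Subgroup X).Normal
    rw [this]; infer_instance
  obtain ⟨m, hm, ⟨e⟩⟩ : ∃ m : ℕ, 1 ≤ m ∧ Nonempty (U ≃* QuaternionGroup (2 ^ m)) := by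
    rcases hcase with h | h
    · exfalso
      haveI := h
      exact hnot (two_group_of_aut U hUp hC fun σ hσ => H1.FusCrit.mulAut_cyclic_two hUp σ (Nat.coprime_two_right.2 hσ))
    · exact h
  have hm1 : m = 1 := by
    by_contra hne
    apply hnot
    refine two_group_of_aut U hUp hC fun σ hσ => ?_
    have h1 := H2.Six.quat_aut2 m (by omega)
    have h2 : IsPGroup 2 (MulAut U) := h1.of_equiv (MulAut.congr e).symm
    obtain ⟨k, hk⟩ := (IsPGroup.iff_orderOf.1 h2) σ
    rw [hk] at hσ
    rcases k with _ | k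
    · exact orderOf_eq_one_iff.1 (by rw [hk]; rfl)
    · exfalso
      rw [pow_succ, mul_comm] at hσ
      exact (Nat.not_odd_iff_even.2 ⟨2 ^ k, by ring⟩) hσ
  subst hm1
  have e : U ≃* QuaternionGroup 2 := e
  have hU8 : Nat.card U = 8 := by
    rw [Nat.card_congr e.toEquiv, Nat.card_eq_fintype_card, QuaternionGroup.card]
  have hq := H2.Six.case_q8 U e (fun K hK hK2 => H1.le_pCore hK hK2) hC hnot
  obtain ⟨hC2, hq⟩ := hq
  have hcardX : ∀ {Y : Type} [Group Y] [Finite Y] (f : X →* Y), Function.Surjective f →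
      f.ker = centralizer (U : Set X) → Nat.card X = 2 * Nat.card Y := by
    intro Y _ _ f hf hk
    have h1 := Subgroup.card_mul_index f.ker
    rw [index_ker, MonoidHom.range_eq_top.2 hf, Subgroup.card_top, hk, hC2] at h1
    exact h1.symm
  rcases hq with ⟨f, hf, hk⟩ | ⟨f, hf, hk⟩
  · exfalso
    have h1 := hcardX f hf hk
    have h2 : Nat.card (alternatingGroup (Fin 4)) = 12 := by
      rw [Nat.card_eq_fintype_card]; decide
    rw [h2] at h1
    have h3 : U.index = 3 := by
      have := U.card_mul_index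
      rw [hU8, h1] at this; omega
    apply hN
    exact ⟨hUp.toSylow (by rw [h3]; norm_num), hUn⟩
  · have h1 := hcardX f hf hk
    have h2 : Nat.card (Equiv.Perm (Fin 4)) = 24 := by
      rw [Nat.card_eq_fintype_card]; decide
    rw [h2] at h1
    have hcard : Nat.card X = 48 := by omega
    by_cases hinv : ∃ t : X, t * t = 1 ∧ t ∉ U
    · obtain ⟨t, ht, htU⟩ := hinv
      exact Or.inl (H2.GL23rec.recog hcard U e hC2 t ht htU)
    · right
      push Not at hinv
      haveI : f.ker.Normal := inferInstance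
      have hcenter : center X = f.ker := by
        apply le_antisymm
        · rw [hk]; exact center_le_centralizer _
        · exact central_of_card_two f.ker (by rw [hk, hC2])
      refine ⟨hcard, ?_, ?_, ?_⟩
      · have h3 : Nat.card (center X) = Nat.card f.ker := by rw [hcenter]
        rw [h3, hk, hC2]
      · exact ⟨(QuotientGroup.quotientMulEquivOfEq hcenter).trans
          (QuotientGroup.quotientKerEquivOfSurjective f hf)⟩
      · intro P
        have hP16 : Nat.card P = 16 := H2.Six.sylow_card_aux (a := 4) (m := 3) (by rw [hcard]; norm_num) (by norm_num) P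
        have hUu : ∀ x ∈ U, ∀ y ∈ U, orderOf x = 2 → orderOf y = 2 → x = y := by
          have hq : ∀ a b : QuaternionGroup 2, a * a = 1 → b * b = 1 → a ≠ 1 → b ≠ 1 → a = b := by
            decide
          intro x hx y hy ox oy
          have hx2 : (⟨x, hx⟩ : U) * ⟨x, hx⟩ = 1 := by
            apply Subtype.ext
            have := pow_orderOf_eq_one x
            rwa [ox, pow_two] at this
          have hy2 : (⟨y, hy⟩ : U) * ⟨y, hy⟩ = 1 := by
            apply Subtype.ext
            have := pow_orderOf_eq_one y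
            rwa [oy, pow_two] at this
          have hx1 : (⟨x, hx⟩ : U) ≠ 1 := by
            intro h
            have h3 : x = 1 := congrArg Subtype.val h
            rw [h3, orderOf_one] at ox; omega
          have hy1 : (⟨y, hy⟩ : U) ≠ 1 := by
            intro h
            have h3 : y = 1 := congrArg Subtype.val h
            rw [h3, orderOf_one] at oy; omega
          have h3 := hq (e ⟨x, hx⟩) (e ⟨y, hy⟩) (by rw [← map_mul, hx2, map_one])
            (by rw [← map_mul, hy2, map_one]) (fun h => hx1 ((map_eq_one_iff e e.injective).1 h))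
            (fun h => hy1 ((map_eq_one_iff e e.injective).1 h))
          exact congrArg Subtype.val (e.injective h3)
        have hin : ∀ x : X, orderOf x = 2 → x ∈ U := by
          intro x ox
          apply hinv
          have := pow_orderOf_eq_one x
          rwa [ox, pow_two] at this
        have hUP : U ≤ (P : Subgroup X) := H1.pCore_le_sylow P
        rcases H4.cyclic_or_quaternion P.2 (fun x _ y _ ox oy => hUu x (hin x ox) y (hin y oy) ox oy)
          with h | ⟨m, hm, ⟨e'⟩⟩
        · exfalso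
          haveI := h
          have hq : ¬ ∀ a b : QuaternionGroup 2, a * b = b * a := by decide
          apply hq
          intro a b
          obtain ⟨⟨a', ha'⟩, rfl⟩ := e.surjective a
          obtain ⟨⟨b', hb'⟩, rfl⟩ := e.surjective b
          rw [← map_mul, ← map_mul]
          congr 1
          have h3 := IsMulCommutative.is_comm.comm (⟨a', hUP ha'⟩ : P) ⟨b', hUP hb'⟩
          have h4 : a' * b' = b' * a' := congrArg Subtype.val h3
          exact Subtype.ext h4
        · haveI : NeZero (2 ^ m) := ⟨by positivity⟩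
          have h3 : Nat.card P = 4 * 2 ^ m := by
            have h4 : Nat.card (P : Subgroup X) = 4 * 2 ^ m := by
              rw [Nat.card_congr e'.toEquiv, Nat.card_eq_fintype_card, QuaternionGroup.card]
            exact h4
          rw [hP16] at h3
          have h4 : m = 2 := by
            have h5 : 2 ^ m = 2 ^ 2 := by omega
            exact Nat.pow_right_injective (le_refl 2) h5
          subst h4
          exact ⟨e'⟩

end Cfsg.Agent.S3304
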