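import Cfsg.Statements.S3306
import Cfsg.Agent.H20.CycI6

set_option autoImplicit false
open Cfsg


namespace Cfsg.Agent.S3306

open Cfsg

open Subgroup in
theorem aux {X : Type*} [Group X] [Finite X] (hO : oddCore X = ⊥)
    (hC : ∀ S T : Sylow 2 X, S ≠ T → IsCyclic ↥((S : Subgroup X) ⊓ (T : Subgroup X)))
    (hns : ¬ Group.IsSolvable X) (N : Subgroup X) [hNn : N.Normal] (hN : Group.IsSolvable N) :
    IsCyclic N ∧ IsPGroup 2 N ∧ N ≤ center X := by
  have hf : Fact (Nat.Prime 2) := ⟨Nat.prime_two⟩
  have hmain := H20.CycInt.main hC hns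
  -- `O₂(X)` is cyclic
  have hcyc : IsCyclic (pCore 2 X) := by
    obtain ⟨T, hT⟩ : ∃ T : Sylow 2 X, (default : Sylow 2 X) ≠ T := by
      by_contra hcon
      push Not at hcon
      have hsub : Subsingleton (Sylow 2 X) := ⟨fun a b => (hcon a).symm.trans (hcon b)⟩
      have hn : ((default : Sylow 2 X) : Subgroup X).Normal := Sylow.normal_of_subsingleton _
      exact hns (H20.CycInt.solvable_of_odd_index (H20.CycInt.solvable_sylow (default : Sylow 2 X)) (H20.CycInt.odd_index_sylow _))
    have h1 := hC _ _ hT
    have h2 : pCore 2 X ≤ ((default : Sylow 2 X) : Subgroup X) ⊓ T := le_inf (H1.pCore_le_sylow _) (H1.pCore_le_sylow _)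
    exact isCyclic_of_injective (Subgroup.inclusion h2) (Subgroup.inclusion_injective h2)
  -- `O(N) = 1`
  have hON : pPrimeCore 2 N = ⊥ := by
    have hn : ((pPrimeCore 2 N).map N.subtype).Normal := by
      have : (pPrimeCore 2 N).Characteristic := H1.pPrimeCore_characteristic 2
      infer_instance
    have h1 : (pPrimeCore 2 N).map N.subtype ≤ oddCore X := by
      refine H1.le_pPrimeCore hn ?_
      rw [card_map_of_injective N.subtype_injective]
      exact H1.pPrimeCore_coprime 2 N
    rw [hO, le_bot_iff, map_eq_bot_iff_of_injective _ N.subtype_injective] at h1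
    exact h1
  have h1 := H1.centralizer_pCore_le hN 2 hON
  have h2 : (pCore 2 N).map N.subtype ≤ pCore 2 X := by
    have hn : ((pCore 2 N).map N.subtype).Normal := by
      have : (pCore 2 N).Characteristic := H1.pCore_characteristic 2
      infer_instance
    exact H1.le_pCore hn ((H1.pCore_isPGroup 2 N).map _)
  have h3 : pCore 2 N = ⊤ := by
    rw [eq_top_iff]
    refine le_trans ?_ h1
    intro x _
    rw [mem_centralizer_iff]
    intro y hy
    apply Subtype.ext
    have h4 : (y : X) ∈ center X := hmain (h2 ⟨y, hy, rfl⟩)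
    exact ((mem_center_iff.mp h4) x).symm
  have h4 : N ≤ pCore 2 X := by
    refine le_trans ?_ h2
    rw [h3, ← MonoidHom.range_eq_map, range_subtype]
  refine ⟨isCyclic_of_injective (Subgroup.inclusion h4) (Subgroup.inclusion_injective h4),
    (H1.pCore_isPGroup 2 X).to_le h4, h4.trans hmain⟩

/-- Let G be a finite nonsolvable group in which any two distinct Sylow 2-subgroups intersect in a cyclic group, and let N be a solvable normal subgroup of G. Then the image of N in G/O(G) is a cyclic 2-group contained in the centre of G/O(G) (O(G) the largest normal subgroup of odd order). In other words the solvable radical of G is V·O(G) with V a cyclic 2-group central modulo O(G). -/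
theorem result {G : Type*} [Group G] [Finite G] (hns : ¬ Group.IsSolvable G)
    (hC : ∀ S T : Sylow 2 G, S ≠ T → IsCyclic ↥((S : Subgroup G) ⊓ (T : Subgroup G)))
    (N : Subgroup G) [N.Normal] (hN : Group.IsSolvable ↥N) :
    IsCyclic ↥(N.map (QuotientGroup.mk' (Cfsg.oddCore G))) ∧ IsPGroup 2 ↥(N.map (QuotientGroup.mk' (Cfsg.oddCore G))) ∧
      N.map (QuotientGroup.mk' (Cfsg.oddCore G)) ≤ Subgroup.center (G ⧸ Cfsg.oddCore G) := by
  have hf : Fact (Nat.Prime 2) := ⟨Nat.prime_two⟩
  have hOn : (oddCore G).Normal := H1.pPrimeCore_normal 2 G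
  have hC1 := Cfsg.Agent.S3305.result hC (oddCore G)
  have hodd : Odd (Nat.card (oddCore G)) := by
    have := H1.pPrimeCore_coprime 2 G
    exact Nat.coprime_two_left.mp this.symm
  have hns1 : ¬ Group.IsSolvable (G ⧸ oddCore G) := by
    intro h1
    apply hns
    rw [Group.isSolvable_iff_subgroup_quotient (oddCore G)]
    exact ⟨FT.odd_order hodd, h1⟩
  have hNs : Group.IsSolvable (N.map (QuotientGroup.mk' (oddCore G))) := by
    have := hN
    exact Group.isSolvable_of_surjective (f := (QuotientGroup.mk' (oddCore G)).subgroupMap N)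
      (MonoidHom.subgroupMap_surjective _ _)
  have hNn : (N.map (QuotientGroup.mk' (oddCore G))).Normal :=
    Subgroup.Normal.map inferInstance _ (QuotientGroup.mk'_surjective _)
  exact aux (H1.pPrimeCore_quotient_eq_bot 2) hC1 hns1 _ hNs


end Cfsg.Agent.S3306
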