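import Cfsg.Statements.S3309
import Cfsg.Agent.H20.ExtTransfer

set_option autoImplicit false
open Cfsg


namespace Cfsg.Agent.S3309


theorem hz2 : ∀ a : Multiplicative (ZMod 2), a * a = 1 := by decide
theorem hz3 : (Multiplicative.ofAdd (1 : ZMod 2)) ≠ 1 := by decide
theorem hd1 : ∀ b : DihedralGroup 4, (∀ c : DihedralGroup 4, c * b = b * c) → b = 1 ∨ b = DihedralGroup.r 2 := by
  decide
theorem hd2 : ∀ b : DihedralGroup 4, b * b = 1 ∨ b * b = DihedralGroup.r 2 := by decide
theorem hd3 : (DihedralGroup.r 1 : DihedralGroup 4) * DihedralGroup.r 1 = DihedralGroup.r 2 := by decide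
theorem hd4 : (DihedralGroup.r 2 : DihedralGroup 4) ≠ 1 := by decide

/-- A finite group whose Sylow 2-subgroups are isomorphic to the direct product of a group of order 2 and the dihedral group of order 8 is not a non-abelian simple group. -/
theorem result {G : Type*} [Group G] [Finite G] (S : Sylow 2 G) (hS : Nonempty (↥(S : Subgroup G) ≃* Multiplicative (ZMod 2) × DihedralGroup 4))
    [IsSimpleGroup G] (hG : ¬ IsMulCommutative G) : False := by
  classical
  have hf : Fact (Nat.Prime 2) := ⟨Nat.prime_two⟩
  obtain ⟨e⟩ := hS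
  -- G has no subgroup of index two
  have hnoidx : ∀ H : Subgroup G, H.index ≠ 2 := by
    intro H hH
    have hn : H.Normal := Subgroup.normal_of_index_eq_two hH
    rcases hn.eq_bot_or_eq_top with h | h
    · rw [h, Subgroup.index_bot] at hH
      apply hG
      have hcyc : IsCyclic G := isCyclic_of_prime_card (p := 2) hH
      exact IsCyclic.isMulCommutative (α := G)
    · rw [h, Subgroup.index_top] at hH; omega
  let ψ : (S : Subgroup G) →* Multiplicative (ZMod 2) := (MonoidHom.fst _ _).comp e.toMonoidHom
  have hψs : Function.Surjective ψ := fun a => ⟨e.symm (a, 1), by simp [ψ]⟩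
  have hidx : ψ.ker.index = 2 := by
    rw [Subgroup.index_ker, MonoidHom.range_eq_top.mpr hψs, Subgroup.card_top]
    simp
  set M : Subgroup G := ψ.ker.map (S : Subgroup G).subtype with hM
  have hMS : M ≤ (S : Subgroup G) := Subgroup.map_subtype_le _
  have hrel : M.relIndex (S : Subgroup G) = 2 := by
    rw [Subgroup.relIndex, hM, Subgroup.subgroupOf, Subgroup.comap_map_eq_self_of_injective (Subgroup.subtype_injective _)]
    exact hidx
  obtain ⟨u, hu⟩ : ∃ u : (S : Subgroup G), e u = (Multiplicative.ofAdd (1 : ZMod 2), 1) := e.surjective _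
  obtain ⟨r, hr⟩ : ∃ u : (S : Subgroup G), e u = (1, DihedralGroup.r 1) := e.surjective _
  have hu2 : u * u = 1 := by
    apply e.injective
    rw [map_mul, hu, map_one e]
    exact Prod.ext (hz2 _) (mul_one _)
  have hucomm : ∀ s : (S : Subgroup G), s * u = u * s := by
    intro s
    apply e.injective
    rw [map_mul, map_mul, hu]
    apply Prod.ext
    · exact mul_comm _ _
    · change (e s).2 * 1 = 1 * (e s).2
      rw [mul_one, one_mul]
  -- squares in S
  have hsq : ∀ s : (S : Subgroup G), s * s = 1 ∨ s * s = r * r := by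
    intro s
    rcases hd2 (e s).2 with h | h
    · left
      apply e.injective
      rw [map_mul, map_one]
      exact Prod.ext (hz2 _) h
    · right
      apply e.injective
      rw [map_mul, map_mul, hr]
      apply Prod.ext
      · exact (hz2 _).trans (hz2 _).symm
      · exact h.trans hd3.symm
  have hrr : r * r ≠ 1 := by
    intro h
    have := congrArg e h
    rw [map_mul, hr, map_one] at this
    have h2 := congrArg Prod.snd this
    exact hd4 (hd3.symm.trans h2)
  have hu2' : (u : G) * u = 1 := congrArg Subtype.val hu2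
  rcases H20.extremal_transfer S M hMS hrel (u : G) 1 (by rw [pow_one, pow_two]; exact hu2')
    (by
      intro g k hk _
      have : (u : G) ^ (2 ^ k) = 1 := by
        obtain ⟨j, rfl⟩ : ∃ j, k = j + 1 := ⟨k - 1, by omega⟩
        rw [pow_succ', pow_mul, pow_two, hu2', one_pow]
      rw [this]; simp)
    (S : Subgroup G) S.isPGroup' (by intro t ht; exact congrArg Subtype.val (hucomm ⟨t, ht⟩)) with ⟨a, ha, haS⟩ | ⟨N, hN, -⟩
  · have haN : a⁻¹ ∈ Subgroup.normalizer ((S : Subgroup G) : Set G) := by
      have hle : (S : Subgroup G).map (MulAut.conj a⁻¹).toMonoidHom ≤ S := by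
        rintro _ ⟨t, ht, rfl⟩
        have := haS t ht
        change a⁻¹ * t * a⁻¹⁻¹ ∈ (S : Subgroup G)
        rwa [inv_inv]
      rw [Subgroup.mem_normalizer_iff_map_conj_eq]
      apply Subgroup.eq_of_le_of_card_ge hle
      exact (Nat.card_congr ((S : Subgroup G).equivMapOfInjective _ (MulAut.conj a⁻¹).injective).toEquiv).le
    have haN' : a ∈ Subgroup.normalizer ((S : Subgroup G) : Set G) := by
      have := inv_mem haN; rwa [inv_inv] at this
    have hraS : a * r * a⁻¹ ∈ (S : Subgroup G) := (haN' r).mp r.2
    have hzfix : a * ((r : G) * r) * a⁻¹ = r * r := by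
      have h1 : (a * r * a⁻¹) * (a * r * a⁻¹) = a * ((r : G) * r) * a⁻¹ := by group
      rcases hsq ⟨a * r * a⁻¹, hraS⟩ with h | h
      · exfalso
        have h2 : (a * r * a⁻¹) * (a * r * a⁻¹) = 1 := congrArg Subtype.val h
        rw [h1] at h2
        apply hrr
        apply Subtype.ext
        change (r : G) * r = 1
        have := congrArg (fun t => a⁻¹ * t * a) h2
        simpa [mul_assoc] using this
      · have h2 : (a * r * a⁻¹) * (a * r * a⁻¹) = (r : G) * r := congrArg Subtype.val h
        rw [← h1]; exact h2
    -- a⁻¹ u a is central in S and lies in M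
    obtain ⟨w, hw, hwa⟩ := ha
    have hwcomm : ∀ s : (S : Subgroup G), s * w = w * s := by
      intro s
      apply Subtype.ext
      change (s : G) * w = w * s
      have hwa' : (w : G) = a⁻¹ * u * a := hwa
      have h1 : a * s * a⁻¹ ∈ (S : Subgroup G) := (haN' s).mp s.2
      have h2 : (a * s * a⁻¹) * u = u * (a * s * a⁻¹) := congrArg Subtype.val (hucomm ⟨_, h1⟩)
      rw [hwa']
      calc (s : G) * (a⁻¹ * u * a) = a⁻¹ * ((a * s * a⁻¹) * u) * a := by group
        _ = a⁻¹ * (u * (a * s * a⁻¹)) * a := by rw [h2]
        _ = a⁻¹ * u * a * s := by group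
    have hw1 : (e w).1 = 1 := MonoidHom.mem_ker.mp hw
    have hw2 : (e w).2 = 1 ∨ (e w).2 = DihedralGroup.r 2 := by
      apply hd1
      intro c
      have := congrArg e (hwcomm (e.symm (1, c)))
      rw [map_mul, map_mul, MulEquiv.apply_symm_apply] at this
      exact congrArg Prod.snd this
    have hwu : (u : G) = a * w * a⁻¹ := by
      have hwa' : (w : G) = a⁻¹ * u * a := hwa
      rw [hwa']; group
    have hu1 : u ≠ 1 := by
      intro h
      rw [h, map_one] at hu
      exact hz3 (congrArg Prod.fst hu).symm
    rcases hw2 with h | h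
    · have hw1' : w = 1 := by
        apply e.injective; rw [map_one]; exact Prod.ext hw1 h
      apply hu1
      apply Subtype.ext
      rw [hwu, hw1']; simp
    · have hwr : w = r * r := by
        apply e.injective; rw [map_mul, hr]
        exact Prod.ext (hw1.trans (hz2 _).symm) (h.trans hd3.symm)
      have : (u : G) = r * r := by
        rw [hwu, hwr]; exact hzfix
      have h3 : u = r * r := Subtype.ext this
      rw [h3, map_mul, hr] at hu
      have := congrArg Prod.fst hu
      exact hz3 this.symm
  · exact hnoidx N hN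


end Cfsg.Agent.S3309
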