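import Cfsg.Statements.S3315
import Cfsg.Agent.H18.SuSq2
import Cfsg.Agent.H18.PSU3f

set_option autoImplicit false
open Cfsg
open Cfsg.Agent.H5 Cfsg.Agent.H5.FormData Cfsg.Agent.H18 Cfsg.Agent.H18.SuSq

namespace Cfsg.Agent.S3315

theorem coord_stv {F : Type*} [Field F] [Fintype F] {σ : F →+* F} {q : ℕ} (hσ : ∀ x, σ x = x ^ q)
    (hσ1 : σ ≠ RingHom.id F) (hσ2 : ∀ a, σ (σ a) = a) {v w u : Fin 3 → F} (hf : Fr σ v w u) :
    Coord σ (stv q v) (fun g => hB (Fin 3) σ w (sv g.1 u)) (fun g => hB (Fin 3) σ w (sv g.1 w)) := by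
  obtain ⟨c, hc⟩ : ∃ c : SU 3 F q → F, ∀ g, c g = hB (Fin 3) σ w (sv g u) := ⟨_, fun _ => rfl⟩
  obtain ⟨d, hd⟩ : ∃ d : SU 3 F q → F, ∀ g, d g = hB (Fin 3) σ w (sv g w) := ⟨_, fun _ => rfl⟩
  have key : ∀ g : SU 3 F q, sv g v = v → sv g u = u + c g • v ∧ sv g w = w - σ (c g) • u + d g • v ∧
      d g + σ (d g) = -(c g * σ (c g)) := by
    intro g hg
    obtain ⟨c', d', h1, h2, h3⟩ := stab_struct hσ hσ2 hf hg
    have h4 : c g = c' := by
      rw [hc, h1, br_add, br_smul, hf.wu, hf.wv]; ring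
    have h5 : d g = d' := by
      rw [hd, h2, br_add, br_sub, br_smul, br_smul, hf.ww, hf.wu, hf.wv]; ring
    rw [h4, h5]
    exact ⟨h1, h2, h3⟩
  simp only [← hc, ← hd]
  refine ⟨?_, ?_, ?_, ?_, ?_⟩
  · rintro ⟨g, hg⟩ ⟨h, hh⟩
    show c (g * h) = c g + c h
    obtain ⟨g1, g2, g3⟩ := key g hg
    obtain ⟨h1, h2, h3⟩ := key h hh
    have hgv : sv g v = v := hg
    rw [hc (g * h), sv_mul, h1, sv_add, sv_smul, g1, hgv]
    simp only [br_add, br_smul, hf.wu, hf.wv]; ring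
  · rintro ⟨g, hg⟩ ⟨h, hh⟩
    show d (g * h) = d g + d h - σ (c h) * c g
    obtain ⟨g1, g2, g3⟩ := key g hg
    obtain ⟨h1, h2, h3⟩ := key h hh
    have hgv : sv g v = v := hg
    rw [hd (g * h), sv_mul, h2, sub_eq_add_neg, ← neg_smul, sv_add, sv_add, sv_smul, sv_smul, g1, g2, hgv]
    simp only [br_add, br_sub, br_smul, hf.wu, hf.wv, hf.ww]; ring
  · rintro ⟨g, hg⟩ ⟨h, hh⟩ (h4 : c g = c h) (h5 : d g = d h)
    obtain ⟨g1, g2, g3⟩ := key g hg
    obtain ⟨h1, h2, h3⟩ := key h hh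
    have hgv : sv g v = v := hg
    have hhv : sv h v = v := hh
    apply Subtype.ext
    apply sv_ext
    intro x
    show sv g x = sv h x
    rw [hf.exp hσ2 x]
    simp only [sv_add, sv_smul]
    rw [g1, g2, h1, h2, hgv, hhv, h4, h5]
  · rintro ⟨g, hg⟩
    exact (key g hg).2.2
  · intro e
    obtain ⟨g, hg, hgu⟩ := exists_stab_elt (q := q) hσ hσ1 hσ2 hf e
    refine ⟨⟨g, hg⟩, ?_⟩
    show c g = e
    rw [hc, hgu, br_add, br_smul, hf.wu, hf.wv]; ring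

/-- Let S be a Sylow 2-subgroup of SU₃(2ⁿ), n ≥ 2 (realised over the field with 4ⁿ elements). If a finite 2-group R contains a subgroup S' of index 2 isomorphic to S, then the centre of S' is contained in the centre of R. -/
theorem result {R : Type*} [Group R] [Finite R]
    (hR : IsPGroup 2 R) (n : ℕ) (hn : 2 ≤ n) {F : Type*} [Field F] [Fintype F] (hF : Fintype.card F = 4 ^ n)
    (P : Sylow 2 ↥(Cfsg.SU 3 F (2 ^ n))) (S' : Subgroup R) (hS : Nonempty (↥S' ≃* ↥(P : Subgroup ↥(Cfsg.SU 3 F (2 ^ n)))))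
    (hidx : S'.index = 2) :
    (Subgroup.center ↥S').map S'.subtype ≤ Subgroup.center R := by
  haveI : Fact (Nat.Prime 2) := ⟨Nat.prime_two⟩
  have hFq : Fintype.card F = (2 ^ n) ^ 2 := by
    rw [hF, ← pow_mul, mul_comm, pow_mul]; norm_num
  obtain ⟨σ, hσ, hσ2, hσ1⟩ := exists_frob hFq
  have h20 : (2 : F) = 0 := by
    have h1 := FiniteField.cast_card_eq_zero F
    rw [hFq, ← pow_mul] at h1
    push_cast at h1
    exact (pow_eq_zero_iff (by omega)).1 h1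
  have h2 : ∀ x : F, x + x = 0 := fun x => by rw [← two_mul, h20, zero_mul]
  haveI : CharP F 2 := CharTwo.of_one_ne_zero_of_two_eq_zero one_ne_zero h20
  obtain ⟨v, hv0, hv, hPv⟩ := exists_fixed (σ := σ) hFq hσ hσ2 (dvd_pow_self 2 (by omega) : 2 ∣ 2 ^ n) P.2
  obtain ⟨w, u, hf⟩ := exists_fr hσ1 hσ2 hv0 hv
  have hPs : stv (2 ^ n) v = (P : Subgroup (Cfsg.SU 3 F (2 ^ n))) :=
    P.3 (stv_isPGroup hσ hσ2 hf) (fun g hg => hPv g hg)
  obtain ⟨e⟩ := hS
  have hco := (coord_stv hσ hσ1 hσ2 hf).comp (e.trans (MulEquiv.subgroupCongr hPs.symm))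
  haveI hn2 : S'.Normal := Subgroup.normal_of_index_eq_two hidx
  rintro _ ⟨z, hz, rfl⟩
  rw [Subgroup.mem_center_iff]
  intro r
  have hrr : r * r ∈ S' := Subgroup.mul_self_mem_of_index_two hidx r
  have h3 := hco.aut_fix h2 hσ1 hσ2 (MulAut.conjNormal r) ⟨r * r, hrr⟩ (by
    intro x
    apply Subtype.ext
    rw [MulAut.conjNormal_apply, MulAut.conjNormal_apply]
    show r * (r * (x : R) * r⁻¹) * r⁻¹ = (r * r) * (x : R) * (r * r)⁻¹
    group) hz
  have h4 := congrArg Subtype.val h3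
  rw [MulAut.conjNormal_apply] at h4
  show r * (z : R) = (z : R) * r
  calc r * (z : R) = (r * z * r⁻¹) * r := by group
    _ = z * r := by rw [h4]

end Cfsg.Agent.S3315
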