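import Cfsg.Statements.S3335
import Cfsg.Agent.H22.AutAlt

set_option autoImplicit false
set_option linter.all false
open Cfsg

namespace Cfsg.Agent.S3335

open Equiv Equiv.Perm
universe u

section pres

variable {G : Type u} [Group G]

/-- The relations of Carmichael's presentation. -/
structure Rel (x : ℕ → G) (M : ℕ) : Prop where
  h0 : x 0 ^ 3 = 1
  h1 : ∀ i, 1 ≤ i → i < M → x i ^ 2 = 1
  h2 : ∀ i, i + 1 < M → (x i * x (i + 1)) ^ 3 = 1
  h3 : ∀ i j, i + 1 < j → j < M → (x i * x j) ^ 2 = 1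

theorem Rel.mono {x : ℕ → G} {M M' : ℕ} (h : Rel x M) (hM : M' ≤ M) : Rel x M' where
  h0 := h.h0
  h1 := fun i hi hi' => h.h1 i hi (hi'.trans_le hM)
  h2 := fun i hi => h.h2 i (hi.trans_le hM)
  h3 := fun i j hi hj => h.h3 i j hi (hj.trans_le hM)

variable {x : ℕ → G} {N : ℕ}

theorem Rel.sq (h : Rel x (N + 1)) {i : ℕ} (h1 : 1 ≤ i) (h2 : i ≤ N) : x i * x i = 1 := by
  rw [← pow_two]; exact h.h1 i h1 (by omega)

theorem Rel.inv (h : Rel x (N + 1)) {i : ℕ} (h1 : 1 ≤ i) (h2 : i ≤ N) : (x i)⁻¹ = x i :=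
  inv_eq_of_mul_eq_one_right (h.sq h1 h2)

theorem Rel.comm (h : Rel x (N + 1)) {i j : ℕ} (h1 : 1 ≤ i) (h2 : i + 1 < j) (h3 : j ≤ N) :
    x j * x i = x i * x j := by
  have h4 := h.h3 i j h2 (by omega)
  rw [pow_two] at h4
  have h5 := inv_eq_of_mul_eq_one_right h4
  rw [mul_inv_rev, h.inv h1 (by omega), h.inv (by omega) h3] at h5
  exact h5

theorem Rel.braid (h : Rel x (N + 1)) {i : ℕ} (h1 : 1 ≤ i) (h2 : i + 1 ≤ N) :
    x (i + 1) * x i * x (i + 1) = x i * x (i + 1) * x i := by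
  have h4 := h.h2 i (by omega)
  have h5 : (x i * x (i + 1) * x i) * (x (i + 1) * x i * x (i + 1)) = 1 := by
    rw [← h4, pow_succ, pow_two]; group
  have h6 := inv_eq_of_mul_eq_one_right h5
  rw [mul_inv_rev, mul_inv_rev, h.inv h1 (by omega), h.inv (by omega) h2, ← mul_assoc] at h6
  exact h6.symm

theorem Rel.x0 (h : Rel x (N + 1)) {j : ℕ} (h1 : 2 ≤ j) (h2 : j ≤ N) :
    x j * x 0 = (x 0)⁻¹ * x j := by
  have h4 := h.h3 0 j (by omega) (by omega)
  rw [pow_two] at h4
  have h5 : x 0 * (x j * x 0) * x j = 1 := by rw [← h4]; group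
  have h6 : x j * x 0 = (x 0)⁻¹ * (x j)⁻¹ := by
    rw [eq_inv_mul_iff_mul_eq]
    exact mul_eq_one_iff_eq_inv.mp h5
  rw [h6, h.inv (by omega) h2]

theorem Rel.x0' (h : Rel x (N + 1)) {j : ℕ} (h1 : 2 ≤ j) (h2 : j ≤ N) :
    x 0 * x j = x j * (x 0)⁻¹ := by
  rw [eq_mul_inv_iff_mul_eq, mul_assoc, h.x0 h1 h2, mul_inv_cancel_left]

theorem Rel.x0'' (h : Rel x (N + 1)) {j : ℕ} (h1 : 2 ≤ j) (h2 : j ≤ N) :
    (x 0)⁻¹ * x j = x j * x 0 := (h.x0 h1 h2).symm

theorem Rel.x1 (h : Rel x (N + 1)) (h2 : 1 ≤ N) : x 1 * x 0 * x 1 = (x 0)⁻¹ * x 1 * (x 0)⁻¹ := by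
  have h4 := h.h2 0 (by omega)
  rw [zero_add] at h4
  have h5 : x 0 * (x 1 * x 0 * x 1) * (x 0 * x 1) = 1 := by
    rw [← h4, pow_succ, pow_two]; group
  have h6 : x 0 * (x 1 * x 0 * x 1) = (x 0 * x 1)⁻¹ := mul_eq_one_iff_eq_inv.mp h5
  rw [mul_inv_rev, h.inv le_rfl h2] at h6
  rw [mul_assoc (x 0)⁻¹, ← h6, inv_mul_cancel_left]

/-- descending words -/
def w (x : ℕ → G) (N : ℕ) : ℕ → G
  | 0 => 1
  | m + 1 => w x N m * x (N - m)

theorem Rel.L1 (h : Rel x (N + 1)) {j : ℕ} (h1 : 1 ≤ j) (m : ℕ) (h2 : j + m + 1 ≤ N) :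
    w x N m * x j = x j * w x N m := by
  induction m with
  | zero => show 1 * x j = x j * 1; rw [one_mul, mul_one]
  | succ m ih =>
    show w x N m * x (N - m) * x j = x j * (w x N m * x (N - m))
    rw [mul_assoc, h.comm h1 (by omega) (by omega), ← mul_assoc, ih (by omega), mul_assoc]

theorem Rel.L2 (h : Rel x (N + 1)) {i : ℕ} (h1 : 1 ≤ i) (h3 : i + 1 ≤ N) (m : ℕ) (h2 : N + 1 ≤ m + i) (h4 : m ≤ N) :
    w x N m * x (i + 1) = x i * w x N m := by
  induction m with
  | zero => omega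
  | succ m ih =>
    rcases Nat.lt_or_ge (m + i) (N + 1) with hlt | hge
    · -- base case : m + i = N
      obtain ⟨d, hd⟩ : ∃ d, m = d + 1 := ⟨m - 1, by omega⟩
      have e1 : N - m = i := by omega
      have e2 : N - d = i + 1 := by omega
      show w x N m * x (N - m) * x (i + 1) = x i * (w x N m * x (N - m))
      rw [e1, hd]
      show (w x N d * x (N - d)) * x i * x (i + 1) = x i * ((w x N d * x (N - d)) * x i)
      rw [e2]
      calc w x N d * x (i + 1) * x i * x (i + 1) = w x N d * (x (i + 1) * x i * x (i + 1)) := by group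
        _ = (w x N d * x i) * x (i + 1) * x i := by rw [h.braid h1 h3]; group
        _ = (x i * w x N d) * x (i + 1) * x i := by rw [h.L1 h1 d (by omega)]
        _ = _ := by group
    · show w x N m * x (N - m) * x (i + 1) = x i * (w x N m * x (N - m))
      have e1 : x (i + 1) * x (N - m) = x (N - m) * x (i + 1) := h.comm (by omega) (by omega) h3
      rw [mul_assoc, ← e1, ← mul_assoc, ih hge (by omega), mul_assoc]

theorem Rel.L3 (h : Rel x (N + 1)) (m : ℕ) (h2 : m + 1 ≤ N) :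
    w x N m * x 0 * (w x N m)⁻¹ ∈ Subgroup.zpowers (x 0) := by
  induction m with
  | zero =>
    show 1 * x 0 * 1⁻¹ ∈ _
    rw [one_mul, inv_one, mul_one]; exact Subgroup.mem_zpowers _
  | succ m ih =>
    show (w x N m * x (N - m)) * x 0 * (w x N m * x (N - m))⁻¹ ∈ _
    have e1 : (w x N m * x (N - m)) * x 0 * (w x N m * x (N - m))⁻¹ = (w x N m * x 0 * (w x N m)⁻¹)⁻¹ := by
      calc (w x N m * x (N - m)) * x 0 * (w x N m * x (N - m))⁻¹
          = w x N m * (x (N - m) * x 0) * (x (N - m))⁻¹ * (w x N m)⁻¹ := by group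
        _ = w x N m * ((x 0)⁻¹ * x (N - m)) * (x (N - m))⁻¹ * (w x N m)⁻¹ := by rw [h.x0 (by omega) (by omega)]
        _ = _ := by group
    rw [e1]
    exact inv_mem (ih (by omega))

/-- coset representatives -/
def rr (x : ℕ → G) (N : ℕ) (k : ℕ) : G :=
  if k ≤ N then w x N k else if k = N + 1 then w x N N * x 0 else w x N N * (x 0)⁻¹

theorem rr_le {k : ℕ} (hk : k ≤ N) : rr x N k = w x N k := if_pos hk
theorem rr_1 : rr x N (N + 1) = w x N N * x 0 := by
  unfold rr; rw [if_neg (by omega), if_pos rfl]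
theorem rr_2 : rr x N (N + 2) = w x N N * (x 0)⁻¹ := by
  unfold rr; rw [if_neg (by omega), if_neg (by omega)]

/-- the subgroup generated by the first generators -/
def HH (x : ℕ → G) (M : ℕ) : Subgroup G := Subgroup.closure (x '' {i | i < M})

theorem mem_HH {M i : ℕ} (hi : i < M) : x i ∈ HH x M := Subgroup.subset_closure ⟨i, hi, rfl⟩

theorem Rel.step (h : Rel x (N + 1)) (hN : 1 ≤ N) (k j : ℕ) (hk : k < N + 3) (hj : j ≤ N) :
    ∃ h' ∈ HH x N, ∃ k' < N + 3, rr x N k * x j = h' * rr x N k' := by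
  have hz : Subgroup.zpowers (x 0) ≤ HH x N := by
    rw [Subgroup.zpowers_le]; exact mem_HH (by omega)
  have hx3 : x 0 * x 0 = (x 0)⁻¹ := by
    have := h.h0
    rw [pow_succ, pow_two] at this
    exact mul_eq_one_iff_eq_inv.mp this
  have hL3 : ∀ m, m + 1 ≤ N → ∃ h' ∈ HH x N, w x N m * x 0 = h' * w x N m := fun m hm =>
    ⟨_, hz (h.L3 m hm), by group⟩
  rcases Nat.eq_zero_or_pos j with rfl | hj1
  · -- j = 0
    rcases Nat.lt_or_ge k N with h1 | h1
    · obtain ⟨h', hh', he⟩ := hL3 k h1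
      exact ⟨h', hh', k, hk, by rw [rr_le (by omega), he]⟩
    · have : k = N ∨ k = N + 1 ∨ k = N + 2 := by omega
      rcases this with rfl | rfl | rfl
      · exact ⟨1, one_mem _, k + 1, by omega, by rw [rr_le le_rfl, rr_1, one_mul]⟩
      · exact ⟨1, one_mem _, N + 2, by omega, by rw [rr_1, rr_2, one_mul, mul_assoc, hx3]⟩
      · exact ⟨1, one_mem _, N, by omega, by rw [rr_2, rr_le le_rfl, one_mul, inv_mul_cancel_right]⟩
  · rcases Nat.lt_or_ge N k with h1 | h1
    · -- k = N+1, N+2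
      rcases Nat.lt_or_ge 1 j with hj2 | hj2
      · obtain ⟨i, rfl⟩ : ∃ i, j = i + 1 := ⟨j - 1, by omega⟩
        have hL2 := h.L2 (i := i) (by omega) hj N (by omega) le_rfl
        have : k = N + 1 ∨ k = N + 2 := by omega
        rcases this with rfl | rfl
        · refine ⟨x i, mem_HH (by omega), N + 2, by omega, ?_⟩
          rw [rr_1, rr_2, mul_assoc, h.x0' (by omega) hj, ← mul_assoc, hL2, mul_assoc]
        · refine ⟨x i, mem_HH (by omega), N + 1, by omega, ?_⟩
          rw [rr_1, rr_2, mul_assoc, h.x0'' (by omega) hj, ← mul_assoc, hL2, mul_assoc]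
      · obtain rfl : j = 1 := by omega
        obtain ⟨N', rfl⟩ : ∃ N', N = N' + 1 := ⟨N - 1, by omega⟩
        obtain ⟨h', hh', he⟩ := hL3 N' le_rfl
        have hw : w x (N' + 1) (N' + 1) = w x (N' + 1) N' * x 1 := by
          show w x (N' + 1) N' * x (N' + 1 - N') = _
          rw [Nat.add_sub_cancel_left]
        have he2 : w x (N' + 1) N' * (x 0)⁻¹ = h'⁻¹ * w x (N' + 1) N' := by
          rw [eq_inv_mul_iff_mul_eq, ← mul_assoc, ← he, mul_inv_cancel_right]
        have key : w x (N' + 1) (N' + 1) * x 0 * x 1 = h'⁻¹ * (w x (N' + 1) (N' + 1) * (x 0)⁻¹) := by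
          calc w x (N' + 1) (N' + 1) * x 0 * x 1 = w x (N' + 1) N' * (x 1 * x 0 * x 1) := by rw [hw]; group
            _ = (w x (N' + 1) N' * (x 0)⁻¹) * x 1 * (x 0)⁻¹ := by rw [h.x1 hN]; group
            _ = _ := by rw [he2, hw]; group
        have : k = N' + 1 + 1 ∨ k = N' + 1 + 2 := by omega
        rcases this with rfl | rfl
        · exact ⟨h'⁻¹, inv_mem hh', N' + 1 + 2, by omega, by rw [rr_1, rr_2, key]⟩
        · refine ⟨h', hh', N' + 1 + 1, by omega, ?_⟩
          rw [rr_1, rr_2]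
          have h5 : w x (N' + 1) (N' + 1) * (x 0)⁻¹ = h' * (w x (N' + 1) (N' + 1) * x 0 * x 1) := by
            rw [key, mul_inv_cancel_left]
          rw [h5, mul_assoc, mul_assoc, mul_assoc, h.sq le_rfl hN, mul_one]
    · -- k ≤ N
      have : N = k + j ∨ k + j = N + 1 ∨ j + k + 1 ≤ N ∨ N + 2 ≤ k + j := by omega
      rcases this with h2 | h2 | h2 | h2
      · refine ⟨1, one_mem _, k + 1, by omega, ?_⟩
        rw [rr_le h1, rr_le (by omega), one_mul]
        show _ = w x N k * x (N - k)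
        have : N - k = j := by omega
        rw [this]
      · obtain ⟨k', rfl⟩ : ∃ k', k = k' + 1 := ⟨k - 1, by omega⟩
        refine ⟨1, one_mem _, k', by omega, ?_⟩
        rw [rr_le h1, rr_le (by omega), one_mul]
        show w x N k' * x (N - k') * x j = _
        have : N - k' = j := by omega
        rw [this, mul_assoc, h.sq hj1 hj, mul_one]
      · refine ⟨x j, mem_HH (by omega), k, hk, ?_⟩
        rw [rr_le h1, h.L1 hj1 k h2]
      · obtain ⟨i, rfl⟩ : ∃ i, j = i + 1 := ⟨j - 1, by omega⟩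
        refine ⟨x i, mem_HH (by omega), k, hk, ?_⟩
        rw [rr_le h1, h.L2 (by omega) hj k (by omega) h1]

theorem Rel.cover (h : Rel x (N + 1)) (hN : 1 ≤ N) (g : G) (hg : g ∈ HH x (N + 1)) :
    ∃ h' ∈ HH x N, ∃ k < N + 3, g = h' * rr x N k := by
  have hstep : ∀ (g : G) (j : ℕ), j ≤ N → (∃ h' ∈ HH x N, ∃ k < N + 3, g = h' * rr x N k) →
      ∃ h' ∈ HH x N, ∃ k < N + 3, g * x j = h' * rr x N k := by
    rintro g j hj ⟨h1, hh1, k, hk, rfl⟩
    obtain ⟨h2, hh2, k', hk', he⟩ := h.step hN k j hk hj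
    exact ⟨h1 * h2, mul_mem hh1 hh2, k', hk', by rw [mul_assoc, he, mul_assoc]⟩
  refine Subgroup.closure_induction_right (p := fun g _ => ∃ h' ∈ HH x N, ∃ k < N + 3, g = h' * rr x N k) ?_ ?_ ?_ hg
  · exact ⟨1, one_mem _, 0, by omega, by rw [rr_le (Nat.zero_le _)]; show (1 : G) = 1 * 1; rw [mul_one]⟩
  · rintro g _ _ ⟨j, hj, rfl⟩ hg
    exact hstep g j (by have : j < N + 1 := hj; omega) hg
  · rintro g _ _ ⟨j, hj, rfl⟩ hg
    have hj' : j ≤ N := by have : j < N + 1 := hj; omega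
    rcases Nat.eq_zero_or_pos j with rfl | hj1
    · have hx3 : (x 0)⁻¹ = x 0 * x 0 := by
        have := h.h0
        rw [pow_succ, pow_two] at this
        exact (mul_eq_one_iff_eq_inv.mp this).symm
      rw [hx3, ← mul_assoc]
      exact hstep _ 0 (by omega) (hstep _ 0 (by omega) hg)
    · rw [h.inv hj1 hj']
      exact hstep g j hj' hg

theorem Rel.card (M : ℕ) : ∀ (_ : 1 ≤ M) (_ : Rel x M), Finite (HH x M) ∧ 2 * Nat.card (HH x M) ≤ (M + 2).factorial := by
  induction M with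
  | zero => intro h; omega
  | succ N ih =>
    intro _ h
    rcases Nat.eq_zero_or_pos N with rfl | hN
    · have h1 : HH x (0 + 1) = Subgroup.zpowers (x 0) := by
        unfold HH
        rw [Subgroup.zpowers_eq_closure]
        congr 1
        ext y
        constructor
        · rintro ⟨i, hi, rfl⟩
          have : i < 1 := hi
          obtain rfl : i = 0 := by omega
          rfl
        · rintro rfl
          exact ⟨0, (by norm_num : (0 : ℕ) < 1), rfl⟩
      rw [h1]
      have h2 : IsOfFinOrder (x 0) := isOfFinOrder_iff_pow_eq_one.mpr ⟨3, by norm_num, h.h0⟩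
      refine ⟨?_, ?_⟩
      · exact Set.finite_coe_iff.mpr (finite_zpowers.mpr h2)
      · rw [Nat.card_zpowers]
        have := Nat.le_of_dvd (by norm_num) (orderOf_dvd_of_pow_eq_one h.h0)
        calc 2 * orderOf (x 0) ≤ 2 * 3 := Nat.mul_le_mul_left _ this
          _ = _ := by rfl
    · obtain ⟨hf, hc⟩ := ih hN (h.mono (by omega))
      haveI := hf
      let f : HH x N × Fin (N + 3) → G := fun p => (p.1 : G) * rr x N p.2
      have hsub : ((HH x (N + 1) : Subgroup G) : Set G) ⊆ Set.range f := by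
        intro g hg
        obtain ⟨h', hh', k, hk, he⟩ := h.cover hN g hg
        exact ⟨(⟨h', hh'⟩, ⟨k, hk⟩), he.symm⟩
      have hfin : (Set.range f).Finite := Set.finite_range f
      refine ⟨(hfin.subset hsub).to_subtype, ?_⟩
      have h1 : Nat.card (HH x (N + 1)) ≤ Nat.card (Set.range f) := Nat.card_mono hfin hsub
      have h2 : Nat.card (Set.range f) ≤ Nat.card (HH x N × Fin (N + 3)) :=
        Nat.card_le_card_of_surjective _ Set.rangeFactorization_surjective
      rw [Nat.card_prod, Nat.card_fin] at h2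
      calc 2 * Nat.card (HH x (N + 1)) ≤ 2 * (Nat.card (HH x N) * (N + 3)) := Nat.mul_le_mul_left _ (h1.trans h2)
        _ = (N + 3) * (2 * Nat.card (HH x N)) := by ring
        _ ≤ (N + 3) * (N + 2).factorial := Nat.mul_le_mul_left _ hc
        _ = (N + 1 + 2).factorial := (Nat.factorial_succ (N + 2)).symm

end pres

section abs

variable {G : Type u} [Group G]

theorem conj3 {a b : G} (ha : a * a = 1) (hb : b ^ 3 = 1) : (a * b * a) ^ 3 = 1 := by
  have : a * b * a = a * b * a⁻¹ := by rw [inv_eq_of_mul_eq_one_right ha]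
  rw [this, conj_pow, hb, mul_one, mul_inv_cancel]

theorem conj2 {a b : G} (ha : a * a = 1) (hb : b ^ 2 = 1) : (a * b * a) ^ 2 = 1 := by
  have : a * b * a = a * b * a⁻¹ := by rw [inv_eq_of_mul_eq_one_right ha]
  rw [this, conj_pow, hb, mul_one, mul_inv_cancel]

theorem cube_of_braid {a b : G} (ha : a * a = 1) (hb : b * b = 1) (hab : a * b * a = b * a * b) : (a * b) ^ 3 = 1 := by
  calc (a * b) ^ 3 = (a * b * a) * (b * a * b) := by rw [pow_succ, pow_two]; group
    _ = (b * a * b) * (b * a * b) := by rw [hab]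
    _ = b * a * (b * b) * a * b := by group
    _ = b * (a * a) * b := by rw [hb]; group
    _ = 1 := by rw [ha, mul_one, hb]

end abs

section perm

variable {n : ℕ}

def pp (hn : 3 ≤ n) (k : ℕ) : Fin n := ⟨k % n, Nat.mod_lt _ (by omega)⟩

theorem pp_ne (hn : 3 ≤ n) {i j : ℕ} (hi : i < n) (hj : j < n) (h : i ≠ j) : pp hn i ≠ pp hn j := by
  intro he
  have := congrArg Fin.val he
  change i % n = j % n at this
  rw [Nat.mod_eq_of_lt hi, Nat.mod_eq_of_lt hj] at this
  exact h this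

def ss (hn : 3 ≤ n) (i : ℕ) : Perm (Fin n) := swap (pp hn i) (pp hn (i + 1))

theorem ss_sq (hn : 3 ≤ n) (i : ℕ) : ss hn i * ss hn i = 1 := swap_mul_self _ _

theorem ss_comm (hn : 3 ≤ n) {i j : ℕ} (h1 : i + 1 < j) (h2 : j + 1 < n) : ss hn j * ss hn i = ss hn i * ss hn j := by
  have h3 : pp hn i ≠ pp hn j := pp_ne hn (by omega) (by omega) (by omega)
  have h4 : pp hn i ≠ pp hn (j + 1) := pp_ne hn (by omega) (by omega) (by omega)
  have h5 : pp hn (i + 1) ≠ pp hn j := pp_ne hn (by omega) (by omega) (by omega)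
  have h6 : pp hn (i + 1) ≠ pp hn (j + 1) := pp_ne hn (by omega) (by omega) (by omega)
  have h7 : ss hn j * ss hn i * (ss hn j)⁻¹ = ss hn i := by
    unfold ss
    rw [← swap_apply_apply, swap_apply_of_ne_of_ne h3 h4, swap_apply_of_ne_of_ne h5 h6]
  exact mul_inv_eq_iff_eq_mul.mp h7

theorem ss_braid (hn : 3 ≤ n) {i : ℕ} (h1 : i + 2 < n) : ss hn i * ss hn (i + 1) * ss hn i =
    ss hn (i + 1) * ss hn i * ss hn (i + 1) := by
  have h01 : pp hn i ≠ pp hn (i + 1) := pp_ne hn (by omega) (by omega) (by omega)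
  have h02 : pp hn i ≠ pp hn (i + 2) := pp_ne hn (by omega) (by omega) (by omega)
  have h12 : pp hn (i + 1) ≠ pp hn (i + 2) := pp_ne hn (by omega) (by omega) (by omega)
  have e1 : ss hn i * ss hn (i + 1) * ss hn i = swap (pp hn i) (pp hn (i + 2)) := by
    have : ss hn i * ss hn (i + 1) * (ss hn i)⁻¹ = swap (pp hn i) (pp hn (i + 2)) := by
      unfold ss
      rw [← swap_apply_apply, swap_apply_right, swap_apply_of_ne_of_ne h02.symm h12.symm]
    rwa [inv_eq_of_mul_eq_one_right (ss_sq hn i)] at this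
  have e2 : ss hn (i + 1) * ss hn i * ss hn (i + 1) = swap (pp hn i) (pp hn (i + 2)) := by
    have : ss hn (i + 1) * ss hn i * (ss hn (i + 1))⁻¹ = swap (pp hn i) (pp hn (i + 2)) := by
      unfold ss
      rw [← swap_apply_apply, swap_apply_left, swap_apply_of_ne_of_ne h01 h02]
    rwa [inv_eq_of_mul_eq_one_right (ss_sq hn (i + 1))] at this
  rw [e1, e2]

/-- The images of the generators. -/
def XX (hn : 3 ≤ n) (i : ℕ) : Perm (Fin n) := ss hn 0 * ss hn (i + 1)

theorem XX_rel (hn : 3 ≤ n) : Rel (XX hn) (n - 2) where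
  h0 := cube_of_braid (ss_sq hn 0) (ss_sq hn 1) (ss_braid hn (by omega))
  h1 := by
    intro i h1 h2
    unfold XX
    rw [pow_two]
    calc ss hn 0 * ss hn (i + 1) * (ss hn 0 * ss hn (i + 1)) = ss hn 0 * (ss hn (i + 1) * ss hn 0) * ss hn (i + 1) := by group
      _ = (ss hn 0 * ss hn 0) * (ss hn (i + 1) * ss hn (i + 1)) := by rw [ss_comm hn (by omega) (by omega)]; group
      _ = 1 := by rw [ss_sq, ss_sq, one_mul]
  h2 := by
    intro i h2
    have : XX hn i * XX hn (i + 1) = ss hn 0 * (ss hn (i + 1) * ss hn (i + 2)) * ss hn 0 := by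
      unfold XX
      rw [← mul_assoc, mul_assoc (ss hn 0 * ss hn (i + 1)), ← ss_comm hn (i := 0) (j := i + 1 + 1) (by omega) (by omega)]
      group
    rw [this]
    exact conj3 (ss_sq hn 0) (cube_of_braid (ss_sq hn _) (ss_sq hn _) (ss_braid hn (by omega)))
  h3 := by
    intro i j h3 h4
    have : XX hn i * XX hn j = ss hn 0 * (ss hn (i + 1) * ss hn (j + 1)) * ss hn 0 := by
      unfold XX
      rw [← mul_assoc, mul_assoc (ss hn 0 * ss hn (i + 1)), ← ss_comm hn (i := 0) (j := j + 1) (by omega) (by omega)]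
      group
    rw [this]
    apply conj2 (ss_sq hn 0)
    rw [pow_two]
    calc ss hn (i + 1) * ss hn (j + 1) * (ss hn (i + 1) * ss hn (j + 1))
        = ss hn (i + 1) * (ss hn (j + 1) * ss hn (i + 1)) * ss hn (j + 1) := by group
      _ = (ss hn (i + 1) * ss hn (i + 1)) * (ss hn (j + 1) * ss hn (j + 1)) := by
          rw [ss_comm hn (i := i + 1) (j := j + 1) (by omega) (by omega)]; group
      _ = 1 := by rw [ss_sq, ss_sq, one_mul]

theorem XX_mem (hn : 3 ≤ n) {i : ℕ} (hi : i < n - 2) : XX hn i ∈ alternatingGroup (Fin n) := by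
  rw [mem_alternatingGroup]
  unfold XX ss
  rw [Perm.sign_mul, sign_swap (pp_ne hn (by omega) (by omega) (by omega)), sign_swap (pp_ne hn (by omega) (by omega) (by omega))]
  rfl

theorem XX_gen (hn : 3 ≤ n) (K : Subgroup (Perm (Fin n))) (hK : ∀ i, i < n - 2 → XX hn i ∈ K) :
    alternatingGroup (Fin n) ≤ K := by
  rw [← closure_three_cycles_eq_alternating, Subgroup.closure_le]
  intro y hy
  have h01 : pp hn 0 ≠ pp hn 1 := pp_ne hn (by omega) (by omega) (by omega)
  refine H22.AutAlt.gen h01 ?_ hy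
  have key : ∀ k, 2 ≤ k → k < n → H22.AutAlt.cyc (pp hn 0) (pp hn 1) (pp hn k) ∈ K := by
    intro k hk
    induction k, hk using Nat.le_induction with
    | base => intro _; exact hK 0 (by omega)
    | succ k hk ih =>
      intro hkn
      have h0k : pp hn 0 ≠ pp hn k := pp_ne hn (by omega) (by omega) (by omega)
      have h1k : pp hn 1 ≠ pp hn k := pp_ne hn (by omega) (by omega) (by omega)
      have h0k' : pp hn 0 ≠ pp hn (k + 1) := pp_ne hn (by omega) (by omega) (by omega)
      have h1k' : pp hn 1 ≠ pp hn (k + 1) := pp_ne hn (by omega) (by omega) (by omega)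
      have hkk' : pp hn k ≠ pp hn (k + 1) := pp_ne hn (by omega) (by omega) (by omega)
      have hX : XX hn (k - 1) = swap (pp hn 0) (pp hn 1) * swap (pp hn k) (pp hn (k + 1)) := by
        unfold XX ss
        rw [show k - 1 + 1 = k by omega]
      have h1 := H22.AutAlt.conj_cyc (XX hn (k - 1)) (pp hn 0) (pp hn 1) (pp hn k)
      rw [hX, mul_apply, mul_apply, mul_apply, swap_apply_of_ne_of_ne h0k h0k', swap_apply_of_ne_of_ne h1k h1k',
        swap_apply_left, swap_apply_right, swap_apply_left, swap_apply_of_ne_of_ne h0k'.symm h1k'.symm, ← hX] at h1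
      have h2 : H22.AutAlt.cyc (pp hn 1) (pp hn 0) (pp hn (k + 1)) ∈ K := by
        rw [← h1]
        exact mul_mem (mul_mem (hK _ (by omega)) (ih (by omega))) (inv_mem (hK _ (by omega)))
      have h3 : (H22.AutAlt.cyc (pp hn 1) (pp hn 0) (pp hn (k + 1)))⁻¹ = H22.AutAlt.cyc (pp hn 0) (pp hn 1) (pp hn (k + 1)) := by
        rw [H22.AutAlt.cyc_inv h01.symm h1k' h0k', H22.AutAlt.cyc_rot h1k' h01.symm h0k'.symm,
          H22.AutAlt.cyc_rot h0k'.symm h1k'.symm h01]
      rw [← h3]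
      exact inv_mem h2
  intro i h0 h1
  have : pp hn i.val = i := Fin.ext (Nat.mod_eq_of_lt i.2)
  rw [← this]
  apply key i.val _ i.2
  by_contra hlt
  have : i.val = 0 ∨ i.val = 1 := by omega
  rcases this with h | h
  · apply h0; rw [← this, h]
  · apply h1; rw [← this, h]

end perm

/-- A presentation of the alternating group of degree n ≥ 3 on generators x_1, …, x_{n−2} (indexed here by 0, …, n−3): the first generator cubes to 1, every other generator squares to 1, the product of two consecutive generators has order dividing 3, and the product of two generators at distance at least 2 has order dividing 2. The group so presented is isomorphic to the alternating group of degree n. -/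
theorem result (n : ℕ) (hn : 3 ≤ n) :
    Nonempty (PresentedGroup
      ({g : FreeGroup (Fin (n - 2)) | ∃ i : Fin (n - 2), i.val = 0 ∧ g = FreeGroup.of i ^ 3} ∪
       {g | ∃ i : Fin (n - 2), 1 ≤ i.val ∧ g = FreeGroup.of i ^ 2} ∪
       {g | ∃ i j : Fin (n - 2), j.val = i.val + 1 ∧ g = (FreeGroup.of i * FreeGroup.of j) ^ 3} ∪
       {g | ∃ i j : Fin (n - 2), i.val + 1 < j.val ∧ g = (FreeGroup.of i * FreeGroup.of j) ^ 2})
      ≃* alternatingGroup (Fin n)) := by
  classical
  set rels : Set (FreeGroup (Fin (n - 2))) := ({g : FreeGroup (Fin (n - 2)) | ∃ i : Fin (n - 2), i.val = 0 ∧ g = FreeGroup.of i ^ 3} ∪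
       {g | ∃ i : Fin (n - 2), 1 ≤ i.val ∧ g = FreeGroup.of i ^ 2} ∪
       {g | ∃ i j : Fin (n - 2), j.val = i.val + 1 ∧ g = (FreeGroup.of i * FreeGroup.of j) ^ 3} ∪
       {g | ∃ i j : Fin (n - 2), i.val + 1 < j.val ∧ g = (FreeGroup.of i * FreeGroup.of j) ^ 2}) with hrels
  have hR := XX_rel hn
  -- the homomorphism
  have hrel : ∀ r ∈ rels, FreeGroup.lift (fun i : Fin (n - 2) => XX hn i.val) r = 1 := by
    rintro r (((⟨i, hi, rfl⟩ | ⟨i, hi, rfl⟩) | ⟨i, j, hij, rfl⟩) | ⟨i, j, hij, rfl⟩)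
    · rw [map_pow, FreeGroup.lift_apply_of, hi]; exact hR.h0
    · rw [map_pow, FreeGroup.lift_apply_of]; exact hR.h1 _ hi i.2
    · rw [map_pow, map_mul, FreeGroup.lift_apply_of, FreeGroup.lift_apply_of, hij]; exact hR.h2 _ (by omega)
    · rw [map_pow, map_mul, FreeGroup.lift_apply_of, FreeGroup.lift_apply_of]; exact hR.h3 _ _ hij j.2
  obtain ⟨φ, hφ⟩ : ∃ φ : PresentedGroup rels →* Perm (Fin n), ∀ i, φ (PresentedGroup.of i) = XX hn i.val :=
    ⟨PresentedGroup.toGroup hrel, fun i => PresentedGroup.toGroup.of hrel⟩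
  -- the generators
  have hof : ∀ r ∈ rels, PresentedGroup.mk rels r = 1 := fun r hr => PresentedGroup.one_of_mem hr
  obtain ⟨x, hx⟩ : ∃ x : ℕ → PresentedGroup rels, ∀ i : Fin (n - 2), x i.val = PresentedGroup.of i :=
    ⟨fun i => if h : i < n - 2 then PresentedGroup.of ⟨i, h⟩ else 1, fun i => dif_pos i.2⟩
  have hx' : ∀ (i : ℕ) (hi : i < n - 2), x i = PresentedGroup.mk rels (FreeGroup.of ⟨i, hi⟩) := fun i hi => hx ⟨i, hi⟩
  have hRel : Rel x (n - 2) := by
    refine ⟨?_, ?_, ?_, ?_⟩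
    · rw [hx' 0 (by omega), ← map_pow]
      exact hof _ (Or.inl (Or.inl (Or.inl ⟨_, rfl, rfl⟩)))
    · intro i h1 h2
      rw [hx' i h2, ← map_pow]
      exact hof _ (Or.inl (Or.inl (Or.inr ⟨_, h1, rfl⟩)))
    · intro i h1
      rw [hx' i (by omega), hx' (i + 1) h1, ← map_mul, ← map_pow]
      exact hof _ (Or.inl (Or.inr ⟨_, _, rfl, rfl⟩))
    · intro i j h1 h2
      rw [hx' i (by omega), hx' j h2, ← map_mul, ← map_pow]
      exact hof _ (Or.inr ⟨_, _, h1, rfl⟩)
  have htop : HH x (n - 2) = ⊤ := by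
    rw [eq_top_iff, ← PresentedGroup.closure_range_of rels]
    apply Subgroup.closure_mono
    rintro _ ⟨i, rfl⟩
    exact ⟨i.val, i.2, hx i⟩
  obtain ⟨hfin, hcard⟩ := Rel.card (x := x) (n - 2) (by omega) hRel
  rw [htop] at hfin hcard
  have hfin' : Finite (PresentedGroup rels) := Finite.of_equiv _ Subgroup.topEquiv.toEquiv
  rw [Subgroup.card_top, show n - 2 + 2 = n by omega] at hcard
  -- the image
  have hmem : ∀ g, φ g ∈ alternatingGroup (Fin n) := by
    intro g
    have h1 : (⊤ : Subgroup (PresentedGroup rels)) ≤ (alternatingGroup (Fin n)).comap φ := by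
      rw [← PresentedGroup.closure_range_of rels, Subgroup.closure_le]
      rintro _ ⟨i, rfl⟩
      show φ _ ∈ alternatingGroup (Fin n)
      rw [hφ]; exact XX_mem hn i.2
    exact h1 (Subgroup.mem_top g)
  let ψ : PresentedGroup rels →* alternatingGroup (Fin n) := φ.codRestrict _ hmem
  have hsurj : Function.Surjective ψ := by
    intro y
    have h1 := XX_gen hn φ.range (fun i hi => ⟨PresentedGroup.of ⟨i, hi⟩, hφ _⟩) y.2
    obtain ⟨g, hg⟩ := h1
    exact ⟨g, Subtype.ext hg⟩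
  haveI : Nontrivial (Fin n) := Fin.nontrivial_iff_two_le.mpr (by omega)
  have h2 := two_mul_nat_card_alternatingGroup (α := Fin n)
  rw [Nat.card_eq_fintype_card, Nat.card_eq_fintype_card, Fintype.card_perm, Fintype.card_fin] at h2
  have h3 : Nat.card (PresentedGroup rels) ≤ Nat.card (alternatingGroup (Fin n)) := by
    rw [Nat.card_eq_fintype_card (α := alternatingGroup (Fin n))]; omega
  have hbij : Function.Bijective ψ :=
    hsurj.bijective_of_nat_card_le h3
  exact ⟨MulEquiv.ofBijective ψ hbij⟩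

end Cfsg.Agent.S3335
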