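import Cfsg.Statements.S3349
import Mathlib

set_option autoImplicit false
set_option linter.style.haveILetI false
set_option linter.unusedVariables false
open Cfsg

namespace Cfsg.Agent.S3349

/-- Let Q be a finite extraspecial p-group and α an automorphism of Q fixing every element of some maximal abelian subgroup of Q. Then the order of α is a power of p. -/
theorem result {Q : Type*} [Group Q] [Finite Q]
    (p : ℕ) [Fact p.Prime] (hQ : Cfsg.IsExtraspecial p Q) (α : MulAut Q)
    (A : Subgroup Q) (hA : IsMulCommutative A) (hmax : ∀ B : Subgroup Q, A ≤ B → IsMulCommutative B → B = A)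
    (hfix : ∀ a ∈ A, α a = a) :
    ∃ k : ℕ, orderOf α = p ^ k := by
  obtain ⟨⟨hpg, hfr, hcomm⟩, hcard⟩ := hQ
  have hAc : ∀ a ∈ A, ∀ b ∈ A, a * b = b * a := by
    intro a ha b hb
    exact congrArg Subtype.val (hA.is_comm.comm (⟨a, ha⟩ : A) ⟨b, hb⟩)
  -- A is self-centralizing
  have hself : ∀ c : Q, (∀ a ∈ A, a * c = c * a) → c ∈ A := by
    intro c hc
    have h1 : IsMulCommutative (Subgroup.closure ((A : Set Q) ∪ {c})) := by
      apply Subgroup.isMulCommutative_closure
      rintro x (hx | rfl) y (hy | rfl)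
      · exact hAc x hx y hy
      · exact hc x hx
      · exact (hc y hy).symm
      · rfl
    have h2 := hmax _ (fun a ha => Subgroup.subset_closure (Or.inl ha)) h1
    rw [← h2]
    exact Subgroup.subset_closure (Or.inr rfl)
  have hZ : Subgroup.center Q ≤ A := fun c hc => hself c (fun a _ => (Subgroup.mem_center_iff.1 hc a))
  have hconj : ∀ x : Q, ∀ a ∈ A, x⁻¹ * a * x ∈ A := by
    intro x a ha
    have h1 : a⁻¹ * x⁻¹ * a * x ∈ A := by
      apply hZ
      rw [← hcomm]
      have := Subgroup.commutator_mem_commutator (H₁ := (⊤ : Subgroup Q)) (H₂ := ⊤) (Subgroup.mem_top a⁻¹) (Subgroup.mem_top x⁻¹)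
      rw [commutatorElement_def, inv_inv, inv_inv] at this
      exact this
    have e : x⁻¹ * a * x = a * (a⁻¹ * x⁻¹ * a * x) := by group
    rw [e]
    exact A.mul_mem ha h1
  have hx : ∀ x : Q, α x * x⁻¹ ∈ A := by
    intro x
    apply hself
    intro a ha
    have h1 : α (x⁻¹ * a * x) = x⁻¹ * a * x := hfix _ (hconj x a ha)
    rw [map_mul, map_mul, map_inv, hfix a ha] at h1
    calc a * (α x * x⁻¹) = α x * ((α x)⁻¹ * a * α x) * x⁻¹ := by group
      _ = α x * (x⁻¹ * a * x) * x⁻¹ := by rw [h1]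
      _ = α x * x⁻¹ * a := by group
  have hpow : ∀ (n : ℕ) (x : Q), (α ^ n) x = (α x * x⁻¹) ^ n * x := by
    intro n
    induction n with
    | zero => intro x; simp
    | succ n ih =>
      intro x
      rw [pow_succ', MulAut.mul_apply, ih, map_mul, map_pow, hfix _ (hx x), pow_succ]
      group
  obtain ⟨k, hk⟩ := (IsPGroup.iff_card (p := p)).1 hpg
  have h1 : α ^ (p ^ k) = 1 := by
    ext x
    rw [hpow, ← hk, pow_card_eq_one', one_mul]; rfl
  obtain ⟨j, _, hj⟩ := (Nat.dvd_prime_pow (Fact.out : p.Prime)).1 (orderOf_dvd_of_pow_eq_one h1)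
  exact ⟨j, hj⟩

end Cfsg.Agent.S3349
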