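import Cfsg.Statements.S3376
import Cfsg.Agent.H1.Hall
import Cfsg.Agent.H2.Maschke
import Cfsg.Agent.H7.KGV6
import Cfsg.Agent.H18.CharP

set_option autoImplicit false
open Cfsg

namespace Cfsg.Agent.S3376

open Subgroup Equiv

/-- the standard permutation -/
abbrev c0 : Perm (Fin 9) :=
  Equiv.swap (0 : Fin 9) 1 * Equiv.swap 1 2 * Equiv.swap 3 4 * Equiv.swap 4 5 * Equiv.swap 6 7 * Equiv.swap 7 8

theorem cycleType_of (σ : Perm (Fin 9)) (h3 : σ ^ 3 = 1) (hf : ∀ x, σ x ≠ x) :
    σ.cycleType = Multiset.replicate 3 3 := by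
  have h1 : orderOf σ = 3 := orderOf_eq_prime h3 (by
    rintro rfl
    exact hf 0 rfl)
  obtain ⟨n, hn⟩ := Perm.cycleType_prime_order (σ := σ) (by rw [h1]; exact Nat.prime_three)
  rw [h1] at hn
  have h2 : σ.cycleType.sum = 9 := by
    rw [Perm.sum_cycleType]
    have : σ.support = Finset.univ := by
      ext x; simp [hf x]
    rw [this]; rfl
  rw [hn, Multiset.sum_replicate, smul_eq_mul] at h2
  have : n = 2 := by omega
  rw [hn, this]

theorem c0_type : c0.cycleType = Multiset.replicate 3 3 := cycleType_of c0 (by decide) (by decide)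

theorem card_cent : Nat.card (Subgroup.centralizer ({c0} : Set (Perm (Fin 9)))) = 162 := by
  rw [Perm.nat_card_centralizer, c0_type]
  rfl

theorem main {G : Type*} [Group G] [Finite G] (hG : Nat.card G = 162)
    (S : Sylow 3 G) (T : Sylow 2 G) (J : Subgroup G) [hJn : J.Normal] (hJcomm : IsMulCommutative J)
    (hJexp : ∀ a ∈ J, a ^ 3 = 1) (hJcard : Nat.card J = 27)
    (Z : Subgroup G) (hZ : Z = (S : Subgroup G) ⊓ Subgroup.centralizer ((S : Subgroup G) : Set G)) (hZcard : Nat.card Z = 3)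
    (hZT : Z ≤ Subgroup.centralizer ((T : Subgroup G) : Set G))
    (hST : (S : Subgroup G) ⊓ Subgroup.centralizer ((T : Subgroup G) : Set G) ≠ S) :
    ∃ H : Subgroup G, Nat.card H = 18 ∧ H.normalCore = ⊥ ∧
      ∃ z : G, z ^ 3 = 1 ∧ (∀ g, z * g = g * z) ∧ z ∉ H := by
  haveI : Fact (Nat.Prime 3) := ⟨Nat.prime_three⟩
  haveI : Fact (Nat.Prime 2) := ⟨Nat.prime_two⟩
  have hSc : Nat.card S = 81 := by
    obtain ⟨k, hk⟩ := IsPGroup.iff_card.mp S.isPGroup'
    have h1 := S.toSubgroup.card_mul_index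
    have h2 := S.not_dvd_index
    rw [hG, show Nat.card (S : Subgroup G) = 3 ^ k from hk] at h1
    have hk4 : k ≤ 4 := by
      by_contra h
      have h3 : 3 ^ 5 ∣ 3 ^ k := pow_dvd_pow 3 (by omega)
      have h4 : 3 ^ 5 ∣ 162 := h3.trans ⟨_, h1.symm⟩
      norm_num at h4
    rw [hk]
    interval_cases k
    · omega
    · omega
    · omega
    · omega
    · norm_num
  have hTc : Nat.card T = 2 := by
    obtain ⟨k, hk⟩ := IsPGroup.iff_card.mp T.isPGroup'
    have h1 := T.toSubgroup.card_mul_index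
    have h2 := T.not_dvd_index
    rw [hG, show Nat.card (T : Subgroup G) = 2 ^ k from hk] at h1
    have hk4 : k ≤ 1 := by
      by_contra h
      have h3 : 2 ^ 2 ∣ 2 ^ k := pow_dvd_pow 2 (by omega)
      have h4 : 2 ^ 2 ∣ 162 := h3.trans ⟨_, h1.symm⟩
      norm_num at h4
    rw [hk]
    interval_cases k
    · omega
    · norm_num
  have hJp : IsPGroup 3 J := IsPGroup.iff_card.mpr ⟨3, by rw [hJcard]; norm_num⟩
  have hJS : J ≤ S := hJp.le_sylow_of_normal S
  have hSidx : (S : Subgroup G).index = 2 := by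
    have h1 := S.toSubgroup.card_mul_index
    rw [hG, show Nat.card (S : Subgroup G) = 81 from hSc] at h1
    omega
  haveI hSn : (S : Subgroup G).Normal := Subgroup.normal_of_index_eq_two hSidx
  have hSTtop : (S : Subgroup G) ⊔ T = ⊤ := by
    apply Subgroup.eq_top_of_card_eq
    have h1 := Cfsg.Agent.H1.card_sup_of_coprime (H := (S : Subgroup G)) (K := (T : Subgroup G))
      (by rw [Subgroup.normalizer_eq_top]; exact le_top) (by
        rw [show Nat.card (S : Subgroup G) = 81 from hSc, show Nat.card (T : Subgroup G) = 2 from hTc]; norm_num)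
    rw [h1, hG, show Nat.card (S : Subgroup G) = 81 from hSc, show Nat.card (T : Subgroup G) = 2 from hTc]
  -- normal subgroups of `S` (in `G`) meet `Z`
  have hmeet : ∀ N : Subgroup G, N.Normal → N ⊓ S ≠ ⊥ → Z ≤ N := by
    intro N hN hNS
    haveI : (N ⊓ (S : Subgroup G)).Normal := Subgroup.normal_inf_normal N S
    have h1 := Cfsg.Agent.H18.inf_centralizer_ne_bot (P := N ⊓ S) (B := (S : Subgroup G)) (p := 3)
      (S.isPGroup'.to_le inf_le_right) S.isPGroup' (by rw [Subgroup.normalizer_eq_top]; exact le_top) hNS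
    have h2 : (N ⊓ S) ⊓ Subgroup.centralizer ((S : Subgroup G) : Set G) = N ⊓ Z := by rw [hZ, inf_assoc]
    rw [h2] at h1
    have h3 : Nat.card (N ⊓ Z : Subgroup G) ∣ 3 := by
      rw [← hZcard]; exact Subgroup.card_dvd_of_le inf_le_right
    rcases (Nat.dvd_prime Nat.prime_three).mp h3 with h | h
    · exact absurd (Subgroup.card_eq_one.mp h) h1
    · have : N ⊓ Z = Z := Subgroup.eq_of_le_of_card_ge inf_le_right (by rw [h, hZcard])
      rw [← this]; exact inf_le_left
  have hZJ : Z ≤ J := hmeet J hJn (by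
    rw [inf_eq_left.mpr hJS]
    intro h
    rw [h, Subgroup.card_bot] at hJcard
    norm_num at hJcard)
  have hZc : ∀ z ∈ Z, ∀ g, z * g = g * z := by
    intro z hz g
    have h1 : (S : Subgroup G) ⊔ T ≤ Subgroup.centralizer ({z} : Set G) := by
      apply sup_le
      · intro s hs
        rw [Subgroup.mem_centralizer_singleton_iff]
        rw [hZ] at hz
        exact (Subgroup.mem_centralizer_iff.mp hz.2 s hs)
      · intro s hs
        rw [Subgroup.mem_centralizer_singleton_iff]
        exact (Subgroup.mem_centralizer_iff.mp (hZT hz) s hs)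
    rw [hSTtop] at h1
    exact (Subgroup.mem_centralizer_singleton_iff.mp (h1 (Subgroup.mem_top g))).symm
  haveI hZn : Z.Normal := ⟨fun z hz g => by
    rw [← hZc z hz g, mul_assoc, mul_inv_cancel, mul_one]; exact hz⟩
  obtain ⟨W, hWJ, hZW, hZW'⟩ := Cfsg.Agent.KGV.exists_compl_ea J Z hJcomm 3 hJexp hZJ
  obtain ⟨J0, hJ0J, hTJ0, hZJ0, hZJ0'⟩ := Cfsg.Agent.H2.exists_invariant_complement J T Z W hJcomm
    (by rw [Subgroup.normalizer_eq_top]; exact le_top) (by
      rw [hJcard, show Nat.card (T : Subgroup G) = 2 from hTc]; norm_num) hZJ (by rw [Subgroup.normalizer_eq_top]; exact le_top) hWJ hZW hZW'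
  have hJ0c : Nat.card J0 = 9 := by
    have h1 := Cfsg.Agent.H1.card_sup_mul_card_inf_of_le_normalizer (H := Z) (K := J0)
      (by rw [Subgroup.normalizer_eq_top]; exact le_top)
    rw [hZJ0, hZJ0', Subgroup.card_bot, hJcard, hZcard] at h1
    omega
  have hHc : Nat.card (J0 ⊔ T : Subgroup G) = 18 := by
    rw [Cfsg.Agent.H1.card_sup_of_coprime hTJ0 (by
      rw [hJ0c, show Nat.card (T : Subgroup G) = 2 from hTc]; norm_num), hJ0c,
      show Nat.card (T : Subgroup G) = 2 from hTc]
  have hZH : ¬ Z ≤ J0 ⊔ T := by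
    intro h
    have h1 : J ≤ J0 ⊔ T := by rw [← hZJ0']; exact sup_le h le_sup_left
    have h2 := Subgroup.card_dvd_of_le h1
    rw [hHc, hJcard] at h2
    norm_num at h2
  refine ⟨J0 ⊔ T, hHc, ?_, ?_⟩
  · -- core
    by_contra hcore
    set N0 := (J0 ⊔ (T : Subgroup G)).normalCore with hN0
    have hN0H : N0 ≤ J0 ⊔ T := Subgroup.normalCore_le _
    have hN0n : N0.Normal := Subgroup.normalCore_normal _
    have h1 : N0 ⊓ S = ⊥ := by
      by_contra h
      exact hZH ((hmeet N0 hN0n h).trans hN0H)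
    have h2 := Cfsg.Agent.H1.card_sup_mul_card_inf_of_le_normalizer (H := N0) (K := (S : Subgroup G)) (by
      rw [Subgroup.normalizer_eq_top]; exact le_top)
    rw [h1, Subgroup.card_bot, mul_one, show Nat.card (S : Subgroup G) = 81 from hSc] at h2
    have h3 : Nat.card (N0 ⊔ S : Subgroup G) ∣ 162 := by rw [← hG]; exact Subgroup.card_subgroup_dvd_card _
    rw [h2, show 162 = 2 * 81 by norm_num] at h3
    have h4 : Nat.card N0 ∣ 2 := Nat.dvd_of_mul_dvd_mul_right (by norm_num) h3
    rcases (Nat.dvd_prime Nat.prime_two).mp h4 with h | h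
    · exact hcore (Subgroup.card_eq_one.mp h)
    · have h5 : N0 ≤ T := (IsPGroup.iff_card.mpr ⟨1, by rw [h]; norm_num⟩ : IsPGroup 2 N0).le_sylow_of_normal T
      have h6 : N0 = T := Subgroup.eq_of_le_of_card_ge h5 (by rw [h, show Nat.card (T : Subgroup G) = 2 from hTc])
      apply hST
      apply le_antisymm inf_le_left
      refine le_inf le_rfl ?_
      intro s hs
      rw [Subgroup.mem_centralizer_iff]
      intro t ht
      have ht' : t ∈ N0 := by rw [h6]; exact ht
      have h7 : Disjoint N0 (S : Subgroup G) := disjoint_iff.mpr h1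
      exact (Subgroup.commute_of_normal_of_disjoint _ _ hN0n hSn h7 t s ht' hs)
  · obtain ⟨z, hz, hzH⟩ : ∃ z ∈ Z, z ∉ J0 ⊔ (T : Subgroup G) := Set.not_subset.mp hZH
    exact ⟨z, hJexp z (hZJ hz), hZc z hz, hzH⟩

theorem fin {G : Type*} [Group G] [Finite G] (hG : Nat.card G = 162) (H : Subgroup G) (hH : Nat.card H = 18)
    (hcore : H.normalCore = ⊥) (z : G) (hz3 : z ^ 3 = 1) (hzc : ∀ g, z * g = g * z) (hzH : z ∉ H) :
    Nonempty (G ≃* Subgroup.centralizer ({c0} : Set (Perm (Fin 9)))) := by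
  have hidx : H.index = 9 := by
    have h1 := H.card_mul_index
    rw [hH, hG] at h1; omega
  let e : G ⧸ H ≃ Fin 9 := Finite.equivFinOfCardEq hidx
  let ρ : G →* Perm (Fin 9) := (e.permCongrHom : Perm (G ⧸ H) ≃* Perm (Fin 9)).toMonoidHom.comp (MulAction.toPermHom G (G ⧸ H))
  have hρ : ∀ g x, ρ g (e x) = e (g • x) := by
    intro g x
    show e (MulAction.toPermHom G (G ⧸ H) g (e.symm (e x))) = _
    rw [e.symm_apply_apply]; rfl
  have hinj : Function.Injective ρ := by
    rw [injective_iff_map_eq_one]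
    intro g hg
    have : g ∈ H.normalCore := by
      rw [Subgroup.normalCore_eq_ker, MonoidHom.mem_ker]
      exact e.permCongrHom.injective (by rw [map_one]; exact hg)
    rw [hcore] at this
    exact Subgroup.mem_bot.mp this
  have hσ : (ρ z).cycleType = Multiset.replicate 3 3 := by
    apply cycleType_of
    · rw [← map_pow, hz3, map_one]
    · intro x
      obtain ⟨y, rfl⟩ := e.surjective x
      rw [hρ]
      intro h
      have h1 := e.injective h
      obtain ⟨g, rfl⟩ := QuotientGroup.mk_surjective y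
      have h2 : (QuotientGroup.mk (z * g) : G ⧸ H) = QuotientGroup.mk g := h1
      rw [QuotientGroup.eq] at h2
      apply hzH
      have h3 : (z * g)⁻¹ * g = z⁻¹ := by rw [hzc g, mul_inv_rev]; group
      rw [h3] at h2
      exact (H.inv_mem_iff).mp h2
  obtain ⟨τ, hτ⟩ := isConj_iff.mp (Perm.isConj_iff_cycleType_eq.mpr (hσ.trans c0_type.symm))
  let f : G →* Subgroup.centralizer ({c0} : Set (Perm (Fin 9))) :=
    { toFun := fun g => ⟨τ * ρ g * τ⁻¹, by
        rw [Subgroup.mem_centralizer_singleton_iff, ← hτ]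
        have h1 : ρ z * ρ g = ρ g * ρ z := by rw [← map_mul, hzc, map_mul]
        calc τ * ρ g * τ⁻¹ * (τ * ρ z * τ⁻¹) = τ * (ρ g * ρ z) * τ⁻¹ := by group
          _ = τ * (ρ z * ρ g) * τ⁻¹ := by rw [h1]
          _ = _ := by group⟩
      map_one' := by apply Subtype.ext; simp
      map_mul' := by
        intro a b
        apply Subtype.ext
        show τ * ρ (a * b) * τ⁻¹ = τ * ρ a * τ⁻¹ * (τ * ρ b * τ⁻¹)
        rw [map_mul]; group }
  have hf : Function.Injective f := by
    intro a b hab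
    apply hinj
    have := congrArg Subtype.val hab
    exact mul_left_cancel (mul_right_cancel this)
  have hb : Function.Bijective f := by
    rw [Nat.bijective_iff_injective_and_card]
    exact ⟨hf, by rw [hG, card_cent]⟩
  exact ⟨MulEquiv.ofBijective f hb⟩

/-- Let G be a group of order 162 = 3⁴·2 with Sylow 3-subgroup S and Sylow 2-subgroup T, having an elementary abelian normal subgroup J of order 27, such that Z = Z(S) has order 3, Z centralizes T, and C_S(T) ≠ S. Then G is isomorphic to the centralizer in Sym(9) of a product of three disjoint 3-cycles. -/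
theorem result {G : Type*} [Group G] [Finite G] (hG : Nat.card G = 162)
    (S : Sylow 3 G) (T : Sylow 2 G) (J : Subgroup G) [hJn : J.Normal] (hJcomm : IsMulCommutative J)
    (hJexp : ∀ a ∈ J, a ^ 3 = 1) (hJcard : Nat.card J = 27)
    (Z : Subgroup G) (hZ : Z = (S : Subgroup G) ⊓ Subgroup.centralizer ((S : Subgroup G) : Set G)) (hZcard : Nat.card Z = 3)
    (hZT : Z ≤ Subgroup.centralizer ((T : Subgroup G) : Set G))
    (hST : (S : Subgroup G) ⊓ Subgroup.centralizer ((T : Subgroup G) : Set G) ≠ S) :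
    Nonempty (G ≃* Subgroup.centralizer ({Equiv.swap (0 : Fin 9) 1 * Equiv.swap 1 2 * Equiv.swap 3 4 * Equiv.swap 4 5 * Equiv.swap 6 7 * Equiv.swap 7 8} : Set (Equiv.Perm (Fin 9)))) := by
  obtain ⟨H, h1, h2, z, h3, h4, h5⟩ := main hG S T J hJcomm hJexp hJcard Z hZ hZcard hZT hST
  exact fin hG H h1 h2 z h3 h4 h5

end Cfsg.Agent.S3376
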