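import Cfsg.Statements.S3389
import Mathlib
import Cfsg.Agent.H21.Fix

set_option autoImplicit false
set_option linter.style.haveILetI false
set_option linter.unusedVariables false
open Cfsg

namespace Cfsg.Agent.S3389

open Cfsg.Agent.H21

theorem even_of_two {G : Type*} [Group G] [Finite G] {Ω : Type*} [Finite Ω] [MulAction G Ω]
    (htr : MulAction.IsPretransitive G Ω)
    (hfix : ∀ g : G, g ≠ 1 → Nat.card (MulAction.fixedBy Ω g) ≤ 2)
    (hex : ∃ g : G, g ≠ 1 ∧ Nat.card (MulAction.fixedBy Ω g) = 2) : 2 ∣ Nat.card G := by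
  classical
  obtain ⟨g, hg1, hg2⟩ := hex
  have hgo : orderOf g ≠ 1 := fun h => hg1 (orderOf_eq_one_iff.mp h)
  obtain ⟨p, hp, q, hq⟩ := Nat.exists_prime_and_dvd hgo
  haveI : Fact p.Prime := ⟨hp⟩
  have hq0 : q ≠ 0 := by
    rintro rfl; rw [mul_zero] at hq; exact (orderOf_pos g).ne' hq
  set x := g ^ q with hx
  have hxo : orderOf x = p := by
    rw [hx, orderOf_pow' g hq0, hq, Nat.gcd_mul_left_left]
    exact Nat.mul_div_cancel _ (Nat.pos_of_ne_zero hq0)
  have hx1 : x ≠ 1 := by
    intro h; rw [h, orderOf_one] at hxo; exact hp.one_lt.ne hxo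
  have hsub : MulAction.fixedBy Ω g ⊆ MulAction.fixedBy Ω x := by
    intro ω hω
    have h1 : g ∈ MulAction.stabilizer G ω := hω
    exact Subgroup.pow_mem _ h1 q
  have hx2 : Nat.card (MulAction.fixedBy Ω x) = 2 := by
    apply le_antisymm (hfix x hx1)
    rw [← hg2]
    exact Nat.card_mono (Set.toFinite _) hsub
  by_cases hp2 : p = 2
  · rw [← hp2, ← hxo]; exact orderOf_dvd_natCard x
  -- p odd
  have hmod := card_modEq_fixedBy (Ω := Ω) (p := p) (k := 1) x (by rw [hxo, pow_one])
  rw [hx2] at hmod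
  have hp3 : 2 < p := lt_of_le_of_ne hp.two_le (Ne.symm hp2)
  have hpΩ : ¬ p ∣ Nat.card Ω := by
    intro h
    have h1 := (Nat.modEq_zero_iff_dvd.mpr h).symm.trans hmod
    have h2 := Nat.modEq_zero_iff_dvd.mp h1.symm
    exact absurd (Nat.le_of_dvd (by norm_num) h2) (by omega)
  -- point fixed by x
  obtain ⟨⟨α, hα⟩, ⟨β, hβ⟩, hαβ⟩ := (Finite.one_lt_card_iff_nontrivial.mp (by rw [hx2]; norm_num : 1 < Nat.card (MulAction.fixedBy Ω x)))
  have hxS : x ∈ MulAction.stabilizer G α := hα
  have hxo' : orderOf (⟨x, hxS⟩ : MulAction.stabilizer G α) = p := by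
    rw [← Subgroup.orderOf_coe]; exact hxo
  obtain ⟨P1, hP1⟩ := (IsPGroup.of_card (n := 1) (by rw [Nat.card_zpowers, hxo', pow_one]) : IsPGroup p (Subgroup.zpowers (⟨x, hxS⟩ : MulAction.stabilizer G α))).exists_le_sylow
  set P : Subgroup G := (P1 : Subgroup (MulAction.stabilizer G α)).map (MulAction.stabilizer G α).subtype with hPdef
  have hPp : IsPGroup p P := P1.2.map _
  have hPα : P ≤ MulAction.stabilizer G α := Subgroup.map_subtype_le _
  have hxP : x ∈ P := ⟨⟨x, hxS⟩, hP1 (Subgroup.mem_zpowers _), rfl⟩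
  have hPidx : ¬ p ∣ P.relIndex (MulAction.stabilizer G α) := by
    have h1 : P.subgroupOf (MulAction.stabilizer G α) = P1 :=
      Subgroup.comap_map_eq_self_of_injective (Subgroup.subtype_injective _) _
    rw [Subgroup.relIndex, h1]
    exact P1.not_dvd_index
  have hmodP := hPp.card_modEq_card_fixedPoints Ω
  have hsubP : MulAction.fixedPoints P Ω ⊆ MulAction.fixedBy Ω x := by
    intro ω hω
    exact hω ⟨x, hxP⟩
  have hαP : α ∈ MulAction.fixedPoints P Ω := fun y => hPα y.2
  have hcP : Nat.card (MulAction.fixedPoints P Ω) ≤ 2 := by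
    rw [← hx2]; exact Nat.card_mono (Set.toFinite _) hsubP
  have hcP1 : 1 ≤ Nat.card (MulAction.fixedPoints P Ω) := by
    haveI : Nonempty (MulAction.fixedPoints P Ω) := ⟨⟨α, hαP⟩⟩
    exact Nat.card_pos
  have hcP2 : Nat.card (MulAction.fixedPoints P Ω) = 2 := by
    have h1 := hmodP.symm.trans hmod
    interval_cases h : Nat.card (MulAction.fixedPoints P Ω)
    · exfalso
      have h2 := (Nat.modEq_iff_dvd' (by norm_num : 1 ≤ 2)).mp h1
      exact absurd (Nat.le_of_dvd (by norm_num) h2) (by omega)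
    · rfl
  have heqP : MulAction.fixedPoints P Ω = MulAction.fixedBy Ω x := by
    apply Set.eq_of_subset_of_ncard_le hsubP
    rw [← Nat.card_coe_set_eq, ← Nat.card_coe_set_eq, hcP2, hx2]
  have hαβ' : α ≠ β := fun h => hαβ (Subtype.ext h)
  have hfixeq : ∀ ω, ω ∈ MulAction.fixedBy Ω x → ω = α ∨ ω = β := by
    intro ω hω
    by_contra hcon
    push Not at hcon
    have h1 : ({α, β, ω} : Set Ω) ⊆ MulAction.fixedBy Ω x := by
      rintro y (rfl | rfl | rfl)
      · exact hα
      · exact hβ
      · exact hω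
    have h2 := Set.ncard_le_ncard h1 (Set.toFinite _)
    rw [← Nat.card_coe_set_eq (MulAction.fixedBy Ω x), hx2, Set.ncard_eq_three.mpr ⟨α, β, ω, hαβ', hcon.1.symm, hcon.2.symm, rfl⟩] at h2
    omega
  have hPβ : P ≤ MulAction.stabilizer G β := by
    intro y hy
    have : β ∈ MulAction.fixedPoints P Ω := by rw [heqP]; exact hβ
    exact this ⟨y, hy⟩
  obtain ⟨n, hn, hnα⟩ := normalizer_transitive_fixed (fun a b => htr.exists_smul_eq a b) α β P hPp hPα hPβ hPidx
  have hnβ : n • β = α := by
    have h1 : n • β ∈ MulAction.fixedPoints P Ω := by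
      rintro ⟨y, hy⟩
      show y • n • β = n • β
      have h2 : n⁻¹ * y * n ∈ P := by
        have := (Subgroup.mem_normalizer_iff.mp hn (n⁻¹ * y * n)).mpr (by
          have : n * (n⁻¹ * y * n) * n⁻¹ = y := by group
          rw [this]; exact hy)
        exact this
      have h3 : (n⁻¹ * y * n) • β = β := hPβ h2
      have h4 : y • n • β = n • ((n⁻¹ * y * n) • β) := by
        rw [← mul_smul, ← mul_smul]; congr 1; group
      rw [h4, h3]
    rw [heqP] at h1
    rcases hfixeq _ h1 with h2 | h2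
    · exact h2
    · exfalso
      apply hαβ'
      exact MulAction.injective n (hnα.trans h2.symm)
  exact (even_order_of_swap n α β hαβ' hnα hnβ).trans (orderOf_dvd_natCard n)

/-- Let G be a finite group acting faithfully and transitively on a finite set Ω with fixity k ≥ 1: every non-identity element fixes at most k points and some non-identity element fixes exactly k points. Then |Z(G)| divides k; if k = 2 then |G| is even; and for every prime p > k dividing |G| and every point α, either p does not divide |G_α| or G_α contains a Sylow p-subgroup of G. -/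
theorem result {G : Type*} [Group G] [Finite G] {Ω : Type*} [Fintype Ω] [MulAction G Ω] [FaithfulSMul G Ω]
    (htr : MulAction.IsPretransitive G Ω) (k : ℕ) (hk : 1 ≤ k)
    (hfix : ∀ g : G, g ≠ 1 → Nat.card (MulAction.fixedBy Ω g) ≤ k) (hex : ∃ g : G, g ≠ 1 ∧ Nat.card (MulAction.fixedBy Ω g) = k) :
    Nat.card (Subgroup.center G) ∣ k ∧ (k = 2 → 2 ∣ Nat.card G) ∧
      ∀ (p : ℕ), p.Prime → k < p → p ∣ Nat.card G → ∀ α : Ω,
        ¬ p ∣ Nat.card (MulAction.stabilizer G α) ∨ ¬ p ∣ (MulAction.stabilizer G α).index := by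
  classical
  refine ⟨?_, ?_, ?_⟩
  · obtain ⟨g, hg1, hg2⟩ := hex
    -- the centre acts semiregularly on the fixed points of g
    let Z := Subgroup.center G
    have hact : ∀ (z : Z) (ω : Ω), ω ∈ MulAction.fixedBy Ω g → (z : G) • ω ∈ MulAction.fixedBy Ω g := by
      intro z ω hω
      show g • ((z : G) • ω) = (z : G) • ω
      have h1 : g * z = z * g := Subgroup.mem_center_iff.mp z.2 g
      rw [← mul_smul, h1, mul_smul]
      exact congrArg _ hω
    letI : MulAction Z (MulAction.fixedBy Ω g) :=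
      { smul := fun z ω => ⟨(z : G) • (ω : Ω), hact z ω ω.2⟩
        one_smul := fun ω => Subtype.ext (one_smul G (ω : Ω))
        mul_smul := fun z w ω => Subtype.ext (mul_smul (z : G) (w : G) (ω : Ω)) }
    have hsemi : ∀ (ω : MulAction.fixedBy Ω g), MulAction.stabilizer Z ω = ⊥ := by
      intro ω
      rw [eq_bot_iff]
      intro z hz
      have hz' : (z : G) • (ω : Ω) = ω := congrArg Subtype.val hz
      rw [Subgroup.mem_bot]
      apply Subtype.ext
      apply FaithfulSMul.eq_of_smul_eq_smul (α := Ω)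
      intro ω'
      obtain ⟨h, rfl⟩ := htr.exists_smul_eq (ω : Ω) ω'
      have h1 : h * (z : G) = (z : G) * h := Subgroup.mem_center_iff.mp z.2 h
      rw [← mul_smul, ← h1, mul_smul, hz']
      simp
    rw [← hg2]
    have h3 := Nat.card_congr (MulAction.selfEquivSigmaOrbitsQuotientStabilizer Z (MulAction.fixedBy Ω g))
    rw [h3, Nat.card_sigma]
    apply Finset.dvd_sum
    intro ω _
    rw [hsemi, ← Subgroup.index_eq_card, Subgroup.index_bot]
  · intro hk2
    subst hk2
    exact even_of_two htr hfix hex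
  · intro p hp hkp hpG α
    haveI : Fact p.Prime := ⟨hp⟩
    by_contra hcon
    push Not at hcon
    obtain ⟨h1, h2⟩ := hcon
    obtain ⟨x, hx⟩ := exists_prime_orderOf_dvd_card' p h1
    have hx' : orderOf (x : G) = p := by rw [Subgroup.orderOf_coe, hx]
    have h3 := card_modEq_fixedBy (Ω := Ω) (p := p) (k := 1) (x : G) (by rw [hx', pow_one])
    have h4 : (MulAction.stabilizer G α).index = Nat.card Ω := MulAction.index_stabilizer_of_transitive G α
    rw [h4] at h2
    have h5 : p ∣ Nat.card (MulAction.fixedBy Ω (x : G)) :=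
      (Nat.modEq_zero_iff_dvd.mp (h3.symm.trans (Nat.modEq_zero_iff_dvd.mpr h2)))
    have h6 : 0 < Nat.card (MulAction.fixedBy Ω (x : G)) := by
      haveI : Nonempty (MulAction.fixedBy Ω (x : G)) := ⟨⟨α, x.2⟩⟩
      exact Nat.card_pos
    have h7 := Nat.le_of_dvd h6 h5
    have h8 : (x : G) ≠ 1 := by
      intro h; rw [h, orderOf_one] at hx'; exact hp.one_lt.ne hx'
    have h9 := hfix _ h8
    omega

end Cfsg.Agent.S3389
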