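import Cfsg.Statements.S3391
import Cfsg.Agent.H15.SzPerm
import Cfsg.Agent.H15.SzLie

set_option autoImplicit false
open Cfsg

namespace Cfsg.Agent.S3391

open Cfsg.Agent.H15.Suz in
/-- transfer of the two-fixity dichotomy along an isomorphism -/
theorem transfer {F : Type*} [Field F] [Fintype F] (m : ℕ) [SzF F m] {G : Type*} [Group G]
    (φ : Sg F m ≃* G) {Ω : Type*} [Fintype Ω] [MulAction G Ω]
    (htr : MulAction.IsPretransitive G Ω)
    (hfix : ∀ g : G, g ≠ 1 → Nat.card (MulAction.fixedBy Ω g) ≤ 2)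
    (hex : ∃ g : G, g ≠ 1 ∧ Nat.card (MulAction.fixedBy Ω g) = 2) :
    (Fintype.card Ω = Fintype.card F ^ 2 + 1 ∧ MulAction.IsMultiplyPretransitive G Ω 2) ∨
    (Fintype.card Ω = Fintype.card F ^ 2 * (Fintype.card F ^ 2 + 1) ∧
      ∀ α : Ω, Nat.card (MulAction.stabilizer G α) = Fintype.card F - 1) := by
  let act : MulAction (Sg F m) Ω := MulAction.compHom Ω φ.toMonoidHom
  have hact : ∀ (g : Sg F m) (x : Ω), g • x = φ g • x := fun g x => rfl
  have htr' : MulAction.IsPretransitive (Sg F m) Ω := by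
    constructor
    intro x y
    obtain ⟨g, hg⟩ := htr.exists_smul_eq x y
    refine ⟨φ.symm g, ?_⟩
    rw [hact, MulEquiv.apply_symm_apply, hg]
  have hfb : ∀ g : Sg F m, MulAction.fixedBy Ω g = MulAction.fixedBy Ω (φ g) := fun g => rfl
  have key := two_fix (F := F) (m := m) (Ω := Ω) htr'
    (fun g hg => by rw [hfb]; exact hfix _ (by simpa using hg))
    (by
      obtain ⟨g, hg, h2⟩ := hex
      refine ⟨φ.symm g, by simpa using hg, ?_⟩
      rw [hfb, MulEquiv.apply_symm_apply]; exact h2)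
  rcases key with ⟨h1, h2⟩ | ⟨h1, h2⟩
  · left
    refine ⟨h1, ?_⟩
    rw [MulAction.is_two_pretransitive_iff] at h2 ⊢
    intro a b c d hab hcd
    obtain ⟨g, hg1, hg2⟩ := h2 hab hcd
    exact ⟨φ g, hg1, hg2⟩
  · right
    refine ⟨h1, fun α => ?_⟩
    rw [← h2 α]
    apply Nat.card_congr
    refine ⟨fun g => ⟨φ.symm g.1, ?_⟩, fun g => ⟨φ g.1, ?_⟩, ?_, ?_⟩
    · rw [MulAction.mem_stabilizer_iff, hact, MulEquiv.apply_symm_apply]; exact g.2
    · exact g.2
    · intro g; simp
    · intro g; simp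

/-- Let q = 2^{2m+1} ≥ 8 and let G be isomorphic to the Suzuki group Sz(q). If G acts faithfully and transitively on a finite set Ω with fixity 2 (every non-identity element fixes at most two points, and some fixes exactly two), then either |Ω| = q² + 1 and the action is 2-transitive, or |Ω| = q²(q² + 1) and the point stabilizers have order q − 1. -/
theorem result {G : Type*} [Group G] [Finite G] (F : Type) [Field F] [Fintype F] (m : ℕ) (hm : 1 ≤ m) (hF : Fintype.card F = 2 ^ (2 * m + 1))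
    (e : G ≃* ↥(Cfsg.Lie.Sz F (2 ^ (m + 1)))) {Ω : Type*} [Fintype Ω] [MulAction G Ω] [FaithfulSMul G Ω] (htr : MulAction.IsPretransitive G Ω)
    (hfix : ∀ g : G, g ≠ 1 → Nat.card (MulAction.fixedBy Ω g) ≤ 2) (hex : ∃ g : G, g ≠ 1 ∧ Nat.card (MulAction.fixedBy Ω g) = 2) :
    (Fintype.card Ω = Fintype.card F ^ 2 + 1 ∧ MulAction.IsMultiplyPretransitive G Ω 2) ∨
    (Fintype.card Ω = Fintype.card F ^ 2 * (Fintype.card F ^ 2 + 1) ∧ ∀ α : Ω, Nat.card (MulAction.stabilizer G α) = Fintype.card F - 1) := by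
  have : Cfsg.Agent.H15.Suz.SzF F m := ⟨hm, hF⟩
  exact transfer m (e.trans (Cfsg.Agent.H15.Suz.lieEquiv F m).symm).symm htr hfix hex

end Cfsg.Agent.S3391
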