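import Cfsg.Statements.S3412
import Cfsg.Agent.H4.CG33D

set_option autoImplicit false
open Cfsg

namespace Cfsg.Agent.S3412

/-- Let H be a finite group whose commuting graph (vertices the non-identity elements, two joined when they commute) is isomorphic to that of PSL_3(3): there is a bijection between the non-identity elements of H and of PSL_3(3) under which two elements commute exactly when their images do. Then H ≅ PSL_3(3). -/
theorem result {H : Type*} [Group H] [Finite H]
    (f : {h : H // h ≠ 1} ≃ {g : Matrix.ProjectiveSpecialLinearGroup (Fin 3) (ZMod 3) // g ≠ 1})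
    (hf : ∀ x y : {h : H // h ≠ 1}, (x : H) * y = y * x ↔ ((f x) : Matrix.ProjectiveSpecialLinearGroup (Fin 3) (ZMod 3)) * (f y) = (f y) * (f x)) :
    Nonempty (H ≃* Matrix.ProjectiveSpecialLinearGroup (Fin 3) (ZMod 3)) := by
  classical
  have hinj : Function.Injective (Cfsg.Agent.H17.mkP : Matrix.SpecialLinearGroup (Fin 3) (ZMod 3) →* _) := by
    rw [← MonoidHom.ker_eq_bot_iff, eq_bot_iff]
    intro s hs
    rw [MonoidHom.mem_ker, Cfsg.Agent.H17.mkP_eq_one_iff, Cfsg.Agent.H4.center_L33] at hs
    exact hs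
  let e : Matrix.SpecialLinearGroup (Fin 3) (ZMod 3) ≃* Matrix.ProjectiveSpecialLinearGroup (Fin 3) (ZMod 3) :=
    MulEquiv.ofBijective Cfsg.Agent.H17.mkP ⟨hinj, Cfsg.Agent.H17.mkP_surjective⟩
  let φ : H → Matrix.ProjectiveSpecialLinearGroup (Fin 3) (ZMod 3) := fun x =>
    if h : x = 1 then 1 else (f ⟨x, h⟩ : Matrix.ProjectiveSpecialLinearGroup (Fin 3) (ZMod 3))
  have φ1 : φ 1 = 1 := dif_pos rfl
  have φne : ∀ x (h : x ≠ 1), φ x = (f ⟨x, h⟩ : Matrix.ProjectiveSpecialLinearGroup (Fin 3) (ZMod 3)) :=
    fun x h => dif_neg h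
  have hφ : Function.Bijective φ := by
    constructor
    · intro x y hxy
      by_cases hx : x = 1
      · by_cases hy : y = 1
        · rw [hx, hy]
        · exfalso
          rw [hx, φ1, φne y hy] at hxy
          exact (f ⟨y, hy⟩).2 hxy.symm
      · by_cases hy : y = 1
        · exfalso
          rw [hy, φ1, φne x hx] at hxy
          exact (f ⟨x, hx⟩).2 hxy
        · rw [φne x hx, φne y hy] at hxy
          have := f.injective (Subtype.ext hxy)
          exact congrArg Subtype.val this
    · intro z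
      by_cases hz : z = 1
      · exact ⟨1, by rw [φ1, hz]⟩
      · refine ⟨(f.symm ⟨z, hz⟩ : H), ?_⟩
        rw [φne _ (f.symm ⟨z, hz⟩).2]
        simp
  have hφc : ∀ x y : H, Commute x y ↔ Commute (φ x) (φ y) := by
    intro x y
    by_cases hx : x = 1
    · subst hx
      rw [φ1]; simp
    · by_cases hy : y = 1
      · subst hy
        rw [φ1]; simp
      · rw [φne x hx, φne y hy]
        exact hf ⟨x, hx⟩ ⟨y, hy⟩
  let F : H ≃ Matrix.SpecialLinearGroup (Fin 3) (ZMod 3) := (Equiv.ofBijective φ hφ).trans e.symm.toEquiv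
  have hFx : ∀ x, F x = e.symm (φ x) := fun x => rfl
  obtain ⟨g⟩ := Cfsg.Agent.H4.cg_final F (by rw [hFx, φ1, map_one]) (by
    intro x y
    rw [hφc, hFx, hFx]
    constructor
    · intro h
      exact h.map e.symm
    · intro h
      have := h.map e
      simpa using this)
  exact ⟨g.trans e⟩

end Cfsg.Agent.S3412
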