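import Cfsg.Statements.S3488
import Mathlib
import Cfsg.Agent.H21.SpecA6

set_option autoImplicit false
set_option linter.style.haveILetI false
set_option linter.unusedVariables false
open Cfsg

namespace Cfsg.Agent.S3488

section
variable {F : Type*} [Field F]

/-- the affine group as an honest subgroup -/
def affS (F : Type*) [Field F] : Subgroup (Matrix.SpecialLinearGroup (Fin 3) F) where
  carrier := {M | (M : Matrix (Fin 3) (Fin 3) F) 2 0 = 0 ∧ (M : Matrix (Fin 3) (Fin 3) F) 2 1 = 0 ∧ (M : Matrix (Fin 3) (Fin 3) F) 2 2 = 1}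
  one_mem' := by simp
  mul_mem' := by
    rintro A B ⟨a1, a2, a3⟩ ⟨b1, b2, b3⟩
    simp only [Set.mem_setOf_eq, Matrix.SpecialLinearGroup.coe_mul, Matrix.mul_apply, Fin.sum_univ_three, a1, a2, a3, b1, b2, b3]
    simp
  inv_mem' := by
    rintro A ⟨a1, a2, a3⟩
    have hd := A.det_coe
    rw [Matrix.det_fin_three, a1, a2, a3] at hd
    simp only [Set.mem_setOf_eq, Matrix.SpecialLinearGroup.coe_inv, Matrix.adjugate_fin_three]
    refine ⟨?_, ?_, ?_⟩
    · show (A : Matrix (Fin 3) (Fin 3) F) 1 0 * (A : Matrix (Fin 3) (Fin 3) F) 2 1 - (A : Matrix (Fin 3) (Fin 3) F) 1 1 * (A : Matrix (Fin 3) (Fin 3) F) 2 0 = 0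
      rw [a1, a2]; ring
    · show -((A : Matrix (Fin 3) (Fin 3) F) 0 0 * (A : Matrix (Fin 3) (Fin 3) F) 2 1) + (A : Matrix (Fin 3) (Fin 3) F) 0 1 * (A : Matrix (Fin 3) (Fin 3) F) 2 0 = 0
      rw [a1, a2]; ring
    · show (A : Matrix (Fin 3) (Fin 3) F) 0 0 * (A : Matrix (Fin 3) (Fin 3) F) 1 1 - (A : Matrix (Fin 3) (Fin 3) F) 0 1 * (A : Matrix (Fin 3) (Fin 3) F) 1 0 = 1
      linear_combination hd

theorem mem_affS {M : Matrix.SpecialLinearGroup (Fin 3) F} : M ∈ affS F ↔ (M : Matrix (Fin 3) (Fin 3) F) 2 0 = 0 ∧ (M : Matrix (Fin 3) (Fin 3) F) 2 1 = 0 ∧ (M : Matrix (Fin 3) (Fin 3) F) 2 2 = 1 := Iff.rfl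

/-- the linear part -/
def linPart (F : Type*) [Field F] : affS F →* Matrix.SpecialLinearGroup (Fin 2) F where
  toFun M := ⟨!![(M.1 : Matrix (Fin 3) (Fin 3) F) 0 0, (M.1 : Matrix (Fin 3) (Fin 3) F) 0 1;
      (M.1 : Matrix (Fin 3) (Fin 3) F) 1 0, (M.1 : Matrix (Fin 3) (Fin 3) F) 1 1], by
    obtain ⟨a1, a2, a3⟩ := mem_affS.1 M.2
    have hd := M.1.det_coe
    rw [Matrix.det_fin_three, a1, a2, a3] at hd
    rw [Matrix.det_fin_two_of]
    linear_combination hd⟩
  map_one' := by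
    apply Subtype.ext
    ext i j
    fin_cases i <;> fin_cases j <;> simp
  map_mul' := by
    intro A B
    obtain ⟨b1, b2, b3⟩ := mem_affS.1 B.2
    apply Subtype.ext
    show _ = (!![(A.1 : Matrix (Fin 3) (Fin 3) F) 0 0, (A.1 : Matrix (Fin 3) (Fin 3) F) 0 1;
      (A.1 : Matrix (Fin 3) (Fin 3) F) 1 0, (A.1 : Matrix (Fin 3) (Fin 3) F) 1 1] : Matrix (Fin 2) (Fin 2) F) *
      !![(B.1 : Matrix (Fin 3) (Fin 3) F) 0 0, (B.1 : Matrix (Fin 3) (Fin 3) F) 0 1;
      (B.1 : Matrix (Fin 3) (Fin 3) F) 1 0, (B.1 : Matrix (Fin 3) (Fin 3) F) 1 1]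
    ext i j
    fin_cases i <;> fin_cases j <;> simp [Matrix.mul_apply, Fin.sum_univ_three, Fin.sum_univ_two, b1, b2, b3]
end

/-- Let F be the field with four elements. The affine group F² ⋊ SL(2,F), realised as the subgroup of SL(3,F) of matrices with last row (0, 0, 1), has exactly the same set of element orders as the alternating group of degree 6 (namely {1, 2, 3, 4, 5}); so the alternating group of degree 6 is not determined by its element orders. -/
theorem result {F : Type*} [Field F] [Fintype F] (hF : Fintype.card F = 4) :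
    Set.range (orderOf : Subgroup.closure {M : Matrix.SpecialLinearGroup (Fin 3) F |
        (M : Matrix (Fin 3) (Fin 3) F) 2 0 = 0 ∧ (M : Matrix (Fin 3) (Fin 3) F) 2 1 = 0 ∧ (M : Matrix (Fin 3) (Fin 3) F) 2 2 = 1} → ℕ) =
      Set.range (orderOf : alternatingGroup (Fin 6) → ℕ) := by
  have hcl : Subgroup.closure {M : Matrix.SpecialLinearGroup (Fin 3) F |
        (M : Matrix (Fin 3) (Fin 3) F) 2 0 = 0 ∧ (M : Matrix (Fin 3) (Fin 3) F) 2 1 = 0 ∧ (M : Matrix (Fin 3) (Fin 3) F) 2 2 = 1} = affS F := by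
    apply le_antisymm
    · rw [Subgroup.closure_le]
      intro M hM
      exact hM
    · intro M hM
      exact Subgroup.subset_closure hM
  rw [hcl, Cfsg.Agent.H21.range_orderOf_alt6]
  have h2 : (2 : F) = 0 := by
    have hc : CharP F 2 := by
      obtain ⟨p, hp⟩ := CharP.exists F
      obtain ⟨n, hn, hn'⟩ := FiniteField.card F p
      rw [hF] at hn'
      have h1 : p ∣ 2 ^ 2 := by
        have : p ∣ 4 := by rw [hn']; exact dvd_pow_self p n.ne_zero
        norm_num; exact this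
      have h2 : p = 2 := (Nat.prime_dvd_prime_iff_eq hn Nat.prime_two).1 (hn.dvd_of_dvd_pow h1)
      rwa [h2] at hp
    have := CharP.cast_eq_zero F 2
    exact_mod_cast this
  -- kernel elements
  have hker : ∀ k : affS F, linPart F k = 1 → (k.1 : Matrix (Fin 3) (Fin 3) F) 0 0 = 1 ∧ (k.1 : Matrix (Fin 3) (Fin 3) F) 0 1 = 0 ∧
      (k.1 : Matrix (Fin 3) (Fin 3) F) 1 0 = 0 ∧ (k.1 : Matrix (Fin 3) (Fin 3) F) 1 1 = 1 := by
    intro k hk
    have h1 := congrArg Subtype.val hk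
    have e : ((1 : Matrix.SpecialLinearGroup (Fin 2) F) : Matrix (Fin 2) (Fin 2) F) = 1 := rfl
    have h3 : ∀ i j, ((linPart F k : Matrix.SpecialLinearGroup (Fin 2) F) : Matrix (Fin 2) (Fin 2) F) i j = (1 : Matrix (Fin 2) (Fin 2) F) i j := by
      intro i j
      rw [← e]
      exact congrFun (congrFun h1 i) j
    exact ⟨h3 0 0, h3 0 1, h3 1 0, h3 1 1⟩
  apply Cfsg.Agent.H21.spec_ext_sl24 hF (linPart F)
  · intro A
    have hd := A.det_coe
    rw [Matrix.det_fin_two] at hd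
    refine ⟨⟨⟨!![A 0 0, A 0 1, 0; A 1 0, A 1 1, 0; 0, 0, 1], ?_⟩, ?_⟩, ?_⟩
    · rw [Matrix.det_fin_three]
      simp
      exact hd
    · refine mem_affS.2 ⟨?_, ?_, ?_⟩ <;> rfl
    · apply Subtype.ext
      ext i j
      fin_cases i <;> fin_cases j <;> rfl
  · intro k hk
    obtain ⟨k1, k2, k3, k4⟩ := hker k hk
    obtain ⟨a1, a2, a3⟩ := mem_affS.1 k.2
    apply Subtype.ext; apply Subtype.ext
    rw [pow_two]
    ext i j
    fin_cases i <;> fin_cases j <;> simp [Matrix.mul_apply, Fin.sum_univ_three, k1, k2, k3, k4, a1, a2, a3]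
    · linear_combination (k.1 : Matrix (Fin 3) (Fin 3) F) 0 2 * h2
    · linear_combination (k.1 : Matrix (Fin 3) (Fin 3) F) 1 2 * h2
  · intro x k hk hk1 hxk
    obtain ⟨k1, k2, k3, k4⟩ := hker k hk
    obtain ⟨a1, a2, a3⟩ := mem_affS.1 k.2
    obtain ⟨x1, x2, x3⟩ := mem_affS.1 x.2
    have hxk' : (x.1 : Matrix (Fin 3) (Fin 3) F) * (k.1 : Matrix (Fin 3) (Fin 3) F) = (k.1 : Matrix (Fin 3) (Fin 3) F) * (x.1 : Matrix (Fin 3) (Fin 3) F) := by
      have := congrArg (fun y : affS F => ((y.1 : Matrix.SpecialLinearGroup (Fin 3) F) : Matrix (Fin 3) (Fin 3) F)) hxk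
      simpa using this
    have e0 := congrFun (congrFun hxk' 0) 2
    have e1 := congrFun (congrFun hxk' 1) 2
    simp only [Matrix.mul_apply, Fin.sum_univ_three, k1, k2, k3, k4, a1, a2, a3, x1, x2, x3] at e0 e1
    have hd := x.1.det_coe
    rw [Matrix.det_fin_three, x1, x2, x3] at hd
    set A : Matrix (Fin 3) (Fin 3) F := (x.1 : Matrix (Fin 3) (Fin 3) F) with hA
    set u := (k.1 : Matrix (Fin 3) (Fin 3) F) 0 2 with hu
    set v := (k.1 : Matrix (Fin 3) (Fin 3) F) 1 2 with hv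
    have htr : ((linPart F x : Matrix.SpecialLinearGroup (Fin 2) F) : Matrix (Fin 2) (Fin 2) F).trace = A 0 0 + A 1 1 := by
      rw [Matrix.trace_fin_two]; rfl
    rw [htr]
    -- (A - 1) (u, v) = 0
    have f0 : (A 0 0 - 1) * u + A 0 1 * v = 0 := by linear_combination e0
    have f1 : A 1 0 * u + (A 1 1 - 1) * v = 0 := by linear_combination e1
    have g0 : (A 0 0 + A 1 1) * u = 0 := by
      linear_combination (-(A 1 1 - 1)) * f0 + A 0 1 * f1 + u * hd + u * h2
    have g1 : (A 0 0 + A 1 1) * v = 0 := by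
      linear_combination (-(A 0 0 - 1)) * f1 + A 1 0 * f0 + v * hd + v * h2
    by_contra hne
    apply hk1
    have hu0 : u = 0 := (mul_eq_zero.1 g0).resolve_left hne
    have hv0 : v = 0 := (mul_eq_zero.1 g1).resolve_left hne
    apply Subtype.ext; apply Subtype.ext
    ext i j
    fin_cases i <;> fin_cases j <;> simp [k1, k2, k3, k4, a1, a2, a3, hu0, hv0, ← hu, ← hv]
  · let X : affS F := ⟨⟨!![1, 1, 0; 0, 1, 1; 0, 0, 1], by rw [Matrix.det_fin_three]; simp⟩, mem_affS.2 ⟨rfl, rfl, rfl⟩⟩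
    have hX2 : ((X ^ 2).1 : Matrix (Fin 3) (Fin 3) F) = !![1, 0, 1; 0, 1, 0; 0, 0, 1] := by
      have e : ((X ^ 2).1 : Matrix (Fin 3) (Fin 3) F) = !![1, 1, 0; 0, 1, 1; 0, 0, 1] * !![1, 1, 0; 0, 1, 1; 0, 0, 1] := by
        rw [pow_two]; rfl
      rw [e]
      ext i j
      fin_cases i <;> fin_cases j <;> simp [Matrix.mul_apply, Fin.sum_univ_three]
      · linear_combination h2
      · linear_combination h2
    have hX4 : X ^ 4 = 1 := by
      apply Subtype.ext; apply Subtype.ext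
      have e : ((X ^ 4).1 : Matrix (Fin 3) (Fin 3) F) = !![1, 0, 1; 0, 1, 0; 0, 0, 1] * !![1, 0, 1; 0, 1, 0; 0, 0, 1] := by
        rw [← hX2, show 4 = 2 + 2 by norm_num, pow_add]; rfl
      rw [e]
      ext i j
      fin_cases i <;> fin_cases j <;> simp [Matrix.mul_apply, Fin.sum_univ_three]
      linear_combination h2
    refine ⟨X, ?_⟩
    have := orderOf_eq_prime_pow (x := X) (p := 2) (n := 1) (by
      intro h
      have h3 := congrFun (congrFun hX2 0) 2
      rw [pow_one] at h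
      rw [h] at h3
      have h4 : ((1 : affS F).1 : Matrix (Fin 3) (Fin 3) F) 0 2 = 0 := by simp
      rw [h4] at h3
      simp at h3) (by norm_num; exact hX4)
    rw [this]; norm_num

end Cfsg.Agent.S3488
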