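import Cfsg.Statements.S3493
import Mathlib
import Cfsg.Agent.H21.ExtPrimM

set_option autoImplicit false
set_option linter.style.haveILetI false
set_option linter.unusedVariables false
open Cfsg

namespace Cfsg.Agent.S3493

/-- An extremely primitive permutation group is of affine type or almost simple. Let a finite group G act faithfully and primitively on a finite set Ω with at least two points, in such a way that every point stabilizer acts primitively on each of its own orbits in Ω (an orbit of size one counts as primitive). Then either G has a non-trivial abelian normal subgroup whose elements other than the identity fix no point (affine type), or G has a non-abelian simple normal subgroup with trivial centralizer (almost simple). -/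
theorem result {G : Type*} [Group G] [Finite G] {Ω : Type*} [Fintype Ω] [MulAction G Ω] [FaithfulSMul G Ω] (hΩ : 2 ≤ Fintype.card Ω) (hprim : MulAction.IsPreprimitive G Ω) (hep : ∀ (α : Ω) (ω : Ω), MulAction.IsPreprimitive (MulAction.stabilizer G α) (MulAction.orbit (MulAction.stabilizer G α) ω)) :
    (∃ N : Subgroup G, N.Normal ∧ N ≠ ⊥ ∧ IsMulCommutative N ∧ ∀ ω : Ω, MulAction.stabilizer N ω = ⊥) ∨ (∃ T : Subgroup G, T.Normal ∧ IsSimpleGroup T ∧ ¬ IsMulCommutative T ∧ Subgroup.centralizer (T : Set G) = ⊥) := by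
  classical

  obtain ⟨α⟩ : Nonempty Ω := Fintype.card_pos_iff.1 (by omega)
  by_contra hcon
  rw [not_or] at hcon
  obtain ⟨hcon1, hcon2⟩ := hcon
  have hntΩ : Nontrivial Ω := Fintype.one_lt_card_iff_nontrivial.1 (by omega)
  have hGt : MulAction.IsPretransitive G Ω := hprim.toIsPretransitive
  haveI hntG : Nontrivial G := by
    obtain ⟨β, hβ⟩ := exists_ne α
    obtain ⟨g, hg⟩ := hGt.exists_smul_eq α β
    refine ⟨g, 1, ?_⟩
    rintro rfl
    rw [one_smul] at hg
    exact hβ hg.symm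
  have hab : ∀ A : Subgroup G, A.Normal → (∀ a ∈ A, ∀ b ∈ A, a * b = b * a) → A = ⊥ := by
    intro A hA hAc
    by_contra hA1
    apply hcon1
    have hAt : MulAction.IsPretransitive A Ω := Cfsg.Agent.H22.isPretransitive_of_normal_of_primitive hprim A hA hA1
    refine ⟨A, hA, hA1, ⟨⟨fun a b => Subtype.ext (hAc a a.2 b b.2)⟩⟩, fun ω => ?_⟩
    rw [Subgroup.eq_bot_iff_forall]
    intro x hx
    exact Subtype.ext (Cfsg.Agent.H21.eq_one_of_centralizes hAt (fun n hn => hAc n hn x x.2) hx)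
  obtain ⟨N, T, h⟩ := Cfsg.Agent.H21.exists_isTSoc hab
  have hNt : MulAction.IsPretransitive N Ω := Cfsg.Agent.H22.isPretransitive_of_normal_of_primitive hprim N h.normal h.hN.ne_bot
  by_cases hC : Subgroup.centralizer (N : Set G) ≠ ⊥
  · exact Cfsg.Agent.H21.case_centralizer hprim hep h α hC
  push Not at hC
  have hTall : ¬ ∀ g : G, ∀ t, t ∈ T ↔ g * t * g⁻¹ ∈ T := by
    intro hall
    have hTN : T = N := by
      rcases h.hN.min T (fun g _ t ht => (hall g t).1 ht) h.hT.le with h1 | h1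
      · exact absurd h1 h.hT.ne_bot
      · exact h1
    apply hcon2
    refine ⟨T, ⟨fun t ht g => (hall g t).1 ht⟩, h.isSimpleGroup, h.not_comm, ?_⟩
    rw [hTN]; exact hC
  push Not at hTall
  obtain ⟨g₀, hg₀⟩ := hTall
  have hg₀' : ¬ ∀ t, t ∈ T ↔ g₀ * t * g₀⁻¹ ∈ T := by
    intro h'
    obtain ⟨t, ht⟩ := hg₀
    rcases ht with ⟨h1, h3⟩ | ⟨h1, h3⟩
    · exact h3 ((h' t).1 h1)
    · exact h1 ((h' t).2 h3)
  obtain ⟨n, hn⟩ := hNt.exists_smul_eq α (g₀⁻¹ • α)
  have hn' : (n : G) • α = g₀⁻¹ • α := hn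
  set k := g₀ * (n : G) with hk
  have hkα : k • α = α := by rw [hk, mul_smul, hn', smul_inv_smul]
  have hkT : ¬ ∀ t, t ∈ T ↔ k * t * k⁻¹ ∈ T := by
    intro h'
    apply hg₀'
    intro t
    constructor
    · intro ht
      have h3 : (n : G)⁻¹ * t * n ∈ T := by
        have := h.hT.conj (n : G)⁻¹ (N.inv_mem n.2) t ht
        rwa [inv_inv] at this
      have := (h' _).1 h3
      have e : k * ((n : G)⁻¹ * t * n) * k⁻¹ = g₀ * t * g₀⁻¹ := by rw [hk]; group
      rwa [e] at this
    · intro ht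
      have e : g₀ * t * g₀⁻¹ = k * ((n : G)⁻¹ * t * n) * k⁻¹ := by rw [hk]; group
      rw [e] at ht
      have h3 := (h' _).2 ht
      have := h.hT.conj (n : G) n.2 _ h3
      have e : (n : G) * ((n : G)⁻¹ * t * n) * (n : G)⁻¹ = t := by group
      rwa [e] at this
  by_cases hpr : ∀ t ∈ T, Cfsg.Agent.H21.ProjMem N T α t
  swap
  · push Not at hpr
    obtain ⟨z, hz, hzp⟩ := hpr
    exact Cfsg.Agent.H21.case_proper_false hprim hep h α z hz hzp k hkα hkT
  have hsemi : ∀ ω : Ω, ∀ t ∈ T, t • ω = ω → t = 1 := by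
    rcases h.dich hNt α with h1 | ⟨R, hRT, hRne, hR⟩
    · exact h1
    · exfalso
      apply hRne
      refine le_antisymm hRT ?_
      intro t ht
      obtain ⟨c, hc, hc', hcα⟩ := hpr t ht
      exact hR t ht c hc hc' hcα
  by_cases hst : ∀ k : G, k • α = α → ∀ a ∈ T, a ≠ 1 → ∀ b ∈ T, a • α = (k * b * k⁻¹) • α → ∀ t, t ∈ T ↔ k * t * k⁻¹ ∈ T
  · exact Cfsg.Agent.H21.case_star hprim hep h α hsemi k hkα hkT hst
  · push Not at hst
    obtain ⟨h₁, hh₁, a, ha, ha1, b, hb, hab', hnT⟩ := hst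
    refine Cfsg.Agent.H21.case_partner hprim hep h α hsemi hpr h₁ hh₁ ?_ ha ha1 hb hab'
    intro h'
    obtain ⟨t, ht⟩ := hnT
    rcases ht with ⟨h1, h3⟩ | ⟨h1, h3⟩
    · exact h3 ((h' t).1 h1)
    · exact h1 ((h' t).2 h3)

end Cfsg.Agent.S3493
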