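import Cfsg.Statements.S3495
import Mathlib
import Cfsg.Agent.H21.Prim

set_option autoImplicit false
set_option linter.style.haveILetI false
set_option linter.unusedVariables false
open Cfsg

namespace Cfsg.Agent.S3495

/-- Let a finite group G act faithfully and primitively on a finite set Ω with non-trivial point stabilizers, each acting primitively on every one of its orbits (an extremely primitive group), and suppose G has an elementary abelian normal p-subgroup N acting regularly on Ω (affine type). Then every non-trivial subgroup M of a point stabilizer G_α that is normal in G_α has the same orbits on Ω as G_α, and normalizes no subgroup of N other than 1 and N. -/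
theorem result {G : Type*} [Group G] [Finite G] {Ω : Type*} [Fintype Ω] [MulAction G Ω] [FaithfulSMul G Ω] (hprim : MulAction.IsPreprimitive G Ω) (hH : ∀ α : Ω, MulAction.stabilizer G α ≠ ⊥) (hep : ∀ (α : Ω) (ω : Ω), MulAction.IsPreprimitive (MulAction.stabilizer G α) (MulAction.orbit (MulAction.stabilizer G α) ω))
    (N : Subgroup G) [N.Normal] (hNc : IsMulCommutative N) (p : ℕ) (hp : p.Prime) (hNp : ∀ n ∈ N, n ^ p = 1)
    (hNtr : MulAction.IsPretransitive N Ω) (hNreg : ∀ ω : Ω, MulAction.stabilizer N ω = ⊥) (α : Ω) (M : Subgroup G) (hM : M ≠ ⊥) (hMle : M ≤ MulAction.stabilizer G α)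
    (hMn : MulAction.stabilizer G α ≤ Subgroup.normalizer (M : Set G)) :
    (∀ ω : Ω, MulAction.orbit M ω = MulAction.orbit (MulAction.stabilizer G α) ω) ∧
    (∀ L : Subgroup G, L ≤ N → M ≤ Subgroup.normalizer (L : Set G) → L = ⊥ ∨ L = N) := by
  classical
  have horb : ∀ ω : Ω, MulAction.orbit M ω = MulAction.orbit (MulAction.stabilizer G α) ω := by
    intro ω
    by_cases hω : ω = α
    · subst hω
      ext x
      constructor
      · rintro ⟨m, rfl⟩
        exact ⟨⟨m, hMle m.2⟩, rfl⟩
      · rintro ⟨m, rfl⟩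
        refine ⟨1, ?_⟩
        show (1 : M) • ω = (m : G) • ω
        rw [one_smul]; exact m.2.symm
    · let M' : Subgroup (MulAction.stabilizer G α) := M.subgroupOf (MulAction.stabilizer G α)
      haveI hM'n : M'.Normal := by
        constructor
        rintro ⟨x, hxs⟩ hx ⟨g, hg⟩
        rw [Subgroup.mem_subgroupOf] at hx ⊢
        exact (Subgroup.mem_normalizer_iff.mp (hMn hg) x).mp hx
      rcases Cfsg.Agent.H21.prim_normal (hep α ω) M' with h' | h'
      · exfalso
        apply hM
        rw [eq_bot_iff]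
        intro m hm
        have h1 := Cfsg.Agent.H21.manning hprim hep α ω hω ⟨m, hMle hm⟩ (fun x hx => by
          have := h' ⟨m, hMle hm⟩ (Subgroup.mem_subgroupOf.mpr hm) ⟨x, hx⟩
          exact congrArg Subtype.val this)
        rw [Subgroup.mem_bot]
        exact congrArg Subtype.val h1
      · ext x
        constructor
        · rintro ⟨m, rfl⟩
          exact ⟨⟨m, hMle m.2⟩, rfl⟩
        · intro hx
          obtain ⟨n, hn, hn'⟩ := h' ⟨ω, MulAction.mem_orbit_self ω⟩ ⟨x, hx⟩
          refine ⟨⟨n, Subgroup.mem_subgroupOf.mp hn⟩, ?_⟩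
          exact congrArg Subtype.val hn'
  refine ⟨horb, ?_⟩
  intro L hLN hML
  have hreg : ∀ a ∈ N, ∀ b ∈ N, a • α = b • α → a = b := by
    intro a ha b hb hab
    have h1 : (⟨b⁻¹ * a, N.mul_mem (N.inv_mem hb) ha⟩ : N) ∈ MulAction.stabilizer N α := by
      rw [MulAction.mem_stabilizer_iff]
      show (b⁻¹ * a) • α = α
      rw [mul_smul, hab, inv_smul_smul]
    rw [hNreg, Subgroup.mem_bot] at h1
    have h2 : b⁻¹ * a = 1 := congrArg Subtype.val h1
    exact (inv_mul_eq_one.mp h2).symm
  have hB : ∀ g ∈ MulAction.stabilizer G α, ∀ l ∈ L, g * l * g⁻¹ ∈ L := by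
    intro g hg l hl
    -- g • (l • α) in the M-orbit of l • α
    have h1 : g • (l • α) ∈ MulAction.orbit M (l • α) := by
      rw [horb]; exact ⟨⟨g, hg⟩, rfl⟩
    obtain ⟨m, hm⟩ := h1
    have hm' : (m : G) • (l • α) = g • (l • α) := hm
    have h2 : (m : G) * l * (m : G)⁻¹ ∈ L := (Subgroup.mem_normalizer_iff.mp (hML m.2) l).mp hl
    have hmα : (m : G) • α = α := hMle m.2
    have hgα : g • α = α := hg
    have h3 : (g * l * g⁻¹) • α = ((m : G) * l * (m : G)⁻¹) • α := by
      have e1 : g⁻¹ • α = α := by rw [inv_smul_eq_iff, hgα]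
      have e2 : (m : G)⁻¹ • α = α := by rw [inv_smul_eq_iff, hmα]
      rw [mul_smul, mul_smul, mul_smul, mul_smul, e1, e2, hm']
    have h4 := hreg _ (‹N.Normal›.conj_mem l (hLN hl) g) _ (hLN h2) h3
    rw [h4]; exact h2
  have hLn : L.Normal := by
    constructor
    intro l hl g
    obtain ⟨n, hn⟩ := hNtr.exists_smul_eq α (g • α)
    have hn' : (n : G) • α = g • α := hn
    have hs : (n : G)⁻¹ * g ∈ MulAction.stabilizer G α := by
      rw [MulAction.mem_stabilizer_iff, mul_smul, ← hn', inv_smul_smul]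
    have h1 := hB _ hs l hl
    have h2 : (n : G) * ((n : G)⁻¹ * g * l * ((n : G)⁻¹ * g)⁻¹) * (n : G)⁻¹ = g * l * g⁻¹ := by group
    have h3 : (n : G) * ((n : G)⁻¹ * g * l * ((n : G)⁻¹ * g)⁻¹) * (n : G)⁻¹ = ((n : G)⁻¹ * g * l * ((n : G)⁻¹ * g)⁻¹) := by
      have hc : (n : G) * ((n : G)⁻¹ * g * l * ((n : G)⁻¹ * g)⁻¹) = ((n : G)⁻¹ * g * l * ((n : G)⁻¹ * g)⁻¹) * (n : G) :=
        hNc.is_comm.comm n ⟨_, hLN h1⟩ |> congrArg Subtype.val
      rw [hc]; group
    rw [← h2, h3]; exact h1
  rcases Cfsg.Agent.H21.prim_normal hprim L with h' | h'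
  · left
    rw [eq_bot_iff]
    intro l hl
    rw [Subgroup.mem_bot]
    apply FaithfulSMul.eq_of_smul_eq_smul (α := Ω)
    intro x; rw [one_smul]; exact h' l hl x
  · right
    apply le_antisymm hLN
    intro n hn
    obtain ⟨l, hl, hl'⟩ := h' α (n • α)
    rw [hreg n hn l (hLN hl) hl'.symm]; exact hl

end Cfsg.Agent.S3495
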