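import Cfsg.Statements.S3498
import Mathlib

set_option autoImplicit false
set_option linter.style.haveILetI false
set_option linter.unusedVariables false
open Cfsg

namespace Cfsg.Agent.S3498

open scoped Pointwise

theorem not_comm_of_pgroup {T : Type*} [Group T] [Finite T] [IsSimpleGroup T] {q : ℕ} [Fact q.Prime] (h : IsPGroup q T) :
    IsMulCommutative T := by
  haveI : Group.IsNilpotent T := h.isNilpotent
  haveI : Group.IsSolvable T := inferInstance
  exact ⟨⟨IsSimpleGroup.comm_iff_isSolvable.mpr inferInstance⟩⟩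

/-- A maximal subgroup of a finite almost simple group does not have prime order. Here G is almost simple in the sense that it has a non-abelian simple normal subgroup T with trivial centralizer. -/
theorem result {G : Type*} [Group G] [Finite G] (T : Subgroup G) [T.Normal] (hT : IsSimpleGroup T) (hTc : ¬ IsMulCommutative T)
    (hC : Subgroup.centralizer (T : Set G) = ⊥) (H : Subgroup G) (hmax : IsCoatom H) : ¬ (Nat.card H).Prime := by
  classical
  intro hp
  set p := Nat.card H with hpdef
  haveI : Fact p.Prime := ⟨hp⟩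
  haveI := hT
  haveI hTnt : Nontrivial T := hT.toNontrivial
  have hTb : T ≠ ⊥ := (Subgroup.nontrivial_iff_ne_bot T).mp hTnt
  have hTp : ∀ q : ℕ, q.Prime → ¬ IsPGroup q T := by
    intro q hq h
    haveI : Fact q.Prime := ⟨hq⟩
    exact hTc (not_comm_of_pgroup h)
  have hHb : H ≠ ⊥ := by
    intro h; rw [h] at hpdef; simp at hpdef; rw [hpdef] at hp; exact Nat.not_prime_one hp
  have hHt : H ≠ ⊤ := hmax.1
  have hHp : IsPGroup p H := IsPGroup.of_card (n := 1) (by rw [pow_one])
  obtain ⟨P, hP⟩ := hHp.exists_le_sylow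
  -- P = H
  have hPH : (P : Subgroup G) = H := by
    by_contra hne
    have hlt : H < P := lt_of_le_of_ne hP (Ne.symm hne)
    have htop := hmax.2 _ hlt
    have hGp : IsPGroup p G := by
      have := P.2
      rw [htop] at this
      exact this.of_equiv Subgroup.topEquiv
    exact hTp p hp (hGp.to_subgroup T)
  have hcardP : Nat.card P = p := by
    show Nat.card (P : Subgroup G) = p
    rw [hPH]
  -- dichotomy for normal subgroups
  have hnorm : ∀ N : Subgroup G, N.Normal → N ≠ ⊥ → T ≤ N := by
    intro N hN hNb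
    have h1 : (N.subgroupOf T).Normal := inferInstance
    rcases h1.eq_bot_or_eq_top with h | h
    · exfalso
      apply hNb
      rw [Subgroup.subgroupOf_eq_bot] at h
      rw [eq_bot_iff, ← hC]
      intro x hx
      rw [Subgroup.mem_centralizer_iff]
      intro t ht
      exact (Subgroup.commute_of_normal_of_disjoint T N inferInstance hN h.symm t x ht hx)
    · rwa [Subgroup.subgroupOf_eq_top] at h
  -- normalizer of H
  have hN : Subgroup.normalizer (H : Set G) = H := by
    by_contra hne
    have hlt : H < Subgroup.normalizer (H : Set G) := lt_of_le_of_ne Subgroup.le_normalizer (Ne.symm hne)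
    have htop := hmax.2 _ hlt
    have hHn : H.Normal := Subgroup.normalizer_eq_top_iff.mp htop
    have hTH := hnorm H hHn hHb
    exact hTp p hp (hHp.to_le hTH)
  -- Burnside
  have hcyc : IsCyclic H := isCyclic_of_prime_card hpdef.symm
  have hNC : Subgroup.normalizer ((P : Subgroup G) : Set G) ≤ Subgroup.centralizer ((P : Subgroup G) : Set G) := by
    rw [hPH, hN]
    intro x hx
    rw [Subgroup.mem_centralizer_iff]
    intro y hy
    letI := hcyc.commGroup
    have : (⟨y, hy⟩ : H) * ⟨x, hx⟩ = ⟨x, hx⟩ * ⟨y, hy⟩ := mul_comm _ _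
    exact congrArg Subtype.val this
  have hcomp := MonoidHom.ker_transferSylow_isComplement' P hNC
  set K := (MonoidHom.transferSylow P hNC).ker with hK
  have hKb : K ≠ ⊥ := by
    intro h
    rw [h] at hcomp
    have := Subgroup.isComplement'_bot_left.mp hcomp
    rw [hPH] at this
    exact hHt this
  have hTK := hnorm K inferInstance hKb
  have hpK : ¬ p ∣ Nat.card K := MonoidHom.not_dvd_card_ker_transferSylow P hNC
  have hpT : ¬ p ∣ Nat.card T := fun h => hpK (h.trans (Subgroup.card_dvd_of_le hTK))
  -- a prime q dividing |T|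
  have hcT : Nat.card T ≠ 1 := by
    have := Finite.one_lt_card (α := T); omega
  obtain ⟨q, hq, hqT⟩ := Nat.exists_prime_and_dvd hcT
  haveI : Fact q.Prime := ⟨hq⟩
  have hpq : p ≠ q := fun h => hpT (h ▸ hqT)
  obtain ⟨S⟩ : Nonempty (Sylow q T) := inferInstance
  have hfr := Sylow.normalizer_sup_eq_top (N := T) S
  set S' : Subgroup G := (S : Subgroup T).map T.subtype with hS'
  set N := Subgroup.normalizer (S' : Set G) with hNdef
  have hfr' : N ⊔ T = ⊤ := hfr
  -- p divides |N|
  have hpG : p ∣ Nat.card G := by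
    rw [hpdef]; exact Subgroup.card_subgroup_dvd_card H
  have hpN : p ∣ Nat.card N := by
    have h1 : T.relIndex N = T.index := by
      rw [← Subgroup.relIndex_sup_right N T, hfr', Subgroup.relIndex_top_right]
    have h2 : T.index ∣ Nat.card N := by rw [← h1]; exact Subgroup.relIndex_dvd_card T N
    have h3 : Nat.card T * T.index = Nat.card G := Subgroup.card_mul_index T
    rw [← h3] at hpG
    exact ((hp.dvd_mul.mp hpG).resolve_left hpT).trans h2
  obtain ⟨x, hx⟩ := exists_prime_orderOf_dvd_card' p hpN
  have hxG : orderOf (x : G) = p := by rw [Subgroup.orderOf_coe, hx]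
  have hzp : IsPGroup p (Subgroup.zpowers (x : G)) := IsPGroup.of_card (n := 1) (by rw [Nat.card_zpowers, hxG, pow_one])
  obtain ⟨Q, hQ⟩ := hzp.exists_le_sylow
  obtain ⟨g, hg⟩ := MulAction.exists_smul_eq G P Q
  have hQcard : Nat.card Q = p := by
    have := Nat.card_congr (Sylow.equiv Q P).toEquiv
    exact this.trans hcardP
  have hzQ : Subgroup.zpowers (x : G) = Q := by
    apply Subgroup.eq_of_le_of_card_ge hQ
    rw [Nat.card_zpowers, hxG]; exact hQcard.le
  have hQN : (Q : Subgroup G) ≤ N := by
    rw [← hzQ, Subgroup.zpowers_le]; exact x.2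
  have hQP : (Q : Subgroup G) = MulAut.conj g • (P : Subgroup G) := by rw [← hg]; rfl
  have hle : H ≤ MulAut.conj g⁻¹ • N := by
    rw [← hPH]
    intro y hy
    rw [Subgroup.mem_pointwise_smul_iff_inv_smul_mem]
    apply hQN
    rw [hQP, Subgroup.mem_pointwise_smul_iff_inv_smul_mem]
    have : (MulAut.conj g)⁻¹ • (MulAut.conj g⁻¹)⁻¹ • y = y := by
      simp only [map_inv, inv_inv, inv_smul_smul]
    rw [this]; exact hy
  have hSb : (S : Subgroup T) ≠ ⊥ := S.ne_bot_of_dvd_card hqT
  have hS'b : S' ≠ ⊥ := by
    intro h; apply hSb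
    rw [hS', Subgroup.map_eq_bot_iff_of_injective _ T.subtype_injective] at h
    exact h
  have hS'T : S' ≤ T := Subgroup.map_subtype_le _
  have hS'q : IsPGroup q S' := S.2.map _
  rcases eq_or_lt_of_le hle with heq | hlt
  · -- |N| = p
    have hNc : Nat.card N = p := by
      have h1 : Nat.card ↥(MulAut.conj g⁻¹ • N : Subgroup G) = Nat.card N :=
        (Nat.card_congr (Subgroup.equivSMul (MulAut.conj g⁻¹) N).toEquiv).symm
      rw [← h1, ← heq]
    have h2 : Nat.card S' ∣ p := by
      rw [← hNc]; exact Subgroup.card_dvd_of_le Subgroup.le_normalizer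
    rcases (Nat.dvd_prime hp).mp h2 with h3 | h3
    · exact hS'b (Subgroup.card_eq_one.mp h3)
    · obtain ⟨n, hn⟩ := (IsPGroup.iff_card (p := q)).mp hS'q
      rw [h3] at hn
      rcases Nat.eq_zero_or_pos n with h0 | h0
      · rw [h0, pow_zero] at hn; exact hp.one_lt.ne' hn
      · have : q ∣ p := by rw [hn]; exact dvd_pow_self q h0.ne'
        exact hpq ((Nat.prime_dvd_prime_iff_eq hq hp).mp this).symm
  · have htop := hmax.2 _ hlt
    have hNt : N = ⊤ := by
      rw [eq_top_iff]
      intro y _
      have : MulAut.conj g⁻¹ • y ∈ MulAut.conj g⁻¹ • N := by rw [htop]; trivial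
      rwa [Subgroup.smul_mem_pointwise_smul_iff] at this
    have hSn : S'.Normal := Subgroup.normalizer_eq_top_iff.mp hNt
    have := hnorm S' hSn hS'b
    exact hTp q hq (hS'q.to_le this)

end Cfsg.Agent.S3498
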