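import Cfsg.Statements.S3504
import Mathlib

set_option autoImplicit false
set_option linter.style.haveILetI false
set_option linter.unusedVariables false
open Cfsg

namespace Cfsg.Agent.S3504

theorem ct_of_prime {n : ℕ} (g : Equiv.Perm (Fin n)) (hp : (orderOf g).Prime) (hf : ∀ i, g i ≠ i) :
    g.cycleType = Multiset.replicate (n / orderOf g) (orderOf g) ∧ orderOf g ∣ n := by
  classical
  have h1 : ∀ m ∈ g.cycleType, m = orderOf g := by
    intro m hm
    have h2 := Equiv.Perm.dvd_of_mem_cycleType hm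
    have h3 := Equiv.Perm.two_le_of_mem_cycleType hm
    rcases (Nat.dvd_prime hp).mp h2 with h | h
    · omega
    · exact h
  have h2 : g.cycleType = Multiset.replicate (Multiset.card g.cycleType) (orderOf g) :=
    Multiset.eq_replicate.mpr ⟨rfl, h1⟩
  have h3 : g.cycleType.sum = n := by
    rw [Equiv.Perm.sum_cycleType]
    have : g.support = Finset.univ := by
      ext i; simp [Equiv.Perm.mem_support, hf i]
    rw [this]; simp
  rw [h2, Multiset.sum_replicate, smul_eq_mul] at h3
  have h4 : n / orderOf g = Multiset.card g.cycleType := by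
    exact Nat.div_eq_of_eq_mul_left hp.pos h3.symm
  rw [h4]
  exact ⟨h2, Dvd.intro_left _ h3⟩

theorem exists_perm {n p : ℕ} (hn : n ≠ 0) (hp : p.Prime) (hd : p ∣ n) :
    ∃ g : Equiv.Perm (Fin n), orderOf g = p ∧ (∀ i, g i ≠ i) ∧ g.cycleType = Multiset.replicate (n / p) p := by
  classical
  have h := (Equiv.Perm.exists_with_cycleType_iff (Fin n) (m := Multiset.replicate (n / p) p)).mpr (by
    refine ⟨?_, ?_⟩
    · rw [Multiset.sum_replicate, smul_eq_mul, Fintype.card_fin, Nat.div_mul_cancel hd]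
    · intro a ha
      rw [Multiset.eq_of_mem_replicate ha]; exact hp.two_le)
  obtain ⟨g, hg⟩ := h
  refine ⟨g, ?_, ?_, hg⟩
  · rw [← Equiv.Perm.lcm_cycleType, hg]
    have : n / p ≠ 0 := (Nat.div_pos (Nat.le_of_dvd (Nat.pos_of_ne_zero hn) hd) hp.pos).ne'
    obtain ⟨k, hk⟩ := Nat.exists_eq_succ_of_ne_zero this
    rw [hk]
    apply Nat.dvd_antisymm
    · apply Multiset.lcm_dvd.mpr
      intro b hb
      rw [Multiset.eq_of_mem_replicate hb]
    · apply Multiset.dvd_lcm
      rw [Multiset.mem_replicate]; exact ⟨Nat.succ_ne_zero _, rfl⟩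
  · intro i
    have h3 : g.support = Finset.univ := by
      apply Finset.eq_univ_of_card
      rw [← Equiv.Perm.sum_cycleType, hg, Multiset.sum_replicate, smul_eq_mul, Fintype.card_fin, Nat.div_mul_cancel hd]
    have : i ∈ g.support := by rw [h3]; exact Finset.mem_univ _
    exact Equiv.Perm.mem_support.mp this

/-- For n ≥ 5, the fixed-point-free permutations of prime order in the symmetric group of degree n form a single conjugacy class if and only if n is a prime power. -/
theorem result (n : ℕ) (hn : 5 ≤ n) :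
    Nat.card {c : ConjClasses (Equiv.Perm (Fin n)) // ∃ g : Equiv.Perm (Fin n), ConjClasses.mk g = c ∧ (orderOf g).Prime ∧ ∀ i : Fin n, g i ≠ i} = 1 ↔ IsPrimePow n := by
  classical
  rw [isPrimePow_iff_card_primeFactors_eq_one]
  have hn0 : n ≠ 0 := by omega
  have key : Nat.card {c : ConjClasses (Equiv.Perm (Fin n)) // ∃ g : Equiv.Perm (Fin n), ConjClasses.mk g = c ∧ (orderOf g).Prime ∧ ∀ i : Fin n, g i ≠ i} = n.primeFactors.card := by
    have hσ : ∀ p : n.primeFactors, ∃ g : Equiv.Perm (Fin n), orderOf g = p ∧ (∀ i, g i ≠ i) ∧ g.cycleType = Multiset.replicate (n / (p : ℕ)) (p : ℕ) := by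
      rintro ⟨p, hp⟩
      rw [Nat.mem_primeFactors] at hp
      exact exists_perm hn0 hp.1 hp.2.1
    choose σ hσ1 hσ2 hσ3 using hσ
    let f : n.primeFactors → {c : ConjClasses (Equiv.Perm (Fin n)) // ∃ g : Equiv.Perm (Fin n), ConjClasses.mk g = c ∧ (orderOf g).Prime ∧ ∀ i : Fin n, g i ≠ i} :=
      fun p => ⟨ConjClasses.mk (σ p), σ p, rfl, by rw [hσ1]; exact (Nat.mem_primeFactors.mp p.2).1, hσ2 p⟩
    have hf : Function.Bijective f := by
      constructor
      · intro p q hpq
        have h1 : ConjClasses.mk (σ p) = ConjClasses.mk (σ q) := congrArg Subtype.val hpq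
        rw [ConjClasses.mk_eq_mk_iff_isConj, Equiv.Perm.isConj_iff_cycleType_eq] at h1
        apply Subtype.ext
        rw [← hσ1, ← hσ1, ← Equiv.Perm.lcm_cycleType, ← Equiv.Perm.lcm_cycleType, h1]
      · rintro ⟨c, g, rfl, hp, hfix⟩
        obtain ⟨h1, h2⟩ := ct_of_prime g hp hfix
        refine ⟨⟨orderOf g, Nat.mem_primeFactors.mpr ⟨hp, h2, hn0⟩⟩, ?_⟩
        apply Subtype.ext
        show ConjClasses.mk _ = ConjClasses.mk g
        rw [ConjClasses.mk_eq_mk_iff_isConj, Equiv.Perm.isConj_iff_cycleType_eq, hσ3, h1]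
    rw [← Nat.card_eq_of_bijective f hf, Nat.card_eq_fintype_card, Fintype.card_coe]
  rw [key]

end Cfsg.Agent.S3504
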