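import Cfsg.Statements.S3508
import Mathlib

set_option autoImplicit false
set_option linter.style.haveILetI false
set_option linter.unusedVariables false
open Cfsg

namespace Cfsg.Agent.S3508

open Polynomial in
theorem geom_eq {p s : ℕ} [Fact p.Prime] :
    (∑ i ∈ Finset.range (p ^ s), (X : (ZMod p)[X]) ^ i) = (X - 1) ^ (p ^ s - 1) := by
  have h1 : (∑ i ∈ Finset.range (p ^ s), (X : (ZMod p)[X]) ^ i) * (X - 1) = (X - 1) ^ (p ^ s - 1) * (X - 1) := by
    rw [geom_sum_mul, ← pow_succ, Nat.sub_add_cancel (Nat.one_le_pow _ _ (Fact.out : p.Prime).pos), sub_pow_char_pow, one_pow]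
  exact mul_right_cancel₀ (Polynomial.X_sub_C_ne_zero 1) h1

theorem unip_end {p m r s : ℕ} [Fact p.Prime] {V : Type*} [AddCommGroup V] [Module (ZMod p) V] [FiniteDimensional (ZMod p) V]
    (hm : Module.finrank (ZMod p) V = m) (φ : Module.End (ZMod p) V) (hφ : φ ^ (p ^ r) = 1) (hs : m < p ^ s) :
    φ ^ (p ^ s) = 1 ∧ ∑ i ∈ Finset.range (p ^ s), φ ^ i = 0 := by
  have hn : (φ - 1) ^ (p ^ r) = 0 := by
    have h1 : (Polynomial.aeval φ) ((Polynomial.X - 1 : Polynomial (ZMod p)) ^ (p ^ r)) = (Polynomial.aeval φ) ((Polynomial.X : Polynomial (ZMod p)) ^ (p ^ r) - 1) := by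
      rw [sub_pow_char_pow, one_pow]
    simpa [hφ] using h1
  have hk : (φ - 1) ^ m = 0 := by
    have h1 := Module.End.ker_pow_eq_ker_pow_finrank_of_le (f := φ - 1) (m := m + p ^ r) (by omega)
    rw [pow_add, hn, mul_zero, LinearMap.ker_zero, hm] at h1
    exact LinearMap.ker_eq_top.mp h1.symm
  constructor
  · have h1 : (Polynomial.aeval φ) ((Polynomial.X - 1 : Polynomial (ZMod p)) ^ (p ^ s)) = (Polynomial.aeval φ) ((Polynomial.X : Polynomial (ZMod p)) ^ (p ^ s) - 1) := by
      rw [sub_pow_char_pow, one_pow]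
    have h2 : (φ - 1) ^ (p ^ s) = φ ^ (p ^ s) - 1 := by simpa using h1
    have h3 : (φ - 1) ^ (p ^ s) = 0 := by
      rw [show p ^ s = m + (p ^ s - m) by omega, pow_add, hk, zero_mul]
    rw [h3] at h2
    exact (sub_eq_zero.mp h2.symm)
  · have h1 := congrArg (Polynomial.aeval φ) (geom_eq (p := p) (s := s))
    have h2 : ∑ i ∈ Finset.range (p ^ s), φ ^ i = (φ - 1) ^ (p ^ s - 1) := by simpa using h1
    rw [h2, show p ^ s - 1 = m + (p ^ s - 1 - m) by omega, pow_add, hk, zero_mul]

theorem core' {p m r s : ℕ} [Fact p.Prime] {V : Type*} [AddCommGroup V] [Finite V] (hexp : ∀ x : V, p • x = 0)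
    (hcard : Nat.card V = p ^ m) (ψ : V →+ V) (hψ : ∀ x, ψ^[p ^ r] x = x) (c : V) (hs : m < p ^ s) (x : V) :
    (fun y => ψ y + c)^[p ^ s] x = x := by
  letI : Module (ZMod p) V := AddCommGroup.zmodModule (n := p) hexp
  haveI : FiniteDimensional (ZMod p) V := Module.Finite.of_finite
  have hfr : Module.finrank (ZMod p) V = m := by
    have h2 := Module.natCard_eq_pow_finrank (K := ZMod p) (V := V)
    rw [Nat.card_zmod, hcard] at h2
    exact (Nat.pow_right_injective (Fact.out : p.Prime).two_le h2).symm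
  let φ : Module.End (ZMod p) V := ψ.toZModLinearMap p
  have hφ : ∀ x : V, φ x = ψ x := fun x => rfl
  have hφk : ∀ (k : ℕ) (x : V), (φ ^ k) x = ψ^[k] x := by
    intro k
    induction k with
    | zero => intro x; simp
    | succ k ih =>
      intro x
      rw [pow_succ, Module.End.mul_apply, ih, hφ, Function.iterate_succ, Function.comp_apply]
  have hφr : φ ^ (p ^ r) = 1 := by
    ext x
    rw [hφk, hψ]; rfl
  obtain ⟨h1, h2⟩ := unip_end hfr φ hφr hs
  have hiter : ∀ (k : ℕ) (x : V), (fun y => ψ y + c)^[k] x = (φ ^ k) x + ∑ i ∈ Finset.range k, (φ ^ i) c := by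
    intro k
    induction k with
    | zero => intro x; simp
    | succ k ih =>
      intro x
      rw [Function.iterate_succ', Function.comp_apply, ih, ← hφ, map_add, map_sum, Finset.sum_range_succ', pow_zero, Module.End.one_apply, add_assoc]
      congr 1
      · rw [pow_succ', Module.End.mul_apply]
      · congr 1
        apply Finset.sum_congr rfl
        intro i _
        rw [pow_succ', Module.End.mul_apply]
  rw [hiter, h1, Module.End.one_apply, ← LinearMap.sum_apply, h2, LinearMap.zero_apply, add_zero]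

theorem core {p m r s : ℕ} [Fact p.Prime] {N : Type*} [CommGroup N] [Finite N] (hexp : ∀ x : N, x ^ p = 1)
    (hcard : Nat.card N = p ^ m) (ψ : MulAut N) (hψ : ψ ^ (p ^ r) = 1) (c : N) (hs : m < p ^ s) (x : N) :
    (fun y => ψ y * c)^[p ^ s] x = x := by
  have hit : ∀ k x, (ψ : N → N)^[k] x = (ψ ^ k) x := by
    intro k
    induction k with
    | zero => intro x; rfl
    | succ k ih => intro x; rw [Function.iterate_succ, Function.comp_apply, ih, pow_succ]; rfl
  exact core' (V := Additive N) (p := p) (m := m) (r := r) (s := s) hexp hcard (MonoidHom.toAdditive ψ.toMonoidHom)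
    (fun x => by
      have := hit (p ^ r) x
      rw [hψ] at this
      exact this) c hs x

theorem pow_bound {p r m : ℕ} (hp : 2 ≤ p) (hr : 1 ≤ r) (h : p ^ (r - 1) ≤ m) : r = m → m ≤ 2 ∧ (2 < p → m ≤ 1) := by
  rintro rfl
  obtain ⟨k, rfl⟩ : ∃ k, r = k + 1 := ⟨r - 1, by omega⟩
  rw [Nat.add_sub_cancel] at h
  constructor
  · by_contra hcon
    push Not at hcon
    have h1 : 2 ^ k ≤ p ^ k := Nat.pow_le_pow_left hp k
    have h2 : ∀ j, 2 ≤ j → j + 1 < 2 ^ j := by
      intro j hj
      induction j, hj using Nat.le_induction with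
      | base => norm_num
      | succ n hn ih => rw [pow_succ]; omega
    have := h2 k (by omega)
    omega
  · intro hp3
    by_contra hcon
    push Not at hcon
    have h1 : 3 ^ k ≤ p ^ k := Nat.pow_le_pow_left hp3 k
    have h2 : ∀ j, 1 ≤ j → j + 1 < 3 ^ j := by
      intro j hj
      induction j, hj using Nat.le_induction with
      | base => norm_num
      | succ n hn ih => rw [pow_succ]; omega
    have := h2 k (by omega)
    omega

/-- Let a finite group G act faithfully on a set Ω with p ^ m points (p prime) and have an elementary abelian normal p-subgroup N acting regularly on Ω (so G is a group of affine transformations of an m-dimensional space over the field with p elements). If G contains an element of order p ^ r with r ≥ 1, then p ^ (r − 1) ≤ m. In particular an element of order p ^ m forces m ≤ 2, and m ≤ 1 when p is odd. -/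
theorem result {G : Type*} [Group G] [Finite G] {Ω : Type*} [Fintype Ω] [MulAction G Ω] [FaithfulSMul G Ω] (p m : ℕ) (hp : p.Prime) (hcard : Fintype.card Ω = p ^ m)
    (N : Subgroup G) [N.Normal] (hNc : IsMulCommutative N) (hNp : ∀ n ∈ N, n ^ p = 1)
    (hNtr : MulAction.IsPretransitive N Ω) (hNreg : ∀ ω : Ω, MulAction.stabilizer N ω = ⊥)
    (g : G) (r : ℕ) (hr : 1 ≤ r) (hg : orderOf g = p ^ r) :
    p ^ (r - 1) ≤ m ∧ (r = m → m ≤ 2 ∧ (2 < p → m ≤ 1)) := by
  classical
  haveI : Fact p.Prime := ⟨hp⟩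
  suffices hmain : p ^ (r - 1) ≤ m from ⟨hmain, pow_bound hp.two_le hr hmain⟩
  by_contra hlt
  push Not at hlt
  letI : CommGroup N := { (inferInstance : Group N) with mul_comm := hNc.is_comm.comm }
  have hpos : 0 < Fintype.card Ω := by rw [hcard]; exact pow_pos hp.pos m
  obtain ⟨α⟩ : Nonempty Ω := Fintype.card_pos_iff.mp hpos
  let e : N → Ω := fun x => (x : G) • α
  have hreg : Function.Injective e := by
    intro x y hxy
    have h1 : (y⁻¹ * x : N) ∈ MulAction.stabilizer N α := by
      rw [MulAction.mem_stabilizer_iff]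
      show (((y : N) : G)⁻¹ * ((x : N) : G)) • α = α
      rw [mul_smul, inv_smul_eq_iff]; exact hxy
    rw [hNreg, Subgroup.mem_bot] at h1
    exact (inv_mul_eq_one.mp h1).symm
  have hsurj : Function.Surjective e := by
    intro ω
    obtain ⟨n, hn⟩ := hNtr.exists_smul_eq α ω
    exact ⟨n, hn⟩
  have hcN : Nat.card N = p ^ m := by
    rw [← hcard, ← Nat.card_eq_fintype_card]
    exact Nat.card_congr (Equiv.ofBijective e ⟨hreg, hsurj⟩)
  let ψ : MulAut N := MulAut.conjNormal g
  have hψ : ψ ^ (p ^ r) = 1 := by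
    show (MulAut.conjNormal g) ^ (p ^ r) = 1
    rw [← map_pow, ← hg, pow_orderOf_eq_one, map_one]
  obtain ⟨c, hc⟩ := hsurj (g • α)
  have hstep : ∀ x : N, g • e x = e (ψ x * c) := by
    intro x
    show g • ((x : G) • α) = ((ψ x * c : N) : G) • α
    rw [Subgroup.coe_mul, mul_smul]
    have : (c : G) • α = g • α := hc
    rw [this, MulAut.conjNormal_apply, ← mul_smul, ← mul_smul]
    congr 1; group
  have hiter : ∀ (k : ℕ) (x : N), (g ^ k) • e x = e ((fun y => ψ y * c)^[k] x) := by
    intro k
    induction k with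
    | zero => intro x; simp
    | succ k ih =>
      intro x
      rw [pow_succ', mul_smul, ih, hstep, Function.iterate_succ', Function.comp_apply]
  have hone : g ^ (p ^ (r - 1)) = 1 := by
    apply FaithfulSMul.eq_of_smul_eq_smul (α := Ω)
    intro ω
    obtain ⟨x, rfl⟩ := hsurj ω
    rw [hiter, one_smul, core (fun x => Subtype.ext (hNp x x.2)) hcN ψ hψ c hlt]
  have := orderOf_dvd_of_pow_eq_one hone
  rw [hg] at this
  have h3 := (Nat.pow_dvd_pow_iff_le_right hp.one_lt).mp this
  omega

end Cfsg.Agent.S3508
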