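import Cfsg.Statements.S3511
-- import your own Cfsg.Agent.* helpers here

set_option autoImplicit false
open Cfsg

namespace Cfsg.Agent.S3511

/-- Let a finite group G act faithfully on a set Ω. If every element of G of square-free order has a regular cycle (an orbit of the cyclic group it generates with trivial stabilizer), then every element of G has a regular cycle. -/
theorem result {G : Type*} [Group G] [Finite G] {Ω : Type*} [MulAction G Ω] [FaithfulSMul G Ω]
    (h : ∀ g : G, Squarefree (orderOf g) → ∃ ω : Ω, MulAction.stabilizer (Subgroup.zpowers g) ω = ⊥) (g : G) :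
    ∃ ω : Ω, MulAction.stabilizer (Subgroup.zpowers g) ω = ⊥ := by
  classical
  have hfin : 0 < orderOf g := orderOf_pos g
  set n := orderOf g with hn
  set r := ∏ p ∈ n.primeFactors, p with hr
  have hrn : r ∣ n := Nat.prod_primeFactors_dvd n
  obtain ⟨m, hm⟩ := hrn
  have hm0 : m ≠ 0 := by rintro rfl; simp at hm; omega
  have hr0 : r ≠ 0 := by
    intro h0; rw [h0] at hm; simp at hm; omega
  have hord : orderOf (g ^ m) = r := by
    rw [orderOf_pow' g hm0, ← hn, hm]
    rw [Nat.gcd_mul_left_left]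
    exact Nat.mul_div_cancel _ (Nat.pos_of_ne_zero hm0)
  have hsq : Squarefree (orderOf (g ^ m)) := by
    rw [hord, hr]
    have := UniqueFactorizationMonoid.squarefree_radical (a := n)
    rwa [Nat.radical_eq_prod_primeFactors] at this
  obtain ⟨ω, hω⟩ := h (g ^ m) hsq
  refine ⟨ω, ?_⟩
  rw [eq_bot_iff]
  intro x hx
  by_contra hx1
  rw [Subgroup.mem_bot] at hx1
  obtain ⟨x, hxg⟩ := x
  rw [MulAction.mem_stabilizer_iff] at hx
  change x • ω = ω at hx
  have hx1' : x ≠ 1 := fun h1 => hx1 (Subtype.ext h1)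
  obtain ⟨j, rfl⟩ := (mem_powers_iff_mem_zpowers.mpr hxg : x ∈ Submonoid.powers g)
  have hxo : orderOf (g ^ j) ≠ 1 := fun h1 => hx1' (orderOf_eq_one_iff.mp h1)
  obtain ⟨p, hp, k, hk⟩ := Nat.exists_prime_and_dvd hxo
  have hxpos : 0 < orderOf (g ^ j) := orderOf_pos _
  have hk0 : k ≠ 0 := by rintro rfl; rw [mul_zero] at hk; omega
  have hone : (g ^ (j * k)) ^ p = 1 := by
    rw [pow_mul, ← pow_mul, mul_comm k p, ← hk, pow_orderOf_eq_one]
  have hne : g ^ (j * k) ≠ 1 := by
    intro h1
    rw [pow_mul] at h1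
    have := orderOf_dvd_of_pow_eq_one h1
    rw [hk] at this
    have := Nat.le_of_dvd (Nat.pos_of_ne_zero hk0) this
    have h2 := hp.two_le
    nlinarith [Nat.pos_of_ne_zero hk0]
  have hpn : p ∣ n := by
    have h1 : orderOf (g ^ j) ∣ n := orderOf_pow_dvd j
    exact (Dvd.intro k hk.symm).trans h1
  have hpr : p ∣ r := by
    rw [hr]
    exact Finset.dvd_prod_of_mem _ (Nat.mem_primeFactors.mpr ⟨hp, hpn, by omega⟩)
  obtain ⟨q, hq⟩ := hpr
  have hdvd : n ∣ (j * k) * p := by
    rw [hn]; apply orderOf_dvd_of_pow_eq_one; rw [pow_mul]; exact hone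
  have hmd : m ∣ j * k := by
    rw [hm, hq] at hdvd
    have : p * (q * m) ∣ p * (j * k) := by
      rw [← mul_assoc, mul_comm p (j * k)]; exact hdvd
    have := Nat.dvd_of_mul_dvd_mul_left hp.pos this
    exact (Dvd.intro_left q rfl).trans this
  obtain ⟨i, hi⟩ := hmd
  have hfix : (g ^ (j * k)) • ω = ω := by
    rw [pow_mul]
    have : ∀ t : ℕ, ((g ^ j) ^ t) • ω = ω := by
      intro t
      induction t with
      | zero => simp
      | succ t ih => rw [pow_succ, mul_smul, hx, ih]
    exact this k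
  have hmem : g ^ (j * k) ∈ Subgroup.zpowers (g ^ m) := by
    rw [hi, pow_mul]; exact Subgroup.pow_mem _ (Subgroup.mem_zpowers _) i
  have : (⟨g ^ (j * k), hmem⟩ : Subgroup.zpowers (g ^ m)) ∈ MulAction.stabilizer (Subgroup.zpowers (g ^ m)) ω := by
    rw [MulAction.mem_stabilizer_iff]; exact hfix
  rw [hω, Subgroup.mem_bot] at this
  exact hne (Subtype.ext_iff.mp this)

end Cfsg.Agent.S3511
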