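import Cfsg.Statements.S3514
import Mathlib

set_option autoImplicit false
set_option linter.style.haveILetI false
set_option linter.unusedVariables false
open Cfsg

namespace Cfsg.Agent.S3514

theorem relIndex_sup_normal {G : Type*} [Group G] [Finite G] (K S : Subgroup G) [K.Normal] :
    S.relIndex (K ⊔ S) = S.relIndex K := by
  have h1 : K.relIndex (K ⊔ S) = K.relIndex S := Subgroup.relIndex_sup_left S K
  have h2 : Nat.card K * K.relIndex (K ⊔ S) = Nat.card ↥(K ⊔ S) := by
    rw [← Nat.card_congr (Subgroup.subgroupOfEquivOfLe (le_sup_left : K ≤ K ⊔ S)).toEquiv]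
    exact Subgroup.card_mul_index _
  have h3 : Nat.card ↥(K ⊓ S) * K.relIndex S = Nat.card S := by
    rw [← Subgroup.inf_relIndex_right, ← Nat.card_congr (Subgroup.subgroupOfEquivOfLe (inf_le_right : K ⊓ S ≤ S)).toEquiv]
    exact Subgroup.card_mul_index _
  have h4 : Nat.card S * S.relIndex (K ⊔ S) = Nat.card ↥(K ⊔ S) := by
    rw [← Nat.card_congr (Subgroup.subgroupOfEquivOfLe (le_sup_right : S ≤ K ⊔ S)).toEquiv]
    exact Subgroup.card_mul_index _
  have h5 : Nat.card ↥(K ⊓ S) * S.relIndex K = Nat.card K := by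
    rw [← Subgroup.inf_relIndex_left, ← Nat.card_congr (Subgroup.subgroupOfEquivOfLe (inf_le_left : K ⊓ S ≤ K)).toEquiv]
    exact Subgroup.card_mul_index _
  rw [h1] at h2
  have hS : 0 < Nat.card S := Nat.card_pos
  apply Nat.eq_of_mul_eq_mul_left hS
  calc Nat.card S * S.relIndex (K ⊔ S) = Nat.card K * K.relIndex S := by rw [h4, h2]
    _ = (Nat.card ↥(K ⊓ S) * S.relIndex K) * K.relIndex S := by rw [h5]
    _ = (Nat.card ↥(K ⊓ S) * K.relIndex S) * S.relIndex K := by ring
    _ = Nat.card S * S.relIndex K := by rw [h3]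

theorem relIndex_dvd_of_normal {G : Type*} [Group G] [Finite G] (S K H : Subgroup G) (hKH : K ≤ H)
    (hn : (K.subgroupOf H).Normal) : S.relIndex K ∣ S.relIndex H := by
  have h1 : (S.subgroupOf H).relIndex (K.subgroupOf H) ∣ (S.subgroupOf H).index := by
    rw [← relIndex_sup_normal]
    exact Subgroup.relIndex_dvd_index_of_le le_sup_right
  rw [Subgroup.relIndex_subgroupOf hKH] at h1
  exact h1

theorem orbit_card {K V : Type*} [Field K] [AddCommGroup V] [Module K V] [Finite V]
    (X : Subgroup (V ≃ₗ[K] V)) (v : V) :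
    Nat.card {u : V | ∃ x ∈ X, x v = u} = (MulAction.stabilizer (V ≃ₗ[K] V) v).relIndex X := by
  have h1 : {u : V | ∃ x ∈ X, x v = u} = MulAction.orbit X v := by
    ext u
    constructor
    · rintro ⟨x, hx, rfl⟩; exact ⟨⟨x, hx⟩, rfl⟩
    · rintro ⟨⟨x, hx⟩, rfl⟩; exact ⟨x, hx, rfl⟩
  rw [h1, Nat.card_coe_set_eq, ← MulAction.index_stabilizer]
  rfl

/-- Let p be a prime, V a finite vector space over the field with p elements, and H a group of linear transformations of V all of whose orbits on V have size coprime to p. (i) Every normal subgroup K of H has all its orbits on V of size coprime to p. (ii) If N is a group of linear transformations of V of order coprime to p that is normalized by H, then the group generated by N and H has all its orbits on V of size coprime to p. -/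
theorem result (p : ℕ) [Fact p.Prime] {V : Type*} [AddCommGroup V] [Module (ZMod p) V] [Finite V]
    (H : Subgroup (V ≃ₗ[ZMod p] V)) (hH : ∀ v : V, ¬ p ∣ Nat.card {u : V | ∃ h ∈ H, h v = u}) :
    (∀ K : Subgroup (V ≃ₗ[ZMod p] V), K ≤ H → H ≤ Subgroup.normalizer (K : Set (V ≃ₗ[ZMod p] V)) →
        ∀ v : V, ¬ p ∣ Nat.card {u : V | ∃ k ∈ K, k v = u}) ∧
    (∀ N : Subgroup (V ≃ₗ[ZMod p] V), ¬ p ∣ Nat.card N → H ≤ Subgroup.normalizer (N : Set (V ≃ₗ[ZMod p] V)) →
        ∀ v : V, ¬ p ∣ Nat.card {u : V | ∃ x ∈ N ⊔ H, x v = u}) := by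
  classical
  haveI : Finite (V ≃ₗ[ZMod p] V) := Finite.of_injective (fun f : V ≃ₗ[ZMod p] V => (f : V → V)) DFunLike.coe_injective
  constructor
  · intro K hK hHK v
    rw [orbit_card]
    have h1 := hH v
    rw [orbit_card] at h1
    intro h2
    apply h1
    refine h2.trans (relIndex_dvd_of_normal _ _ _ hK ?_)
    exact (Subgroup.normal_subgroupOf_iff_le_normalizer hK).mpr hHK
  · intro N hN hHN v
    rw [orbit_card]
    have h1 := hH v
    rw [orbit_card] at h1
    set S := MulAction.stabilizer (V ≃ₗ[ZMod p] V) v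
    set L := N ⊔ H with hL
    have hLN : L ≤ Subgroup.normalizer (N : Set (V ≃ₗ[ZMod p] V)) := sup_le Subgroup.le_normalizer hHN
    haveI hNn : (N.subgroupOf L).Normal := (Subgroup.normal_subgroupOf_iff_le_normalizer le_sup_left).mpr hLN
    have hd : S.relIndex L ∣ (S ⊓ H).relIndex L := Subgroup.relIndex_dvd_of_le_left _ inf_le_left
    have hmul : (S ⊓ H).relIndex H * H.relIndex L = (S ⊓ H).relIndex L :=
      Subgroup.relIndex_mul_relIndex _ _ _ inf_le_right le_sup_right
    rw [Subgroup.inf_relIndex_right] at hmul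
    have hHL : H.relIndex L ∣ Nat.card N := by
      have h3 := relIndex_sup_normal (N.subgroupOf L) (H.subgroupOf L)
      have h4 : N.subgroupOf L ⊔ H.subgroupOf L = ⊤ := by
        rw [← Subgroup.subgroupOf_sup le_sup_left le_sup_right, Subgroup.subgroupOf_self]
      rw [h4, Subgroup.relIndex_top_right] at h3
      have h5 : (H.subgroupOf L).index = H.relIndex L := rfl
      rw [← h5, h3, Subgroup.relIndex_subgroupOf le_sup_left]
      exact Subgroup.relIndex_dvd_card H N
    intro hp
    have h6 := hp.trans hd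
    rw [← hmul] at h6
    rcases (Fact.out : p.Prime).dvd_mul.mp h6 with h7 | h7
    · exact h1 h7
    · exact hN (h7.trans hHL)

end Cfsg.Agent.S3514
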