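import Cfsg.Statements.S3515
import Mathlib
import Cfsg.Agent.H21.Lin

set_option autoImplicit false
set_option linter.style.haveILetI false
set_option linter.unusedVariables false
open Cfsg

namespace Cfsg.Agent.S3515

theorem cases4 : ∀ x : Fin 2 → ZMod 2, x = ![0,0] ∨ x = ![1,0] ∨ x = ![0,1] ∨ x = ![1,1] := by decide

/-- Every primitive affine permutation group of degree p² is 3-closed. Let p be a prime and G a group of permutations of the plane V = F_p² consisting of affine maps x ↦ Ax + b, containing all translations, and acting primitively on V. Then any permutation σ of V that agrees on every triple of points with some element of G (σ preserves every G-orbit on ordered triples) already lies in G. -/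
theorem result (p : ℕ) [Fact p.Prime] (G : Subgroup (Equiv.Perm (Fin 2 → ZMod p)))
    (haff : (G : Set (Equiv.Perm (Fin 2 → ZMod p))) ⊆ {τ : Equiv.Perm (Fin 2 → ZMod p) | ∃ (A : (Fin 2 → ZMod p) ≃ₗ[ZMod p] (Fin 2 → ZMod p)) (b : Fin 2 → ZMod p), ∀ x, τ x = A x + b})
    (htrans : ∀ b : Fin 2 → ZMod p, ∃ g ∈ G, ∀ x, g x = x + b) (hprim : MulAction.IsPreprimitive G (Fin 2 → ZMod p))
    (σ : Equiv.Perm (Fin 2 → ZMod p)) (hσ : (∀ t : Fin 3 → (Fin 2 → ZMod p), ∃ g ∈ G, ∀ i, σ (t i) = g (t i))) : σ ∈ G := by
  classical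
  by_cases hp : p = 2
  · subst hp
    obtain ⟨g, hg, hgt⟩ := hσ ![![0,0], ![1,0], ![0,1]]
    have h0 : σ ![0,0] = g ![0,0] := hgt 0
    have h1 : σ ![1,0] = g ![1,0] := hgt 1
    have h2 : σ ![0,1] = g ![0,1] := hgt 2
    have hcases := cases4
    have hall : ∀ x, x ≠ ![1,1] → σ x = g x := by
      intro x hx
      rcases hcases x with rfl | rfl | rfl | rfl
      · exact h0
      · exact h1
      · exact h2
      · exact absurd rfl hx
    have : σ = g := by
      ext1 x
      by_cases hx : x = ![1,1]
      · subst hx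
        by_contra hne
        -- g⁻¹ (σ x) ≠ x
        have h3 : g.symm (σ ![1,1]) ≠ ![1,1] := by
          intro h; apply hne; have h5 := congrArg g h; rwa [Equiv.apply_symm_apply] at h5
        have h4 := hall _ h3
        rw [Equiv.apply_symm_apply] at h4
        exact h3 (σ.injective h4)
      · exact hall x hx
    rw [this]; exact hg
  · have h2 : (2 : ZMod p) ≠ 0 := by
      intro h2
      have : ((2 : ℕ) : ZMod p) = 0 := by exact_mod_cast h2
      rw [ZMod.natCast_eq_zero_iff] at this
      exact hp ((Nat.prime_dvd_prime_iff_eq (Fact.out : p.Prime) Nat.prime_two).mp this)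
    obtain ⟨A, b, hA⟩ := Cfsg.Agent.H21.affine_of_midpoint hp σ (by
      intro x y
      obtain ⟨g, hg, hgt⟩ := hσ ![x, y, (2 : ZMod p)⁻¹ • (x + y)]
      obtain ⟨B, c, hB⟩ := haff hg
      have h0 : σ x = g x := hgt 0
      have h1 : σ y = g y := hgt 1
      have h3 : σ ((2 : ZMod p)⁻¹ • (x + y)) = g ((2 : ZMod p)⁻¹ • (x + y)) := hgt 2
      rw [h0, h1, h3, hB, hB, hB, map_smul, map_add]
      have : c = (2 : ZMod p)⁻¹ • (c + c) := by
        rw [← two_smul (ZMod p) c, smul_smul, inv_mul_cancel₀ h2, one_smul]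
      rw [show (B x + c + (B y + c)) = (B x + B y) + (c + c) by abel, smul_add _ (B x + B y) (c + c), ← this])
    obtain ⟨g, hg, hgt⟩ := hσ ![0, Pi.single 0 1, Pi.single 1 1]
    obtain ⟨B, c, hB⟩ := haff hg
    have h0 : σ 0 = g 0 := hgt 0
    have h1 : σ (Pi.single 0 1) = g (Pi.single 0 1) := hgt 1
    have h3 : σ (Pi.single 1 1) = g (Pi.single 1 1) := hgt 2
    rw [hA, hB, map_zero, map_zero, zero_add, zero_add] at h0
    subst h0
    rw [hA, hB, add_left_inj] at h1 h3
    have hAB : (A : (Fin 2 → ZMod p) →ₗ[ZMod p] (Fin 2 → ZMod p)) = B := by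
      apply LinearMap.pi_ext'
      intro i
      ext1
      fin_cases i
      · exact h1
      · exact h3
    have : σ = g := by
      ext1 x
      rw [hA, hB]
      have := LinearMap.congr_fun hAB x
      simp only [LinearEquiv.coe_coe] at this
      rw [this]
    rw [this]; exact hg

end Cfsg.Agent.S3515
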