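import Cfsg.Statements.S3516
import Mathlib
import Cfsg.Agent.H21.Lin

set_option autoImplicit false
set_option linter.style.haveILetI false
set_option linter.unusedVariables false
open Cfsg

namespace Cfsg.Agent.S3516

/-- Let p be an odd prime, d ≥ 3, and G a group of affine permutations x ↦ Ax + b of V = F_p^d containing all translations and all maps x ↦ Ax with A of determinant 1. Then the 3-closure of G is the full affine group: a permutation σ of V agrees on every triple of points with some element of G if and only if σ is an affine map. -/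
theorem result (p : ℕ) [Fact p.Prime] (hp : p ≠ 2) (d : ℕ) (hd : 3 ≤ d) (G : Subgroup (Equiv.Perm (Fin d → ZMod p)))
    (haff : (G : Set (Equiv.Perm (Fin d → ZMod p))) ⊆ {τ : Equiv.Perm (Fin d → ZMod p) | ∃ (A : (Fin d → ZMod p) ≃ₗ[ZMod p] (Fin d → ZMod p)) (b : Fin d → ZMod p), ∀ x, τ x = A x + b})
    (htrans : ∀ b : Fin d → ZMod p, ∃ g ∈ G, ∀ x, g x = x + b)
    (hsl : ∀ A : (Fin d → ZMod p) ≃ₗ[ZMod p] (Fin d → ZMod p), LinearMap.det (A : (Fin d → ZMod p) →ₗ[ZMod p] (Fin d → ZMod p)) = 1 → ∃ g ∈ G, ∀ x, g x = A x)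
    (σ : Equiv.Perm (Fin d → ZMod p)) :
    (∀ t : Fin 3 → (Fin d → ZMod p), ∃ g ∈ G, ∀ i, σ (t i) = g (t i)) ↔ σ ∈ {τ : Equiv.Perm (Fin d → ZMod p) | ∃ (A : (Fin d → ZMod p) ≃ₗ[ZMod p] (Fin d → ZMod p)) (b : Fin d → ZMod p), ∀ x, τ x = A x + b} := by
  classical
  have h2 : (2 : ZMod p) ≠ 0 := by
    intro h2
    have : ((2 : ℕ) : ZMod p) = 0 := by exact_mod_cast h2
    rw [ZMod.natCast_eq_zero_iff] at this
    exact hp ((Nat.prime_dvd_prime_iff_eq (Fact.out : p.Prime) Nat.prime_two).mp this)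
  constructor
  · intro hσ
    exact Cfsg.Agent.H21.affine_of_midpoint hp σ (by
      intro x y
      obtain ⟨g, hg, hgt⟩ := hσ ![x, y, (2 : ZMod p)⁻¹ • (x + y)]
      obtain ⟨B, c, hB⟩ := haff hg
      have h0 : σ x = g x := hgt 0
      have h1 : σ y = g y := hgt 1
      have h3 : σ ((2 : ZMod p)⁻¹ • (x + y)) = g ((2 : ZMod p)⁻¹ • (x + y)) := hgt 2
      rw [h0, h1, h3, hB, hB, hB, map_smul, map_add]
      have : c = (2 : ZMod p)⁻¹ • (c + c) := by
        rw [← two_smul (ZMod p) c, smul_smul, inv_mul_cancel₀ h2, one_smul]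
      rw [show (B x + c + (B y + c)) = (B x + B y) + (c + c) by abel, smul_add _ (B x + B y) (c + c), ← this])
  · rintro ⟨A, b, hA⟩ t
    let W : Submodule (ZMod p) (Fin d → ZMod p) := Submodule.span (ZMod p) (Set.range ![t 1 - t 0, t 2 - t 0])
    have hW : W ≠ ⊤ := by
      intro h
      have h1 := finrank_range_le_card (R := ZMod p) (b := ![t 1 - t 0, t 2 - t 0])
      have h3 : Set.finrank (ZMod p) (Set.range ![t 1 - t 0, t 2 - t 0]) = Module.finrank (ZMod p) W := rfl
      rw [h3, h, finrank_top, Module.finrank_fin_fun, Fintype.card_fin] at h1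
      omega
    have hdet : LinearMap.det (A : (Fin d → ZMod p) →ₗ[ZMod p] (Fin d → ZMod p)) ≠ 0 := A.isUnit_det'.ne_zero
    obtain ⟨D, hD, hDW⟩ := Cfsg.Agent.H21.exists_dilation W hW (Units.mk0 _ (inv_ne_zero hdet))
    obtain ⟨g₁, hg₁, hg₁'⟩ := hsl (D.trans A) (by
      rw [LinearEquiv.coe_trans, LinearMap.det_comp, hD, Units.val_mk0, mul_inv_cancel₀ hdet])
    obtain ⟨g₂, hg₂, hg₂'⟩ := htrans (σ (t 0) - A (D (t 0)))
    refine ⟨g₂ * g₁, G.mul_mem hg₂ hg₁, ?_⟩
    have key : ∀ i, t i - t 0 ∈ W → σ (t i) = (g₂ * g₁) (t i) := by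
      intro i hi
      have h5 := hDW _ hi
      rw [Equiv.Perm.mul_apply, hg₂', hg₁', LinearEquiv.trans_apply, hA, hA]
      have h6 : D (t i) = t i - t 0 + D (t 0) := by rw [← h5, map_sub]; abel
      rw [h6, map_add, map_sub]; abel
    intro i
    apply key
    fin_cases i
    · simp
    · exact Submodule.subset_span ⟨0, rfl⟩
    · exact Submodule.subset_span ⟨1, rfl⟩

end Cfsg.Agent.S3516
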