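import Cfsg.Statements.S3517
import Mathlib
import Cfsg.Agent.H21.Lin

set_option autoImplicit false
set_option linter.style.haveILetI false
set_option linter.unusedVariables false
open Cfsg

namespace Cfsg.Agent.S3517

/-- For d ≥ 3, the 3-closure of the affine group AGL_d(2) acting on F_2^d is the full symmetric group: every permutation of F_2^d agrees on every ordered triple of points with some affine map (AGL_d(2) is 3-transitive). -/
theorem result (d : ℕ) (hd : 3 ≤ d) (σ : Equiv.Perm (Fin d → ZMod 2)) (t : Fin 3 → (Fin d → ZMod 2)) :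
    ∃ (A : (Fin d → ZMod 2) ≃ₗ[ZMod 2] (Fin d → ZMod 2)) (b : Fin d → ZMod 2), ∀ i, σ (t i) = A (t i) + b := by
  classical
  have hF2 : ∀ a : ZMod 2, a = 0 ∨ a = 1 := by decide
  have hli : ∀ u v : Fin d → ZMod 2, u ≠ 0 → v ≠ 0 → u ≠ v → LinearIndependent (ZMod 2) ![u, v] := by
    intro u v hu hv huv
    rw [LinearIndependent.pair_iff]
    intro s t hst
    rcases hF2 s with rfl | rfl <;> rcases hF2 t with rfl | rfl
    · exact ⟨rfl, rfl⟩
    · simp at hst; exact absurd hst hv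
    · simp at hst; exact absurd hst hu
    · exfalso; apply huv
      have h1 : u + v = 0 := by simpa using hst
      have h2 : v + v = 0 := by ext i; exact CharTwo.add_self_eq_zero _
      exact add_right_cancel (h1.trans h2.symm)
  have hli1 : ∀ u : Fin d → ZMod 2, u ≠ 0 → LinearIndependent (ZMod 2) ![u] := by
    intro u hu
    exact LinearIndependent.of_subsingleton (ι := Fin 1) 0 (by simpa using hu)
  suffices h : ∃ A : (Fin d → ZMod 2) ≃ₗ[ZMod 2] (Fin d → ZMod 2), A (t 1 - t 0) = σ (t 1) - σ (t 0) ∧ A (t 2 - t 0) = σ (t 2) - σ (t 0) by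
    obtain ⟨A, h1, h2⟩ := h
    refine ⟨A, σ (t 0) - A (t 0), ?_⟩
    intro i
    rw [map_sub] at h1 h2
    fin_cases i
    · show σ (t 0) = A (t 0) + _
      abel
    · show σ (t 1) = A (t 1) + _
      have : A (t 1) = σ (t 1) - σ (t 0) + A (t 0) := by rw [← h1]; abel
      rw [this]; abel
    · show σ (t 2) = A (t 2) + _
      have : A (t 2) = σ (t 2) - σ (t 0) + A (t 0) := by rw [← h2]; abel
      rw [this]; abel
  have hz : ∀ i j, t i - t j = 0 ↔ σ (t i) - σ (t j) = 0 := by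
    intro i j; rw [sub_eq_zero, sub_eq_zero, σ.injective.eq_iff]
  have he : t 1 - t 0 = t 2 - t 0 ↔ σ (t 1) - σ (t 0) = σ (t 2) - σ (t 0) := by
    rw [sub_left_inj, sub_left_inj, σ.injective.eq_iff]
  by_cases hu : t 1 - t 0 = 0
  · by_cases hv : t 2 - t 0 = 0
    · refine ⟨LinearEquiv.refl _ _, ?_, ?_⟩
      · rw [hu, (hz _ _).mp hu]; simp
      · rw [hv, (hz _ _).mp hv]; simp
    · have hv' := (hz 2 0).not.mp hv
      obtain ⟨A, hA⟩ := Cfsg.Agent.H21.exists_equiv_of_linInd _ _ (hli1 _ hv) (hli1 _ hv')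
      refine ⟨A, ?_, hA 0⟩
      rw [hu, (hz _ _).mp hu]; simp
  · have hu' := (hz 1 0).not.mp hu
    by_cases hv : t 2 - t 0 = 0
    · obtain ⟨A, hA⟩ := Cfsg.Agent.H21.exists_equiv_of_linInd _ _ (hli1 _ hu) (hli1 _ hu')
      refine ⟨A, hA 0, ?_⟩
      rw [hv, (hz _ _).mp hv]; simp
    · have hv' := (hz 2 0).not.mp hv
      by_cases huv : t 1 - t 0 = t 2 - t 0
      · obtain ⟨A, hA⟩ := Cfsg.Agent.H21.exists_equiv_of_linInd _ _ (hli1 _ hu) (hli1 _ hu')
        refine ⟨A, hA 0, ?_⟩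
        rw [← huv, ← he.mp huv]; exact hA 0
      · obtain ⟨A, hA⟩ := Cfsg.Agent.H21.exists_equiv_of_linInd _ _ (hli _ _ hu hv huv) (hli _ _ hu' hv' (he.not.mp huv))
        exact ⟨A, hA 0, hA 1⟩

end Cfsg.Agent.S3517
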