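import Cfsg.Statements.S3518
import Mathlib
import Cfsg.Agent.H21.Carlitz

set_option autoImplicit false
set_option linter.style.haveILetI false
set_option linter.unusedVariables false
open Cfsg

namespace Cfsg.Agent.S3518

/-- Closures of subgroups of the one-dimensional affine group. Let p be a prime and G a group of permutations of F_p lying in the affine group AGL₁(p) = {x ↦ ax + b, a ≠ 0} and containing all translations. (1) If G is a proper subgroup of AGL₁(p), then G is 2-closed: a permutation of F_p agreeing on every ordered pair of points with some element of G lies in G. (2) Every permutation of F_p agrees on every ordered pair with some element of AGL₁(p) (the 2-closure of AGL₁(p) is the symmetric group). (3) AGL₁(p) is 3-closed: a permutation agreeing on every ordered triple with some affine map is affine. -/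
theorem result (p : ℕ) [Fact p.Prime] (G : Subgroup (Equiv.Perm (ZMod p))) (hG : G ≤ Cfsg.affineGroup (ZMod p))
    (htrans : ∀ b : ZMod p, ∃ g ∈ G, ∀ x, g x = x + b) :
    (G ≠ Cfsg.affineGroup (ZMod p) → ∀ σ : Equiv.Perm (ZMod p), (∀ t : Fin 2 → ZMod p, ∃ g ∈ G, ∀ i, σ (t i) = g (t i)) → σ ∈ G) ∧
    (∀ σ : Equiv.Perm (ZMod p), (∀ t : Fin 2 → ZMod p, ∃ g ∈ Cfsg.affineGroup (ZMod p), ∀ i, σ (t i) = g (t i))) ∧
    (∀ σ : Equiv.Perm (ZMod p), (∀ t : Fin 3 → ZMod p, ∃ g ∈ Cfsg.affineGroup (ZMod p), ∀ i, σ (t i) = g (t i)) → σ ∈ Cfsg.affineGroup (ZMod p)) := by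
  classical
  have hp : p.Prime := Fact.out
  have htr : ∀ b : ZMod p, Equiv.addRight b ∈ G := by
    intro b
    obtain ⟨g, hg, hgx⟩ := htrans b
    have : g = Equiv.addRight b := by
      ext x; rw [hgx]; rfl
    rw [← this]; exact hg
  refine ⟨?_, ?_, ?_⟩
  · intro hne σ hσ
    let A : Subgroup (ZMod p)ˣ :=
      { carrier := {a | ∃ g ∈ G, ∃ b : ZMod p, ∀ x, g x = (a : ZMod p) * x + b}
        one_mem' := ⟨1, G.one_mem, 0, fun x => by simp⟩
        mul_mem' := by
          rintro a b ⟨g, hg, c, hgx⟩ ⟨h, hh, d, hhx⟩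
          refine ⟨g * h, G.mul_mem hg hh, (a : ZMod p) * d + c, fun x => ?_⟩
          rw [Equiv.Perm.mul_apply, hhx, hgx, Units.val_mul]; ring
        inv_mem' := by
          rintro a ⟨g, hg, c, hgx⟩
          refine ⟨g⁻¹, G.inv_mem hg, -((a⁻¹ : (ZMod p)ˣ) : ZMod p) * c, fun x => ?_⟩
          rw [Equiv.Perm.inv_eq_iff_eq, hgx, mul_add, ← mul_assoc, Units.mul_inv, ← mul_assoc, mul_neg, Units.mul_inv]
          ring }
    have memA : ∀ a : (ZMod p)ˣ, a ∈ A ↔ ∃ g ∈ G, ∃ b : ZMod p, ∀ x, g x = (a : ZMod p) * x + b := fun a => Iff.rfl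
    -- membership in G
    have memG : ∀ (τ : Equiv.Perm (ZMod p)) (a : (ZMod p)ˣ) (b : ZMod p), a ∈ A → (∀ x, τ x = (a : ZMod p) * x + b) → τ ∈ G := by
      rintro τ a b ⟨g, hg, c, hgx⟩ hτ
      have : τ = Equiv.addRight (b - c) * g := by
        ext x
        rw [Equiv.Perm.mul_apply, hgx, hτ]
        show _ = (a : ZMod p) * x + c + (b - c)
        ring
      rw [this]
      exact G.mul_mem (htr _) hg
    have hAtop : A ≠ ⊤ := by
      intro h
      apply hne
      apply le_antisymm hG
      rintro τ ⟨a, b, hτ⟩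
      exact memG τ a b (by rw [h]; trivial) hτ
    set d := Nat.card A with hd
    have hcardU : Nat.card (ZMod p)ˣ = p - 1 := by
      rw [Nat.card_eq_fintype_card, ZMod.card_units_eq_totient, Nat.totient_prime hp]
    have hdd : d ∣ p - 1 := by rw [← hcardU]; exact Subgroup.card_subgroup_dvd_card A
    have hdne : d ≠ p - 1 := by
      intro h
      apply hAtop
      exact Subgroup.eq_top_of_card_eq A (by rw [← hd, h, hcardU])
    have hd0 : 0 < d := Nat.card_pos
    have hp1 : 1 < p := hp.one_lt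
    have h2d : 2 * d ≤ p - 1 := by
      obtain ⟨c, hc⟩ := hdd
      have hc2 : 2 ≤ c := by
        rcases c with _ | _ | c
        · omega
        · exfalso; apply hdne; rw [hc]; ring
        · omega
      rw [hc, mul_comm 2 d]
      exact Nat.mul_le_mul_left d hc2
    have hpair : ∀ x y : ZMod p, ∃ a ∈ A, σ x - σ y = (a : ZMod p) * (x - y) := by
      intro x y
      obtain ⟨g, hg, hgi⟩ := hσ ![x, y]
      obtain ⟨a, b, hab⟩ := hG hg
      refine ⟨a, ⟨g, hg, b, hab⟩, ?_⟩
      have h0 := hgi 0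
      have h1 := hgi 1
      simp only [Matrix.cons_val_zero, Matrix.cons_val_one] at h0 h1
      rw [h0, h1, hab, hab]; ring
    have hpow : ∀ a ∈ A, (a : ZMod p) ^ d = 1 := by
      intro a ha
      have h1 : (⟨a, ha⟩ : A) ^ d = 1 := pow_card_eq_one'
      have h2 := congrArg Subtype.val h1
      have h3 : a ^ d = 1 := h2
      rw [← Units.val_pow_eq_pow_val, h3, Units.val_one]
    obtain ⟨a, b, hab⟩ := Cfsg.Agent.H21.carlitz d h2d hd0 σ (by
      intro x y
      obtain ⟨a, ha, h⟩ := hpair x y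
      rw [h, mul_pow, hpow a ha, one_mul])
    obtain ⟨a', ha', h'⟩ := hpair 1 0
    rw [hab, hab] at h'
    have haa : a = (a' : ZMod p) := by linear_combination h'
    exact memG σ a' b ha' (by intro x; rw [hab, haa])
  · intro σ t
    by_cases h : t 0 = t 1
    · refine ⟨Equiv.addRight (σ (t 0) - t 0), ⟨1, σ (t 0) - t 0, fun x => by simp⟩, ?_⟩
      intro i
      have : t i = t 0 := by fin_cases i; rfl; exact h.symm
      rw [this]
      show σ (t 0) = t 0 + (σ (t 0) - t 0)
      ring
    · have h1 : t 0 - t 1 ≠ 0 := sub_ne_zero.2 h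
      have h2 : σ (t 0) - σ (t 1) ≠ 0 := sub_ne_zero.2 (fun h' => h (σ.injective h'))
      let a : (ZMod p)ˣ := Units.mk0 ((σ (t 0) - σ (t 1)) / (t 0 - t 1)) (div_ne_zero h2 h1)
      let g : Equiv.Perm (ZMod p) := (Equiv.addRight (σ (t 0) - (a : ZMod p) * t 0)) * (Units.mulLeft a)
      have hg : ∀ x, g x = (a : ZMod p) * x + (σ (t 0) - (a : ZMod p) * t 0) := fun x => rfl
      refine ⟨g, ⟨a, _, hg⟩, ?_⟩
      intro i
      rw [hg]
      fin_cases i
      · show σ (t 0) = (a : ZMod p) * t 0 + (σ (t 0) - (a : ZMod p) * t 0)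
        ring
      · show σ (t 1) = (a : ZMod p) * t 1 + (σ (t 0) - (a : ZMod p) * t 0)
        have ha : (a : ZMod p) = (σ (t 0) - σ (t 1)) / (t 0 - t 1) := rfl
        rw [ha]
        field_simp
        ring
  · intro σ hσ
    obtain ⟨g, ⟨a, b, hab⟩, hgi⟩ := hσ ![0, 1, 0]
    have h0 := hgi 0
    have h1 := hgi 1
    simp only [Matrix.cons_val_zero, Matrix.cons_val_one] at h0 h1
    refine ⟨a, b, fun x => ?_⟩
    obtain ⟨g', ⟨a', b', hab'⟩, hgi'⟩ := hσ ![0, 1, x]
    have h0' := hgi' 0
    have h1' := hgi' 1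
    have h2' := hgi' 2
    simp only [Matrix.cons_val_zero, Matrix.cons_val_one, Matrix.cons_val] at h0' h1' h2'
    rw [hab] at h0 h1
    rw [hab'] at h0' h1' h2'
    have e1 : b = b' := by linear_combination h0' - h0
    have e2 : (a : ZMod p) = a' := by linear_combination h1' - h1 - e1
    rw [h2', e1, e2]

end Cfsg.Agent.S3518
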