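import Cfsg.Statements.S3524
-- import your own Cfsg.Agent.* helpers here

set_option autoImplicit false
open Cfsg

namespace Cfsg.Agent.S3524

/-- A permutation group with a base is closed at one level above the base size. Let G be a group of permutations of a set Ω and suppose some k points α₁, …, α_k are fixed simultaneously only by the identity of G (a base of size k). Then G is (k+1)-closed: a permutation of Ω that agrees on every (k+1)-tuple of points with some element of G belongs to G. -/
theorem result {Ω : Type*} (G : Subgroup (Equiv.Perm Ω)) (k : ℕ) (α : Fin k → Ω)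
    (hbase : ∀ g ∈ G, (∀ i, g (α i) = α i) → g = 1) (σ : Equiv.Perm Ω)
    (hσ : ∀ t : Fin (k + 1) → Ω, ∃ g ∈ G, ∀ i, σ (t i) = g (t i)) : σ ∈ G := by
  classical
  rcases isEmpty_or_nonempty Ω with hE | hne
  · have : σ = 1 := Subsingleton.elim _ _
    rw [this]; exact G.one_mem
  · obtain ⟨ω₀⟩ := hne
    obtain ⟨g₀, hg₀, h₀⟩ := hσ (Fin.snoc α ω₀)
    have hα : ∀ i, σ (α i) = g₀ (α i) := by
      intro i
      have := h₀ (Fin.castSucc i)
      simpa using this
    have : σ = g₀ := by
      ext ω
      obtain ⟨g, hg, h⟩ := hσ (Fin.snoc α ω)
      have hα' : ∀ i, σ (α i) = g (α i) := by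
        intro i
        have := h (Fin.castSucc i)
        simpa using this
      have hω : σ ω = g ω := by
        have := h (Fin.last k)
        simpa using this
      have h1 : g₀⁻¹ * g = 1 := by
        apply hbase _ (G.mul_mem (G.inv_mem hg₀) hg)
        intro i
        rw [Equiv.Perm.mul_apply, ← hα' i, hα i]; simp
      have h2 : g = g₀ := by
        have := mul_eq_one_iff_inv_eq.mp h1
        simpa using this.symm
      rw [hω, h2]
    rw [this]; exact hg₀

end Cfsg.Agent.S3524
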