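import Cfsg.Statements.S3532
import Cfsg.Agent.H22.SpecPSL2
import Cfsg.Agent.H22.FrobV

set_option autoImplicit false
set_option linter.all false
open Cfsg

namespace Cfsg.Agent.S3532

open Cfsg.Agent.H22

theorem mem_range_prod {G H : Type*} [Group G] [Group H] (n : ℕ) :
    n ∈ Set.range (orderOf : G × H → ℕ) ↔ ∃ a ∈ Set.range (orderOf : G → ℕ), ∃ b ∈ Set.range (orderOf : H → ℕ), Nat.lcm a b = n := by
  constructor
  · rintro ⟨⟨x, y⟩, rfl⟩
    exact ⟨_, ⟨x, rfl⟩, _, ⟨y, rfl⟩, (Prod.orderOf (x, y)).symm⟩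
  · rintro ⟨_, ⟨x, rfl⟩, _, ⟨y, rfl⟩, rfl⟩
    exact ⟨(x, y), Prod.orderOf (x, y)⟩

/-- Let q ≥ 4 be a prime power and L = PSL(2,q). There is a finite solvable group with the same set of element orders as L × L (so L × L is not determined by its spectrum). -/
theorem result {F : Type*} [Field F] [Fintype F] (hF : 4 ≤ Fintype.card F) :
    ∃ (H : Type) (_ : Group H) (_ : Finite H), Group.IsSolvable H ∧
      Set.range (orderOf : H → ℕ) = Set.range (orderOf : Matrix.ProjectiveSpecialLinearGroup (Fin 2) F × Matrix.ProjectiveSpecialLinearGroup (Fin 2) F → ℕ) := by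
  classical
  obtain ⟨p, hpc⟩ := CharP.exists F
  obtain ⟨e, hp, hcard⟩ := FiniteField.card F p
  have : Fact p.Prime := ⟨hp⟩
  set q := Fintype.card F with hq
  set A := (q - 1) / Nat.gcd 2 (q - 1) with hA
  set B := (q + 1) / Nat.gcd 2 (q - 1) with hB
  have hK1 : Nat.card (GaloisField p e) = q := by
    rw [GaloisField.card p e e.pos.ne', hcard]
  have hK2 : Nat.card (GaloisField p (2 * e)) = q ^ 2 := by
    rw [GaloisField.card p (2 * e) (by have := e.pos; omega), hcard, ← pow_mul, mul_comm]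
  obtain ⟨S1, hS1⟩ := exists_units_subgroup (K := GaloisField p e) (m := A) (by
    rw [hK1]; exact Nat.div_dvd_of_dvd (Nat.gcd_dvd_right _ _))
  have hgd : Nat.gcd 2 (q - 1) ∣ q + 1 := by
    have h3 : q + 1 = 2 + (q - 1) := by omega
    rw [h3]
    exact dvd_add (Nat.gcd_dvd_left _ _) (Nat.gcd_dvd_right _ _)
  obtain ⟨S2, hS2⟩ := exists_units_subgroup (K := GaloisField p (2 * e)) (m := B) (by
    rw [hK2]
    refine (Nat.div_dvd_of_dvd hgd).trans ?_
    obtain ⟨r, hr⟩ : ∃ r, q = r + 1 := ⟨q - 1, by omega⟩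
    refine ⟨q - 1, ?_⟩
    rw [hr, Nat.add_sub_cancel]
    have : (r + 1) ^ 2 = (r + 1 + 1) * r + 1 := by ring
    omega)
  have hs1 := spec_fv p S1
  have hs2 := spec_fv p S2
  rw [hS1] at hs1
  rw [hS2] at hs2
  have hL := spec_psl2 (F := F) p
  rw [← hq, ← hA, ← hB] at hL
  have i1 := fv_solvable S1
  have i2 := fv_solvable S2
  refine ⟨FV S1 × FV S2, inferInstance, inferInstance, inferInstance, ?_⟩
  ext n
  rw [mem_range_prod, mem_range_prod, hs1, hs2, hL]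
  simp only [Set.mem_ofPred_eq]
  constructor
  · rintro ⟨a, ha, b, hb, rfl⟩
    exact ⟨a, by tauto, b, by tauto, rfl⟩
  · rintro ⟨a, ha, b, hb, rfl⟩
    rcases ha with ha | ha | ha <;> rcases hb with hb | hb | hb
    · exact ⟨Nat.lcm a b, Or.inl (Nat.lcm_dvd ha hb), 1, by simp, by simp⟩
    · exact ⟨a, Or.inl ha, b, Or.inl hb, rfl⟩
    · exact ⟨a, Or.inl ha, b, Or.inr hb, rfl⟩
    · exact ⟨b, Or.inl hb, a, Or.inl ha, Nat.lcm_comm _ _⟩
    · exact ⟨1, by simp, Nat.lcm a b, Or.inl (Nat.lcm_dvd ha hb), by simp⟩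
    · exact ⟨b, Or.inr hb, a, Or.inl ha, Nat.lcm_comm _ _⟩
    · exact ⟨b, Or.inl hb, a, Or.inr ha, Nat.lcm_comm _ _⟩
    · exact ⟨a, Or.inr ha, b, Or.inl hb, rfl⟩
    · exact ⟨a, Or.inr ha, b, Or.inr hb, rfl⟩

end Cfsg.Agent.S3532
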