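import Cfsg.Statements.S3547
import Cfsg.Agent.H22.Derangements

set_option autoImplicit false
set_option linter.all false
open Cfsg

namespace Cfsg.Agent.S3547


/-- Let G act faithfully and transitively on a finite set Ω, let D be the subgroup generated by the derangements, and let r_G and r_D be the numbers of orbits of G and of D on ordered pairs of points (the permutation ranks). Then r_D − 1 = (r_G − 1)·[G : D]. -/
theorem result {G Ω : Type*} [Group G] [Finite G] [MulAction G Ω] [FaithfulSMul G Ω] [Finite Ω]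
    (htrans : MulAction.IsPretransitive G Ω) :
    Nat.card (MulAction.orbitRel.Quotient ↥(Subgroup.closure {g : G | ∀ ω : Ω, g • ω ≠ ω}) (Ω × Ω)) - 1 =
      (Nat.card (MulAction.orbitRel.Quotient G (Ω × Ω)) - 1) * (Subgroup.closure {g : G | ∀ ω : Ω, g • ω ≠ ω}).index := by
  classical
  rcases isEmpty_or_nonempty Ω with hE | hE
  · haveI : IsEmpty (Ω × Ω) := inferInstance
    have h1 : ∀ H : Subgroup G, Nat.card (MulAction.orbitRel.Quotient H (Ω × Ω)) = 0 := by
      intro H
      haveI : IsEmpty (MulAction.orbitRel.Quotient H (Ω × Ω)) := ⟨fun q => by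
        induction q using Quotient.inductionOn' with
        | h x => exact hE.false x.1⟩
      exact Nat.card_of_isEmpty
    have h2 : Nat.card (MulAction.orbitRel.Quotient G (Ω × Ω)) = 0 := by
      haveI : IsEmpty (MulAction.orbitRel.Quotient G (Ω × Ω)) := ⟨fun q => by
        induction q using Quotient.inductionOn' with
        | h x => exact hE.false x.1⟩
      exact Nat.card_of_isEmpty
    rw [h1, h2]
    simp
  haveI := Fintype.ofFinite G
  set D := Cfsg.Agent.H22.derang G Ω with hD
  change Nat.card (MulAction.orbitRel.Quotient D (Ω × Ω)) - 1 = _ * D.index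
  have hm := Cfsg.Agent.H22.derang_main (G := G) (Ω := Ω) htrans
  have hG := Cfsg.Agent.H22.burnside_nat (G := G) (Ω × Ω)
  have hDs := Cfsg.Agent.H22.burnside_subgroup D (Ω × Ω)
  rw [← Finset.sum_filter_add_sum_filter_not Finset.univ (fun g => g ∈ D), hDs] at hG
  have hone : ∀ g : G, g ∉ D → Nat.card (MulAction.fixedBy (Ω × Ω) g) = 1 := by
    intro g hg
    have h1 := hm.2 g hg
    rw [Nat.card_eq_one_iff_unique] at h1 ⊢
    obtain ⟨hs, ⟨⟨x, hx⟩⟩⟩ := h1
    refine ⟨⟨?_⟩, ⟨⟨(x, x), ?_⟩⟩⟩
    · rintro ⟨⟨a, b⟩, hab⟩ ⟨⟨c, d⟩, hcd⟩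
      have hab' : (g • a, g • b) = (a, b) := hab
      have hcd' : (g • c, g • d) = (c, d) := hcd
      simp only [Prod.mk.injEq] at hab' hcd'
      have e1 := congrArg Subtype.val (hs.elim (⟨a, hab'.1⟩ : MulAction.fixedBy Ω g) ⟨c, hcd'.1⟩)
      have e2 := congrArg Subtype.val (hs.elim (⟨b, hab'.2⟩ : MulAction.fixedBy Ω g) ⟨d, hcd'.2⟩)
      simp only at e1 e2
      subst e1 e2
      rfl
    · have hx' : g • x = x := hx
      show (g • x, g • x) = (x, x)
      rw [hx']
  have hcardG : Nat.card G = Nat.card D + (Finset.univ.filter (fun g => g ∉ D)).card := by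
    rw [Nat.card_eq_fintype_card, ← Finset.card_univ,
      ← Finset.card_filter_add_card_filter_not (s := Finset.univ) (fun g => g ∈ D)]
    congr 1
    rw [Nat.card_eq_fintype_card, Fintype.card_subtype]
  have hsum : ∑ g : G with g ∉ D, Nat.card (MulAction.fixedBy (Ω × Ω) g) = (Finset.univ.filter (fun g => g ∉ D)).card := by
    rw [Finset.card_eq_sum_ones]
    apply Finset.sum_congr rfl
    intro g hg
    exact hone g (by simpa using hg)
  rw [hsum] at hG
  have hidx : Nat.card D * D.index = Nat.card G := Subgroup.card_mul_index D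
  haveI : Nonempty (MulAction.orbitRel.Quotient D (Ω × Ω)) := Nonempty.map Quotient.mk'' inferInstance
  haveI : Nonempty (MulAction.orbitRel.Quotient G (Ω × Ω)) := Nonempty.map Quotient.mk'' inferInstance
  have hrD : 1 ≤ Nat.card (MulAction.orbitRel.Quotient D (Ω × Ω)) := Nat.card_pos
  have hrG : 1 ≤ Nat.card (MulAction.orbitRel.Quotient G (Ω × Ω)) := Nat.card_pos
  have hDpos : 0 < Nat.card D := Nat.card_pos
  obtain ⟨a, ha⟩ := Nat.exists_eq_add_of_le hrD
  obtain ⟨b, hb⟩ := Nat.exists_eq_add_of_le hrG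
  rw [ha, hb] at hG ⊢
  simp only [Nat.add_sub_cancel_left]
  apply Nat.eq_of_mul_eq_mul_left hDpos
  have : Nat.card D * (b * D.index) = b * Nat.card G := by rw [← hidx]; ring
  rw [this]
  nlinarith

end Cfsg.Agent.S3547
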