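import Cfsg.Statements.S3548
import Cfsg.Agent.H22.DerangIndex

set_option autoImplicit false
set_option linter.all false
open Cfsg

namespace Cfsg.Agent.S3548


/-- Let G act faithfully and transitively on a finite set with n ≥ 2 points and let D be the subgroup generated by the derangements. Then the index of D in G divides n − 1, and if it equals n − 1 then n is a prime power. -/
theorem result {G Ω : Type*} [Group G] [Finite G] [MulAction G Ω] [FaithfulSMul G Ω] [Finite Ω]
    (htrans : MulAction.IsPretransitive G Ω) (hΩ : 2 ≤ Nat.card Ω) :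
    (Subgroup.closure {g : G | ∀ ω : Ω, g • ω ≠ ω}).index ∣ Nat.card Ω - 1 ∧
    ((Subgroup.closure {g : G | ∀ ω : Ω, g • ω ≠ ω}).index = Nat.card Ω - 1 → IsPrimePow (Nat.card Ω)) := by
  classical
  haveI : Nonempty Ω := by
    by_contra h
    rw [not_nonempty_iff] at h
    rw [Nat.card_of_isEmpty] at hΩ
    omega
  obtain ⟨ω⟩ := (inferInstance : Nonempty Ω)
  set D := Cfsg.Agent.H22.derang G Ω with hD
  have hdvd := Cfsg.Agent.H22.derang_index_dvd_sub_one htrans ω
  refine ⟨hdvd, fun heq => ?_⟩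
  change D.index = _ at heq
  have hDt : MulAction.IsPretransitive D Ω := Cfsg.Agent.H22.derang_transitive htrans
  haveI hDn : D.Normal := Cfsg.Agent.H22.derang_normal
  set H := MulAction.stabilizer G ω with hH
  have hr : D.index = D.relIndex H := Cfsg.Agent.H22.index_eq_relIndex_stabilizer D hDt ω
  have hcompl : ({ω}ᶜ : Set Ω).ncard = Nat.card Ω - 1 := by
    rw [Set.ncard_compl, Set.ncard_singleton]
  -- orbit lengths
  have horb : ∀ x : Ω, x ≠ ω → (MulAction.orbit H x) = {ω}ᶜ ∧ MulAction.stabilizer G x ⊓ H = D ⊓ H := by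
    intro x hx
    have hsub : MulAction.orbit H x ⊆ {ω}ᶜ := by
      rintro y ⟨h, rfl⟩
      simp only [Set.mem_compl_iff, Set.mem_singleton_iff]
      intro h'
      apply hx
      have h2 : (h : G) • x = ω := h'
      rw [← inv_smul_smul (h : G) x, h2, inv_smul_eq_iff]
      exact h.2.symm
    have hsubD : MulAction.stabilizer G x ⊓ H ≤ D := by
      rintro g ⟨hg1, hg2⟩
      exact Cfsg.Agent.H22.mem_derang_of_two_fixed htrans hx hg1 hg2
    have h1 : D.index ∣ (MulAction.stabilizer G x).relIndex H :=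
      Cfsg.Agent.H22.derang_index_dvd htrans ω _ hsubD
    have h2 : (MulAction.stabilizer G x).relIndex H = (MulAction.orbit H x).ncard := by
      rw [← MulAction.index_stabilizer]
      rfl
    have h3 : (MulAction.orbit H x).ncard ≤ Nat.card Ω - 1 := by
      rw [← hcompl]
      exact Set.ncard_le_ncard hsub
    have h4 : 0 < (MulAction.orbit H x).ncard := (Set.ncard_pos (Set.toFinite _)).2 (MulAction.nonempty_orbit x)
    have h5 : (MulAction.orbit H x).ncard = Nat.card Ω - 1 := by
      apply le_antisymm h3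
      rw [← heq, ← h2]
      rw [← h2] at h4
      exact Nat.le_of_dvd h4 h1
    refine ⟨Set.eq_of_subset_of_ncard_le hsub (by rw [hcompl, h5]), ?_⟩
    have h6 : MulAction.stabilizer G x ⊓ H ≤ D ⊓ H := le_inf hsubD inf_le_right
    apply Subgroup.eq_of_le_of_card_ge h6
    have h7 : (MulAction.stabilizer G x ⊓ H).relIndex H = (D ⊓ H).relIndex H := by
      rw [Subgroup.inf_relIndex_right, Subgroup.inf_relIndex_right, ← hr, heq, h2, h5]
    have h8 : Nat.card ↥((MulAction.stabilizer G x ⊓ H).subgroupOf H) * (MulAction.stabilizer G x ⊓ H).relIndex H = Nat.card H :=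
      Subgroup.card_mul_index _
    have h9 : Nat.card ↥((D ⊓ H).subgroupOf H) * (D ⊓ H).relIndex H = Nat.card H :=
      Subgroup.card_mul_index _
    rw [h7] at h8
    have h10 : 0 < (D ⊓ H).relIndex H := by
      rw [← h7, Subgroup.inf_relIndex_right, h2]; exact h4
    have h11 := Nat.eq_of_mul_eq_mul_right h10 (h8.trans h9.symm)
    rw [Nat.card_congr (Subgroup.subgroupOfEquivOfLe (inf_le_right : MulAction.stabilizer G x ⊓ H ≤ H)).toEquiv,
      Nat.card_congr (Subgroup.subgroupOfEquivOfLe (inf_le_right : D ⊓ H ≤ H)).toEquiv] at h11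
    exact h11.ge
  -- D ⊓ H acts trivially
  have hDH : D ⊓ H = ⊥ := by
    rw [eq_bot_iff]
    intro g hg
    rw [Subgroup.mem_bot]
    apply FaithfulSMul.eq_of_smul_eq_smul (α := Ω)
    intro x
    rw [one_smul]
    by_cases hx : x = ω
    · rw [hx]; exact hg.2
    · rw [← (horb x hx).2] at hg
      exact hg.1
  have hDst : MulAction.stabilizer D ω = ⊥ := by
    rw [eq_bot_iff]
    rintro ⟨d, hd⟩ hd2
    have : d ∈ D ⊓ H := ⟨hd, hd2⟩
    rw [hDH] at this
    rw [Subgroup.mem_bot] at this ⊢
    exact Subtype.ext this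
  have hcardD : Nat.card D = Nat.card Ω := by
    have h1 := MulAction.index_stabilizer_of_transitive D ω
    rw [hDst, Subgroup.index_bot] at h1
    exact h1
  have hDbij : ∀ d ∈ D, ∀ e ∈ D, d • ω = e • ω → d = e := by
    intro d hd e he h
    have : e⁻¹ * d ∈ D ⊓ H := ⟨D.mul_mem (D.inv_mem he) hd, by
      show (e⁻¹ * d) • ω = ω
      rw [mul_smul, h, inv_smul_smul]⟩
    rw [hDH, Subgroup.mem_bot] at this
    rw [inv_mul_eq_one] at this
    exact this.symm
  have hcard1 : Nat.card D ≠ 1 := by omega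
  obtain ⟨p, hp, hpd⟩ := Nat.exists_prime_and_dvd hcard1
  haveI : Fact p.Prime := ⟨hp⟩
  obtain ⟨⟨d, hdD⟩, hd⟩ := exists_prime_orderOf_dvd_card' p hpd
  rw [Subgroup.orderOf_mk] at hd
  have hd1 : d ≠ 1 := by
    rintro rfl
    rw [orderOf_one] at hd
    exact hp.one_lt.ne hd
  have hne : ∀ e ∈ D, e ≠ 1 → e • ω ≠ ω := by
    intro e he he1 h
    apply he1
    exact hDbij e he 1 D.one_mem (by rw [h, one_smul])
  have hall : ∀ e ∈ D, e ≠ 1 → orderOf e = p := by
    intro e he he1
    have h1 : e • ω ∈ MulAction.orbit H (d • ω) := by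
      rw [(horb (d • ω) (hne d hdD hd1)).1]
      exact hne e he he1
    obtain ⟨h, hh⟩ := h1
    have h2 : (h : G) • d • ω = e • ω := hh
    have h3 : (h : G) * d * (h : G)⁻¹ = e := by
      apply hDbij _ (hDn.conj_mem d hdD h) e he
      rw [mul_smul, mul_smul, ← h2]
      congr 2
      rw [inv_smul_eq_iff]
      exact h.2.symm
    rw [← hd]
    exact (SemiconjBy.orderOf_eq (h : G) (by rw [SemiconjBy, ← h3]; simp)).symm
  have hpg : IsPGroup p D := by
    intro e
    refine ⟨1, ?_⟩
    by_cases he : (e : G) = 1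
    · have : e = 1 := Subtype.ext he
      rw [this, one_pow]
    · have := hall e e.2 he
      rw [pow_one, ← this]
      apply Subtype.ext
      simpa using pow_orderOf_eq_one (e : G)
  obtain ⟨n, hn⟩ := IsPGroup.iff_card.1 hpg
  rw [← hcardD, hn]
  rw [isPrimePow_nat_iff]
  refine ⟨p, n, hp, ?_, rfl⟩
  rcases Nat.eq_zero_or_pos n with h | h
  · rw [h, pow_zero] at hn
    exact absurd hn hcard1
  · exact h

end Cfsg.Agent.S3548
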