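import Cfsg.Statements.S3549
import Cfsg.Agent.H22.DerangIndex

set_option autoImplicit false
set_option linter.all false
open Cfsg

namespace Cfsg.Agent.S3549

section
open scoped Pointwise

theorem main {G Ω : Type*} [Group G] [Finite G] [MulAction G Ω] [FaithfulSMul G Ω] [Finite Ω]
    (htrans : MulAction.IsPretransitive G Ω) (himp : ¬ MulAction.IsPreprimitive G Ω) :
    ((Subgroup.closure {g : G | ∀ ω : Ω, g • ω ≠ ω}).index : ℝ) ≤ Real.sqrt (Nat.card Ω) - 1 := by
  classical
  obtain ⟨B, hB, hBt⟩ : ∃ B : Set Ω, MulAction.IsBlock G B ∧ ¬ MulAction.IsTrivialBlock B := by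
    by_contra h
    push Not at h
    exact himp { toIsPretransitive := htrans, isTrivialBlock_of_isBlock := fun {B} hB => h B hB }
  rw [MulAction.IsTrivialBlock, not_or, Set.not_subsingleton_iff] at hBt
  obtain ⟨hBnt, hBu⟩ := hBt
  obtain ⟨ω, hω⟩ := hBnt.nonempty
  set D := Cfsg.Agent.H22.derang G Ω with hD
  change (D.index : ℝ) ≤ _
  set H := MulAction.stabilizer G ω with hH
  haveI hDn : D.Normal := Cfsg.Agent.H22.derang_normal
  have hDt : MulAction.IsPretransitive D Ω := Cfsg.Agent.H22.derang_transitive htrans
  have hblk : ∀ g : G, g • B = B ∨ Disjoint (g • B) B := MulAction.isBlock_iff_smul_eq_or_disjoint.1 hB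
  have hb2 : 2 ≤ B.ncard := by
    have := (Set.one_lt_ncard (Set.toFinite B)).2 hBnt
    omega
  -- (1)
  have h1 : D.index ∣ (B \ {ω}).ncard := by
    apply Cfsg.Agent.H22.dvd_ncard_of_dvd_index H
    · rintro h hh x ⟨hx, hxω⟩
      have hhω : h • ω = ω := hh
      refine ⟨?_, ?_⟩
      · rcases hblk h with h' | h'
        · rw [← h']; exact Set.smul_mem_smul_set hx
        · exfalso
          rw [Set.disjoint_left] at h'
          apply h' (Set.smul_mem_smul_set hω)
          rw [hhω]; exact hω
      · simp only [Set.mem_singleton_iff] at hxω ⊢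
        intro h'
        apply hxω
        rw [← inv_smul_smul h x, h', inv_smul_eq_iff, hhω]
    · rintro x ⟨hx, hxω⟩
      apply Cfsg.Agent.H22.derang_index_dvd htrans ω
      rintro g ⟨hg1, hg2⟩
      exact Cfsg.Agent.H22.mem_derang_of_two_fixed htrans hxω hg1 hg2
  have h1' : (B \ {ω}).ncard = B.ncard - 1 := Set.ncard_diff_singleton_of_mem hω
  -- (2)
  have h2 : D.index ∣ (MulAction.orbit G B \ {B}).ncard := by
    apply Cfsg.Agent.H22.dvd_ncard_of_dvd_index H
    · rintro h hh _ ⟨⟨g, rfl⟩, hgB⟩
      have hhω : h • ω = ω := hh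
      have hhB : h • B = B := by
        rcases hblk h with h' | h'
        · exact h'
        · exfalso
          rw [Set.disjoint_left] at h'
          apply h' (Set.smul_mem_smul_set hω)
          rw [hhω]; exact hω
      refine ⟨⟨h * g, by simp only [mul_smul]⟩, ?_⟩
      simp only [Set.mem_singleton_iff] at hgB ⊢
      intro h'
      apply hgB
      rw [← inv_smul_smul h (g • B), h', inv_smul_eq_iff, hhB]
    · rintro _ ⟨⟨g, rfl⟩, hgB⟩
      simp only [Set.mem_singleton_iff] at hgB
      apply Cfsg.Agent.H22.derang_index_dvd htrans ω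
      rintro x ⟨hx1, hx2⟩
      have hxB : x • (g • B) = g • B := hx1
      have hxω : x • ω = ω := hx2
      by_contra hxD
      have hblk' : ∀ u : G, u • (g • B) = g • B ∨ Disjoint (u • (g • B)) (g • B) :=
        MulAction.isBlock_iff_smul_eq_or_disjoint.1 (hB.translate g)
      obtain ⟨y, hy, hxy⟩ := Cfsg.Agent.H22.coset_count (D ⊓ MulAction.stabilizer G (g • B)) (g • B)
        ⟨g • ω, Set.smul_mem_smul_set hω⟩ (fun s hs y hy => by
          have : s • (g • B) = g • B := hs.2
          rw [← this]; exact Set.smul_mem_smul_set hy)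
        (fun y hy z hz => by
          obtain ⟨d, hd⟩ := hDt.exists_smul_eq y z
          have hd' : (d : G) • y = z := hd
          refine ⟨d, ⟨d.2, ?_⟩, hd'⟩
          rcases hblk' d with h' | h'
          · exact h'
          · exfalso
            rw [Set.disjoint_left] at h'
            apply h' (Set.smul_mem_smul_set hy)
            rw [hd']; exact hz)
        (fun y => x • y) (fun y hy => by
          rw [← hxB]; exact Set.smul_mem_smul_set hy)
        (fun s hs y _ z _ hy hz => by
          by_contra hyz
          apply hxD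
          have h3 : s * x ∈ D := Cfsg.Agent.H22.mem_derang_of_two_fixed htrans hyz
            (by rw [mul_smul]; exact hy) (by rw [mul_smul]; exact hz)
          have h4 := D.mul_mem (D.inv_mem hs.1) h3
          simpa using h4)
        1 (Subgroup.one_mem _)
      rw [one_smul] at hxy
      have hyω : y ≠ ω := by
        rintro rfl
        apply hgB
        rcases hblk g with h' | h'
        · exact h'
        · exfalso
          rw [Set.disjoint_left] at h'
          exact h' hy hω
      exact hxD (Cfsg.Agent.H22.mem_derang_of_two_fixed htrans hyω hxy hxω)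
  have h2' : (MulAction.orbit G B \ {B}).ncard = (MulAction.orbit G B).ncard - 1 :=
    Set.ncard_diff_singleton_of_mem (MulAction.mem_orbit_self B)
  have hcard := hB.ncard_block_mul_ncard_orbit_eq hBnt.nonempty
  have hm2 : 2 ≤ (MulAction.orbit G B).ncard := by
    by_contra hlt
    have hpos : 0 < (MulAction.orbit G B).ncard := (Set.ncard_pos (Set.toFinite _)).2 (MulAction.nonempty_orbit B)
    have : (MulAction.orbit G B).ncard = 1 := by omega
    rw [this, mul_one] at hcard
    exact hBu ((Set.eq_univ_iff_ncard B).2 hcard)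
  rw [h1'] at h1
  rw [h2'] at h2
  have h3 : D.index + 1 ≤ B.ncard := by
    have := Nat.le_of_dvd (by omega) h1
    omega
  have h4 : D.index + 1 ≤ (MulAction.orbit G B).ncard := by
    have := Nat.le_of_dvd (by omega) h2
    omega
  have h5 : (D.index + 1) * (D.index + 1) ≤ Nat.card Ω := by
    rw [← hcard]
    exact Nat.mul_le_mul h3 h4
  have h6 : ((D.index : ℝ) + 1) ≤ Real.sqrt (Nat.card Ω) := by
    apply Real.le_sqrt_of_sq_le
    have : (((D.index + 1) * (D.index + 1) : ℕ) : ℝ) ≤ (Nat.card Ω : ℝ) := by exact_mod_cast h5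
    push_cast at this
    nlinarith
  linarith

end


/-- Let G act faithfully, transitively but imprimitively on a finite set with n points, and let D be the subgroup generated by the derangements. Then the index of D in G is at most √n − 1. -/
theorem result {G Ω : Type*} [Group G] [Finite G] [MulAction G Ω] [FaithfulSMul G Ω] [Finite Ω]
    (htrans : MulAction.IsPretransitive G Ω) (himp : ¬ MulAction.IsPreprimitive G Ω) :
    ((Subgroup.closure {g : G | ∀ ω : Ω, g • ω ≠ ω}).index : ℝ) ≤ Real.sqrt (Nat.card Ω) - 1 := by
  exact main htrans himp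

end Cfsg.Agent.S3549
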