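import Cfsg.Statements.S3559
import Cfsg.Agent.H24.SRing3

set_option autoImplicit false
open Cfsg

namespace Cfsg.Agent.S3559

open scoped IsMulCommutative in
theorem aux {G Ω : Type*} [Group G] [Finite G] [MulAction G Ω] [FaithfulSMul G Ω] [Finite Ω]
    (hn : 2 ≤ Nat.card Ω) (hnp : ¬ IsPrimePow (Nat.card Ω))
    (C : Subgroup G) (hcyc : IsCyclic ↥C)
    (hC : MulAction.IsPretransitive ↥C Ω ∧ ∀ a : Ω, MulAction.stabilizer ↥C a = ⊥)
    (hprim : MulAction.IsPreprimitive G Ω) : MulAction.IsMultiplyPretransitive G Ω 2 := by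
  haveI : Nonempty Ω := by
    by_contra h
    rw [not_nonempty_iff] at h
    rw [Nat.card_of_isEmpty] at hn
    omega
  obtain ⟨α⟩ : Nonempty Ω := inferInstance
  have hreg : Function.Bijective (fun x : C => C.subtype x • α) := by
    constructor
    · intro x y hxy
      have h1 : y⁻¹ * x ∈ MulAction.stabilizer C α := by
        rw [MulAction.mem_stabilizer_iff, mul_smul]
        have : x • α = y • α := hxy
        rw [this, inv_smul_smul]
      rw [hC.2 α, Subgroup.mem_bot, inv_mul_eq_one] at h1
      exact h1.symm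
    · intro β
      exact hC.1.exists_smul_eq α β
  have hcard : Nat.card C = Nat.card Ω := Nat.card_congr (Equiv.ofBijective _ hreg)
  refine Cfsg.Agent.H24.two_transitive_of_regular_cyclic (Q := C) hreg hprim ?_ ?_
  · rw [hcard]; omega
  · rw [hcard]
    exact fun h => hnp h.isPrimePow

/-- Let G act faithfully and transitively on a finite set whose number of points n ≥ 2 is not a prime power, and suppose G has a cyclic subgroup acting regularly (transitively with trivial point stabilizers). Then G is imprimitive or doubly transitive. -/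
theorem result {G Ω : Type*} [Group G] [Finite G] [MulAction G Ω] [FaithfulSMul G Ω] [Finite Ω]
    (htrans : MulAction.IsPretransitive G Ω) (hn : 2 ≤ Nat.card Ω) (hnp : ¬ IsPrimePow (Nat.card Ω))
    (C : Subgroup G) (hcyc : IsCyclic ↥C) (hC : MulAction.IsPretransitive ↥C Ω ∧ ∀ a : Ω, MulAction.stabilizer ↥C a = ⊥) :
    ¬ MulAction.IsPreprimitive G Ω ∨ MulAction.IsMultiplyPretransitive G Ω 2 := by
  by_cases hprim : MulAction.IsPreprimitive G Ω
  · exact Or.inr (aux hn hnp C hcyc hC hprim)
  · exact Or.inl hprim

end Cfsg.Agent.S3559
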