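import Cfsg.Statements.S3560

set_option autoImplicit false
set_option linter.all false
open Cfsg

namespace Cfsg.Agent.S3560

open MulAction
open scoped Pointwise

section transport
variable {Y : Type*} [Finite Y]

theorem transport {K : Type*} [Group K] (G R : Subgroup (Equiv.Perm Y)) (h1 : R ≤ G) (h2 : Nonempty (↥R ≃* K))
    (h3 : ∀ x y : Y, ∃ g ∈ R, g x = y) (h4 : ∀ x : Y, ∀ g ∈ R, g x = x → g = 1)
    (h5 : MulAction.IsPreprimitive ↥G Y) (h6 : ¬ MulAction.IsMultiplyPretransitive ↥G Y 2) :
    ∃ (n : ℕ) (G R : Subgroup (Equiv.Perm (Fin n))), R ≤ G ∧ Nonempty (↥R ≃* K) ∧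
      MulAction.IsPretransitive ↥R (Fin n) ∧ (∀ a : Fin n, MulAction.stabilizer ↥R a = ⊥) ∧
      MulAction.IsPreprimitive ↥G (Fin n) ∧ ¬ MulAction.IsMultiplyPretransitive ↥G (Fin n) 2 := by
  obtain ⟨n, ⟨e⟩⟩ := Finite.exists_equiv_fin Y
  let φ : Equiv.Perm Y ≃* Equiv.Perm (Fin n) := e.permCongrHom
  have hφ : ∀ (g : Equiv.Perm Y) (y : Y), φ g (e y) = e (g y) := fun g y => by
    show e (g (e.symm (e y))) = e (g y)
    rw [e.symm_apply_apply]
  let ψ : G →* G.map φ.toMonoidHom := φ.toMonoidHom.subgroupMap G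
  have hψ : Function.Surjective ψ := φ.toMonoidHom.subgroupMap_surjective G
  let f : Y →ₑ[ψ] Fin n :=
    { toFun := e
      map_smul' := fun g y => by
        show e ((g : Equiv.Perm Y) y) = φ g (e y)
        rw [hφ] }
  have hf : Function.Bijective f := e.bijective
  refine ⟨n, G.map φ.toMonoidHom, R.map φ.toMonoidHom, Subgroup.map_mono h1, ?_, ?_, ?_, ?_, ?_⟩
  · obtain ⟨i⟩ := h2
    exact ⟨(R.equivMapOfInjective φ.toMonoidHom φ.injective).symm.trans i⟩
  · constructor
    intro a b
    obtain ⟨g, hg, hgab⟩ := h3 (e.symm a) (e.symm b)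
    refine ⟨⟨φ g, ⟨g, hg, rfl⟩⟩, ?_⟩
    show φ g a = b
    have := hφ g (e.symm a)
    rw [e.apply_symm_apply, hgab, e.apply_symm_apply] at this
    exact this
  · intro a
    rw [eq_bot_iff]
    rintro ⟨_, ⟨g, hg, rfl⟩⟩ hga
    have h7 : φ g a = a := hga
    have h8 : g (e.symm a) = e.symm a := by
      have := hφ g (e.symm a)
      rw [e.apply_symm_apply, h7] at this
      rw [e.eq_symm_apply]; exact this.symm
    have h9 := h4 _ g hg h8
    rw [Subgroup.mem_bot]
    apply Subtype.ext
    show φ g = 1
    rw [h9, map_one]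
  · exact (isPreprimitive_congr hψ hf).1 h5
  · intro h
    apply h6
    exact (IsPretransitive.of_embedding_congr hψ hf).2 h

end transport

section hamming
variable {ι : Type*} [Fintype ι] [DecidableEq ι] {m : ℕ}

/-- isometries of the Hamming scheme -/
def hamG (ι : Type*) [Fintype ι] [DecidableEq ι] (m : ℕ) : Subgroup (Equiv.Perm (ι → Fin m)) where
  carrier := {σ | ∀ f g, hammingDist (σ f) (σ g) = hammingDist f g}
  one_mem' := fun f g => rfl
  mul_mem' := fun {a b} ha hb f g => by
    show hammingDist (a (b f)) (a (b g)) = _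
    rw [ha, hb]
  inv_mem' := fun {a} ha f g => by
    have h := ha (a⁻¹ f) (a⁻¹ g)
    simpa using h.symm

theorem mem_hamG {σ : Equiv.Perm (ι → Fin m)} :
    σ ∈ hamG ι m ↔ ∀ f g, hammingDist (σ f) (σ g) = hammingDist f g := Iff.rfl

theorem pi_mem (π : ι → Equiv.Perm (Fin m)) : Equiv.piCongrRight π ∈ hamG ι m := by
  intro f g
  exact hammingDist_comp (fun i => π i) (fun i => (π i).injective)

theorem coord_mem (τ : Equiv.Perm ι) : (Equiv.arrowCongr τ (Equiv.refl (Fin m))) ∈ hamG ι m := by
  intro f g
  show (Finset.univ.filter (fun i => f (τ.symm i) ≠ g (τ.symm i))).card = (Finset.univ.filter (fun i => f i ≠ g i)).card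
  apply Finset.card_bij (fun i _ => τ.symm i)
  · intro i hi
    simpa using hi
  · intro i _ j _ h
    exact τ.symm.injective h
  · intro j hj
    refine ⟨τ j, ?_, by simp⟩
    simpa using hj

/-- a permutation with prescribed values at two points -/
theorem exists_perm_two {α : Type*} [DecidableEq α] {a b a' b' : α} (hab : a ≠ b) (hab' : a' ≠ b') :
    ∃ π : Equiv.Perm α, π a = a' ∧ π b = b' := by
  refine ⟨Equiv.swap (Equiv.swap a a' b) b' * Equiv.swap a a', ?_, ?_⟩
  · rw [Equiv.Perm.mul_apply, Equiv.swap_apply_left]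
    apply Equiv.swap_apply_of_ne_of_ne _ hab'
    intro h
    apply hab
    have := congrArg (Equiv.swap a a') h
    rw [Equiv.swap_apply_right, Equiv.swap_apply_self] at this
    exact this
  · rw [Equiv.Perm.mul_apply, Equiv.swap_apply_left]

theorem hamG_trans (f g : ι → Fin m) : ∃ σ ∈ hamG ι m, σ f = g := by
  refine ⟨Equiv.piCongrRight (fun i => Equiv.swap (f i) (g i)), pi_mem _, ?_⟩
  funext i
  exact Equiv.swap_apply_left _ _

theorem hamG_prim (hm : 3 ≤ m) : IsPreprimitive (hamG ι m) (ι → Fin m) := by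
  have ht : IsPretransitive (hamG ι m) (ι → Fin m) := by
    constructor
    intro f g
    obtain ⟨σ, hσ, h⟩ := hamG_trans f g
    exact ⟨⟨σ, hσ⟩, h⟩
  refine { toIsPretransitive := ht, isTrivialBlock_of_isBlock := ?_ }
  intro B hB
  rw [IsTrivialBlock]
  by_contra hcon
  rw [not_or, Set.not_subsingleton_iff] at hcon
  obtain ⟨⟨f0, hf0, f1, hf1, h01⟩, hBu⟩ := hcon
  -- closure under elements of G fixing a point of B
  have key : ∀ σ ∈ hamG ι m, ∀ x ∈ B, σ x ∈ B → ∀ y ∈ B, σ y ∈ B := by
    intro σ hσ x hx hσx y hy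
    have h1 : (⟨σ, hσ⟩ : hamG ι m) • B = B := by
      rcases isBlock_iff_smul_eq_or_disjoint.1 hB ⟨σ, hσ⟩ with h | h
      · exact h
      · exfalso
        rw [Set.disjoint_left] at h
        exact h (Set.smul_mem_smul_set hx) hσx
    have h2 : (⟨σ, hσ⟩ : hamG ι m) • y ∈ (⟨σ, hσ⟩ : hamG ι m) • B := Set.smul_mem_smul_set hy
    rw [h1] at h2
    exact h2
  obtain ⟨i, hi⟩ := Function.ne_iff.1 h01
  obtain ⟨c, hc0, hc1⟩ : ∃ c : Fin m, c ≠ f0 i ∧ c ≠ f1 i := by
    have : ({f0 i, f1 i} : Finset (Fin m)).card < (Finset.univ : Finset (Fin m)).card := by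
      rw [Finset.card_univ, Fintype.card_fin]
      exact lt_of_le_of_lt Finset.card_le_two (by omega)
    obtain ⟨c, -, hc⟩ := Finset.exists_mem_notMem_of_card_lt_card this
    simp only [Finset.mem_insert, Finset.mem_singleton, not_or] at hc
    exact ⟨c, hc.1, hc.2⟩
  have hf2 : Function.update f1 i c ∈ B := by
    let π : ι → Equiv.Perm (Fin m) := fun j => if j = i then Equiv.swap (f1 i) c else 1
    have h1 : Equiv.piCongrRight π f0 = f0 := by
      funext j
      show π j (f0 j) = f0 j
      by_cases hj : j = i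
      · subst hj
        simp only [π, if_true]
        exact Equiv.swap_apply_of_ne_of_ne hi hc0.symm
      · simp only [π, if_neg hj]; rfl
    have h2 : Equiv.piCongrRight π f1 = Function.update f1 i c := by
      funext j
      show π j (f1 j) = _
      by_cases hj : j = i
      · subst hj
        simp only [π, if_true, Function.update_self]
        exact Equiv.swap_apply_left _ _
      · simp only [π, if_neg hj, Function.update_of_ne hj]; rfl
    rw [← h2]
    exact key _ (pi_mem π) f0 hf0 (by rw [h1]; exact hf0) f1 hf1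
  -- neighbours
  have nbr : ∀ h ∈ B, ∀ (j : ι) (d : Fin m), Function.update h j d ∈ B := by
    intro h hh j d
    by_cases hd : d = h j
    · rw [hd, Function.update_eq_self]; exact hh
    let τ : Equiv.Perm ι := Equiv.swap i j
    let ρ : Equiv.Perm (ι → Fin m) := Equiv.arrowCongr τ (Equiv.refl (Fin m))
    have hρ : ∀ f k, ρ f k = f (τ k) := by
      intro f k
      show f (τ.symm k) = f (τ k)
      simp only [τ, Equiv.symm_swap]
    obtain ⟨πj, hπ1, hπ2⟩ := exists_perm_two (a := f1 i) (b := c) (a' := h j) (b' := d) hc1.symm (Ne.symm hd)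
    let π : ι → Equiv.Perm (Fin m) := fun k => if k = j then πj else Equiv.swap (ρ f1 k) (h k)
    let σ : Equiv.Perm (ι → Fin m) := Equiv.piCongrRight π * ρ
    have hσ : σ ∈ hamG ι m := (hamG ι m).mul_mem (pi_mem π) (coord_mem τ)
    have hτj : τ j = i := Equiv.swap_apply_right _ _
    have e1 : σ f1 = h := by
      funext k
      show π k (ρ f1 k) = h k
      by_cases hk : k = j
      · subst hk
        simp only [π, if_true]
        rw [hρ, hτj, hπ1]
      · simp only [π, if_neg hk]
        exact Equiv.swap_apply_left _ _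
    have e2 : σ (Function.update f1 i c) = Function.update h j d := by
      funext k
      show π k (ρ (Function.update f1 i c) k) = _
      by_cases hk : k = j
      · subst hk
        simp only [π, if_true, Function.update_self]
        rw [hρ, hτj, Function.update_self, hπ2]
      · have hτk : τ k ≠ i := fun h' => hk (τ.injective (h'.trans hτj.symm))
        simp only [π, if_neg hk, Function.update_of_ne hk]
        rw [hρ (Function.update f1 i c), Function.update_of_ne hτk, hρ f1]
        exact Equiv.swap_apply_left _ _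
    rw [← e2]
    exact key σ hσ f1 hf1 (by rw [e1]; exact hh) _ hf2
  apply hBu
  rw [Set.eq_univ_iff_forall]
  intro g
  have hs : ∀ s : Finset ι, (fun k => if k ∈ s then g k else f1 k) ∈ B := by
    intro s
    induction s using Finset.induction_on with
    | empty => simpa using hf1
    | insert j s hj ih =>
      have := nbr _ ih j (g j)
      convert! this using 1
      funext k
      by_cases hk : k = j
      · subst hk; simp
      · simp [Function.update_of_ne hk, hk]
  simpa using hs Finset.univ

theorem hamG_not_two (hm : 3 ≤ m) (hr : 2 ≤ Fintype.card ι) :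
    ¬ IsMultiplyPretransitive (hamG ι m) (ι → Fin m) 2 := by
  intro h
  obtain ⟨i, j, hij⟩ := Fintype.one_lt_card_iff.1 (by omega : 1 < Fintype.card ι)
  let z : Fin m := ⟨0, by omega⟩
  let o : Fin m := ⟨1, by omega⟩
  have hzo : z ≠ o := by intro h; exact absurd (congrArg Fin.val h) (by norm_num)
  let f0 : ι → Fin m := fun _ => z
  let f1 : ι → Fin m := Function.update f0 i o
  let f2 : ι → Fin m := Function.update f1 j o
  have d1 : hammingDist f0 f1 = 1 := by
    show (Finset.univ.filter (fun k => f0 k ≠ f1 k)).card = 1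
    rw [Finset.card_eq_one]
    refine ⟨i, ?_⟩
    ext k
    simp only [Finset.mem_filter, Finset.mem_univ, true_and, Finset.mem_singleton]
    by_cases hk : k = i
    · subst hk; simp [f1, f0, hzo]
    · simp [f1, f0, Function.update_of_ne hk, hk]
  have d2 : hammingDist f0 f2 = 2 := by
    show (Finset.univ.filter (fun k => f0 k ≠ f2 k)).card = 2
    rw [Finset.card_eq_two]
    refine ⟨i, j, hij, ?_⟩
    ext k
    simp only [Finset.mem_filter, Finset.mem_univ, true_and, Finset.mem_singleton, Finset.mem_insert]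
    by_cases hk : k = j
    · subst hk; simp [f2, f0, hzo]
    · by_cases hk' : k = i
      · subst hk'; simp [f2, f1, f0, Function.update_of_ne hk, hzo]
      · simp [f2, f1, f0, Function.update_of_ne hk, Function.update_of_ne hk', hk, hk']
  have h01 : f0 ≠ f1 := by
    intro h; rw [h, hammingDist_self] at d1; exact absurd d1 (by norm_num)
  have h02 : f0 ≠ f2 := by
    intro h; rw [h, hammingDist_self] at d2; exact absurd d2 (by norm_num)
  obtain ⟨g, hg1, hg2⟩ := (is_two_pretransitive_iff (G := hamG ι m) (α := ι → Fin m)).1 h h01 h02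
  have h3 := g.2 f0 f1
  have e1 : (g : Equiv.Perm (ι → Fin m)) f0 = f0 := hg1
  have e2 : (g : Equiv.Perm (ι → Fin m)) f1 = f2 := hg2
  rw [e1, e2, d1, d2] at h3
  exact absurd h3 (by norm_num)

end hamming

theorem main {K : Type*} [Group K] [Finite K] {ι : Type*} [Fintype ι] (F : ι → Type*) [∀ i, Group (F i)]
    (hr : 2 ≤ Fintype.card ι) (m : ℕ) (hm : 3 ≤ m) (hcard : ∀ i, Nat.card (F i) = m) (e : K ≃* (∀ i, F i)) :
    ∃ (n : ℕ) (G R : Subgroup (Equiv.Perm (Fin n))), R ≤ G ∧ Nonempty (↥R ≃* K) ∧
      MulAction.IsPretransitive ↥R (Fin n) ∧ (∀ a : Fin n, MulAction.stabilizer ↥R a = ⊥) ∧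
      MulAction.IsPreprimitive ↥G (Fin n) ∧ ¬ MulAction.IsMultiplyPretransitive ↥G (Fin n) 2 := by
  classical
  haveI : ∀ i, Finite (F i) := fun i => Nat.finite_of_card_ne_zero (by rw [hcard i]; omega)
  let θ : ∀ i, F i ≃ Fin m := fun i => Finite.equivFinOfCardEq (hcard i)
  let E : (∀ i, F i) ≃ (ι → Fin m) := Equiv.piCongrRight θ
  let φ : K →* Equiv.Perm (ι → Fin m) :=
    { toFun := fun k => (E.symm.trans (Equiv.mulLeft (e k))).trans E
      map_one' := by
        ext f i
        simp
      map_mul' := fun a b => by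
        ext f i
        simp [mul_assoc] }
  have hφ : ∀ k f, φ k f = E (e k * E.symm f) := fun k f => rfl
  apply transport (hamG ι m) φ.range
  · rintro _ ⟨k, rfl⟩
    rw [mem_hamG]
    intro f g
    have h1 : ∀ f, φ k f = fun i => θ i (e k i * (θ i).symm (f i)) := fun f => rfl
    rw [h1, h1]
    apply hammingDist_comp (fun i x => θ i (e k i * (θ i).symm x))
    intro i x y hxy
    exact (θ i).symm.injective (mul_left_cancel ((θ i).injective hxy))
  · have hinj : Function.Injective φ := by
      intro a b hab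
      have h1 := congrArg (fun σ : Equiv.Perm (ι → Fin m) => σ (E 1)) hab
      simp only [hφ, E.symm_apply_apply, mul_one] at h1
      exact e.injective (E.injective h1)
    exact ⟨(MonoidHom.ofInjective hinj).symm⟩
  · intro x y
    refine ⟨φ (e.symm (E.symm y * (E.symm x)⁻¹)), ⟨_, rfl⟩, ?_⟩
    rw [hφ, e.apply_symm_apply, inv_mul_cancel_right, E.apply_symm_apply]
  · rintro x _ ⟨k, rfl⟩ hx
    rw [hφ] at hx
    have h1 : e k * E.symm x = E.symm x := by
      have := congrArg E.symm hx
      rwa [E.symm_apply_apply] at this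
    have h2 : e k = 1 := by
      exact mul_eq_right.1 h1
    have h3 : k = 1 := by
      apply e.injective; rw [h2, map_one]
    rw [h3, map_one]
  · exact hamG_prim hm
  · exact hamG_not_two hm hr

/-- Let K be a finite group isomorphic to a direct product of r ≥ 2 groups all of the same order m ≥ 3. Then K is not a B-group: there is a primitive but not doubly transitive permutation group (on some finite set) containing a regular subgroup isomorphic to K. -/
theorem result {K : Type*} [Group K] [Finite K] {ι : Type*} [Fintype ι] (F : ι → Type*) [∀ i, Group (F i)]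
    (hr : 2 ≤ Fintype.card ι) (m : ℕ) (hm : 3 ≤ m) (hcard : ∀ i, Nat.card (F i) = m) (e : K ≃* (∀ i, F i)) :
    ∃ (n : ℕ) (G R : Subgroup (Equiv.Perm (Fin n))), R ≤ G ∧ Nonempty (↥R ≃* K) ∧
      MulAction.IsPretransitive ↥R (Fin n) ∧ (∀ a : Fin n, MulAction.stabilizer ↥R a = ⊥) ∧
      MulAction.IsPreprimitive ↥G (Fin n) ∧ ¬ MulAction.IsMultiplyPretransitive ↥G (Fin n) 2 := by
  exact main F hr m hm hcard e

end Cfsg.Agent.S3560
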