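import Cfsg.Statements.S3573

set_option autoImplicit false
set_option linter.all false
open Cfsg

namespace Cfsg.Agent.S3573

theorem fix_mod {n r : ℕ} (hr : r.Prime) (σ : Equiv.Perm (Fin n)) (hσ : σ ^ r = 1) (s : Finset (Fin n))
    (hs : s.image σ = s) : s.card ≡ (s.filter fun x => σ x = x).card [MOD r] := by
  classical
  have : Fact r.Prime := ⟨hr⟩
  have hmem : ∀ x ∈ s, σ x ∈ s := fun x hx => by
    have := Finset.mem_image_of_mem σ hx
    rwa [hs] at this
  let f : Function.End {x // x ∈ s} := fun x => ⟨σ x, hmem x x.2⟩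
  have hpow : ∀ (m : ℕ) (x : {x // x ∈ s}), (((f ^ m) x : {x // x ∈ s}) : Fin n) = (σ ^ m) x := by
    intro m
    induction m with
    | zero => intro x; rfl
    | succ m ih =>
      intro x
      rw [pow_succ, pow_succ]
      change (((f ^ m) (f x) : {x // x ∈ s}) : Fin n) = (σ ^ m) (σ x)
      rw [ih]
  have hf : f ^ r ^ 1 = 1 := by
    funext x
    apply Subtype.ext
    rw [pow_one, hpow, hσ]
    rfl
  have h1 := Equiv.Perm.card_fixedPoints_modEq hf
  have e1 : Fintype.card {x // x ∈ s} = s.card := by simp
  have e2 : Fintype.card (Function.fixedPoints f) = (s.filter fun x => σ x = x).card := by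
    rw [← Fintype.card_coe]
    apply Fintype.card_congr
    refine ⟨fun x => ⟨x.1.1, Finset.mem_filter.2 ⟨x.1.2, congrArg Subtype.val x.2⟩⟩,
      fun x => ⟨⟨x.1, (Finset.mem_filter.1 x.2).1⟩, Subtype.ext (Finset.mem_filter.1 x.2).2⟩, ?_, ?_⟩
    · intro x; rfl
    · intro x; rfl
  rw [e1] at h1
  exact h1.trans (by rw [e2])

theorem exists_inv {n r : ℕ} (hr : r.Prime) (σ : Equiv.Perm (Fin n)) (hσ : orderOf σ = r) (k : ℕ) (hk : k ≤ n)
    (hmod : k % r ≤ n % r) : ∃ s : Finset (Fin n), s.card = k ∧ s.image σ = s := by
  classical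
  obtain ⟨c0, hc⟩ := Equiv.Perm.cycleType_prime_order (σ := σ) (by rw [hσ]; exact hr)
  rw [hσ] at hc
  set c := c0 + 1 with hcdef
  have hcard : σ.cycleFactorsFinset.card = c := by
    have := congrArg Multiset.card hc
    rw [Equiv.Perm.cycleType_def, Multiset.card_map, Multiset.card_replicate] at this
    exact this
  have hsupp : σ.support.card = c * r := by
    rw [← Equiv.Perm.sum_cycleType, hc, Multiset.sum_replicate, smul_eq_mul]
  have hcyc : ∀ g ∈ σ.cycleFactorsFinset, g.support.card = r := by
    intro g hg
    have h1 : g.support.card ∈ σ.cycleType := by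
      rw [Equiv.Perm.cycleType_def, Multiset.mem_map]
      exact ⟨g, hg, rfl⟩
    rw [hc] at h1
    exact Multiset.eq_of_mem_replicate h1
  have hcn : c * r ≤ n := by
    have := Finset.card_le_univ σ.support
    rw [hsupp, Fintype.card_fin] at this
    exact this
  have hrpos := hr.pos
  have hnmod : n % r ≤ n - c * r := by
    have h1 : (n - c * r) % r = n % r := by
      conv_rhs => rw [← Nat.sub_add_cancel hcn]
      simp
    rw [← h1]
    exact Nat.mod_le _ _
  have hkdiv := Nat.div_add_mod k r
  obtain ⟨a, b, hac, hbn, hab⟩ : ∃ a b, a ≤ c ∧ b ≤ n - c * r ∧ k = a * r + b := by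
    by_cases hkc : k / r ≤ c
    · exact ⟨k / r, k % r, hkc, by omega, by rw [mul_comm]; exact hkdiv.symm⟩
    · push Not at hkc
      refine ⟨c, k - c * r, le_refl _, by omega, ?_⟩
      have : c * r ≤ k / r * r := Nat.mul_le_mul_right _ hkc.le
      have h2 := Nat.div_mul_le_self k r
      omega
  obtain ⟨F, hF, hFc⟩ := Finset.exists_subset_card_eq (s := σ.cycleFactorsFinset) (n := a) (by rw [hcard]; exact hac)
  obtain ⟨B, hB, hBc⟩ := Finset.exists_subset_card_eq (s := Finset.univ \ σ.support) (n := b) (by
    rw [Finset.card_sdiff_of_subset (Finset.subset_univ _), hsupp, Finset.card_univ, Fintype.card_fin]; exact hbn)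
  have hdisj : Disjoint (F.biUnion Equiv.Perm.support) B := by
    rw [Finset.disjoint_left]
    intro x hx hxB
    rw [Finset.mem_biUnion] at hx
    obtain ⟨g, hg, hxg⟩ := hx
    have h1 := Equiv.Perm.mem_cycleFactorsFinset_support_le (hF hg) hxg
    have h2 := hB hxB
    rw [Finset.mem_sdiff] at h2
    exact h2.2 h1
  have hcardU : (F.biUnion Equiv.Perm.support).card = a * r := by
    rw [Finset.card_biUnion]
    · rw [Finset.sum_congr rfl fun g hg => hcyc g (hF hg), Finset.sum_const, hFc, smul_eq_mul]
    · intro g hg h hh hne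
      have := Equiv.Perm.cycleFactorsFinset_pairwise_disjoint σ (hF hg) (hF hh) hne
      exact this.disjoint_support
  refine ⟨F.biUnion Equiv.Perm.support ∪ B, ?_, ?_⟩
  · rw [Finset.card_union_of_disjoint hdisj, hcardU, hBc, ← hab]
  · apply Finset.eq_of_subset_of_card_le
    · intro y hy
      rw [Finset.mem_image] at hy
      obtain ⟨x, hx, rfl⟩ := hy
      rw [Finset.mem_union] at hx ⊢
      rcases hx with hx | hx
      · left
        rw [Finset.mem_biUnion] at hx ⊢
        obtain ⟨g, hg, hxg⟩ := hx
        refine ⟨g, hg, ?_⟩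
        rw [← (Equiv.Perm.mem_cycleFactorsFinset_iff.1 (hF hg)).2 x hxg]
        exact Equiv.Perm.apply_mem_support.2 hxg
      · right
        have h2 := hB hx
        rw [Finset.mem_sdiff, Equiv.Perm.notMem_support] at h2
        rw [h2.2]
        exact hx
    · rw [Finset.card_image_of_injective _ σ.injective]

theorem main {n k r : ℕ} (hr : r.Prime) (hkn : k ≤ n) (hrn : r ≤ n) :
    (∀ σ : Equiv.Perm (Fin n), orderOf σ = r → ∃ s : Finset (Fin n), s.card = k ∧ s.image σ = s) ↔ k % r ≤ n % r := by
  classical
  constructor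
  · intro h
    have hrpos := hr.pos
    have hdm := Nat.div_add_mod n r
    have hc0 : n / r ≠ 0 := by
      have := Nat.div_pos hrn hrpos
      omega
    obtain ⟨σ, hσ⟩ := (Equiv.Perm.exists_with_cycleType_iff (Fin n) (m := Multiset.replicate (n / r) r)).2 (by
      constructor
      · rw [Multiset.sum_replicate, smul_eq_mul, Fintype.card_fin]
        exact Nat.div_mul_le_self n r
      · intro a ha
        rw [Multiset.eq_of_mem_replicate ha]
        exact hr.two_le)
    have hord : orderOf σ = r := by
      rw [← Equiv.Perm.lcm_cycleType, hσ]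
      obtain ⟨c, hc⟩ := Nat.exists_eq_succ_of_ne_zero hc0
      rw [hc]
      apply Nat.dvd_antisymm
      · rw [Multiset.lcm_dvd]
        intro b hb
        rw [Multiset.eq_of_mem_replicate hb]
      · apply Multiset.dvd_lcm
        simp
    obtain ⟨s, hs, hinv⟩ := h σ hord
    have h1 := fix_mod hr σ (by rw [← hord, pow_orderOf_eq_one]) s hinv
    have h2 : (s.filter fun x => σ x = x).card ≤ n % r := by
      have h3 : (s.filter fun x => σ x = x) ⊆ Finset.univ \ σ.support := by
        intro x hx
        rw [Finset.mem_filter] at hx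
        rw [Finset.mem_sdiff, Equiv.Perm.notMem_support]
        exact ⟨Finset.mem_univ _, hx.2⟩
      have h4 := Finset.card_le_card h3
      rw [Finset.card_sdiff_of_subset (Finset.subset_univ _), ← Equiv.Perm.sum_cycleType, hσ, Multiset.sum_replicate,
        smul_eq_mul, Finset.card_univ, Fintype.card_fin] at h4
      have h5 : n - n / r * r = n % r := by
        have h6 := Nat.div_add_mod' n r
        generalize n / r * r = z at *
        omega
      omega
    rw [hs] at h1
    unfold Nat.ModEq at h1
    rw [h1]
    exact (Nat.mod_le _ _).trans h2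
  · intro h σ hσ
    exact exists_inv hr σ hσ k hkn h

/-- Let 1 ≤ k with 2k < n and consider the symmetric group of degree n acting on the k-subsets of an n-set. Let r be a prime dividing the number C(n,k) of k-subsets. If r is odd, then every permutation of order r fixes some k-subset if and only if r ≤ k and the remainder of k modulo r is at most the remainder of n modulo r. If r = 2, then every involution fixes some k-subset if and only if k is even or n is odd. -/
theorem result (n k : ℕ) (hk : 1 ≤ k) (hkn : 2 * k < n) (r : ℕ) (hr : r.Prime) (hrd : r ∣ Nat.choose n k) :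
    (r ≠ 2 → ((∀ σ : Equiv.Perm (Fin n), orderOf σ = r → ∃ s : Finset (Fin n), s.card = k ∧ s.image σ = s) ↔
      (r ≤ k ∧ k % r ≤ n % r))) ∧
    (r = 2 → ((∀ σ : Equiv.Perm (Fin n), orderOf σ = 2 → ∃ s : Finset (Fin n), s.card = k ∧ s.image σ = s) ↔
      (Even k ∨ Odd n))) := by
  have hrn : r ≤ n := by
    have h1 : r ∣ n.factorial := by
      have := Nat.choose_mul_factorial_mul_factorial (show k ≤ n by omega)
      rw [← this]
      exact (hrd.mul_right _).mul_right _
    exact (hr.dvd_factorial).1 h1
  have hkn' : k ≤ n := by omega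
  refine ⟨fun hr2 => ?_, fun hr2 => ?_⟩
  · rw [main hr hkn' hrn]
    constructor
    · intro h
      refine ⟨?_, h⟩
      by_contra hcon
      push Not at hcon
      have : Fact r.Prime := ⟨hr⟩
      have h1 := Choose.choose_modEq_choose_mod_mul_choose_div_nat (n := n) (k := k) (p := r)
      rw [Nat.mod_eq_of_lt hcon, Nat.div_eq_of_lt hcon, Nat.choose_zero_right, mul_one] at h1
      rw [Nat.mod_eq_of_lt hcon] at h
      have h2 : r ∣ (n % r).choose k := (Nat.ModEq.dvd_iff h1 (dvd_refl r)).1 hrd
      have h3 : r ∣ (n % r).factorial := by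
        have := Nat.choose_mul_factorial_mul_factorial h
        rw [← this]
        exact (h2.mul_right _).mul_right _
      have h4 := (hr.dvd_factorial).1 h3
      have h5 := Nat.mod_lt n hr.pos
      omega
    · exact fun h => h.2
  · subst hr2
    rw [main hr hkn' hrn]
    rw [Nat.even_iff, Nat.odd_iff]
    omega

end Cfsg.Agent.S3573
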