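import Cfsg.Statements.S3575

set_option autoImplicit false
set_option linter.all false
open Cfsg

namespace Cfsg.Agent.S3575

open Equiv Finset

theorem arith1 {a b r : ℕ} (ha : 2 ≤ a) (hb : 2 ≤ b) (hr : 2 ≤ r) (hrab : r ≤ a * b)
    (H : ∀ x, 1 ≤ x → x * r ≤ a * b → ∃ y, y * r ≤ b ∧ y * a ≤ x ∧ x ≤ b * (a / r) + y * (a % r)) :
    (r ≤ a ∧ (a % r = 0 ∨ (b % r = 0 ∧ a % r = 1) ∨
        (a % r ≠ 0 ∧ b % r ≠ 0 ∧ (b % r) * (a % r) < r ∧ (b < r ∨ (b % r + r) * (a % r) ≤ (b % r) * a + r)))) := by
  have e1 : a = (a / r) * r + a % r := (Nat.div_add_mod' a r).symm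
  have e2 : b = (b / r) * r + b % r := (Nat.div_add_mod' b r).symm
  have hl : a % r < r := Nat.mod_lt _ (by omega)
  have hk : b % r < r := Nat.mod_lt _ (by omega)
  obtain ⟨q, hq⟩ : ∃ q, q = a / r := ⟨_, rfl⟩
  obtain ⟨l, hl'⟩ : ∃ l, l = a % r := ⟨_, rfl⟩
  obtain ⟨Y, hY⟩ : ∃ Y, Y = b / r := ⟨_, rfl⟩
  obtain ⟨k, hk'⟩ : ∃ k, k = b % r := ⟨_, rfl⟩
  rw [← hq, ← hl'] at e1 H
  rw [← hY, ← hk'] at e2
  rw [← hl'] at hl ⊢
  rw [← hk'] at hk ⊢
  have hra : r ≤ a := by
    by_contra hlt
    push Not at hlt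
    have hq0 : q = 0 := by rw [hq]; exact Nat.div_eq_of_lt hlt
    obtain ⟨y, hy1, hy2, hy3⟩ := H 1 le_rfl (by omega)
    rw [hq0] at e1 hy3
    have : l = a := by omega
    rw [this] at hy3
    have h1 : y * a = 1 := by omega
    have := Nat.eq_one_of_mul_eq_one_left h1
    omega
  have hyY : ∀ y, y * r ≤ b → y ≤ Y := by
    intro y hy
    rw [hY, Nat.le_div_iff_mul_le (by omega)]
    exact hy
  have hkl : k * l < r := by
    by_contra hge
    push Not at hge
    have h1 : (b * q + Y * l + 1) * r ≤ a * b := by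
      have : a * b = (b * q + Y * l) * r + k * l := by
        conv_lhs => rw [e1]
        have : l * b = l * (Y * r + k) := by rw [← e2]
        nlinarith
      rw [this]; nlinarith
    obtain ⟨y, hy1, hy2, hy3⟩ := H _ (by omega) h1
    have := Nat.mul_le_mul_right l (hyY y hy1)
    omega
  have hgap : b < r ∨ l ≤ k * q + 1 := by
    by_contra hno
    push Not at hno
    obtain ⟨h1, h2⟩ := hno
    have hY1 : 1 ≤ Y := by
      rw [hY]; exact (Nat.one_le_div_iff (by omega)).mpr h1
    obtain ⟨Z, rfl⟩ : ∃ Z, Y = Z + 1 := ⟨Y - 1, by omega⟩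
    have h3 : b * q + Z * l + 1 < (Z + 1) * a := by
      have : b * q = ((Z + 1) * r + k) * q := by rw [← e2]
      rw [this, e1]
      nlinarith
    have h4 : (b * q + Z * l + 1) * r ≤ a * b := by
      have h5 : (Z + 1) * r ≤ b := by omega
      calc (b * q + Z * l + 1) * r ≤ ((Z + 1) * a) * r := Nat.mul_le_mul_right _ h3.le
        _ = a * ((Z + 1) * r) := by ring
        _ ≤ a * b := Nat.mul_le_mul_left _ h5
    obtain ⟨y, hy1, hy2, hy3⟩ := H _ (by omega) h4
    have h6 := hyY y hy1
    rcases Nat.lt_or_ge y (Z + 1) with h7 | h7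
    · have := Nat.mul_le_mul_right l (show y ≤ Z by omega)
      omega
    · have h8 : y = Z + 1 := by omega
      subst h8
      omega
  refine ⟨hra, ?_⟩
  by_cases hl0 : l = 0
  · left; exact hl0
  right
  by_cases hk0 : k = 0
  · left
    refine ⟨hk0, ?_⟩
    rcases hgap with h | h
    · have : Y = 0 := by rw [hY]; exact Nat.div_eq_of_lt h
      subst hk0
      rw [this] at e2
      omega
    · rw [hk0] at h; omega
  · right
    refine ⟨hl0, hk0, hkl, ?_⟩
    rcases hgap with h | h
    · left; exact h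
    · right
      have : k * a = k * (q * r + l) := by rw [← e1]
      rw [this]
      have := Nat.mul_le_mul_left r h
      nlinarith

theorem arith2 {a b r : ℕ} (ha : 2 ≤ a) (hb : 2 ≤ b) (hr : 2 ≤ r)
    (hc : (r ≤ a ∧ (a % r = 0 ∨ (b % r = 0 ∧ a % r = 1) ∨
        (a % r ≠ 0 ∧ b % r ≠ 0 ∧ (b % r) * (a % r) < r ∧ (b < r ∨ (b % r + r) * (a % r) ≤ (b % r) * a + r)))))
    (x : ℕ) (hx : x * r ≤ a * b) : ∃ y, y * r ≤ b ∧ y * a ≤ x ∧ x ≤ b * (a / r) + y * (a % r) := by
  have e1 : a = (a / r) * r + a % r := (Nat.div_add_mod' a r).symm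
  have e2 : b = (b / r) * r + b % r := (Nat.div_add_mod' b r).symm
  have hl : a % r < r := Nat.mod_lt _ (by omega)
  have hk : b % r < r := Nat.mod_lt _ (by omega)
  obtain ⟨q, hq⟩ : ∃ q, q = a / r := ⟨_, rfl⟩
  obtain ⟨l, hl'⟩ : ∃ l, l = a % r := ⟨_, rfl⟩
  obtain ⟨Y, hY⟩ : ∃ Y, Y = b / r := ⟨_, rfl⟩
  obtain ⟨k, hk'⟩ : ∃ k, k = b % r := ⟨_, rfl⟩
  rw [← hl', ← hk'] at hc
  rw [← hq, ← hl'] at e1 ⊢
  rw [← hY, ← hk'] at e2
  rw [← hl'] at hl
  rw [← hk'] at hk
  have hkl : k * l < r ∧ (b < r ∨ l ≤ k * q + 1) := by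
    obtain ⟨hra, h | ⟨h1, h2⟩ | ⟨h1, h2, h3, h4⟩⟩ := hc
    · rw [h]; exact ⟨by omega, Or.inr (by omega)⟩
    · rw [h1, h2]; exact ⟨by omega, Or.inr (by omega)⟩
    · refine ⟨h3, ?_⟩
      rcases h4 with h | h
      · left; exact h
      · right
        have : k * a = k * (q * r + l) := by rw [← e1]
        rw [this] at h
        by_contra hlt
        push Not at hlt
        have := Nat.mul_le_mul_left r (show k * q + 2 ≤ l by omega)
        nlinarith
  obtain ⟨hkl, hgap⟩ := hkl
  have hab : a * b = (b * q + Y * l) * r + k * l := by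
    conv_lhs => rw [e1]
    have : l * b = l * (Y * r + k) := by rw [← e2]
    nlinarith
  have hxY : x ≤ b * q + Y * l := by
    by_contra hlt
    push Not at hlt
    have := Nat.mul_le_mul_right r (show b * q + Y * l + 1 ≤ x by omega)
    rw [hab] at hx
    nlinarith
  rcases Nat.lt_or_ge (x / a) Y with h | h
  · refine ⟨x / a, ?_, Nat.div_mul_le_self x a, ?_⟩
    · have := Nat.mul_le_mul_right r h.le
      omega
    · rcases hgap with h1 | h1
      · have : Y = 0 := by rw [hY]; exact Nat.div_eq_of_lt h1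
        exact absurd h (by rw [this]; exact Nat.not_lt_zero _)
      · obtain ⟨y, hy⟩ : ∃ y, y = x / a := ⟨_, rfl⟩
        rw [← hy] at h ⊢
        have h2 : x < (y + 1) * a := by
          rw [hy]
          exact Nat.lt_mul_of_div_lt (Nat.lt_succ_self _) (by omega)
        have h3 : (y + 1) * a ≤ b * q + y * l + 1 := by
          have h4 : b * q = (Y * r + k) * q := by rw [← e2]
          rw [h4, e1]
          have h5 := Nat.mul_le_mul_right (r * q) (show y + 1 ≤ Y by omega)
          nlinarith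
        omega
  · refine ⟨Y, ?_, ?_, hxY⟩
    · omega
    · exact (Nat.mul_le_mul_right a h).trans (Nat.div_mul_le_self x a)

/-- cycle type of a permutation of prime exponent -/
theorem ct {α : Type*} [Fintype α] [DecidableEq α] {r : ℕ} (hr : r.Prime) {σ : Perm α} (hσ : σ ^ r = 1) :
    ∃ m, σ.cycleType = Multiset.replicate m r ∧ (univ.filter (fun x => σ x = x)).card + m * r = Fintype.card α := by
  have key : ∃ m, σ.cycleType = Multiset.replicate m r := by
    by_cases h : σ = 1
    · exact ⟨0, by rw [h, Perm.cycleType_one]; rfl⟩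
    · haveI : Fact r.Prime := ⟨hr⟩
      have ho : orderOf σ = r := orderOf_eq_prime hσ h
      obtain ⟨m, hm⟩ := Perm.cycleType_prime_order (σ := σ) (by rw [ho]; exact hr)
      rw [ho] at hm
      exact ⟨_, hm⟩
  obtain ⟨m, hm⟩ := key
  refine ⟨m, hm, ?_⟩
  have h1 := Perm.sum_cycleType σ
  rw [hm, Multiset.sum_replicate, smul_eq_mul] at h1
  have h2 : (univ.filter (fun x => σ x = x)) = σ.supportᶜ := by
    ext x
    simp [Perm.mem_support]
  rw [h2, h1, Finset.card_compl]
  have := Finset.card_le_univ σ.support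
  omega

theorem keyA {a b r x : ℕ} (ha : 2 ≤ a) (hr : r.Prime) {α : Type*} [Fintype α] [DecidableEq α] (hα : Fintype.card α = a * b)
    (σ : Perm α) (hσ : σ ^ r = 1) (hx : σ.cycleType = Multiset.replicate x r) (f : α → Fin b)
    (hf : ∀ j : Fin b, Nat.card {x : α // f x = j} = a) (π : Perm (Fin b)) (hπ : ∀ x, f (σ x) = π (f x)) :
    ∃ y, y * r ≤ b ∧ y * a ≤ x ∧ x ≤ b * (a / r) + y * (a % r) := by
  have hf' : ∀ j : Fin b, Fintype.card {x : α // f x = j} = a := fun j => by rw [← Nat.card_eq_fintype_card]; exact hf j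
  have hπn : ∀ n : ℕ, ∀ x, f ((σ ^ n) x) = (π ^ n) (f x) := by
    intro n
    induction n with
    | zero => intro x; rfl
    | succ n ih => intro x; rw [pow_succ', pow_succ', Perm.mul_apply, Perm.mul_apply, hπ, ih]
  have hπr : π ^ r = 1 := by
    ext j
    have h1 : 0 < Fintype.card {x : α // f x = j} := by rw [hf']; omega
    obtain ⟨⟨x, hx⟩⟩ := Fintype.card_pos_iff.mp h1
    have h2 := hπn r x
    rw [hσ, Perm.one_apply, hx] at h2
    rw [← h2, Perm.one_apply]
  obtain ⟨m, hm, hmc⟩ := ct hr hσ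
  have hmx : m = x := by
    rw [hx] at hm
    have := congrArg Multiset.card hm
    rw [Multiset.card_replicate, Multiset.card_replicate] at this
    exact this.symm
  subst hmx
  obtain ⟨y, hy, hyc⟩ := ct hr hπr
  rw [Fintype.card_fin] at hyc
  rw [hα] at hmc
  -- the fixed points in a fibre
  have hfib : ∀ j, π j = j → ∃ i, ((univ.filter (fun x => σ x = x)).filter (fun x => f x = j)).card + i * r = a := by
    intro j hj
    have hp : ∀ x, f (σ x) = j ↔ f x = j := by
      intro x
      rw [hπ]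
      constructor
      · intro h
        apply π.injective
        rw [h, hj]
      · intro h
        rw [h, hj]
    have h1 : (σ.subtypePerm (p := fun x => f x = j) hp) ^ r = 1 := by
      rw [Perm.subtypePerm_pow]
      ext ⟨x, hx⟩
      simp [hσ]
    obtain ⟨i, -, hi⟩ := ct hr h1
    rw [hf'] at hi
    refine ⟨i, ?_⟩
    rw [← hi]
    congr 1
    refine Finset.card_bij' (fun x hx => (⟨x, by
        simp only [mem_filter, mem_univ, true_and] at hx
        exact hx.2⟩ : {x : α // f x = j})) (fun x _ => (x : α)) ?_ ?_ ?_ ?_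
    · intro x hx
      simp only [mem_filter, mem_univ, true_and] at hx ⊢
      apply Subtype.ext
      exact hx.1
    · rintro ⟨x, hxj⟩ hx
      simp only [mem_filter, mem_univ, true_and] at hx ⊢
      exact ⟨congrArg Subtype.val hx, hxj⟩
    · intro x _; rfl
    · rintro ⟨x, hxj⟩ _; rfl
  choose i hi using hfib
  have hsum : (univ.filter (fun x => σ x = x)).card = ∑ j ∈ univ.filter (fun j => π j = j),
      ((univ.filter (fun x => σ x = x)).filter (fun x => f x = j)).card := by
    apply Finset.card_eq_sum_card_fiberwise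
    intro x hx
    simp only [coe_filter, mem_univ, true_and, Set.mem_setOf_eq] at hx ⊢
    rw [← hπ, hx]
  have hmem : ∀ j : {j // j ∈ univ.filter (fun j => π j = j)}, π j.1 = j.1 := fun j => (mem_filter.mp j.2).2
  have hsum2 : (univ.filter (fun x => σ x = x)).card + (∑ j ∈ (univ.filter (fun j => π j = j)).attach,
      i j.1 (hmem j)) * r = (univ.filter (fun j => π j = j)).card * a := by
    rw [hsum, ← Finset.sum_attach, Finset.sum_mul, ← Finset.sum_add_distrib]
    rw [Finset.sum_congr rfl (fun j _ => hi j.1 (hmem j))]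
    rw [Finset.sum_const, smul_eq_mul, Finset.card_attach]
  obtain ⟨S, hS⟩ : ∃ S, S = ∑ j ∈ (univ.filter (fun j => π j = j)).attach, i j.1 (hmem j) := ⟨_, rfl⟩
  have hSle : S ≤ (univ.filter (fun j => π j = j)).card * (a / r) := by
    rw [hS, ← Finset.card_attach]
    apply Finset.sum_le_card_nsmul
    intro j _
    rw [Nat.le_div_iff_mul_le hr.pos]
    have := hi j.1 (hmem j)
    omega
  rw [← hS] at hsum2
  obtain ⟨N, hN⟩ : ∃ N, N = (univ.filter (fun j => π j = j)).card := ⟨_, rfl⟩
  rw [← hN] at hsum2 hSle hyc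
  have e1 : a = (a / r) * r + a % r := (Nat.div_add_mod' a r).symm
  -- m * r = a*b - fix, fix = N a - S r, so m r = a (b - N) + S r = a y r + S r
  have hkey : m * r = (y * a + S) * r := by
    have : a * b = a * (N + y * r) := by rw [hyc]
    nlinarith
  have hkey2 : m = y * a + S := Nat.eq_of_mul_eq_mul_right hr.pos hkey
  refine ⟨y, by omega, by omega, ?_⟩
  rw [hkey2, ← hyc]
  obtain ⟨q, hq⟩ : ∃ q, q = a / r := ⟨_, rfl⟩
  obtain ⟨l, hl'⟩ : ∃ l, l = a % r := ⟨_, rfl⟩
  rw [← hq] at hSle ⊢
  rw [← hq, ← hl'] at e1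
  rw [← hl']
  have : y * a = y * (q * r + l) := by rw [← e1]
  rw [this]
  nlinarith

theorem exists_i {ι : Type*} [DecidableEq ι] (s : Finset ι) (q : ℕ) : ∀ S, S ≤ s.card * q →
    ∃ i : ι → ℕ, (∀ j, i j ≤ q) ∧ (∀ j, j ∉ s → i j = 0) ∧ ∑ j ∈ s, i j = S := by
  induction s using Finset.induction_on with
  | empty =>
    intro S hS
    exact ⟨fun _ => 0, by simp, by simp, by simp at hS ⊢; exact hS.symm⟩
  | insert c s hc ih =>
    intro S hS
    rw [Finset.card_insert_of_notMem hc] at hS
    rcases Nat.lt_or_ge S q with h | h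
    · refine ⟨fun j => if j = c then S else 0, ?_, ?_, ?_⟩
      · intro j; dsimp only; split_ifs <;> omega
      · intro j hj
        rw [Finset.mem_insert, not_or] at hj
        dsimp only
        rw [if_neg hj.1]
      · rw [Finset.sum_ite_eq']
        simp
    · obtain ⟨i, h1, h2, h3⟩ := ih (S - q) (by rw [add_mul] at hS; omega)
      refine ⟨fun j => if j = c then q else i j, ?_, ?_, ?_⟩
      · intro j; dsimp only; split_ifs
        · exact le_rfl
        · exact h1 j
      · intro j hj
        rw [Finset.mem_insert, not_or] at hj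
        dsimp only
        rw [if_neg hj.1]
        exact h2 j hj.2
      · rw [Finset.sum_insert hc, if_pos rfl]
        have : ∑ x ∈ s, (if x = c then q else i x) = ∑ x ∈ s, i x := by
          apply Finset.sum_congr rfl
          intro x hx
          rw [if_neg]
          rintro rfl
          exact hc hx
        rw [this, h3]; omega

theorem keyB {a b r x y : ℕ} (ha : 2 ≤ a) (hr : r.Prime) {α : Type*} [Fintype α] [DecidableEq α] (hα : Fintype.card α = a * b)
    (σ : Perm α) (hx : σ.cycleType = Multiset.replicate x r) (hy1 : y * r ≤ b)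
    (hy2 : y * a ≤ x) (hy3 : x ≤ b * (a / r) + y * (a % r)) :
    ∃ f : α → Fin b, (∀ j : Fin b, Nat.card {x : α // f x = j} = a) ∧ ∃ π : Perm (Fin b), ∀ x, f (σ x) = π (f x) := by
  obtain ⟨π, hπ⟩ : ∃ π : Perm (Fin b), π.cycleType = Multiset.replicate y r := by
    rw [Perm.exists_with_cycleType_iff, Multiset.sum_replicate, smul_eq_mul, Fintype.card_fin]
    exact ⟨hy1, fun c hc => by rw [Multiset.eq_of_mem_replicate hc]; exact hr.two_le⟩
  have hpow : ∀ {β : Type} [Fintype β] [DecidableEq β] (ρ : Perm β) (m : ℕ), ρ.cycleType = Multiset.replicate m r → ρ ^ r = 1 := by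
    intro β _ _ ρ m h
    rw [← orderOf_dvd_iff_pow_eq_one, ← Perm.lcm_cycleType, h]
    apply Multiset.lcm_dvd.mpr
    intro c hc
    rw [Multiset.eq_of_mem_replicate hc]
  have hπr : π ^ r = 1 := hpow π y hπ
  obtain ⟨y', hy', hyc⟩ := ct hr hπr
  have hyy : y' = y := by
    rw [hπ] at hy'
    have := congrArg Multiset.card hy'
    rw [Multiset.card_replicate, Multiset.card_replicate] at this
    exact this.symm
  subst hyy
  rw [Fintype.card_fin] at hyc
  obtain ⟨N, hN⟩ : ∃ N, N = (univ.filter (fun j => π j = j)).card := ⟨_, rfl⟩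
  have e1 : a = (a / r) * r + a % r := (Nat.div_add_mod' a r).symm
  have hNq : x - y' * a ≤ (univ.filter (fun j => π j = j)).card * (a / r) := by
    rw [← hN] at hyc ⊢
    obtain ⟨q, hq⟩ : ∃ q, q = a / r := ⟨_, rfl⟩
    obtain ⟨l, hl'⟩ : ∃ l, l = a % r := ⟨_, rfl⟩
    rw [← hq, ← hl'] at e1 hy3
    rw [← hq]
    have h1 : y' * a = y' * (q * r + l) := by rw [← e1]
    have h2 : b * q = (N + y' * r) * q := by rw [hyc]
    rw [h1]
    have h3 : x ≤ N * q + y' * (q * r + l) := by
      rw [h2] at hy3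
      nlinarith
    omega
  obtain ⟨i, hi1, hi2, hi3⟩ := exists_i _ _ _ hNq
  have hρ : ∀ j : Fin b, ∃ ρ : Perm (Fin a), ρ.cycleType = Multiset.replicate (i j) r := by
    intro j
    rw [Perm.exists_with_cycleType_iff, Multiset.sum_replicate, smul_eq_mul, Fintype.card_fin]
    refine ⟨?_, fun c hc => by rw [Multiset.eq_of_mem_replicate hc]; exact hr.two_le⟩
    have := hi1 j
    rwa [Nat.le_div_iff_mul_le hr.pos] at this
  choose ρ hρ using hρ
  have hρπ : ∀ j, ρ (π j) = ρ j := by
    intro j
    by_cases h : π j = j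
    · rw [h]
    · have h1 : i j = 0 := hi2 j (by simpa using h)
      have h2 : i (π j) = 0 := hi2 _ (by
        simp only [mem_filter, mem_univ, true_and]
        exact fun h' => h (π.injective h'))
      have h3 : ρ j = 1 := Perm.cycleType_eq_zero.mp (by rw [hρ, h1]; rfl)
      have h4 : ρ (π j) = 1 := Perm.cycleType_eq_zero.mp (by rw [hρ, h2]; rfl)
      rw [h3, h4]
  obtain ⟨τ, hτ⟩ : ∃ τ : Perm (Fin b × Fin a), ∀ p, τ p = (π p.1, ρ p.1 p.2) := ⟨Equiv.prodShear π ρ, fun p => rfl⟩
  have hτn : ∀ n : ℕ, ∀ p : Fin b × Fin a, (τ ^ n) p = ((π ^ n) p.1, ((ρ p.1) ^ n) p.2) ∧ ρ ((π ^ n) p.1) = ρ p.1 := by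
    intro n
    induction n with
    | zero => intro p; exact ⟨rfl, rfl⟩
    | succ n ih =>
      intro p
      have h1 := (ih p).1
      have h2 := (ih p).2
      constructor
      · rw [pow_succ', Perm.mul_apply, h1, hτ, pow_succ', pow_succ', Perm.mul_apply, Perm.mul_apply]
        dsimp only
        rw [h2]
      · rw [pow_succ', Perm.mul_apply, hρπ, h2]
  have hτr : τ ^ r = 1 := by
    apply Equiv.ext
    intro p
    rw [(hτn r p).1, hπr, hpow (ρ p.1) _ (hρ p.1)]
    rfl
  obtain ⟨e⟩ : Nonempty (α ≃ Fin b × Fin a) := by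
    rw [← Fintype.card_eq, hα, Fintype.card_prod, Fintype.card_fin, Fintype.card_fin, mul_comm]
  obtain ⟨τ', hτ'⟩ : ∃ τ' : Perm α, ∀ x, τ' x = e.symm (τ (e x)) := ⟨(e.trans τ).trans e.symm, fun x => rfl⟩
  have hτ'n : ∀ n : ℕ, ∀ x, (τ' ^ n) x = e.symm ((τ ^ n) (e x)) := by
    intro n
    induction n with
    | zero => intro x; simp
    | succ n ih => intro x; rw [pow_succ', Perm.mul_apply, ih, hτ', pow_succ', Perm.mul_apply, Equiv.apply_symm_apply]
  have hτ'r : τ' ^ r = 1 := by
    apply Equiv.ext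
    intro x
    rw [hτ'n, hτr]
    simp
  obtain ⟨m, hm, hmc⟩ := ct hr hτ'r
  obtain ⟨m2, hm2, hmc2⟩ := ct hr hτr
  have hfixeq : (univ.filter (fun x => τ' x = x)).card = (univ.filter (fun x => τ x = x)).card := by
    refine Finset.card_bij' (fun x _ => e x) (fun x _ => e.symm x) ?_ ?_ ?_ ?_
    · intro x hx
      simp only [mem_filter, mem_univ, true_and] at hx ⊢
      rw [hτ'] at hx
      rw [← e.symm_apply_eq]
      exact hx
    · intro x hx
      simp only [mem_filter, mem_univ, true_and] at hx ⊢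
      rw [hτ', Equiv.apply_symm_apply, hx]
    · intro x _; simp
    · intro x _; simp
  have hfix : (univ.filter (fun x => τ x = x)).card + (x - y' * a) * r = N * a := by
    have hsum : (univ.filter (fun x => τ x = x)).card = ∑ j ∈ univ.filter (fun j => π j = j),
        ((univ.filter (fun x => τ x = x)).filter (fun x => x.1 = j)).card := by
      apply Finset.card_eq_sum_card_fiberwise
      intro x hx
      simp only [coe_filter, mem_univ, true_and, Set.mem_setOf_eq] at hx ⊢
      rw [hτ] at hx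
      exact congrArg Prod.fst hx
    have hfib : ∀ j ∈ univ.filter (fun j => π j = j), ((univ.filter (fun x => τ x = x)).filter (fun x => x.1 = j)).card + i j * r = a := by
      intro j hj
      simp only [mem_filter, mem_univ, true_and] at hj
      obtain ⟨m3, hm3, hmc3⟩ := ct hr (hpow (ρ j) _ (hρ j))
      have : m3 = i j := by
        rw [hρ] at hm3
        have := congrArg Multiset.card hm3
        rw [Multiset.card_replicate, Multiset.card_replicate] at this
        exact this.symm
      subst this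
      rw [Fintype.card_fin] at hmc3
      have hcard : ((univ.filter (fun x => τ x = x)).filter (fun x => x.1 = j)).card = (univ.filter (fun u => ρ j u = u)).card := by
        refine Finset.card_bij' (fun x _ => x.2) (fun u _ => (j, u)) ?_ ?_ ?_ ?_
        · rintro ⟨c, u⟩ hx
          simp only [mem_filter, mem_univ, true_and] at hx ⊢
          obtain ⟨h1, h2⟩ := hx
          rw [hτ] at h1
          dsimp only at h1 h2
          rw [h2] at h1
          exact congrArg Prod.snd h1
        · intro u hu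
          simp only [mem_filter, mem_univ, true_and] at hu ⊢
          rw [hτ]
          dsimp only
          rw [hj, hu]
          exact ⟨rfl, trivial⟩
        · rintro ⟨c, u⟩ hx
          simp only [mem_filter, mem_univ, true_and] at hx ⊢
          rw [hx.2]
        · intro u _; rfl
      rw [hcard]; exact hmc3
    rw [hsum, ← hi3, Finset.sum_mul, ← Finset.sum_add_distrib, Finset.sum_congr rfl hfib, Finset.sum_const, smul_eq_mul, hN]
  have hmx : m = x := by
    rw [hfixeq, hα] at hmc
    rw [← hN] at hyc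
    have h1 : (x - y' * a) * r = x * r - y' * a * r := Nat.sub_mul _ _ _
    have h2 : y' * a * r ≤ x * r := Nat.mul_le_mul_right r hy2
    have h3 : a * b = a * (N + y' * r) := by rw [hyc]
    have h4 : m * r = x * r := by
      have h5 : y' * a * r = a * (y' * r) := by ring
      have h6 : a * (N + y' * r) = N * a + a * (y' * r) := by ring
      omega
    exact Nat.eq_of_mul_eq_mul_right hr.pos h4
  subst hmx
  have hconj : IsConj τ' σ := Perm.isConj_iff_cycleType_eq.mpr (hm.trans hx.symm)
  obtain ⟨c, hc⟩ := isConj_iff.mp hconj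
  refine ⟨fun x => (e (c⁻¹ x)).1, ?_, π, ?_⟩
  · intro j
    have h1 : {x : α // (e (c⁻¹ x)).1 = j} ≃ Fin a := {
      toFun := fun x => (e (c⁻¹ x.1)).2
      invFun := fun u => ⟨c (e.symm (j, u)), by simp⟩
      left_inv := by
        rintro ⟨x, hx⟩
        apply Subtype.ext
        dsimp only
        have : (j, (e (c⁻¹ x)).2) = e (c⁻¹ x) := by rw [← hx]
        rw [this]
        simp
      right_inv := by
        intro u
        simp }
    rw [Nat.card_congr h1, Nat.card_eq_fintype_card, Fintype.card_fin]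
  · intro x
    dsimp only
    have h1 : c⁻¹ (σ x) = τ' (c⁻¹ x) := by
      rw [← hc, Perm.mul_apply, Perm.mul_apply]
      simp
    rw [h1, hτ', Equiv.apply_symm_apply, hτ]

/-- Let a, b ≥ 2 and consider the symmetric group of degree a·b acting on the partitions of an (a·b)-set into b parts of size a (encoded as maps onto a b-element set all of whose fibres have a elements; a permutation fixes such a partition when it permutes the fibres). Let r be a prime dividing the number (ab)!/((a!)^b·b!) of such partitions, and let ℓ and k be the remainders of a and b modulo r. Then every permutation of order r fixes some such partition if and only if r ≤ a and one of the following holds: ℓ = 0; or k = 0 and ℓ = 1; or ℓ and k are non-zero, k·ℓ < r, and either b < r or (k + r)·ℓ ≤ k·a + r. -/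
theorem result (a b : ℕ) (ha : 2 ≤ a) (hb : 2 ≤ b) (r : ℕ) (hr : r.Prime)
    (hrd : r ∣ (a * b).factorial / (a.factorial ^ b * b.factorial)) :
    (∀ σ : Equiv.Perm (Fin (a * b)), orderOf σ = r →
        ∃ f : Fin (a * b) → Fin b, (∀ j : Fin b, Nat.card {x : Fin (a * b) // f x = j} = a) ∧
          ∃ π : Equiv.Perm (Fin b), ∀ x : Fin (a * b), f (σ x) = π (f x)) ↔
      (r ≤ a ∧ (a % r = 0 ∨ (b % r = 0 ∧ a % r = 1) ∨
        (a % r ≠ 0 ∧ b % r ≠ 0 ∧ (b % r) * (a % r) < r ∧ (b < r ∨ (b % r + r) * (a % r) ≤ (b % r) * a + r)))) := by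
  have hN : r ≤ a * b := by
    have h0 : a.factorial ^ b * b.factorial ∣ (a * b).factorial := by
      rw [mul_comm a b, ← Nat.uniformBell_mul_eq b (show a ≠ 0 by omega), mul_assoc]
      exact Dvd.intro_left _ rfl
    exact (hr.dvd_factorial).mp (hrd.trans (Nat.div_dvd_of_dvd h0))
  constructor
  · intro H
    apply arith1 ha hb hr.two_le hN
    intro x hx1 hx2
    obtain ⟨σ, hσ⟩ : ∃ σ : Equiv.Perm (Fin (a * b)), σ.cycleType = Multiset.replicate x r := by
      rw [Equiv.Perm.exists_with_cycleType_iff, Multiset.sum_replicate, smul_eq_mul, Fintype.card_fin]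
      exact ⟨hx2, fun c hc => by rw [Multiset.eq_of_mem_replicate hc]; exact hr.two_le⟩
    have hord : orderOf σ = r := by
      rw [← Equiv.Perm.lcm_cycleType, hσ]
      apply Nat.dvd_antisymm
      · apply Multiset.lcm_dvd.mpr
        intro c hc
        rw [Multiset.eq_of_mem_replicate hc]
      · apply Multiset.dvd_lcm
        exact Multiset.mem_replicate.mpr ⟨by omega, rfl⟩
    obtain ⟨f, hf, π, hπ⟩ := H σ hord
    exact keyA ha hr (by rw [Fintype.card_fin]) σ (by rw [← hord, pow_orderOf_eq_one]) hσ f hf π hπ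
  · intro hc σ hσ
    have hσr : σ ^ r = 1 := by rw [← hσ, pow_orderOf_eq_one]
    obtain ⟨x, hx, hxc⟩ := ct hr hσr
    rw [Fintype.card_fin] at hxc
    obtain ⟨y, hy1, hy2, hy3⟩ := arith2 ha hb hr.two_le hc x (by omega)
    exact keyB ha hr (by rw [Fintype.card_fin]) σ hx hy1 hy2 hy3

end Cfsg.Agent.S3575
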