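import Cfsg.Statements.S3599
import Cfsg.Agent.H22.FrobIrr

set_option autoImplicit false
set_option linter.all false
open Cfsg

namespace Cfsg.Agent.S3599

open Cfsg.Agent.H22

section
variable {s : ℕ} {F : Fin s → Type} [∀ j, Group (F j)] [∀ j, Finite (F j)] (V : ∀ j, Subgroup (F j)) (P Q : Fin s → ℕ)

/-- hypotheses on the family -/
structure Fam {s : ℕ} {F : Fin s → Type} [∀ j, Group (F j)] (V : ∀ j, Subgroup (F j)) (P Q : Fin s → ℕ) : Prop where
  hP : ∀ j, (P j).Prime
  hQ : ∀ j, (Q j).Prime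
  hPQ : ∀ i j, P i ≠ Q j
  hPP : ∀ i j, P i = P j → i = j
  hQQ : ∀ i j, Q i = Q j → i = j
  a : ∀ j, ∀ x ∈ V j, ∀ y ∈ V j, x * y = y * x
  b : ∀ j, ∀ x ∈ V j, x ≠ 1 → orderOf x = P j
  c : ∀ j, ∀ x, x ∉ V j → orderOf x = Q j
  d : ∀ j, ∃ x ∈ V j, x ≠ 1
  d' : ∀ j, ∃ x, x ∉ V j
  e : ∀ j, ∀ U : Subgroup (F j), (∃ v ∈ U, v ∈ V j ∧ v ≠ 1) → (∃ x ∈ U, x ∉ V j) → U = ⊤
  f : ∀ j, ∃ x y, x ∉ V j ∧ y ∉ V j ∧ x * y ≠ y * x
  g : ∀ j, ∀ N : Subgroup (F j), N.Normal → N ≠ ⊥ → V j ≤ N

variable {V P Q} (hF : Fam V P Q)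
include hF

theorem ord_cases (j : Fin s) (x : F j) : orderOf x = 1 ∨ orderOf x = P j ∨ orderOf x = Q j := by
  classical
  by_cases hx : x = 1
  · left; rw [hx, orderOf_one]
  · by_cases hxV : x ∈ V j
    · right; left; exact hF.b j x hxV hx
    · right; right; exact hF.c j x hxV

/-- elements of order a power of `r ∈ {P j, Q j}` are concentrated in the component `j` -/
theorem single_of {r a : ℕ} {j : Fin s} (hr : r = P j ∨ r = Q j) (x : ∀ j, F j) (hx : x ^ r ^ a = 1) :
    x = Pi.mulSingle j (x j) ∧ (x j = 1 ∨ orderOf (x j) = r) := by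
  classical
  have hrp : r.Prime := by
    rcases hr with rfl | rfl
    · exact hF.hP j
    · exact hF.hQ j
  have hcomp : ∀ i, orderOf (x i) ∣ r ^ a := fun i => by
    apply orderOf_dvd_of_pow_eq_one
    exact congrFun hx i
  constructor
  · funext i
    by_cases hij : i = j
    · subst hij; simp
    · rw [Pi.mulSingle_eq_of_ne hij]
      rcases ord_cases hF i (x i) with h | h | h
      · exact orderOf_eq_one_iff.1 h
      · exfalso
        have h1 := hcomp i
        rw [h] at h1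
        have h2 := (Nat.prime_dvd_prime_iff_eq (hF.hP i) hrp).1 ((hF.hP i).dvd_of_dvd_pow h1)
        rcases hr with hr | hr
        · exact hij (hF.hPP i j (h2.trans hr))
        · exact hF.hPQ i j (h2.trans hr)
      · exfalso
        have h1 := hcomp i
        rw [h] at h1
        have h2 := (Nat.prime_dvd_prime_iff_eq (hF.hQ i) hrp).1 ((hF.hQ i).dvd_of_dvd_pow h1)
        rcases hr with hr | hr
        · exact hF.hPQ j i (h2.trans hr).symm
        · exact hij (hF.hQQ i j (h2.trans hr))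
  · by_cases h1 : x j = 1
    · left; exact h1
    · right
      rcases ord_cases hF j (x j) with h | h | h
      · exact absurd (orderOf_eq_one_iff.1 h) h1
      · have h2 := hcomp j
        rw [h] at h2
        rw [h]
        exact (Nat.prime_dvd_prime_iff_eq (hF.hP j) hrp).1 ((hF.hP j).dvd_of_dvd_pow h2)
      · have h2 := hcomp j
        rw [h] at h2
        rw [h]
        exact (Nat.prime_dvd_prime_iff_eq (hF.hQ j) hrp).1 ((hF.hQ j).dvd_of_dvd_pow h2)

theorem order_prod (x : ∀ j, F j) : orderOf x = ∏ j, orderOf (x j) := by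
  classical
  apply Nat.dvd_antisymm
  · apply orderOf_dvd_of_pow_eq_one
    funext j
    rw [Pi.pow_apply, Pi.one_apply]
    apply orderOf_dvd_iff_pow_eq_one.1
    exact Finset.dvd_prod_of_mem _ (Finset.mem_univ j)
  · apply Finset.prod_dvd_of_isRelPrime
    · intro i _ j _ hij
      show IsRelPrime (orderOf (x i)) (orderOf (x j))
      rw [← Nat.coprime_iff_isRelPrime]
      rcases ord_cases hF i (x i) with h | h | h <;> rcases ord_cases hF j (x j) with h' | h' | h' <;> rw [h, h']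
      · exact Nat.coprime_one_left _
      · exact Nat.coprime_one_left _
      · exact Nat.coprime_one_left _
      · exact Nat.coprime_one_right _
      · exact (Nat.coprime_primes (hF.hP i) (hF.hP j)).2 fun h => hij (hF.hPP _ _ h)
      · exact (Nat.coprime_primes (hF.hP i) (hF.hQ j)).2 (hF.hPQ _ _)
      · exact Nat.coprime_one_right _
      · exact (Nat.coprime_primes (hF.hQ i) (hF.hP j)).2 fun h => hF.hPQ _ _ h.symm
      · exact (Nat.coprime_primes (hF.hQ i) (hF.hQ j)).2 fun h => hij (hF.hQQ _ _ h)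
    · intro j _
      apply orderOf_dvd_of_pow_eq_one
      exact congrFun (pow_orderOf_eq_one x) j

theorem exists_single {H : Subgroup (∀ j, F j)} {N : Subgroup H} [N.Normal] {r : ℕ} {j : Fin s} (hr : r = P j ∨ r = Q j)
    (hmem : r ∈ Set.range (orderOf : (H ⧸ N) → ℕ)) :
    ∃ y : F j, orderOf y = r ∧ ∃ h : Pi.mulSingle j y ∈ H, (⟨Pi.mulSingle j y, h⟩ : H) ∉ N := by
  classical
  have hrp : r.Prime := by
    rcases hr with rfl | rfl
    · exact hF.hP j
    · exact hF.hQ j
  obtain ⟨z, hz⟩ := hmem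
  obtain ⟨h, rfl⟩ := QuotientGroup.mk_surjective z
  have hpos := orderOf_pos h
  obtain ⟨a, m, hm, ham⟩ := Nat.exists_eq_pow_mul_and_not_dvd hpos.ne' r hrp.ne_one
  have h1 : (h ^ m) ^ r ^ a = 1 := by
    rw [← pow_mul, mul_comm, ← ham, pow_orderOf_eq_one]
  have h1' : ((h ^ m : H) : ∀ j, F j) ^ r ^ a = 1 := by
    have := congrArg Subtype.val h1
    exact this
  have hN : h ^ m ∉ N := by
    intro hN
    have h2 : (QuotientGroup.mk h : H ⧸ N) ^ m = 1 := by
      rw [← QuotientGroup.mk_pow, QuotientGroup.eq_one_iff]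
      exact hN
    have h3 := orderOf_dvd_of_pow_eq_one h2
    rw [hz] at h3
    exact hm h3
  obtain ⟨h2, h3⟩ := single_of hF hr _ h1'
  have h4 : Pi.mulSingle j (((h ^ m : H) : ∀ j, F j) j) ∈ H := by rw [← h2]; exact (h ^ m).2
  have h5 : (⟨Pi.mulSingle j (((h ^ m : H) : ∀ j, F j) j), h4⟩ : H) = h ^ m := Subtype.ext h2.symm
  refine ⟨((h ^ m : H) : ∀ j, F j) j, ?_, h4, by rw [h5]; exact hN⟩
  rcases h3 with h3 | h3
  · exfalso
    apply hN
    rw [← h5]
    have h6 : (⟨Pi.mulSingle j (((h ^ m : H) : ∀ j, F j) j), h4⟩ : H) = 1 := by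
      apply Subtype.ext
      show Pi.mulSingle j (((h ^ m : H) : ∀ j, F j) j) = 1
      rw [h3, Pi.mulSingle_one]
    rw [h6]; exact N.one_mem
  · exact h3

theorem crit (H : Subgroup (∀ j, F j)) (N : Subgroup H) [hN : N.Normal]
    (hPm : ∀ j, P j ∈ Set.range (orderOf : (H ⧸ N) → ℕ)) (hQm : ∀ j, Q j ∈ Set.range (orderOf : (H ⧸ N) → ℕ)) :
    H = ⊤ ∧ N = ⊥ := by
  classical
  have hH : H = ⊤ := by
    rw [eq_top_iff]
    rintro x -
    apply Subgroup.pi_mem_of_mulSingle_mem
    intro j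
    obtain ⟨y, hy, hyH, _⟩ := exists_single hF (Or.inl rfl) (hPm j)
    obtain ⟨y', hy', hyH', _⟩ := exists_single hF (Or.inr rfl) (hQm j)
    have hU : H.comap (MonoidHom.mulSingle F j) = ⊤ := by
      apply hF.e j
      · refine ⟨y, hyH, ?_, ?_⟩
        · by_contra hcon
          exact hF.hPQ j j (hy.symm.trans (hF.c j y hcon))
        · rintro rfl
          rw [orderOf_one] at hy
          exact (hF.hP j).one_lt.ne hy
      · refine ⟨y', hyH', ?_⟩
        intro hcon
        have h1 : y' ≠ 1 := by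
          rintro rfl
          rw [orderOf_one] at hy'
          exact (hF.hQ j).one_lt.ne hy'
        exact hF.hPQ j j ((hF.b j y' hcon h1).symm.trans hy')
    have : x j ∈ H.comap (MonoidHom.mulSingle F j) := by rw [hU]; trivial
    exact this
  refine ⟨hH, ?_⟩
  by_contra hbot
  obtain ⟨n', hn'⟩ := Subgroup.ne_bot_iff_exists_ne_one.1 hbot
  obtain ⟨n, hnN, hn1⟩ : ∃ n : H, n ∈ N ∧ n ≠ 1 := ⟨n'.1, n'.2, fun h => hn' (Subtype.ext h)⟩
  have hord : orderOf n ≠ 1 := fun h => hn1 (orderOf_eq_one_iff.1 h)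
  obtain ⟨r, hr, hrd⟩ := Nat.exists_prime_and_dvd hord
  have hpos := orderOf_pos n
  -- the prime r divides the order of some component
  obtain ⟨j, hj⟩ : ∃ j, r = P j ∨ r = Q j := by
    have h1 : orderOf n = ∏ j, orderOf ((n : ∀ j, F j) j) := by
      rw [← Subgroup.orderOf_coe, order_prod hF]
    rw [h1] at hrd
    obtain ⟨j, _, hj⟩ := (Prime.dvd_finset_prod_iff hr.prime _).1 hrd
    refine ⟨j, ?_⟩
    rcases ord_cases hF j ((n : ∀ j, F j) j) with h | h | h
    · rw [h] at hj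
      exact absurd (Nat.dvd_one.1 hj) hr.ne_one
    · rw [h] at hj
      left; exact (Nat.prime_dvd_prime_iff_eq hr (hF.hP j)).1 hj
    · rw [h] at hj
      right; exact (Nat.prime_dvd_prime_iff_eq hr (hF.hQ j)).1 hj
  obtain ⟨m, hm⟩ := hrd
  have hm0 : 0 < m := Nat.pos_of_ne_zero (by rintro rfl; omega)
  have hnm1 : n ^ m ≠ 1 := by
    intro h
    have h1 := Nat.le_of_dvd hm0 (orderOf_dvd_of_pow_eq_one h)
    rw [hm] at h1
    have := hr.two_le
    nlinarith
  have hnm : ((n ^ m : H) : ∀ j, F j) ^ r ^ 1 = 1 := by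
    have h1 : (n ^ m) ^ r = 1 := by rw [← pow_mul, mul_comm, ← hm, pow_orderOf_eq_one]
    rw [pow_one]
    exact congrArg Subtype.val h1
  obtain ⟨h2, h3⟩ := single_of hF hj _ hnm
  set y := ((n ^ m : H) : ∀ j, F j) j with hy
  have hy1 : y ≠ 1 := by
    intro h
    rw [h, Pi.mulSingle_one] at h2
    exact hnm1 (Subtype.ext h2)
  -- the normal subgroup of F j
  let N' : Subgroup (F j) := ((N.map H.subtype)).comap (MonoidHom.mulSingle F j)
  have hN'mem : ∀ z : F j, z ∈ N' ↔ ∃ h : Pi.mulSingle j z ∈ H, (⟨Pi.mulSingle j z, h⟩ : H) ∈ N := by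
    intro z
    constructor
    · rintro ⟨w, hw, hwz⟩
      have h1 : Pi.mulSingle j z ∈ H := by
        have : ((MonoidHom.mulSingle F j) z : ∀ j, F j) = Pi.mulSingle j z := rfl
        rw [← this, ← hwz]; exact w.2
      refine ⟨h1, ?_⟩
      have : (⟨Pi.mulSingle j z, h1⟩ : H) = w := Subtype.ext hwz.symm
      rw [this]; exact hw
    · rintro ⟨h, hh⟩
      exact ⟨_, hh, rfl⟩
  have hN'n : N'.Normal := by
    constructor
    intro z hz g
    rw [hN'mem] at hz ⊢
    obtain ⟨h1, h2⟩ := hz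
    have hg : Pi.mulSingle j g ∈ H := by rw [hH]; trivial
    have h3 := hN.conj_mem _ h2 ⟨Pi.mulSingle j g, hg⟩
    have h4 : Pi.mulSingle j (g * z * g⁻¹) = (Pi.mulSingle j g * Pi.mulSingle j z * (Pi.mulSingle j g)⁻¹ : ∀ j, F j) := by
      rw [Pi.mulSingle_mul, Pi.mulSingle_mul, Pi.mulSingle_inv]
    have h5 : Pi.mulSingle j (g * z * g⁻¹) ∈ H := by rw [hH]; trivial
    refine ⟨h5, ?_⟩
    have h6 : (⟨Pi.mulSingle j (g * z * g⁻¹), h5⟩ : H) = ⟨Pi.mulSingle j g, hg⟩ * ⟨Pi.mulSingle j z, h1⟩ * (⟨Pi.mulSingle j g, hg⟩ : H)⁻¹ :=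
      Subtype.ext h4
    rw [h6]; exact h3
  have hyN' : y ∈ N' := by
    rw [hN'mem]
    have h4 : Pi.mulSingle j y ∈ H := by rw [← h2]; exact (n ^ m).2
    refine ⟨h4, ?_⟩
    have h5 : (⟨Pi.mulSingle j y, h4⟩ : H) = n ^ m := Subtype.ext h2.symm
    rw [h5]; exact N.pow_mem hnN m
  have hN'bot : N' ≠ ⊥ := by
    intro h
    rw [h, Subgroup.mem_bot] at hyN'
    exact hy1 hyN'
  have hVN := hF.g j N' hN'n hN'bot
  obtain ⟨v, hv, hvH, hvN⟩ := exists_single hF (Or.inl rfl) (hPm j)
  have hvV : v ∈ V j := by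
    by_contra hcon
    exact hF.hPQ j j (hv.symm.trans (hF.c j v hcon))
  obtain ⟨h6, h7⟩ := (hN'mem v).1 (hVN hvV)
  exact hvN h7


omit hF in
theorem rev_cases (i : Fin 2) : (i = 0 ∧ Fin.rev i = 1) ∨ (i = 1 ∧ Fin.rev i = 0) := by
  fin_cases i
  · left; exact ⟨rfl, rfl⟩
  · right; exact ⟨rfl, rfl⟩

theorem comm_P {j : Fin s} (x y : ∀ j, F j) (hx : orderOf x = P j) (hy : orderOf y = P j) : x * y = y * x := by
  classical
  have key : ∀ z : ∀ j, F j, orderOf z = P j → ∃ v ∈ V j, z = Pi.mulSingle j v := by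
    intro z hz
    obtain ⟨h1, h2⟩ := single_of hF (Or.inl rfl : P j = P j ∨ P j = Q j) (a := 1) z (by rw [pow_one, ← hz, pow_orderOf_eq_one])
    refine ⟨z j, ?_, h1⟩
    rcases h2 with h2 | h2
    · rw [h2]; exact (V j).one_mem
    · by_contra hcon
      exact hF.hPQ j j (h2.symm.trans (hF.c j _ hcon))
  obtain ⟨v, hv, rfl⟩ := key x hx
  obtain ⟨w, hw, rfl⟩ := key y hy
  rw [← Pi.mulSingle_mul, ← Pi.mulSingle_mul, hF.a j v hv w hw]

theorem exists_noncomm (j : Fin s) : ∃ x y : ∀ j, F j, orderOf x = Q j ∧ orderOf y = Q j ∧ x * y ≠ y * x := by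
  classical
  obtain ⟨x, y, hx, hy, hxy⟩ := hF.f j
  refine ⟨Pi.mulSingle j x, Pi.mulSingle j y, ?_, ?_, ?_⟩
  · rw [← hF.c j x hx]
    exact orderOf_injective (MonoidHom.mulSingle F j) (Pi.mulSingle_injective j) x
  · rw [← hF.c j y hy]
    exact orderOf_injective (MonoidHom.mulSingle F j) (Pi.mulSingle_injective j) y
  · intro h
    rw [← Pi.mulSingle_mul, ← Pi.mulSingle_mul] at h
    exact hxy (Pi.mulSingle_injective j h)

end

/-- A finite group is critical with respect to a set Ω of natural numbers when its set of element orders is Ω while no proper section H/N (H a subgroup, N normal in H, (H, N) ≠ (whole group, 1)) has Ω as its set of element orders. Let s ≥ 1 and let p(j,0), p(j,1) (j < s) be 2s pairwise distinct primes, and let Ω be the set of all products c(0)·…·c(s−1) with each c(j) ∈ {1, p(j,0), p(j,1)}. Then there are 2^s pairwise non-isomorphic finite groups critical with respect to Ω. -/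
theorem result (s : ℕ) (hs : 1 ≤ s) (p : Fin s → Fin 2 → ℕ)
    (hp : ∀ j i, (p j i).Prime) (hinj : ∀ j i j' i', p j i = p j' i' → j = j' ∧ i = i') :
    ∃ (G : Fin (2 ^ s) → Type) (_ : ∀ a, Group (G a)) (_ : ∀ a, Fintype (G a)),
      (∀ a b, a ≠ b → ¬ Nonempty (G a ≃* G b)) ∧
      ∀ a, Set.range (orderOf : (G a) → ℕ) = {m : ℕ | ∃ c : Fin s → ℕ, (∀ j, c j = 1 ∨ c j = p j 0 ∨ c j = p j 1) ∧ m = ∏ j, c j} ∧
      ∀ (H : Subgroup (G a)) (N : Subgroup ↥H) [N.Normal], (H ≠ ⊤ ∨ N ≠ ⊥) → Set.range (orderOf : (↥H ⧸ N) → ℕ) ≠ {m : ℕ | ∃ c : Fin s → ℕ, (∀ j, c j = 1 ∨ c j = p j 0 ∨ c j = p j 1) ∧ m = ∏ j, c j} := by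
  classical
  choose F i1 i2 V h1 h2 h3 h4 h5 h6 h7 h8 using fun (j : Fin s) (i : Fin 2) =>
    exists_frob_irr (p j i) (p j (Fin.rev i)) (hp j i) (hp j _) (fun h => by
      have h1 := (hinj _ _ _ _ h).2
      have h2 : ∀ i : Fin 2, i ≠ Fin.rev i := by decide
      exact h2 i h1)
  have hrev : ∀ i : Fin 2, Fin.rev i ≠ i := by decide
  have fam : ∀ c : Fin s → Fin 2, Fam (F := fun j => F j (c j)) (fun j => V j (c j)) (fun j => p j (c j))
      (fun j => p j (Fin.rev (c j))) := fun c =>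
    { hP := fun j => hp j _
      hQ := fun j => hp j _
      hPQ := fun i j h => by
        obtain ⟨e1, e2⟩ := hinj _ _ _ _ h
        subst e1
        exact hrev _ e2.symm
      hPP := fun i j h => (hinj _ _ _ _ h).1
      hQQ := fun i j h => (hinj _ _ _ _ h).1
      a := fun j => h1 j (c j)
      b := fun j => h2 j (c j)
      c := fun j => h3 j (c j)
      d := fun j => h4 j (c j)
      d' := fun j => h5 j (c j)
      e := fun j => h6 j (c j)
      f := fun j => h7 j (c j)
      g := fun j => h8 j (c j) }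
  have hspec : ∀ c : Fin s → Fin 2, Set.range (orderOf : (∀ j, F j (c j)) → ℕ) =
      {m : ℕ | ∃ c : Fin s → ℕ, (∀ j, c j = 1 ∨ c j = p j 0 ∨ c j = p j 1) ∧ m = ∏ j, c j} := by
    intro c
    ext m
    simp only [Set.mem_range, Set.mem_ofPred_eq]
    constructor
    · rintro ⟨x, rfl⟩
      refine ⟨fun j => orderOf (x j), fun j => ?_, order_prod (fam c) x⟩
      rcases ord_cases (fam c) j (x j) with h | h | h
      · left; exact h
      · right
        rcases rev_cases (c j) with ⟨e1, e2⟩ | ⟨e1, e2⟩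
        · left; exact h.trans (by rw [e1])
        · right; exact h.trans (by rw [e1])
      · right
        rcases rev_cases (c j) with ⟨e1, e2⟩ | ⟨e1, e2⟩
        · right; exact h.trans (by rw [e2])
        · left; exact h.trans (by rw [e2])
    · rintro ⟨cc, hcc, rfl⟩
      have hx : ∀ j, ∃ x : F j (c j), orderOf x = cc j := by
        intro j
        obtain ⟨v, hv, hv1⟩ := h4 j (c j)
        obtain ⟨w, hw⟩ := h5 j (c j)
        have hv' := h2 j (c j) v hv hv1
        have hw' := h3 j (c j) w hw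
        rcases hcc j with h | h | h
        · exact ⟨1, by rw [h, orderOf_one]⟩
        · rcases rev_cases (c j) with ⟨e1, e2⟩ | ⟨e1, e2⟩
          · exact ⟨v, by rw [h, hv', e1]⟩
          · exact ⟨w, by rw [h, hw', e2]⟩
        · rcases rev_cases (c j) with ⟨e1, e2⟩ | ⟨e1, e2⟩
          · exact ⟨w, by rw [h, hw', e2]⟩
          · exact ⟨v, by rw [h, hv', e1]⟩
      choose x hx using hx
      refine ⟨x, ?_⟩
      rw [order_prod (fam c) x]
      exact Finset.prod_congr rfl fun j _ => hx j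
  refine ⟨fun a => ∀ j, F j (finFunctionFinEquiv.symm a j), fun a => inferInstance, fun a => Fintype.ofFinite _, ?_, ?_⟩
  · rintro a b hab ⟨φ⟩
    have hne : finFunctionFinEquiv.symm a ≠ finFunctionFinEquiv.symm b := fun h => hab (finFunctionFinEquiv.symm.injective h)
    obtain ⟨j, hj⟩ := Function.ne_iff.1 hne
    have hjr : p j (Fin.rev (finFunctionFinEquiv.symm b j)) = p j (finFunctionFinEquiv.symm a j) := by
      congr 1
      generalize finFunctionFinEquiv.symm a j = u at hj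
      generalize finFunctionFinEquiv.symm b j = w at hj
      revert u w; decide
    obtain ⟨x, y, hx, hy, hxy⟩ := exists_noncomm (fam (finFunctionFinEquiv.symm b)) j
    apply hxy
    have h9 := comm_P (fam (finFunctionFinEquiv.symm a)) (j := j) (φ.symm x) (φ.symm y)
      (by rw [MulEquiv.orderOf_eq, hx]; exact hjr) (by rw [MulEquiv.orderOf_eq, hy]; exact hjr)
    rw [← map_mul, ← map_mul] at h9
    exact φ.symm.injective h9
  · intro a
    refine ⟨hspec _, ?_⟩
    intro H N hN hHN hcon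
    have hmem : ∀ j, ∀ i : Fin 2, p j i ∈ Set.range (orderOf : (↥H ⧸ N) → ℕ) := by
      intro j i
      rw [hcon]
      refine ⟨Function.update (fun _ => 1) j (p j i), ?_, ?_⟩
      · intro j'
        by_cases h : j' = j
        · subst h
          right
          rw [Function.update_self]
          rcases rev_cases i with ⟨e1, _⟩ | ⟨e1, _⟩
          · left; rw [e1]
          · right; rw [e1]
        · left; rw [Function.update_of_ne h]
      · rw [Finset.prod_update_of_mem (Finset.mem_univ j)]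
        simp
    obtain ⟨e1, e2⟩ := crit (fam (finFunctionFinEquiv.symm a)) H N (fun j => hmem j _) (fun j => hmem j _)
    rcases hHN with h | h
    · exact h e1
    · exact h e2

end Cfsg.Agent.S3599
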