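import Cfsg.Statements.S3619
import Cfsg.Agent.H22.Quasi

set_option autoImplicit false
set_option linter.all false
open Cfsg

namespace Cfsg.Agent.S3619

section
open scoped Pointwise
open Cfsg.Agent.H22

theorem main {G Ω : Type*} [Group G] [Finite G] [MulAction G Ω] [FaithfulSMul G Ω] [Finite Ω]
    (hqp : ∀ N : Subgroup G, N.Normal → N ≠ ⊥ → MulAction.IsPretransitive ↥N Ω)
    (Γ : Set Ω) (hΓ1 : 1 < Γ.ncard) (hΓ2 : Γ.ncard < Nat.card Ω)
    (hJ : MulAction.IsPretransitive ↥(fixingSubgroup G Γᶜ) ↥(SubMulAction.ofFixingSubgroup G Γᶜ))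
    (hJp : MulAction.IsPreprimitive ↥(fixingSubgroup G Γᶜ) ↥(SubMulAction.ofFixingSubgroup G Γᶜ)) :
    MulAction.IsMultiplyPretransitive G Ω (Nat.card Ω - Γ.ncard + 1) := by
  classical
  have hJ' := jordan_elim hJ
  have hΓnt : Γ.Nontrivial := (Set.one_lt_ncard (Set.toFinite Γ)).1 hΓ1
  have htr : MulAction.IsPretransitive G Ω := by
    have htop : (⊤ : Subgroup G) ≠ ⊥ := by
      intro h
      obtain ⟨x, hx, y, hy, hxy⟩ := hΓnt
      obtain ⟨g, hg, hgx⟩ := hJ' x hx y hy
      have : g ∈ (⊤ : Subgroup G) := trivial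
      rw [h, Subgroup.mem_bot] at this
      rw [this, one_smul] at hgx
      exact hxy hgx
    have h1 := hqp ⊤ inferInstance htop
    constructor
    intro x y
    obtain ⟨g, hg⟩ := h1.exists_smul_eq x y
    exact ⟨g, hg⟩
  have hprim : MulAction.IsPreprimitive G Ω := by
    refine { toIsPretransitive := htr, isTrivialBlock_of_isBlock := ?_ }
    intro B hB
    by_contra hBt
    rw [MulAction.IsTrivialBlock, not_or, Set.not_subsingleton_iff] at hBt
    obtain ⟨hBnt, hBu⟩ := hBt
    obtain ⟨b, hb⟩ := hBnt.nonempty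
    obtain ⟨c, hc⟩ := hΓnt.nonempty
    obtain ⟨g, hg⟩ := htr.exists_smul_eq b c
    have hB' : MulAction.IsBlock G (g • B) := hB.translate g
    have hB'u : g • B ≠ Set.univ := by
      intro h
      apply hBu
      rw [← inv_smul_smul g B, h, Set.smul_set_univ]
    have hmeet : (g • B ∩ Γ).Nonempty := ⟨c, by rw [← hg]; exact Set.smul_mem_smul_set hb, hc⟩
    rcases jordan_block_dichotomy hJ' hB' hmeet with h | h
    · exact not_subset_block hqp hΓnt hJ' hB' hB'u h
    · -- block inside Γ
      have hblkJ : MulAction.IsBlock ↥(fixingSubgroup G Γᶜ)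
          {x : ↥(SubMulAction.ofFixingSubgroup G Γᶜ) | (x : Ω) ∈ g • B} := by
        rw [MulAction.isBlock_iff_smul_eq_or_disjoint]
        intro j
        rcases MulAction.isBlock_iff_smul_eq_or_disjoint.1 hB' (j : G) with h1 | h1
        · left
          ext x
          rw [Set.mem_smul_set_iff_inv_smul_mem]
          show ((j⁻¹ • x : ↥(SubMulAction.ofFixingSubgroup G Γᶜ)) : Ω) ∈ g • B ↔ (x : Ω) ∈ g • B
          conv_rhs => rw [← h1]
          rw [Set.mem_smul_set_iff_inv_smul_mem (a := (j : G)) (A := g • B)]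
          rfl
        · right
          rw [Set.disjoint_left] at h1 ⊢
          rintro x hx hx2
          rw [Set.mem_smul_set_iff_inv_smul_mem] at hx
          apply h1 _ hx2
          rw [Set.mem_smul_set_iff_inv_smul_mem]
          exact hx
      rcases hJp.isTrivialBlock_of_isBlock hblkJ with h1 | h1
      · obtain ⟨x, hx, y, hy, hxy⟩ := hBnt
        have hx1 : g • x ∈ Γ := h (Set.smul_mem_smul_set hx)
        have hy1 : g • y ∈ Γ := h (Set.smul_mem_smul_set hy)
        have hx2 : g • x ∈ SubMulAction.ofFixingSubgroup G Γᶜ := by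
          rw [SubMulAction.mem_ofFixingSubgroup_iff]; simpa using hx1
        have hy2 : g • y ∈ SubMulAction.ofFixingSubgroup G Γᶜ := by
          rw [SubMulAction.mem_ofFixingSubgroup_iff]; simpa using hy1
        have h3 : (⟨g • x, hx2⟩ : ↥(SubMulAction.ofFixingSubgroup G Γᶜ)) ∈
          {x : ↥(SubMulAction.ofFixingSubgroup G Γᶜ) | (x : Ω) ∈ g • B} := Set.smul_mem_smul_set (a := g) hx
        have h4 : (⟨g • y, hy2⟩ : ↥(SubMulAction.ofFixingSubgroup G Γᶜ)) ∈
          {x : ↥(SubMulAction.ofFixingSubgroup G Γᶜ) | (x : Ω) ∈ g • B} := Set.smul_mem_smul_set (a := g) hy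
        have := h1 h3 h4
        apply hxy
        have := congrArg Subtype.val this
        exact smul_left_cancel g this
      · apply not_subset_block hqp hΓnt hJ' hB' hB'u
        intro y hy
        have hy2 : y ∈ SubMulAction.ofFixingSubgroup G Γᶜ := by
          rw [SubMulAction.mem_ofFixingSubgroup_iff]; simpa using hy
        have : (⟨y, hy2⟩ : ↥(SubMulAction.ofFixingSubgroup G Γᶜ)) ∈
          {x : ↥(SubMulAction.ofFixingSubgroup G Γᶜ) | (x : Ω) ∈ g • B} := by rw [h1]; trivial
        exact this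
  have hcompl : (Γᶜ).ncard = Nat.card Ω - Γ.ncard := by rw [Set.ncard_compl]
  obtain ⟨n, hn⟩ : ∃ n, Nat.card Ω - Γ.ncard = n + 1 := ⟨Nat.card Ω - Γ.ncard - 1, by omega⟩
  have h1 := hprim.isMultiplyPreprimitive (s := Γᶜ) (n := n) (by rw [hcompl, hn]) (by omega) hJp
  rw [hn]
  exact h1.isMultiplyPretransitive
end

/-- Let G act faithfully on a finite set in such a way that every non-trivial normal subgroup of G is transitive (G is quasiprimitive). Let Γ be a subset with more than one point and not the whole set, such that the pointwise stabilizer of the complement of Γ acts transitively on Γ (a Jordan set). If that pointwise stabilizer acts primitively on Γ, then G is k-fold transitive where k is one more than the number of points outside Γ (the Jordan set is a trivial one). -/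
theorem result {G Ω : Type*} [Group G] [Finite G] [MulAction G Ω] [FaithfulSMul G Ω] [Finite Ω]
    (hqp : ∀ N : Subgroup G, N.Normal → N ≠ ⊥ → MulAction.IsPretransitive ↥N Ω)
    (Γ : Set Ω) (hΓ1 : 1 < Γ.ncard) (hΓ2 : Γ.ncard < Nat.card Ω)
    (hJ : MulAction.IsPretransitive ↥(fixingSubgroup G Γᶜ) ↥(SubMulAction.ofFixingSubgroup G Γᶜ))
    (hJp : MulAction.IsPreprimitive ↥(fixingSubgroup G Γᶜ) ↥(SubMulAction.ofFixingSubgroup G Γᶜ)) :
    MulAction.IsMultiplyPretransitive G Ω (Nat.card Ω - Γ.ncard + 1) := by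
  exact main hqp Γ hΓ1 hΓ2 hJ hJp

end Cfsg.Agent.S3619
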