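import Cfsg.Statements.S3620
import Cfsg.Agent.H22.Marggraf2

set_option autoImplicit false
set_option linter.all false
open Cfsg

namespace Cfsg.Agent.S3620

open MulAction Cfsg.Agent.H22
open scoped Pointwise

section
variable {G Ω : Type*} [Group G] [Finite G] [MulAction G Ω] [FaithfulSMul G Ω] [Fintype Ω] [DecidableEq Ω]

omit [Finite G] [FaithfulSMul G Ω] [DecidableEq Ω] in
theorem ncard_preimage {X : Type*} [Finite X] (π : Ω → X) (b : ℕ) (hb : ∀ c, (π ⁻¹' {c}).ncard = b) (S : Set X) :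
    (π ⁻¹' S).ncard = b * S.ncard := by
  classical
  haveI : Fintype X := Fintype.ofFinite X
  have h1 : (π ⁻¹' S).ncard = (Finset.univ.filter (fun x => π x ∈ S)).card := by
    rw [← Set.ncard_coe_finset]; congr 1; ext x; simp
  have h2 : S.ncard = (Finset.univ.filter (fun c => c ∈ S)).card := by
    rw [← Set.ncard_coe_finset]; congr 1; ext x; simp
  rw [h1, Finset.card_eq_sum_card_fiberwise (f := π) (t := Finset.univ.filter (fun c => c ∈ S))]
  · rw [Finset.sum_congr rfl (g := fun _ => b), Finset.sum_const, smul_eq_mul, mul_comm, h2]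
    intro c hc
    rw [← hb c, ← Set.ncard_coe_finset]
    congr 1
    ext x
    simp only [Finset.mem_filter, Finset.mem_univ, true_and, Finset.coe_filter, Set.mem_setOf_eq, Set.mem_preimage, Set.mem_singleton_iff] at hc ⊢
    constructor
    · exact fun h => h.2
    · intro h; exact ⟨by rw [h]; exact hc, h⟩
  · intro x hx
    simpa using hx

theorem main
    (hqp : ∀ N : Subgroup G, N.Normal → N ≠ ⊥ → MulAction.IsPretransitive ↥N Ω)
    (Γ : Set Ω) (hΓ1 : 1 < Γ.ncard) (hΓ2 : 2 * Γ.ncard < Fintype.card Ω)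
    (hJ : MulAction.IsPretransitive ↥(fixingSubgroup G Γᶜ) ↥(SubMulAction.ofFixingSubgroup G Γᶜ)) :
    ∀ σ : Equiv.Perm Ω, Equiv.Perm.sign σ = 1 → ∃ x : G, (MulAction.toPerm x : Equiv.Perm Ω) = σ := by
  classical
  have hJ' : JSet G Γ := jordan_elim hJ
  have hcard : Nat.card Ω = Fintype.card Ω := Nat.card_eq_fintype_card
  have hΓnt : Γ.Nontrivial := (Set.one_lt_ncard (Set.toFinite Γ)).1 hΓ1
  have htr : MulAction.IsPretransitive G Ω := by
    have htop : (⊤ : Subgroup G) ≠ ⊥ := by
      intro h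
      obtain ⟨x, hx, y, hy, hxy⟩ := hΓnt
      obtain ⟨g, hg, hgx⟩ := hJ' x hx y hy
      have : g ∈ (⊤ : Subgroup G) := trivial
      rw [h, Subgroup.mem_bot] at this
      rw [this, one_smul] at hgx
      exact hxy hgx
    have h1 := hqp ⊤ inferInstance htop
    constructor
    intro x y
    obtain ⟨g, hg⟩ := h1.exists_smul_eq x y
    exact ⟨g, hg⟩
  by_cases hprim : IsPreprimitive G Ω
  · intro σ hσ
    have h1 := marggraf hprim hJ' hΓ1 (by rw [hcard]; exact hΓ2) (Equiv.Perm.mem_alternatingGroup.2 hσ)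
    obtain ⟨x, hx⟩ := h1
    exact ⟨x, hx⟩
  exfalso
  obtain ⟨α, hα⟩ := hΓnt.nonempty
  haveI hntΩ : Nontrivial Ω := by
    obtain ⟨x, hx, y, hy, hxy⟩ := hΓnt
    exact ⟨x, y, hxy⟩
  have hnco : ¬ IsCoatom (stabilizer G α) := by
    intro h
    exact hprim ((isCoatom_stabilizer_iff_preprimitive G α).1 h)
  have hstop : stabilizer G α ≠ ⊤ := by
    intro h
    obtain ⟨y, hy⟩ := exists_ne α
    obtain ⟨g, hg⟩ := htr.exists_smul_eq α y
    have : g ∈ stabilizer G α := by rw [h]; trivial
    exact hy (hg.symm.trans this)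
  obtain ⟨H, hHco, hH⟩ := (eq_top_or_exists_le_coatom (stabilizer G α)).resolve_left hstop
  have hHne : stabilizer G α ≠ H := fun h => hnco (h ▸ hHco)
  let X := G ⧸ H
  haveI : Finite X := inferInstance
  haveI : Fintype X := Fintype.ofFinite X
  -- the projection
  have hex : ∀ x : Ω, ∃ g : G, g • α = x := fun x => htr.exists_smul_eq α x
  let π : Ω → X := fun x => ((hex x).choose : G ⧸ H)
  have hπ0 : ∀ g : G, π (g • α) = (g : G ⧸ H) := by
    intro g
    have h1 := (hex (g • α)).choose_spec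
    apply QuotientGroup.eq.2
    apply hH
    rw [mem_stabilizer_iff, mul_smul, inv_smul_eq_iff]
    exact h1.symm
  have hπ : ∀ (g : G) (x : Ω), π (g • x) = g • π x := by
    intro g x
    obtain ⟨k, rfl⟩ := hex x
    rw [← mul_smul, hπ0, hπ0]; rfl
  have hπsurj : Function.Surjective π := by
    intro c
    obtain ⟨g, rfl⟩ := QuotientGroup.mk_surjective c
    exact ⟨g • α, hπ0 g⟩
  haveI hXnt : Nontrivial X := by
    by_contra h
    rw [not_nontrivial_iff_subsingleton] at h
    apply hHco.1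
    rw [eq_top_iff]
    intro g _
    have : (g : G ⧸ H) = ((1 : G) : G ⧸ H) := Subsingleton.elim _ _
    have h2 := QuotientGroup.eq.1 this
    simpa using H.inv_mem h2
  have hXt : IsPretransitive G X := inferInstance
  have hXprim : IsPreprimitive G X := by
    rw [← isCoatom_stabilizer_iff_preprimitive G ((1 : G) : G ⧸ H), stabilizer_quotient]
    exact hHco
  -- faithful on X
  have hfaith : ∀ g : G, (∀ c : X, g • c = c) → g = 1 := by
    let N := (toPermHom G X).ker
    have hN : N = ⊥ := by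
      by_contra hN
      have h1 := hqp N inferInstance hN
      obtain ⟨c, d, hcd⟩ := exists_pair_ne X
      obtain ⟨x, rfl⟩ := hπsurj c
      obtain ⟨y, rfl⟩ := hπsurj d
      obtain ⟨n, hn⟩ := h1.exists_smul_eq x y
      apply hcd
      have h2 : (n : G) • π x = π y := by rw [← hπ]; exact congrArg π hn
      rw [← h2]
      have h3 : toPermHom G X (n : G) = 1 := n.2
      have h4 := congrArg (fun σ : Equiv.Perm X => σ (π x)) h3
      exact h4.symm
    intro g hg
    have : g ∈ N := by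
      rw [MonoidHom.mem_ker]
      ext c
      exact hg c
    rwa [hN, Subgroup.mem_bot] at this
  -- fibres
  have hfib : ∀ (g : G) (c : X), g • (π ⁻¹' {c}) = π ⁻¹' {g • c} := by
    intro g c
    ext x
    rw [Set.mem_smul_set_iff_inv_smul_mem, Set.mem_preimage, Set.mem_preimage, Set.mem_singleton_iff,
      Set.mem_singleton_iff, hπ, inv_smul_eq_iff]
  have hblk : ∀ c : X, IsBlock G (π ⁻¹' {c}) := by
    intro c
    rw [isBlock_iff_smul_eq_or_disjoint]
    intro g
    rw [hfib]
    by_cases h : g • c = c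
    · left; rw [h]
    · right
      rw [Set.disjoint_left]
      intro x hx hx'
      exact h (hx.symm.trans hx')
  have hblkne : ∀ c : X, π ⁻¹' {c} ≠ Set.univ := by
    intro c h
    obtain ⟨d, hd⟩ := exists_ne c
    obtain ⟨x, rfl⟩ := hπsurj d
    apply hd
    have : x ∈ π ⁻¹' {c} := by rw [h]; trivial
    exact this
  have hnsub : ∀ c : X, ¬ Γ ⊆ π ⁻¹' {c} := fun c h =>
    not_subset_block hqp hΓnt hJ' (hblk c) (hblkne c) h
  let Γ' : Set X := π '' Γ
  have hfibΓ : ∀ c ∈ Γ', π ⁻¹' {c} ⊆ Γ := by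
    rintro _ ⟨x, hx, rfl⟩
    exact (jordan_block_dichotomy hJ' (hblk (π x)) ⟨x, rfl, hx⟩).resolve_left (hnsub _)
  have hΓeq : Γ = π ⁻¹' Γ' := by
    ext x
    constructor
    · intro hx; exact ⟨x, hx, rfl⟩
    · intro hx; exact hfibΓ _ hx rfl
  obtain ⟨b, hb⟩ : ∃ b, ∀ c, (π ⁻¹' {c}).ncard = b := by
    refine ⟨(π ⁻¹' {((1 : G) : G ⧸ H)}).ncard, fun c => ?_⟩
    obtain ⟨g, hg⟩ := hXt.exists_smul_eq ((1 : G) : G ⧸ H) c
    rw [← hg, ← hfib, Set.ncard_smul_set]
  have hΓc : Γ.ncard = b * Γ'.ncard := by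
    conv_lhs => rw [hΓeq]
    exact ncard_preimage π b hb Γ'
  have hΩc : Fintype.card Ω = b * Nat.card X := by
    rw [← hcard, ← Set.ncard_univ, ← Set.ncard_univ (α := X), ← ncard_preimage π b hb Set.univ, Set.preimage_univ]
  have h2' : 2 * Γ'.ncard < Nat.card X := by
    rw [hΓc, hΩc] at hΓ2
    have : b * (2 * Γ'.ncard) < b * Nat.card X := by
      calc b * (2 * Γ'.ncard) = 2 * (b * Γ'.ncard) := by ring
        _ < b * Nat.card X := hΓ2
    exact lt_of_mul_lt_mul_left this (Nat.zero_le b)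
  have h1' : 1 < Γ'.ncard := by
    rw [Set.one_lt_ncard (Set.toFinite _)]
    have h3 := hnsub (π α)
    rw [Set.not_subset] at h3
    obtain ⟨y, hy, hyα⟩ := h3
    exact ⟨π y, ⟨y, hy, rfl⟩, π α, ⟨α, hα, rfl⟩, hyα⟩
  have hJX : JSet G Γ' := by
    rintro _ ⟨x, hx, rfl⟩ _ ⟨y, hy, rfl⟩
    obtain ⟨g, hg, hgx⟩ := hJ' x hx y hy
    refine ⟨g, ?_, ?_⟩
    · intro c hc
      obtain ⟨z, rfl⟩ := hπsurj c
      rw [← hπ, hg z (fun h => hc ⟨z, h, rfl⟩)]
    · rw [← hπ, hgx]
  have halt := marggraf hXprim hJX h1' h2'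
  have htrX := marggraf_trans hXprim hJX h1' h2'
  have hX5 : 5 ≤ Nat.card X := by omega
  -- the element τ
  obtain ⟨_, ⟨x, hx, rfl⟩, _, ⟨y, hy, rfl⟩, hxy⟩ := (Set.one_lt_ncard (Set.toFinite _)).1 h1'
  obtain ⟨u, huC, hu⟩ := exists_meet_one htrX h1' h2' (C := π x) ⟨x, hx, rfl⟩
  obtain ⟨k, hk, hkx⟩ := hJ' x hx y hy
  set C := π x with hC
  have hkC : k • C ≠ C := by
    rw [hC, ← hπ, hkx]; exact hxy.symm
  have huC' : u⁻¹ • C = C := by rw [inv_smul_eq_iff, huC]
  let k' := u * k * u⁻¹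
  have hk'C : k' • C ≠ C := by
    show (u * k * u⁻¹) • C ≠ C
    rw [mul_smul, mul_smul, huC']
    intro h
    exact hkC (smul_left_cancel u (h.trans huC.symm))
  -- k fixes points outside Γ, k' fixes points outside u • Γ
  have hkf : ∀ p, π p ∉ Γ' → k • p = p := fun p hp => hk p (fun h => hp ⟨p, h, rfl⟩)
  have hkf' : ∀ p, u⁻¹ • π p ∉ Γ' → k' • p = p := fun p hp => by
    show (u * k * u⁻¹) • p = p
    rw [mul_smul, mul_smul, hkf (u⁻¹ • p) (by rw [hπ]; exact hp), smul_inv_smul]
  have hmeet : ∀ c, c ∈ Γ' → u⁻¹ • c ∈ Γ' → c = C := by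
    intro c h3 h4
    by_contra hcC
    have h5 : u⁻¹ • c ≠ C := by
      intro h6
      apply hcC
      rw [inv_smul_eq_iff, huC] at h6
      exact h6
    apply hu _ h4 h5
    rw [smul_inv_smul]; exact h3
  have hkinv : ∀ p, π p ∉ Γ' → k⁻¹ • p = p := fun p hp => by rw [inv_smul_eq_iff, hkf p hp]
  have hkinv' : ∀ p, u⁻¹ • π p ∉ Γ' → k'⁻¹ • p = p := fun p hp => by rw [inv_smul_eq_iff, hkf' p hp]
  let τ : G := k * k' * k⁻¹ * k'⁻¹
  -- on X, τ is a 3-cycle
  have hkXf : ∀ c : X, k • c ≠ c → c ∈ Γ' := by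
    intro c hc
    by_contra h
    obtain ⟨z, rfl⟩ := hπsurj c
    exact hc (by rw [← hπ, hkf z h])
  have hkXf' : ∀ c : X, k' • c ≠ c → u⁻¹ • c ∈ Γ' := by
    intro c hc
    by_contra h
    obtain ⟨z, rfl⟩ := hπsurj c
    exact hc (by rw [← hπ, hkf' z h])
  have hτ3 : (toPermHom G X τ).IsThreeCycle := by
    have h3 := isThreeCycle_commutator (toPermHom G X k) (toPermHom G X k') C hkC hk'C
      (fun c hc1 hc2 => hmeet c (hkXf c hc1) (hkXf' c hc2))
    have h4 : toPermHom G X τ = toPermHom G X k * toPermHom G X k' * (toPermHom G X k)⁻¹ * (toPermHom G X k')⁻¹ := by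
      show toPermHom G X (k * k' * k⁻¹ * k'⁻¹) = _
      rw [map_mul, map_mul, map_mul, map_inv, map_inv]
    rw [h4]; exact h3
  have hCΓ : C ∈ Γ' := ⟨x, hx, rfl⟩
  have hCΓ' : u⁻¹ • C ∈ Γ' := by rw [huC']; exact hCΓ
  -- τ fixes points over classes different from C, kC, k'C
  have hτfix : ∀ p, π p ≠ C → π p ≠ k • C → π p ≠ k' • C → τ • p = p := by
    intro p hp1 hp2 hp3
    show (k * k' * k⁻¹ * k'⁻¹) • p = p
    rw [mul_smul, mul_smul, mul_smul]
    by_cases h3 : u⁻¹ • π p ∈ Γ'
    · -- p in u Γ, not in Γ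
      have h4 : π p ∉ Γ' := fun h => hp1 (hmeet _ h h3)
      have h5 : π (k'⁻¹ • p) ∉ Γ' := by
        intro h
        have h6 : u⁻¹ • π (k'⁻¹ • p) ∈ Γ' := by
          by_contra h7
          have h8 := hkf' _ h7
          rw [smul_inv_smul] at h8
          rw [← h8] at h7
          exact h7 h3
        have h7 := hmeet _ h h6
        rw [hπ, inv_smul_eq_iff] at h7
        exact hp3 h7
      rw [hkinv _ h5, smul_inv_smul, hkf p h4]
    · rw [hkinv' p h3]
      by_cases h4 : π p ∈ Γ'
      · have h5 : u⁻¹ • π (k⁻¹ • p) ∉ Γ' := by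
          intro h
          have h6 : π (k⁻¹ • p) ∈ Γ' := by
            by_contra h7
            have h8 := hkf _ h7
            rw [smul_inv_smul] at h8
            rw [← h8] at h7
            exact h7 h4
          have h7 := hmeet _ h6 h
          rw [hπ, inv_smul_eq_iff] at h7
          exact hp2 h7
        rw [hkf' _ h5, smul_inv_smul]
      · rw [hkinv p h4, hkf' p h3, hkf p h4]
  have hτfix' : ∀ p, τ • π p = π p → τ • p = p := by
    intro p hp
    have hsupp : (toPermHom G X τ).support ⊆ {C, k • C, k' • C} := by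
      intro c hc
      by_contra h
      simp only [Finset.mem_insert, Finset.mem_singleton, not_or] at h
      obtain ⟨z, rfl⟩ := hπsurj c
      rw [Equiv.Perm.mem_support] at hc
      apply hc
      show τ • π z = π z
      rw [← hπ, hτfix z h.1 h.2.1 h.2.2]
    have hc3 : (toPermHom G X τ).support.card = 3 := hτ3.card_support
    have hle : ({C, k • C, k' • C} : Finset X).card ≤ 3 := Finset.card_le_three
    have heq := Finset.eq_of_subset_of_card_le hsupp (by rw [hc3]; exact hle)
    have hpn : π p ∉ ({C, k • C, k' • C} : Finset X) := by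
      rw [← heq, Equiv.Perm.mem_support, not_not]
      exact hp
    simp only [Finset.mem_insert, Finset.mem_singleton, not_or] at hpn
    exact hτfix p hpn.1 hpn.2.1 hpn.2.2
  -- all 3-cycles
  have h3cyc : ∀ ρ : Equiv.Perm X, ρ.IsThreeCycle → ∃ g : G, toPermHom G X g = ρ ∧ ∀ p, ρ (π p) = π p → g • p = p := by
    intro ρ hρ
    have hconj := alternatingGroup.isThreeCycle_isConj (α := X) hX5
      (σ := ⟨toPermHom G X τ, hτ3.mem_alternatingGroup⟩) (τ := ⟨ρ, hρ.mem_alternatingGroup⟩) hτ3 hρ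
    obtain ⟨δ, hδ⟩ := isConj_iff.1 hconj
    obtain ⟨d, hd⟩ := halt δ.2
    have hδ' : toPermHom G X d * toPermHom G X τ * (toPermHom G X d)⁻¹ = ρ := by
      rw [hd]; exact congrArg Subtype.val hδ
    refine ⟨d * τ * d⁻¹, ?_, ?_⟩
    · rw [map_mul, map_mul, map_inv, hδ']
    · intro p hp
      have h4 : τ • π (d⁻¹ • p) = π (d⁻¹ • p) := by
        have h5 : (d * τ * d⁻¹) • π p = π p := by
          have : toPermHom G X (d * τ * d⁻¹) (π p) = π p := by
            rw [map_mul, map_mul, map_inv, hδ']; exact hp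
          exact this
        rw [mul_smul, mul_smul] at h5
        rw [hπ]
        rw [eq_inv_smul_iff]
        exact h5
      have h6 := hτfix' _ h4
      rw [mul_smul, mul_smul, h6, smul_inv_smul]
  -- even elements fixing B0 fix its fibre pointwise
  have heven : ∀ (B0 : X) (σ : Equiv.Perm X), Equiv.Perm.sign σ = 1 → σ B0 = B0 →
      ∃ g : G, toPermHom G X g = σ ∧ ∀ p, π p = B0 → g • p = p := by
    intro B0 σ hσ hσB
    have hiff : ∀ c, σ c ≠ B0 ↔ c ≠ B0 := by
      intro c
      constructor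
      · intro h h'; exact h (by rw [h', hσB])
      · intro h h'; exact h (σ.injective (h'.trans hσB.symm))
    let s : Equiv.Perm {c : X // c ≠ B0} := σ.subtypePerm hiff
    have hs : Equiv.Perm.ofSubtype s = σ := by
      apply Equiv.Perm.ofSubtype_subtypePerm
      intro c hc hcB
      exact hc (by rw [hcB, hσB])
    have hsa : s ∈ alternatingGroup {c : X // c ≠ B0} := by
      rw [Equiv.Perm.mem_alternatingGroup, ← Equiv.Perm.sign_ofSubtype, hs, hσ]
    rw [← Equiv.Perm.closure_three_cycles_eq_alternating] at hsa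
    have key0 : ∀ s ∈ Subgroup.closure {σ : Equiv.Perm {c : X // c ≠ B0} | σ.IsThreeCycle},
        ∃ g : G, toPermHom G X g = Equiv.Perm.ofSubtype s ∧ ∀ p, π p = B0 → g • p = p := by
      intro s hs
      induction hs using Subgroup.closure_induction with
      | mem r hr =>
        have hr3 : (Equiv.Perm.ofSubtype r).IsThreeCycle := by
          show (Equiv.Perm.ofSubtype r).cycleType = {3}
          rw [Equiv.Perm.cycleType_ofSubtype]
          exact hr
        obtain ⟨g, hg1, hg2⟩ := h3cyc _ hr3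
        refine ⟨g, hg1, fun p hp => hg2 p ?_⟩
        rw [hp]
        exact Equiv.Perm.ofSubtype_apply_of_not_mem r (by simp)
      | one => exact ⟨1, by rw [map_one, map_one], fun p _ => one_smul _ _⟩
      | mul a b _ _ ha hb =>
        obtain ⟨g, hg1, hg2⟩ := ha
        obtain ⟨g', hg1', hg2'⟩ := hb
        refine ⟨g * g', by rw [map_mul, map_mul, hg1, hg1'], fun p hp => ?_⟩
        rw [mul_smul, hg2' p hp, hg2 p hp]
      | inv a _ ha =>
        obtain ⟨g, hg1, hg2⟩ := ha
        refine ⟨g⁻¹, by rw [map_inv, map_inv, hg1], fun p hp => ?_⟩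
        rw [inv_smul_eq_iff, hg2 p hp]
    have key := key0 s hsa
    rw [hs] at key
    exact key
  -- conclusion
  let N : Subgroup G := (Equiv.Perm.sign.comp (toPermHom G X)).ker
  have hN : N ≠ ⊥ := by
    intro h
    have h3 : τ ∈ N := by
      rw [MonoidHom.mem_ker]
      exact hτ3.sign
    rw [h, Subgroup.mem_bot] at h3
    rw [h3, map_one] at hτ3
    have := hτ3.card_support
    simp at this
  have hNt := hqp N inferInstance hN
  obtain ⟨h, hhH, hhs⟩ : ∃ h ∈ H, h ∉ stabilizer G α := by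
    by_contra hcon
    push Not at hcon
    exact hHne (le_antisymm hH hcon)
  obtain ⟨n, hn⟩ := hNt.exists_smul_eq α (h • α)
  have hnα : (n : G) • α = h • α := hn
  have hπh : π (h • α) = π α := by
    rw [hπ0]
    have : π α = ((1 : G) : G ⧸ H) := by
      have := hπ0 1
      rwa [one_smul] at this
    rw [this]
    apply QuotientGroup.eq.2
    simpa using H.inv_mem hhH
  obtain ⟨g, hg1, hg2⟩ := heven (π α) (toPermHom G X (n : G)) n.2 (by
    show (n : G) • π α = π α
    rw [← hπ, hnα, hπh])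
  have hgn : g = n := by
    have h3 : (n : G)⁻¹ * g = 1 := by
      apply hfaith
      intro c
      have h4 : toPermHom G X ((n : G)⁻¹ * g) = 1 := by rw [map_mul, map_inv, hg1, inv_mul_cancel]
      exact congrArg (fun σ : Equiv.Perm X => σ c) h4
    exact (inv_mul_eq_one.1 h3).symm
  apply hhs
  rw [mem_stabilizer_iff, ← hnα, ← hgn]
  exact hg2 α rfl

end

/-- Let G act faithfully on a finite set in such a way that every non-trivial normal subgroup of G is transitive (G is quasiprimitive). Let Γ be a subset with more than one point and fewer than half of the points, such that the pointwise stabilizer of the complement of Γ acts transitively on Γ. Then G induces every even permutation of the set (G is the alternating or the symmetric group). -/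
theorem result {G Ω : Type*} [Group G] [Finite G] [MulAction G Ω] [FaithfulSMul G Ω] [Fintype Ω] [DecidableEq Ω]
    (hqp : ∀ N : Subgroup G, N.Normal → N ≠ ⊥ → MulAction.IsPretransitive ↥N Ω)
    (Γ : Set Ω) (hΓ1 : 1 < Γ.ncard) (hΓ2 : 2 * Γ.ncard < Fintype.card Ω)
    (hJ : MulAction.IsPretransitive ↥(fixingSubgroup G Γᶜ) ↥(SubMulAction.ofFixingSubgroup G Γᶜ)) :
    ∀ σ : Equiv.Perm Ω, Equiv.Perm.sign σ = 1 → ∃ x : G, (MulAction.toPerm x : Equiv.Perm Ω) = σ := by
  exact main hqp Γ hΓ1 hΓ2 hJ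

end Cfsg.Agent.S3620
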