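import Cfsg.Statements.S3626
import Mathlib
import Cfsg.Agent.H5.Ree15
import Cfsg.Agent.H5.Ree37

set_option autoImplicit false
open Cfsg

namespace Cfsg.Agent.S3626

/-- Let R be the small Ree group over the field with q = 3^(2m+1) ≥ 27 elements. Then there are finite groups of arbitrarily large order with exactly the same set of element orders as R × R × R. -/
theorem result {K : Type*} [Field K] [Fintype K] {m : ℕ} (hm : 1 ≤ m) (hK : Fintype.card K = 3 ^ (2 * m + 1)) (N : ℕ) :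
    ∃ (H : Type) (_ : Group H) (_ : Fintype H), N < Fintype.card H ∧
      Set.range (orderOf : H → ℕ) = Set.range (orderOf : ↥(Cfsg.Lie.twistedG2 K (3 ^ m)) × ↥(Cfsg.Lie.twistedG2 K (3 ^ m)) × ↥(Cfsg.Lie.twistedG2 K (3 ^ m)) → ℕ) := by
  obtain ⟨σ, h⟩ := Cfsg.Agent.H6.WG2.exists_ctx hK
  haveI := Cfsg.Agent.H5.Ree.finite_ree hK h (Cfsg.Agent.H6.WG2.fl_of_card hK)
  obtain ⟨n, R⟩ := Cfsg.Agent.H5.Ree.ra hm hK
  haveI : CharP K 3 := by
    rw [CharP.charP_iff_prime_eq_zero Nat.prime_three]; exact_mod_cast R.c3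
  exact R.cube (hK ▸ Cfsg.Agent.H5.Ree.rb3 hK) (Cfsg.Agent.H5.Ree.ic hm hK) (Cfsg.Agent.H5.Ree.ux hK) (r := 3 ^ (m + 1)) (by rw [hK]; exact Cfsg.Agent.H5.Ree.r_sq m)
    (by rw [hK]; have := Cfsg.Agent.H5.Ree.r_lt hm; omega) N

end Cfsg.Agent.S3626
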