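import Cfsg.Statements.S3627
import Cfsg.Agent.H22.SpecJ1

set_option autoImplicit false
set_option linter.all false
open Cfsg

namespace Cfsg.Agent.S3627


/-- Let J be the first Janko group. Then there are finite groups of arbitrarily large order with exactly the same set of element orders as J × J × J × J. -/
theorem result (N : ℕ) : ∃ (H : Type) (_ : Group H) (_ : Fintype H), N < Fintype.card H ∧
      Set.range (orderOf : H → ℕ) = Set.range (orderOf : ↥Cfsg.Spor.J1 × ↥Cfsg.Spor.J1 × ↥Cfsg.Spor.J1 × ↥Cfsg.Spor.J1 → ℕ) := by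
  obtain ⟨F, i1, i2, h1, h2⟩ := Cfsg.Agent.H22.J1.exists_big N
  haveI := Fintype.ofFinite F
  refine ⟨F, i1, inferInstance, ?_, ?_⟩
  · rw [← Nat.card_eq_fintype_card]; exact h1
  · rw [h2, Cfsg.Agent.H22.J1.spec_J14]

end Cfsg.Agent.S3627
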