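import Cfsg.Statements.S3639
import Cfsg.Agent.H22.SemiDir
import Cfsg.Agent.H22.CharPolyFour

set_option autoImplicit false
set_option linter.all false
open Cfsg

namespace Cfsg.Agent.S3639

open Cfsg.Agent.H22 Cfsg.Lie
open scoped Matrix

section
variable {F : Type*} [Field F]

/-- the Gram matrix -/
def Jm (F : Type*) [Field F] : Matrix (Fin 4) (Fin 4) F :=
  !![0, 0, 0, 1; 0, 0, 1, 0; 0, 1, 0, 0; 1, 0, 0, 0]

theorem Jm_sq : Jm F * Jm F = 1 := by
  ext i j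
  fin_cases i <;> fin_cases j <;> simp [Jm, Matrix.mul_apply, Fin.sum_univ_four]

theorem hcol {g : GL (Fin 4) F} (hg : g ∈ Sp4 F) (i j : Fin 4) :
    (g : Matrix (Fin 4) (Fin 4) F) 0 i * (g : Matrix (Fin 4) (Fin 4) F) 3 j
      + (g : Matrix (Fin 4) (Fin 4) F) 1 i * (g : Matrix (Fin 4) (Fin 4) F) 2 j
      + (g : Matrix (Fin 4) (Fin 4) F) 2 i * (g : Matrix (Fin 4) (Fin 4) F) 1 j
      + (g : Matrix (Fin 4) (Fin 4) F) 3 i * (g : Matrix (Fin 4) (Fin 4) F) 0 j = Jm F i j := by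
  have hg' : ∀ u v, altForm4 ((g : Matrix (Fin 4) (Fin 4) F) *ᵥ u) ((g : Matrix (Fin 4) (Fin 4) F) *ᵥ v) = altForm4 u v := hg
  have h := hg' (Pi.single i 1) (Pi.single j 1)
  rw [Matrix.mulVec_single_one, Matrix.mulVec_single_one] at h
  simp only [altForm4, Matrix.col_apply] at h
  rw [h]
  fin_cases i <;> fin_cases j <;> simp [Jm, Pi.single_apply]

theorem tJ {g : GL (Fin 4) F} (hg : g ∈ Sp4 F) :
    (g : Matrix (Fin 4) (Fin 4) F)ᵀ * Jm F * (g : Matrix (Fin 4) (Fin 4) F) = Jm F := by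
  ext i j
  rw [← hcol hg i j]
  simp only [Matrix.mul_apply, Fin.sum_univ_four, Matrix.transpose_apply]
  simp [Jm]
  ring

theorem Jinv {g : GL (Fin 4) F} (hg : g ∈ Sp4 F) :
    (g : Matrix (Fin 4) (Fin 4) F) * (Jm F * (g : Matrix (Fin 4) (Fin 4) F)ᵀ * Jm F) = 1 := by
  rw [Matrix.mul_eq_one_comm_of_equiv (Equiv.refl _)]
  rw [mul_assoc, mul_assoc, ← mul_assoc _ (Jm F), tJ hg, Jm_sq]

theorem Jt {g : GL (Fin 4) F} (hg : g ∈ Sp4 F) :
    (g : Matrix (Fin 4) (Fin 4) F) * Jm F * (g : Matrix (Fin 4) (Fin 4) F)ᵀ = Jm F := by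
  have h := Jinv hg
  have h2 := congrArg (fun A => A * Jm F) h
  simp only [one_mul] at h2
  rw [mul_assoc, mul_assoc, mul_assoc, Jm_sq, mul_one] at h2
  rw [mul_assoc]; exact h2

theorem hrow {g : GL (Fin 4) F} (hg : g ∈ Sp4 F) (i j : Fin 4) :
    (g : Matrix (Fin 4) (Fin 4) F) i 0 * (g : Matrix (Fin 4) (Fin 4) F) j 3
      + (g : Matrix (Fin 4) (Fin 4) F) i 1 * (g : Matrix (Fin 4) (Fin 4) F) j 2
      + (g : Matrix (Fin 4) (Fin 4) F) i 2 * (g : Matrix (Fin 4) (Fin 4) F) j 1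
      + (g : Matrix (Fin 4) (Fin 4) F) i 3 * (g : Matrix (Fin 4) (Fin 4) F) j 0 = Jm F i j := by
  rw [← Jt hg]
  simp only [Matrix.mul_apply, Fin.sum_univ_four, Matrix.transpose_apply]
  simp [Jm]
  ring

theorem minor_mul (M N : Matrix (Fin 4) (Fin 4) F) (h2 : (2 : F) = 0) (k l i j : Fin 4)
    (hr : M k 0 * M l 3 + M k 1 * M l 2 + M k 2 * M l 1 + M k 3 * M l 0 = 0)
    (hc : N 0 i * N 3 j + N 1 i * N 2 j + N 2 i * N 1 j + N 3 i * N 0 j = 0) :
    (M * N) k i * (M * N) l j - (M * N) l i * (M * N) k j =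
      (M k 0 * M l 1 - M l 0 * M k 1) * (N 0 i * N 1 j - N 1 i * N 0 j)
      + (M k 0 * M l 2 - M l 0 * M k 2) * (N 0 i * N 2 j - N 2 i * N 0 j)
      + (M k 1 * M l 3 - M l 1 * M k 3) * (N 1 i * N 3 j - N 3 i * N 1 j)
      + (M k 2 * M l 3 - M l 2 * M k 3) * (N 2 i * N 3 j - N 3 i * N 2 j) := by
  simp only [Matrix.mul_apply, Fin.sum_univ_four]
  linear_combination (M k 0 * M l 3 - M l 0 * M k 3) * hc + (N 1 i * N 2 j - N 2 i * N 1 j) * hr
    - ((M k 0 * M l 3 - M l 0 * M k 3) * (N 3 i * N 0 j + N 2 i * N 1 j)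
      + (N 1 i * N 2 j - N 2 i * N 1 j) * (M l 0 * M k 3 + M l 1 * M k 2 + (M k 0 * M l 3 - M l 0 * M k 3))) * h2

theorem star4_mul (h2 : (2 : F) = 0) {g h : GL (Fin 4) F} (hg : g ∈ Sp4 F) (hh : h ∈ Sp4 F) :
    star4 ((g : Matrix (Fin 4) (Fin 4) F) * (h : Matrix (Fin 4) (Fin 4) F)) =
      star4 (g : Matrix (Fin 4) (Fin 4) F) * star4 (h : Matrix (Fin 4) (Fin 4) F) := by
  have key : ∀ k l i j, Jm F k l = 0 → Jm F i j = 0 → _ := fun k l i j h1 h3 =>
    minor_mul (g : Matrix (Fin 4) (Fin 4) F) (h : Matrix (Fin 4) (Fin 4) F) h2 k l i j ((hrow hg k l).trans h1)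
      ((hcol hh i j).trans h3)
  have hJ : ∀ p : Fin 4, Jm F (pairOf p).1 (pairOf p).2 = 0 := by
    intro p
    fin_cases p <;> simp [pairOf, Jm]
  ext p r
  have h3 := key (pairOf p).1 (pairOf p).2 (pairOf r).1 (pairOf r).2 (hJ p) (hJ r)
  simp only [star4, Matrix.of_apply, Matrix.mul_apply (M := Matrix.of _), Fin.sum_univ_four (f := fun _ => _)]
  rw [h3]
  simp [pairOf]

theorem star4_one : star4 (1 : Matrix (Fin 4) (Fin 4) F) = 1 := by
  have p0 : pairOf 0 = (0, 1) := rfl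
  have p1 : pairOf 1 = (0, 2) := rfl
  have p2 : pairOf 2 = (1, 3) := rfl
  have p3 : pairOf 3 = (2, 3) := rfl
  ext p r
  fin_cases p <;> fin_cases r <;> simp [star4, p0, p1, p2, p3, Matrix.one_apply]

end

section
variable {F : Type*} [Field F] [CharP F 2]

theorem map_pow_mul (n : ℕ) (M N : Matrix (Fin 4) (Fin 4) F) :
    (M * N).map (fun x => x ^ 2 ^ n) = M.map (fun x => x ^ 2 ^ n) * N.map (fun x => x ^ 2 ^ n) := by
  haveI : Fact (Nat.Prime 2) := ⟨Nat.prime_two⟩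
  have h : (fun x : F => x ^ 2 ^ n) = ⇑(iterateFrobenius F 2 n) := by
    funext x; rw [iterateFrobenius_def]
  rw [h, Matrix.map_mul]

theorem map_pow_one (n : ℕ) :
    (1 : Matrix (Fin 4) (Fin 4) F).map (fun x => x ^ 2 ^ n) = 1 := by
  apply Matrix.map_one
  · exact zero_pow (by positivity)
  · exact one_pow _

/-- the defining set of the Suzuki group is a subgroup -/
def szSub (F : Type*) [Field F] [CharP F 2] (n : ℕ) : Subgroup (GL (Fin 4) F) where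
  carrier := {g | g ∈ Sp4 F ∧ star4 (g : Matrix (Fin 4) (Fin 4) F) = (g : Matrix (Fin 4) (Fin 4) F).map (fun x => x ^ 2 ^ n)}
  mul_mem' {g h} hg hh := by
    refine ⟨(Sp4 F).mul_mem hg.1 hh.1, ?_⟩
    rw [Units.val_mul, star4_mul CharTwo.two_eq_zero hg.1 hh.1, hg.2, hh.2, map_pow_mul]
  one_mem' := by
    refine ⟨(Sp4 F).one_mem, ?_⟩
    rw [Units.val_one, star4_one, map_pow_one]
  inv_mem' {g} hg := by
    refine ⟨(Sp4 F).inv_mem hg.1, ?_⟩
    have h1 : star4 ((g⁻¹ : GL (Fin 4) F) : Matrix (Fin 4) (Fin 4) F) * star4 (g : Matrix (Fin 4) (Fin 4) F) = 1 := by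
      rw [← star4_mul CharTwo.two_eq_zero ((Sp4 F).inv_mem hg.1) hg.1, ← Units.val_mul, inv_mul_cancel, Units.val_one, star4_one]
    rw [hg.2] at h1
    have h2 : (g : Matrix (Fin 4) (Fin 4) F).map (fun x => x ^ 2 ^ n) * ((g⁻¹ : GL (Fin 4) F) : Matrix (Fin 4) (Fin 4) F).map (fun x => x ^ 2 ^ n) = 1 := by
      rw [← map_pow_mul, ← Units.val_mul, mul_inv_cancel, Units.val_one, map_pow_one]
    calc star4 ((g⁻¹ : GL (Fin 4) F) : Matrix (Fin 4) (Fin 4) F)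
        = star4 ((g⁻¹ : GL (Fin 4) F) : Matrix (Fin 4) (Fin 4) F) * ((g : Matrix (Fin 4) (Fin 4) F).map (fun x => x ^ 2 ^ n) * ((g⁻¹ : GL (Fin 4) F) : Matrix (Fin 4) (Fin 4) F).map (fun x => x ^ 2 ^ n)) := by rw [h2, mul_one]
      _ = _ := by rw [← mul_assoc, h1, one_mul]

theorem sz_le (n : ℕ) : Sz F (2 ^ n) ≤ szSub F n := by
  rw [Sz, Subgroup.closure_le]
  intro g hg
  exact hg

theorem det_sp4 {g : GL (Fin 4) F} (hg : g ∈ Sp4 F) : (g : Matrix (Fin 4) (Fin 4) F).det = 1 := by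
  have h := congrArg Matrix.det (Jinv hg)
  rw [Matrix.det_mul, Matrix.det_mul, Matrix.det_mul, Matrix.det_transpose, Matrix.det_one] at h
  have h1 : (Jm F).det * (Jm F).det = 1 := by rw [← Matrix.det_mul, Jm_sq, Matrix.det_one]
  have h2 : (g : Matrix (Fin 4) (Fin 4) F).det * (g : Matrix (Fin 4) (Fin 4) F).det = 1 := by
    linear_combination h - (g : Matrix (Fin 4) (Fin 4) F).det * (g : Matrix (Fin 4) (Fin 4) F).det * h1
  have h3 : ((g : Matrix (Fin 4) (Fin 4) F).det - 1) ^ 2 = 0 := by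
    have h4 : (2 : F) = 0 := CharTwo.two_eq_zero
    linear_combination h2 + (1 - (g : Matrix (Fin 4) (Fin 4) F).det) * h4
  have h5 : (g : Matrix (Fin 4) (Fin 4) F).det - 1 = 0 := by
    exact pow_eq_zero_iff (two_ne_zero) |>.1 h3
  linear_combination h5

theorem trace_adj {g : GL (Fin 4) F} (hg : g ∈ Sp4 F) :
    (g : Matrix (Fin 4) (Fin 4) F).adjugate.trace = (g : Matrix (Fin 4) (Fin 4) F).trace := by
  have h : (g : Matrix (Fin 4) (Fin 4) F).adjugate = Jm F * (g : Matrix (Fin 4) (Fin 4) F)ᵀ * Jm F := by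
    calc (g : Matrix (Fin 4) (Fin 4) F).adjugate
        = (g : Matrix (Fin 4) (Fin 4) F).adjugate * ((g : Matrix (Fin 4) (Fin 4) F) * (Jm F * (g : Matrix (Fin 4) (Fin 4) F)ᵀ * Jm F)) := by
          rw [Jinv hg, mul_one]
      _ = _ := by rw [← mul_assoc, Matrix.adjugate_mul, det_sp4 hg, one_smul, one_mul]
  rw [h, Matrix.trace_mul_comm, ← mul_assoc, Jm_sq, one_mul, Matrix.trace_transpose]

theorem e2_eq {n : ℕ} {g : GL (Fin 4) F} (hg : g ∈ szSub F n) :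
    e2 (g : Matrix (Fin 4) (Fin 4) F) = (g : Matrix (Fin 4) (Fin 4) F).trace ^ 2 ^ n := by
  haveI : Fact (Nat.Prime 2) := ⟨Nat.prime_two⟩
  have h2 : (2 : F) = 0 := CharTwo.two_eq_zero
  have ht : (star4 (g : Matrix (Fin 4) (Fin 4) F)).trace = (g : Matrix (Fin 4) (Fin 4) F).trace ^ 2 ^ n := by
    rw [hg.2]
    have : ∀ x : F, x ^ 2 ^ n = iterateFrobenius F 2 n x := fun x => by rw [iterateFrobenius_def]
    simp only [Matrix.trace, Matrix.diag_apply, Matrix.map_apply]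
    rw [this, map_sum]
    exact Finset.sum_congr rfl (fun i _ => this _)
  rw [← ht]
  have c03 := hcol hg.1 0 3
  have r03 := hrow hg.1 0 3
  have c12 := hcol hg.1 1 2
  have e03 : Jm F 0 3 = 1 := by simp [Jm]
  have e12 : Jm F 1 2 = 1 := by simp [Jm]
  rw [e03] at c03 r03
  rw [e12] at c12
  simp only [e2, Matrix.trace, Matrix.diag_apply, Fin.sum_univ_four, star4, Matrix.of_apply]
  simp [pairOf]
  generalize (g : Matrix (Fin 4) (Fin 4) F) = M at *
  linear_combination r03 + c12 - (M 0 3 * M 3 0 + M 1 2 * M 2 1 + M 0 1 * M 3 2 + M 0 2 * M 3 1 - 1) * h2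

theorem pow_four {n : ℕ} {g : GL (Fin 4) F} (hg : g ∈ szSub F n) (u : Fin 4 → F) (hu : u ≠ 0)
    (hgu : (g : Matrix (Fin 4) (Fin 4) F) *ᵥ u = u) : g ^ 4 = 1 := by
  have h2 : (2 : F) = 0 := CharTwo.two_eq_zero
  have hCH := cayley_hamilton_four (g : Matrix (Fin 4) (Fin 4) F)
  rw [trace_adj hg.1, det_sp4 hg.1, e2_eq hg] at hCH
  set M := (g : Matrix (Fin 4) (Fin 4) F) with hM
  have hp : ∀ k : ℕ, (M ^ k) *ᵥ u = u := by
    intro k
    induction k with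
    | zero => rw [pow_zero, Matrix.one_mulVec]
    | succ k ih => rw [pow_succ, ← Matrix.mulVec_mulVec, hgu, ih]
  have h1 := congrArg (fun A => A *ᵥ u) hCH
  simp only [Matrix.add_mulVec, Matrix.sub_mulVec, Matrix.smul_mulVec, hp, hgu, Matrix.one_mulVec, Matrix.zero_mulVec] at h1
  have h3 : (1 - M.trace + M.trace ^ 2 ^ n - M.trace + 1) • u = 0 := by
    rw [← h1]; module
  have h4 : 1 - M.trace + M.trace ^ 2 ^ n - M.trace + 1 = 0 := (smul_eq_zero.1 h3).resolve_right hu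
  have h5 : M.trace ^ 2 ^ n = 0 := by
    linear_combination h4 - (1 - M.trace) * h2
  have h6 : M.trace = 0 := pow_eq_zero_iff (by positivity) |>.1 h5
  rw [h6, zero_pow (by positivity)] at hCH
  simp only [zero_smul, sub_zero, add_zero, one_smul] at hCH
  have h7 : M ^ 4 = 1 := by
    have h8 : (1 : Matrix (Fin 4) (Fin 4) F) + 1 = 0 := by
      have : (1 : Matrix (Fin 4) (Fin 4) F) + 1 = (2 : F) • 1 := by rw [two_smul]
      rw [this, h2, zero_smul]
    calc M ^ 4 = (M ^ 4 + 1) + (- (1 + 1) + 1) := by abel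
      _ = 1 := by rw [hCH, h8]; simp
  apply Units.ext
  rw [Units.val_pow_eq_pow_val, Units.val_one]
  exact h7

/-- the linear action -/
def glHom (n : ℕ) (F : Type*) [Field F] : GL (Fin n) F →* AddMonoid.End (Fin n → F) where
  toFun g := ((g : Matrix (Fin n) (Fin n) F).mulVecLin).toAddMonoidHom
  map_one' := by
    ext v i
    show ((1 : Matrix (Fin n) (Fin n) F) *ᵥ v) i = v i
    rw [Matrix.one_mulVec]
  map_mul' g h := by
    ext v i
    show (((g : Matrix (Fin n) (Fin n) F) * (h : Matrix (Fin n) (Fin n) F)) *ᵥ v) i =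
      ((g : Matrix (Fin n) (Fin n) F) *ᵥ ((h : Matrix (Fin n) (Fin n) F) *ᵥ v)) i
    rw [Matrix.mulVec_mulVec]

omit [CharP F 2] in
theorem glHom_apply (n : ℕ) (g : GL (Fin n) F) (v : Fin n → F) :
    glHom n F g v = (g : Matrix (Fin n) (Fin n) F) *ᵥ v := rfl

/-- the antidiagonal element as an element of GL -/
def Jg (F : Type*) [Field F] : GL (Fin 4) F := ⟨Jm F, Jm F, Jm_sq, Jm_sq⟩

theorem Jg_mem (n : ℕ) : Jg F ∈ Sz F (2 ^ n) := by
  apply Subgroup.subset_closure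
  refine ⟨?_, ?_⟩
  · show ∀ u v, altForm4 (Jm F *ᵥ u) (Jm F *ᵥ v) = altForm4 u v
    intro u v
    simp [altForm4, Jm, Matrix.mulVec, dotProduct, Fin.sum_univ_four]
    ring
  · show star4 (Jm F) = (Jm F).map (fun x => x ^ 2 ^ n)
    have h0 : (0 : F) ^ 2 ^ n = 0 := zero_pow (by positivity)
    have h1 : (-1 : F) = 1 := by
      have h2 : (2 : F) = 0 := CharTwo.two_eq_zero
      linear_combination -h2
    ext p r
    fin_cases p <;> fin_cases r <;> simp [star4, pairOf, Jm, h0, h1]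

end

theorem main {F : Type*} [Field F] [Fintype F] {m : ℕ} (hm : 1 ≤ m) (hF : Fintype.card F = 2 ^ (2 * m + 1)) (N : ℕ) :
    ∃ (H : Type) (_ : Group H) (_ : Fintype H), N < Nat.card H ∧ ((∀ r : ℕ, r.Prime → (r ∣ Nat.card ↥(Cfsg.Lie.Sz F (2 ^ (m + 1))) ↔ r ∣ Nat.card H)) ∧
      (∀ r s : ℕ, r.Prime → s.Prime → r ≠ s → ((∃ x : ↥(Cfsg.Lie.Sz F (2 ^ (m + 1))), orderOf x = r * s) ↔ (∃ y : H, orderOf y = r * s)))) := by
  classical
  haveI : Fact (Nat.Prime 2) := ⟨Nat.prime_two⟩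
  haveI : CharP F 2 := by
    obtain ⟨p, hp⟩ := CharP.exists F
    haveI := hp
    obtain ⟨n, hpp, hn⟩ := FiniteField.card F p
    have : p ∣ 2 ^ (2 * m + 1) := by
      rw [← hF, hn]; exact dvd_pow_self p n.ne_zero
    have h2 : p = 2 := (Nat.prime_dvd_prime_iff_eq hpp Nat.prime_two).1 (hpp.dvd_of_dvd_pow this)
    rw [← h2]; exact hp
  let S := ↥(Cfsg.Lie.Sz F (2 ^ (m + 1)))
  let ρ : S →* AddMonoid.End (Fin 4 → F) := (glHom 4 F).comp (Subgroup.subtype _)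
  have hV : ∀ v : Fin 4 → F, 2 • v = 0 := fun v => by
    funext i
    show 2 • v i = 0
    rw [two_nsmul]; exact CharTwo.add_self_eq_zero _
  have hfix : ∀ s : S, ∀ v : Fin 4 → F, v ≠ 0 → ρ s v = v → ∃ j : ℕ, orderOf s = 2 ^ j := by
    intro s v hv hs
    have h1 := pow_four (sz_le (m + 1) s.2) v hv hs
    have h2 : s ^ 4 = 1 := Subtype.ext h1
    have h3 : orderOf s ∣ 2 ^ 2 := orderOf_dvd_of_pow_eq_one h2
    obtain ⟨k, -, hk⟩ := (Nat.dvd_prime_pow Nat.prime_two).1 h3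
    exact ⟨k, hk⟩
  have h2S : 2 ∣ Nat.card S := by
    let j : S := ⟨Jg F, Jg_mem (m + 1)⟩
    have hj : orderOf j = 2 := by
      apply orderOf_eq_prime
      · apply Subtype.ext
        apply Units.ext
        show (Jm F) ^ 2 = 1
        rw [pow_two, Jm_sq]
      · intro h
        have h1 := congrArg (fun x : S => ((x : GL (Fin 4) F) : Matrix (Fin 4) (Fin 4) F) 0 0) h
        have h2 : (Jm F) 0 0 = (1 : Matrix (Fin 4) (Fin 4) F) 0 0 := h1
        simp [Jm] at h2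
    rw [← hj]
    exact orderOf_dvd_natCard j
  obtain ⟨H, i1, i2, h1, h2, h3⟩ := exists_same_prime_graph ρ Nat.prime_two hV h2S hfix N
  exact ⟨H, i1, i2, h1, h2, h3⟩

/-- Let S be the Suzuki group over the field with q = 2^(2m+1) ≥ 8 elements. Then there are finite groups of arbitrarily large order with the same prime graph as S. -/
theorem result {F : Type*} [Field F] [Fintype F] {m : ℕ} (hm : 1 ≤ m) (hF : Fintype.card F = 2 ^ (2 * m + 1)) (N : ℕ) :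
    ∃ (H : Type) (_ : Group H) (_ : Fintype H), N < Fintype.card H ∧ ((∀ r : ℕ, r.Prime → (r ∣ Nat.card ↥(Cfsg.Lie.Sz F (2 ^ (m + 1))) ↔ r ∣ Nat.card H)) ∧
      (∀ r s : ℕ, r.Prime → s.Prime → r ≠ s → ((∃ x : ↥(Cfsg.Lie.Sz F (2 ^ (m + 1))), orderOf x = r * s) ↔ (∃ y : H, orderOf y = r * s)))) := by
  obtain ⟨H, i1, i2, h1, h2, h3⟩ := main hm hF N
  exact ⟨H, i1, i2, by rw [← Nat.card_eq_fintype_card]; exact h1, h2, h3⟩

end Cfsg.Agent.S3639
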