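import Cfsg.Statements.S3641
import Cfsg.Agent.H29.SylNum2
import Cfsg.Agent.S0732
import Cfsg.Agent.H5.Small
import Cfsg.Agent.H5.Dk12
import Cfsg.Agent.H7.GolayM24b

set_option autoImplicit false
open Cfsg

namespace Cfsg.Agent.S3641

set_option linter.style.haveILetI false
open Subgroup
open scoped Pointwise
open Cfsg.Agent.H29.SylNum

abbrev PS := Matrix.ProjectiveSpecialLinearGroup (Fin 2) (ZMod 17)
abbrev SL := Matrix.SpecialLinearGroup (Fin 2) (ZMod 17)
abbrev PG := Matrix.ProjGenLinGroup (Fin 2) (ZMod 17)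

instance f2 : Fact (Nat.Prime 2) := ⟨by norm_num⟩
instance f3 : Fact (Nat.Prime 3) := ⟨by norm_num⟩
instance f5 : Fact (Nat.Prime 5) := ⟨by norm_num⟩
instance f19 : Fact (Nat.Prime 19) := ⟨by norm_num⟩

noncomputable def fPS : SL →* PS := QuotientGroup.mk' (Subgroup.center SL)

theorem fPS_eq (x y : SL) (h : fPS x = fPS y) : ∃ r : ZMod 17, r ^ 2 = 1 ∧ y.1 = r • x.1 := by
  have h1 : x⁻¹ * y ∈ Subgroup.center SL := QuotientGroup.eq.1 h
  obtain ⟨r, hr, hs⟩ := Matrix.SpecialLinearGroup.mem_center_iff.1 h1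
  rw [Fintype.card_fin] at hr
  refine ⟨r, hr, ?_⟩
  have h2 : y = x * (x⁻¹ * y) := by group
  rw [h2, Matrix.SpecialLinearGroup.coe_mul, ← hs]
  rw [Matrix.scalar_apply, ← Matrix.smul_one_eq_diagonal, Matrix.mul_smul, mul_one]

theorem fPS_one (x : SL) (r : ZMod 17) (hr : r ^ 2 = 1) (hx : x.1 = r • (1 : Matrix (Fin 2) (Fin 2) (ZMod 17))) : fPS x = 1 := by
  apply (QuotientGroup.eq_one_iff x).2
  rw [Matrix.SpecialLinearGroup.mem_center_iff]
  refine ⟨r, by rw [Fintype.card_fin]; exact hr, ?_⟩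
  rw [hx, Matrix.scalar_apply, Matrix.smul_one_eq_diagonal]

theorem card_PS : Nat.card PS = 2448 := by
  have h := Cfsg.Agent.H5.card_PSL2 (F := ZMod 17) (q := 17) (ZMod.card 17)
  have e : Nat.gcd 2 (17 - 1) = 2 := by norm_num
  rw [e] at h
  have e2 : 17 * (17 ^ 2 - 1) = 4896 := by norm_num
  rw [e2] at h
  have h' : 2 * Nat.card PS = 4896 := h
  omega

theorem psl3 : 68 ≤ Nat.card (Sylow 3 PS) :=
  bound3 fPS fPS_eq fPS_one (fun P => by
    have := Cfsg.Agent.H9.Syl.card_sylow_of_card P (k := 2) (m := 272) (by rw [card_PS]; norm_num) (by norm_num)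
    exact this.le)

theorem psl2 : 62 ≤ Nat.card (Sylow 2 PS) :=
  bound2 fPS fPS_eq fPS_one (fun P => by
    have := Cfsg.Agent.H9.Syl.card_sylow_of_card P (k := 4) (m := 153) (by rw [card_PS]; norm_num) (by norm_num)
    exact this.le)

noncomputable def gPG : PS →* PG :=
  QuotientGroup.lift (Subgroup.center SL) ((Matrix.ProjGenLinGroup.mk).comp Matrix.SpecialLinearGroup.toGL) (by
    intro x hx
    obtain ⟨r, hr, hs⟩ := Matrix.SpecialLinearGroup.mem_center_iff.1 hx
    rw [MonoidHom.mem_ker, MonoidHom.comp_apply, Matrix.ProjGenLinGroup.mk_eq_one, Subgroup.mem_center_iff]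
    intro g
    apply Units.ext
    have e : ((Matrix.SpecialLinearGroup.toGL x : GL (Fin 2) (ZMod 17)) : Matrix (Fin 2) (Fin 2) (ZMod 17)) = x.1 := rfl
    rw [Units.val_mul, Units.val_mul, e, ← hs]
    exact (Matrix.scalar_commute r (fun _ => mul_comm _ _) g.1).eq.symm)

theorem gPG_inj : Function.Injective gPG := by
  rw [injective_iff_map_eq_one]
  intro z
  obtain ⟨x, rfl⟩ := QuotientGroup.mk'_surjective (Subgroup.center SL) z
  intro h
  have h1 : Matrix.ProjGenLinGroup.mk (Matrix.SpecialLinearGroup.toGL x : GL (Fin 2) (ZMod 17)) = 1 := h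
  rw [Matrix.ProjGenLinGroup.mk_eq_one, Matrix.GeneralLinearGroup.center_eq_range_scalar] at h1
  obtain ⟨u, hu⟩ := h1
  have e : ((Matrix.SpecialLinearGroup.toGL x : GL (Fin 2) (ZMod 17)) : Matrix (Fin 2) (Fin 2) (ZMod 17)) = x.1 := rfl
  have h2 : x.1 = Matrix.scalar (Fin 2) (u : ZMod 17) := by
    rw [← e, ← hu]; rfl
  have h3 := x.2
  rw [h2, Matrix.scalar_apply, Matrix.det_diagonal] at h3
  simp at h3
  apply (QuotientGroup.eq_one_iff x).2
  rw [Matrix.SpecialLinearGroup.mem_center_iff]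
  exact ⟨u, by rw [Fintype.card_fin]; simpa using h3, h2.symm⟩

theorem pgl3 : 68 ≤ Nat.card (Sylow 3 PG) := by
  haveI : Finite PG := inferInstanceAs (Finite (GL (Fin 2) (ZMod 17) ⧸ Subgroup.center (GL (Fin 2) (ZMod 17))))
  exact psl3.trans (card_sylow_le_of_inj 3 gPG gPG_inj)

theorem pgl2 : 62 ≤ Nat.card (Sylow 2 PG) := by
  haveI : Finite PG := inferInstanceAs (Finite (GL (Fin 2) (ZMod 17) ⧸ Subgroup.center (GL (Fin 2) (ZMod 17))))
  exact psl2.trans (card_sylow_le_of_inj 2 gPG gPG_inj)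

section main
variable {G : Type*} [Group G] [Finite G]

theorem prime_of (r n : ℕ) (hr : r.Prime) (h : Nat.card (Sylow r G) = n) : n % r = 1 % r := by
  haveI : Fact r.Prime := ⟨hr⟩
  have := card_sylow_modEq_one r G
  rw [h] at this
  exact this

theorem numbers (hNS : {c : ℕ | ∃ r : ℕ, r.Prime ∧ r ∣ Nat.card G ∧ c = Nat.card (Sylow r G)} = ({18, 136, 153} : Set ℕ)) :
    Nat.card (Sylow 17 G) = 18 ∧ Nat.card (Sylow 3 G) = 136 ∧ Nat.card (Sylow 2 G) = 153 ∧
    ∀ r : ℕ, r.Prime → r ∣ Nat.card G → r = 2 ∨ r = 3 ∨ r = 17 ∨ (r = 5 ∧ Nat.card (Sylow 5 G) = 136) ∨ (r = 19 ∧ Nat.card (Sylow 19 G) = 153) := by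
  have hall : ∀ r : ℕ, r.Prime → r ∣ Nat.card G → Nat.card (Sylow r G) = 18 ∨ Nat.card (Sylow r G) = 136 ∨ Nat.card (Sylow r G) = 153 := by
    intro r hr hd
    have h1 : Nat.card (Sylow r G) ∈ {c : ℕ | ∃ r : ℕ, r.Prime ∧ r ∣ Nat.card G ∧ c = Nat.card (Sylow r G)} := ⟨r, hr, hd, rfl⟩
    rw [hNS] at h1
    simpa using h1
  have h18 : ∀ r : ℕ, r.Prime → Nat.card (Sylow r G) = 18 → r = 17 := by
    intro r hr h
    have h1 := prime_of r 18 hr h
    have h2 : r ∣ 17 := (Nat.modEq_iff_dvd' (by norm_num)).1 (show 1 ≡ 18 [MOD r] from h1.symm)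
    exact (Nat.prime_dvd_prime_iff_eq hr (by norm_num)).1 h2
  have h136 : ∀ r : ℕ, r.Prime → Nat.card (Sylow r G) = 136 → r = 3 ∨ r = 5 := by
    intro r hr h
    have h1 := prime_of r 136 hr h
    have h2 : r ∣ 135 := (Nat.modEq_iff_dvd' (by norm_num)).1 (show 1 ≡ 136 [MOD r] from h1.symm)
    have h3 : r ∈ Nat.primeFactors 135 := Nat.mem_primeFactors.2 ⟨hr, h2, by norm_num⟩
    have h4 : Nat.primeFactors 135 = {3, 5} := by decide +kernel
    rw [h4] at h3
    simpa using h3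
  have h153 : ∀ r : ℕ, r.Prime → Nat.card (Sylow r G) = 153 → r = 2 ∨ r = 19 := by
    intro r hr h
    have h1 := prime_of r 153 hr h
    have h2 : r ∣ 152 := (Nat.modEq_iff_dvd' (by norm_num)).1 (show 1 ≡ 153 [MOD r] from h1.symm)
    have h3 : r ∈ Nat.primeFactors 152 := Nat.mem_primeFactors.2 ⟨hr, h2, by norm_num⟩
    have h4 : Nat.primeFactors 152 = {2, 19} := by decide +kernel
    rw [h4] at h3
    simpa using h3
  have e18 : (18 : ℕ) ∈ {c : ℕ | ∃ r : ℕ, r.Prime ∧ r ∣ Nat.card G ∧ c = Nat.card (Sylow r G)} := by rw [hNS]; simp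
  obtain ⟨r, hr, hrG, hrc⟩ := e18
  have hr17 := h18 r hr hrc.symm
  subst hr17
  haveI : Fact (Nat.Prime 17) := ⟨hr⟩
  obtain ⟨P⟩ : Nonempty (Sylow 17 G) := inferInstance
  have hd : 18 ∣ Nat.card G := by
    rw [hrc]
    exact (P.card_dvd_index).trans (Subgroup.index_dvd_card _)
  have h2G : 2 ∣ Nat.card G := (by norm_num : 2 ∣ 18).trans hd
  have h3G : 3 ∣ Nat.card G := (by norm_num : 3 ∣ 18).trans hd
  refine ⟨hrc.symm, ?_, ?_, ?_⟩
  · rcases hall 3 (by norm_num) h3G with h | h | h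
    · exact absurd (h18 3 (by norm_num) h) (by norm_num)
    · exact h
    · rcases h153 3 (by norm_num) h with h | h <;> omega
  · rcases hall 2 (by norm_num) h2G with h | h | h
    · exact absurd (h18 2 (by norm_num) h) (by norm_num)
    · rcases h136 2 (by norm_num) h with h | h <;> omega
    · exact h
  · intro r hr hrG
    rcases hall r hr hrG with h | h | h
    · exact Or.inr (Or.inr (Or.inl (h18 r hr h)))
    · rcases h136 r hr h with h' | h'
      · exact Or.inr (Or.inl h')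
      · subst h'; exact Or.inr (Or.inr (Or.inr (Or.inl ⟨rfl, h⟩)))
    · rcases h153 r hr h with h' | h'
      · exact Or.inl h'
      · subst h'; exact Or.inr (Or.inr (Or.inr (Or.inr ⟨rfl, h⟩)))

/-- order of the permutation group on the Sylow 17-subgroups -/
theorem card_range (h17 : Nat.card (Sylow 17 G) = 18) :
    MulAction.IsPretransitive (MulAction.toPermHom G (Sylow 17 G)).range (Sylow 17 G) ∧
    ∃ d : ℕ, d < 17 ∧ Nat.card (MulAction.toPermHom G (Sylow 17 G)).range = (17 + 1) * 17 * d := by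
  classical
  set X := Sylow 17 G with hX
  haveI : Finite X := inferInstance
  set φ := MulAction.toPermHom G X with hφ
  set H := φ.range with hH
  have hHs : ∀ (g : G) (x : X), (⟨φ g, ⟨g, rfl⟩⟩ : H) • x = g • x := fun _ _ => rfl
  haveI htr : MulAction.IsPretransitive H X := ⟨fun x y => by
    obtain ⟨g, hg⟩ := MulAction.exists_smul_eq G x y
    exact ⟨⟨φ g, ⟨g, rfl⟩⟩, hg⟩⟩
  refine ⟨htr, ?_⟩
  obtain ⟨P⟩ : Nonempty X := inferInstance
  -- P̄
  set Pb : Subgroup (Equiv.Perm X) := (P : Subgroup G).map φ with hPb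
  have hPbp : IsPGroup 17 Pb := P.2.map _
  have hPbH : Pb ≤ H := Subgroup.map_le_range _ _
  have hcX : Nat.card X = 18 := h17
  have hPb17 : Nat.card Pb ∣ 17 := by
    obtain ⟨k, hk⟩ := IsPGroup.iff_card.1 hPbp
    have h1 : Nat.card Pb ∣ Nat.factorial 18 := by
      have := Subgroup.card_subgroup_dvd_card Pb
      rwa [Nat.card_perm, hcX] at this
    rw [hk] at h1 ⊢
    rcases Nat.lt_or_ge k 2 with h | h
    · interval_cases k <;> norm_num
    · exact absurd ((pow_dvd_pow 17 h).trans h1) (by decide +kernel)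
  -- P acts transitively on the others
  have hPtr : ∀ Q R : X, Q ≠ P → R ≠ P → ∃ y ∈ (P : Subgroup G), y • Q = R := by
    intro Q R hQ hR
    haveI : Finite (MulAction.orbit (P : Subgroup G) Q) := inferInstance
    obtain ⟨k, hk⟩ := P.2.card_orbit Q
    have hsub : ∀ S ∈ MulAction.orbit (P : Subgroup G) Q, S ≠ P := by
      rintro S ⟨y, rfl⟩ h
      apply hQ
      have h2 : (y : G) • P = P := (Cfsg.Agent.H9.Count.smul_eq_iff_of_mem P.2 y.2).2 y.2
      have h3 : (y : G) • Q = P := h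
      have h4 : (y : G) • Q = (y : G) • P := h3.trans h2.symm
      exact smul_left_cancel _ h4
    have hk0 : k ≠ 0 := by
      rintro rfl
      rw [pow_zero, Nat.card_eq_one_iff_unique] at hk
      have hfix : Q ∈ MulAction.fixedPoints (P : Subgroup G) X := by
        intro y
        have h1 : y • Q ∈ MulAction.orbit (P : Subgroup G) Q := ⟨y, rfl⟩
        have h2 : Q ∈ MulAction.orbit (P : Subgroup G) Q := MulAction.mem_orbit_self Q
        exact congrArg Subtype.val (@Subsingleton.elim _ hk.1 (⟨_, h1⟩ : MulAction.orbit (P : Subgroup G) Q) ⟨_, h2⟩)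
      rw [Cfsg.Agent.H9.Count.fixedPoints_sylow P] at hfix
      exact hQ hfix
    have hcard : 17 ≤ Set.ncard (MulAction.orbit (P : Subgroup G) Q) := by
      rw [← Nat.card_coe_set_eq, hk]
      calc 17 = 17 ^ 1 := by norm_num
        _ ≤ 17 ^ k := Nat.pow_le_pow_right (by norm_num) (Nat.one_le_iff_ne_zero.2 hk0)
    have hcompl : Set.ncard ({P}ᶜ : Set X) = 17 := by
      rw [Set.ncard_compl, Set.ncard_singleton, hcX]
    have heq : MulAction.orbit (P : Subgroup G) Q = ({P}ᶜ : Set X) := by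
      apply Set.eq_of_subset_of_ncard_le
      · intro S hS; exact hsub S hS
      · rw [hcompl]; exact hcard
      · exact Set.toFinite _
    have hRm : R ∈ MulAction.orbit (P : Subgroup G) Q := by rw [heq]; exact hR
    obtain ⟨y, hy⟩ := hRm
    exact ⟨y.1, y.2, hy⟩
  -- point stabilizers
  obtain ⟨Q, hQ⟩ : ∃ Q : X, Q ≠ P := by
    haveI : Nontrivial X := (Finite.one_lt_card_iff_nontrivial).1 (by rw [hcX]; norm_num)
    exact exists_ne P
  set S1 : Subgroup (Equiv.Perm X) := H ⊓ MulAction.stabilizer (Equiv.Perm X) P with hS1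
  set S2 : Subgroup (Equiv.Perm X) := S1 ⊓ MulAction.stabilizer (Equiv.Perm X) Q with hS2
  have hc1 : Nat.card H = 18 * Nat.card S1 := by
    rw [Cfsg.Agent.H7.card_eq_orbit_mul H P]
    congr 1
    have h1 : MulAction.orbit H P = Set.univ := MulAction.orbit_eq_univ H P
    rw [h1, Set.ncard_univ, hcX]
  have hc2 : Nat.card S1 = 17 * Nat.card S2 := by
    rw [Cfsg.Agent.H7.card_eq_orbit_mul S1 Q]
    congr 1
    have h1 : MulAction.orbit S1 Q = ({P}ᶜ : Set X) := by
      ext R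
      constructor
      · rintro ⟨⟨h, hh, hhP⟩, rfl⟩ hR
        have h2 : h Q = P := hR
        have h3 : h P = P := hhP
        exact hQ (h.injective (h2.trans h3.symm))
      · intro hR
        obtain ⟨y, hy, hyQ⟩ := hPtr Q R hQ hR
        refine ⟨⟨φ y, ⟨y, rfl⟩, ?_⟩, hyQ⟩
        exact (Cfsg.Agent.H9.Count.smul_eq_iff_of_mem P.2 hy).2 hy
    rw [h1, Set.ncard_compl, Set.ncard_singleton, hcX]
  refine ⟨Nat.card S2, ?_, by rw [hc1, hc2]; ring⟩
  -- Pb has order 17
  have hPb1 : Pb ≠ ⊥ := by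
    intro hbot
    obtain ⟨R, hR⟩ : ∃ R : X, R ≠ P ∧ R ≠ Q := by
      by_contra hcon
      push Not at hcon
      have h1 : (Set.univ : Set X) ⊆ {P, Q} := by
        intro R _
        by_cases h : R = P
        · left; exact h
        · right; exact hcon R h
      have h2 := Set.ncard_le_ncard h1 (Set.toFinite _)
      rw [Set.ncard_univ, hcX] at h2
      have h3 : ({P, Q} : Set X).ncard ≤ 2 := by
        calc ({P, Q} : Set X).ncard ≤ ({Q} : Set X).ncard + 1 := Set.ncard_insert_le _ _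
          _ = 2 := by rw [Set.ncard_singleton]
      omega
    obtain ⟨y, hy, hyQ⟩ := hPtr Q R hQ hR.1
    have h1 : φ y ∈ Pb := ⟨y, hy, rfl⟩
    rw [hbot, Subgroup.mem_bot] at h1
    have h2 : φ y Q = R := hyQ
    rw [h1] at h2
    exact hR.2 h2.symm
  have hPb : Nat.card Pb = 17 := by
    rcases (Nat.dvd_prime (by norm_num : Nat.Prime 17)).1 hPb17 with h | h
    · exact absurd (Subgroup.card_eq_one.1 h) hPb1
    · exact h
  obtain ⟨xb, hxb, hxb1⟩ : ∃ xb ∈ Pb, xb ≠ 1 := by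
    rw [Subgroup.ne_bot_iff_exists_ne_one] at hPb1
    obtain ⟨a, ha⟩ := hPb1
    exact ⟨a.1, a.2, fun h => ha (Subtype.ext h)⟩
  have hgen : ∀ z ∈ Pb, z ∈ zpowers xb := by
    intro z hz
    have h1 : zpowers xb = Pb := by
      apply Subgroup.eq_of_le_of_card_ge
      · rw [zpowers_le]; exact hxb
      · rw [hPb]
        have h2 : Nat.card (zpowers xb) ∣ 17 := by
          rw [← hPb]; exact Subgroup.card_dvd_of_le (by rw [zpowers_le]; exact hxb)
        rcases (Nat.dvd_prime (by norm_num : Nat.Prime 17)).1 h2 with h | h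
        · exact absurd (Subgroup.zpowers_eq_bot.1 (Subgroup.card_eq_one.1 h)) hxb1
        · exact h.ge
    rw [h1]; exact hz
  have hconj : ∀ h ∈ S2, ∀ z ∈ Pb, h * z * h⁻¹ ∈ Pb := by
    rintro h ⟨⟨⟨g, rfl⟩, hgP⟩, -⟩ z ⟨x, hx, rfl⟩
    refine ⟨g * x * g⁻¹, ?_, by simp⟩
    have hgP' : g • P = P := hgP
    have := Cfsg.Agent.H9.Syl.smul_mem_smul (g := g) hx
    rwa [hgP'] at this
  let F : S2 → {z : Pb // z ≠ 1} := fun h => ⟨⟨h.1 * xb * h.1⁻¹, hconj h.1 h.2 xb hxb⟩, by
    intro h1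
    have h2 : h.1 * xb * h.1⁻¹ = 1 := congrArg Subtype.val h1
    apply hxb1
    have : xb = h.1⁻¹ * (h.1 * xb * h.1⁻¹) * h.1 := by group
    rw [this, h2]; group⟩
  have hFinj : Function.Injective F := by
    intro h h' hhh
    have h1 : h.1 * xb * h.1⁻¹ = h'.1 * xb * h'.1⁻¹ := congrArg (fun z => ((z.1 : Pb) : Equiv.Perm X)) hhh
    set k : Equiv.Perm X := h'.1⁻¹ * h.1 with hk
    have hkc : k * xb = xb * k := by
      have h2 : h.1 * xb = h'.1 * xb * h'.1⁻¹ * h.1 := by rw [← h1]; group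
      rw [hk, mul_assoc, h2]; group
    have hkP : k P = P := by
      have a1 : h.1 P = P := h.2.1.2
      have a2 : h'.1 P = P := h'.2.1.2
      rw [hk, Equiv.Perm.mul_apply, a1, Equiv.Perm.inv_eq_iff_eq, a2]
    have hkQ : k Q = Q := by
      have a1 : h.1 Q = Q := h.2.2
      have a2 : h'.1 Q = Q := h'.2.2
      rw [hk, Equiv.Perm.mul_apply, a1, Equiv.Perm.inv_eq_iff_eq, a2]
    have hk1 : k = 1 := by
      ext1 R
      rw [Equiv.Perm.one_apply]
      by_cases hR : R = P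
      · rw [hR, hkP]
      · obtain ⟨y, hy, hyQ⟩ := hPtr Q R hQ hR
        have h3 : φ y ∈ zpowers xb := hgen _ ⟨y, hy, rfl⟩
        obtain ⟨n, hn⟩ := Subgroup.mem_zpowers_iff.1 h3
        have h4 : k * φ y = φ y * k := by
          rw [← hn]; exact ((show Commute k xb from hkc).zpow_right n).eq
        have h5 : φ y Q = R := hyQ
        rw [← h5, ← Equiv.Perm.mul_apply, h4, Equiv.Perm.mul_apply, hkQ]
    apply Subtype.ext
    have : h'.1⁻¹ * h.1 = 1 := hk1
    exact (inv_mul_eq_one.1 this).symm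
  have hle := Nat.card_le_card_of_injective F hFinj
  have hcard : Nat.card {z : Pb // z ≠ 1} = 16 := by
    haveI := Fintype.ofFinite Pb
    rw [Nat.card_eq_fintype_card, Fintype.card_subtype_compl, Fintype.card_subtype_eq, ← Nat.card_eq_fintype_card, hPb]
  omega

theorem main (hZ : Subgroup.center G = ⊥) (hNS : {c : ℕ | ∃ r : ℕ, r.Prime ∧ r ∣ Nat.card G ∧ c = Nat.card (Sylow r G)} = ({18, 136, 153} : Set ℕ)) :
    Nonempty (G ≃* PS) ∨ Nonempty (G ≃* PG) := by
  classical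
  obtain ⟨h17, h3, h2, hall⟩ := numbers hNS
  obtain ⟨htr, d, hd, hcard⟩ := card_range h17
  haveI := htr
  haveI : Fintype (Sylow 17 G) := Fintype.ofFinite _
  set φ := MulAction.toPermHom G (Sylow 17 G) with hφ
  set H := φ.range with hH
  have hα : Fintype.card (Sylow 17 G) = 17 + 1 := by rw [← Nat.card_eq_fintype_card, h17]
  haveI : Finite PG := inferInstanceAs (Finite (GL (Fin 2) (ZMod 17) ⧸ Subgroup.center (GL (Fin 2) (ZMod 17))))
  have hiso : Nonempty (H ≃* PG) ∧ d = 16 ∨ Nonempty (H ≃* PS) ∧ d = 8 := by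
    rcases Cfsg.Agent.S0732.result (p := 17) (by norm_num) hα H hcard hd with ⟨h, e⟩ | ⟨h, e⟩ | ⟨q, -, hq, -⟩
    · left; exact ⟨e, h⟩
    · right; exact ⟨e, by omega⟩
    · exfalso
      rcases Nat.lt_or_ge q 5 with h | h
      · interval_cases q <;> omega
      · have : 2 ^ 5 ≤ 2 ^ q := Nat.pow_le_pow_right (by norm_num) h
        omega
  -- Sylow numbers of H
  have hH3 : 68 ≤ Nat.card (Sylow 3 H) := by
    rcases hiso with ⟨⟨e⟩, -⟩ | ⟨⟨e⟩, -⟩
    · exact pgl3.trans (card_sylow_le_of_inj 3 e.symm.toMonoidHom e.symm.injective)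
    · exact psl3.trans (card_sylow_le_of_inj 3 e.symm.toMonoidHom e.symm.injective)
  have hH2 : 62 ≤ Nat.card (Sylow 2 H) := by
    rcases hiso with ⟨⟨e⟩, -⟩ | ⟨⟨e⟩, -⟩
    · exact pgl2.trans (card_sylow_le_of_inj 2 e.symm.toMonoidHom e.symm.injective)
    · exact psl2.trans (card_sylow_le_of_inj 2 e.symm.toMonoidHom e.symm.injective)
  have hH3' : Nat.card (Sylow 3 H) = 136 := by
    have h1 := card_sylow_dvd_of_surj 3 φ.rangeRestrict φ.rangeRestrict_surjective
    rw [h3] at h1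
    have h4 : Nat.card (Sylow 3 H) % 3 = 1 := card_sylow_modEq_one 3 H
    have key : ∀ n ∈ Nat.divisors 136, 68 ≤ n → n % 3 = 1 → n = 136 := by decide +kernel
    exact key _ (Nat.mem_divisors.2 ⟨h1, by norm_num⟩) hH3 h4
  have hH2' : Nat.card (Sylow 2 H) = 153 := by
    have h1 := card_sylow_dvd_of_surj 2 φ.rangeRestrict φ.rangeRestrict_surjective
    rw [h2] at h1
    have key : ∀ n ∈ Nat.divisors 153, 62 ≤ n → n = 153 := by decide +kernel
    exact key _ (Nat.mem_divisors.2 ⟨h1, by norm_num⟩) hH2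
  -- K normalizes the Sylow subgroups
  have hker : ∀ k : G, φ k = 1 → φ.rangeRestrict k = 1 := fun k hk => Subtype.ext hk
  have hK17 : ∀ (P : Sylow 17 G) (k : G), φ k = 1 → k • P = P := by
    intro P k hk
    have : φ k P = P := by rw [hk]; rfl
    exact this
  have hK3 : ∀ (P : Sylow 3 G) (k : G), φ k = 1 → k • P = P := fun P k hk =>
    ker_smul_eq 3 φ.rangeRestrict φ.rangeRestrict_surjective (by rw [h3, hH3']) P (hker k hk)
  have hK2 : ∀ (P : Sylow 2 G) (k : G), φ k = 1 → k • P = P := fun P k hk =>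
    ker_smul_eq 2 φ.rangeRestrict φ.rangeRestrict_surjective (by rw [h2, hH2']) P (hker k hk)
  -- 5 and 19 do not divide the order
  have hcop : ∀ (r : ℕ) [Fact r.Prime], ¬ r ∣ Nat.card H → ∀ (Q : Sylow r G), ∀ q ∈ (Q : Subgroup G), φ q = 1 := by
    intro r _ hr Q q hq
    obtain ⟨k, hk⟩ := (IsPGroup.iff_orderOf.1 Q.2) ⟨q, hq⟩
    rw [Subgroup.orderOf_mk] at hk
    have h1 : orderOf (φ.rangeRestrict q) ∣ r ^ k := by
      rw [← hk]; exact orderOf_map_dvd _ _
    have h4 : orderOf (φ.rangeRestrict q) ∣ Nat.card H := orderOf_dvd_natCard _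
    have h5 : Nat.Coprime (r ^ k) (Nat.card H) := Nat.Coprime.pow_left _ (((Fact.out : r.Prime).coprime_iff_not_dvd).2 hr)
    have h6 := Nat.eq_one_of_dvd_coprimes h5 h1 h4
    have h7 := orderOf_eq_one_iff.1 h6
    exact congrArg Subtype.val h7
  have hcH : Nat.card H = 4896 ∨ Nat.card H = 2448 := by
    rcases hiso with ⟨-, h⟩ | ⟨-, h⟩
    · left; rw [hcard, h]
    · right; rw [hcard, h]
  have h5 : Nat.card (Sylow 5 G) ≠ 136 := by
    intro h136
    obtain ⟨Q⟩ : Nonempty (Sylow 5 G) := inferInstance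
    obtain ⟨P, hP⟩ := exists_sylow_inf (p := 2) (r := 5) (a := 3) (m := 17) Q (by rw [h136]; norm_num) (by norm_num)
    have h1 := card_modEq_normalizer (p := 2) (r := 5) (by norm_num) (P : Subgroup G) (Q : Subgroup G) P.2 Q.2 (by
      intro q hq y hy
      have h1 := hK2 P q (hcop 5 (by rcases hcH with h | h <;> rw [h] <;> norm_num) Q q hq)
      have := Cfsg.Agent.H9.Syl.smul_mem_smul (g := q) hy
      rwa [h1] at this)
    rw [hP] at h1
    obtain ⟨c, hc⟩ := IsPGroup.iff_card.1 (P.2.to_le (inf_le_left : (P : Subgroup G) ⊓ normalizer ((Q : Subgroup G) : Set G) ≤ P))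
    rw [hc] at h1
    have h4 : 5 ∣ 2 ^ 3 * 2 ^ c - 2 ^ c := (Nat.modEq_iff_dvd' (by
      have : 1 ≤ 2 ^ 3 := by norm_num
      exact Nat.le_mul_of_pos_left _ (by norm_num))).1 h1.symm
    have h6 : 2 ^ 3 * 2 ^ c - 2 ^ c = 7 * 2 ^ c := by omega
    rw [h6] at h4
    rcases (Nat.Prime.dvd_mul (by norm_num)).1 h4 with h | h
    · norm_num at h
    · have := (Nat.prime_dvd_prime_iff_eq (by norm_num) (by norm_num)).1 ((by norm_num : Nat.Prime 5).dvd_of_dvd_pow h)
      norm_num at this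
  have h19 : Nat.card (Sylow 19 G) ≠ 153 := by
    intro h153
    obtain ⟨Q⟩ : Nonempty (Sylow 19 G) := inferInstance
    obtain ⟨P, hP⟩ := exists_sylow_inf (p := 3) (r := 19) (a := 2) (m := 17) Q (by rw [h153]; norm_num) (by norm_num)
    have h1 := card_modEq_normalizer (p := 3) (r := 19) (by norm_num) (P : Subgroup G) (Q : Subgroup G) P.2 Q.2 (by
      intro q hq y hy
      have h1 := hK3 P q (hcop 19 (by rcases hcH with h | h <;> rw [h] <;> norm_num) Q q hq)
      have := Cfsg.Agent.H9.Syl.smul_mem_smul (g := q) hy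
      rwa [h1] at this)
    rw [hP] at h1
    obtain ⟨c, hc⟩ := IsPGroup.iff_card.1 (P.2.to_le (inf_le_left : (P : Subgroup G) ⊓ normalizer ((Q : Subgroup G) : Set G) ≤ P))
    rw [hc] at h1
    have h4 : 19 ∣ 3 ^ 2 * 3 ^ c - 3 ^ c := (Nat.modEq_iff_dvd' (by
      exact Nat.le_mul_of_pos_left _ (by norm_num))).1 h1.symm
    have h6 : 3 ^ 2 * 3 ^ c - 3 ^ c = 8 * 3 ^ c := by omega
    rw [h6] at h4
    rcases (Nat.Prime.dvd_mul (by norm_num)).1 h4 with h | h
    · norm_num at h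
    · have := (Nat.prime_dvd_prime_iff_eq (by norm_num) (by norm_num)).1 ((by norm_num : Nat.Prime 19).dvd_of_dvd_pow h)
      norm_num at this
  have hK1 : φ.ker = ⊥ := by
    apply eq_bot_of_norm_sylows φ.ker hZ
    intro p hp hpG P k hk
    rcases hall p hp.out hpG with h | h | h | ⟨h, h'⟩ | ⟨h, h'⟩
    · subst h; exact hK2 P k hk
    · subst h; exact hK3 P k hk
    · subst h; exact hK17 P k hk
    · exact absurd h' h5
    · exact absurd h' h19
  have hinj : Function.Injective φ := (MonoidHom.ker_eq_bot_iff φ).1 hK1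
  have e : G ≃* H := MonoidHom.ofInjective hinj
  rcases hiso with ⟨⟨f⟩, -⟩ | ⟨⟨f⟩, -⟩
  · right; exact ⟨e.trans f⟩
  · left; exact ⟨e.trans f⟩

end main

/-- Let G be a finite group with trivial centre whose set of Sylow numbers (numbers of Sylow r-subgroups, r over the prime divisors of its order) is exactly {18, 136, 153}. Then G is isomorphic to PSL(2, 17) or to PGL(2, 17). -/
theorem result {G : Type*} [Group G] [Finite G] (hZ : Subgroup.center G = ⊥) (hNS : {c : ℕ | ∃ r : ℕ, r.Prime ∧ r ∣ Nat.card G ∧ c = Nat.card (Sylow r G)} = ({18, 136, 153} : Set ℕ))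
    {F : Type*} [Field F] [Fintype F] (hF : Fintype.card F = 17) :
    Nonempty (G ≃* Matrix.ProjectiveSpecialLinearGroup (Fin 2) F) ∨ Nonempty (G ≃* (GL (Fin 2) F ⧸ Subgroup.center (GL (Fin 2) F))) := by
  rcases main hZ hNS with ⟨⟨e⟩⟩ | ⟨⟨e⟩⟩
  · left
    obtain ⟨f⟩ := Cfsg.Agent.H5.psl_congr (n := 2) (ZMod.ringEquivOfPrime F (by norm_num : Nat.Prime 17) hF)
    exact ⟨e.trans f⟩
  · right
    obtain ⟨f⟩ := Cfsg.Agent.H5.pgl_congr (n := 2) (ZMod.ringEquivOfPrime F (by norm_num : Nat.Prime 17) hF)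
    exact ⟨e.trans f⟩

end Cfsg.Agent.S3641
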