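import Cfsg.Statements.S3660
import Cfsg.Agent.H22.SemiDir

set_option autoImplicit false
set_option linter.all false
open Cfsg

namespace Cfsg.Agent.S3660

open Cfsg.Agent.H22
open scoped Matrix MatrixGroups

section
variable {F : Type*} [Field F] 

/-- the natural action of SL2 -/
def slHom (n : ℕ) (F : Type*) [Field F] : Matrix.SpecialLinearGroup (Fin n) F →* AddMonoid.End (Fin n → F) where
  toFun g := ((g : Matrix (Fin n) (Fin n) F).mulVecLin).toAddMonoidHom
  map_one' := by
    ext v i
    show ((1 : Matrix (Fin n) (Fin n) F) *ᵥ v) i = v i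
    rw [Matrix.one_mulVec]
  map_mul' g h := by
    ext v i
    show (((g : Matrix (Fin n) (Fin n) F) * (h : Matrix (Fin n) (Fin n) F)) *ᵥ v) i =
      ((g : Matrix (Fin n) (Fin n) F) *ᵥ ((h : Matrix (Fin n) (Fin n) F) *ᵥ v)) i
    rw [Matrix.mulVec_mulVec]

theorem slHom_apply (n : ℕ) (g : Matrix.SpecialLinearGroup (Fin n) F) (v : Fin n → F) :
    slHom n F g v = (g : Matrix (Fin n) (Fin n) F) *ᵥ v := rfl

theorem fixed_trace (g : Matrix.SpecialLinearGroup (Fin 2) F) (v : Fin 2 → F) (hv : v ≠ 0)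
    (h : (g : Matrix (Fin 2) (Fin 2) F) *ᵥ v = v) : (g : Matrix (Fin 2) (Fin 2) F).trace = 2 := by
  have hz : ((g : Matrix (Fin 2) (Fin 2) F) - 1) *ᵥ v = 0 := by
    rw [Matrix.sub_mulVec, h, Matrix.one_mulVec, sub_self]
  have hd := Matrix.exists_mulVec_eq_zero_iff.1 ⟨v, hv, hz⟩
  have hg := g.2
  rw [Matrix.det_fin_two] at hd hg
  simp at hd
  rw [Matrix.trace_fin_two]
  linear_combination hg - hd

theorem sq_eq (g : Matrix.SpecialLinearGroup (Fin 2) F) :
    (g : Matrix (Fin 2) (Fin 2) F) * (g : Matrix (Fin 2) (Fin 2) F) =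
      (g : Matrix (Fin 2) (Fin 2) F).trace • (g : Matrix (Fin 2) (Fin 2) F) - 1 := by
  have hg := g.2
  rw [Matrix.det_fin_two] at hg
  ext i j
  rw [Matrix.trace_fin_two]
  fin_cases i <;> fin_cases j <;> simp [Matrix.mul_apply, Fin.sum_univ_two]
  · linear_combination -hg
  · ring
  · ring
  · linear_combination -hg

theorem center_eq_bot [CharP F 2] : Subgroup.center (Matrix.SpecialLinearGroup (Fin 2) F) = ⊥ := by
  rw [eq_bot_iff]
  intro A hA
  obtain ⟨r, hr, hA'⟩ := Matrix.SpecialLinearGroup.mem_center_iff.1 hA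
  rw [Fintype.card_fin] at hr
  have h2 : (2 : F) = 0 := CharTwo.two_eq_zero
  have h3 : (r - 1) ^ 2 = 0 := by linear_combination hr + (1 - r) * h2
  have h4 : r = 1 := by
    have := pow_eq_zero_iff (two_ne_zero) |>.1 h3
    linear_combination this
  rw [Subgroup.mem_bot]
  apply Subtype.ext
  rw [← hA', h4]
  simp

end

theorem main {F : Type*} [Field F] [Fintype F] [CharP F 2] (N : ℕ) :
    ∃ (H : Type) (_ : Group H) (_ : Fintype H), N < Nat.card H ∧
      ((∀ p : ℕ, p.Prime → (p ∣ Nat.card (Matrix.ProjectiveSpecialLinearGroup (Fin 2) F) ↔ p ∣ Nat.card H)) ∧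
      (∀ p q : ℕ, p.Prime → q.Prime → p ≠ q → ((∃ g : (Matrix.ProjectiveSpecialLinearGroup (Fin 2) F), orderOf g = p * q) ↔ (∃ g : H, orderOf g = p * q)))) := by
  classical
  let S := Matrix.SpecialLinearGroup (Fin 2) F
  have h2 : (2 : F) = 0 := CharTwo.two_eq_zero
  have hV : ∀ v : Fin 2 → F, 2 • v = 0 := fun v => by
    funext i
    show 2 • v i = 0
    rw [two_nsmul]; exact CharTwo.add_self_eq_zero _
  have hfix : ∀ s : S, ∀ v : Fin 2 → F, v ≠ 0 → slHom 2 F s v = v → ∃ j : ℕ, orderOf s = 2 ^ j := by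
    intro s v hv hs
    have h1 := fixed_trace s v hv hs
    have h3 : s ^ 2 = 1 := by
      apply Subtype.ext
      have h4 := sq_eq s
      rw [h1, h2, zero_smul, zero_sub] at h4
      rw [pow_two]
      show (s : Matrix (Fin 2) (Fin 2) F) * (s : Matrix (Fin 2) (Fin 2) F) = 1
      rw [h4]
      ext i j
      have h5 : (-1 : F) = 1 := by linear_combination -h2
      fin_cases i <;> fin_cases j <;> simp [h5]
    have h6 : orderOf s ∣ 2 ^ 1 := orderOf_dvd_of_pow_eq_one (by rw [pow_one]; exact h3)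
    obtain ⟨k, -, hk⟩ := (Nat.dvd_prime_pow Nat.prime_two).1 h6
    exact ⟨k, hk⟩
  have h2S : 2 ∣ Nat.card S := by
    let t : S := ⟨!![1, 1; 0, 1], by simp [Matrix.det_fin_two]⟩
    have ht : orderOf t = 2 := by
      haveI : Fact (Nat.Prime 2) := ⟨Nat.prime_two⟩
      apply orderOf_eq_prime
      · apply Subtype.ext
        show (!![1, 1; 0, 1] : Matrix (Fin 2) (Fin 2) F) ^ 2 = 1
        rw [pow_two]
        ext i j
        have h11 : (1 : F) + 1 = 0 := by linear_combination h2
        fin_cases i <;> fin_cases j <;> simp [Matrix.mul_apply, h11]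
      · intro h
        have h1 := congrArg (fun x : S => (x : Matrix (Fin 2) (Fin 2) F) 0 1) h
        have h2 : (!![1, 1; 0, 1] : Matrix (Fin 2) (Fin 2) F) 0 1 = (1 : Matrix (Fin 2) (Fin 2) F) 0 1 := h1
        simp at h2
    rw [← ht]
    exact orderOf_dvd_natCard t
  obtain ⟨H, i1, i2, h1, h3, h4⟩ := exists_same_prime_graph (slHom 2 F) Nat.prime_two hV h2S hfix N
  let e : S ≃* Matrix.ProjectiveSpecialLinearGroup (Fin 2) F :=
    MulEquiv.ofBijective (QuotientGroup.mk' _) ⟨by
      rw [← MonoidHom.ker_eq_bot_iff, QuotientGroup.ker_mk']; exact center_eq_bot, QuotientGroup.mk'_surjective _⟩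
  refine ⟨H, i1, i2, h1, ?_, ?_⟩
  · intro p hp
    rw [← h3 p hp, Nat.card_congr e.toEquiv]
  · intro p q hp hq hpq
    rw [← h4 p q hp hq hpq]
    constructor
    · rintro ⟨g, hg⟩; exact ⟨e.symm g, by rw [MulEquiv.orderOf_eq, hg]⟩
    · rintro ⟨g, hg⟩; exact ⟨e g, by rw [MulEquiv.orderOf_eq, hg]⟩

/-- The prime graph of a finite group has the prime divisors of its order as vertices, two distinct primes p, q being joined when the group has an element of order pq; two groups have the same prime graph when they have the same prime divisors and the same joined pairs. Let F be a finite field of characteristic 2 with at least 4 elements. Then there are finite groups of arbitrarily large order with the same prime graph as PSL(2,F); in particular PSL(2,F) is not determined by its prime graph. -/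
theorem result {F : Type*} [Field F] [Fintype F] [CharP F 2] (hF : 4 ≤ Fintype.card F) (N : ℕ) :
    ∃ (H : Type) (_ : Group H) (_ : Finite H), N < Nat.card H ∧
      ((∀ p : ℕ, p.Prime → (p ∣ Nat.card (Matrix.ProjectiveSpecialLinearGroup (Fin 2) F) ↔ p ∣ Nat.card H)) ∧
      (∀ p q : ℕ, p.Prime → q.Prime → p ≠ q → ((∃ g : (Matrix.ProjectiveSpecialLinearGroup (Fin 2) F), orderOf g = p * q) ↔ (∃ g : H, orderOf g = p * q)))) := by
  obtain ⟨H, i1, i2, h1, h2⟩ := main (F := F) N
  exact ⟨H, i1, inferInstance, h1, h2⟩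

end Cfsg.Agent.S3660
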