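import Cfsg.Statements.S3662
import Cfsg.Agent.H29.G24Rep
import Cfsg.Agent.H29.PGraph
import Cfsg.Agent.H6.ChevField

set_option autoImplicit false
open Cfsg

namespace Cfsg.Agent.S3662

open Cfsg.Agent.H8 Cfsg.Agent.H29.G24Rep

theorem card_J' : Nat.card G24P.J = 251596800 := G24P.card_J

theorem primes_J (p : ℕ) (hp : p.Prime) (h : p ∣ Nat.card G24P.J) : p = 2 ∨ p = 3 ∨ p = 5 ∨ p = 7 ∨ p = 13 := by
  rw [card_J', show (251596800 : ℕ) = 2 ^ 12 * (3 ^ 3 * (5 ^ 2 * (7 * 13))) by norm_num] at h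
  rcases (Nat.Prime.dvd_mul hp).1 h with h | h
  · exact Or.inl ((Nat.prime_dvd_prime_iff_eq hp Nat.prime_two).1 (hp.dvd_of_dvd_pow h))
  rcases (Nat.Prime.dvd_mul hp).1 h with h | h
  · exact Or.inr (Or.inl ((Nat.prime_dvd_prime_iff_eq hp Nat.prime_three).1 (hp.dvd_of_dvd_pow h)))
  rcases (Nat.Prime.dvd_mul hp).1 h with h | h
  · exact Or.inr (Or.inr (Or.inl ((Nat.prime_dvd_prime_iff_eq hp (by norm_num)).1 (hp.dvd_of_dvd_pow h))))
  rcases (Nat.Prime.dvd_mul hp).1 h with h | h
  · exact Or.inr (Or.inr (Or.inr (Or.inl ((Nat.prime_dvd_prime_iff_eq hp (by norm_num)).1 h))))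
  · exact Or.inr (Or.inr (Or.inr (Or.inr ((Nat.prime_dvd_prime_iff_eq hp (by norm_num)).1 h))))

theorem two_zero (k : ℕ) (n : Multiplicative (Fin k → Fin 12 → ZMod 2)) : n ^ 2 = 1 := by
  have h1 : (2 : ℕ) • (Multiplicative.toAdd n) = 0 := by
    funext i j
    have h2 : (2 : ZMod 2) = 0 := by decide
    show (2 : ℕ) • (Multiplicative.toAdd n i j) = 0
    rw [nsmul_eq_mul]
    push_cast
    rw [h2, zero_mul]
  exact h1

/-- The prime graph of a finite group has the prime divisors of its order as vertices, two distinct primes p, q being joined when the group has an element of order pq; two groups have the same prime graph when they have the same prime divisors and the same joined pairs. Let F be the field with 4 elements and L the Chevalley group of type G₂ over F. There are finite groups of arbitrarily large order with the same prime graph as L. -/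
theorem result {F : Type*} [Field F] [Fintype F] (hF : Fintype.card F = 4) (N : ℕ) :
    ∃ (H : Type) (_ : Group H) (_ : Finite H), N < Nat.card H ∧
      ((∀ p : ℕ, p.Prime → (p ∣ Nat.card ↥(Cfsg.Lie.chevG2.group F) ↔ p ∣ Nat.card H)) ∧
      (∀ p q : ℕ, p.Prime → q.Prime → p ≠ q → ((∃ g : ↥(Cfsg.Lie.chevG2.group F), orderOf g = p * q) ↔ (∃ g : H, orderOf g = p * q)))) := by
  have hfinJ : Finite G24P.J := Nat.finite_of_card_ne_zero (by rw [card_J']; norm_num)
  obtain ⟨eJ⟩ := G24M.iso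
  let f : F ≃+* F4 := FiniteField.ringEquivOfCardEq (by rw [hF, F4.card_F4])
  let e' : ↥(Cfsg.Lie.chevG2.group F) ≃* G24P.J := (H6.TG2.good.fieldEquiv f).trans eJ.symm
  set V := Multiplicative (Fin (N + 1) → Fin 12 → ZMod 2) with hV
  have hfV : Finite V := inferInstanceAs (Finite (Fin (N + 1) → Fin 12 → ZMod 2))
  have hcV : Nat.card V = 2 ^ (12 * (N + 1)) := by
    have : Nat.card V = Nat.card (Fin (N + 1) → Fin 12 → ZMod 2) := rfl
    rw [this, Nat.card_eq_fintype_card, Fintype.card_fun, Fintype.card_fun, ZMod.card, Fintype.card_fin, Fintype.card_fin,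
      ← pow_mul]
  obtain ⟨h3, h4⟩ := H29.PGraph2.pg (G := G24P.J) (N := V) Nat.prime_two (two_zero (N + 1)) ((act (N + 1)).comp ψ)
    (by rw [card_J']; norm_num) (by
      intro q hq hq2 hd
      rcases primes_J q hq hd with rfl | rfl | rfl | rfl | rfl
      · exact absurd rfl hq2
      · exact Or.inl ⟨_, ord6⟩
      · exact Or.inl ⟨_, ord10⟩
      · exact Or.inr (fun g hg n hn => hfix (N + 1) (m := 35942400) (by norm_num) (by norm_num) (by rw [card_J']) (by norm_num)
          ord7 (by decide +kernel) g hg n hn)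
      · exact Or.inr (fun g hg n hn => hfix (N + 1) (m := 19353600) (by norm_num) (by norm_num) (by rw [card_J']) (by norm_num)
          ord13 (by decide +kernel) g hg n hn))
  have hfS : Finite (V ⋊[(act (N + 1)).comp ψ] G24P.J) := by
    apply Nat.finite_of_card_ne_zero
    rw [SemidirectProduct.card]
    exact mul_ne_zero Nat.card_pos.ne' Nat.card_pos.ne'
  obtain ⟨K, iK, fK, ⟨e⟩⟩ := H29.PGraph.to_type0 (V ⋊[(act (N + 1)).comp ψ] G24P.J)
  refine ⟨K, iK, fK, ?_, ?_, ?_⟩
  · rw [Nat.card_congr e.toEquiv, SemidirectProduct.card]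
    have h6 : N < 2 ^ (12 * (N + 1)) := by
      calc N < N + 1 := Nat.lt_succ_self N
        _ ≤ 12 * (N + 1) := by omega
        _ < 2 ^ (12 * (N + 1)) := Nat.lt_pow_self (by norm_num)
    have h7 : 0 < Nat.card G24P.J := Nat.card_pos
    calc N < 2 ^ (12 * (N + 1)) := h6
      _ = Nat.card V := hcV.symm
      _ ≤ Nat.card V * Nat.card G24P.J := Nat.le_mul_of_pos_right _ h7
  · intro p hp
    rw [Nat.card_congr e.toEquiv, Nat.card_congr e'.toEquiv]
    exact h3 p hp
  · intro p q hp hq hpq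
    have h5 := h4 p q hp hq hpq
    constructor
    · rintro ⟨g, hg⟩
      obtain ⟨g', hg'⟩ := h5.1 ⟨e' g, by rw [MulEquiv.orderOf_eq, hg]⟩
      exact ⟨e.symm g', by rw [MulEquiv.orderOf_eq, hg']⟩
    · rintro ⟨g, hg⟩
      obtain ⟨g', hg'⟩ := h5.2 ⟨e g, by rw [MulEquiv.orderOf_eq, hg]⟩
      exact ⟨e'.symm g', by rw [MulEquiv.orderOf_eq, hg']⟩

end Cfsg.Agent.S3662
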