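import Cfsg.Statements.S3663
import Cfsg.Agent.H29.PsuFour
import Cfsg.Agent.H29.PGraph

set_option autoImplicit false
open Cfsg

namespace Cfsg.Agent.S3663

open Cfsg.Agent.H5 Cfsg.Agent.H29.GFq16 Cfsg.Agent.H29.CartanMod Cfsg.Agent.H29.PsuFour Cfsg.Agent.H29.PGraph

theorem five_zero (k : ℕ) (a : Fin k → ZMod 5) : 5 • a = 0 := by
  funext i
  have h5 : (5 : ZMod 5) = 0 := by decide
  simp [h5]

/-- The prime graph of a finite group has the prime divisors of its order as vertices, two distinct primes p, q being joined when the group has an element of order pq; two groups have the same prime graph when they have the same prime divisors and the same joined pairs. Let F be the field with 16 elements and L = PSU(3,4) realised over F. There are finite groups of arbitrarily large order with the same prime graph as L. -/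
theorem result {F : Type*} [Field F] [Fintype F] (hF : Fintype.card F = 16) (N : ℕ) :
    ∃ (H : Type) (_ : Group H) (_ : Finite H), N < Nat.card H ∧
      ((∀ p : ℕ, p.Prime → (p ∣ Nat.card (Cfsg.PSU 3 F 4) ↔ p ∣ Nat.card H)) ∧
      (∀ p q : ℕ, p.Prime → q.Prime → p ≠ q → ((∃ g : (Cfsg.PSU 3 F 4), orderOf g = p * q) ↔ (∃ g : H, orderOf g = p * q)))) := by
  obtain ⟨σ, hσ, hσ2, hσ1⟩ := exists_frob (F := F) (q := 4) (by rw [hF]; norm_num)
  obtain ⟨h2, s, hs⟩ := exists_s hF
  have : Finite (SU 3 F 4) := Nat.finite_of_card_ne_zero (by rw [card_SU4 hF]; norm_num)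
  -- the coefficient group
  have hA : ∀ a : Fin (N + 1) → ZMod 5, 5 • a = 0 := five_zero (N + 1)
  set V := Multiplicative (W σ (vl s 6) (Fin (N + 1) → ZMod 5)) with hV
  have : Finite (Fin (N + 1) → ZMod 5) := inferInstance
  have : Finite (W σ (vl s 6) (Fin (N + 1) → ZMod 5)) := inferInstance
  have : Finite V := inferInstanceAs (Finite (W σ (vl s 6) (Fin (N + 1) → ZMod 5)))
  have hV5 : ∀ n : V, n ^ 5 = 1 := by
    intro n
    have h1 : (5 : ℕ) • (Multiplicative.toAdd n) = 0 := by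
      apply Subtype.ext
      funext u v
      exact hA _
    exact h1
  obtain ⟨h3, h4⟩ := pg hV5 (phi hσ (vl s 6) (Fin (N + 1) → ZMod 5)) (hfix hF hσ hσ1 hσ2 h2 hs hA)
    ⟨_, ord_10 hσ h2 hs⟩ ⟨_, ord_15 hσ h2 hs⟩ (primes_SU4 hF)
  have : Finite (V ⋊[phi hσ (vl s 6) (Fin (N + 1) → ZMod 5)] SU 3 F 4) := by
    apply Nat.finite_of_card_ne_zero
    rw [SemidirectProduct.card]
    exact mul_ne_zero Nat.card_pos.ne' Nat.card_pos.ne'
  obtain ⟨K, iK, fK, ⟨e⟩⟩ := to_type0 (V ⋊[phi hσ (vl s 6) (Fin (N + 1) → ZMod 5)] SU 3 F 4)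
  -- the centre is trivial
  have hc : Subgroup.center (SU 3 F 4) = ⊥ := by
    have h1 := card_center_SU (F := F) (q := 4) (n := 3) (by rw [hF]; norm_num) (by norm_num)
    norm_num at h1
    exact h1
  let e' : PSU 3 F 4 ≃* SU 3 F 4 := (QuotientGroup.quotientMulEquivOfEq hc).trans QuotientGroup.quotientBot
  refine ⟨K, iK, fK, ?_, ?_, ?_⟩
  · rw [Nat.card_congr e.toEquiv, SemidirectProduct.card]
    have h5 : 5 ^ (N + 1) ≤ Nat.card V := large hF hσ hσ1 hσ2 h2 hs (N + 1)
    have h6 : N < 5 ^ (N + 1) := (Nat.lt_succ_self N).trans (Nat.lt_pow_self (by norm_num))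
    have h7 : 0 < Nat.card (SU 3 F 4) := Nat.card_pos
    calc N < 5 ^ (N + 1) := h6
      _ ≤ Nat.card V := h5
      _ ≤ Nat.card V * Nat.card (SU 3 F 4) := Nat.le_mul_of_pos_right _ h7
  · intro p hp
    rw [Nat.card_congr e.toEquiv, Nat.card_congr e'.toEquiv]
    exact h3 p hp
  · intro p q hp hq hpq
    have h5 := h4 p q hp hq hpq
    constructor
    · rintro ⟨g, hg⟩
      obtain ⟨g', hg'⟩ := h5.1 ⟨e' g, by rw [MulEquiv.orderOf_eq, hg]⟩
      exact ⟨e.symm g', by rw [MulEquiv.orderOf_eq, hg']⟩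
    · rintro ⟨g, hg⟩
      obtain ⟨g', hg'⟩ := h5.2 ⟨e g, by rw [MulEquiv.orderOf_eq, hg]⟩
      exact ⟨e'.symm g', by rw [MulEquiv.orderOf_eq, hg']⟩

end Cfsg.Agent.S3663
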