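import Cfsg.Statements.S3669
import Cfsg.Agent.S0157
import Cfsg.Agent.S0494
import Cfsg.Agent.H21.Ord120
import Cfsg.Agent.H3.Clifford
import Cfsg.Agent.H27.CentralChar
import Cfsg.Agent.H1.Hall
import Cfsg.Agent.H9.SimpleNum

set_option autoImplicit false
set_option linter.all false
open Cfsg

namespace Cfsg.Agent.S3669

open scoped Pointwise
universe u

/-- Number of Sylow 5's in a group of order 60. -/
theorem n5 {G : Type u} [Group G] [Finite G] (hcard : Nat.card G = 60) [Fact (Nat.Prime 5)] :
    Nat.card (Sylow 5 G) = 1 ∨ Nat.card (Sylow 5 G) = 6 := by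
  obtain ⟨P⟩ : Nonempty (Sylow 5 G) := inferInstance
  have hd : Nat.card (Sylow 5 G) ∣ 12 :=
    Cfsg.Agent.H9.Syl.card_sylow_dvd_of_card P (k := 1) (hcard.trans (by norm_num)) (by norm_num)
  have h1 := card_sylow_modEq_one 5 G
  have hle : Nat.card (Sylow 5 G) ≤ 12 := Nat.le_of_dvd (by norm_num) hd
  generalize Nat.card (Sylow 5 G) = n at *
  interval_cases n <;> revert hd h1 <;> decide

theorem deg5 {G : Type u} [Group G] [Finite G] (hcard : Nat.card G = 60) [Fact (Nat.Prime 5)]
    (h6 : Nat.card (Sylow 5 G) = 6) : 5 ∈ Cfsg.degreePrimes G := by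
  have hP : ∀ P : Sylow 5 G, Nat.card (P : Subgroup G) = 5 := fun P =>
    (Cfsg.Agent.H9.Syl.card_sylow_of_card P (k := 1) (m := 12) (hcard.trans (by norm_num)) (by norm_num)).trans (by norm_num)
  have horb : ∀ P a b : Sylow 5 G, a ≠ P → b ≠ P → ∃ g : G, g • P = P ∧ g • a = b := by
    intro P a b ha hb
    have horb5 : Nat.card (MulAction.orbit (P : Subgroup G) a) = 5 := by
      have h1 : Nat.card (MulAction.orbit (P : Subgroup G) a) ∣ 5 := by
        have h0 : Nat.card (MulAction.orbit (P : Subgroup G) a) ∣ Nat.card (P : Subgroup G) := by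
          rw [Nat.card_congr (MulAction.orbitEquivQuotientStabilizer (P : Subgroup G) a)]
          exact Subgroup.card_quotient_dvd_card _
        exact h0.trans (dvd_of_eq (hP P))
      rcases (Nat.dvd_prime (by norm_num)).mp h1 with h | h
      · exfalso
        rw [Nat.card_eq_one_iff_unique] at h
        obtain ⟨h, -⟩ := h
        have h2 : a ∈ MulAction.fixedPoints (P : Subgroup G) (Sylow 5 G) := by
          intro g
          have := @Subsingleton.elim _ h ⟨g • a, MulAction.mem_orbit _ _⟩ ⟨a, MulAction.mem_orbit_self _⟩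
          exact congrArg Subtype.val this
        rw [P.isPGroup'.sylow_mem_fixedPoints_iff] at h2
        exact ha (Sylow.ext (Subgroup.eq_of_le_of_card_ge h2 (by rw [hP, hP]))).symm
      · exact h
    have hsub : MulAction.orbit (P : Subgroup G) a ⊆ {P}ᶜ := by
      rintro _ ⟨g, rfl⟩ h
      apply ha
      have h1 : (g : G) • a = P := h
      have h2 : (g : G) • P = P := by
        rw [Sylow.smul_eq_iff_mem_normalizer]
        exact Subgroup.le_normalizer g.2
      exact smul_left_cancel _ (h1.trans h2.symm)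
    have hc : ({P}ᶜ : Set (Sylow 5 G)).ncard = 5 := by
      have := Set.ncard_add_ncard_compl ({P} : Set (Sylow 5 G))
      rw [Set.ncard_singleton, h6] at this
      omega
    have heq : MulAction.orbit (P : Subgroup G) a = {P}ᶜ :=
      Set.eq_of_subset_of_ncard_le hsub (by
        rw [hc]
        have := Nat.card_coe_set_eq (MulAction.orbit (P : Subgroup G) a)
        omega)
    have hb' : b ∈ MulAction.orbit (P : Subgroup G) a := by rw [heq]; exact hb
    obtain ⟨g, hg⟩ := hb'
    refine ⟨(g : G), ?_, hg⟩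
    rw [Sylow.smul_eq_iff_mem_normalizer]
    exact Subgroup.le_normalizer g.2
  have h2 : MulAction.IsMultiplyPretransitive G (Sylow 5 G) 2 := by
    rw [MulAction.is_two_pretransitive_iff]
    intro a b c d hab hcd
    obtain ⟨g, hg⟩ := MulAction.exists_smul_eq G a c
    have h1 : g • b ≠ c := fun h => hab (smul_left_cancel g (hg.trans h.symm))
    obtain ⟨h, h3, h4⟩ := horb c (g • b) d h1 hcd.symm
    exact ⟨h * g, by rw [mul_smul, hg, h3], by rw [mul_smul, h4]⟩
  have hirr := (Cfsg.Agent.S0157.result (G := G) (Sylow 5 G) (by rw [h6]; norm_num)).mpr h2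
  refine ⟨by norm_num, 5, ⟨⟨_, hirr⟩, ?_⟩, dvd_rfl⟩
  show Nat.floor _ = 5
  have hfix : Nat.card (MulAction.fixedBy (Sylow 5 G) (1 : G)) = 6 := by
    rw [← h6]
    refine Nat.card_congr ⟨fun x => x.1, fun x => ⟨x, one_smul _ _⟩, fun _ => rfl, fun _ => rfl⟩
  have h7 : (⟨fun g => (Nat.card (MulAction.fixedBy (Sylow 5 G) g) : ℂ) - 1, hirr⟩ : IrrCharacter G).1 1 = 5 := by
    show (Nat.card (MulAction.fixedBy (Sylow 5 G) (1 : G)) : ℂ) - 1 = 5
    rw [hfix]
    norm_num
  rw [h7]
  norm_num

theorem not_solv {G : Type u} [Group G] [Finite G] (hcard : Nat.card G = 60) [Fact (Nat.Prime 5)]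
    (h6 : Nat.card (Sylow 5 G) = 6) : ¬ Group.IsSolvable G := by
  intro hs
  obtain ⟨K, hK⟩ := Cfsg.Agent.H1.hall_exists hs (m := 15) (n := 4) (hcard.trans (by norm_num)) (by norm_num)
  obtain ⟨Q⟩ : Nonempty (Sylow 5 K) := inferInstance
  have hQ1 : Nat.card (Sylow 5 K) = 1 := by
    have hd : Nat.card (Sylow 5 K) ∣ 3 :=
      Cfsg.Agent.H9.Syl.card_sylow_dvd_of_card Q (k := 1) (hK.trans (by norm_num)) (by norm_num)
    have h1 := card_sylow_modEq_one 5 K
    have hle : Nat.card (Sylow 5 K) ≤ 3 := Nat.le_of_dvd (by norm_num) hd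
    generalize Nat.card (Sylow 5 K) = n at *
    interval_cases n <;> revert hd h1 <;> decide
  have hQc : Nat.card (Q : Subgroup K) = 5 :=
    (Cfsg.Agent.H9.Syl.card_sylow_of_card Q (k := 1) (m := 3) (hK.trans (by norm_num)) (by norm_num)).trans (by norm_num)
  have hQn : (Q : Subgroup K).Normal := by
    have : Subsingleton (Sylow 5 K) := (Nat.card_eq_one_iff_unique.mp hQ1).1
    exact Sylow.normal_of_subsingleton Q
  obtain ⟨P0, hP0⟩ : ∃ P0 : Subgroup G, P0 = (Q : Subgroup K).map K.subtype := ⟨_, rfl⟩
  have hP0c : Nat.card P0 = 5 := by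
    rw [hP0, Subgroup.card_map_of_injective K.subtype_injective, hQc]
  have hP0p : IsPGroup 5 P0 := IsPGroup.of_card (n := 1) (by rw [hP0c]; norm_num)
  obtain ⟨P, hP⟩ := hP0p.exists_le_sylow
  have hPc : Nat.card (P : Subgroup G) = 5 :=
    (Cfsg.Agent.H9.Syl.card_sylow_of_card P (k := 1) (m := 12) (hcard.trans (by norm_num)) (by norm_num)).trans (by norm_num)
  have hPP : P0 = P := Subgroup.eq_of_le_of_card_ge hP (by rw [hPc, hP0c])
  have hKN : K ≤ Subgroup.normalizer ((P : Subgroup G) : Set G) := by
    intro k hk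
    rw [Subgroup.mem_normalizer_iff]
    have h1 : ∀ x ∈ P0, ∀ k ∈ K, k * x * k⁻¹ ∈ P0 := by
      intro x hx k hk
      rw [hP0] at hx ⊢
      obtain ⟨y, hy, rfl⟩ := hx
      exact ⟨⟨k, hk⟩ * y * ⟨k, hk⟩⁻¹, hQn.conj_mem y hy ⟨k, hk⟩, rfl⟩
    intro h
    rw [← hPP]
    constructor
    · intro hh; exact h1 h hh k hk
    · intro hh
      have := h1 _ hh k⁻¹ (K.inv_mem hk)
      simpa [mul_assoc] using this
  have h3 : Nat.card (Sylow 5 G) = (Subgroup.normalizer ((P : Subgroup G) : Set G)).index := P.card_eq_index_normalizer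
  rw [h6] at h3
  have h4 := (Subgroup.normalizer ((P : Subgroup G) : Set G)).card_mul_index
  rw [← h3, hcard] at h4
  have h5 := Subgroup.card_dvd_of_le hKN
  rw [hK] at h5
  have h10 : Nat.card (Subgroup.normalizer ((P : Subgroup G) : Set G)) = 10 := by omega
  rw [h10] at h5
  revert h5; decide

theorem n5_alt [Fact (Nat.Prime 5)] : Nat.card (Sylow 5 (alternatingGroup (Fin 5))) = 6 := by
  have hc : Nat.card (alternatingGroup (Fin 5)) = 60 := by
    rw [Nat.card_eq_fintype_card]; rfl
  rcases n5 hc with h | h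
  · exfalso
    have hns : ¬ IsMulCommutative (alternatingGroup (Fin 5)) :=
      Cfsg.Agent.H9.Simple.not_comm_of_not_prime (by rw [hc]; norm_num)
    exact Cfsg.Agent.H9.Simple.card_sylow_ne_one hns (by rw [hc]; norm_num) h
  · exact h

/-- The character degree graph of a finite group has as vertices the primes dividing some irreducible complex character degree, two distinct primes being joined when their product divides some irreducible character degree; two groups have the same character degree graph when they have the same vertices and the same joined pairs. A finite group of order 60 with the same character degree graph as the alternating group A₅ (whose character degrees are 1, 3, 4, 5, so the graph has vertices 2, 3, 5 and no edges) is isomorphic to A₅. -/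
theorem result {G : Type*} [Group G] [Finite G] (hcard : Nat.card G = 60)
    (hΓ : Cfsg.degreePrimes G = Cfsg.degreePrimes (alternatingGroup (Fin 5)) ∧ Cfsg.degreeGraph G = Cfsg.degreeGraph (alternatingGroup (Fin 5))) : Nonempty (G ≃* alternatingGroup (Fin 5)) := by
  haveI : Fact (Nat.Prime 5) := ⟨by norm_num⟩
  have h5 : 5 ∈ Cfsg.degreePrimes G := by
    rw [hΓ.1]
    exact deg5 (by rw [Nat.card_eq_fintype_card]; rfl) n5_alt
  have h6 : Nat.card (Sylow 5 G) = 6 := by
    rcases n5 hcard with h | h
    · exfalso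
      obtain ⟨P⟩ : Nonempty (Sylow 5 G) := inferInstance
      have hPc : Nat.card (P : Subgroup G) = 5 :=
        (Cfsg.Agent.H9.Syl.card_sylow_of_card P (k := 1) (m := 12) (hcard.trans (by norm_num)) (by norm_num)).trans (by norm_num)
      have : Subsingleton (Sylow 5 G) := (Nat.card_eq_one_iff_unique.mp h).1
      have hPn : (P : Subgroup G).Normal := Sylow.normal_of_subsingleton P
      have hcyc : IsCyclic (P : Subgroup G) := isCyclic_of_prime_card hPc
      have hcomm : ∀ a ∈ (P : Subgroup G), ∀ b ∈ (P : Subgroup G), a * b = b * a := by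
        intro a ha b hb
        have := hcyc.commGroup.mul_comm ⟨a, ha⟩ ⟨b, hb⟩
        exact congrArg Subtype.val this
      obtain ⟨-, d, ⟨χ, hχ⟩, hd⟩ := h5
      have hx := Cfsg.Agent.H3.ito_degree_dvd χ.2 (P : Subgroup G) hPn hcomm (n := d) (by
        rw [← hχ, Cfsg.Agent.H27.charDegree_cast (Cfsg.Agent.H3.irr_isChar χ.2)])
      have hi : (P : Subgroup G).index = 12 := by
        have := (P : Subgroup G).card_mul_index
        rw [hPc, hcard] at this
        omega
      rw [hi] at hx
      have := hd.trans hx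
      revert this; decide
    · exact h
  have := Cfsg.Agent.H21.simple_of_card_60 hcard (not_solv hcard h6)
  exact Cfsg.Agent.S0494.result hcard

end Cfsg.Agent.S3669
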