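import Cfsg.Statements.S3670
import Cfsg.Agent.H29.PsuThreeA
import Cfsg.Agent.H29.PsuThreeB
import Cfsg.Agent.H29.PsuThreeC
import Cfsg.Agent.H29.PsuThreeE
import Cfsg.Agent.H29.Sol6048

set_option autoImplicit false
open Cfsg

namespace Cfsg.Agent.S3670

open Cfsg.Agent Cfsg.Agent.H5 Cfsg.Agent.H29 Cfsg.Agent.H29.GFq9 Cfsg.Agent.H29.PsuThree Cfsg.Agent.H29.ClassEig

theorem card_SU3 {F : Type*} [Field F] [Fintype F] (hF : Fintype.card F = 9) : Nat.card (SU 3 F 3) = 6048 := by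
  have h1 := card_SU_mul (F := F) (q := 3) (n := 3) (by rw [hF]; norm_num) (by norm_num)
  have h2 : ordU 3 3 = 24192 := by
    unfold ordU
    decide
  rw [h2] at h1
  omega

theorem su_degrees {F : Type*} [Field F] [Fintype F] (hF : Fintype.card F = 9) :
    (∃ d ∈ charDegrees (SU 3 F 3), 6 ∣ d) ∧ (∃ d ∈ charDegrees (SU 3 F 3), 14 ∣ d) ∧
    (∃ d ∈ charDegrees (SU 3 F 3), 21 ∣ d) := by
  obtain ⟨σ, hσ, hσ2, hσ1⟩ := exists_frob (F := F) (q := 3) (by rw [hF]; norm_num)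
  obtain ⟨h3, s, hs⟩ := exists_s hF
  have : Finite (SU 3 F 3) := Nat.finite_of_card_ne_zero (by rw [card_SU3 hF]; norm_num)
  have : Fintype (SU 3 F 3) := Fintype.ofFinite _
  have hz3 := z_cube h3 hs hσ
  have hinv : IsConj (z h3 hs hσ) (z h3 hs hσ)⁻¹ := isConj_iff.mpr ⟨_, r_conj h3 hs hσ⟩
  have hone : sv (1 : SU 3 F 3) (vv s (1, 1, 1)) = vv s (1, 1, 1) := sv_one _
  have nn : ∀ χ : IrrCharacter (SU 3 F 3), ∃ b : ℕ, (χ : SU 3 F 3 → ℂ) (z h3 hs hσ) = (χ : SU 3 F 3 → ℂ) 1 - 9 * b :=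
    fun χ => nine (χ : SU 3 F 3 → ℂ) χ.2 hz3 hinv (xy h3 hs hσ) (xz h3 hs hσ) (yz h3 hs hσ)
  refine ⟨?_, ?_, ?_⟩
  · obtain ⟨χ, hχ⟩ := exists_chi (Fp s) (1 : SU 3 F 3) (by
      have h1 : psi s (H18.mt (1 : SU 3 F 3)) = 6 := by
        rw [H18.mt_one]
        unfold psi
        rw [if_pos rfl]
      unfold Fp
      rw [h1]
      norm_num)
    have e1 := hχ _ _ (eig_p chkC hF h3 hs hσ hσ2)
    obtain ⟨b, hb⟩ := nn χ
    have hd := H27.charDegree_cast (H27.isIrr_isCharacter χ.2)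
    refine ⟨charDegree (χ : SU 3 F 3 → ℂ), ⟨χ, rfl⟩, ⟨b, ?_⟩⟩
    rw [e1, ← hd] at hb
    have h6 : (charDegree (χ : SU 3 F 3 → ℂ) : ℂ) = ((6 * b : ℕ) : ℂ) := by
      push_cast
      linear_combination (-2 / 3) * hb
    exact_mod_cast h6
  · obtain ⟨χ, hχ⟩ := exists_chi (Ff s f2) (1 : SU 3 F 3) (by
      unfold Ff
      rw [hone, cd_vv h3 hs (by decide)]
      norm_num [f2])
    have e1 := hχ _ _ (eig_f hF h3 hs hσ hσ1 hσ2 f2 8 chkA)
    obtain ⟨m, hm⟩ := int_val (χ : SU 3 F 3 → ℂ) χ.2 (z h3 hs hσ) (8 / 224) (by rw [e1]; push_cast; ring)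
    refine ⟨charDegree (χ : SU 3 F 3 → ℂ), ⟨χ, rfl⟩, ?_⟩
    have h7 : (charDegree (χ : SU 3 F 3 → ℂ) : ℚ) = ((28 * m : ℤ) : ℚ) := by
      push_cast
      linear_combination (-28) * hm
    have h7' : (charDegree (χ : SU 3 F 3 → ℂ) : ℤ) = 28 * m := by exact_mod_cast h7
    omega
  · obtain ⟨χ, hχ⟩ := exists_chi (Ff s f3) (1 : SU 3 F 3) (by
      unfold Ff
      rw [hone, cd_vv h3 hs (by decide)]
      norm_num [f3, lam])
    have e1 := hχ _ _ (eig_f hF h3 hs hσ hσ1 hσ2 f3 32 chkB)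
    obtain ⟨b, hb⟩ := nn χ
    have hd := H27.charDegree_cast (H27.isIrr_isCharacter χ.2)
    refine ⟨charDegree (χ : SU 3 F 3 → ℂ), ⟨χ, rfl⟩, ?_⟩
    rw [e1, ← hd] at hb
    have h6 : ((2 * charDegree (χ : SU 3 F 3 → ℂ) : ℕ) : ℂ) = ((21 * b : ℕ) : ℂ) := by
      push_cast
      push_cast at hb
      linear_combination (-7 / 3) * hb
    have h6' : 2 * charDegree (χ : SU 3 F 3 → ℂ) = 21 * b := by exact_mod_cast h6
    omega

/-- The character degree graph of a finite group has as vertices the primes dividing some irreducible complex character degree, two distinct primes being joined when their product divides some irreducible character degree; two groups have the same character degree graph when they have the same vertices and the same joined pairs. Let F be the field with 9 elements and L = PSU(3,3) realised over F (order 6048). There is a finite solvable group of order 6048 with the same character degree graph as L; so L is not determined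 by its order together with its character degree graph. -/
theorem result {F : Type*} [Field F] [Fintype F] (hF : Fintype.card F = 9) :
    ∃ (H : Type) (_ : Group H) (_ : Fintype H), Group.IsSolvable H ∧ Nat.card H = 6048 ∧ Cfsg.degreePrimes H = Cfsg.degreePrimes (Cfsg.PSU 3 F 3) ∧ Cfsg.degreeGraph H = Cfsg.degreeGraph (Cfsg.PSU 3 F 3) := by
  have hc : Subgroup.center (SU 3 F 3) = ⊥ := by
    have h1 := card_center_SU (F := F) (q := 3) (n := 3) (by rw [hF]; norm_num) (by norm_num)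
    norm_num at h1
    exact h1
  let e' : PSU 3 F 3 ≃* SU 3 F 3 := (QuotientGroup.quotientMulEquivOfEq hc).trans QuotientGroup.quotientBot
  have hcard : Nat.card (PSU 3 F 3) = 6048 := by rw [Nat.card_congr e'.toEquiv, card_SU3 hF]
  have hcd : charDegrees (PSU 3 F 3) = charDegrees (SU 3 F 3) := charDegrees_of_equiv e'
  have : Finite (PSU 3 F 3) := Nat.finite_of_card_ne_zero (by rw [hcard]; norm_num)
  obtain ⟨h6, h14, h21⟩ := su_degrees hF
  rw [← hcd] at h6 h14 h21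
  obtain ⟨d, hd, h42⟩ := Sol6048.exists_42
  have k6 : ∃ d ∈ charDegrees Sol6048.H, 6 ∣ d := ⟨d, hd, (by norm_num : 6 ∣ 42).trans h42⟩
  have k14 : ∃ d ∈ charDegrees Sol6048.H, 14 ∣ d := ⟨d, hd, (by norm_num : 14 ∣ 42).trans h42⟩
  have k21 : ∃ d ∈ charDegrees Sol6048.H, 21 ∣ d := ⟨d, hd, (by norm_num : 21 ∣ 42).trans h42⟩
  refine ⟨Sol6048.H, inferInstance, inferInstance, Sol6048.solv, Sol6048.card_H, ?_, ?_⟩
  · rw [degreePrimes_eq Sol6048.card_H k6 k14, degreePrimes_eq hcard h6 h14]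
  · ext p q
    rw [degreeGraph_adj Sol6048.card_H k6 k14 k21, degreeGraph_adj hcard h6 h14 h21]

end Cfsg.Agent.S3670
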