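import Cfsg.Statements.S3678
import Cfsg.Agent.H22.SemiDir
import Cfsg.Agent.H22.SL2Act

set_option autoImplicit false
set_option linter.all false
open Cfsg

namespace Cfsg.Agent.S3678

open Cfsg.Agent.H22
open scoped Matrix MatrixGroups

theorem no_rs {r s : ℕ} (hr : r.Prime) (hs : s.Prime) (hrs : r ≠ s) (p k : ℕ) (hp : p.Prime)
    (h : r * s ∣ p ^ k) : False := by
  have h1 : r ∣ p ^ k := (dvd_mul_right r s).trans h
  have h2 : s ∣ p ^ k := (dvd_mul_left s r).trans h
  have h3 := (Nat.prime_dvd_prime_iff_eq hr hp).1 (hr.dvd_of_dvd_pow h1)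
  have h4 := (Nat.prime_dvd_prime_iff_eq hs hp).1 (hs.dvd_of_dvd_pow h2)
  exact hrs (h3.trans h4.symm)

section
variable {K : Type*} [Field K] [Fintype K] [CharP K 2]

/-- orders in SL2(8) -/
theorem orders8 (hK : Fintype.card K = 8) (g : Matrix.SpecialLinearGroup (Fin 2) K) :
    orderOf g ∣ 2 ^ 1 ∨ orderOf g ∣ 3 ^ 2 ∨ orderOf g ∣ 7 ^ 1 := by
  have h2 : (2 : K) = 0 := CharTwo.two_eq_zero
  set t := (g : Matrix (Fin 2) (Fin 2) K).trace with ht
  have ht8 : t ^ 8 = t := by rw [← hK]; exact FiniteField.pow_card t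
  have hgen : ∀ k : ℕ, ff t (k + 1) = 0 → ff t k = 1 → orderOf g ∣ (k + 1) := by
    intro k h1 h3
    apply orderOf_dvd_of_pow_eq_one
    apply Subtype.ext
    have h4 := sl2_pow_eq g k
    rw [← ht, h1, h3, zero_smul, zero_sub, one_smul] at h4
    show ((g ^ (k + 1) : Matrix.SpecialLinearGroup (Fin 2) K) : Matrix (Fin 2) (Fin 2) K) = 1
    rw [Matrix.SpecialLinearGroup.coe_pow, h4]
    have h5 : (-1 : K) = 1 := by linear_combination -h2
    ext i j
    fin_cases i <;> fin_cases j <;> simp [h5]
  have hfac : t * ((t - 1) * ((t ^ 3 + t + 1) * (t ^ 3 + t ^ 2 + 1))) = 0 := by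
    linear_combination ht8 + (t ^ 5 - t ^ 4) * h2
  rcases mul_eq_zero.1 hfac with h | h
  · left
    rw [pow_one]
    apply hgen 1
    · show t * 1 - 0 = 0
      rw [h]; ring
    · rfl
  rcases mul_eq_zero.1 h with h | h
  · right; left
    have h1 : t = 1 := by linear_combination h
    have : orderOf g ∣ 3 := by
      apply hgen 2
      · show t * (t * 1 - 0) - 1 = 0
        rw [h1]; ring
      · show t * 1 - 0 = 1
        rw [h1]; ring
    exact this.trans (by norm_num)
  rcases mul_eq_zero.1 h with h | h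
  · right; left
    have : orderOf g ∣ 9 := by
      apply hgen 8
      · simp only [ff]
        linear_combination (9 + 23 * t - t ^ 2 - 8 * t ^ 3 + t ^ 5) * h + (-4 - 16 * t - 16 * t ^ 2) * h2
      · simp only [ff]
        linear_combination (17 - t - 7 * t ^ 2 + t ^ 4) * h + (-9 - 10 * t + 4 * t ^ 2) * h2
    exact this.trans (by norm_num)
  · right; right
    have : orderOf g ∣ 7 := by
      apply hgen 6
      · simp only [ff]
        linear_combination (3 - 4 * t - t ^ 2 + t ^ 3) * h + (-2 + 2 * t + 2 * t ^ 2) * h2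
      · simp only [ff]
        linear_combination (-3 - t + t ^ 2) * h + (1 + 2 * t + t ^ 2) * h2
    exact this.trans (by norm_num)

theorem fix8 (g : Matrix.SpecialLinearGroup (Fin 2) K) (v : Fin 2 → K) (hv : v ≠ 0)
    (h : slHom 2 K g v = v) : ∃ j : ℕ, orderOf g = 2 ^ j := by
  have h2 : (2 : K) = 0 := CharTwo.two_eq_zero
  have h1 := sl2_fixed_trace g v hv h
  have h3 : g ^ 2 = 1 := by
    apply Subtype.ext
    have h4 := sl2_sq_eq g
    rw [h1, h2, zero_smul, zero_sub] at h4
    rw [pow_two]
    show (g : Matrix (Fin 2) (Fin 2) K) * (g : Matrix (Fin 2) (Fin 2) K) = 1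
    rw [h4]
    ext i j
    have h5 : (-1 : K) = 1 := by linear_combination -h2
    fin_cases i <;> fin_cases j <;> simp [h5]
  have h6 : orderOf g ∣ 2 ^ 1 := orderOf_dvd_of_pow_eq_one (by rw [pow_one]; exact h3)
  obtain ⟨k, -, hk⟩ := (Nat.dvd_prime_pow Nat.prime_two).1 h6
  exact ⟨k, hk⟩

theorem has2 : 2 ∣ Nat.card (Matrix.SpecialLinearGroup (Fin 2) K) := by
  classical
  have h2 : (2 : K) = 0 := CharTwo.two_eq_zero
  let t : Matrix.SpecialLinearGroup (Fin 2) K := ⟨!![1, 1; 0, 1], by simp [Matrix.det_fin_two]⟩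
  have ht : orderOf t = 2 := by
    haveI : Fact (Nat.Prime 2) := ⟨Nat.prime_two⟩
    apply orderOf_eq_prime
    · apply Subtype.ext
      show (!![1, 1; 0, 1] : Matrix (Fin 2) (Fin 2) K) ^ 2 = 1
      rw [pow_two]
      ext i j
      have h11 : (1 : K) + 1 = 0 := by linear_combination h2
      fin_cases i <;> fin_cases j <;> simp [Matrix.mul_apply, h11]
    · intro h
      have h1 := congrArg (fun x : Matrix.SpecialLinearGroup (Fin 2) K => (x : Matrix (Fin 2) (Fin 2) K) 0 1) h
      have h2 : (!![1, 1; 0, 1] : Matrix (Fin 2) (Fin 2) K) 0 1 = (1 : Matrix (Fin 2) (Fin 2) K) 0 1 := h1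
      simp at h2
  have := orderOf_dvd_natCard t
  rwa [ht] at this

theorem has3 : 3 ∣ Nat.card (Matrix.SpecialLinearGroup (Fin 2) K) := by
  classical
  have h2 : (2 : K) = 0 := CharTwo.two_eq_zero
  let t : Matrix.SpecialLinearGroup (Fin 2) K := ⟨!![0, 1; -1, -1], by simp [Matrix.det_fin_two]⟩
  have ht : orderOf t = 3 := by
    haveI : Fact (Nat.Prime 3) := ⟨Nat.prime_three⟩
    apply orderOf_eq_prime
    · apply Subtype.ext
      show (!![0, 1; -1, -1] : Matrix (Fin 2) (Fin 2) K) ^ 3 = 1
      rw [pow_succ, pow_two]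
      ext i j
      fin_cases i <;> fin_cases j <;> simp [Matrix.mul_apply, Fin.sum_univ_two]
    · intro h
      have h1 := congrArg (fun x : Matrix.SpecialLinearGroup (Fin 2) K => (x : Matrix (Fin 2) (Fin 2) K) 0 1) h
      have h2 : (!![0, 1; -1, -1] : Matrix (Fin 2) (Fin 2) K) 0 1 = (1 : Matrix (Fin 2) (Fin 2) K) 0 1 := h1
      simp at h2
  rw [← ht]
  exact orderOf_dvd_natCard t

theorem has7 (hK : Fintype.card K = 8) : 7 ∣ Nat.card (Matrix.SpecialLinearGroup (Fin 2) K) := by
  classical
  obtain ⟨a, ha0, ha1⟩ : ∃ a : K, a ≠ 0 ∧ a ≠ 1 := by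
    by_contra hcon
    push Not at hcon
    have : Fintype.card K ≤ 2 := by
      have h1 : (Finset.univ : Finset K) ⊆ {0, 1} := by
        intro x _
        by_cases hx : x = 0
        · simp [hx]
        · simp [hcon x hx]
      calc Fintype.card K = (Finset.univ : Finset K).card := rfl
        _ ≤ ({0, 1} : Finset K).card := Finset.card_le_card h1
        _ ≤ 2 := Finset.card_le_two
    omega
  have ha7 : a ^ 7 = 1 := by
    have h8 : a ^ 8 = a := by rw [← hK]; exact FiniteField.pow_card a
    apply mul_left_cancel₀ ha0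
    rw [← pow_succ', h8, mul_one]
  let t : Matrix.SpecialLinearGroup (Fin 2) K := ⟨!![a, 0; 0, a⁻¹], by simp [Matrix.det_fin_two, ha0]⟩
  have hpow : ∀ n : ℕ, (!![a, 0; 0, a⁻¹] : Matrix (Fin 2) (Fin 2) K) ^ n = !![a ^ n, 0; 0, a⁻¹ ^ n] := by
    intro n
    induction n with
    | zero => 
      ext i j
      fin_cases i <;> fin_cases j <;> simp
    | succ n ih =>
      rw [pow_succ, ih]
      ext i j
      fin_cases i <;> fin_cases j <;> simp [Matrix.mul_apply, Fin.sum_univ_two, pow_succ]
  have ht : orderOf t = 7 := by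
    haveI : Fact (Nat.Prime 7) := ⟨by norm_num⟩
    apply orderOf_eq_prime
    · apply Subtype.ext
      show (!![a, 0; 0, a⁻¹] : Matrix (Fin 2) (Fin 2) K) ^ 7 = 1
      rw [hpow, ha7, inv_pow, ha7]
      ext i j
      fin_cases i <;> fin_cases j <;> simp
    · intro h
      have h1 := congrArg (fun x : Matrix.SpecialLinearGroup (Fin 2) K => (x : Matrix (Fin 2) (Fin 2) K) 0 0) h
      have h2 : (!![a, 0; 0, a⁻¹] : Matrix (Fin 2) (Fin 2) K) 0 0 = (1 : Matrix (Fin 2) (Fin 2) K) 0 0 := h1
      simp at h2
      exact ha1 h2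
  rw [← ht]
  exact orderOf_dvd_natCard t

end

section
variable {F : Type*} [Field F] [Fintype F]

theorem seven (hF : Fintype.card F = 7) : (7 : F) = 0 := by
  have := FiniteField.cast_card_eq_zero F
  rw [hF] at this
  exact_mod_cast this

theorem psl_pow (g : Matrix.SpecialLinearGroup (Fin 2) F) (k : ℕ)
    (h1 : ff (g : Matrix (Fin 2) (Fin 2) F).trace (k + 1) = 0)
    (h3 : ff (g : Matrix (Fin 2) (Fin 2) F).trace k = 1 ∨ ff (g : Matrix (Fin 2) (Fin 2) F).trace k = -1) :
    orderOf (QuotientGroup.mk g : Matrix.ProjectiveSpecialLinearGroup (Fin 2) F) ∣ k + 1 := by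
  apply orderOf_dvd_of_pow_eq_one
  rw [← QuotientGroup.mk_pow]
  apply (QuotientGroup.eq_one_iff _).2
  rw [sl2_mem_center_iff]
  have h4 := sl2_pow_eq g k
  rw [h1, zero_smul, zero_sub] at h4
  rw [Matrix.SpecialLinearGroup.coe_pow, h4]
  rcases h3 with h3 | h3
  · right; rw [h3, one_smul]
  · left; rw [h3, neg_smul, one_smul, neg_neg]

theorem orders7 (hF : Fintype.card F = 7) (g : Matrix.ProjectiveSpecialLinearGroup (Fin 2) F) :
    orderOf g ∣ 2 ^ 2 ∨ orderOf g ∣ 3 ^ 1 ∨ orderOf g ∣ 7 ^ 1 := by
  have h7 := seven hF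
  obtain ⟨g, rfl⟩ := QuotientGroup.mk_surjective g
  have ht7 : (g : Matrix (Fin 2) (Fin 2) F).trace ^ 7 = (g : Matrix (Fin 2) (Fin 2) F).trace := by
    rw [← hF]; exact FiniteField.pow_card _
  generalize ht : (g : Matrix (Fin 2) (Fin 2) F).trace = t at ht7
  have hfac : t * ((t ^ 2 - 1) * ((t ^ 2 - 2) * (t ^ 2 - 4))) = 0 := by
    linear_combination ht7 + (2 * t ^ 3 - t ^ 5 - t) * h7
  rcases mul_eq_zero.1 hfac with h | h
  · left
    have : orderOf (QuotientGroup.mk g : Matrix.ProjectiveSpecialLinearGroup (Fin 2) F) ∣ 1 + 1 := by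
      apply psl_pow
      · rw [ht]; show t * 1 - 0 = 0
        rw [h]; ring
      · left; rfl
    exact this.trans (by norm_num)
  rcases mul_eq_zero.1 h with h | h
  · right; left
    have : orderOf (QuotientGroup.mk g : Matrix.ProjectiveSpecialLinearGroup (Fin 2) F) ∣ 2 + 1 := by
      apply psl_pow
      · rw [ht]; show t * (t * 1 - 0) - 1 = 0
        linear_combination h
      · rw [ht]
        show t * 1 - 0 = 1 ∨ t * 1 - 0 = -1
        have h1 : (t - 1) * (t + 1) = 0 := by linear_combination h
        rcases mul_eq_zero.1 h1 with h | h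
        · left; linear_combination h
        · right; linear_combination h
    exact this.trans (by norm_num)
  rcases mul_eq_zero.1 h with h | h
  · left
    have : orderOf (QuotientGroup.mk g : Matrix.ProjectiveSpecialLinearGroup (Fin 2) F) ∣ 3 + 1 := by
      apply psl_pow
      · rw [ht]; simp only [ff]
        linear_combination t * h
      · rw [ht]; simp only [ff]
        left; linear_combination h
    exact this.trans (by norm_num)
  · right; right
    have : orderOf (QuotientGroup.mk g : Matrix.ProjectiveSpecialLinearGroup (Fin 2) F) ∣ 6 + 1 := by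
      apply psl_pow
      · rw [ht]; simp only [ff]
        have h1 : t ^ 2 = 4 := by linear_combination h
        have h4 : t ^ 4 = 16 := by
          have : t ^ 4 = (t ^ 2) ^ 2 := by ring
          rw [this, h1]; norm_num
        have h6 : t ^ 6 = 64 := by
          have : t ^ 6 = (t ^ 2) ^ 3 := by ring
          rw [this, h1]; norm_num
        linear_combination h6 - 5 * h4 + 6 * h1 + h7
      · rw [ht]; simp only [ff]
        have h1 : (t - 2) * (t + 2) = 0 := by linear_combination h
        rcases mul_eq_zero.1 h1 with h | h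
        · have h5 : t = 2 := by linear_combination h
          right; rw [h5]; linear_combination h7
        · have h5 : t = -2 := by linear_combination h
          left; rw [h5]; linear_combination -h7
    exact this.trans (by norm_num)

theorem one_ne_neg (hF : Fintype.card F = 7) : (2 : F) ≠ 0 := by
  intro h2
  have h7 := seven hF
  have : (1 : F) = 0 := by linear_combination h7 - 3 * h2
  exact one_ne_zero this

theorem phas (hF : Fintype.card F = 7) (r : ℕ) [Fact r.Prime] (g : Matrix.SpecialLinearGroup (Fin 2) F)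
    (hg : ¬ ((g : Matrix (Fin 2) (Fin 2) F) = 1 ∨ (g : Matrix (Fin 2) (Fin 2) F) = -1))
    (hr : (g : Matrix (Fin 2) (Fin 2) F) ^ r = 1 ∨ (g : Matrix (Fin 2) (Fin 2) F) ^ r = -1) :
    r ∣ Nat.card (Matrix.ProjectiveSpecialLinearGroup (Fin 2) F) := by
  have ht : orderOf (QuotientGroup.mk g : Matrix.ProjectiveSpecialLinearGroup (Fin 2) F) = r := by
    apply orderOf_eq_prime
    · rw [← QuotientGroup.mk_pow]
      apply (QuotientGroup.eq_one_iff _).2
      rw [sl2_mem_center_iff, Matrix.SpecialLinearGroup.coe_pow]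
      exact hr
    · intro h
      have := (QuotientGroup.eq_one_iff _).1 h
      rw [sl2_mem_center_iff] at this
      exact hg this
  haveI : Finite (Matrix.ProjectiveSpecialLinearGroup (Fin 2) F) := by
    unfold Matrix.ProjectiveSpecialLinearGroup
    infer_instance
  have := orderOf_dvd_natCard (QuotientGroup.mk g : Matrix.ProjectiveSpecialLinearGroup (Fin 2) F)
  rwa [ht] at this

theorem ponly (hF : Fintype.card F = 7) (r : ℕ) (hr : r.Prime) :
    r ∣ Nat.card (Matrix.ProjectiveSpecialLinearGroup (Fin 2) F) ↔ r = 2 ∨ r = 3 ∨ r = 7 := by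
  haveI : Finite (Matrix.ProjectiveSpecialLinearGroup (Fin 2) F) := by
    unfold Matrix.ProjectiveSpecialLinearGroup
    infer_instance
  have h2 := one_ne_neg hF
  have h7 := seven hF
  constructor
  · intro h
    haveI := Fact.mk hr
    obtain ⟨x, hx⟩ := exists_prime_orderOf_dvd_card' r h
    rcases orders7 hF x with h | h | h
    · left; rw [hx] at h
      exact (Nat.prime_dvd_prime_iff_eq hr Nat.prime_two).1 (hr.dvd_of_dvd_pow h)
    · right; left; rw [hx] at h
      exact (Nat.prime_dvd_prime_iff_eq hr Nat.prime_three).1 (hr.dvd_of_dvd_pow h)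
    · right; right; rw [hx] at h
      exact (Nat.prime_dvd_prime_iff_eq hr (by norm_num)).1 (hr.dvd_of_dvd_pow h)
  · have hne : ∀ a b c d : F, b ≠ 0 → ¬ ((!![a, b; c, d] : Matrix (Fin 2) (Fin 2) F) = 1 ∨
        (!![a, b; c, d] : Matrix (Fin 2) (Fin 2) F) = -1) := by
      rintro a b c d hb (h | h)
      · have := congrFun (congrFun h 0) 1
        simp at this
        exact hb this
      · have := congrFun (congrFun h 0) 1
        simp at this
        exact hb this
    rintro (h | h | h)
    · subst h
      haveI : Fact (Nat.Prime 2) := ⟨Nat.prime_two⟩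
      apply phas hF 2 ⟨!![0, 1; -1, 0], by simp [Matrix.det_fin_two]⟩
      · exact hne _ _ _ _ one_ne_zero
      · right
        show (!![0, 1; -1, 0] : Matrix (Fin 2) (Fin 2) F) ^ 2 = -1
        rw [pow_two]
        ext i j
        fin_cases i <;> fin_cases j <;> simp [Matrix.mul_apply, Fin.sum_univ_two]
    · subst h
      haveI : Fact (Nat.Prime 3) := ⟨Nat.prime_three⟩
      apply phas hF 3 ⟨!![0, 1; -1, -1], by simp [Matrix.det_fin_two]⟩
      · exact hne _ _ _ _ one_ne_zero
      · left
        show (!![0, 1; -1, -1] : Matrix (Fin 2) (Fin 2) F) ^ 3 = 1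
        rw [pow_succ, pow_two]
        ext i j
        fin_cases i <;> fin_cases j <;> simp [Matrix.mul_apply, Fin.sum_univ_two]
    · subst h
      haveI : Fact (Nat.Prime 7) := ⟨by norm_num⟩
      apply phas hF 7 ⟨!![1, 1; 0, 1], by simp [Matrix.det_fin_two]⟩
      · exact hne _ _ _ _ one_ne_zero
      · left
        show (!![1, 1; 0, 1] : Matrix (Fin 2) (Fin 2) F) ^ 7 = 1
        have hpow : ∀ n : ℕ, (!![1, 1; 0, 1] : Matrix (Fin 2) (Fin 2) F) ^ n = !![1, (n : F); 0, 1] := by
          intro n
          induction n with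
          | zero => 
            ext i j
            fin_cases i <;> fin_cases j <;> simp
          | succ n ih =>
            rw [pow_succ, ih]
            ext i j
            fin_cases i <;> fin_cases j <;> simp [Matrix.mul_apply, Fin.sum_univ_two]
            ring
        rw [hpow]
        have : ((7 : ℕ) : F) = 0 := by exact_mod_cast h7
        rw [this]
        ext i j
        fin_cases i <;> fin_cases j <;> simp

end

theorem main {F : Type*} [Field F] [Fintype F] (hF : Fintype.card F = 7) (N : ℕ) :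
    ∃ (H : Type) (_ : Group H) (_ : Finite H), N < Nat.card H ∧
      ((∀ p : ℕ, p.Prime → (p ∣ Nat.card (Matrix.ProjectiveSpecialLinearGroup (Fin 2) F) ↔ p ∣ Nat.card H)) ∧
      (∀ p q : ℕ, p.Prime → q.Prime → p ≠ q → ((∃ g : (Matrix.ProjectiveSpecialLinearGroup (Fin 2) F), orderOf g = p * q) ↔ (∃ g : H, orderOf g = p * q)))) := by
  classical
  haveI : Fact (Nat.Prime 2) := ⟨Nat.prime_two⟩
  let K := GaloisField 2 3
  haveI : Fintype K := Fintype.ofFinite K
  have hK : Fintype.card K = 8 := by
    rw [← Nat.card_eq_fintype_card, GaloisField.card 2 3 (by norm_num)]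
    norm_num
  have hV : ∀ v : Fin 2 → K, 2 • v = 0 := fun v => by
    funext i
    show 2 • v i = 0
    rw [two_nsmul]; exact CharTwo.add_self_eq_zero _
  obtain ⟨H, i1, i2, h1, h3, h4⟩ := exists_same_prime_graph (slHom 2 K) Nat.prime_two hV has2
    (fun s v hv hs => fix8 s v hv hs) N
  have h8only : ∀ r : ℕ, r.Prime → (r ∣ Nat.card (Matrix.SpecialLinearGroup (Fin 2) K) ↔ r = 2 ∨ r = 3 ∨ r = 7) := by
    intro r hr
    constructor
    · intro h
      haveI := Fact.mk hr
      obtain ⟨x, hx⟩ := exists_prime_orderOf_dvd_card' r h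
      rcases orders8 hK x with h | h | h
      · left; rw [hx] at h
        exact (Nat.prime_dvd_prime_iff_eq hr Nat.prime_two).1 (hr.dvd_of_dvd_pow h)
      · right; left; rw [hx] at h
        exact (Nat.prime_dvd_prime_iff_eq hr Nat.prime_three).1 (hr.dvd_of_dvd_pow h)
      · right; right; rw [hx] at h
        exact (Nat.prime_dvd_prime_iff_eq hr (by norm_num)).1 (hr.dvd_of_dvd_pow h)
    · rintro (h | h | h)
      · rw [h]; exact has2
      · rw [h]; exact has3
      · rw [h]; exact has7 hK
  refine ⟨H, i1, inferInstance, h1, ?_, ?_⟩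
  · intro p hp
    rw [← h3 p hp, h8only p hp, ponly hF p hp]
  · intro p q hp hq hpq
    rw [← h4 p q hp hq hpq]
    constructor
    · rintro ⟨g, hg⟩
      exfalso
      rcases orders7 hF g with h | h | h
      · rw [hg] at h; exact no_rs hp hq hpq 2 _ Nat.prime_two h
      · rw [hg] at h; exact no_rs hp hq hpq 3 _ Nat.prime_three h
      · rw [hg] at h; exact no_rs hp hq hpq 7 _ (by norm_num) h
    · rintro ⟨g, hg⟩
      exfalso
      rcases orders8 hK g with h | h | h
      · rw [hg] at h; exact no_rs hp hq hpq 2 _ Nat.prime_two h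
      · rw [hg] at h; exact no_rs hp hq hpq 3 _ Nat.prime_three h
      · rw [hg] at h; exact no_rs hp hq hpq 7 _ (by norm_num) h

/-- The prime graph of a finite group has the prime divisors of its order as vertices, two distinct primes p, q being joined when the group has an element of order pq; two groups have the same prime graph when they have the same prime divisors and the same joined pairs. Let F be the field with 7 elements. There are finite groups of arbitrarily large order with the same prime graph as PSL(2,F) (the graph on {2, 3, 7} with no edges, which is also the prime graph of PSL(2,8)). -/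
theorem result {F : Type*} [Field F] [Fintype F] (hF : Fintype.card F = 7) (N : ℕ) :
    ∃ (H : Type) (_ : Group H) (_ : Finite H), N < Nat.card H ∧
      ((∀ p : ℕ, p.Prime → (p ∣ Nat.card (Matrix.ProjectiveSpecialLinearGroup (Fin 2) F) ↔ p ∣ Nat.card H)) ∧
      (∀ p q : ℕ, p.Prime → q.Prime → p ≠ q → ((∃ g : (Matrix.ProjectiveSpecialLinearGroup (Fin 2) F), orderOf g = p * q) ↔ (∃ g : H, orderOf g = p * q)))) := by
  exact main hF N

end Cfsg.Agent.S3678
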