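import Cfsg.Statements.S3680
import Cfsg.Agent.H22.SimpleProd

set_option autoImplicit false
set_option linter.all false
open Cfsg

namespace Cfsg.Agent.S3680

open MulAction Cfsg.Agent.H22 Cfsg.Agent.H21

theorem isMin_iff {G : Type*} [Group G] (V : Subgroup G) :
    (V.Normal ∧ V ≠ ⊥ ∧ ∀ M : Subgroup G, M.Normal → M ≤ V → M = ⊥ ∨ M = V) ↔ IsMinNormalIn ⊤ V := by
  constructor
  · rintro ⟨h1, h2, h3⟩
    exact ⟨le_top, fun n _ t ht => h1.conj_mem t ht n, h2, fun M hM hMV => h3 M (normal_of_conj_top hM) hMV⟩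
  · intro h
    refine ⟨normal_of_conj_top h.conj, h.ne_bot, fun M hM hMV => h.min M (fun n _ t ht => hM.conj_mem t ht n) hMV⟩

/-- distinct minimal normal subgroups commute -/
theorem min_commute {G : Type*} [Group G] {V W : Subgroup G} (hV : IsMinNormalIn ⊤ V) (hW : IsMinNormalIn ⊤ W)
    (hne : V ≠ W) : ∀ a ∈ V, ∀ b ∈ W, a * b = b * a := by
  apply commute_of_inf_eq_bot (N := ⊤) le_top le_top hV.conj hW.conj
  have hVn := normal_of_conj_top hV.conj
  have hWn := normal_of_conj_top hW.conj
  rcases hV.min (V ⊓ W) (fun n hn t ht => ⟨hV.conj n hn t ht.1, hW.conj n hn t ht.2⟩) inf_le_left with h | h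
  · exact h
  · exfalso
    have h1 : V ≤ W := inf_eq_left.1 h
    rcases hW.min V hV.conj h1 with h2 | h2
    · exact hV.ne_bot h2
    · exact hne h2

section
variable {G Ω : Type*} [Group G] [Finite G] [MulAction G Ω] [FaithfulSMul G Ω] [Finite Ω]

/-- two commuting transitive subgroups are isomorphic -/
theorem exists_iso {V W : Subgroup G} (hV : IsPretransitive V Ω) (hW : IsPretransitive W Ω)
    (hc : ∀ a ∈ V, ∀ b ∈ W, a * b = b * a) (ω : Ω) : Nonempty (V ≃* W) := by
  have semiV : ∀ a ∈ V, ∀ x : Ω, a • x = x → a = 1 := fun a ha x hx => by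
    apply FaithfulSMul.eq_of_smul_eq_smul (α := Ω)
    intro y
    obtain ⟨w, hw⟩ := hW.exists_smul_eq x y
    rw [one_smul, ← hw]
    show a • (w : G) • x = (w : G) • x
    rw [← mul_smul, hc a ha w w.2, mul_smul, hx]
  have semiW : ∀ b ∈ W, ∀ x : Ω, b • x = x → b = 1 := fun b hb x hx => by
    apply FaithfulSMul.eq_of_smul_eq_smul (α := Ω)
    intro y
    obtain ⟨v, hv⟩ := hV.exists_smul_eq x y
    rw [one_smul, ← hv]
    show b • (v : G) • x = (v : G) • x
    rw [← mul_smul, ← hc v v.2 b hb, mul_smul, hx]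
  have hex : ∀ v : V, ∃ w : W, (w : G) • (v : G) • ω = ω := fun v => by
    obtain ⟨w, hw⟩ := hW.exists_smul_eq ((v : G) • ω) ω
    exact ⟨w, hw⟩
  choose f hf using hex
  have huniq : ∀ (v : V) (w : W), (w : G) • (v : G) • ω = ω → f v = w := by
    intro v w hw
    have h1 : ((w : G)⁻¹ * (f v : G)) • (v : G) • ω = (v : G) • ω := by
      rw [mul_smul, hf, inv_smul_eq_iff, hw]
    have h2 := semiW _ (W.mul_mem (W.inv_mem w.2) (f v).2) _ h1
    apply Subtype.ext
    exact (inv_mul_eq_one.1 h2).symm
  let φ : V →* W :=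
    { toFun := f
      map_one' := huniq 1 1 (by simp)
      map_mul' := fun a b => by
        apply huniq
        show ((f a : G) * (f b : G)) • ((a : G) * (b : G)) • ω = ω
        rw [← mul_smul]
        have e : (f a : G) * (f b : G) * ((a : G) * (b : G)) = (f a : G) * (a : G) * ((f b : G) * (b : G)) := by
          have := hc a a.2 (f b) (f b).2
          calc (f a : G) * (f b : G) * ((a : G) * (b : G)) = (f a : G) * ((f b : G) * (a : G)) * (b : G) := by group
            _ = (f a : G) * ((a : G) * (f b : G)) * (b : G) := by rw [this]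
            _ = _ := by group
        rw [e, mul_smul, mul_smul (f b : G), hf, mul_smul, hf] }
  refine ⟨MulEquiv.ofBijective φ ⟨?_, ?_⟩⟩
  · rw [injective_iff_map_eq_one]
    intro a ha
    have h1 := hf a
    have h2 : f a = 1 := ha
    rw [h2] at h1
    have h3 : (a : G) • ω = ω := by simpa using h1
    exact Subtype.ext (semiV a a.2 ω h3)
  · intro w
    obtain ⟨v, hv⟩ := hV.exists_smul_eq ω ((w : G)⁻¹ • ω)
    refine ⟨v, huniq v w ?_⟩
    have : (v : G) • ω = (w : G)⁻¹ • ω := hv
    rw [this, smul_inv_smul]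

theorem main (hprim : MulAction.IsPreprimitive G Ω) (N : Subgroup G)
    (hN : N = sSup {V : Subgroup G | V.Normal ∧ V ≠ ⊥ ∧ ∀ M : Subgroup G, M.Normal → M ≤ V → M = ⊥ ∨ M = V}) :
    (∃ p : ℕ, p.Prime ∧ IsMulCommutative N ∧ (∀ x : N, x ^ p = 1) ∧
      MulAction.IsPretransitive N Ω ∧ ∀ ω : Ω, MulAction.stabilizer N ω = ⊥) ∨
    (∃ (T : Type) (_ : Group T) (m : ℕ), 1 ≤ m ∧ IsSimpleGroup T ∧ ¬ IsMulCommutative T ∧ Nonempty (N ≃* (Fin m → T))) := by
  classical
  have hset : {V : Subgroup G | V.Normal ∧ V ≠ ⊥ ∧ ∀ M : Subgroup G, M.Normal → M ≤ V → M = ⊥ ∨ M = V} =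
      {V : Subgroup G | IsMinNormalIn ⊤ V} := by
    ext V; exact isMin_iff V
  rw [hset] at hN
  rcases subsingleton_or_nontrivial Ω with hsub | hnt
  · -- trivial case
    have h1 : ∀ g : G, g = 1 := fun g =>
      FaithfulSMul.eq_of_smul_eq_smul (α := Ω) (fun x => Subsingleton.elim _ _)
    left
    refine ⟨2, Nat.prime_two, ⟨⟨fun a b => Subtype.ext ((h1 _).trans (h1 _).symm)⟩⟩, fun x => Subtype.ext (h1 _), 
      ⟨fun x y => ⟨1, Subsingleton.elim _ _⟩⟩, fun ω => ?_⟩
    rw [eq_bot_iff]
    intro x _
    rw [Subgroup.mem_bot]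
    exact Subtype.ext (h1 _)
  obtain ⟨ω, ω', hωω'⟩ := exists_pair_ne Ω
  have htrans : ∀ V : Subgroup G, IsMinNormalIn ⊤ V → IsPretransitive V Ω := fun V hV =>
    isPretransitive_of_normal_of_primitive hprim V (normal_of_conj_top hV.conj) hV.ne_bot
  have htop : (⊤ : Subgroup G) ≠ ⊥ := by
    intro h
    apply hωω'
    obtain ⟨g, hg⟩ := hprim.toIsPretransitive.exists_smul_eq ω ω'
    have : g ∈ (⊤ : Subgroup G) := trivial
    rw [h, Subgroup.mem_bot] at this
    rw [← hg, this, one_smul]
  obtain ⟨V0, -, hV0⟩ := exists_isMinNormalIn (⊤ : Subgroup G) ⊤ le_rfl (fun _ _ _ _ => trivial) htop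
  by_cases hab : ∃ V : Subgroup G, IsMinNormalIn ⊤ V ∧ ∀ a ∈ V, ∀ b ∈ V, a * b = b * a
  · obtain ⟨V, hV, hVab⟩ := hab
    left
    have hVt := htrans V hV
    have hcen : ∀ x : G, (∀ v ∈ V, x * v = v * x) → x ∈ V := by
      intro x hx
      obtain ⟨v, hv⟩ := hVt.exists_smul_eq ω (x • ω)
      have hv' : (v : G) • ω = x • ω := hv
      have h1 : ((v : G)⁻¹ * x) = 1 := by
        apply FaithfulSMul.eq_of_smul_eq_smul (α := Ω)
        intro y
        obtain ⟨w, hw⟩ := hVt.exists_smul_eq ω y
        rw [one_smul, ← hw]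
        show ((v : G)⁻¹ * x) • (w : G) • ω = (w : G) • ω
        have e : ((v : G)⁻¹ * x) * (w : G) = (w : G) * ((v : G)⁻¹ * x) := by
          have h2 := hx w w.2
          have h3 := hVab (v : G)⁻¹ (V.inv_mem v.2) w w.2
          rw [mul_assoc, h2, ← mul_assoc, h3, mul_assoc]
        rw [← mul_smul, e, mul_smul, mul_smul _ x, ← hv', inv_smul_smul]
      rw [inv_mul_eq_one] at h1
      rw [← h1]; exact v.2
    have hNV : N = V := by
      rw [hN]
      apply le_antisymm
      · apply sSup_le
        intro W hW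
        by_cases hWV : W = V
        · rw [hWV]
        · intro x hx
          apply hcen
          intro v hv
          exact (min_commute hV hW (fun h => hWV h.symm) v hv x hx).symm
      · exact le_sSup hV
    rw [hNV]
    obtain ⟨p, hp, hpp⟩ := elementary_of_abelian hV hVab
    refine ⟨p, hp, ⟨⟨fun a b => Subtype.ext (hVab a a.2 b b.2)⟩⟩, fun x => Subtype.ext (hpp x x.2), hVt, fun x => ?_⟩
    rw [eq_bot_iff]
    intro v hv
    rw [Subgroup.mem_bot]
    have hv' : (v : G) • x = x := hv
    apply Subtype.ext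
    apply FaithfulSMul.eq_of_smul_eq_smul (α := Ω)
    intro y
    obtain ⟨w, hw⟩ := hVt.exists_smul_eq x y
    rw [← hw]
    show (v : G) • (w : G) • x = (1 : G) • (w : G) • x
    rw [one_smul, ← mul_smul, hVab v v.2 w w.2, mul_smul, hv']
  · push Not at hab
    right
    have hna : ∀ V : Subgroup G, IsMinNormalIn ⊤ V → ¬ ∀ a ∈ V, ∀ b ∈ V, a * b = b * a := by
      intro V hV h
      obtain ⟨a, ha, b, hb, hne⟩ := hab V hV
      exact hne (h a ha b hb)
    by_cases huniq : ∀ V : Subgroup G, IsMinNormalIn ⊤ V → V = V0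
    · have hNV : N = V0 := by
        rw [hN]
        apply le_antisymm
        · apply sSup_le
          intro W hW
          exact (huniq W hW).le
        · exact le_sSup hV0
      rw [hNV]
      exact exists_pow_of_nonabelian hV0 (hna V0 hV0)
    · push Not at huniq
      obtain ⟨V1, hV1, hV10⟩ := huniq
      have hc := min_commute hV0 hV1 hV10.symm
      have ht0 := htrans V0 hV0
      have ht1 := htrans V1 hV1
      obtain ⟨φ⟩ := exists_iso ht0 ht1 hc ω
      have hcen : ∀ x : G, (∀ v ∈ V0, x * v = v * x) → x ∈ V1 := by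
        intro x hx
        obtain ⟨v, hv⟩ := ht1.exists_smul_eq ω (x • ω)
        have hv' : (v : G) • ω = x • ω := hv
        have h1 : ((v : G)⁻¹ * x) = 1 := by
          apply FaithfulSMul.eq_of_smul_eq_smul (α := Ω)
          intro y
          obtain ⟨w, hw⟩ := ht0.exists_smul_eq ω y
          rw [one_smul, ← hw]
          show ((v : G)⁻¹ * x) • (w : G) • ω = (w : G) • ω
          have e : ((v : G)⁻¹ * x) * (w : G) = (w : G) * ((v : G)⁻¹ * x) := by
            have h2 := hx w w.2
            have h3 := hc w w.2 (v : G)⁻¹ (V1.inv_mem v.2)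
            rw [mul_assoc, h2, ← mul_assoc, ← h3, mul_assoc]
          rw [← mul_smul, e, mul_smul, mul_smul _ x, ← hv', inv_smul_smul]
        rw [inv_mul_eq_one] at h1
        rw [← h1]; exact v.2
      have hNV : N = V0 ⊔ V1 := by
        rw [hN]
        apply le_antisymm
        · apply sSup_le
          intro W hW
          by_cases hWV : W = V0
          · rw [hWV]; exact le_sup_left
          · refine le_trans ?_ le_sup_right
            intro x hx
            apply hcen
            intro v hv
            exact (min_commute hV0 hW (fun h => hWV h.symm) v hv x hx).symm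
        · exact sup_le (le_sSup hV0) (le_sSup hV1)
      obtain ⟨T, hTV, hT⟩ := exists_isMinNormalIn V0 V0 le_rfl
        (fun n hn t ht => V0.mul_mem (V0.mul_mem hn ht) (V0.inv_mem hn)) hV0.ne_bot
      have hTS : IsTSoc V0 T := ⟨hV0, hT, hna V0 hV0⟩
      let T1 : Subgroup G := (T.subgroupOf V0).map (V1.subtype.comp φ.toMonoidHom)
      have hT1mem : ∀ x : V0, (φ x : G) ∈ T1 ↔ (x : G) ∈ T := by
        intro x
        constructor
        · rintro ⟨y, hy, hxy⟩
          have h1 : φ y = φ x := Subtype.ext hxy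
          have h2 := φ.injective h1
          rw [← h2]; exact hy
        · intro hx
          exact ⟨x, hx, rfl⟩
      have hT1le : T1 ≤ V1 := by
        rintro _ ⟨y, _, rfl⟩
        exact (φ y).2
      have hT1 : IsMinNormalIn V1 T1 := by
        refine ⟨hT1le, ?_, ?_, ?_⟩
        · intro n hn t ht
          obtain ⟨a, ha⟩ := φ.surjective ⟨n, hn⟩
          obtain ⟨b, hb, hbt⟩ := ht
          have h1 : n * t * n⁻¹ = (φ (a * b * a⁻¹) : G) := by
            rw [map_mul, map_mul, map_inv, ha, ← hbt]; rfl
          rw [h1, hT1mem]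
          exact hT.conj a a.2 b hb
        · intro h
          apply hT.ne_bot
          rw [eq_bot_iff]
          intro t ht
          have h1 : (φ ⟨t, hTV ht⟩ : G) ∈ T1 := (hT1mem _).2 ht
          rw [h, Subgroup.mem_bot] at h1
          have h2 : φ ⟨t, hTV ht⟩ = 1 := Subtype.ext h1
          have h3 := φ.injective (h2.trans (map_one φ).symm)
          exact congrArg Subtype.val h3
        · intro M hM hMT
          let M0 : Subgroup G := ((M.subgroupOf V1).comap φ.toMonoidHom).map V0.subtype
          have hM0 : ∀ x : V0, (x : G) ∈ M0 ↔ (φ x : G) ∈ M := by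
            intro x
            constructor
            · rintro ⟨y, hy, hxy⟩
              have h1 : y = x := Subtype.ext hxy
              rw [← h1]; exact hy
            · intro hx
              exact ⟨x, hx, rfl⟩
          have hM0T : M0 ≤ T := by
            rintro _ ⟨y, hy, rfl⟩
            exact (hT1mem y).1 (hMT hy)
          rcases hT.min M0 (by
            rintro n hn _ ⟨y, hy, rfl⟩
            have h1 : n * (y : G) * n⁻¹ = ((⟨n, hn⟩ * y * ⟨n, hn⟩⁻¹ : V0) : G) := rfl
            show n * (y : G) * n⁻¹ ∈ M0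
            rw [h1, hM0, map_mul, map_mul, map_inv]
            exact hM _ (φ ⟨n, hn⟩).2 _ hy) hM0T with h | h
          · left
            rw [eq_bot_iff]
            intro x hx
            obtain ⟨a, ha⟩ := φ.surjective ⟨x, hT1le (hMT hx)⟩
            have h1 : (a : G) ∈ M0 := (hM0 a).2 (by rw [ha]; exact hx)
            rw [h, Subgroup.mem_bot] at h1
            have h2 : a = 1 := Subtype.ext h1
            rw [h2, map_one] at ha
            rw [Subgroup.mem_bot]
            exact (congrArg Subtype.val ha).symm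
          · right
            apply le_antisymm hMT
            rintro _ ⟨y, hy, rfl⟩
            have h1 : (y : G) ∈ M0 := by rw [h]; exact hy
            exact (hM0 y).1 h1
      have hTS1 : IsTSoc V1 T1 := ⟨hV1, hT1, hna V1 hV1⟩
      have hiso : Nonempty (T1 ≃* T) := by
        have e1 : T.subgroupOf V0 ≃* T := Subgroup.subgroupOfEquivOfLe hTV
        have e2 : T.subgroupOf V0 ≃* T1 := (T.subgroupOf V0).equivMapOfInjective _
          (V1.subtype_injective.comp φ.injective)
        exact ⟨e2.symm.trans e1⟩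
      obtain ⟨T', i1, i2, ⟨e⟩⟩ := exists_type_zero T
      obtain ⟨f1⟩ := hiso
      let S : Set (Subgroup G) := Set.range (fun g : G => T.map (MulAut.conj g).toMonoidHom) ∪
        Set.range (fun g : G => T1.map (MulAut.conj g).toMonoidHom)
      have hsub0 : ∀ g : G, T.map (MulAut.conj g).toMonoidHom ≤ V0 := by
        intro g
        rintro _ ⟨t, ht, rfl⟩
        exact hV0.conj g trivial t (hTV ht)
      have hsub1 : ∀ g : G, T1.map (MulAut.conj g).toMonoidHom ≤ V1 := by
        intro g
        rintro _ ⟨t, ht, rfl⟩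
        exact hV1.conj g trivial t (hT1le ht)
      have h1 : Nonempty (↥(sSup S) ≃* (Fin (Nat.card S) → T')) := by
        apply nonempty_sSup_mulEquiv_pow
        · rintro _ (⟨g, rfl⟩ | ⟨g, rfl⟩) _ (⟨g', rfl⟩ | ⟨g', rfl⟩) hne x hx y hy
          · exact conj_commute hTS g g' hne x hx y hy
          · exact hc x (hsub0 g hx) y (hsub1 g' hy)
          · exact (hc y (hsub0 g' hy) x (hsub1 g hx)).symm
          · exact conj_commute hTS1 g g' hne x hx y hy
        · rintro _ (⟨g, rfl⟩ | ⟨g, rfl⟩)
          · exact conj_center hTS g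
          · exact conj_center hTS1 g
        · rintro _ (⟨g, rfl⟩ | ⟨g, rfl⟩)
          · obtain ⟨f⟩ := conj_equiv T g
            exact ⟨f.trans e⟩
          · obtain ⟨f⟩ := conj_equiv T1 g
            exact ⟨(f.trans f1).trans e⟩
      have h2 : sSup S = N := by
        rw [sSup_union, sSup_range, sSup_range, iSup_conj_eq hV0 hTV hT.ne_bot, iSup_conj_eq hV1 hT1le hT1.ne_bot, hNV]
      rw [h2] at h1
      haveI := hTS.isSimpleGroup
      refine ⟨T', i1, Nat.card S, ?_, ?_, ?_, h1⟩
      · haveI : Nonempty S := ⟨⟨_, Or.inl ⟨1, rfl⟩⟩⟩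
        exact Nat.card_pos
      · exact e.isSimpleGroup_congr.1 inferInstance
      · intro hcc
        apply hTS.not_comm
        constructor
        constructor
        intro a b
        apply e.injective
        rw [map_mul, map_mul, hcc.is_comm.comm]

end

/-- The socle of a finite primitive permutation group. Let a finite group G act faithfully and primitively on a set Ω, and let N be the subgroup generated by the minimal normal subgroups of G. Then either N is an elementary abelian p-group for some prime p and acts regularly on Ω (transitively with trivial point stabilizers), or N is isomorphic to a direct product of m ≥ 1 copies of a non-abelian simple group. -/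
theorem result {G Ω : Type*} [Group G] [Finite G] [MulAction G Ω] [FaithfulSMul G Ω] [Finite Ω]
    (hprim : MulAction.IsPreprimitive G Ω) (N : Subgroup G)
    (hN : N = sSup {V : Subgroup G | V.Normal ∧ V ≠ ⊥ ∧ ∀ M : Subgroup G, M.Normal → M ≤ V → M = ⊥ ∨ M = V}) :
    (∃ p : ℕ, p.Prime ∧ IsMulCommutative N ∧ (∀ x : N, x ^ p = 1) ∧
      MulAction.IsPretransitive N Ω ∧ ∀ ω : Ω, MulAction.stabilizer N ω = ⊥) ∨
    (∃ (T : Type) (_ : Group T) (m : ℕ), 1 ≤ m ∧ IsSimpleGroup T ∧ ¬ IsMulCommutative T ∧ Nonempty (N ≃* (Fin m → T))) := by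
  exact main hprim N hN

end Cfsg.Agent.S3680
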