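import Cfsg.Statements.S3681
import Cfsg.Agent.H22.ThreeCycle

set_option autoImplicit false
set_option linter.all false
open Cfsg

namespace Cfsg.Agent.S3681


/-- Bochert's bound for primitive groups. Let a finite group G act faithfully and primitively on a finite set Ω with n elements, and suppose the image of G in the symmetric group of Ω does not contain the alternating group of Ω. Then |G| · ⌊(n + 1)/2⌋! ≤ n!, that is, the index of G in the symmetric group is at least ⌊(n + 1)/2⌋!. -/
theorem result {G Ω : Type*} [Group G] [Finite G] [MulAction G Ω] [FaithfulSMul G Ω] [Fintype Ω] [DecidableEq Ω]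
    (hprim : MulAction.IsPreprimitive G Ω) (hA : ¬ alternatingGroup Ω ≤ (MulAction.toPermHom G Ω).range) :
    Nat.card G * Nat.factorial ((Fintype.card Ω + 1) / 2) ≤ Nat.factorial (Fintype.card Ω) := by
  have hP := Cfsg.Agent.H22.isPreprimitive_range hprim
  set P := (MulAction.toPermHom G Ω).range with hPdef
  have hcard : Nat.card P = Nat.card G := Cfsg.Agent.H22.card_range_toPermHom
  rw [← hcard]
  -- a base of minimal size
  let IsBase : Finset Ω → Prop := fun Δ => ∀ g ∈ P, (∀ x ∈ Δ, g x = x) → g = 1
  have hex : ∃ Δ : Finset Ω, IsBase Δ := ⟨Finset.univ, fun g _ hg => Equiv.ext fun x => hg x (Finset.mem_univ x)⟩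
  obtain ⟨Δ, hΔ, hmin⟩ : ∃ Δ : Finset Ω, IsBase Δ ∧ ∀ Δ' : Finset Ω, IsBase Δ' → Δ.card ≤ Δ'.card := by
    classical
    let S : Finset (Finset Ω) := Finset.univ.filter IsBase
    have hS : S.Nonempty := by
      obtain ⟨Δ, hΔ⟩ := hex
      exact ⟨Δ, by simp [S, hΔ]⟩
    obtain ⟨Δ, hΔ, hm⟩ := S.exists_min_image Finset.card hS
    refine ⟨Δ, by simpa [S] using hΔ, fun Δ' h' => hm Δ' (by simpa [S] using h')⟩
  -- size of the base
  have hsize : 2 * Δ.card ≤ Fintype.card Ω := by
    by_contra hcon
    push Not at hcon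
    apply hA
    have hc : ¬ IsBase Δᶜ := by
      intro h
      have h1 := hmin _ h
      rw [Finset.card_compl] at h1
      have := Finset.card_le_univ Δ
      omega
    simp only [IsBase] at hc
    push Not at hc
    obtain ⟨h, hhP, hhfix, hh1⟩ := hc
    obtain ⟨d, hd⟩ : ∃ d, h d ≠ d := by
      by_contra hcon2
      push Not at hcon2
      exact hh1 (Equiv.ext hcon2)
    have hdΔ : d ∈ Δ := by
      by_contra hdn
      exact hd (hhfix d (Finset.mem_compl.2 hdn))
    have hc2 : ¬ IsBase (Δ.erase d) := by
      intro h'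
      have h1 := hmin _ h'
      rw [Finset.card_erase_of_mem hdΔ] at h1
      have : 0 < Δ.card := Finset.card_pos.2 ⟨d, hdΔ⟩
      omega
    simp only [IsBase] at hc2
    push Not at hc2
    obtain ⟨g, hgP, hgfix, hg1⟩ := hc2
    have hgd : g d ≠ d := by
      intro h'
      apply hg1
      apply hΔ g hgP
      intro x hx
      by_cases hxd : x = d
      · rw [hxd]; exact h'
      · exact hgfix x (Finset.mem_erase.2 ⟨hxd, hx⟩)
    apply Cfsg.Agent.H22.alternatingGroup_le_of_supports P hP hgP hhP d hgd hd
    intro x hgx hhx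
    by_contra hxd
    have hxΔ : x ∈ Δ := by
      by_contra hdn
      exact hhx (hhfix x (Finset.mem_compl.2 hdn))
    exact hgx (hgfix x (Finset.mem_erase.2 ⟨hxd, hxΔ⟩))
  -- the symmetric group on the complement
  have hcount : Nat.card P * (Fintype.card Ω - Δ.card).factorial ≤ (Fintype.card Ω).factorial := by
    let F : P × Equiv.Perm {x : Ω // x ∉ Δ} → Equiv.Perm Ω := fun p => p.1.1 * Equiv.Perm.ofSubtype p.2
    have hF : Function.Injective F := by
      rintro ⟨⟨a, ha⟩, s⟩ ⟨⟨b, hb⟩, t⟩ hst
      simp only [F] at hst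
      have h1 : b⁻¹ * a = Equiv.Perm.ofSubtype (t * s⁻¹) := by
        rw [map_mul, map_inv, inv_mul_eq_iff_eq_mul, ← mul_assoc, ← hst]
        simp
      have h2 : b⁻¹ * a = 1 := by
        apply hΔ _ (P.mul_mem (P.inv_mem hb) ha)
        intro x hx
        rw [h1]
        exact Equiv.Perm.ofSubtype_apply_of_not_mem _ (by simpa using hx)
      have h3 : a = b := by rw [inv_mul_eq_one] at h2; exact h2.symm
      subst h3
      have h4 : t * s⁻¹ = 1 := by
        rw [h2] at h1
        exact Equiv.Perm.ofSubtype_injective (by rw [← h1, map_one])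
      have h5 : s = t := by rw [mul_inv_eq_one] at h4; exact h4.symm
      rw [h5]
    have := Nat.card_le_card_of_injective F hF
    rw [Nat.card_prod, Nat.card_perm, Nat.card_perm, Nat.card_eq_fintype_card (α := Ω)] at this
    have h2 : Nat.card {x : Ω // x ∉ Δ} = Fintype.card Ω - Δ.card := by
      rw [Nat.card_eq_fintype_card, Fintype.card_subtype_compl (fun x => x ∈ Δ)]
      simp
    rwa [h2] at this
  refine le_trans (Nat.mul_le_mul_left _ (Nat.factorial_le ?_)) hcount
  omega

end Cfsg.Agent.S3681
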