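import Cfsg.Statements.S3682
import Cfsg.Agent.H10.TW5

set_option autoImplicit false
open Cfsg

namespace Cfsg.Agent.S3682

/-- Wielandt's bound toward the Sims conjecture. Let a finite group G act faithfully and primitively on a set Ω, let a and b be points, and suppose the orbit of b under the stabilizer of a has length d ≥ 2. Then there are a prime p and a normal p-subgroup P of the stabilizer of a, all of whose elements fix b, such that the index of P in the stabilizer of a divides d! · ((d - 1)!)^d. -/
theorem result {G Ω : Type*} [Group G] [Finite G] [MulAction G Ω] [FaithfulSMul G Ω] [Finite Ω]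
    (hprim : MulAction.IsPreprimitive G Ω) (a b : Ω) (d : ℕ) (hd : Nat.card (MulAction.orbit (MulAction.stabilizer G a) b) = d) (h2 : 2 ≤ d) :
    ∃ p : ℕ, p.Prime ∧ ∃ P : Subgroup (MulAction.stabilizer G a), P.Normal ∧ IsPGroup p P ∧ (∀ g : P, ((g : MulAction.stabilizer G a) : G) • b = b) ∧
      P.index ∣ Nat.factorial d * (Nat.factorial (d - 1)) ^ d := by
  obtain ⟨h, hr1, hr2, hc⟩ := H10.tws_of_prim hprim hd h2
  by_cases hk : H10.k2 (MulAction.stabilizer G a) (MulAction.stabilizer G b) = ⊥ ∨ H10.k2 (MulAction.stabilizer G b) (MulAction.stabilizer G a) = ⊥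
  · refine ⟨2, Nat.prime_two, ⊥, inferInstance, IsPGroup.of_bot, ?_, ?_⟩
    · intro g
      have : ((g : MulAction.stabilizer G a) : G) = 1 := by
        have h1 := g.2
        rw [Subgroup.mem_bot] at h1
        rw [h1]; rfl
      rw [this, one_smul]
    · rw [Subgroup.index_bot]
      exact H10.card_dvd_of_k2 hr1 hr2 hc hk
  · push Not at hk
    obtain ⟨p, hp, h1, -, hP, -⟩ := h.main hk.1 hk.2
    refine ⟨p, hp, (H10.k2 (MulAction.stabilizer G a) (MulAction.stabilizer G b)).subgroupOf (MulAction.stabilizer G a), ?_, ?_, ?_, ?_⟩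
    · exact H10.normal_subgroupOf_of_le H10.le_normalizer_k2
    · exact H10.isPGroup_subgroupOf (hP.to_le h1)
    · intro g
      have h3 : ((g : MulAction.stabilizer G a) : G) ∈ H10.k2 (MulAction.stabilizer G a) (MulAction.stabilizer G b) := g.2
      exact (H10.kD_le (H10.k2_le h3)).2
    · exact H10.index_k2_dvd hr1 hr2

end Cfsg.Agent.S3682
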