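import Cfsg.Statements.S3683
import Cfsg.Agent.H22.Perm

set_option autoImplicit false
set_option linter.all false
open Cfsg

namespace Cfsg.Agent.S3683


/-- Let a finite group G act faithfully and primitively on a set Ω, and suppose the stabilizer of a point a fixes a second point b ≠ a (a suborbit of length 1 other than {a}). Then the stabilizer of a is trivial and G is cyclic of prime order. -/
theorem result {G Ω : Type*} [Group G] [Finite G] [MulAction G Ω] [FaithfulSMul G Ω] [Finite Ω]
    (hprim : MulAction.IsPreprimitive G Ω) (a b : Ω) (hab : a ≠ b) (hfix : ∀ g : G, g • a = a → g • b = b) :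
    MulAction.stabilizer G a = ⊥ ∧ IsCyclic G ∧ (Nat.card G).Prime := by
  have hle : MulAction.stabilizer G a ≤ MulAction.stabilizer G b := fun g hg => hfix g hg
  have hbot := Cfsg.Agent.H22.stabilizer_eq_bot_of_le hprim hab hle
  have hco := Cfsg.Agent.H22.isCoatom_stabilizer hprim hab a
  rw [hbot] at hco
  obtain ⟨g, hg⟩ := hprim.toIsPretransitive.exists_smul_eq a b
  have hg1 : g ≠ 1 := by
    rintro rfl
    exact hab (by simpa using hg)
  have htop : Subgroup.zpowers g = ⊤ := hco.2 _ (bot_lt_iff_ne_bot.2 (Subgroup.zpowers_ne_bot.2 hg1))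
  have hcyc : IsCyclic G := ⟨⟨g, (Subgroup.eq_top_iff' _).1 htop⟩⟩
  refine ⟨hbot, hcyc, ?_⟩
  haveI : Nontrivial G := ⟨g, 1, hg1⟩
  have hs : IsSimpleGroup G := ⟨fun H _ => by
    by_cases h : H = ⊥
    · exact Or.inl h
    · exact Or.inr (hco.2 _ (bot_lt_iff_ne_bot.2 h))⟩
  letI : CommGroup G := hcyc.commGroup
  exact CommGroup.is_simple_iff_prime_card.1 hs

end Cfsg.Agent.S3683
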