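import Cfsg.Statements.S3684
import Cfsg.Agent.H22.Perm
import Cfsg.Agent.H22.Dihedral

set_option autoImplicit false
set_option linter.all false
open Cfsg

namespace Cfsg.Agent.S3684


/-- Let a finite group G act faithfully and primitively on a set Ω, and suppose the stabilizer of a point a has an orbit of length 2. Then the stabilizer of a has order 2 and G is isomorphic to the dihedral group of order 2p for some prime p. -/
theorem result {G Ω : Type*} [Group G] [Finite G] [MulAction G Ω] [FaithfulSMul G Ω] [Finite Ω]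
    (hprim : MulAction.IsPreprimitive G Ω) (a b : Ω) (h2 : Nat.card (MulAction.orbit (MulAction.stabilizer G a) b) = 2) :
    Nat.card (MulAction.stabilizer G a) = 2 ∧ ∃ p : ℕ, p.Prime ∧ Nonempty (G ≃* DihedralGroup p) := by
  classical
  have htr := hprim.toIsPretransitive
  set H := MulAction.stabilizer G a with hH
  set K := MulAction.stabilizer G b with hK
  have hidxH : ((MulAction.stabilizer G b).subgroupOf (MulAction.stabilizer G a)).index = 2 := by
    have h1 := MulAction.index_stabilizer (G := H) b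
    rw [← Nat.card_coe_set_eq, h2] at h1
    rw [← h1]
    congr 1
  have hcardH : Nat.card ↥(K.subgroupOf H) * 2 = Nat.card H := by
    rw [← hidxH]
    exact Subgroup.card_mul_index _
  have hcardI : Nat.card ↥(K.subgroupOf H) = Nat.card ↥(K ⊓ H) := by
    rw [← Subgroup.inf_subgroupOf_right]
    exact Nat.card_congr (Subgroup.subgroupOfEquivOfLe inf_le_right).toEquiv
  have hcardI' : Nat.card ↥(H.subgroupOf K) = Nat.card ↥(K ⊓ H) := by
    rw [← Subgroup.inf_subgroupOf_left]
    exact Nat.card_congr (Subgroup.subgroupOfEquivOfLe inf_le_left).toEquiv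
  have hcardHK : Nat.card H = Nat.card K := Cfsg.Agent.H22.card_stabilizer_eq htr a b
  have hidxK : (H.subgroupOf K).index = 2 := by
    have h3 := Subgroup.card_mul_index (H.subgroupOf K)
    rw [hcardI', ← hcardHK, ← hcardH, hcardI] at h3
    exact Nat.eq_of_mul_eq_mul_left Nat.card_pos h3
  have hne : H ≠ K := by
    intro h
    rw [← h] at hidxK
    simp at hidxK
  have hab : a ≠ b := by
    rintro rfl
    exact hne rfl
  have hcoH : IsCoatom H := Cfsg.Agent.H22.isCoatom_stabilizer hprim hab a
  have hcoK : IsCoatom K := Cfsg.Agent.H22.isCoatom_stabilizer hprim hab b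
  haveI hnH : (K.subgroupOf H).Normal := Subgroup.normal_of_index_eq_two hidxH
  haveI hnK : (H.subgroupOf K).Normal := Subgroup.normal_of_index_eq_two hidxK
  have hIH : H ≤ Subgroup.normalizer ((K ⊓ H : Subgroup G) : Set G) := by
    intro h hh
    rw [Subgroup.mem_normalizer_iff]
    intro x
    constructor
    · rintro ⟨hxK, hxH⟩
      have := hnH.conj_mem ⟨x, hxH⟩ hxK ⟨h, hh⟩
      exact ⟨this, H.mul_mem (H.mul_mem hh hxH) (H.inv_mem hh)⟩
    · rintro ⟨hxK, hxH⟩
      have hx : x ∈ H := by
        have := H.mul_mem (H.mul_mem (H.inv_mem hh) hxH) hh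
        simpa [mul_assoc] using this
      have := hnH.conj_mem ⟨h * x * h⁻¹, hxH⟩ hxK ⟨h⁻¹, H.inv_mem hh⟩
      refine ⟨?_, hx⟩
      rw [Subgroup.mem_subgroupOf] at this
      simpa [mul_assoc] using this
  have hIK : K ≤ Subgroup.normalizer ((K ⊓ H : Subgroup G) : Set G) := by
    intro h hh
    rw [Subgroup.mem_normalizer_iff]
    intro x
    constructor
    · rintro ⟨hxK, hxH⟩
      have := hnK.conj_mem ⟨x, hxK⟩ hxH ⟨h, hh⟩
      exact ⟨K.mul_mem (K.mul_mem hh hxK) (K.inv_mem hh), this⟩
    · rintro ⟨hxK, hxH⟩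
      have hx : x ∈ K := by
        have := K.mul_mem (K.mul_mem (K.inv_mem hh) hxK) hh
        simpa [mul_assoc] using this
      have := hnK.conj_mem ⟨h * x * h⁻¹, hxK⟩ hxH ⟨h⁻¹, K.inv_mem hh⟩
      refine ⟨hx, ?_⟩
      rw [Subgroup.mem_subgroupOf] at this
      simpa [mul_assoc] using this
  have hsup : H ⊔ K = ⊤ := by
    apply hcoH.2
    refine lt_of_le_of_ne le_sup_left ?_
    intro h
    have hKH : K ≤ H := by rw [h]; exact le_sup_right
    exact hne (Subgroup.eq_of_le_of_card_ge hKH hcardHK.le).symm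
  have hInorm : (K ⊓ H).Normal := by
    rw [← Subgroup.normalizer_eq_top_iff, eq_top_iff, ← hsup]
    exact sup_le hIH hIK
  have hIbot : K ⊓ H = ⊥ :=
    Cfsg.Agent.H22.eq_bot_of_normal_le_stabilizer htr _ hInorm a inf_le_right
  have hcard2 : Nat.card H = 2 := by
    rw [← hcardH, hcardI, hIbot]
    simp
  refine ⟨hcard2, ?_⟩
  have hcardK2 : Nat.card K = 2 := by rw [← hcardHK, hcard2]
  -- the two involutions
  have hex : ∀ L : Subgroup G, Nat.card L = 2 → ∃ t ∈ L, t ≠ 1 ∧ t * t = 1 ∧ ∀ x ∈ L, x = 1 ∨ x = t := by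
    intro L hL
    obtain ⟨u, v, huv, huniv⟩ := Nat.card_eq_two_iff.1 hL
    have h1 : (1 : L) ∈ ({u, v} : Set L) := by rw [huniv]; trivial
    have key : ∀ t : L, t ≠ 1 → (∀ x : L, x = 1 ∨ x = t) → ∃ t ∈ L, t ≠ 1 ∧ t * t = 1 ∧ ∀ x ∈ L, x = 1 ∨ x = t := by
      intro t ht hall
      refine ⟨t, t.2, ?_, ?_, ?_⟩
      · simpa using ht
      · rcases hall (t * t) with h | h
        · simpa using congrArg Subtype.val h
        · exfalso; apply ht
          simpa using h
      · intro x hx
        rcases hall ⟨x, hx⟩ with h | h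
        · left; simpa using congrArg Subtype.val h
        · right; simpa using congrArg Subtype.val h
    rcases h1 with h1 | h1
    · apply key v (by rw [h1]; exact huv.symm)
      intro x
      have : x ∈ ({u, v} : Set L) := by rw [huniv]; trivial
      rcases this with h | h
      · left; rw [h, ← h1]
      · right; exact h
    · have h1' : (1 : L) = v := h1
      apply key u (by rw [h1']; exact huv)
      intro x
      have : x ∈ ({u, v} : Set L) := by rw [huniv]; trivial
      rcases this with h | h
      · right; rw [h]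
      · left
        have h' : x = v := h
        rw [h', ← h1']
  obtain ⟨t, htH, ht1, htt, hallt⟩ := hex H hcard2
  obtain ⟨s, hsK, hs1, hss, halls⟩ := hex K hcardK2
  have hts : s ∉ H := by
    intro hsH
    have : s ∈ K ⊓ H := ⟨hsK, hsH⟩
    rw [hIbot] at this
    exact hs1 (Subgroup.mem_bot.1 this)
  set x := t * s with hx
  have htinv : t⁻¹ = t := by rw [inv_eq_iff_mul_eq_one, htt]
  have hsinv : s⁻¹ = s := by rw [inv_eq_iff_mul_eq_one, hss]
  have htx : t * x = s := by rw [hx, ← mul_assoc, htt, one_mul]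
  have hxt : t * x * t = x⁻¹ := by rw [htx, hx, mul_inv_rev, htinv, hsinv]
  have hgen : ∀ y : G, y ∉ H → Subgroup.closure {y, t} = ⊤ := by
    intro y hy
    apply hcoH.2
    refine lt_of_le_of_ne ?_ ?_
    · intro z hz
      rcases hallt z hz with rfl | rfl
      · exact Subgroup.one_mem _
      · exact Subgroup.subset_closure (by simp)
    · intro h
      apply hy
      rw [h]
      exact Subgroup.subset_closure (by simp)
  have hxH : x ∉ H := fun h => hts (by rw [← htx]; exact H.mul_mem htH h)
  have hx1 : x ≠ 1 := fun h => hxH (by rw [h]; exact H.one_mem)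
  have htzp : t ∉ Subgroup.zpowers x := by
    intro h
    have hcomm : Commute x t := by
      obtain ⟨k, hk⟩ := Subgroup.mem_zpowers_iff.1 h
      rw [← hk]
      exact (Commute.refl x).zpow_right k
    have hNH : H.Normal := by
      rw [← Subgroup.normalizer_eq_top_iff, eq_top_iff, ← hgen x hxH, Subgroup.closure_le]
      have hk : ∀ y : G, Commute y t → y ∈ Subgroup.normalizer ((H : Subgroup G) : Set G) := by
        intro y hy
        rw [Subgroup.mem_normalizer_iff]
        have hmem : ∀ z, z ∈ H ↔ z = 1 ∨ z = t := fun z => ⟨hallt z, fun h => h.elim (fun h => h ▸ H.one_mem) (fun h => h ▸ htH)⟩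
        intro z
        have e1 : y * z * y⁻¹ = 1 ↔ z = 1 := by
          rw [conj_eq_one_iff]
        have e2 : y * z * y⁻¹ = t ↔ z = t := by
          rw [mul_inv_eq_iff_eq_mul, ← hy.eq, mul_left_cancel_iff]
        show z ∈ H ↔ y * z * y⁻¹ ∈ H
        rw [hmem, hmem, e1, e2]
      rintro y (rfl | rfl)
      · exact hk _ hcomm
      · exact hk _ (Commute.refl _)
    have := Cfsg.Agent.H22.eq_bot_of_normal_le_stabilizer htr H hNH a le_rfl
    rw [this] at hcard2
    simp at hcard2
  have hn : orderOf x ≠ 1 := fun h => hx1 (orderOf_eq_one_iff.1 h)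
  obtain ⟨p, hp, hpd⟩ := Nat.exists_prime_and_dvd hn
  have hpos : 0 < orderOf x := orderOf_pos x
  have e := Cfsg.Agent.H22.nonempty_mulEquiv_dihedralGroup (orderOf x) x t htt hxt rfl htzp (hgen x hxH)
  have hcardG : Nat.card G = 2 * orderOf x := by
    rw [← DihedralGroup.nat_card]
    exact Nat.card_congr e.some.toEquiv
  -- y = x^(n/p)
  set y := x ^ (orderOf x / p) with hy
  have hyp : y ^ p = 1 := by
    rw [hy, ← pow_mul, Nat.div_mul_cancel hpd, pow_orderOf_eq_one]
  have hy1 : y ≠ 1 := by
    intro h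
    have := orderOf_dvd_of_pow_eq_one h
    have h3 := Nat.le_of_dvd (Nat.div_pos (Nat.le_of_dvd hpos hpd) hp.pos) this
    have h4 := Nat.div_lt_self hpos hp.one_lt
    omega
  have hyH : y ∉ H := by
    intro h
    rcases hallt y h with h | h
    · exact hy1 h
    · apply htzp
      rw [← h]
      exact Subgroup.pow_mem _ (Subgroup.mem_zpowers x) _
  have hyt : t * y * t = y⁻¹ := by
    have := conj_pow (a := t) (b := x) (i := orderOf x / p)
    rw [htinv] at this
    rw [hy, ← this, hxt, inv_pow]
  have hle := Cfsg.Agent.H22.card_le_of_dihedral p hp.ne_zero y t hyp htt hyt (hgen y hyH)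
  have hpn : orderOf x = p := by
    apply le_antisymm _ (Nat.le_of_dvd hpos hpd)
    omega
  refine ⟨p, hp, ?_⟩
  rw [← hpn]
  exact e

end Cfsg.Agent.S3684
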