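import Cfsg.Statements.S3693
import Cfsg.Agent.H10.TW5

set_option autoImplicit false
open Cfsg

namespace Cfsg.Agent.S3693

/-- Let a finite group G act faithfully and primitively on a set Ω, let a and b be points such that the orbit Δ of b under the stabilizer H of a has length d ≥ 2, and consider the permutation group induced on Δ by the elements of H fixing b. If that induced group has trivial Fitting subgroup (no non-trivial nilpotent normal subgroup), then the two-point stabilizer of a and b has trivial Fitting subgroup and the order of H divides d! · ((d - 1)!)^d. -/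
theorem result {G Ω : Type*} [Group G] [Finite G] [MulAction G Ω] [FaithfulSMul G Ω] [Finite Ω]
    (hprim : MulAction.IsPreprimitive G Ω) (a b : Ω) (d : ℕ) (hd : Nat.card (MulAction.orbit (MulAction.stabilizer G a) b) = d) (h2 : 2 ≤ d)
    (hF : Cfsg.fittingSubgroup ↥(((MulAction.stabilizer G b).subgroupOf (MulAction.stabilizer G a)).map (MulAction.toPermHom (MulAction.stabilizer G a) (MulAction.orbit (MulAction.stabilizer G a) b))) = ⊥) :
    Cfsg.fittingSubgroup ↥(MulAction.stabilizer G a ⊓ MulAction.stabilizer G b) = ⊥ ∧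
      Nat.card (MulAction.stabilizer G a) ∣ Nat.factorial d * (Nat.factorial (d - 1)) ^ d := by
  obtain ⟨h, hr1, hr2, hc⟩ := H10.tws_of_prim hprim hd h2
  set A := MulAction.stabilizer G a with hA
  set B := MulAction.stabilizer G b with hB
  have hbot : ∀ p : ℕ, p.Prime → H10.cO p (A ⊓ B) = ⊥ := by
    intro p hp
    haveI : Fact p.Prime := ⟨hp⟩
    by_contra hP
    set P := H10.cO p (A ⊓ B) with hPdef
    have hPk : P ≤ H10.k1 A B := by
      have hPA : P ≤ A := (H10.cO_le _ _).trans inf_le_left
      set φ := MulAction.toPermHom A (MulAction.orbit A b) with hφ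
      have h3 : (P.subgroupOf A).map φ ≤ (B.subgroupOf A).map φ := by
        apply Subgroup.map_mono
        intro x hx
        exact (H10.cO_le _ _ hx).2
      have hn : (B.subgroupOf A).map φ ≤ Subgroup.normalizer (((P.subgroupOf A).map φ : Subgroup _) : Set _) := by
        apply H10.le_normalizer_of_conj_mem
        rintro _ ⟨x, hx, rfl⟩ _ ⟨y, hy, rfl⟩
        refine ⟨x * y * x⁻¹, ?_, by simp⟩
        have hxAB : (x : G) ∈ A ⊓ B := Subgroup.mem_inf.2 ⟨x.2, hx⟩
        exact (Subgroup.mem_normalizer_iff.1 (H10.le_cO_nrm p (A ⊓ B) hxAB) _).1 hy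
      have h4 : (P.subgroupOf A).map φ ≤ H10.cF ((B.subgroupOf A).map φ) :=
        (H10.le_cO_of_normal h3 hn ((H10.isPGroup_subgroupOf (H10.cO_isPGroup p _)).map _)).trans (H10.cO_le_cF p _)
      have h5 : H10.cF ((B.subgroupOf A).map φ) = ⊥ := by
        rw [H10.cF, hF, Subgroup.map_bot]
      rw [h5, le_bot_iff] at h4
      intro x hx
      have h6 : φ ⟨x, hPA hx⟩ ∈ (P.subgroupOf A).map φ := ⟨⟨x, hPA hx⟩, hx, rfl⟩
      rw [h4, Subgroup.mem_bot] at h6
      exact H10.ker_le_k1 (hPA hx) h6
    have hP1 : P ≤ H10.cO p (H10.k1 A B) :=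
      H10.le_cO_of_normal hPk (H10.k1_le.trans (H10.le_cO_nrm p _)) (H10.cO_isPGroup p _)
    have hP2 : H10.cO p (H10.k1 A B) ≤ P := by
      apply H10.le_cO_of_normal ((H10.cO_le _ _).trans H10.k1_le) _ (H10.cO_isPGroup p _)
      exact (inf_le_left.trans H10.le_normalizer_k1).trans (H10.le_normalizer_cO p _)
    have hP3 : P = H10.cO p (H10.k1 A B) := le_antisymm hP1 hP2
    have hPA : P ≤ A := (H10.cO_le _ _).trans inf_le_left
    have hAN : A ≤ Subgroup.normalizer (P : Set G) := by
      rw [hP3]
      exact H10.le_normalizer_k1.trans (H10.le_normalizer_cO p _)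
    exact h.nl hP (h.mA P hP hPA hAN) (H10.le_cO_of_normal hPA hAN (H10.cO_isPGroup p _))
  constructor
  · have h1 : H10.cF (A ⊓ B) ≤ ⊥ := H10.cF_le_of_cO fun q hq => (hbot q hq).le
    rw [le_bot_iff, H10.cF, Subgroup.map_eq_bot_iff_of_injective _ (A ⊓ B).subtype_injective] at h1
    exact h1
  · apply H10.card_dvd_of_k2 hr1 hr2 hc
    by_contra hno
    push Not at hno
    obtain ⟨p, hp, h1, -⟩ := h.main hno.1 hno.2
    rw [hbot p hp, le_bot_iff] at h1
    exact hno.1 h1

end Cfsg.Agent.S3693
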