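import Cfsg.Statements.S3696

set_option autoImplicit false
set_option linter.all false
open Cfsg

namespace Cfsg.Agent.S3696

theorem amgm_nat (a b x y : ℕ) (ha : 0 < a) (hb : 0 < b) :
    x ^ a * y ^ b * (a + b) ^ (a + b) ≤ (x + y) ^ (a + b) * a ^ a * b ^ b := by
  have hra : (0 : ℝ) < a := by exact_mod_cast ha
  have hrb : (0 : ℝ) < b := by exact_mod_cast hb
  have hab : (0 : ℝ) < a + b := by positivity
  have h := Real.geom_mean_le_arith_mean2_weighted (w₁ := (a : ℝ) / (a + b)) (w₂ := (b : ℝ) / (a + b))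
    (p₁ := (x : ℝ) / a) (p₂ := (y : ℝ) / b) (by positivity) (by positivity) (by positivity) (by positivity)
    (by field_simp)
  have h2 : (a : ℝ) / (a + b) * (x / a) + (b : ℝ) / (a + b) * (y / b) = (x + y) / (a + b) := by
    field_simp
  rw [h2] at h
  have h3 : (((x : ℝ) / a) ^ ((a : ℝ) / (a + b)) * ((y : ℝ) / b) ^ ((b : ℝ) / (a + b))) ^ (a + b) =
      ((x : ℝ) / a) ^ a * ((y : ℝ) / b) ^ b := by
    rw [mul_pow, ← Real.rpow_natCast, ← Real.rpow_natCast (((y : ℝ) / b) ^ ((b : ℝ) / (a + b))), ← Real.rpow_mul (by positivity),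
      ← Real.rpow_mul (by positivity)]
    push_cast
    rw [div_mul_cancel₀ _ hab.ne', div_mul_cancel₀ _ hab.ne', Real.rpow_natCast, Real.rpow_natCast]
  have h4 := pow_le_pow_left₀ (by positivity) h (a + b)
  rw [h3, div_pow, div_pow, div_pow] at h4
  have h5 : (x : ℝ) ^ a * y ^ b * (a + b) ^ (a + b) ≤ (x + y) ^ (a + b) * a ^ a * b ^ b := by
    have h6 := mul_le_mul_of_nonneg_right h4 (show (0 : ℝ) ≤ (a + b) ^ (a + b) * (a ^ a * b ^ b) by positivity)
    have e1 : (x : ℝ) ^ a / a ^ a * (y ^ b / b ^ b) * ((a + b) ^ (a + b) * (a ^ a * b ^ b)) = x ^ a * y ^ b * (a + b) ^ (a + b) := by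
      field_simp
    have e2 : ((x : ℝ) + y) ^ (a + b) / (a + b) ^ (a + b) * ((a + b) ^ (a + b) * (a ^ a * b ^ b)) = (x + y) ^ (a + b) * a ^ a * b ^ b := by
      field_simp
    rw [e1, e2] at h6
    exact h6
  exact_mod_cast h5

theorem arith (k₁ d m r A₁ : ℕ) (hd : 0 < d) (hm : 2 ^ d ≤ m) (hA : A₁ * k₁ ^ k₁ ≤ r ^ k₁) :
    m * A₁ * (k₁ + d) ^ (k₁ + d) ≤ (r + m) ^ (k₁ + d) := by
  have hdm : d ^ d * m ≤ m ^ d := by
    obtain ⟨e, rfl⟩ : ∃ e, d = e + 1 := ⟨d - 1, by omega⟩
    have h1 : (e + 1) ≤ 2 ^ e := Nat.lt_two_pow_self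
    have h2 : (e + 1) ^ (e + 1) ≤ m ^ e := by
      calc (e + 1) ^ (e + 1) ≤ (2 ^ e) ^ (e + 1) := Nat.pow_le_pow_left h1 _
        _ = (2 ^ (e + 1)) ^ e := by rw [← pow_mul, ← pow_mul, mul_comm]
        _ ≤ m ^ e := Nat.pow_le_pow_left hm _
    calc (e + 1) ^ (e + 1) * m ≤ m ^ e * m := Nat.mul_le_mul_right _ h2
      _ = m ^ (e + 1) := (pow_succ _ _).symm
  rcases Nat.eq_zero_or_pos k₁ with rfl | hk
  · simp only [pow_zero, mul_one, zero_add] at hA ⊢
    calc m * A₁ * d ^ d ≤ m * 1 * d ^ d := by gcongr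
      _ = d ^ d * m := by ring
      _ ≤ m ^ d := hdm
      _ ≤ (r + m) ^ d := Nat.pow_le_pow_left (by omega) _
  · have h1 := amgm_nat k₁ d r m hk hd
    have hpos : 0 < k₁ ^ k₁ * d ^ d := by positivity
    refine Nat.le_of_mul_le_mul_right ?_ hpos
    calc m * A₁ * (k₁ + d) ^ (k₁ + d) * (k₁ ^ k₁ * d ^ d) = (A₁ * k₁ ^ k₁) * (d ^ d * m) * (k₁ + d) ^ (k₁ + d) := by ring
      _ ≤ r ^ k₁ * m ^ d * (k₁ + d) ^ (k₁ + d) := by gcongr
      _ ≤ (r + m) ^ (k₁ + d) * k₁ ^ k₁ * d ^ d := h1
      _ = (r + m) ^ (k₁ + d) * (k₁ ^ k₁ * d ^ d) := by ring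

section
variable {Ω : Type*} [Fintype Ω] [DecidableEq Ω]

open Classical in
theorem orb_card (K : Subgroup (Equiv.Perm Ω)) (x : Ω) :
    (Finset.univ.filter fun y => ∃ h ∈ K, h x = y).card * Nat.card (K ⊓ MulAction.stabilizer (Equiv.Perm Ω) x : Subgroup _) = Nat.card K := by
  have h1 := MulAction.card_orbit_mul_card_stabilizer_eq_card_group K x
  simp only [← Nat.card_eq_fintype_card] at h1
  rw [← h1]
  congr 1
  · rw [← Nat.card_eq_finsetCard]
    apply Nat.card_congr
    apply Equiv.subtypeEquivRight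
    intro y
    simp only [Finset.mem_filter, Finset.mem_univ, true_and, MulAction.mem_orbit_iff]
    constructor
    · rintro ⟨h, hh, rfl⟩; exact ⟨⟨h, hh⟩, rfl⟩
    · rintro ⟨⟨h, hh⟩, rfl⟩; exact ⟨h, hh, rfl⟩
  · have : (K ⊓ MulAction.stabilizer (Equiv.Perm Ω) x : Subgroup _) = (MulAction.stabilizer K x).map K.subtype := by
      ext g
      simp only [Subgroup.mem_inf, MulAction.mem_stabilizer_iff, Subgroup.mem_map, Subgroup.coe_subtype, Subtype.exists,
        exists_and_right, exists_eq_right]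
      constructor
      · rintro ⟨h1, h2⟩; exact ⟨h1, h2⟩
      · rintro ⟨h1, h2⟩; exact ⟨h1, h2⟩
    rw [this, Nat.card_congr ((MulAction.stabilizer K x).equivMapOfInjective _ K.subtype_injective).symm.toEquiv]

/-- elements of order dividing p -/
def EE (H : Subgroup (Equiv.Perm Ω)) (hc : ∀ a ∈ H, ∀ b ∈ H, a * b = b * a) (p : ℕ) : Subgroup (Equiv.Perm Ω) where
  carrier := {x | x ∈ H ∧ x ^ p = 1}
  mul_mem' := by
    rintro a b ⟨ha, ha'⟩ ⟨hb, hb'⟩
    refine ⟨H.mul_mem ha hb, ?_⟩
    rw [(show Commute a b from hc a ha b hb).mul_pow, ha', hb', one_mul]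
  one_mem' := ⟨H.one_mem, one_pow _⟩
  inv_mem' := by
    rintro a ⟨ha, ha'⟩
    exact ⟨H.inv_mem ha, by rw [inv_pow, ha', inv_one]⟩

open Classical in
theorem key (p : ℕ) (hp : p.Prime) : ∀ (n : ℕ) (S : Finset Ω) (_ : S.card = n) (H : Subgroup (Equiv.Perm Ω))
    (hc : ∀ a ∈ H, ∀ b ∈ H, a * b = b * a) (_ : IsPGroup p H)
    (_ : ∀ h ∈ H, ∀ y ∈ S, h y ∈ S) (_ : ∀ h ∈ H, (∀ y ∈ S, h y = y) → h = 1) (k : ℕ),
    Nat.card (EE H hc p) = p ^ k → Nat.card H * k ^ k ≤ n ^ k := by
  have : Fact p.Prime := ⟨hp⟩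
  intro n
  induction n using Nat.strong_induction_on with
  | _ n ih =>
    intro S hS H hc hH hinv hfaith k hk
    rcases S.eq_empty_or_nonempty with rfl | ⟨x, hx⟩
    · have hbot : H = ⊥ := by
        rw [eq_bot_iff]
        intro h hh
        exact hfaith h hh (by simp)
      subst hbot
      have : (EE (⊥ : Subgroup (Equiv.Perm Ω)) hc p) = ⊥ := by
        rw [eq_bot_iff]
        rintro x ⟨hx, _⟩
        exact hx
      rw [this] at hk
      have hk0 : k = 0 := by
        by_contra h0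
        have : 1 < p ^ k := Nat.one_lt_pow h0 hp.one_lt
        rw [← hk] at this
        simp at this
      subst hk0
      simp
    · set O := Finset.univ.filter fun y => ∃ h ∈ H, h x = y with hO
      set H₁ := H ⊓ MulAction.stabilizer (Equiv.Perm Ω) x with hH₁
      have hOS : O ⊆ S := by
        intro y hy
        rw [hO, Finset.mem_filter] at hy
        obtain ⟨_, h, hh, rfl⟩ := hy
        exact hinv h hh x hx
      have hxO : x ∈ O := by
        rw [hO, Finset.mem_filter]
        exact ⟨Finset.mem_univ _, 1, H.one_mem, rfl⟩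
      have hOpos : 0 < O.card := Finset.card_pos.2 ⟨x, hxO⟩
      have hcardO : O.card * Nat.card H₁ = Nat.card H := orb_card H x
      have hfixO : ∀ h ∈ H₁, ∀ y ∈ O, h y = y := by
        intro h hh y hy
        rw [hO, Finset.mem_filter] at hy
        obtain ⟨_, g, hg, rfl⟩ := hy
        have h1 : h x = x := hh.2
        have h2 := hc h hh.1 g hg
        have h3 := congrArg (fun f : Equiv.Perm Ω => f x) h2
        simp only [Equiv.Perm.mul_apply] at h3
        rw [h3, h1]
      have hS' : (S \ O).card = n - O.card := by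
        rw [Finset.card_sdiff_of_subset hOS, hS]
      have hlt : n - O.card < n := by
        have := Finset.card_le_card hOS
        omega
      have hOn : O.card ≤ n := by rw [← hS]; exact Finset.card_le_card hOS
      have hinv' : ∀ h ∈ H, ∀ y ∈ S \ O, h y ∈ S \ O := by
        intro h hh y hy
        rw [Finset.mem_sdiff] at hy ⊢
        refine ⟨hinv h hh y hy.1, fun hcon => hy.2 ?_⟩
        rw [hO, Finset.mem_filter] at hcon ⊢
        obtain ⟨_, g, hg, hgy⟩ := hcon
        refine ⟨Finset.mem_univ _, h⁻¹ * g, H.mul_mem (H.inv_mem hh) hg, ?_⟩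
        rw [Equiv.Perm.mul_apply, hgy]; exact h.symm_apply_apply y
      by_cases hcase : EE H hc p ≤ H₁
      · -- drop the orbit
        have hfaith' : ∀ h ∈ H, (∀ y ∈ S \ O, h y = y) → h = 1 := by
          intro h hh hy
          by_contra hne
          obtain ⟨j, hj⟩ := hH ⟨h, hh⟩
          have hj' : h ^ p ^ j = 1 := by
            have := congrArg Subtype.val hj
            simpa using this
          have hord : orderOf h ∣ p ^ j := orderOf_dvd_of_pow_eq_one hj'
          have hord1 : orderOf h ≠ 1 := fun h1 => hne (orderOf_eq_one_iff.1 h1)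
          obtain ⟨i, _, hi⟩ := (Nat.dvd_prime_pow hp).1 hord
          have hi0 : i ≠ 0 := by
            rintro rfl
            rw [pow_zero] at hi
            exact hord1 hi
          obtain ⟨i', rfl⟩ : ∃ i', i = i' + 1 := ⟨i - 1, by omega⟩
          have hg1 : (h ^ p ^ i') ^ p = 1 := by
            rw [← pow_mul, ← pow_succ, ← hi, pow_orderOf_eq_one]
          have hgE : h ^ p ^ i' ∈ EE H hc p := ⟨H.pow_mem hh _, hg1⟩
          have hg2 : h ^ p ^ i' = 1 := by
            apply hfaith _ (H.pow_mem hh _)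
            intro y hyS
            by_cases hyO : y ∈ O
            · exact hfixO _ (hcase hgE) y hyO
            · have h3 := hy y (Finset.mem_sdiff.2 ⟨hyS, hyO⟩)
              have h4 : h ∈ MulAction.stabilizer (Equiv.Perm Ω) y := h3
              exact (MulAction.stabilizer (Equiv.Perm Ω) y).pow_mem h4 (p ^ i')
          have h5 := orderOf_dvd_of_pow_eq_one hg2
          rw [hi] at h5
          have h6 := Nat.le_of_dvd (by have := hp.pos; positivity) h5
          have h7 : p ^ i' < p ^ (i' + 1) := Nat.pow_lt_pow_right hp.one_lt (by omega)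
          omega
        have h1 := ih (n - O.card) hlt (S \ O) hS' H hc hH hinv' hfaith' k hk
        exact h1.trans (Nat.pow_le_pow_left (by omega) _)
      · have hc₁ : ∀ a ∈ H₁, ∀ b ∈ H₁, a * b = b * a := fun a ha b hb => hc a ha.1 b hb.1
        have hH₁p : IsPGroup p H₁ := hH.to_le inf_le_left
        have hE₁ : EE H₁ hc₁ p = EE H hc p ⊓ MulAction.stabilizer (Equiv.Perm Ω) x := by
          ext g
          constructor
          · rintro ⟨⟨h1, h2⟩, h3⟩; exact ⟨⟨h1, h3⟩, h2⟩
          · rintro ⟨⟨h1, h3⟩, h2⟩; exact ⟨⟨h1, h2⟩, h3⟩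
        have hE₁p : IsPGroup p (EE H₁ hc₁ p) := hH₁p.to_le (fun g hg => hg.1)
        obtain ⟨k₁, hk₁⟩ := (IsPGroup.iff_card).1 hE₁p
        have horb := orb_card (EE H hc p) x
        rw [← hE₁, hk₁, hk] at horb
        set OE := Finset.univ.filter fun y => ∃ h ∈ EE H hc p, h x = y with hOE
        have hOE1 : OE ⊆ O := by
          intro y hy
          rw [hOE, Finset.mem_filter] at hy
          obtain ⟨_, h, hh, rfl⟩ := hy
          rw [hO, Finset.mem_filter]
          exact ⟨Finset.mem_univ _, h, hh.1, rfl⟩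
        have hk₁k : k₁ < k := by
          by_contra hcon
          push Not at hcon
          apply hcase
          have h1 : EE H₁ hc₁ p = EE H hc p := by
            apply Subgroup.eq_of_le_of_card_ge
            · rw [hE₁]; exact inf_le_left
            · rw [hk₁, hk]; exact Nat.pow_le_pow_right hp.pos hcon
          rw [← h1]
          intro g hg
          exact hg.1
        obtain ⟨d, rfl⟩ : ∃ d, k = k₁ + d := ⟨k - k₁, by omega⟩
        have hd : 0 < d := by omega
        have hOEc : OE.card = p ^ d := by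
          have : OE.card * p ^ k₁ = p ^ d * p ^ k₁ := by rw [horb, pow_add, mul_comm]
          exact Nat.eq_of_mul_eq_mul_right (pow_pos hp.pos _) this
        have hm : 2 ^ d ≤ O.card := by
          calc 2 ^ d ≤ p ^ d := Nat.pow_le_pow_left hp.two_le _
            _ = OE.card := hOEc.symm
            _ ≤ O.card := Finset.card_le_card hOE1
        have hfaith₁ : ∀ h ∈ H₁, (∀ y ∈ S \ O, h y = y) → h = 1 := by
          intro h hh hy
          apply hfaith h hh.1
          intro y hyS
          by_cases hyO : y ∈ O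
          · exact hfixO h hh y hyO
          · exact hy y (Finset.mem_sdiff.2 ⟨hyS, hyO⟩)
        have h1 := ih (n - O.card) hlt (S \ O) hS' H₁ hc₁ hH₁p (fun h hh => hinv' h hh.1) hfaith₁ k₁ hk₁
        have h2 := arith k₁ d O.card (n - O.card) (Nat.card H₁) hd hm h1
        rw [hcardO, Nat.sub_add_cancel hOn] at h2
        exact h2
end

/-- Let p be a prime, Ω a finite set with n ≥ p elements, and A an abelian p-subgroup of the symmetric group on Ω whose elements of order dividing p number p^k (so k is the rank of A). Then |A| · k^k ≤ n^k, that is, |A| ≤ (n/k)^k. -/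
theorem result {Ω : Type*} [Fintype Ω] [DecidableEq Ω]
    (p : ℕ) (hp : p.Prime) (hn : p ≤ Fintype.card Ω) (A : Subgroup (Equiv.Perm Ω)) (hA : IsPGroup p A) (hab : IsMulCommutative A)
    (k : ℕ) (hk : Nat.card {x : A // x ^ p = 1} = p ^ k) :
    Nat.card A * k ^ k ≤ Fintype.card Ω ^ k := by
  have hc : ∀ a ∈ A, ∀ b ∈ A, a * b = b * a := fun a ha b hb => by
    have := hab.is_comm.comm ⟨a, ha⟩ ⟨b, hb⟩
    exact congrArg Subtype.val this
  refine key p hp _ Finset.univ (by simp) A hc hA (by simp) ?_ k ?_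
  · intro h _ hy
    ext y
    simp [hy y (Finset.mem_univ _)]
  · rw [← hk]
    apply Nat.card_congr
    refine ⟨fun x => ⟨⟨x.1, x.2.1⟩, Subtype.ext x.2.2⟩, fun x => ⟨x.1.1, x.1.2, congrArg Subtype.val x.2⟩, ?_, ?_⟩
    · intro x; rfl
    · intro x; rfl

end Cfsg.Agent.S3696
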