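import Cfsg.Statements.S3703
import Cfsg.Agent.H1.Coprime
import Cfsg.Agent.H20.Fpf2
import Cfsg.Agent.H24.PiHom

set_option autoImplicit false
set_option linter.all false
open Cfsg

namespace Cfsg.Agent.S3703

open Subgroup
open scoped Pointwise
universe u v

theorem coreA {X : Type u} {V : Type v} [Group X] [CommGroup V] (φ : X →* Monoid.End V)
    (F : Subgroup X) [Finite F] (g : X) (m : ℕ) (hm : 0 < m)
    (hg : ∀ x ∈ F, ∀ i : ℕ, g ^ i * x * (g ^ i)⁻¹ ∈ F)
    (h1 : ∀ i, 0 < i → i < m → ∀ f ∈ F, f * g ^ i = g ^ i * f → f = 1)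
    (h2 : ∀ f ∈ F, ∀ v : V, ∏ i ∈ Finset.range m, φ (f * g ^ i * f⁻¹) v = 1) :
    ∀ v : V, ∀ f ∈ F, φ f (v ^ Nat.card F) = v ^ Nat.card F := by
  classical
  haveI := Fintype.ofFinite F
  obtain ⟨m', rfl⟩ : ∃ m', m = m' + 1 := ⟨m - 1, by omega⟩
  intro v f' hf'
  -- the key identity
  have hσ : ∀ i, 0 < i → i < m' + 1 →
      ∏ f : F, φ ((f : X) * g ^ i * (f : X)⁻¹) v = ∏ f : F, φ (f : X) (φ (g ^ i) v) := by
    intro i hi him
    let σ : F → F := fun f => f * ⟨g ^ i * ((f⁻¹ : F) : X) * (g ^ i)⁻¹, hg _ (f⁻¹).2 i⟩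
    have hinj : Function.Injective σ := by
      intro a b hab
      have h3 : (a : X) * (g ^ i * (a : X)⁻¹ * (g ^ i)⁻¹) = b * (g ^ i * (b : X)⁻¹ * (g ^ i)⁻¹) :=
        congrArg Subtype.val hab
      have h4 : ((b⁻¹ * a : F) : X) * g ^ i = g ^ i * ((b⁻¹ * a : F) : X) := by
        show ((b : X)⁻¹ * a) * g ^ i = g ^ i * ((b : X)⁻¹ * a)
        calc ((b : X)⁻¹ * a) * g ^ i = (b : X)⁻¹ * (a * (g ^ i * (a : X)⁻¹ * (g ^ i)⁻¹)) * g ^ i * a := by group
          _ = (b : X)⁻¹ * (b * (g ^ i * (b : X)⁻¹ * (g ^ i)⁻¹)) * g ^ i * a := by rw [h3]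
          _ = _ := by group
      have h5 := h1 i hi him _ (b⁻¹ * a : F).2 h4
      have h6 : b⁻¹ * a = 1 := Subtype.ext h5
      exact (inv_mul_eq_one.mp h6).symm
    have hbij : Function.Bijective σ := Finite.injective_iff_bijective.mp hinj
    rw [← Equiv.prod_comp (Equiv.ofBijective σ hbij) (fun f : F => φ (f : X) (φ (g ^ i) v))]
    refine Finset.prod_congr rfl fun f _ => ?_
    have h7 : (f : X) * g ^ i * (f : X)⁻¹ = ((σ f : F) : X) * g ^ i := by
      show (f : X) * g ^ i * (f : X)⁻¹ = (f : X) * (g ^ i * ((f⁻¹ : F) : X) * (g ^ i)⁻¹) * g ^ i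
      rw [InvMemClass.coe_inv]
      group
    rw [h7, map_mul]
    rfl
  have htot : ∏ f : F, ∏ i ∈ Finset.range (m' + 1), φ ((f : X) * g ^ i * (f : X)⁻¹) v = 1 :=
    Finset.prod_eq_one fun f _ => h2 f f.2 v
  rw [Finset.prod_comm, Finset.prod_range_succ'] at htot
  have h0 : ∏ f : F, φ ((f : X) * g ^ 0 * (f : X)⁻¹) v = v ^ Nat.card F := by
    have : ∀ f : F, φ ((f : X) * g ^ 0 * (f : X)⁻¹) v = v := by
      intro f
      rw [pow_zero, mul_one, mul_inv_cancel, map_one]
      rfl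
    rw [Finset.prod_congr rfl fun f _ => this f, Finset.prod_const, Finset.card_univ,
      Nat.card_eq_fintype_card]
  rw [h0] at htot
  have hfix : ∀ i ∈ Finset.range m', φ f' (∏ f : F, φ ((f : X) * g ^ (i + 1) * (f : X)⁻¹) v) =
      ∏ f : F, φ ((f : X) * g ^ (i + 1) * (f : X)⁻¹) v := by
    intro i hi
    rw [hσ (i + 1) (by omega) (by have := Finset.mem_range.mp hi; omega), map_prod]
    rw [← Equiv.prod_comp (Equiv.mulLeft (⟨f', hf'⟩ : F)) (fun f : F => φ (f : X) (φ (g ^ (i + 1)) v))]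
    refine Finset.prod_congr rfl fun f _ => ?_
    show φ f' (φ (f : X) _) = φ (f' * (f : X)) _
    rw [map_mul]
    rfl
  have h8 : v ^ Nat.card F = (∏ i ∈ Finset.range m', ∏ f : F, φ ((f : X) * g ^ (i + 1) * (f : X)⁻¹) v)⁻¹ :=
    (inv_eq_of_mul_eq_one_right htot).symm
  rw [h8, map_inv, map_prod]
  congr 1
  exact Finset.prod_congr rfl fun i hi => hfix i hi

variable {G : Type u} [Group G]

/-- The action of the normalizer on the abelianization. -/
noncomputable def act (W : Subgroup G) : normalizer (W : Set G) →* Monoid.End (Abelianization W) where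
  toFun x := Abelianization.map ((W.normalizerMonoidHom x : MulAut W).toMonoidHom)
  map_one' := by
    refine MonoidHom.ext fun v => ?_
    obtain ⟨w, rfl⟩ := QuotientGroup.mk_surjective v
    rw [map_one]
    rfl
  map_mul' x y := by
    refine MonoidHom.ext fun v => ?_
    obtain ⟨w, rfl⟩ := QuotientGroup.mk_surjective v
    rw [map_mul]
    rfl

theorem act_of (W : Subgroup G) (x : normalizer (W : Set G)) (w : W) (h : (x : G) * w * (x : G)⁻¹ ∈ W) :
    act W x (Abelianization.of w) = Abelianization.of ⟨(x : G) * w * (x : G)⁻¹, h⟩ := rfl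

theorem pow_conj_mem (W : Subgroup G) {g : G} (hg : g ∈ normalizer (W : Set G)) {w : G} (hw : w ∈ W) (k : ℕ) :
    ∃ h : (w * g) ^ k * (g ^ k)⁻¹ ∈ W, Abelianization.of (⟨_, h⟩ : W) =
      ∏ i ∈ Finset.range k, act W ((⟨g, hg⟩ : normalizer (W : Set G)) ^ i) (Abelianization.of ⟨w, hw⟩) := by
  induction k with
  | zero =>
    refine ⟨by simp, ?_⟩
    rw [Finset.range_zero, Finset.prod_empty]
    have : (⟨(w * g) ^ 0 * (g ^ 0)⁻¹, by simp⟩ : W) = 1 := Subtype.ext (by simp)
    rw [this, map_one]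
  | succ k ih =>
    obtain ⟨h, hh⟩ := ih
    have hgk : g ^ k * w * (g ^ k)⁻¹ ∈ W :=
      (Subgroup.mem_normalizer_iff.mp (pow_mem hg k) w).mp hw
    have he : (w * g) ^ (k + 1) * (g ^ (k + 1))⁻¹ = ((w * g) ^ k * (g ^ k)⁻¹) * (g ^ k * w * (g ^ k)⁻¹) := by
      rw [pow_succ (w * g), pow_succ g]; group
    refine ⟨by rw [he]; exact mul_mem h hgk, ?_⟩
    rw [Finset.prod_range_succ, ← hh]
    have h1 : (⟨(w * g) ^ (k + 1) * (g ^ (k + 1))⁻¹, by rw [he]; exact mul_mem h hgk⟩ : W) =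
        ⟨_, h⟩ * ⟨_, hgk⟩ := Subtype.ext he
    rw [h1, map_mul]
    rfl

theorem coreB [Finite G] (W F : Subgroup G) (g : G) (m : ℕ) (hm : 0 < m)
    (hFW : F ≤ normalizer (W : Set G)) (hgW : g ∈ normalizer (W : Set G)) (hgF : g ∈ normalizer (F : Set G))
    (h1 : ∀ i, 0 < i → i < m → ∀ f ∈ F, f * g ^ i = g ^ i * f → f = 1)
    (hgm : g ^ m = 1)
    (h2 : ∀ f ∈ F, ∀ w ∈ W, (w * (f * g * f⁻¹)) ^ m = 1)
    (hcop : (Nat.card F).Coprime (Nat.card W)) : ⁅W, F⁆ ≤ ⁅W, W⁆ := by
  obtain ⟨N, hN⟩ : ∃ N : Subgroup G, N = normalizer (W : Set G) := ⟨_, rfl⟩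
  obtain ⟨F', hF'⟩ : ∃ F' : Subgroup (normalizer (W : Set G)), F' = F.subgroupOf _ := ⟨_, rfl⟩
  have hF'm : ∀ x : normalizer (W : Set G), x ∈ F' ↔ (x : G) ∈ F := by
    intro x; rw [hF', Subgroup.mem_subgroupOf]
  have key := coreA (act W) F' ⟨g, hgW⟩ m hm
    (by
      intro x hx i
      rw [hF'm] at hx ⊢
      exact (Subgroup.mem_normalizer_iff.mp (pow_mem hgF i) _).mp hx)
    (by
      intro i hi him f hf hc
      rw [hF'm] at hf
      exact Subtype.ext (h1 i hi him f hf (congrArg Subtype.val hc)))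
    (by
      intro f hf v
      rw [hF'm] at hf
      obtain ⟨w, rfl⟩ := QuotientGroup.mk_surjective v
      have hfg : (f : G) * g * (f : G)⁻¹ ∈ normalizer (W : Set G) := mul_mem (mul_mem f.2 hgW) (inv_mem f.2)
      obtain ⟨h3, h4⟩ := pow_conj_mem W hfg w.2 m
      have h5 : (⟨((w : G) * ((f : G) * g * (f : G)⁻¹)) ^ m * (((f : G) * g * (f : G)⁻¹) ^ m)⁻¹, h3⟩ : W) = 1 := by
        apply Subtype.ext
        show ((w : G) * ((f : G) * g * (f : G)⁻¹)) ^ m * (((f : G) * g * (f : G)⁻¹) ^ m)⁻¹ = 1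
        rw [h2 f hf w w.2, conj_pow, hgm]
        simp
      rw [h5, map_one] at h4
      rw [h4]
      refine Finset.prod_congr rfl fun i _ => ?_
      have h6 : (⟨(f : G) * g * (f : G)⁻¹, hfg⟩ : normalizer (W : Set G)) = f * ⟨g, hgW⟩ * f⁻¹ := rfl
      rw [h6, conj_pow]
      rfl)
  have hcF : Nat.card F' = Nat.card F := by
    rw [hF']
    exact Nat.card_congr (Subgroup.subgroupOfEquivOfLe hFW).toEquiv
  rw [Subgroup.commutator_le]
  intro w hw f hf
  obtain ⟨f', hf'⟩ : ∃ f' : normalizer (W : Set G), (f' : G) = f := ⟨⟨f, hFW hf⟩, rfl⟩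
  have hfw : f * w * f⁻¹ ∈ W := (Subgroup.mem_normalizer_iff.mp (hFW hf) w).mp hw
  have h9 : act W f' (Abelianization.of (⟨w, hw⟩ : W)) = Abelianization.of ⟨w, hw⟩ := by
    -- Bezout
    obtain ⟨v, hv⟩ : ∃ v : Abelianization W, v ^ Nat.card F' = Abelianization.of ⟨w, hw⟩ := by
      have hc : (Nat.card (Abelianization W)).Coprime (Nat.card F') := by
        rw [hcF]
        exact (hcop.coprime_dvd_right (Subgroup.card_quotient_dvd_card _)).symm
      exact ⟨(powCoprime hc).symm (Abelianization.of ⟨w, hw⟩), (powCoprime hc).apply_symm_apply _⟩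
    rw [← hv]
    exact key v f' (by rw [hF'm, hf']; exact hf)
  subst hf'
  rw [act_of W f' ⟨w, hw⟩ hfw] at h9
  have h10 : (⟨w, hw⟩ : W) * (⟨_, hfw⟩ : W)⁻¹ ∈ commutator W := by
    rw [← Abelianization.ker_of, MonoidHom.mem_ker, map_mul, map_inv, ← h9, mul_inv_cancel]
  have h11 : ((⟨w, hw⟩ : W) * (⟨_, hfw⟩ : W)⁻¹ : W).1 ∈ ⁅W, W⁆ := by
    have h12 : (commutator W).map W.subtype = ⁅W, W⁆ := by
      rw [commutator_def, Subgroup.map_commutator, ← MonoidHom.range_eq_map, Subgroup.range_subtype]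
    rw [← h12]
    exact Subgroup.mem_map_of_mem W.subtype h10
  have h13 : w * f' * w⁻¹ * (f' : G)⁻¹ = ((⟨w, hw⟩ : W) * (⟨_, hfw⟩ : W)⁻¹ : W).1 := by
    show w * f' * w⁻¹ * (f' : G)⁻¹ = w * ((f' : G) * w * (f' : G)⁻¹)⁻¹
    group
  rw [commutatorElement_def, h13]
  exact h11

theorem cent_le_norm (F : Subgroup G) : Subgroup.centralizer (F : Set G) ≤ normalizer (F : Set G) :=
  Subgroup.centralizer_le_normalizer _

/-- A perfect `p`-subgroup is trivial. -/
theorem perf_bot [Finite G] {p : ℕ} [Fact p.Prime] (W : Subgroup G) (hW : IsPGroup p W) (h : W ≤ ⁅W, W⁆) : W = ⊥ := by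
  by_contra hne
  haveI : Nontrivial W := (Subgroup.nontrivial_iff_ne_bot W).mpr hne
  haveI : Group.IsNilpotent W := hW.isNilpotent
  have h1 := Group.IsSolvable.commutator_lt_top_of_nontrivial W
  apply h1.ne
  have h12 : (commutator W).map W.subtype = ⁅W, W⁆ := by
    rw [commutator_def, Subgroup.map_commutator, ← MonoidHom.range_eq_map, Subgroup.range_subtype]
  rw [← h12] at h
  rw [eq_top_iff]
  intro x _
  obtain ⟨y, hy, hyx⟩ := h x.2
  have : y = x := Subtype.ext hyx
  rw [← this]; exact hy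

theorem ord_lem [Finite G] (N : Subgroup G) [N.Normal] (m : ℕ) (hm : 0 < m)
    (hcon : ¬ ∃ p : ℕ, p.Prime ∧ p ∣ Nat.card N ∧ ∃ g : G, orderOf g = p * m) (y : G)
    (hy : orderOf (QuotientGroup.mk' N y) = m) : y ^ m = 1 := by
  by_contra hne
  apply hcon
  have hyN : y ^ m ∈ N := by
    rw [← QuotientGroup.eq_one_iff]
    have : (QuotientGroup.mk' N y) ^ m = 1 := by rw [← hy]; exact pow_orderOf_eq_one _
    exact this
  have hk1 : orderOf (y ^ m) ≠ 1 := fun h => hne (orderOf_eq_one_iff.mp h)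
  have hdvd : m ∣ orderOf y := by rw [← hy]; exact orderOf_map_dvd _ _
  have hk : orderOf y = m * orderOf (y ^ m) := by
    rw [orderOf_pow_of_dvd hm.ne' hdvd, Nat.mul_div_cancel' hdvd]
  obtain ⟨q, hq, hqk⟩ := Nat.exists_prime_and_dvd hk1
  have hkN : orderOf (y ^ m) ∣ Nat.card N := by
    have := orderOf_dvd_natCard (⟨y ^ m, hyN⟩ : N)
    rwa [Subgroup.orderOf_mk] at this
  refine ⟨q, hq, hqk.trans hkN, y ^ (orderOf (y ^ m) / q), ?_⟩
  obtain ⟨k, hk2⟩ := hqk
  have hkpos : 0 < k := by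
    rcases Nat.eq_zero_or_pos k with h | h
    · rw [h, mul_zero] at hk2
      exact absurd hk2 (orderOf_pos _).ne'
    · exact h
  rw [hk2, Nat.mul_div_cancel_left _ hq.pos, orderOf_pow_of_dvd hkpos.ne' (by rw [hk, hk2]; exact Dvd.intro (m * q) (by ring)),
    hk, hk2]
  exact Nat.div_eq_of_eq_mul_left hkpos (by ring)

/-- Let N be a normal subgroup of the finite group G such that G/N is a Frobenius group with kernel F and cyclic complement H, where the order of F is coprime to that of N and F is not contained in the image of C_G(N) in G/N. Then G has an element of order p·#H for some prime p dividing the order of N. (A standard tool in recognising groups by their element orders.) -/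
theorem result {G : Type*} [Group G] [Finite G] (N : Subgroup G) [N.Normal]
    (Fb Hb : Subgroup (G ⧸ N)) [Fb.Normal] (hHb : Cfsg.IsFrobeniusComplement Hb) (hker : Cfsg.frobeniusKernel Hb = (Fb : Set (G ⧸ N)))
    (hcyc : IsCyclic Hb) (hcop : (Nat.card Fb).Coprime (Nat.card N))
    (hnot : ¬ Fb ≤ (Subgroup.centralizer (N : Set G)).map (QuotientGroup.mk' N)) :
    ∃ p : ℕ, p.Prime ∧ p ∣ Nat.card N ∧ ∃ g : G, orderOf g = p * Nat.card Hb := by
  classical
  by_contra hcon
  obtain ⟨m, hmdef⟩ : ∃ m, m = Nat.card Hb := ⟨_, rfl⟩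
  rw [← hmdef] at hcon
  have hm : 0 < m := by rw [hmdef]; exact Nat.card_pos
  have hY : ∀ y : G, orderOf (QuotientGroup.mk' N y) = m → y ^ m = 1 := fun y hy => ord_lem N m hm hcon y hy
  -- the complement
  obtain ⟨K, hK⟩ : ∃ K : Subgroup G, K = Fb.comap (QuotientGroup.mk' N) := ⟨_, rfl⟩
  have hKn : K.Normal := by rw [hK]; infer_instance
  have hNK : N ≤ K := by
    rw [hK]; intro x hx
    rw [Subgroup.mem_comap]
    have : QuotientGroup.mk' N x = 1 := (QuotientGroup.eq_one_iff x).mpr hx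
    rw [this]; exact one_mem _
  have hKmap : K.map (QuotientGroup.mk' N) = Fb := by
    rw [hK]; exact Subgroup.map_comap_eq_self_of_surjective (QuotientGroup.mk'_surjective N) Fb
  have hKc : Nat.card Fb * Nat.card N = Nat.card K := by
    rw [← hKmap]; exact H24.card_quotient_map N K hNK
  obtain ⟨F0, hF0K, hF0c⟩ : ∃ F0 : Subgroup G, F0 ≤ K ∧ Nat.card F0 = Nat.card Fb := by
    haveI : (N.subgroupOf K).Normal := inferInstance
    have hc1 : Nat.card (N.subgroupOf K) = Nat.card N :=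
      Nat.card_congr (Subgroup.subgroupOfEquivOfLe hNK).toEquiv
    have hi1 : (N.subgroupOf K).index = Nat.card Fb := by
      have := (N.subgroupOf K).card_mul_index
      rw [hc1, ← hKc, mul_comm (Nat.card Fb)] at this
      exact Nat.eq_of_mul_eq_mul_left Nat.card_pos this
    obtain ⟨F', hF'⟩ := Subgroup.exists_right_complement'_of_coprime (N := N.subgroupOf K)
      (by rw [hc1, hi1]; exact hcop.symm)
    refine ⟨F'.map K.subtype, Subgroup.map_subtype_le _, ?_⟩
    rw [Subgroup.card_map_of_injective K.subtype_injective]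
    have := hF'.card_mul
    rw [hc1, ← hKc, mul_comm (Nat.card Fb)] at this
    exact Nat.eq_of_mul_eq_mul_left Nat.card_pos this
  have hcop0 : (Nat.card F0).Coprime (Nat.card N) := by rw [hF0c]; exact hcop
  have hF0N : F0 ≤ normalizer (N : Set G) := by rw [Subgroup.normalizer_eq_top]; exact le_top
  have hinf : N ⊓ F0 = ⊥ := inf_eq_bot_of_coprime hcop0.symm
  have hsup : N ⊔ F0 = K := by
    apply Subgroup.eq_of_le_of_card_ge (sup_le hNK hF0K)
    rw [H1.card_sup_of_coprime hF0N hcop0.symm, hF0c, ← hKc, mul_comm]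
  have hF0map : F0.map (QuotientGroup.mk' N) = Fb := by
    rw [← hKmap, ← hsup, Subgroup.map_sup]
    have : N.map (QuotientGroup.mk' N) = ⊥ := by
      rw [eq_bot_iff]
      rintro _ ⟨x, hx, rfl⟩
      exact (QuotientGroup.eq_one_iff x).mpr hx
    rw [this, bot_sup_eq]
  have hsolv : Group.IsSolvable F0 := by
    have h1 : Group.IsSolvable Fb := by
      obtain ⟨N', h1, -, h3⟩ := H20.Fpf.frobenius_nilpotent hHb
      have : N' = Fb := SetLike.coe_injective (h1.trans hker)
      subst this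
      haveI := h3
      infer_instance
    refine Group.isSolvable_of_isSolvable_injective (f := ((QuotientGroup.mk' N).comp F0.subtype).codRestrict Fb
      (fun x => by rw [← hF0map]; exact Subgroup.mem_map_of_mem _ x.2)) ?_
    rw [injective_iff_map_eq_one]
    intro x hx
    have h2 : QuotientGroup.mk' N (x : G) = 1 := congrArg Subtype.val hx
    have h3 : (x : G) ∈ N ⊓ F0 := ⟨(QuotientGroup.eq_one_iff _).mp h2, x.2⟩
    rw [hinf] at h3
    exact Subtype.ext (Subgroup.mem_bot.mp h3)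
  -- an invariant Sylow subgroup
  obtain ⟨p, hp, P, hP, hPne⟩ : ∃ (p : ℕ) (_ : Fact p.Prime) (P : Sylow p N),
      F0 ≤ normalizer ((P : Subgroup N).map N.subtype : Set G) ∧ ⁅(P : Subgroup N).map N.subtype, F0⁆ ≠ ⊥ := by
    by_contra hno
    push Not at hno
    apply hnot
    rw [← hF0map]
    apply Subgroup.map_mono
    rw [Subgroup.le_centralizer_iff]
    refine H24.le_of_forall_sylow fun q hq _ => ?_
    haveI := Fact.mk hq
    obtain ⟨P, hP⟩ := H1.exists_invariant_sylow F0 N hF0N hcop0 (Or.inl hsolv) q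
    refine ⟨_, ⟨P, rfl⟩, ?_⟩
    rw [← Subgroup.commutator_eq_bot_iff_le_centralizer]
    exact hno q ‹_› P hP
  haveI := hp
  obtain ⟨P', hP'⟩ : ∃ P' : Subgroup G, P' = (P : Subgroup N).map N.subtype := ⟨_, rfl⟩
  rw [← hP'] at hP hPne
  have hP'N : P' ≤ N := by rw [hP']; exact Subgroup.map_subtype_le _
  have hP'p : IsPGroup p P' := by rw [hP']; exact P.isPGroup'.map _
  -- the element g
  obtain ⟨hb, hhb⟩ := hcyc.exists_generator
  have hord : orderOf hb = m := by
    rw [hmdef]; exact orderOf_eq_card_of_forall_mem_zpowers hhb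
  obtain ⟨g0, hg0⟩ := QuotientGroup.mk'_surjective N (hb : G ⧸ N)
  obtain ⟨g, hgP, hgF, hgm⟩ : ∃ g : G, g ∈ normalizer (P' : Set G) ∧ g ∈ normalizer (F0 : Set G) ∧
      QuotientGroup.mk' N g = hb := by
    obtain ⟨n, hn, hnF⟩ := H1.sz_conj_rel N (MulAut.conj g0 • F0) F0 hF0N hcop0.symm (Or.inr hsolv)
      (H1.card_conj_smul _ _) (by
        rw [hsup]
        intro x hx
        obtain ⟨y, hy, rfl⟩ := hx
        exact hKn.conj_mem y (hF0K hy) g0)
    have hg1 : n * g0 ∈ normalizer (F0 : Set G) := by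
      rw [H1.mem_normalizer_iff_conj_smul, map_mul, mul_smul]; exact hnF
    obtain ⟨Q, hQ⟩ := H1.exists_sylow_conj F0 N hF0N p (n * g0) (by rw [Subgroup.normalizer_eq_top]; trivial) P
    obtain ⟨c, hc, hcQ⟩ := H1.invariant_sylow_conj F0 N hF0N hcop0 (Or.inl hsolv) p Q P (by
      rw [hQ, ← hP']
      intro f hf
      rw [H1.mem_normalizer_iff_conj_smul] at hg1
      rw [← hg1] at hf
      obtain ⟨f', hf', rfl⟩ := hf
      have h3 := H1.mem_normalizer_iff_conj_smul.mp (hP hf')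
      rw [H1.mem_normalizer_iff_conj_smul]
      show MulAut.conj ((n * g0) * f' * (n * g0)⁻¹) • (MulAut.conj (n * g0) • P') = _
      rw [smul_smul, ← map_mul, inv_mul_cancel_right, map_mul, mul_smul, h3]) (by rw [← hP']; exact hP)
    refine ⟨(c : G) * (n * g0), ?_, ?_, ?_⟩
    · rw [H1.mem_normalizer_iff_conj_smul, map_mul, mul_smul]
      rw [hP', ← hQ]
      have h4 := congrArg (fun S : Sylow p N => (S : Subgroup N).map N.subtype) hcQ
      exact (H1.map_subtype_smul c (Q : Subgroup N)).symm.trans h4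
    · exact mul_mem (Cfsg.Agent.S3703.cent_le_norm F0 hc) hg1
    · rw [map_mul, map_mul, hg0]
      have h5 : QuotientGroup.mk' N (c : G) = 1 := (QuotientGroup.eq_one_iff _).mpr c.2
      have h6 : QuotientGroup.mk' N n = 1 := (QuotientGroup.eq_one_iff _).mpr hn
      rw [h5, h6, one_mul, one_mul]
  -- the subgroup W = [P, F0]
  obtain ⟨W, hW⟩ : ∃ W : Subgroup G, W = ⁅P', F0⁆ := ⟨_, rfl⟩
  have hWP : W ≤ P' := by rw [hW]; exact H1.commutator_le_left_of_le_normalizer hP
  have hordg : orderOf (QuotientGroup.mk' N g) = m := by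
    rw [hgm, ← hord]; exact Subgroup.orderOf_coe hb
  have hB := coreB W F0 g m hm (by rw [hW]; exact H1.right_le_normalizer_commutator P' F0)
    (by
      rw [H1.mem_normalizer_iff_conj_smul] at hgP hgF ⊢
      rw [hW, H1.conj_smul_commutator, hgP, hgF]) hgF
    (by
      intro i hi him f hf hc
      have hfb : QuotientGroup.mk' N f ∈ Fb := by rw [← hF0map]; exact Subgroup.mem_map_of_mem _ hf
      have hf1 : QuotientGroup.mk' N f = 1 := by
        by_contra hne
        have hfb' : QuotientGroup.mk' N f ∈ Cfsg.frobeniusKernel Hb := by rw [hker]; exact hfb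
        rcases hfb' with h | h
        · exact hne h
        · have hnH : QuotientGroup.mk' N f ∉ Hb := by
            have := h 1
            rwa [map_one, one_smul] at this
          have h7 := hHb.2.2 _ hnH
          have h8 : (QuotientGroup.mk' N g) ^ i ∈ Hb ⊓ MulAut.conj (QuotientGroup.mk' N f) • Hb := by
            have h9 : (QuotientGroup.mk' N g) ^ i ∈ Hb := by rw [hgm]; exact pow_mem hb.2 i
            rw [Subgroup.mem_inf]
            refine ⟨h9, ?_⟩
            refine ⟨_, h9, ?_⟩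
            show QuotientGroup.mk' N f * (QuotientGroup.mk' N g) ^ i * (QuotientGroup.mk' N f)⁻¹ = _
            rw [← map_pow, ← map_mul, hc, map_mul, mul_inv_cancel_right]
          rw [h7, Subgroup.mem_bot] at h8
          have h10 := orderOf_dvd_of_pow_eq_one h8
          rw [hordg] at h10
          exact absurd (Nat.le_of_dvd hi h10) (by omega)
      have h3 : f ∈ N ⊓ F0 := ⟨(QuotientGroup.eq_one_iff _).mp hf1, hf⟩
      rw [hinf] at h3
      exact Subgroup.mem_bot.mp h3)
    (hY g hordg)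
    (by
      intro f hf w hw
      apply hY
      have h5 : QuotientGroup.mk' N w = 1 := (QuotientGroup.eq_one_iff _).mpr (hP'N (hWP hw))
      rw [map_mul, h5, one_mul, map_mul, map_mul, map_inv, ← hordg]
      exact orderOf_injective (MulAut.conj (QuotientGroup.mk' N f)).toMonoidHom (MulAut.conj (QuotientGroup.mk' N f)).injective _)
    (hcop0.coprime_dvd_right (Subgroup.card_dvd_of_le (hWP.trans hP'N)))
  have h11 : ⁅W, F0⁆ = W := by
    rw [hW]
    exact H1.commutator_commutator_eq F0 P' hP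
      (hcop0.coprime_dvd_right (Subgroup.card_dvd_of_le hP'N)) (Or.inl hsolv)
  rw [h11] at hB
  apply hPne
  rw [← hW]
  exact perf_bot W (hP'p.to_le hWP) hB

end Cfsg.Agent.S3703
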