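import Cfsg.Statements.S3803
import Cfsg.Agent.H23.Coprime3
import Cfsg.Agent.H18.PCore
import Cfsg.Agent.H1.Basic

set_option autoImplicit false
set_option linter.all false
open Cfsg

namespace Cfsg.Agent.S3803

open Subgroup Cfsg.Agent.H23

/-- an odd order group normalizing `⟨y⟩`, `y ^ 4 = 1`, centralizes `y` -/
theorem cent_of_pow_four {X : Type*} [Group X] [Finite X] {A : Subgroup X} (hA : Odd (Nat.card A)) {y : X} (hy : y ^ 4 = 1)
    (hn : A ≤ normalizer (zpowers y : Set X)) : y ∈ centralizer (A : Set X) := by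
  rw [mem_centralizer_iff]
  intro a ha
  have h1 : a * y * a⁻¹ ∈ zpowers y := (mem_normalizer_iff.mp (hn ha) y).mp (mem_zpowers y)
  obtain ⟨k, hk⟩ := mem_zpowers_iff.mp h1
  have hy4 : y ^ (4 : ℤ) = 1 := by exact_mod_cast hy
  have hsq : a ^ 2 * y * (a ^ 2)⁻¹ = y := by
    have e1 : a ^ 2 * y * (a ^ 2)⁻¹ = y ^ (k * k) := by
      rw [zpow_mul, hk, conj_zpow, hk, sq]
      group
    rw [e1]
    rcases Int.even_or_odd k with ⟨j, hj⟩ | ⟨j, hj⟩
    · have e2 : y ^ (k + k) = 1 := by
        rw [hj, show j + j + (j + j) = 4 * j by ring, zpow_mul, hy4, one_zpow]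
      have e3 : (a * y * a⁻¹) * (a * y * a⁻¹) = 1 := by rw [← hk, ← zpow_add, e2]
      have e4 : y * y = 1 := by
        have : a * (y * y) * a⁻¹ = 1 := by rw [← e3]; group
        rwa [mul_inv_eq_one, mul_eq_left] at this
      have e5 : y ^ k = 1 := by
        rw [hj, zpow_add, ← (Commute.refl y).mul_zpow, e4, one_zpow]
      have e6 : y = 1 := by
        rw [e5] at hk
        have := hk.symm
        rwa [mul_inv_eq_one, mul_eq_left] at this
      rw [e6, one_zpow]
    · have e2 : k * k = 4 * (j * j + j) + 1 := by rw [hj]; ring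
      rw [e2, zpow_add, zpow_mul, hy4, one_zpow, one_mul, zpow_one]
  have hcomm : Commute (a ^ 2) y := by
    rw [mul_inv_eq_iff_eq_mul] at hsq
    exact hsq
  have hodd : Odd (orderOf a) := hA.of_dvd_nat (Subgroup.orderOf_dvd_natCard A ha)
  obtain ⟨m, hm⟩ := hodd
  have ha2 : a = (a ^ 2) ^ (m + 1) := by
    rw [← pow_mul, show 2 * (m + 1) = (2 * m + 1) + 1 by ring, pow_succ, ← hm, pow_orderOf_eq_one, one_mul]
  rw [ha2]
  exact (hcomm.pow_left _).eq

theorem exists_between {X : Type*} [Group X] [Finite X] {p : ℕ} [Fact p.Prime] {S H : Subgroup X} (hHS : H ≤ S)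
    {m n : ℕ} (hS : p ^ m ∣ Nat.card S) (hH : Nat.card H = p ^ n) (hnm : n ≤ m) :
    ∃ K : Subgroup X, H ≤ K ∧ K ≤ S ∧ Nat.card K = p ^ m := by
  obtain ⟨K, hK, hHK⟩ := Sylow.exists_subgroup_card_pow_prime_le (G := S) p hS (H.subgroupOf S)
    (by rw [H1.card_subgroupOf hHS, hH]) hnm
  refine ⟨K.map S.subtype, ?_, map_subtype_le K, ?_⟩
  · intro h hh
    exact ⟨⟨h, hHS hh⟩, hHK hh, rfl⟩
  · rw [H1.card_map_subtype, hK]

/-- cyclic 2-groups are centralized -/
theorem cent_of_cyclic {X : Type*} [Group X] [Finite X] {A S : Subgroup X} (hA : Odd (Nat.card A)) (hS : IsPGroup 2 S)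
    (hc : IsCyclic S) (hn : A ≤ normalizer (S : Set X)) : S ≤ centralizer (A : Set X) := by
  refine le_centralizer_of_omega_two hS hn (Nat.coprime_two_right.mpr hA) ?_
  intro y hyS hy
  apply cent_of_pow_four hA hy
  obtain ⟨⟨g, hg⟩, hgen⟩ := hc.exists_generator
  obtain ⟨i, hi⟩ := mem_zpowers_iff.mp (hgen ⟨y, hyS⟩)
  have hi' : g ^ i = y := congrArg (fun z : S => (z : X)) hi
  apply le_normalizer_of_conj_mem
  intro a ha z hz
  have hag : a * g * a⁻¹ ∈ S := (mem_normalizer_iff.mp (hn ha) g).mp hg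
  obtain ⟨k, hk⟩ := mem_zpowers_iff.mp (hgen ⟨a * g * a⁻¹, hag⟩)
  have hk' : g ^ k = a * g * a⁻¹ := congrArg (fun z : S => (z : X)) hk
  obtain ⟨j, rfl⟩ := mem_zpowers_iff.mp hz
  refine mem_zpowers_iff.mpr ⟨k * j, ?_⟩
  rw [← conj_zpow, ← hi', ← conj_zpow, ← hk', ← zpow_mul, ← zpow_mul, ← zpow_mul]
  congr 1
  ring

/-- Let P be a 2-subgroup and A a subgroup of odd order of a finite group, with A normalizing P. Let D ≤ P with 1 < |D| < |P|. If every subgroup of P of order |D|, and also every subgroup of P of order 4 in case |D| = 2, is normalized by A, then A centralizes P. -/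
theorem result {X : Type*} [Group X] [Finite X] (P A D : Subgroup X) (hP : IsPGroup 2 P) (hA : Odd (Nat.card A))
    (hAP : A ≤ Subgroup.normalizer (P : Set X)) (hDP : D ≤ P) (hD1 : 1 < Nat.card D) (hD2 : Nat.card D < Nat.card P)
    (hinv : ∀ E : Subgroup X, E ≤ P → (Nat.card E = Nat.card D ∨ (Nat.card D = 2 ∧ Nat.card E = 4)) → A ≤ Subgroup.normalizer (E : Set X)) :
    A ≤ Subgroup.centralizer (P : Set X) := by
  classical
  haveI : Fact (Nat.Prime 2) := ⟨Nat.prime_two⟩
  obtain ⟨n, hn⟩ := hP.exists_card_eq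
  obtain ⟨d, hd⟩ := (hP.to_le hDP).exists_card_eq
  have hd1 : 1 ≤ d := by
    rcases Nat.eq_zero_or_pos d with h | h
    · rw [hd, h, pow_zero] at hD1
      exact absurd hD1 (lt_irrefl 1)
    · exact h
  have hdn : d < n := by
    rw [hd, hn] at hD2
    exact (Nat.pow_lt_pow_iff_right (by norm_num)).mp hD2
  have hA2 : (Nat.card A).Coprime 2 := Nat.coprime_two_right.mpr hA
  rw [le_centralizer_iff]
  refine le_centralizer_of_omega_two hP hAP hA2 ?_
  intro x hxP hx4
  have hxc : ∃ e ≤ 2, Nat.card (zpowers x) = 2 ^ e := by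
    rw [Nat.card_zpowers]
    have h1 : orderOf x ∣ 2 ^ 2 := orderOf_dvd_of_pow_eq_one hx4
    obtain ⟨e, he, hee⟩ := (Nat.dvd_prime_pow Nat.prime_two).mp h1
    exact ⟨e, he, hee⟩
  obtain ⟨e, he2, he⟩ := hxc
  have hxP' : zpowers x ≤ P := zpowers_le.mpr hxP
  rcases Nat.eq_or_lt_of_le hd1 with hd' | hd'
  · -- card D = 2
    have hD2 : Nat.card D = 2 := by rw [hd, ← hd', pow_one]
    apply cent_of_pow_four hA hx4
    interval_cases e
    · have h1 : zpowers x = ⊥ := by rw [← card_eq_one, he, pow_zero]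
      rw [h1]
      rw [normalizer_eq_top]
      exact le_top
    · exact hinv _ hxP' (Or.inl (by rw [he, hD2, pow_one]))
    · exact hinv _ hxP' (Or.inr ⟨hD2, by rw [he]; norm_num⟩)
  · obtain ⟨S, hxS, hSP, hS⟩ := exists_between (p := 2) (m := d + 1) hxP' (by rw [hn]; exact pow_dvd_pow 2 hdn) he (by omega)
    have hSpg : IsPGroup 2 S := hP.to_le hSP
    by_cases hcyc : IsCyclic S
    · obtain ⟨M, hxM, hMS, hM⟩ := exists_between (p := 2) (m := d) hxS (by rw [hS]; exact pow_dvd_pow 2 (by omega)) he (by omega)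
      have hMn := hinv M (hMS.trans hSP) (Or.inl (by rw [hM, hd]))
      have hMc : IsCyclic M := by
        have h1 : IsCyclic (M.subgroupOf S) := inferInstance
        exact isCyclic_of_surjective (subgroupOfEquivOfLe hMS).toMonoidHom (subgroupOfEquivOfLe hMS).surjective
      exact cent_of_cyclic hA (hSpg.to_le hMS) hMc hMn (hxM (mem_zpowers x))
    · -- two maximal subgroups
      obtain ⟨M₁, _, hM₁S, hM₁⟩ := exists_between (p := 2) (m := d) (n := 0) (bot_le : (⊥ : Subgroup X) ≤ S)
        (by rw [hS]; exact pow_dvd_pow 2 (by omega)) (by simp) (by omega)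
      obtain ⟨s, hsS, hsM⟩ : ∃ s ∈ S, s ∉ M₁ := by
        by_contra hcon
        push Not at hcon
        have h1 : S = M₁ := le_antisymm hcon hM₁S
        rw [h1, hM₁] at hS
        have := Nat.pow_right_injective (le_refl 2) hS
        omega
      have hsS' : zpowers s ≤ S := zpowers_le.mpr hsS
      obtain ⟨f, hf⟩ := (hSpg.to_le hsS').exists_card_eq
      have hfd : f ≤ d := by
        by_contra hcon
        apply hcyc
        have h1 : zpowers s = S := by
          apply eq_of_le_of_card_ge hsS'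
          rw [hS, hf]
          exact Nat.pow_le_pow_right (by norm_num) (by omega)
        rw [← h1]
        infer_instance
      obtain ⟨M₂, hsM₂, hM₂S, hM₂⟩ := exists_between (p := 2) (m := d) hsS' (by rw [hS]; exact pow_dvd_pow 2 (by omega)) hf hfd
      have hsup : M₁ ⊔ M₂ = S := by
        have hle : M₁ ⊔ M₂ ≤ S := sup_le hM₁S hM₂S
        obtain ⟨g, hg⟩ := (hSpg.to_le hle).exists_card_eq
        have h1 : d < g := by
          by_contra hcon
          have h2 : M₁ = M₁ ⊔ M₂ := by
            apply eq_of_le_of_card_ge le_sup_left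
            rw [hg, hM₁]
            exact Nat.pow_le_pow_right (by norm_num) (by omega)
          apply hsM
          rw [h2]
          exact (le_sup_right : M₂ ≤ M₁ ⊔ M₂) (hsM₂ (mem_zpowers s))
        apply eq_of_le_of_card_ge hle
        rw [hS, hg]
        exact Nat.pow_le_pow_right (by norm_num) (by omega)
      have hn1 := hinv M₁ (hM₁S.trans hSP) (Or.inl (by rw [hM₁, hd]))
      have hn2 := hinv M₂ (hM₂S.trans hSP) (Or.inl (by rw [hM₂, hd]))
      have hSn : A ≤ normalizer (S : Set X) := by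
        rw [← hsup]
        exact H18.le_normalizer_sup hn1 hn2
      have hcop : (Nat.card A).Coprime (Nat.card S) := by rw [hS]; exact hA2.pow_right _
      have hfin : S ≤ centralizer (A : Set X) := by
        refine le_centralizer_of_commutator_le_frattini hSn hcop (Or.inr (isSolvable_of_isPGroup (p := 2) hSpg)) ?_
        rw [commutator_le]
        intro t ht a ha
        have hmem : t * (a * t⁻¹ * a⁻¹) ∈ S := mul_mem ht ((mem_normalizer_iff.mp (hSn ha) t⁻¹).mp (inv_mem ht))
        refine ⟨⟨t * (a * t⁻¹ * a⁻¹), hmem⟩, ?_, by simp [commutatorElement_def, mul_assoc]⟩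
        rw [SetLike.mem_coe, frattini, Order.radical, mem_iInf]
        intro M
        rw [mem_iInf]
        intro hM
        have hMS' : M.map S.subtype ≤ S := map_subtype_le M
        obtain ⟨g, hg⟩ := (hSpg.to_le hMS').exists_card_eq
        have hgd : g ≤ d := by
          by_contra hcon
          apply hM.1
          have h1 : M.map S.subtype = S := by
            apply eq_of_le_of_card_ge hMS'
            rw [hS, hg]
            exact Nat.pow_le_pow_right (by norm_num) (by omega)
          rw [eq_top_iff]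
          intro z _
          have h2 : (z : X) ∈ M.map S.subtype := by rw [h1]; exact z.2
          obtain ⟨z', hz', hzz⟩ := h2
          rwa [Subtype.ext hzz] at hz'
        obtain ⟨K, hMK, hKS, hK⟩ := exists_between (p := 2) (m := d) hMS' (by rw [hS]; exact pow_dvd_pow 2 (by omega)) hg hgd
        have hKM : K = M.map S.subtype := by
          have h1 : M ≤ K.subgroupOf S := by
            intro z hz
            exact hMK (mem_map_of_mem S.subtype hz)
          have h2 : K.subgroupOf S ≠ ⊤ := by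
            intro h
            have h3 : Nat.card (K.subgroupOf S) = Nat.card S := by rw [h]; simp
            rw [H1.card_subgroupOf hKS, hK, hS] at h3
            have := Nat.pow_right_injective (le_refl 2) h3
            omega
          have h3 : M = K.subgroupOf S := by
            by_contra hne
            exact h2 (hM.2 _ (lt_of_le_of_ne h1 hne))
          rw [h3, map_subgroupOf_eq_of_le hKS]
        have hMcard : Nat.card (M.map S.subtype) = 2 ^ d := by rw [← hKM, hK]
        have hMn := hinv (M.map S.subtype) (hMS'.trans hSP) (Or.inl (by rw [hMcard, hd]))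
        have hidx : M.index = 2 := by
          have h1 := M.card_mul_index
          rw [← H1.card_map_subtype M, hMcard, hS, pow_succ] at h1
          exact Nat.eq_of_mul_eq_mul_left (by positivity) h1
        have hconj : ∀ z : S, ∀ hz : a * (z : X) * a⁻¹ ∈ S, (⟨a * (z : X) * a⁻¹, hz⟩ : S) ∈ M ↔ z ∈ M := by
          intro z hz
          have h1 : a * (z : X) * a⁻¹ ∈ M.map S.subtype ↔ (z : X) ∈ M.map S.subtype :=
            (mem_normalizer_iff.mp (hMn ha) z).symm
          constructor
          · intro h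
            obtain ⟨z', hz', hzz⟩ := h1.mp ⟨_, h, rfl⟩
            rwa [Subtype.ext hzz] at hz'
          · intro h
            obtain ⟨z', hz', hzz⟩ := h1.mpr ⟨_, h, rfl⟩
            rwa [show z' = ⟨a * (z : X) * a⁻¹, hz⟩ from Subtype.ext hzz] at hz'
        have hat : a * t⁻¹ * a⁻¹ ∈ S := (mem_normalizer_iff.mp (hSn ha) t⁻¹).mp (inv_mem ht)
        have h5 : (⟨t * (a * t⁻¹ * a⁻¹), hmem⟩ : S) = ⟨t, ht⟩ * ⟨a * t⁻¹ * a⁻¹, hat⟩ := rfl
        rw [h5, mul_mem_iff_of_index_two hidx]
        have h6 := hconj ⟨t⁻¹, inv_mem ht⟩ hat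
        rw [h6, show (⟨t⁻¹, inv_mem ht⟩ : S) = (⟨t, ht⟩ : S)⁻¹ from rfl, inv_mem_iff]
      exact hfin (hxS (mem_zpowers x))

end Cfsg.Agent.S3803
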