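import Cfsg.Statements.S3805
import Cfsg.Agent.H4.TF
import Cfsg.Agent.H4.TG

set_option autoImplicit false
open Cfsg

namespace Cfsg.Agent.S3805

theorem aux {G : Type*} [Group G] [Finite G] (T N : Subgroup G)
    (hab : IsMulCommutative T) (hexp : ∀ t ∈ T, t ^ 3 = 1) (hcard : Nat.card T = 9)
    (hC : Subgroup.centralizer (T : Set G) = T) (hNdef : N = Subgroup.normalizer (T : Set G))
    (hn : (T.subgroupOf N).Normal) (hK : IsKleinFour (↥N ⧸ T.subgroupOf N))
    (hloc : ∀ t ∈ T, t ≠ 1 → Subgroup.centralizer ({t} : Set G) ≤ N) : N = ⊤ := by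
  haveI := Fintype.ofFinite G
  have hcomm : ∀ x ∈ T, ∀ y ∈ T, x * y = y * x := by
    intro x hx y hy
    have := hab.is_comm.comm ⟨x, hx⟩ ⟨y, hy⟩
    exact congrArg Subtype.val this
  have hTN : T ≤ N := by rw [hNdef]; exact Subgroup.le_normalizer
  have hcT : Nat.card (T.subgroupOf N) = 9 := by
    rw [Nat.card_congr (Subgroup.subgroupOfEquivOfLe hTN).toEquiv]; exact hcard
  have hcN : Nat.card N = 36 := by
    have h1 := Subgroup.card_eq_card_quotient_mul_card_subgroup (T.subgroupOf N)
    rw [hcT, hK.card_four] at h1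
    exact h1
  obtain ⟨φ⟩ := Cfsg.Agent.H4.TF.iso_core (T.subgroupOf N) hcT
    (fun t ht => Subtype.ext (by
      have := hexp t (Subgroup.mem_subgroupOf.mp ht); simpa using this))
    (fun x hx y hy => Subtype.ext (hcomm x (Subgroup.mem_subgroupOf.mp hx) y
      (Subgroup.mem_subgroupOf.mp hy)))
    (fun x hx => by
      rw [Subgroup.mem_subgroupOf]
      have h1 : (x : G) ∈ Subgroup.centralizer (T : Set G) := by
        rw [Subgroup.mem_centralizer_iff]
        intro t ht
        have := hx ⟨t, hTN ht⟩ (Subgroup.mem_subgroupOf.mpr ht)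
        exact (congrArg Subtype.val this).symm
      rw [hC] at h1
      exact h1) hcN
    (fun x => by
      rw [← QuotientGroup.eq_one_iff, QuotientGroup.mk_pow]
      have h1 := hK.exponent_two
      have h2 := Monoid.pow_exponent_eq_one (QuotientGroup.mk x : ↥N ⧸ T.subgroupOf N)
      rw [h1] at h2
      exact h2)
  exact Cfsg.Agent.H4.TG.Setting.top (T := T) (φ := φ)
    ⟨hTN, hcard, hNdef.symm, hloc⟩

/-- Let G be a finite group whose Sylow 3-subgroup T is elementary abelian of order 9 and self-centralizing, with N_G(T)/T a Klein four-group, and suppose that the centralizer of every nonidentity element of T lies in N_G(T). Then T is normal in G. -/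
theorem result {G : Type*} [Group G] [Finite G]
    (T : Sylow 3 G) (hT : Cfsg.IsElementaryAbelian 3 (T : Subgroup G)) (hcard : Nat.card T = 9)
    (hC : Subgroup.centralizer ((T : Subgroup G) : Set G) = T)
    [hn : ((T : Subgroup G).subgroupOf (Subgroup.normalizer ((T : Subgroup G) : Set G))).Normal]
    (hK : IsKleinFour (↥(Subgroup.normalizer ((T : Subgroup G) : Set G)) ⧸
      (T : Subgroup G).subgroupOf (Subgroup.normalizer ((T : Subgroup G) : Set G))))
    (hloc : ∀ t ∈ (T : Subgroup G), t ≠ 1 →
      Subgroup.centralizer ({t} : Set G) ≤ Subgroup.normalizer ((T : Subgroup G) : Set G)) :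
    Subgroup.normalizer ((T : Subgroup G) : Set G) = ⊤ := by
  exact aux (T : Subgroup G) _ hT.1 hT.2 hcard hC rfl hn hK hloc

end Cfsg.Agent.S3805
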