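import Cfsg.Statements.S3815
import Cfsg.Agent.H1.Cores

set_option autoImplicit false
set_option linter.all false
open Cfsg

namespace Cfsg.Agent.S3815

section aux
open Subgroup

theorem aux {G : Type*} [Group G] [Finite G] {p : ℕ} [Fact p.Prime]
    (d : G) (hd : (orderOf d).Coprime p)
    (h : ∀ g : G, (orderOf g).Coprime p → (orderOf (d * g)).Coprime p) :
    d ∈ Cfsg.pPrimeCore p G := by
  let S : Subsemigroup G :=
    { carrier := {x | ∀ g : G, (orderOf g).Coprime p → (orderOf (x * g)).Coprime p}
      mul_mem' := by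
        intro a b ha hb g hg
        rw [mul_assoc]
        exact ha _ (hb g hg) }
  have hmem : ∀ x : G, x ∈ S ↔ ∀ g : G, (orderOf g).Coprime p → (orderOf (x * g)).Coprime p :=
    fun x => Iff.rfl
  have h1S : (1 : G) ∈ S := by
    rw [hmem]; intro g hg; rwa [one_mul]
  have hpow : ∀ (x : G) (n : ℕ), x ∈ S → x ^ n ∈ S := by
    intro x n hx
    induction n with
    | zero => rw [pow_zero]; exact h1S
    | succ n ih => rw [pow_succ]; exact S.mul_mem ih hx
  let D : Subgroup G :=
    { carrier := {x | x ∈ S}
      mul_mem' := fun ha hb => S.mul_mem ha hb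
      one_mem' := h1S
      inv_mem' := by
        intro x hx
        have : x⁻¹ = x ^ (orderOf x - 1) := by
          rw [inv_eq_of_mul_eq_one_right]
          rw [← pow_succ', Nat.sub_add_cancel (orderOf_pos x), pow_orderOf_eq_one]
        show x⁻¹ ∈ S
        rw [this]
        exact hpow x _ hx }
  have hord : ∀ x g : G, orderOf (g * x * g⁻¹) = orderOf x := by
    intro x g
    have := orderOf_injective (MulAut.conj g).toMonoidHom (MulAut.conj g).injective x
    simpa using this
  have hDn : D.Normal := by
    refine ⟨fun x hx y => ?_⟩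
    show y * x * y⁻¹ ∈ S
    rw [hmem]
    intro g hg
    have h2 : y * x * y⁻¹ * g = y * (x * (y⁻¹ * g * y⁻¹⁻¹)) * y⁻¹ := by group
    rw [h2, hord]
    apply (hmem x).mp hx
    rw [hord]; exact hg
  have hDc : (Nat.card D).Coprime p := by
    rw [Nat.coprime_comm, (Fact.out : p.Prime).coprime_iff_not_dvd]
    intro hd
    obtain ⟨x, hx⟩ := exists_prime_orderOf_dvd_card' p hd
    have h3 := (hmem (x : G)).mp x.2 1 (by rw [orderOf_one]; exact Nat.coprime_one_left p)
    rw [mul_one, Subgroup.orderOf_coe, hx] at h3
    exact (Fact.out : p.Prime).one_lt.ne' ((Nat.coprime_self p).mp h3)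
  exact H1.le_pPrimeCore hDn hDc (show d ∈ S from (hmem d).mpr h)

end aux

/-- Let G be a finite group, p a prime and d ∈ G an element of order prime to p. If dg has order prime to p for every element g ∈ G of order prime to p, then d ∈ O_{p'}(G). -/
theorem result {G : Type*} [Group G] [Finite G] {p : ℕ} [Fact p.Prime]
    (d : G) (hd : (orderOf d).Coprime p)
    (h : ∀ g : G, (orderOf g).Coprime p → (orderOf (d * g)).Coprime p) :
    d ∈ Cfsg.pPrimeCore p G := by
  exact aux d hd h

end Cfsg.Agent.S3815
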