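import Cfsg.Statements.S3816
import Cfsg.Agent.H23.Flav5

set_option autoImplicit false
set_option linter.all false
open Cfsg

namespace Cfsg.Agent.S3816

open Subgroup
open scoped commutatorElement Pointwise

theorem aux {H : Type*} [Group H] [Finite H] [Group.IsSolvable H] {p : ℕ} [Fact p.Prime] (hp : p ≠ 2)
    (hcop : (Nat.card H).Coprime p) (x : MulAut H) (hx : orderOf x = p) :
    Subgroup.closure {c : H | ∃ h : H, ∃ i : ℕ, c = h⁻¹ * (x ^ i) h} ⊓ (x : H →* H).eqLocus (MonoidHom.id H) ≤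
      ⨆ h : H, Subgroup.closure {c : H | ∃ i : ℕ, c = h⁻¹ * (x ^ i) h} ⊓ (x : H →* H).eqLocus (MonoidHom.id H) := by
  have hpp : p.Prime := Fact.out
  haveI hfz : Finite (zpowers x) := Nat.finite_of_card_ne_zero (by rw [Nat.card_zpowers, hx]; exact hpp.ne_zero)
  let φ : zpowers x →* MulAut H := (zpowers x).subtype
  haveI hfX : Finite (H ⋊[φ] (zpowers x)) := Finite.of_equiv _ (SemidirectProduct.equivProd (φ := φ)).symm
  let ι : H →* H ⋊[φ] (zpowers x) := SemidirectProduct.inl
  have hι : Function.Injective ι := SemidirectProduct.inl_injective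
  let y : zpowers x := ⟨x, mem_zpowers x⟩
  let g : H ⋊[φ] (zpowers x) := SemidirectProduct.inr y
  have hg : ∀ (i : ℕ) (h : H), g ^ i * ι h * (g ^ i)⁻¹ = ι ((x ^ i) h) := by
    intro i h
    have h1 : (x ^ i) = φ (y ^ i) := by rw [map_pow]; rfl
    rw [h1]
    have h2 := SemidirectProduct.inl_aut (φ := φ) (y ^ i) h
    change _ = SemidirectProduct.inl (φ (y ^ i) h)
    rw [h2]
    change (SemidirectProduct.inr y) ^ i * SemidirectProduct.inl h * ((SemidirectProduct.inr y) ^ i)⁻¹ = _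
    rw [← map_pow, ← map_inv]
  have hg1 : ∀ h : H, g * ι h * g⁻¹ = ι (x h) := by
    intro h
    have := hg 1 h
    rwa [pow_one, pow_one] at this
  have hgp : g ^ p = 1 := by
    change (SemidirectProduct.inr y) ^ p = 1
    rw [← map_pow]
    have : y ^ p = 1 := Subtype.ext (by
      change x ^ p = 1
      rw [← hx]; exact pow_orderOf_eq_one x)
    rw [this, map_one]
  have hcard : Nat.card ι.range = Nat.card H := Nat.card_congr (MonoidHom.ofInjective hι).symm.toEquiv
  haveI hsol : Group.IsSolvable ι.range := Group.isSolvable_of_surjective ι.rangeRestrict_surjective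
  have hn : zpowers g ≤ normalizer (ι.range : Set (H ⋊[φ] (zpowers x))) := by
    apply H23.FX.norm_of
    rintro _ ⟨h, rfl⟩
    rw [hg1]
    exact ⟨_, rfl⟩
  have hmain := H23.FX.main p hp _ (H ⋊[φ] (zpowers x)) g ι.range rfl hgp hn (by rw [hcard]; exact hcop) hsol
  have hle : H23.FX.Dg g ι.range ≤ (⨆ h : H, Subgroup.closure {c : H | ∃ i : ℕ, c = h⁻¹ * (x ^ i) h} ⊓
      (x : H →* H).eqLocus (MonoidHom.id H)).map ι := by
    unfold H23.FX.Dg
    apply iSup_le
    rintro ⟨_, h, rfl⟩ c' hc'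
    obtain ⟨h1, h2⟩ := mem_inf.mp hc'
    have h3 : H23.FX.cm g (ι h) = (Subgroup.closure {c : H | ∃ i : ℕ, c = h⁻¹ * (x ^ i) h}).map ι := by
      unfold H23.FX.cm
      rw [MonoidHom.map_closure]
      congr 1
      ext c
      constructor
      · rintro ⟨i, rfl⟩
        exact ⟨_, ⟨i, rfl⟩, by rw [hg, map_mul, map_inv]⟩
      · rintro ⟨_, ⟨i, rfl⟩, rfl⟩
        exact ⟨i, by rw [hg, map_mul, map_inv]⟩
    change c' ∈ H23.FX.cm g (ι h) at h1
    rw [h3] at h1
    obtain ⟨c, hc, rfl⟩ := h1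
    refine mem_map_of_mem ι (mem_iSup_of_mem h (mem_inf.mpr ⟨hc, ?_⟩))
    rw [H23.FX.memC] at h2
    have h4 := hg1 c
    have h5 : g * ι c * g⁻¹ = ι c := by
      rw [← h2.eq, mul_inv_cancel_right]
    exact hι (h4.symm.trans h5)
  intro a ha
  obtain ⟨ha1, ha2⟩ := mem_inf.mp ha
  have ha3 : x a = a := ha2
  have h6 : ι a ∈ ⁅ι.range, zpowers g⁆ := by
    have : Subgroup.closure {c : H | ∃ h : H, ∃ i : ℕ, c = h⁻¹ * (x ^ i) h} ≤ (⁅ι.range, zpowers g⁆).comap ι := by
      rw [closure_le]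
      rintro _ ⟨h, i, rfl⟩
      change ι (h⁻¹ * (x ^ i) h) ∈ ⁅ι.range, zpowers g⁆
      rw [map_mul, map_inv, ← hg]
      exact H23.FX.cm_le (x := g) (h := ι h) (H := ι.range) ⟨h, rfl⟩ (H23.FX.gen_mem_cm g (ι h) i)
    exact this ha1
  have h7 : ι a ∈ centralizer (zpowers g : Set (H ⋊[φ] (zpowers x))) := by
    rw [H23.FX.memC]
    have h8 := hg1 a
    rw [ha3] at h8
    change ι a * g = g * ι a
    have h9 : g * ι a * g⁻¹ * g = ι a * g := by rw [h8]
    rw [← h9, inv_mul_cancel_right]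
  obtain ⟨b, hb, hab⟩ := hle (hmain (mem_inf.mpr ⟨h6, h7⟩))
  rw [← hι hab]
  exact hb


/-- Let p be an odd prime, H a finite solvable group of order prime to p, and x an automorphism of H of order p (so P = ⟨x⟩ has prime order p > 2 and acts coprimely on H). For h ∈ H let [h, P] be the subgroup generated by the commutators h⁻¹·xⁱ(h), and let [H, P] be the subgroup generated by all of these. Then the fixed points of x in [H, P] are generated by the fixed points of x in the subgroups [h, P], h ∈ H. -/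
theorem result {H : Type*} [Group H] [Finite H]
    [Group.IsSolvable H] {p : ℕ} [Fact p.Prime] (hp : p ≠ 2) (hcop : (Nat.card H).Coprime p)
    (x : MulAut H) (hx : orderOf x = p) :
    Subgroup.closure {c : H | ∃ h : H, ∃ i : ℕ, c = h⁻¹ * (x ^ i) h} ⊓ (x : H →* H).eqLocus (MonoidHom.id H) =
      ⨆ h : H, Subgroup.closure {c : H | ∃ i : ℕ, c = h⁻¹ * (x ^ i) h} ⊓ (x : H →* H).eqLocus (MonoidHom.id H) := by
  apply le_antisymm
  · exact aux hp hcop x hx
  · apply iSup_le
    intro h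
    refine inf_le_inf_right _ (Subgroup.closure_mono ?_)
    rintro _ ⟨i, rfl⟩
    exact ⟨h, i, rfl⟩

end Cfsg.Agent.S3816
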