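import Cfsg.Statements.S3819
import Cfsg.Agent.H23.PPO

set_option autoImplicit false
set_option linter.all false
open Cfsg

namespace Cfsg.Agent.S3819

open Subgroup Cfsg.Agent.H23

theorem centralizer_zpowers_eq {G : Type*} [Group G] (w : G) :
    centralizer (zpowers w : Set G) = centralizer ({w} : Set G) := by
  apply le_antisymm
  · intro x hx
    exact mem_centralizer_singleton_iff.mpr (mem_centralizer_iff.mp hx w (mem_zpowers w)).symm
  · intro x hx
    rw [mem_centralizer_iff]
    intro y hy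
    obtain ⟨k, rfl⟩ := mem_zpowers_iff.mp hy
    have h : Commute w x := (mem_centralizer_singleton_iff.mp hx).symm
    exact (h.zpow_left k).eq

/-- Let G be a finite group with Sylow p-subgroup P and H = O_{p'}(G), and suppose G = PH and the commutator subgroup [H, P] is solvable. Let q be a prime and z an element of q-power order of C_H(P). Then (O_{q'}(C_H(z)) ∩ O_{q'}(C_H(P))) · [O_{q'}(C_H(z)), P] ≤ O_{q'}(H). -/
theorem result {G : Type*} [Group G] [Finite G] {p : ℕ} [Fact p.Prime]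
    (P : Sylow p G) (hPH : Cfsg.pPrimeCore p G ⊔ (P : Subgroup G) = ⊤)
    (hsol : Group.IsSolvable ↥⁅Cfsg.pPrimeCore p G, (P : Subgroup G)⁆)
    {q : ℕ} [Fact q.Prime] (z : G) (hzH : z ∈ Cfsg.pPrimeCore p G) (hzP : z ∈ Subgroup.centralizer ((P : Subgroup G) : Set G))
    (hz : ∃ k : ℕ, orderOf z = q ^ k) :
    ((Cfsg.pPrimeCore q ↥(Cfsg.pPrimeCore p G ⊓ Subgroup.centralizer ({z} : Set G))).map
        (Cfsg.pPrimeCore p G ⊓ Subgroup.centralizer ({z} : Set G)).subtype ⊓
      (Cfsg.pPrimeCore q ↥(Cfsg.pPrimeCore p G ⊓ Subgroup.centralizer ((P : Subgroup G) : Set G))).map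
        (Cfsg.pPrimeCore p G ⊓ Subgroup.centralizer ((P : Subgroup G) : Set G)).subtype) ⊔
    ⁅(Cfsg.pPrimeCore q ↥(Cfsg.pPrimeCore p G ⊓ Subgroup.centralizer ({z} : Set G))).map
        (Cfsg.pPrimeCore p G ⊓ Subgroup.centralizer ({z} : Set G)).subtype, (P : Subgroup G)⁆ ≤
    (Cfsg.pPrimeCore q ↥(Cfsg.pPrimeCore p G)).map (Cfsg.pPrimeCore p G).subtype := by
  classical
  change (ppo q (Cfsg.pPrimeCore p G ⊓ centralizer ({z} : Set G)) ⊓ ppo q (Cfsg.pPrimeCore p G ⊓ centralizer ((P : Subgroup G) : Set G))) ⊔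
    ⁅ppo q (Cfsg.pPrimeCore p G ⊓ centralizer ({z} : Set G)), (P : Subgroup G)⁆ ≤ ppo q (Cfsg.pPrimeCore p G)
  set H := Cfsg.pPrimeCore p G with hH
  have hHc : (Nat.card H).Coprime p := H1.pPrimeCore_coprime p G
  haveI hHn : H.Normal := inferInstance
  set N := ppo q H with hN
  have hNH : N ≤ H := ppo_le
  haveI hNn : N.Normal := by
    rw [← normalizer_eq_top_iff, eq_top_iff]
    have h1 := normalizer_le_normalizer_ppo (q := q) (K := H)
    rw [normalizer_eq_top] at h1
    exact h1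
  set f := QuotientGroup.mk' N with hf
  have hfs : Function.Surjective f := QuotientGroup.mk'_surjective N
  have hzq : IsPGroup q (zpowers z) := by
    obtain ⟨k, hk⟩ := hz
    exact IsPGroup.iff_card.mpr ⟨k, by rw [Nat.card_zpowers, hk]⟩
  have hNq : (Nat.card N).Coprime q := ppo_coprime
  have hc1 : (Nat.card (zpowers z)).Coprime (Nat.card N) := by
    obtain ⟨k, hk⟩ := hz
    rw [Nat.card_zpowers, hk]
    exact (hNq.pow_right k).symm
  have hc2 : (Nat.card (P : Subgroup G)).Coprime (Nat.card N) := by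
    obtain ⟨k, hk⟩ := P.isPGroup'.exists_card_eq
    rw [hk]
    exact ((Nat.Coprime.coprime_dvd_left (card_dvd_of_le hNH) hHc).pow_right k).symm
  have hmap : ⁅H, (P : Subgroup G)⁆.map f = ⁅H.map f, (P : Subgroup G).map f⁆ := map_commutator _ _ _
  haveI hn' : (H.map f).Normal := hHn.map f hfs
  obtain ⟨h1, h2⟩ := ppo_core (p := p) (q := q) ((P : Subgroup G).map f) (H.map f) (P.isPGroup'.map f)
    (Nat.Coprime.coprime_dvd_left (card_map_dvd _ _) hHc)
    (by rw [← Subgroup.map_sup, hPH, map_top_of_surjective f hfs])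
    (by
      rw [← hmap]
      exact solvable_of_surjective (f := (f.subgroupMap ⁅H, (P : Subgroup G)⁆)) (f.subgroupMap_surjective _))
    (f z) (mem_map_of_mem f hzH)
    (by
      rw [mem_centralizer_iff]
      rintro _ ⟨a, ha, rfl⟩
      rw [← map_mul, ← map_mul, mem_centralizer_iff.mp hzP a ha])
    (by rw [← MonoidHom.map_zpowers]; exact hzq.map f)
    (ppo_map_eq_bot hN.symm)
  have e1 : (H ⊓ centralizer ({z} : Set G)).map f = H.map f ⊓ centralizer ({f z} : Set (G ⧸ N)) := by
    have h3 := map_inf_centralizer (A := zpowers z) (G := H) (N := N) hc1 (Or.inl inferInstance) hNH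
    rw [centralizer_zpowers_eq, MonoidHom.map_zpowers, centralizer_zpowers_eq] at h3
    exact h3
  have e2 : (H ⊓ centralizer ((P : Subgroup G) : Set G)).map f = H.map f ⊓ centralizer (((P : Subgroup G).map f : Subgroup (G ⧸ N)) : Set (G ⧸ N)) :=
    map_inf_centralizer (A := (P : Subgroup G)) (G := H) (N := N) hc2
      (Or.inl (isSolvable_of_isPGroup (p := p) P.isPGroup')) hNH
  have e3 : (ppo q (H ⊓ centralizer ({z} : Set G))).map f ≤ ppo q (H.map f ⊓ centralizer ({f z} : Set (G ⧸ N))) := by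
    rw [← e1]; exact map_ppo_le f
  have e4 : (ppo q (H ⊓ centralizer ((P : Subgroup G) : Set G))).map f ≤
      ppo q (H.map f ⊓ centralizer (((P : Subgroup G).map f : Subgroup (G ⧸ N)) : Set (G ⧸ N))) := by
    rw [← e2]; exact map_ppo_le f
  refine sup_le ?_ ?_
  · intro x hx
    have h3 : f x ∈ (⊥ : Subgroup (G ⧸ N)) := by
      rw [← h2]
      exact ⟨e3 (mem_map_of_mem f hx.1), e4 (mem_map_of_mem f hx.2)⟩
    rw [mem_bot] at h3
    exact (QuotientGroup.eq_one_iff x).mp h3
  · intro x hx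
    have h3 : f x ∈ (⊥ : Subgroup (G ⧸ N)) := by
      rw [← h1]
      refine commutator_mono e3 le_rfl ?_
      rw [← map_commutator]
      exact mem_map_of_mem f hx
    rw [mem_bot] at h3
    exact (QuotientGroup.eq_one_iff x).mp h3

end Cfsg.Agent.S3819
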