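import Cfsg.Statements.S3820

set_option autoImplicit false
set_option linter.all false
open Cfsg

namespace Cfsg.Agent.S3820

section aux
open Subgroup

theorem mem_norm_iff {G : Type*} [Group G] {H : Subgroup G} {n : G} :
    n ∈ normalizer (H : Set G) ↔ H.map (MulAut.conj n).toMonoidHom = H :=
  Subgroup.mem_normalizer_iff_map_conj_eq

theorem map_conj_mul {G : Type*} [Group G] (H : Subgroup G) (a b : G) :
    H.map (MulAut.conj (a * b)).toMonoidHom =
      (H.map (MulAut.conj b).toMonoidHom).map (MulAut.conj a).toMonoidHom := by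
  rw [Subgroup.map_map]; congr 1; ext x; simp [mul_assoc]

theorem map_conj_of_mem_normalizer {G : Type*} [Group G] {H : Subgroup G} {n : G}
    (hn : n ∈ normalizer (H : Set G)) : H.map (MulAut.conj n).toMonoidHom = H :=
  Subgroup.mem_normalizer_iff_map_conj_eq.mp hn

theorem aux {G : Type*} [Group G] [Finite G] (S H : Subgroup G) (hSH : S ≤ H)
    (hS : Cfsg.IsPronormal S) :
    Cfsg.IsPronormal H ↔
      ∀ g ∈ Subgroup.normalizer (S : Set G), ∃ w ∈ H ⊔ H.map (MulAut.conj g).toMonoidHom,
        H.map (MulAut.conj g).toMonoidHom = H.map (MulAut.conj w).toMonoidHom := by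
  constructor
  · intro h g _; exact h g
  · intro h g
    obtain ⟨w, hw, hwS⟩ := hS g
    set J := H ⊔ H.map (MulAut.conj g).toMonoidHom with hJ
    have hwJ : w ∈ J := (sup_le_sup hSH (map_mono hSH)) hw
    have hn : w⁻¹ * g ∈ normalizer (S : Set G) := by
      rw [mem_norm_iff, map_conj_mul, hwS, ← map_conj_mul, inv_mul_cancel]
      ext x; simp
    obtain ⟨u, hu, hug⟩ := h _ hn
    have hJw : ∀ K : Subgroup G, K ≤ J → K.map (MulAut.conj w⁻¹).toMonoidHom ≤ J := by
      rintro K hK _ ⟨k, hk, rfl⟩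
      show w⁻¹ * k * w⁻¹⁻¹ ∈ J
      exact mul_mem (mul_mem (inv_mem hwJ) (hK hk)) (inv_mem (inv_mem hwJ))
    have huJ : u ∈ J := by
      refine (sup_le le_sup_left ?_ : H ⊔ H.map (MulAut.conj (w⁻¹ * g)).toMonoidHom ≤ J) hu
      rw [map_conj_mul]
      exact hJw _ le_sup_right
    refine ⟨w * u, mul_mem hwJ huJ, ?_⟩
    rw [map_conj_mul, ← hug, ← map_conj_mul]
    congr 3
    group

end aux

/-- Call a subgroup H of G pronormal if H and gHg⁻¹ are conjugate inside ⟨H, gHg⁻¹⟩ for every g ∈ G. Let S ≤ H ≤ G be subgroups of a finite group with S pronormal in G (for instance S a Sylow subgroup). Then H is pronormal in G if and only if H and gHg⁻¹ are conjugate inside ⟨H, gHg⁻¹⟩ for every g ∈ N_G(S). In particular H is pronormal whenever N_G(S) ≤ H. -/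
theorem result {G : Type*} [Group G] [Finite G] (S H : Subgroup G) (hSH : S ≤ H)
    (hS : Cfsg.IsPronormal S) :
    Cfsg.IsPronormal H ↔
      ∀ g ∈ Subgroup.normalizer (S : Set G), ∃ w ∈ H ⊔ H.map (MulAut.conj g).toMonoidHom,
        H.map (MulAut.conj g).toMonoidHom = H.map (MulAut.conj w).toMonoidHom := by
  exact aux S H hSH hS

end Cfsg.Agent.S3820
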