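import Cfsg.Statements.S3821

set_option autoImplicit false
set_option linter.all false
open Cfsg

namespace Cfsg.Agent.S3821

section aux
open Subgroup

theorem mem_norm_iff {G : Type*} [Group G] {H : Subgroup G} {n : G} :
    n ∈ normalizer (H : Set G) ↔ H.map (MulAut.conj n).toMonoidHom = H :=
  Subgroup.mem_normalizer_iff_map_conj_eq

theorem map_conj_mul {G : Type*} [Group G] (H : Subgroup G) (a b : G) :
    H.map (MulAut.conj (a * b)).toMonoidHom =
      (H.map (MulAut.conj b).toMonoidHom).map (MulAut.conj a).toMonoidHom := by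
  rw [Subgroup.map_map]; congr 1; ext x; simp [mul_assoc]

theorem map_sub {G : Type*} [Group G] {A H : Subgroup G} (hHA : H ≤ A) (a : A) :
    ((H.subgroupOf A).map (MulAut.conj a).toMonoidHom).map A.subtype =
      H.map (MulAut.conj (a : G)).toMonoidHom := by
  conv_rhs => rw [← map_subgroupOf_eq_of_le hHA]
  rw [Subgroup.map_map, Subgroup.map_map]
  congr 1

theorem aux {G : Type*} [Group G] [Finite G] (A H : Subgroup G) [A.Normal] (hHA : H ≤ A) :
    Cfsg.IsPronormal H ↔ (Cfsg.IsPronormal (H.subgroupOf A) ∧ A ⊔ Subgroup.normalizer (H : Set G) = ⊤) := by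
  have hmapA : ∀ g : G, H.map (MulAut.conj g).toMonoidHom ≤ A := by
    rintro g _ ⟨h, hh, rfl⟩
    exact (inferInstance : A.Normal).conj_mem h (hHA hh) g
  constructor
  · intro h
    constructor
    · intro a
      obtain ⟨w, hw, hwH⟩ := h (a : G)
      have hwA : w ∈ A := (sup_le hHA (hmapA _)) hw
      refine ⟨⟨w, hwA⟩, ?_, ?_⟩
      · have h1 : ((⟨w, hwA⟩ : A) : G) ∈ (H.subgroupOf A ⊔ (H.subgroupOf A).map (MulAut.conj a).toMonoidHom).map A.subtype := by
          rw [Subgroup.map_sup, map_sub hHA, map_subgroupOf_eq_of_le hHA]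
          exact hw
        obtain ⟨x, hx, hxw⟩ := h1
        have : x = ⟨w, hwA⟩ := Subtype.ext hxw
        rw [← this]; exact hx
      · apply Subgroup.map_injective A.subtype_injective
        rw [map_sub hHA, map_sub hHA]
        exact hwH
    · rw [eq_top_iff]
      intro g _
      obtain ⟨w, hw, hwH⟩ := h g
      have hwA : w ∈ A := (sup_le hHA (hmapA _)) hw
      have hn : w⁻¹ * g ∈ normalizer (H : Set G) := by
        rw [mem_norm_iff, map_conj_mul, hwH, ← map_conj_mul, inv_mul_cancel]
        ext x; simp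
      have : g = w * (w⁻¹ * g) := by group
      rw [this]
      exact mul_mem (mem_sup_left hwA) (mem_sup_right hn)
  · rintro ⟨h1, h2⟩ g
    have hg : g ∈ A ⊔ normalizer (H : Set G) := h2 ▸ mem_top g
    rw [Subgroup.mem_sup_of_normal_left] at hg
    obtain ⟨a, ha, n, hn, rfl⟩ := hg
    have e1 : H.map (MulAut.conj (a * n)).toMonoidHom = H.map (MulAut.conj a).toMonoidHom := by
      rw [map_conj_mul, mem_norm_iff.mp hn]
    rw [e1]
    obtain ⟨w, hw, hwH⟩ := h1 ⟨a, ha⟩
    refine ⟨(w : G), ?_, ?_⟩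
    · have h3 : (w : G) ∈ (H.subgroupOf A ⊔ (H.subgroupOf A).map (MulAut.conj (⟨a, ha⟩ : A)).toMonoidHom).map A.subtype :=
        ⟨w, hw, rfl⟩
      rw [Subgroup.map_sup, map_sub hHA, map_subgroupOf_eq_of_le hHA] at h3
      exact h3
    · have h4 := congrArg (Subgroup.map A.subtype) hwH
      rw [map_sub hHA, map_sub hHA] at h4
      exact h4

end aux

/-- Let A be a normal subgroup of the finite group G and H a subgroup of A. Then H is pronormal in G (H and gHg⁻¹ conjugate inside ⟨H, gHg⁻¹⟩ for every g ∈ G) if and only if H is pronormal in A and G = A · N_G(H). -/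
theorem result {G : Type*} [Group G] [Finite G] (A H : Subgroup G) [A.Normal] (hHA : H ≤ A) :
    Cfsg.IsPronormal H ↔ (Cfsg.IsPronormal (H.subgroupOf A) ∧ A ⊔ Subgroup.normalizer (H : Set G) = ⊤) := by
  exact aux A H hHA

end Cfsg.Agent.S3821
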