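import Cfsg.Statements.S3825
import Mathlib.GroupTheory.FixedPointFree

set_option autoImplicit false
open Cfsg

namespace Cfsg.Agent.S3825

/-- Let U be a subgroup of a finite group H and w an involution of H normalizing U and commuting with exactly two elements of U, the identity and y. If V is a non-cyclic elementary abelian 2-subgroup of U containing y which is normal in U and invariant under w, then V is a Sylow 2-subgroup of U, V has order 4, and U/V is abelian. -/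
theorem result {H : Type*} [Group H] [Finite H] (U : Subgroup H) (w : H) (hw : orderOf w = 2)
    (hwU : w ∈ Subgroup.normalizer (U : Set H)) (y : H) (hy : y ≠ 1) (hyU : y ∈ U)
    (hfix : ∀ u ∈ U, w * u * w⁻¹ = u ↔ (u = 1 ∨ u = y))
    (V : Subgroup H) (hVU : V ≤ U) (hVn : (V.subgroupOf U).Normal) (hVw : ∀ v ∈ V, w * v * w⁻¹ ∈ V)
    (hVe : Cfsg.IsElementaryAbelian 2 V) (hVc : ¬ IsCyclic ↥V) (hyV : y ∈ V) :
    ¬ 2 ∣ V.relIndex U ∧ Nat.card ↥V = 4 ∧ ⁅U, U⁆ ≤ V := by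
  have hw2 : w * w = 1 := by rw [← sq, ← hw, pow_orderOf_eq_one]
  have hwi : w⁻¹ = w := by rw [inv_eq_iff_mul_eq_one]; exact hw2
  have hcV : ∀ a ∈ V, ∀ b ∈ V, a * b = b * a := by
    intro a ha b hb
    have := hVe.1.is_comm.comm (⟨a, ha⟩ : V) ⟨b, hb⟩
    exact congrArg Subtype.val this
  have hsqV : ∀ a ∈ V, a * a = 1 := by
    intro a ha; rw [← sq]; exact hVe.2 a ha
  have hinvV : ∀ a ∈ V, a⁻¹ = a := by
    intro a ha; rw [inv_eq_iff_mul_eq_one]; exact hsqV a ha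
  have hVn' : ∀ u ∈ U, ∀ v ∈ V, u * v * u⁻¹ ∈ V := by
    intro u hu v hv
    have := hVn.conj_mem ⟨v, hVU hv⟩ (Subgroup.mem_subgroupOf.2 hv) ⟨u, hu⟩
    exact Subgroup.mem_subgroupOf.1 this
  have hfixV : ∀ u ∈ U, w * u * w⁻¹ = u → (u = 1 ∨ u = y) := fun u hu h => (hfix u hu).1 h
  have hfixV' : ∀ u ∈ U, w * u * w⁻¹ = u → u ∈ V := by
    intro u hu h
    rcases hfixV u hu h with rfl | rfl
    · exact one_mem _
    · exact hyV
  have hy2 : orderOf y = 2 := by
    apply orderOf_eq_prime (by rw [sq]; exact hsqV y hyV) hy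
  -- the commutator map on V
  let φ : V →* V := MonoidHom.mk' (fun v => ⟨w * v * w⁻¹ * (v : H)⁻¹, mul_mem (hVw v v.2) (inv_mem v.2)⟩) (by
    intro a b
    apply Subtype.ext
    show w * (a * b : H) * w⁻¹ * ((a : H) * b)⁻¹ = (w * a * w⁻¹ * (a : H)⁻¹) * (w * b * w⁻¹ * (b : H)⁻¹)
    have h1 := hcV (w * b * w⁻¹ * (b : H)⁻¹) (mul_mem (hVw b b.2) (inv_mem b.2)) (a : H)⁻¹ (inv_mem a.2)
    calc w * (a * b : H) * w⁻¹ * ((a : H) * b)⁻¹ = (w * a * w⁻¹) * ((w * b * w⁻¹ * (b : H)⁻¹) * (a : H)⁻¹) := by group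
      _ = (w * a * w⁻¹) * ((a : H)⁻¹ * (w * b * w⁻¹ * (b : H)⁻¹)) := by rw [h1]
      _ = _ := by group)
  have hφ : ∀ v : V, ((φ v : V) : H) = w * v * w⁻¹ * (v : H)⁻¹ := fun v => rfl
  have hkey : ∀ u ∈ U, w * u * w⁻¹ * u⁻¹ ∈ V → w * u * w⁻¹ * u⁻¹ = 1 ∨ w * u * w⁻¹ * u⁻¹ = y := by
    intro u hu ht
    apply hfixV _ (hVU ht)
    have h1 := hinvV _ ht
    calc w * (w * u * w⁻¹ * u⁻¹) * w⁻¹ = (w * w) * u * w⁻¹ * u⁻¹ * w⁻¹ := by group
      _ = u * w⁻¹ * u⁻¹ * w⁻¹ := by rw [hw2, one_mul]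
      _ = u * w * u⁻¹ * w⁻¹ := by rw [hwi]
      _ = (w * u * w⁻¹ * u⁻¹)⁻¹ := by group
      _ = _ := h1
  have hsub : ∀ K : Subgroup V, (∀ v ∈ K, (v : H) = 1 ∨ (v : H) = y) → Nat.card K ≤ 2 := by
    intro K hK
    rw [← hy2, ← Nat.card_zpowers]
    have hm : ∀ v : K, ((v : V) : H) ∈ Subgroup.zpowers y := by
      intro v
      rcases hK v.1 v.2 with h | h
      · rw [h]; exact one_mem _
      · rw [h]; exact Subgroup.mem_zpowers y
    refine Nat.card_le_card_of_injective (fun v : K => (⟨((v : V) : H), hm v⟩ : Subgroup.zpowers y)) ?_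
    intro a b h
    have := congrArg Subtype.val h
    exact Subtype.ext (Subtype.ext this)
  have hker : Nat.card φ.ker ≤ 2 := by
    apply hsub
    intro v hv
    apply hfixV _ (hVU v.2)
    have h1 : φ v = 1 := MonoidHom.mem_ker.1 hv
    have h2 : w * (v : H) * w⁻¹ * (v : H)⁻¹ = 1 := by rw [← hφ v, h1]; rfl
    exact mul_inv_eq_one.1 h2
  have hran : Nat.card φ.range ≤ 2 := by
    apply hsub
    rintro _ ⟨v, rfl⟩
    rw [hφ v]
    exact hkey v (hVU v.2) (mul_mem (hVw v v.2) (inv_mem v.2))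
  have hcard : Nat.card φ.ker * Nat.card φ.range = Nat.card V := by
    rw [← Subgroup.index_ker φ, Subgroup.card_mul_index]
  have hle4 : Nat.card V ≤ 4 := by rw [← hcard]; exact Nat.mul_le_mul hker hran
  have h2V : 2 ∣ Nat.card V := by
    have := orderOf_dvd_natCard (⟨y, hyV⟩ : V)
    rwa [Subgroup.orderOf_mk, hy2] at this
  have hne2 : Nat.card V ≠ 2 := by
    intro h
    have : Fact (Nat.Prime 2) := ⟨Nat.prime_two⟩
    exact hVc (isCyclic_of_prime_card h)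
  have hV4 : Nat.card V = 4 := by
    obtain ⟨k, hk⟩ := h2V
    have : 0 < Nat.card V := Nat.card_pos
    have h1 : k ≠ 1 := by rintro rfl; exact hne2 (by rw [hk])
    omega
  have hran2 : 2 ≤ Nat.card φ.range := by
    rw [hV4] at hcard
    by_contra hcon
    have : Nat.card φ.ker * Nat.card φ.range ≤ 2 * 1 := Nat.mul_le_mul hker (by omega)
    omega
  obtain ⟨v₀, hv₀⟩ : ∃ v : V, w * (v : H) * w⁻¹ * (v : H)⁻¹ = y := by
    have : Nontrivial φ.range := Finite.one_lt_card_iff_nontrivial.1 (by omega)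
    obtain ⟨⟨t, v, hv⟩, ht⟩ := exists_ne (1 : φ.range)
    refine ⟨v, ?_⟩
    rcases hkey v (hVU v.2) (mul_mem (hVw v v.2) (inv_mem v.2)) with h | h
    · exfalso
      apply ht
      apply Subtype.ext
      apply Subtype.ext
      show (t : H) = 1
      rw [← hv, hφ v, h]
    · exact h
  have hfpf : ∀ u ∈ U, w * u * w⁻¹ * u⁻¹ ∈ V → u ∈ V := by
    intro u hu ht
    rcases hkey u hu ht with h | h
    · exact hfixV' u hu (mul_inv_eq_one.1 h)
    · have h3 : (v₀ : H)⁻¹ * u ∈ V := by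
        apply hfixV' _ (mul_mem (inv_mem (hVU v₀.2)) hu)
        have h4 : w * u * w⁻¹ = y * u := by rw [← h]; group
        have h5 : w * (v₀ : H) * w⁻¹ = y * v₀ := by rw [← hv₀]; group
        calc w * ((v₀ : H)⁻¹ * u) * w⁻¹ = (w * (v₀ : H) * w⁻¹)⁻¹ * (w * u * w⁻¹) := by group
          _ = (y * v₀)⁻¹ * (y * u) := by rw [h4, h5]
          _ = _ := by group
      have := mul_mem v₀.2 h3
      rwa [mul_inv_cancel_left] at this
  have hwU' : ∀ u ∈ U, w * u * w⁻¹ ∈ U := fun u hu => (Subgroup.mem_normalizer_iff.1 hwU u).1 hu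
  let f : U →* U := MonoidHom.mk' (fun u => ⟨w * u * w⁻¹, hwU' u u.2⟩) (by
    intro a b
    apply Subtype.ext
    show w * (a * b : H) * w⁻¹ = (w * a * w⁻¹) * (w * b * w⁻¹)
    group)
  have hf : ∀ u : U, ((f u : U) : H) = w * u * w⁻¹ := fun u => rfl
  have hfle : V.subgroupOf U ≤ (V.subgroupOf U).comap f := by
    intro u hu
    rw [Subgroup.mem_comap, Subgroup.mem_subgroupOf]
    exact hVw u (Subgroup.mem_subgroupOf.1 hu)
  let ψ : (U ⧸ V.subgroupOf U) →* (U ⧸ V.subgroupOf U) := QuotientGroup.map _ _ f hfle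
  have hψ : ∀ u : U, ψ (QuotientGroup.mk u) = QuotientGroup.mk (f u) := fun u => rfl
  have hψf : MonoidHom.FixedPointFree ψ := by
    intro q
    induction q using QuotientGroup.induction_on with
    | H u =>
      intro h
      rw [hψ] at h
      have h1 : (u)⁻¹ * f u ∈ V.subgroupOf U := QuotientGroup.eq.1 h.symm
      have h2 : (u : H)⁻¹ * (w * u * w⁻¹) ∈ V := Subgroup.mem_subgroupOf.1 h1
      have h3 := hVn' u u.2 _ h2
      have h4 : w * (u : H) * w⁻¹ * (u : H)⁻¹ ∈ V := by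
        have : (u : H) * ((u : H)⁻¹ * (w * u * w⁻¹)) * (u : H)⁻¹ = w * (u : H) * w⁻¹ * (u : H)⁻¹ := by group
        rwa [this] at h3
      rw [QuotientGroup.eq_one_iff]
      exact Subgroup.mem_subgroupOf.2 (hfpf u u.2 h4)
  have hψi : Function.Involutive ψ := by
    intro q
    induction q using QuotientGroup.induction_on with
    | H u =>
      rw [hψ, hψ]
      congr 1
      apply Subtype.ext
      rw [hf, hf]
      calc w * (w * (u : H) * w⁻¹) * w⁻¹ = (w * w) * u * (w * w)⁻¹ := by group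
        _ = u := by rw [hw2]; group
  refine ⟨?_, hV4, ?_⟩
  · have h1 := hψf.odd_card_of_involutive hψi
    have h2 : V.relIndex U = Nat.card (U ⧸ V.subgroupOf U) := rfl
    rw [h2]
    intro h3
    exact (Nat.not_even_iff_odd.2 h1) (even_iff_two_dvd.2 h3)
  · rw [Subgroup.commutator_le]
    intro a ha b hb
    have h1 := hψf.commute_all_of_involutive hψi (QuotientGroup.mk (⟨a, ha⟩ : U)) (QuotientGroup.mk (⟨b, hb⟩ : U))
    have h2 : (QuotientGroup.mk ((⟨b, hb⟩ : U) * ⟨a, ha⟩) : U ⧸ V.subgroupOf U) =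
      QuotientGroup.mk ((⟨a, ha⟩ : U) * ⟨b, hb⟩) := h1.eq.symm
    have h3 : (b * a)⁻¹ * (a * b) ∈ V := Subgroup.mem_subgroupOf.1 (QuotientGroup.eq.1 h2)
    have h4 := hVn' (b * a) (mul_mem hb ha) _ h3
    have h5 : (b * a) * ((b * a)⁻¹ * (a * b)) * (b * a)⁻¹ = a * b * a⁻¹ * b⁻¹ := by group
    rw [h5] at h4
    exact h4

end Cfsg.Agent.S3825
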