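import Cfsg.Statements.S3836
import Cfsg.Agent.H1.Cores

set_option autoImplicit false
set_option linter.all false
open Cfsg

namespace Cfsg.Agent.S3836

section aux
open Subgroup
open scoped commutatorElement

theorem aux {G : Type*} [Group G] [Finite G] {p : ℕ} [Fact p.Prime] (hst : Cfsg.IsNormalizerPStable p G) (H : Subgroup G) : Cfsg.IsNormalizerPStable p ↥H := by
  intro P hP x hx hquad
  set Q : Subgroup G := P.map H.subtype with hQ
  have hQp : IsPGroup p Q := hP.map _
  have hxQ : (x : G) ∈ normalizer (Q : Set G) :=
    (Subgroup.le_normalizer_map H.subtype) (mem_map_of_mem H.subtype hx)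
  have hz : zpowers (x : G) = (zpowers x).map H.subtype := by
    rw [MonoidHom.map_zpowers]; rfl
  have hquad' : ⁅⁅Q, zpowers (x : G)⁆, zpowers (x : G)⁆ = ⊥ := by
    rw [hz, hQ, ← map_commutator, ← map_commutator, hquad, Subgroup.map_bot]
  have key := hst Q hQp (x : G) hxQ hquad'
  -- the embedding
  let f : normalizer (P : Set H) →* normalizer (Q : Set G) :=
    { toFun := fun y => ⟨((y : H) : G), (Subgroup.le_normalizer_map H.subtype) (mem_map_of_mem H.subtype y.2)⟩
      map_one' := rfl
      map_mul' := fun _ _ => rfl }
  have hC : ∀ y : normalizer (P : Set H), y ∈ (centralizer (P : Set H)).subgroupOf (normalizer (P : Set H)) ↔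
      f y ∈ (centralizer (Q : Set G)).subgroupOf (normalizer (Q : Set G)) := by
    intro y
    rw [mem_subgroupOf, mem_subgroupOf, mem_centralizer_iff, mem_centralizer_iff]
    constructor
    · rintro h _ ⟨z, hz, rfl⟩
      exact congrArg Subtype.val (h z hz)
    · intro h z hz
      exact Subtype.ext (h (z : G) ⟨z, hz, rfl⟩)
  let F : (normalizer (P : Set H) ⧸ (centralizer (P : Set H)).subgroupOf (normalizer (P : Set H))) →*
      (normalizer (Q : Set G) ⧸ (centralizer (Q : Set G)).subgroupOf (normalizer (Q : Set G))) :=
    QuotientGroup.map _ _ f (fun y hy => (hC y).mp hy)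
  have hFinj : Function.Injective F := by
    rw [injective_iff_map_eq_one]
    intro y
    induction y using QuotientGroup.induction_on with
    | H z =>
      intro hy
      have h1 : (QuotientGroup.mk (f z) : normalizer (Q : Set G) ⧸ (centralizer (Q : Set G)).subgroupOf (normalizer (Q : Set G))) = 1 := hy
      rw [QuotientGroup.eq_one_iff] at h1
      exact (QuotientGroup.eq_one_iff z).mpr ((hC z).mpr h1)
  set R := Cfsg.pCore p (normalizer (Q : Set G) ⧸ (centralizer (Q : Set G)).subgroupOf (normalizer (Q : Set G))) with hR
  have hRp : IsPGroup p R := H1.pCore_isPGroup p _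
  have hRn : R.Normal := H1.pCore_normal p _
  have hKn : (R.comap F).Normal := hRn.comap F
  have hKp : IsPGroup p (R.comap F) := by
    refine hRp.of_injective ((F.comp (R.comap F).subtype).codRestrict R (fun y => y.2)) ?_
    intro a b hab
    have h1 : F (a : _) = F (b : _) := congrArg Subtype.val hab
    exact Subtype.ext (hFinj h1)
  exact H1.le_pCore hKn hKp key

end aux

/-- Let G be a finite group that is p-stable in the normalizer form: for every p-subgroup Q and every x ∈ N_G(Q) with [Q, x, x] = 1, the image of x in N_G(Q)/C_G(Q) lies in O_p(N_G(Q)/C_G(Q)). Then every subgroup of G is p-stable in the same sense. -/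
theorem result {G : Type*} [Group G] [Finite G] {p : ℕ} [Fact p.Prime] (hst : Cfsg.IsNormalizerPStable p G) (H : Subgroup G) : Cfsg.IsNormalizerPStable p ↥H := by
  exact aux hst H

end Cfsg.Agent.S3836
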