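import Cfsg.Statements.S3838
import Cfsg.Agent.H20.TwoComp
import Cfsg.Agent.H2.TateCor
import Cfsg.Agent.H29.XS
import Cfsg.Agent.H23.ZipperVar

set_option autoImplicit false
set_option linter.all false
open Cfsg

namespace Cfsg.Agent.S3838

section aux
open Subgroup
open scoped commutatorElement
universe u

theorem mem_frattini_equiv {A B : Type*} [Group A] [Group B] (e : A ≃* B) {x : A} (hx : x ∈ frattini A) :
    e x ∈ frattini B := by
  rw [H29.mem_frattini_iff] at hx ⊢
  intro M hM
  have h1 : IsCoatom (M.comap e.toMonoidHom) := by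
    have := (OrderIso.isCoatom_iff (MulEquiv.comapSubgroup e) M).mpr hM
    exact this
  exact hx _ h1

theorem core {G : Type u} [Group G] [Finite G] {p : ℕ} [Fact p.Prime] (P : Sylow p G)
    (hN : Cfsg.HasNormalPComplement p ↥(normalizer ((P : Subgroup G) : Set G))) (Q : Subgroup G) [Q.Normal]
    (h1 : ⁅(P : Subgroup G), (P : Subgroup G)⁆ ≤ Q)
    (h2 : Q ≤ (frattini ↥(P : Subgroup G)).map (P : Subgroup G).subtype) : Cfsg.HasNormalPComplement p G := by
  have hQP : Q ≤ P := h2.trans (map_subtype_le _)
  set π := QuotientGroup.mk' Q with hπ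
  have hπs : Function.Surjective π := QuotientGroup.mk'_surjective Q
  let P' : Sylow p (G ⧸ Q) := P.mapSurjective hπs
  have hP' : (P' : Subgroup (G ⧸ Q)) = (P : Subgroup G).map π := rfl
  have hquo : Cfsg.HasNormalPComplement p (G ⧸ Q) := by
    apply H20.hasNormalPComplement_of_normalizer_le P'
    intro x hx
    obtain ⟨g, rfl⟩ := hπs x
    -- g normalizes P
    have hgN : g ∈ normalizer ((P : Subgroup G) : Set G) := by
      apply H23.mem_normalizer_of_cjs_le
      intro y hy
      rw [H23.mem_cjs] at hy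
      have h3 := (mem_normalizer_iff.mp hx (π (g⁻¹ * y * g))).mp (by rw [hP']; exact mem_map_of_mem _ hy)
      have h4 : π g * π (g⁻¹ * y * g) * (π g)⁻¹ = π y := by
        rw [← map_mul, ← map_inv, ← map_mul]; congr 1; group
      rw [h4, hP'] at h3
      obtain ⟨w, hw, hwy⟩ := h3
      have h5 : w⁻¹ * y ∈ Q := by
        have : π w = π y := hwy
        exact (QuotientGroup.eq).mp this
      have := mul_mem hw (hQP h5)
      rwa [mul_inv_cancel_left] at this
    -- decompose g
    obtain ⟨K, hK, hKc⟩ := (H2.hasNormalPComplement_iff_sylow (P.subtype le_normalizer)).mp hN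
    have hKP : K ⊔ ((P : Subgroup G).subgroupOf (normalizer ((P : Subgroup G) : Set G))) = ⊤ := hKc.sup_eq_top
    have hKPd : K ⊓ ((P : Subgroup G).subgroupOf (normalizer ((P : Subgroup G) : Set G))) = ⊥ := hKc.disjoint.eq_bot
    obtain ⟨k, hk, u, hu, hku⟩ := mem_sup_of_normal_left.mp (show (⟨g, hgN⟩ : normalizer ((P : Subgroup G) : Set G)) ∈
      K ⊔ ((P : Subgroup G).subgroupOf (normalizer ((P : Subgroup G) : Set G))) by rw [hKP]; exact mem_top _)
    have hgku : g = (k : G) * (u : G) := (congrArg Subtype.val hku).symm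
    have huP : (u : G) ∈ (P : Subgroup G) := mem_subgroupOf.mp hu
    rw [mem_centralizer_iff]
    rintro z hz
    rw [SetLike.mem_coe] at hz
    have hz' : z ∈ (P : Subgroup G).map π := hz
    obtain ⟨y, hy, rfl⟩ := hz'
    have hky : (k : G) * y = y * (k : G) := by
      have h6 : (⟨y, le_normalizer hy⟩ : normalizer ((P : Subgroup G) : Set G)) ∈ (P : Subgroup G).subgroupOf (normalizer ((P : Subgroup G) : Set G)) := hy
      haveI : ((P : Subgroup G).subgroupOf (normalizer ((P : Subgroup G) : Set G))).Normal := normal_subgroupOf_of_le_normalizer le_rfl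
      have h7 : ⁅k, (⟨y, le_normalizer hy⟩ : normalizer ((P : Subgroup G) : Set G))⁆ ∈ K ⊓ ((P : Subgroup G).subgroupOf (normalizer ((P : Subgroup G) : Set G))) :=
        commutator_le_inf _ _ (commutator_mem_commutator hk h6)
      rw [hKPd, mem_bot, commutatorElement_eq_one_iff_mul_comm] at h7
      exact congrArg Subtype.val h7
    have huy : π (u : G) * π y = π y * π (u : G) := by
      rw [← commutatorElement_eq_one_iff_mul_comm, ← map_commutatorElement]
      exact (QuotientGroup.eq_one_iff _).mpr (h1 (commutator_mem_commutator huP hy))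
    have hky' : π (k : G) * π y = π y * π (k : G) := by rw [← map_mul, hky, map_mul]
    rw [hgku, map_mul]
    calc π y * (π (k : G) * π (u : G)) = (π y * π (k : G)) * π (u : G) := by group
      _ = π (k : G) * (π y * π (u : G)) := by rw [← hky']; group
      _ = π (k : G) * π (u : G) * π y := by rw [← huy]; group
  obtain ⟨K, hK, hpK, m, hm⟩ := H2.hasNormalPComplement_iff.mp hquo
  set L := K.comap π with hL
  have hLn : L.Normal := hK.comap π
  have hLi : L.index = p ^ m := by rw [hL, index_comap_of_surjective _ hπs, hm]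
  have hLP : L ⊓ (P : Subgroup G) ≤ Q := by
    rintro x ⟨hxL, hxP⟩
    have h3 : π x ∈ K := hxL
    obtain ⟨t, ht⟩ := (IsPGroup.iff_orderOf.mp (P.2.map π)) ⟨π x, mem_map_of_mem _ hxP⟩
    rw [orderOf_mk] at ht
    have h4 : orderOf (π x) ∣ Nat.card K := by
      have := orderOf_dvd_natCard (⟨π x, h3⟩ : K)
      rwa [orderOf_mk] at this
    have h5 : orderOf (π x) = 1 := by
      rw [ht]
      rcases Nat.eq_zero_or_pos t with h0 | h0
      · rw [h0, pow_zero]
      · exfalso
        apply hpK
        rw [ht] at h4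
        exact (dvd_pow_self p h0.ne').trans h4
    rw [orderOf_eq_one_iff] at h5
    exact (QuotientGroup.eq_one_iff _).mp h5
  have h6 := H2.hasNormalPComplement_of_inf_le_frattini P L (hLP.trans h2)
  exact H20.hasNormalPComplement_of_normal L hLi h6

theorem aux {G : Type*} [Group G] [Finite G] {p : ℕ} [Fact p.Prime] (P : Sylow p G) (hN : Cfsg.HasNormalPComplement p ↥(Subgroup.normalizer ((P : Subgroup G) : Set G))) (Q : Subgroup G) (h1 : (commutator ↥(P : Subgroup G)).map (P : Subgroup G).subtype ≤ Q) (h2 : Q ≤ (frattini ↥(P : Subgroup G)).map (P : Subgroup G).subtype) : Cfsg.HasNormalPComplement p ↥(Subgroup.normalizer (Q : Set G)) := by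
  have hQP : Q ≤ P := h2.trans (map_subtype_le _)
  have h1' : ⁅(P : Subgroup G), (P : Subgroup G)⁆ ≤ Q := by
    have : (commutator ↥(P : Subgroup G)).map (P : Subgroup G).subtype = ⁅(P : Subgroup G), (P : Subgroup G)⁆ := by
      rw [_root_.commutator_def, map_commutator, ← MonoidHom.range_eq_map, range_subtype]
    rwa [this] at h1
  set M := normalizer (Q : Set G) with hM
  have hPM : (P : Subgroup G) ≤ M := by
    intro x hx
    apply H23.mem_normalizer_of_cjs_le
    intro y hy
    rw [H23.mem_cjs] at hy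
    have hyP : x⁻¹ * y * x ∈ (P : Subgroup G) := hQP hy
    have h3 := h1' (commutator_mem_commutator hx hyP)
    have h4 := mul_mem h3 hy
    rw [commutatorElement_def] at h4
    have h5 : x * (x⁻¹ * y * x) * x⁻¹ * (x⁻¹ * y * x)⁻¹ * (x⁻¹ * y * x) = y := by group
    rwa [h5] at h4
  haveI : (Q.subgroupOf M).Normal := normal_subgroupOf_of_le_normalizer le_rfl
  apply core (P.subtype hPM) ?_ (Q.subgroupOf M) ?_ ?_
  · have hle : (normalizer ((P.subtype hPM : Subgroup M) : Set M)).map M.subtype ≤ normalizer ((P : Subgroup G) : Set G) := by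
      rintro _ ⟨x, hx, rfl⟩
      apply H23.mem_normalizer_of_cjs_le
      intro y hy
      rw [H23.mem_cjs] at hy
      have hyM : (M.subtype x)⁻¹ * y * M.subtype x ∈ M := hPM hy
      have h3 := (mem_normalizer_iff.mp hx ⟨_, hyM⟩).mp hy
      have h4 : ((x * ⟨_, hyM⟩ * x⁻¹ : M) : G) ∈ (P : Subgroup G) := h3
      have h5 : ((x * ⟨_, hyM⟩ * x⁻¹ : M) : G) = y := by
        show M.subtype x * ((M.subtype x)⁻¹ * y * M.subtype x) * (M.subtype x)⁻¹ = y
        group
      rwa [h5] at h4
    have h3 := H2.HasNormalPComplement.of_le hN hle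
    refine (H2.hasNormalPComplement_congr ?_).mpr h3
    exact equivMapOfInjective _ M.subtype M.subtype_injective
  · rw [commutator_le]
    intro x hx y hy
    exact h1' (commutator_mem_commutator hx hy)
  · intro x hx
    obtain ⟨y, hy, hyx⟩ := h2 hx
    let e : ↥(P : Subgroup G) ≃* ↥(P.subtype hPM : Subgroup M) := (subgroupOfEquivOfLe hPM).symm
    refine ⟨e y, mem_frattini_equiv e hy, ?_⟩
    apply Subtype.ext
    exact hyx
end aux

/-- Let G be a finite group with Sylow p-subgroup P such that N_G(P) has a normal p-complement. Then N_G(Q) has a normal p-complement for every subgroup Q with [P, P] ≤ Q ≤ Φ(P). -/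
theorem result {G : Type*} [Group G] [Finite G] {p : ℕ} [Fact p.Prime] (P : Sylow p G) (hN : Cfsg.HasNormalPComplement p ↥(Subgroup.normalizer ((P : Subgroup G) : Set G))) (Q : Subgroup G) (h1 : (commutator ↥(P : Subgroup G)).map (P : Subgroup G).subtype ≤ Q) (h2 : Q ≤ (frattini ↥(P : Subgroup G)).map (P : Subgroup G).subtype) : Cfsg.HasNormalPComplement p ↥(Subgroup.normalizer (Q : Set G)) := by
  exact aux P hN Q h1 h2

end Cfsg.Agent.S3838
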