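import Cfsg.Statements.S3839
import Cfsg.Agent.H24.Centric
import Cfsg.Agent.H2.NComp
import Cfsg.Agent.H23.ZipperVar

set_option autoImplicit false
set_option linter.all false
open Cfsg

namespace Cfsg.Agent.S3839

section aux
open Subgroup H23 H24 H19
open scoped Pointwise

variable {G : Type*} [Group G] [Finite G] {p : ℕ} [hp : Fact p.Prime]

theorem exists_pow_coprime (p : ℕ) [hp : Fact p.Prime] (m : G) : ∃ k, (orderOf (m ^ p ^ k)).Coprime p := by
  obtain ⟨k, r, hr, hk⟩ := Nat.exists_eq_pow_mul_and_not_dvd (orderOf_pos m).ne' p hp.out.ne_one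
  refine ⟨k, ?_⟩
  have h1 : orderOf (m ^ p ^ k) = r := by
    rw [orderOf_pow, hk, Nat.gcd_eq_right (Dvd.intro _ rfl),
      Nat.mul_div_cancel_left _ (pow_pos hp.out.pos k)]
  rw [h1]
  exact ((Nat.Prime.coprime_iff_not_dvd hp.out).mpr hr).symm

theorem PrC.pow {X : Subgroup G} (h : PrC p X) {m : G} (hm : m ∈ normalizer (X : Set G)) :
    ∃ k, m ^ p ^ k ∈ centralizer (X : Set G) := by
  obtain ⟨k, hk⟩ := exists_pow_coprime p m
  exact ⟨k, h _ (pow_mem hm _) hk⟩

/-- every `p`-subgroup is conjugate to a fully normalized subgroup of `S` -/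
theorem exists_fully (S : Sylow p G) {X : Subgroup G} (hX : IsPGroup p X) :
    ∃ g : G, MulAut.conj g • X ≤ (S : Subgroup G) ∧
      IsSylowOf p ((S : Subgroup G) ⊓ normalizer ((MulAut.conj g • X : Subgroup G) : Set G))
        (normalizer ((MulAut.conj g • X : Subgroup G) : Set G)) := by
  obtain ⟨T, hT, hXT⟩ := exists_isSylowOf_ge (p := p) (le_normalizer (H := X)) hX
  obtain ⟨Q, hQ⟩ := hT.isPGroup.exists_le_sylow
  obtain ⟨g, hg⟩ := MulAction.exists_smul_eq G Q S
  have hg' : MulAut.conj g • (Q : Subgroup G) = S := by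
    rw [← hg]; rfl
  have hXP : MulAut.conj g • X ≤ (S : Subgroup G) := by
    rw [← hg']
    exact Subgroup.pointwise_smul_le_pointwise_smul_iff.2 (hXT.trans hQ)
  refine ⟨g, hXP, ?_⟩
  have h1 := IsSylowOf.conj_both hT g
  rw [H1.conj_smul_normalizer] at h1
  have h2 : (S : Subgroup G) ⊓ normalizer ((MulAut.conj g • X : Subgroup G) : Set G) = MulAut.conj g • T := by
    apply IsSylowOf.eq_of_le h1
    · refine le_inf ?_ h1.le
      rw [← hg']
      exact Subgroup.pointwise_smul_le_pointwise_smul_iff.2 hQ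
    · exact inf_le_right
    · exact S.isPGroup'.to_le inf_le_left
  rw [h2]
  exact h1

theorem pow_coset {N M : Subgroup G} (hn : N ≤ normalizer (M : Set G)) {c m : G} (hc : c ∈ M) (hm : m ∈ N) (n : ℕ) :
    (c * m) ^ n * (m ^ n)⁻¹ ∈ M := by
  induction n with
  | zero => simp [M.one_mem]
  | succ n ih =>
    have e : (c * m) ^ (n + 1) * (m ^ (n + 1))⁻¹ = ((c * m) ^ n * (m ^ n)⁻¹) * (m ^ n * c * (m ^ n)⁻¹) := by
      rw [pow_succ, pow_succ]; group
    rw [e]
    exact M.mul_mem ih ((mem_normalizer_iff.mp (hn (N.pow_mem hm n)) c).mp hc)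

theorem normalizer_le_centralizer_normalizer (X : Subgroup G) :
    normalizer (X : Set G) ≤ normalizer ((centralizer (X : Set G) : Subgroup G) : Set G) := by
  intro g hg
  exact H18.le_normalizer_centralizer le_rfl hg

theorem prC_of_le_strongly (S : Sylow p G) (D : Subgroup G) (hD : Cfsg.IsStronglyClosed D (S : Subgroup G))
    (h : ∀ U : Subgroup G, U ≤ D → D ⊓ centralizer (U : Set G) ≤ U →
      Cfsg.HasNormalPComplement p ↥(normalizer (U : Set G)))
    {X : Subgroup G} (hXD : X ≤ D)
    (hT : IsSylowOf p ((S : Subgroup G) ⊓ normalizer (X : Set G)) (normalizer (X : Set G))) : PrC p X := by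
  intro y hy hyo
  have hC : IsSylowOf p ((S : Subgroup G) ⊓ normalizer (X : Set G) ⊓ centralizer (X : Set G)) (centralizer (X : Set G)) :=
    isSylowOf_inf_normal_rel (centralizer_le_normalizer _) (normalizer_le_centralizer_normalizer X) hT
  rw [inf_assoc, inf_eq_right.mpr (centralizer_le_normalizer (X : Set G))] at hC
  obtain ⟨c, hc, hm⟩ := frattini_elem hC (g := y) (normalizer_le_centralizer_normalizer X hy)
  set m := c⁻¹ * y with hmdef
  have hmN : m ∈ normalizer (X : Set G) := mul_mem (inv_mem (centralizer_le_normalizer _ hc)) hy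
  -- `m` normalizes `D0`
  set D0 := D ⊓ centralizer (X : Set G) with hD0
  have hDS : D ≤ (S : Subgroup G) := hD.1
  have hmD0 : m ∈ normalizer (D0 : Set G) := by
    apply mem_normalizer_of_cjs_le
    intro z hz
    rw [mem_cjs] at hz
    have h1 : m⁻¹ * z * m ∈ (S : Subgroup G) ⊓ centralizer (X : Set G) := ⟨hDS hz.1, hz.2⟩
    have h2 := (mem_normalizer_iff.mp hm _).mp h1
    have e : m * (m⁻¹ * z * m) * m⁻¹ = z := by group
    rw [e] at h2
    refine ⟨?_, h2.2⟩
    have h3 := hD.2 _ hz.1 m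
    rw [e] at h3
    exact h3 h2.1
  set U := X ⊔ D0 with hU
  have hmU : m ∈ normalizer (U : Set G) := by
    rw [H1.mem_normalizer_iff_conj_smul, hU, Subgroup.smul_sup,
      H1.mem_normalizer_iff_conj_smul.1 hmN, H1.mem_normalizer_iff_conj_smul.1 hmD0]
  have hUD : U ≤ D := sup_le hXD inf_le_left
  have hUc : D ⊓ centralizer (U : Set G) ≤ U := by
    refine le_trans ?_ (le_sup_right : D0 ≤ U)
    exact inf_le_inf_left D (Subgroup.centralizer_le (SetLike.coe_subset_coe.2 le_sup_left))
  have hcomp := h U hUD hUc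
  obtain ⟨k, hk⟩ := exists_pow_coprime p m
  have hmk : m ^ p ^ k ∈ centralizer (X : Set G) := by
    have hXU : X ≤ normalizer (U : Set G) := le_sup_left.trans le_normalizer
    have h1 : (⟨m ^ p ^ k, pow_mem hmU _⟩ : normalizer (U : Set G)) ∈ centralizer ((U.subgroupOf (normalizer (U : Set G)) : Subgroup _) : Set _) := by
      apply H2.mem_centralizer_of_hasNormalPComplement hcomp
      · exact (S.isPGroup'.to_le (hUD.trans hDS)).comap_subtype
      · rw [mem_normalizer_iff]
        intro z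
        rw [mem_subgroupOf, mem_subgroupOf]
        exact mem_normalizer_iff.mp (pow_mem hmU _) z
      · rw [Subgroup.orderOf_mk]; exact hk
    rw [mem_centralizer_iff]
    intro z hz
    have h2 := mem_centralizer_iff.mp h1 ⟨z, hXU hz⟩ (by
      show z ∈ U
      exact (le_sup_left : X ≤ U) hz)
    exact congrArg Subtype.val h2
  have h5 : y ^ p ^ k ∈ centralizer (X : Set G) := by
    have h6 := pow_coset (normalizer_le_centralizer_normalizer X) hc hmN (p ^ k)
    have e : c * m = y := by rw [hmdef]; group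
    rw [e] at h6
    have h7 := mul_mem h6 hmk
    rwa [inv_mul_cancel_right] at h7
  exact H25.mem_of_pow_mem (Nat.Coprime.pow_left _ hyo.symm) h5

theorem commute_of_act {X X0 : Subgroup G} (hX : IsPGroup p X0) {y : G} (hyo : (orderOf y).Coprime p)
    (h0 : ∀ x ∈ X0, y * x = x * y) (h : ∀ x ∈ X, y * x * y⁻¹ * x⁻¹ ∈ X0) : ∀ x ∈ X, y * x = x * y := by
  intro x hx
  set c := y * x * y⁻¹ * x⁻¹ with hc
  have hcX := h x hx
  rw [← hc] at hcX
  have hyc := h0 c hcX
  have hcom : Commute y c := hyc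
  have h4 : ∀ n : ℕ, y ^ n * x * (y ^ n)⁻¹ = c ^ n * x := by
    intro n
    induction n with
    | zero => simp
    | succ n ih =>
      have e1 : y ^ (n + 1) * x * (y ^ (n + 1))⁻¹ = y * (y ^ n * x * (y ^ n)⁻¹) * y⁻¹ := by
        rw [pow_succ']; group
      rw [e1, ih]
      have e2 : y * (c ^ n * x) * y⁻¹ = (y * c ^ n * y⁻¹) * (y * x * y⁻¹) := by group
      have e3 : y * c ^ n * y⁻¹ = c ^ n := by
        rw [(hcom.pow_right n).eq]; group
      have e4 : y * x * y⁻¹ = c * x := by rw [hc]; group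
      rw [e2, e3, e4, ← mul_assoc, ← pow_succ]
  have h5 := h4 (orderOf y)
  rw [pow_orderOf_eq_one, one_mul, inv_one, mul_one] at h5
  have h6 : c ^ orderOf y = 1 := by
    have := h5.symm
    exact mul_eq_right.mp this
  obtain ⟨j, hj⟩ := hX ⟨c, hcX⟩
  have hj' : c ^ p ^ j = 1 := congrArg Subtype.val hj
  have h7 : orderOf c ∣ 1 := by
    have e1 := orderOf_dvd_of_pow_eq_one h6
    have e2 := orderOf_dvd_of_pow_eq_one hj'
    have e3 : Nat.Coprime (orderOf y) (p ^ j) := Nat.Coprime.pow_right _ hyo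
    rw [← Nat.Coprime.gcd_eq_one e3]
    exact Nat.dvd_gcd e1 e2
  have h8 : c = 1 := orderOf_eq_one_iff.mp (Nat.dvd_one.mp h7)
  have h9 : y * x * y⁻¹ * x⁻¹ = 1 := by rw [← hc, h8]
  calc y * x = (y * x * y⁻¹ * x⁻¹) * x * y := by group
    _ = x * y := by rw [h9, one_mul]

theorem main (S : Sylow p G) (D : Subgroup G) (hD : Cfsg.IsStronglyClosed D (S : Subgroup G))
    (h : ∀ U : Subgroup G, U ≤ D → D ⊓ centralizer (U : Set G) ≤ U →
      Cfsg.HasNormalPComplement p ↥(normalizer (U : Set G))) :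
    ∀ n : ℕ, ∀ X : Subgroup G, IsPGroup p X → Nat.card G - Nat.card X = n → PrC p X := by
  have hDS : D ≤ (S : Subgroup G) := hD.1
  have hSD : (S : Subgroup G) ≤ normalizer (D : Set G) := by
    intro s hs
    apply mem_normalizer_of_cjs_le
    intro z hz
    rw [mem_cjs] at hz
    have h3 := hD.2 _ hz s
    have e : s * (s⁻¹ * z * s) * s⁻¹ = z := by group
    rw [e] at h3
    apply h3
    have h4 := mul_mem (mul_mem hs (hDS hz)) (inv_mem hs)
    rwa [e] at h4
  -- all subgroups of `D`
  have hA : ∀ X : Subgroup G, X ≤ D → PrC p X := by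
    intro X hX
    obtain ⟨g, hg1, hg2⟩ := exists_fully S (S.isPGroup'.to_le (hX.trans hDS))
    apply prC_conj g
    apply prC_of_le_strongly S D hD h _ hg2
    intro z hz
    obtain ⟨x, hx, rfl⟩ := hz
    exact hD.2 x (hX hx) g (hg1 ⟨x, hx, rfl⟩)
  intro n
  induction n using Nat.strong_induction_on with
  | _ n ih =>
  intro X₁ hX₁ hn₁
  obtain ⟨g, hXS, hT⟩ := exists_fully S hX₁
  apply prC_conj g
  have hcardX : Nat.card (MulAut.conj g • X₁ : Subgroup G) = Nat.card X₁ := H1.card_conj_smul _ _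
  generalize MulAut.conj g • X₁ = X at hXS hT hcardX ⊢
  rw [← hcardX] at hn₁
  intro y hy hyo
  by_cases hDX : D ≤ X
  · have hyD : y ∈ normalizer (D : Set G) := by
      apply mem_normalizer_of_cjs_le
      intro z hz
      rw [mem_cjs] at hz
      have h3 := hD.2 _ hz y
      have e : y * (y⁻¹ * z * y) * y⁻¹ = z := by group
      rw [e] at h3
      apply h3
      have h4 := (mem_normalizer_iff.mp hy _).mp (hDX hz)
      rw [e] at h4
      exact hXS h4
    have hcomp := h D le_rfl inf_le_left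
    have hXD : X ≤ normalizer (D : Set G) := hXS.trans hSD
    have h1 : (⟨y, hyD⟩ : normalizer (D : Set G)) ∈ centralizer ((X.subgroupOf (normalizer (D : Set G)) : Subgroup _) : Set _) := by
      apply H2.mem_centralizer_of_hasNormalPComplement hcomp
      · exact (S.isPGroup'.to_le hXS).comap_subtype
      · rw [mem_normalizer_iff]
        intro z
        rw [mem_subgroupOf, mem_subgroupOf]
        exact mem_normalizer_iff.mp hy z
      · rw [Subgroup.orderOf_mk]; exact hyo
    rw [mem_centralizer_iff]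
    intro z hz
    have h2 := mem_centralizer_iff.mp h1 ⟨z, hXD hz⟩ (by
      show z ∈ X
      exact hz)
    exact congrArg Subtype.val h2
  · set N := normalizer (X : Set G) with hN
    set X0 := X ⊓ D with hX0
    have hX0p : IsPGroup p X0 := S.isPGroup'.to_le (inf_le_left.trans hXS)
    have hNX0 : N ≤ normalizer (X0 : Set G) := by
      intro s hs
      apply mem_normalizer_of_cjs_le
      intro z hz
      rw [mem_cjs] at hz
      have e : s * (s⁻¹ * z * s) * s⁻¹ = z := by group
      have h4 := (mem_normalizer_iff.mp hs _).mp hz.1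
      have h3 := hD.2 _ hz.2 s
      rw [e] at h3 h4
      exact ⟨h4, h3 (hXS h4)⟩
    -- the subgroup acting trivially on `X / X0`
    obtain ⟨M, hM⟩ : ∃ M : Subgroup G, ∀ z, z ∈ M ↔ z ∈ N ∧ ∀ x ∈ X, z * x * z⁻¹ * x⁻¹ ∈ X0 := by
      refine ⟨⟨⟨⟨{z | z ∈ N ∧ ∀ x ∈ X, z * x * z⁻¹ * x⁻¹ ∈ X0}, ?_⟩, ?_⟩, ?_⟩, fun z => Iff.rfl⟩
      · rintro a b ⟨ha, ha'⟩ ⟨hb, hb'⟩
        refine ⟨mul_mem ha hb, fun x hx => ?_⟩
        have h1 := hb' x hx
        have h2 : b * x * b⁻¹ ∈ X := (mem_normalizer_iff.mp hb x).mp hx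
        have h3 := ha' _ h2
        have e : a * b * x * (a * b)⁻¹ * x⁻¹ = (a * (b * x * b⁻¹) * a⁻¹ * (b * x * b⁻¹)⁻¹) * (b * x * b⁻¹ * x⁻¹) := by group
        rw [e]
        exact mul_mem h3 h1
      · refine ⟨one_mem _, fun x hx => ?_⟩
        simp [X0.one_mem]
      · rintro a ⟨ha, ha'⟩
        refine ⟨inv_mem ha, fun x hx => ?_⟩
        have h2 : a⁻¹ * x * a ∈ X := by
          have := (mem_normalizer_iff.mp (inv_mem ha) x).mp hx
          rwa [inv_inv] at this
        have h3 := ha' _ h2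
        have e : a⁻¹ * x * a⁻¹⁻¹ * x⁻¹ = (a * (a⁻¹ * x * a) * a⁻¹ * (a⁻¹ * x * a)⁻¹)⁻¹ := by group
        rw [e]
        exact inv_mem h3
    have hMN : M ≤ N := fun z hz => ((hM z).mp hz).1
    have hNM : N ≤ normalizer (M : Set G) := by
      intro s hs
      apply mem_normalizer_of_cjs_le
      intro z hz
      rw [mem_cjs, hM] at hz
      rw [hM]
      have e : s * (s⁻¹ * z * s) * s⁻¹ = z := by group
      refine ⟨?_, fun x hx => ?_⟩
      · have := mul_mem (mul_mem hs hz.1) (inv_mem hs)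
        rwa [e] at this
      · have h2 : s⁻¹ * x * s ∈ X := by
          have := (mem_normalizer_iff.mp (inv_mem hs) x).mp hx
          rwa [inv_inv] at this
        have h3 := hz.2 _ h2
        have h4 := (mem_normalizer_iff.mp (hNX0 hs) _).mp h3
        have e2 : s * (s⁻¹ * z * s * (s⁻¹ * x * s) * (s⁻¹ * z * s)⁻¹ * (s⁻¹ * x * s)⁻¹) * s⁻¹ = z * x * z⁻¹ * x⁻¹ := by group
        rwa [e2] at h4
    -- `p'`-elements of `M` centralize `X`
    have hMc : ∀ z ∈ M, ∃ k, z ^ p ^ k ∈ centralizer (X : Set G) := by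
      intro z hz
      obtain ⟨k, hk⟩ := exists_pow_coprime p z
      refine ⟨k, ?_⟩
      have hz' : z ^ p ^ k ∈ M := pow_mem hz _
      have h1 := hA X0 inf_le_right _ (hNX0 (hMN hz')) hk
      rw [mem_centralizer_iff]
      intro x hx
      refine (commute_of_act hX0p hk ?_ ((hM _).mp hz').2 x hx).symm
      intro x hx
      exact (mem_centralizer_iff.mp h1 x hx).symm
    -- Sylow subgroup of `M`
    have hTM : IsSylowOf p ((S : Subgroup G) ⊓ N ⊓ M) M := isSylowOf_inf_normal_rel hMN hNM hT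
    rw [inf_assoc, inf_eq_right.mpr hMN] at hTM
    set T1 := (S : Subgroup G) ⊓ M with hT1
    obtain ⟨c, hc, hm⟩ := frattini_elem hTM (g := y) (hNM hy)
    set m := c⁻¹ * y with hmdef
    have hmN : m ∈ N := mul_mem (inv_mem (hMN hc)) hy
    set R := X ⊔ T1 with hR
    have hmR : m ∈ normalizer (R : Set G) := by
      rw [H1.mem_normalizer_iff_conj_smul, hR, Subgroup.smul_sup,
        H1.mem_normalizer_iff_conj_smul.1 hmN, H1.mem_normalizer_iff_conj_smul.1 hm]
    have hRS : R ≤ (S : Subgroup G) := sup_le hXS inf_le_left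
    have hRp : IsPGroup p R := S.isPGroup'.to_le hRS
    have hXR : X < R := by
      refine lt_of_le_of_ne le_sup_left ?_
      intro hXR
      -- then `D ⊓ N ≤ X`
      have h1 : D ⊓ N ≤ X := by
        rw [hXR]
        refine le_trans ?_ (le_sup_right : T1 ≤ R)
        intro z hz
        refine ⟨hDS hz.1, (hM z).mpr ⟨hz.2, fun x hx => ?_⟩⟩
        refine ⟨X.mul_mem ((mem_normalizer_iff.mp hz.2 x).mp hx) (X.inv_mem hx), ?_⟩
        have e : z * x * z⁻¹ * x⁻¹ = z * (x * z⁻¹ * x⁻¹) := by group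
        rw [e]
        exact D.mul_mem hz.1 ((mem_normalizer_iff.mp (hSD (hXS hx)) _).mp (D.inv_mem hz.1))
      have h2 : X < X ⊔ D := lt_of_le_of_ne le_sup_left (fun h => hDX (by rw [h]; exact le_sup_right))
      have h3 : IsPGroup p (X ⊔ D : Subgroup G) := S.isPGroup'.to_le (sup_le hXS hDS)
      have h4 : Group.IsNilpotent (X ⊔ D : Subgroup G) := h3.isNilpotent
      have h5 := H1.lt_normalizer_inf_of_nilpotent h4 h2
      obtain ⟨z, hz, hzX⟩ := SetLike.exists_of_lt h5
      apply hzX
      have h6 : z ∈ X ⊔ D := by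
        first
        | exact hz.1
        | exact hz.2
      have h7 : z ∈ N := by
        first
        | exact hz.2
        | exact hz.1
      obtain ⟨d, hd, x, hx, rfl⟩ := H24.exists_mul_of_mem_sup' (hXS.trans hSD) h6
      have h8 : x ∈ N := by
        have := mul_mem (inv_mem ((le_normalizer : X ≤ N) hd)) h7
        rwa [inv_mul_cancel_left] at this
      exact mul_mem hd (h1 ⟨hx, h8⟩)
    have hcardR : Nat.card X < Nat.card R := by
      refine lt_of_le_of_ne (Subgroup.card_le_of_le hXR.le) ?_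
      intro hcc
      exact hXR.ne (Subgroup.eq_of_le_of_card_ge hXR.le hcc.ge)
    have hRG : Nat.card R ≤ Nat.card G := Subgroup.card_le_card_group R
    have hPR : PrC p R := ih (Nat.card G - Nat.card R) (by omega) R hRp rfl
    obtain ⟨k, hk⟩ := PrC.pow hPR hmR
    have hk' : m ^ p ^ k ∈ centralizer (X : Set G) :=
      Subgroup.centralizer_le (SetLike.coe_subset_coe.2 hXR.le) hk
    have hCM : centralizer (X : Set G) ≤ M := by
      intro z hz
      rw [hM]
      refine ⟨centralizer_le_normalizer _ hz, fun x hx => ?_⟩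
      have := mem_centralizer_iff.mp hz x hx
      rw [← this]
      simp [X0.one_mem]
    have h5 : y ^ p ^ k ∈ M := by
      have h6 := pow_coset hNM hc hmN (p ^ k)
      have e : c * m = y := by rw [hmdef]; group
      rw [e] at h6
      have h7 := mul_mem h6 (hCM hk')
      rwa [inv_mul_cancel_right] at h7
    obtain ⟨j, hj⟩ := hMc _ h5
    rw [← pow_mul, ← pow_add] at hj
    exact H25.mem_of_pow_mem (Nat.Coprime.pow_left _ hyo.symm) hj

end aux

/-- A Frobenius normal p-complement criterion relative to a strongly closed subgroup. Let G be a finite group, S a Sylow p-subgroup and D a subgroup of S strongly closed in S with respect to G. Then G has a normal p-complement if and only if N_G(U) has a normal p-complement for every subgroup U of D with C_D(U) ≤ U. -/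
theorem result {G : Type*} [Group G] [Finite G] {p : ℕ} [Fact p.Prime] (S : Sylow p G) (D : Subgroup G) (hD : Cfsg.IsStronglyClosed D (S : Subgroup G)) : Cfsg.HasNormalPComplement p G ↔ ∀ U : Subgroup G, U ≤ D → D ⊓ Subgroup.centralizer (U : Set G) ≤ U → Cfsg.HasNormalPComplement p ↥(Subgroup.normalizer (U : Set G)) := by
  constructor
  · intro h U _ _
    exact Cfsg.Agent.H2.HasNormalPComplement.subgroup h _
  · intro h
    apply Cfsg.Agent.H2.hasNormalPComplement_of_centralizer
    intro X hX y hy hyo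
    exact main S D hD h _ X hX rfl y hy hyo

end Cfsg.Agent.S3839
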