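import Cfsg.Statements.S3857
import Cfsg.Agent.OOT.Base
import Cfsg.Agent.H3.Frob
import Cfsg.Agent.H23.Coprime4
import Cfsg.Agent.H19.RankOne
import Cfsg.Agent.H23.RankOne

set_option autoImplicit false
set_option linter.all false
open Cfsg

namespace Cfsg.Agent.S3857

section aux
open Subgroup H23
open Cfsg (IsPiHallOf)
open Cfsg.Agent.H14 (IsPiSub)
open scoped Pointwise commutatorElement

/-- internal Frobenius groups -/
theorem frob_int {G : Type*} [Group G] [Finite G] {K Q : Subgroup G} (hK : K.Normal) (hKQ : K ⊔ Q = ⊤)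
    (hK1 : K ≠ ⊥) (hQ1 : Q ≠ ⊥) (hfpf : ∀ h ∈ Q, h ≠ 1 → ∀ k ∈ K, h * k = k * h → k = 1) :
    Cfsg.IsFrobeniusComplement Q ∧ Cfsg.frobeniusKernel Q = (K : Set G) := by
  haveI := hK
  have hinf : K ⊓ Q = ⊥ := by
    rw [Subgroup.eq_bot_iff_forall]
    intro x hx
    by_contra hx1
    exact hx1 (hfpf x hx.2 hx1 x hx.1 rfl)
  have hmain := H3.fpf_of_complement hK Q hKQ hfpf
  refine ⟨⟨hQ1, ?_, ?_⟩, ?_⟩
  · rintro rfl
    rw [inf_top_eq] at hinf
    exact hK1 hinf
  · intro g hg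
    rw [Subgroup.eq_bot_iff_forall]
    intro x hx
    by_contra hx1
    obtain ⟨k, hk, q, hq, rfl⟩ := mem_sup_of_normal_left.mp (show g ∈ K ⊔ Q by rw [hKQ]; exact mem_top g)
    have hxQ := hx.1
    obtain ⟨q', hq', hxq⟩ := hx.2
    have hxq' : k * q * q' * (k * q)⁻¹ = x := hxq
    set r := q * q' * q⁻¹ with hr
    have hrQ : r ∈ Q := mul_mem (mul_mem hq hq') (inv_mem hq)
    have hxr : k * r * k⁻¹ = x := by rw [← hxq', hr]; group
    have h1 : x * r⁻¹ ∈ K ⊓ Q := by
      refine ⟨?_, Q.mul_mem hxQ (Q.inv_mem hrQ)⟩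
      rw [← hxr]
      have e : k * r * k⁻¹ * r⁻¹ = k * (r * k⁻¹ * r⁻¹) := by group
      rw [e]
      exact mul_mem hk (hK.conj_mem _ (inv_mem hk) r)
    rw [hinf, mem_bot, mul_inv_eq_one] at h1
    have h2 : r * k = k * r := by
      rw [← h1] at hxr ⊢
      calc x * k = k * x * k⁻¹ * k := by rw [hxr]
        _ = k * x := by group
    have hr1 : r ≠ 1 := by rw [← h1]; exact hx1
    have h3 := hfpf r hrQ hr1 k hk h2
    apply hg
    rw [h3, one_mul]; exact hq
  · ext x
    constructor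
    · rintro (rfl | hx)
      · exact one_mem K
      · by_contra hxK
        obtain ⟨⟨h, hh, _, y, hy, hxy⟩, _⟩ := hmain x hxK
        apply hx y⁻¹
        refine ⟨h, hh, ?_⟩
        show y⁻¹ * h * y⁻¹⁻¹ = x
        rw [inv_inv]; exact hxy.symm
    · intro hx
      by_cases hx1 : x = 1
      · exact Or.inl hx1
      · right
        rintro g ⟨q, hq, hqx⟩
        have hqx' : g * q * g⁻¹ = x := hqx
        have h1 : q ∈ K ⊓ Q := by
          refine ⟨?_, hq⟩
          have := hK.conj_mem x hx g⁻¹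
          rw [← hqx'] at this
          have e : g⁻¹ * (g * q * g⁻¹) * g⁻¹⁻¹ = q := by group
          rwa [e] at this
        rw [hinf, mem_bot] at h1
        rw [h1] at hqx'
        apply hx1
        rw [← hqx']; group

def HNo (π : Set ℕ) (G : Type*) [Group G] : Prop :=
  ∀ x y : G, x * y = y * x → ∀ a b : ℕ, a.Prime → b.Prime → a ∣ orderOf x → b ∣ orderOf y → a ∈ π → b ∉ π → False

theorem HNo.symm {π : Set ℕ} {G : Type*} [Group G] (h : HNo π G) : HNo πᶜ G := by
  intro x y hxy a b ha hb hax hby haπ hbπ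
  exact h y x hxy.symm b a hb ha hby hax (by simpa using hbπ) haπ

theorem HNo.fix {π : Set ℕ} {G : Type*} [Group G] [Finite G] (h : HNo π G) {N Q : Subgroup G} (hN : IsPiSub π N)
    (hQ : IsPiSub πᶜ Q) : ∀ h ∈ Q, h ≠ 1 → ∀ k ∈ N, h * k = k * h → k = 1 := by
  intro q hq hq1 k hk hqk
  by_contra hk1
  obtain ⟨a, ha, hak⟩ := Nat.exists_prime_and_dvd (n := orderOf k) (by rwa [ne_eq, orderOf_eq_one_iff])
  obtain ⟨b, hb, hbq⟩ := Nat.exists_prime_and_dvd (n := orderOf q) (by rwa [ne_eq, orderOf_eq_one_iff])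
  exact h k q hqk.symm a b ha hb hak hbq
    (hN a ha (hak.trans (by rw [← Subgroup.orderOf_mk (H := N) k hk]; exact orderOf_dvd_natCard _)))
    (hQ b hb (hbq.trans (by rw [← Subgroup.orderOf_mk (H := Q) q hq]; exact orderOf_dvd_natCard _)))

theorem HNo.of_injective {π : Set ℕ} {G H : Type*} [Group G] [Group H] (h : HNo π G) (f : H →* G)
    (hf : Function.Injective f) : HNo π H := by
  intro x y hxy a b ha hb hax hby haπ hbπ
  refine h (f x) (f y) ?_ a b ha hb ?_ ?_ haπ hbπ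
  · rw [← map_mul, hxy, map_mul]
  · rwa [orderOf_injective f hf]
  · rwa [orderOf_injective f hf]

theorem piCore_ne_bot {G : Type*} [Group G] [Finite G] [Nontrivial G] (hG : Group.IsSolvable G) {π : Set ℕ}
    (h : Cfsg.piCore πᶜ G = ⊥) : Cfsg.piCore π G ≠ ⊥ := by
  obtain ⟨p, A, hp, hA, hA1, -, hAp⟩ := H1.exists_pgroup_characteristic_of_solvable G hG
  haveI := Fact.mk hp
  haveI := hA
  have hAn : A.Normal := inferInstance
  by_cases hpπ : p ∈ π
  · have h1 := H14.le_piCore hAn (OOT.isPiSub_of_isPGroup hpπ hAp)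
    intro h2
    rw [h2, le_bot_iff] at h1
    exact hA1 h1
  · have h1 := H14.le_piCore hAn (OOT.isPiSub_of_isPGroup (π := πᶜ) hpπ hAp)
    rw [h, le_bot_iff] at h1
    exact absurd h1 hA1

theorem commutator_centralizes_cyclic {H : Type*} [Group H] {C : Subgroup H} [hC : C.Normal] (hc : IsCyclic C) (g h : H) :
    ⁅g, h⁆ ∈ centralizer (C : Set H) := by
  obtain ⟨⟨c, hcC⟩, hgen⟩ := hc.exists_generator
  have hgen' : ∀ x ∈ C, ∃ k : ℤ, c ^ k = x := by
    intro x hx
    obtain ⟨k, hk⟩ := mem_zpowers_iff.mp (hgen ⟨x, hx⟩)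
    exact ⟨k, congrArg Subtype.val hk⟩
  obtain ⟨i, hi⟩ := hgen' _ (hC.conj_mem c hcC g)
  obtain ⟨j, hj⟩ := hgen' _ (hC.conj_mem c hcC h)
  have hconj : ∀ (u : H) (k : ℤ), u * c ^ k * u⁻¹ = (u * c * u⁻¹) ^ k := fun u k => by
    rw [conj_zpow]
  have h1 : (g * h) * c * (g * h)⁻¹ = (h * g) * c * (h * g)⁻¹ := by
    calc (g * h) * c * (g * h)⁻¹ = g * (h * c * h⁻¹) * g⁻¹ := by group
      _ = g * c ^ j * g⁻¹ := by rw [hj]
      _ = (g * c * g⁻¹) ^ j := hconj g j
      _ = (c ^ i) ^ j := by rw [hi]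
      _ = (c ^ j) ^ i := by rw [← zpow_mul, ← zpow_mul, mul_comm]
      _ = (h * c * h⁻¹) ^ i := by rw [hj]
      _ = h * c ^ i * h⁻¹ := (hconj h i).symm
      _ = h * (g * c * g⁻¹) * h⁻¹ := by rw [hi]
      _ = (h * g) * c * (h * g)⁻¹ := by group
  have h2 : ∀ d ∈ C, ⁅g, h⁆ * d * ⁅g, h⁆⁻¹ = d := by
    have key : ∀ d ∈ C, (g * h) * d * (g * h)⁻¹ = (h * g) * d * (h * g)⁻¹ := by
      intro d hd
      obtain ⟨k, rfl⟩ := hgen' d hd
      rw [hconj, hconj, h1]
    intro d hd
    set e := (h * g)⁻¹ * d * (h * g) with he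
    have heC : e ∈ C := by
      have := hC.conj_mem d hd (h * g)⁻¹
      rwa [inv_inv] at this
    have := key e heC
    rw [commutatorElement_def]
    calc g * h * g⁻¹ * h⁻¹ * d * (g * h * g⁻¹ * h⁻¹)⁻¹ = (g * h) * e * (g * h)⁻¹ := by rw [he]; group
      _ = (h * g) * e * (h * g)⁻¹ := this
      _ = d := by rw [he]; group
  rw [mem_centralizer_iff]
  intro d hd
  have := h2 d hd
  calc d * ⁅g, h⁆ = (⁅g, h⁆ * d * ⁅g, h⁆⁻¹) * ⁅g, h⁆ := by rw [this]
    _ = ⁅g, h⁆ * d := by group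

/-- A Frobenius quotient. -/
theorem upper {H : Type*} [Group H] [Finite H] (hH : Group.IsSolvable H) {π : Set ℕ} (hπ : Cfsg.piCore π H = ⊥)
    (hno : HNo π H) {a : ℕ} (ha : a.Prime) (haπ : a ∈ π) (haH : a ∣ Nat.card H)
    (hcyc : ∀ V : Subgroup H, V ≤ Cfsg.piCore πᶜ H → IsMulCommutative V → IsCyclic V) :
    ∃ R : Subgroup H, Cfsg.IsFrobeniusComplement R ∧ Cfsg.frobeniusKernel R = (Cfsg.piCore πᶜ H : Set H) := by
  set Kb := Cfsg.piCore πᶜ H with hKb
  have hKbπ : IsPiSub πᶜ Kb := H14.piCore_isPi πᶜ H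
  haveI := Fact.mk ha
  obtain ⟨x₀, hx₀⟩ := exists_prime_orderOf_dvd_card' a haH
  haveI hnt : Nontrivial H := ⟨x₀, 1, fun h => ha.one_lt.ne' (by rw [← hx₀, h, orderOf_one])⟩
  have hKb1 : Kb ≠ ⊥ := piCore_ne_bot hH (by rw [compl_compl]; exact hπ)
  -- the `p`-cores
  have hpc : ∀ p : ℕ, p.Prime → p ∈ π → Cfsg.pCore p H = ⊥ := by
    intro p hp hpπ
    haveI := Fact.mk hp
    have h1 := H14.le_piCore (π := π) (N := Cfsg.pCore p H) inferInstance (OOT.isPiSub_of_isPGroup hpπ (H1.pCore_isPGroup p H))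
    rw [hπ, le_bot_iff] at h1
    exact h1
  have hpcK : ∀ p : ℕ, p.Prime → Cfsg.pCore p H ≤ Kb := by
    intro p hp
    haveI := Fact.mk hp
    by_cases hpπ : p ∈ π
    · rw [hpc p hp hpπ]; exact bot_le
    · exact H14.le_piCore inferInstance (OOT.isPiSub_of_isPGroup (π := πᶜ) hpπ (H1.pCore_isPGroup p H))
  have hrank : ∀ p : ℕ, p.Prime → Cfsg.PRankLE p 1 (Cfsg.pCore p H) := by
    intro p hp A hAc hAp
    haveI := Fact.mk hp
    have h1 : IsMulCommutative (A.map (Cfsg.pCore p H).subtype) := by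
      refine ⟨⟨?_⟩⟩
      rintro ⟨_, a, ha, rfl⟩ ⟨_, b, hb, rfl⟩
      apply Subtype.ext
      have := congrArg (fun z : A => ((z : Cfsg.pCore p H) : H)) (hAc.is_comm.comm ⟨a, ha⟩ ⟨b, hb⟩)
      exact this
    have h2 := hcyc (A.map (Cfsg.pCore p H).subtype) ((map_subtype_le _).trans (hpcK p hp)) h1
    obtain ⟨⟨g, hg⟩, hgen⟩ := h2.exists_generator
    have h3 : Nat.card (A.map (Cfsg.pCore p H).subtype) ∣ p := by
      have e1 : Nat.card (A.map (Cfsg.pCore p H).subtype) = orderOf (⟨g, hg⟩ : A.map (Cfsg.pCore p H).subtype) :=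
        (orderOf_eq_card_of_forall_mem_zpowers hgen).symm
      rw [e1]
      apply orderOf_dvd_of_pow_eq_one
      apply Subtype.ext
      obtain ⟨a, ha, rfl⟩ := hg
      show ((Cfsg.pCore p H).subtype a) ^ p = 1
      rw [← map_pow, hAp a ha, map_one]
    rw [pow_one]
    rw [H1.card_map_subtype] at h3
    exact Nat.le_of_dvd hp.pos h3
  have hcP : ∀ p : ℕ, p.Prime → IsCyclic (Cfsg.pCore p H) := by
    intro p hp
    haveI := Fact.mk hp
    have hPp := H1.pCore_isPGroup p H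
    by_cases hp2 : p = 2
    · subst hp2
      have hbot : Cfsg.pCore 2 H = ⊥ := by
        by_contra hne
        have h1 : 2 ∣ Nat.card (Cfsg.pCore 2 H) := by
          obtain ⟨k, hk⟩ := IsPGroup.iff_card.mp hPp
          rcases k with _ | k
          · rw [pow_zero, card_eq_one] at hk; exact absurd hk hne
          · rw [hk, pow_succ]; exact Dvd.intro_left _ rfl
        obtain ⟨t, ht⟩ := exists_prime_orderOf_dvd_card' 2 h1
        have ht2 : t ^ 2 = 1 := by
          have := pow_orderOf_eq_one t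
          rwa [ht] at this
        have ht1 : t ≠ 1 := by
          rintro rfl
          rw [orderOf_one] at ht
          norm_num at ht
        have huq := H19.unique_order_p_of_rank_one hPp (hrank 2 hp)
        have hcen : ∀ g : H, g * t = t * g := by
          intro g
          have hmem : g * t * g⁻¹ ∈ Cfsg.pCore 2 H := (inferInstance : (Cfsg.pCore 2 H).Normal).conj_mem t t.2 g
          have h2 : (⟨g * t * g⁻¹, hmem⟩ : Cfsg.pCore 2 H) ^ 2 = 1 := by
            apply Subtype.ext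
            show (g * (t : H) * g⁻¹) ^ 2 = 1
            rw [conj_pow, show (t : H) ^ 2 = 1 from congrArg Subtype.val ht2, mul_one, mul_inv_cancel]
          have h3 := huq t ⟨g * t * g⁻¹, hmem⟩ ht2 h2 ht1
          classical
          rw [mem_zpowers_iff_mem_range_orderOf, ht] at h3
          simp only [Finset.mem_image, Finset.mem_range] at h3
          obtain ⟨i, hi, hit⟩ := h3
          have h4 : i = 0 ∨ i = 1 := by omega
          rcases h4 with rfl | rfl
          · exfalso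
            apply ht1
            rw [pow_zero] at hit
            have h5 : (1 : H) = g * t * g⁻¹ := congrArg Subtype.val hit
            apply Subtype.ext
            show (t : H) = 1
            calc (t : H) = g⁻¹ * (g * t * g⁻¹) * g := by group
              _ = 1 := by rw [← h5]; group
          · rw [pow_one] at hit
            have h5 : (t : H) = g * t * g⁻¹ := congrArg Subtype.val hit
            calc g * (t : H) = g * t * g⁻¹ * g := by group
              _ = t * g := by rw [← h5]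
        have h2π : 2 ∉ π := fun h => hne (hpc 2 hp h)
        refine hno x₀ t (hcen x₀) a 2 ha hp (by rw [hx₀]) ?_ haπ h2π
        rw [Subgroup.orderOf_coe, ht]
      rw [hbot]; infer_instance
    · exact H19.isCyclic_of_rank_one hp2 hPp (hrank p hp)
  -- `H / F` is abelian
  have hHF : ∀ g h : H, ⁅g, h⁆ ∈ Cfsg.fittingSubgroup H := by
    intro g h
    apply H1.centralizer_fitting_le hH
    rw [H1.fitting_eq_iSup_pCore]
    rw [mem_centralizer_iff]
    intro c hc
    have h1 : (⨆ p : Nat.Primes, Cfsg.pCore (p : ℕ) H) ≤ centralizer {⁅g, h⁆} := by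
      apply iSup_le
      intro p z hz
      haveI := hcP p p.2
      have h2 := commutator_centralizes_cyclic (C := Cfsg.pCore (p : ℕ) H) inferInstance g h
      rw [mem_centralizer_singleton_iff]
      exact mem_centralizer_iff.mp h2 z hz
    have h2 := h1 hc
    rw [mem_centralizer_singleton_iff] at h2
    exact h2
  have hFK : Cfsg.fittingSubgroup H ≤ Kb := by
    rw [H1.fitting_eq_iSup_pCore]
    exact iSup_le fun p => hpcK p p.2
  have hab : ∀ x y : H ⧸ Kb, x * y = y * x := by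
    intro x y
    obtain ⟨g, rfl⟩ := QuotientGroup.mk_surjective x
    obtain ⟨h, rfl⟩ := QuotientGroup.mk_surjective y
    rw [← commutatorElement_eq_one_iff_mul_comm]
    exact (QuotientGroup.eq_one_iff _).mpr (hFK (hHF g h))
  have hidx : ∀ b : ℕ, b.Prime → b ∈ πᶜ → ¬ b ∣ Kb.index := by
    intro b hb hbπ hd
    haveI := Fact.mk hb
    have hd' : b ∣ Nat.card (H ⧸ Kb) := hd
    obtain ⟨y, hy⟩ := exists_prime_orderOf_dvd_card' b hd'
    have hyn : (zpowers y).Normal := by
      constructor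
      intro n hn g
      rw [hab g n, mul_inv_cancel_right]; exact hn
    have h1 : zpowers y ≤ Cfsg.piCore πᶜ (H ⧸ Kb) := by
      apply H14.le_piCore hyn
      intro p hp hpd
      rw [Nat.card_zpowers, hy] at hpd
      rw [(Nat.prime_dvd_prime_iff_eq hp hb).mp hpd]
      exact hbπ
    rw [H14.piCore_quotient πᶜ H, le_bot_iff, zpowers_eq_bot] at h1
    rw [h1, orderOf_one] at hy
    exact hb.one_lt.ne hy
  have hKbH : IsPiHallOf πᶜ Kb ⊤ := ⟨le_top, hKbπ, fun p hp hpπ => by rw [relIndex_top_right]; exact hidx p hp hpπ⟩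
  obtain ⟨R, hR⟩ := OOT.hallOf_exists (M := (⊤ : Subgroup H)) (H1.isSolvable_of_le le_rfl (by
    haveI := hH; infer_instance)) π
  have hcomp := (OOT.IsPiHallOf.isComplIn (π := πᶜ) (π' := π) (fun p _ => by simp) hKbH hR).1
  have hsup : Kb ⊔ R = ⊤ := by
    rw [eq_top_iff]
    intro m _
    obtain ⟨u, hu, v, hv, rfl⟩ := hcomp.2.2.2 m (mem_top m)
    exact mul_mem (mem_sup_left hu) (mem_sup_right hv)
  have hR1 : R ≠ ⊥ := by
    rintro rfl
    rw [sup_bot_eq] at hsup
    have h1 := hKbπ a ha (by rw [hsup, card_top]; exact haH)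
    exact h1 haπ
  refine ⟨R, frob_int inferInstance hsup hKb1 hR1 ?_⟩
  exact hno.symm.fix hKbπ (by rw [compl_compl]; exact hR.2.1)

theorem lower {G : Type*} [Group G] [Finite G] (hG : Group.IsSolvable G) {π : Set ℕ} (hπ : Cfsg.piCore πᶜ G = ⊥)
    (hno : HNo π G) {a b : ℕ} (ha : a.Prime) (haπ : a ∈ π) (haG : a ∣ Nat.card G) (hb : b.Prime) (hbπ : b ∉ π)
    (hbG : b ∣ Nat.card G) :
    (∃ C : Subgroup G, Cfsg.IsFrobeniusComplement C) ∨
    (∃ (H K : Subgroup G) (_ : H.Normal), K.Normal ∧ H < K ∧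
      (∃ C : Subgroup ↥K, Cfsg.IsFrobeniusComplement C ∧ Cfsg.frobeniusKernel C = (H.subgroupOf K : Set ↥K)) ∧
      (∃ C : Subgroup (G ⧸ H), Cfsg.IsFrobeniusComplement C ∧ Cfsg.frobeniusKernel C = (K.map (QuotientGroup.mk' H) : Set (G ⧸ H)))) := by
  haveI := Fact.mk ha
  haveI := Fact.mk hb
  obtain ⟨x₀, hx₀⟩ := exists_prime_orderOf_dvd_card' a haG
  haveI hnt : Nontrivial G := ⟨x₀, 1, fun h => ha.one_lt.ne' (by rw [← hx₀, h, orderOf_one])⟩
  obtain ⟨N, hN⟩ : ∃ N, N = Cfsg.piCore π G := ⟨_, rfl⟩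
  haveI hNn : N.Normal := by rw [hN]; infer_instance
  have hNπ : IsPiSub π N := by rw [hN]; exact H14.piCore_isPi π G
  have hN1 : N ≠ ⊥ := by rw [hN]; exact piCore_ne_bot hG hπ
  have hquo : Cfsg.piCore π (G ⧸ N) = ⊥ := by
    subst hN
    exact H14.piCore_quotient π G
  set f := QuotientGroup.mk' N with hf
  have hfs : Function.Surjective f := QuotientGroup.mk'_surjective N
  have hker : f.ker = N := QuotientGroup.ker_mk' N
  have hsolq : Group.IsSolvable (G ⧸ N) := by haveI := hG; infer_instance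
  set Kb := Cfsg.piCore πᶜ (G ⧸ N) with hKb
  have hKbπ : IsPiSub πᶜ Kb := H14.piCore_isPi πᶜ _
  have hcardmap : ∀ K : Subgroup G, N ≤ K → Nat.card (K.map f) * Nat.card N = Nat.card K := by
    intro K hK
    have := H2.card_map_mul_card_inf_ker f K
    rwa [hker, inf_eq_right.mpr hK] at this
  have hbN : ¬ b ∣ Nat.card N := fun h => hbπ (hNπ b hb h)
  have hbq : b ∣ Nat.card (G ⧸ N) := by
    have h1 := N.card_eq_card_quotient_mul_card_subgroup
    rw [h1] at hbG
    exact (hb.dvd_mul.mp hbG).resolve_right hbN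
  haveI hntq : Nontrivial (G ⧸ N) := by
    obtain ⟨y, hy⟩ := exists_prime_orderOf_dvd_card' b hbq
    exact ⟨y, 1, fun h => hb.one_lt.ne' (by rw [← hy, h, orderOf_one])⟩
  have hKb1 : Kb ≠ ⊥ := piCore_ne_bot hsolq (by rw [compl_compl]; exact hquo)
  set K := Kb.comap f with hK
  haveI hKn : K.Normal := inferInstance
  have hNK : N ≤ K := by
    rw [← hker, hK]; exact MonoidHom.ker_le_comap _ _
  have hKmap : K.map f = Kb := map_comap_eq_self_of_surjective hfs Kb
  have hNKne : N ≠ K := by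
    intro h
    apply hKb1
    rw [← hKmap, ← h, eq_bot_iff]
    rintro _ ⟨n, hn, rfl⟩
    rw [mem_bot]
    exact (QuotientGroup.eq_one_iff n).mpr hn
  have hNlt : N < K := lt_of_le_of_ne hNK hNKne
  have hrel : N.relIndex K = Nat.card Kb := by
    have h1 := L.card_mul_relIndex hNK
    rw [← hcardmap K hNK, hKmap, mul_comm] at h1
    exact Nat.eq_of_mul_eq_mul_right Nat.card_pos h1
  have hNhall : IsPiHallOf π N K := ⟨hNK, hNπ, fun p hp hpπ hd => by
    rw [hrel] at hd
    exact hKbπ p hp hd hpπ⟩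
  have hsolK : Group.IsSolvable K := by haveI := hG; infer_instance
  obtain ⟨Q, hQ⟩ := OOT.hallOf_exists hsolK πᶜ
  have hcomp := (OOT.IsPiHallOf.isComplIn (π := π) (π' := πᶜ) (fun p _ => by simp) hNhall hQ).1
  have hsup : N ⊔ Q = K := by
    apply le_antisymm (sup_le hNK hQ.1)
    intro m hm
    obtain ⟨u, hu, v, hv, rfl⟩ := hcomp.2.2.2 m hm
    exact mul_mem (mem_sup_left hu) (mem_sup_right hv)
  have hinf : N ⊓ Q = ⊥ := hcomp.2.2.1
  have hQ1 : Q ≠ ⊥ := by
    rintro rfl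
    rw [sup_bot_eq] at hsup
    exact hNKne hsup
  have hfix := hno.fix hNπ hQ.2.1
  by_cases hKt : K = ⊤
  · left
    exact ⟨Q, (frob_int hNn (by rw [hsup, hKt]) hN1 hQ1 hfix).1⟩
  right
  refine ⟨N, K, hNn, hKn, hNlt, ⟨Q.subgroupOf K, ?_⟩, ?_⟩
  · apply frob_int
    · infer_instance
    · rw [← subgroupOf_sup hNK hQ.1, hsup, subgroupOf_self]
    · rw [ne_eq, subgroupOf_eq_bot, disjoint_iff, inf_eq_left.mpr hNK]; exact hN1
    · rw [ne_eq, subgroupOf_eq_bot, disjoint_iff, inf_eq_left.mpr hQ.1]; exact hQ1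
    · intro h hh hh1 k hk hhk
      have := hfix h hh (fun h0 => hh1 (Subtype.ext h0)) k hk (congrArg Subtype.val hhk)
      exact Subtype.ext this
  · -- the quotient
    set Lq := normalizer (Q : Set G) with hLq
    have hNL : N ⊔ Lq = ⊤ := by
      have h1 := OOT.hallOf_frattini_sup (M := (⊤ : Subgroup G)) hsolK le_top (by
        rw [Subgroup.normalizer_eq_top]) hQ
      rw [top_inf_eq] at h1
      rw [eq_top_iff, ← h1]
      apply sup_le
      · rw [← hsup]
        exact sup_le le_sup_left (le_normalizer.trans le_sup_right)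
      · exact le_sup_right
    have hNLinf : N ⊓ Lq = ⊥ := by
      rw [Subgroup.eq_bot_iff_forall]
      intro x hx
      obtain ⟨⟨q, hq⟩, hq1⟩ := (Subgroup.ne_bot_iff_exists_ne_one (H := Q)).mp hQ1
      have hq1' : q ≠ 1 := fun h => hq1 (Subtype.ext h)
      apply hfix q hq hq1' x hx.1
      have h1 : x * q * x⁻¹ * q⁻¹ ∈ N ⊓ Q := by
        refine ⟨?_, Q.mul_mem ((mem_normalizer_iff.mp hx.2 q).mp hq) (Q.inv_mem hq)⟩
        have e : x * q * x⁻¹ * q⁻¹ = x * (q * x⁻¹ * q⁻¹) := by group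
        rw [e]
        exact N.mul_mem hx.1 (hNn.conj_mem _ (N.inv_mem hx.1) q)
      rw [hinf, mem_bot, mul_inv_eq_one] at h1
      calc q * x = (x * q * x⁻¹) * x := by rw [h1]
        _ = x * q := by group
    have hinj : Function.Injective (f.comp Lq.subtype) := by
      rw [← MonoidHom.ker_eq_bot_iff, Subgroup.eq_bot_iff_forall]
      intro x hx
      have h1 : (x : G) ∈ N := (QuotientGroup.eq_one_iff _).mp hx
      have h2 : (x : G) ∈ N ⊓ Lq := ⟨h1, x.2⟩
      rw [hNLinf, mem_bot] at h2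
      exact Subtype.ext h2
    have hsurj : Function.Surjective (f.comp Lq.subtype) := by
      intro y
      obtain ⟨g, rfl⟩ := hfs y
      obtain ⟨n, hn, l, hl, rfl⟩ := mem_sup_of_normal_left.mp (show g ∈ N ⊔ Lq by rw [hNL]; exact mem_top g)
      refine ⟨⟨l, hl⟩, ?_⟩
      show f l = f (n * l)
      rw [map_mul, show f n = 1 from (QuotientGroup.eq_one_iff n).mpr hn, one_mul]
    let e : Lq ≃* G ⧸ N := MulEquiv.ofBijective _ ⟨hinj, hsurj⟩
    let ψ : G ⧸ N →* G := Lq.subtype.comp e.symm.toMonoidHom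
    have hψ : Function.Injective ψ := Lq.subtype_injective.comp e.symm.injective
    have hψf : ∀ y, f (ψ y) = y := fun y => e.apply_symm_apply y
    have hψL : ∀ y, ψ y ∈ Lq := fun y => (e.symm y).2
    have hψQ : ∀ y ∈ Kb, ψ y ∈ Q := by
      intro y hy
      have h1 : ψ y ∈ K := by
        show f (ψ y) ∈ Kb
        rw [hψf]; exact hy
      rw [← hsup] at h1
      obtain ⟨n, hn, q, hq, hnq⟩ := mem_sup_of_normal_left.mp h1
      have h2 : n ∈ N ⊓ Lq := by
        refine ⟨hn, ?_⟩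
        have h3 : n = ψ y * q⁻¹ := by rw [← hnq]; group
        rw [h3]
        exact Lq.mul_mem (hψL y) (Lq.inv_mem (le_normalizer hq))
      rw [hNLinf, mem_bot] at h2
      rw [← hnq, h2, one_mul]; exact hq
    have hnoq : HNo π (G ⧸ N) := hno.of_injective ψ hψ
    -- a prime of `π` dividing the order
    obtain ⟨a', ha', ha'π, ha'G⟩ : ∃ a' : ℕ, a'.Prime ∧ a' ∈ π ∧ a' ∣ Nat.card (G ⧸ N) := by
      haveI : Nontrivial ((G ⧸ N) ⧸ Kb) := by
        by_contra hcon
        rw [not_nontrivial_iff_subsingleton] at hcon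
        apply hKt
        have h1 : Kb = ⊤ := by
          rw [eq_top_iff]
          intro y _
          exact (QuotientGroup.eq_one_iff y).mp (Subsingleton.elim _ _)
        rw [hK, h1, comap_top]
      have h1 : Cfsg.piCore π ((G ⧸ N) ⧸ Kb) ≠ ⊥ := piCore_ne_bot (by haveI := hsolq; infer_instance) (H14.piCore_quotient πᶜ _)
      have h2 : Nat.card (Cfsg.piCore π ((G ⧸ N) ⧸ Kb)) ≠ 1 := by rwa [ne_eq, card_eq_one]
      obtain ⟨a', ha', hd⟩ := Nat.exists_prime_and_dvd h2
      refine ⟨a', ha', H14.piCore_isPi π _ a' ha' hd, ?_⟩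
      exact hd.trans ((Subgroup.card_subgroup_dvd_card _).trans (Subgroup.card_quotient_dvd_card Kb))
    obtain ⟨R, hR1, hR2⟩ := upper hsolq hquo hnoq ha' ha'π ha'G (by
      intro V hV hVc
      by_contra hnc
      have hVQ : V.map ψ ≤ Q := by
        rintro _ ⟨v, hv, rfl⟩
        exact hψQ v (hV hv)
      have hc' : IsMulCommutative (V.map ψ) := by
        refine ⟨⟨?_⟩⟩
        rintro ⟨_, a, ha, rfl⟩ ⟨_, b, hb, rfl⟩
        apply Subtype.ext
        have := congrArg (fun z : V => ψ (z : G ⧸ N)) (hVc.is_comm.comm ⟨a, ha⟩ ⟨b, hb⟩)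
        simpa using this
      have hnc' : ¬ IsCyclic (V.map ψ) := by
        intro h
        apply hnc
        exact (MulEquiv.isCyclic (V.equivMapOfInjective ψ hψ)).mpr h
      have hcop : (Nat.card (V.map ψ)).Coprime (Nat.card N) := by
        apply Nat.coprime_of_dvd
        intro p hp h1 h2
        exact hQ.2.1 p hp (h1.trans (card_dvd_of_le hVQ)) (hNπ p hp h2)
      have h1 := iSup_centralizer_of_not_isCyclic hc' hnc' (G := N) le_normalizer_of_normal hcop
      apply hN1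
      rw [← h1, eq_bot_iff]
      apply iSup_le
      rintro ⟨v, hv, hv1⟩ x hx
      rw [mem_bot]
      apply hfix v (hVQ hv) hv1 x hx.1
      have h2 : x ∈ centralizer {v} := hx.2
      rw [mem_centralizer_singleton_iff] at h2
      exact h2.symm)
    refine ⟨R, hR1, ?_⟩
    rw [hR2, hKmap]
end aux

/-- A finite solvable group whose prime graph (prime divisors of the order, two distinct primes joined when there is an element of order their product) is disconnected is a Frobenius group or a 2-Frobenius group (it has normal subgroups H < K with K a Frobenius group with kernel H and G/H a Frobenius group with kernel K/H). -/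
theorem result {G : Type*} [Group G] [Finite G] (hsol : Group.IsSolvable G)
    (hdisc : (∃ A : Set ℕ, (∃ a ∈ A, a.Prime ∧ a ∣ Nat.card G) ∧ (∃ b ∉ A, b.Prime ∧ b ∣ Nat.card G) ∧
      ∀ a ∈ A, ∀ b ∉ A, a.Prime → b.Prime → a ∣ Nat.card G → b ∣ Nat.card G → ¬ ∃ g : G, orderOf g = a * b)) :
    (∃ C : Subgroup G, Cfsg.IsFrobeniusComplement C) ∨
    (∃ (H K : Subgroup G) (_ : H.Normal), K.Normal ∧ H < K ∧
      (∃ C : Subgroup ↥K, Cfsg.IsFrobeniusComplement C ∧ Cfsg.frobeniusKernel C = (H.subgroupOf K : Set ↥K)) ∧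
      (∃ C : Subgroup (G ⧸ H), Cfsg.IsFrobeniusComplement C ∧ Cfsg.frobeniusKernel C = (K.map (QuotientGroup.mk' H) : Set (G ⧸ H)))) := by
  obtain ⟨A, ⟨a, haA, ha, haG⟩, ⟨b, hbA, hb, hbG⟩, hA⟩ := hdisc
  have hno : HNo A G := by
    intro x y hxy p q hp hq hpx hqy hpA hqA
    have hpG : p ∣ Nat.card G := hpx.trans (orderOf_dvd_natCard x)
    have hqG : q ∣ Nat.card G := hqy.trans (orderOf_dvd_natCard y)
    have hpq : p ≠ q := fun h => hqA (h ▸ hpA)
    apply hA p hpA q hqA hp hq hpG hqG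
    refine ⟨x ^ (orderOf x / p) * y ^ (orderOf y / q), ?_⟩
    have h1 : orderOf (x ^ (orderOf x / p)) = p := orderOf_pow_orderOf_div (orderOf_pos x).ne' hpx
    have h2 : orderOf (y ^ (orderOf y / q)) = q := orderOf_pow_orderOf_div (orderOf_pos y).ne' hqy
    have hc : Commute (x ^ (orderOf x / p)) (y ^ (orderOf y / q)) := (show Commute x y from hxy).pow_pow _ _
    rw [hc.orderOf_mul_eq_mul_orderOf_of_coprime, h1, h2]
    rw [h1, h2]
    exact (Nat.coprime_primes hp hq).mpr hpq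
  by_cases hπ : Cfsg.piCore Aᶜ G = ⊥
  · exact lower hsol hπ hno ha haA haG hb hbA hbG
  · have hπ' : Cfsg.piCore A G = ⊥ := by
      by_contra hne
      obtain ⟨⟨x, hx⟩, hx1⟩ := (Subgroup.ne_bot_iff_exists_ne_one (H := Cfsg.piCore A G)).mp hne
      obtain ⟨⟨y, hy⟩, hy1⟩ := (Subgroup.ne_bot_iff_exists_ne_one (H := Cfsg.piCore Aᶜ G)).mp hπ
      have hx1' : x ≠ 1 := fun h => hx1 (Subtype.ext h)
      have hy1' : y ≠ 1 := fun h => hy1 (Subtype.ext h)
      have h1 : Cfsg.piCore A G ⊓ Cfsg.piCore Aᶜ G = ⊥ := by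
        apply OOT.inf_eq_bot_of_pi (π := A) (π' := Aᶜ) (fun p _ h h' => h' h)
        · exact H14.piCore_isPi A G
        · exact H14.piCore_isPi Aᶜ G
      have h2 : x * y * x⁻¹ * y⁻¹ ∈ Cfsg.piCore A G ⊓ Cfsg.piCore Aᶜ G := by
        refine ⟨?_, ?_⟩
        · have e : x * y * x⁻¹ * y⁻¹ = x * (y * x⁻¹ * y⁻¹) := by group
          rw [e]
          exact Subgroup.mul_mem _ hx ((inferInstance : (Cfsg.piCore A G).Normal).conj_mem _ (Subgroup.inv_mem _ hx) y)
        · exact Subgroup.mul_mem _ ((inferInstance : (Cfsg.piCore Aᶜ G).Normal).conj_mem _ hy x) (Subgroup.inv_mem _ hy)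
      rw [h1, Subgroup.mem_bot, mul_inv_eq_one] at h2
      apply hx1'
      apply hno.fix (H14.piCore_isPi A G) (H14.piCore_isPi Aᶜ G) y hy hy1' x hx
      calc y * x = (x * y * x⁻¹) * x := by rw [h2]
        _ = x * y := by group
    exact lower hsol (π := Aᶜ) (by rw [compl_compl]; exact hπ') hno.symm hb hbA hbG ha (by simpa using haA) haG

end Cfsg.Agent.S3857
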