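import Cfsg.Statements.S3858
import Cfsg.Agent.H1.Basic
import Cfsg.Agent.H1.Sylow

set_option autoImplicit false
set_option linter.all false
open Cfsg

namespace Cfsg.Agent.S3858

section aux
open Subgroup
open scoped Pointwise

theorem norm_ne_top {G : Type*} [Group G] [Finite G] (T : Subgroup G) [hTn : T.Normal] (hT : IsSimpleGroup T)
    (hna : ¬ IsMulCommutative T) {r : ℕ} [Fact r.Prime] (R : Subgroup G) (hRp : IsPGroup r R)
    (hR0 : R ⊓ T ≠ ⊥) : normalizer ((R ⊓ T : Subgroup G) : Set G) ≠ ⊤ := by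
  intro h
  have hn : (R ⊓ T).Normal := normalizer_eq_top_iff.mp h
  have h1 : ((R ⊓ T).subgroupOf T).Normal := inferInstance
  rcases h1.eq_bot_or_eq_top with h2 | h2
  · rw [subgroupOf_eq_bot, disjoint_iff, inf_assoc, inf_idem] at h2
    exact hR0 h2
  · rw [subgroupOf_eq_top] at h2
    have h3 : T ≤ R := h2.trans inf_le_left
    have hTp : IsPGroup r T := hRp.to_le h3
    haveI : Nontrivial T := hT.toNontrivial
    have h4 := hTp.center_nontrivial
    rcases (inferInstance : (center T).Normal).eq_bot_or_eq_top with h5 | h5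
    · rw [h5] at h4
      exact not_subsingleton _ (inferInstance : Subsingleton (⊥ : Subgroup T))
    · apply hna
      refine ⟨⟨fun a b => ?_⟩⟩
      have : a ∈ center T := by rw [h5]; exact mem_top a
      exact (mem_center_iff.mp this b).symm

theorem coatom_conj {G : Type*} [Group G] {M : Subgroup G} (hM : IsCoatom M) (g : G) :
    IsCoatom (MulAut.conj g • M) := by
  have := (OrderIso.isCoatom_iff (MulEquiv.mapSubgroup (MulAut.conj g)) M).mpr hM
  exact this

theorem index_conj {G : Type*} [Group G] (M : Subgroup G) (g : G) :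
    (MulAut.conj g • M).index = M.index := by
  exact index_map_equiv M (MulAut.conj g)

theorem aux {G : Type*} [Group G] [Finite G] (T : Subgroup G) [T.Normal] (hT : IsSimpleGroup T) (hna : ¬ IsMulCommutative T)
    (hC : Subgroup.centralizer (T : Set G) = ⊥) {r : ℕ} [Fact r.Prime] (R : Sylow r G) (hR0 : (R : Subgroup G) ⊓ T ≠ ⊥) :
    (∃! M : Subgroup G, IsCoatom M ∧ (R : Subgroup G) ≤ M) ↔
      ((∃ M : Subgroup G, IsCoatom M ∧ ¬ r ∣ M.index) ∧
        ∀ M₁ M₂ : Subgroup G, IsCoatom M₁ → ¬ r ∣ M₁.index → IsCoatom M₂ → ¬ r ∣ M₂.index → ∃ g : G, M₂ = M₁.map (MulAut.conj g).toMonoidHom) := by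
  classical
  have hcop : ∀ M : Subgroup G, (R : Subgroup G) ≤ M → ¬ r ∣ M.index := fun M hM h =>
    R.not_dvd_index (h.trans (index_dvd_of_le hM))
  have hex : ∀ M : Subgroup G, ¬ r ∣ M.index → ∃ g : G, (R : Subgroup G) ≤ MulAut.conj g • M := by
    intro M hM
    obtain ⟨g, hg⟩ := H1.exists_conj_le_of_not_dvd_index R.isPGroup' hM
    refine ⟨g⁻¹, ?_⟩
    rw [Subgroup.subset_pointwise_smul_iff, map_inv, inv_inv]
    exact hg
  constructor
  · rintro ⟨M, ⟨hM, hRM⟩, huniq⟩
    refine ⟨⟨M, hM, hcop M hRM⟩, ?_⟩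
    intro M₁ M₂ h1 h1' h2 h2'
    obtain ⟨g₁, hg₁⟩ := hex M₁ h1'
    obtain ⟨g₂, hg₂⟩ := hex M₂ h2'
    have e1 := huniq _ ⟨coatom_conj h1 g₁, hg₁⟩
    have e2 := huniq _ ⟨coatom_conj h2 g₂, hg₂⟩
    refine ⟨g₂⁻¹ * g₁, ?_⟩
    change M₂ = MulAut.conj (g₂⁻¹ * g₁) • M₁
    rw [map_mul, mul_smul, e1, ← e2, map_inv, inv_smul_smul]
  · rintro ⟨⟨M₀, hM₀, hM₀'⟩, hall⟩
    obtain ⟨g₀, hg₀⟩ := hex M₀ hM₀'
    have hallR : ∀ M₁ M₂ : Subgroup G, IsCoatom M₁ → (R : Subgroup G) ≤ M₁ → IsCoatom M₂ → (R : Subgroup G) ≤ M₂ →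
        ∃ g : G, M₂ = MulAut.conj g • M₁ := fun M₁ M₂ a b c d => hall M₁ M₂ a (hcop _ b) c (hcop _ d)
    -- a maximal subgroup above the normalizer of R
    have hNR : normalizer ((R : Subgroup G) : Set G) ≠ ⊤ := by
      intro h
      apply norm_ne_top T hT hna (R : Subgroup G) R.isPGroup' hR0
      have : (R : Subgroup G).Normal := normalizer_eq_top_iff.mp h
      exact normalizer_eq_top_iff.mpr inferInstance
    obtain ⟨M, hM, hNM⟩ := (eq_top_or_exists_le_coatom (normalizer ((R : Subgroup G) : Set G))).resolve_left hNR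
    have hRM : (R : Subgroup G) ≤ M := le_normalizer.trans hNM
    refine ⟨M, ⟨hM, hRM⟩, ?_⟩
    rintro M₁ ⟨hM₁, hRM₁⟩
    obtain ⟨g, hg⟩ := hallR M M₁ hM hRM hM₁ hRM₁
    -- R and its conjugate by g⁻¹ both lie in M
    have h1 : ((g⁻¹ • R : Sylow r G) : Subgroup G) ≤ M := by
      rw [Sylow.coe_subgroup_smul]
      rw [hg] at hRM₁
      change MulAut.conj g⁻¹ • (R : Subgroup G) ≤ M
      rw [map_inv]
      intro x hx
      have hx' := Subgroup.mem_inv_pointwise_smul_iff.mp hx
      have := hRM₁ hx'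
      exact (Subgroup.smul_mem_pointwise_smul_iff).mp this
    obtain ⟨m, hm⟩ := MulAction.exists_smul_eq M ((g⁻¹ • R).subtype h1) (R.subtype hRM)
    rw [Sylow.smul_subtype] at hm
    have h2 : ((m : G) • (g⁻¹ • R)) = R := Sylow.subtype_injective hm
    rw [← mul_smul] at h2
    have h3 : (m : G) * g⁻¹ ∈ normalizer ((R : Subgroup G) : Set G) := Sylow.smul_eq_iff_mem_normalizer.mp h2
    have h4 : g ∈ M := by
      have := hNM h3
      have h5 := (M.mul_mem_cancel_left m.2).mp this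
      simpa using M.inv_mem h5
    rw [hg]
    exact Subgroup.conj_smul_eq_self_of_mem h4
end aux

/-- Let G be a finite group with a normal non-abelian simple subgroup T whose centralizer is trivial (G almost simple with socle T), r a prime and R a Sylow r-subgroup of G meeting T nontrivially. Then R lies in exactly one maximal subgroup of G if and only if G has exactly one conjugacy class of maximal subgroups whose index is prime to r. -/
theorem result {G : Type*} [Group G] [Finite G] (T : Subgroup G) [T.Normal] (hT : IsSimpleGroup T) (hna : ¬ IsMulCommutative T)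
    (hC : Subgroup.centralizer (T : Set G) = ⊥) {r : ℕ} [Fact r.Prime] (R : Sylow r G) (hR0 : (R : Subgroup G) ⊓ T ≠ ⊥) :
    (∃! M : Subgroup G, IsCoatom M ∧ (R : Subgroup G) ≤ M) ↔
      ((∃ M : Subgroup G, IsCoatom M ∧ ¬ r ∣ M.index) ∧
        ∀ M₁ M₂ : Subgroup G, IsCoatom M₁ → ¬ r ∣ M₁.index → IsCoatom M₂ → ¬ r ∣ M₂.index → ∃ g : G, M₂ = M₁.map (MulAut.conj g).toMonoidHom) := by
  exact aux T hT hna hC R hR0

end Cfsg.Agent.S3858
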