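import Cfsg.Statements.S3859
import Cfsg.Agent.H1.Cores
import Cfsg.Agent.H1.Basic
import Cfsg.Agent.H1.Sylow
import Cfsg.Agent.H2.Basic

set_option autoImplicit false
set_option linter.all false
open Cfsg

namespace Cfsg.Agent.S3859

section aux
open Subgroup
open scoped Pointwise

theorem norm_ne_top {G : Type*} [Group G] [Finite G] (T : Subgroup G) [hTn : T.Normal] (hT : IsSimpleGroup T)
    (hna : ¬ IsMulCommutative T) {r : ℕ} [Fact r.Prime] (R : Subgroup G) (hRp : IsPGroup r R)
    (hR0 : R ⊓ T ≠ ⊥) : normalizer ((R ⊓ T : Subgroup G) : Set G) ≠ ⊤ := by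
  intro h
  have hn : (R ⊓ T).Normal := normalizer_eq_top_iff.mp h
  have h1 : ((R ⊓ T).subgroupOf T).Normal := inferInstance
  rcases h1.eq_bot_or_eq_top with h2 | h2
  · rw [subgroupOf_eq_bot, disjoint_iff, inf_assoc, inf_idem] at h2
    exact hR0 h2
  · rw [subgroupOf_eq_top] at h2
    have h3 : T ≤ R := h2.trans inf_le_left
    have hTp : IsPGroup r T := hRp.to_le h3
    haveI : Nontrivial T := hT.toNontrivial
    have h4 := hTp.center_nontrivial
    rcases (inferInstance : (center T).Normal).eq_bot_or_eq_top with h5 | h5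
    · rw [h5] at h4
      exact not_subsingleton _ (inferInstance : Subsingleton (⊥ : Subgroup T))
    · apply hna
      refine ⟨⟨fun a b => ?_⟩⟩
      have : a ∈ center T := by rw [h5]; exact mem_top a
      exact (mem_center_iff.mp this b).symm

theorem aux {G : Type*} [Group G] [Finite G] (T : Subgroup G) [T.Normal] (hT : IsSimpleGroup T) (hna : ¬ IsMulCommutative T)
    (hC : Subgroup.centralizer (T : Set G) = ⊥) {r : ℕ} [Fact r.Prime] (R : Sylow r G) (hR0 : (R : Subgroup G) ⊓ T ≠ ⊥)
    (huniq : ∃! M : Subgroup G, IsCoatom M ∧ (R : Subgroup G) ≤ M) : IsPGroup r (G ⧸ T) := by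
  classical
  obtain ⟨M, ⟨hM, hRM⟩, huniq⟩ := huniq
  have hN := norm_ne_top T hT hna (R : Subgroup G) R.isPGroup' hR0
  set N := normalizer (((R : Subgroup G) ⊓ T : Subgroup G) : Set G) with hNdef
  have hRN : (R : Subgroup G) ≤ N := by
    have h1 : (R : Subgroup G) ≤ normalizer ((R : Subgroup G) : Set G) := le_normalizer
    have h2 : (R : Subgroup G) ≤ normalizer (T : Set G) := le_normalizer_of_normal
    intro x hx
    have := h1 hx
    rw [hNdef, H1.mem_normalizer_iff_conj_smul, H1.conj_smul_inf, H1.conj_smul_normal (N := T)]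
    rw [H1.mem_normalizer_iff_conj_smul.mp this]
  obtain ⟨M', hM', hNM'⟩ := (eq_top_or_exists_le_coatom N).resolve_left hN
  have e1 : M' = M := huniq M' ⟨hM', hRN.trans hNM'⟩
  subst e1
  -- R ⊓ T is Sylow in T
  have hp1 : IsPGroup r ((R : Subgroup G).subgroupOf T) := R.isPGroup'.comap_of_injective _ T.subtype_injective
  have hp2 : ¬ r ∣ ((R : Subgroup G).subgroupOf T).index := by
    change ¬ r ∣ (R : Subgroup G).relIndex T
    intro hd
    have h1 := H2.card_sup_mul_card_inf (R : Subgroup G) T
    have h2 := card_mul_index (R : Subgroup G)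
    have h3 : Nat.card ((R : Subgroup G) ⊓ T : Subgroup G) * (R : Subgroup G).relIndex T = Nat.card T := by
      have := H1.card_mul_relIndex (H := T) (K := (R : Subgroup G) ⊓ T) inf_le_right
      rwa [inf_relIndex_right] at this
    have h4 : Nat.card ((R : Subgroup G) ⊔ T : Subgroup G) = Nat.card (R : Subgroup G) * (R : Subgroup G).relIndex T := by
      rw [← h3] at h1
      have hpos : 0 < Nat.card ((R : Subgroup G) ⊓ T : Subgroup G) := Nat.card_pos
      apply Nat.eq_of_mul_eq_mul_right hpos
      rw [h1]; ring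
    have h5 : Nat.card ((R : Subgroup G) ⊔ T : Subgroup G) ∣ Nat.card G := card_subgroup_dvd_card _
    rw [h4, ← h2] at h5
    have h6 := Nat.dvd_of_mul_dvd_mul_left Nat.card_pos h5
    exact R.not_dvd_index (hd.trans h6)
  let P : Sylow r T := hp1.toSylow hp2
  have hF := Sylow.normalizer_sup_eq_top P
  have hPm : ((P : Subgroup T).map T.subtype) = (R : Subgroup G) ⊓ T := by
    rw [IsPGroup.toSylow_coe, subgroupOf_map_subtype]
  rw [hPm, ← hNdef] at hF
  have hTM : ¬ T ≤ M' := by
    intro h
    have : (⊤ : Subgroup G) ≤ M' := by rw [← hF]; exact sup_le hNM' h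
    exact hM'.1 (top_le_iff.mp this)
  have hRT : (R : Subgroup G) ⊔ T = ⊤ := by
    by_contra h
    obtain ⟨M₂, hM₂, hle⟩ := (eq_top_or_exists_le_coatom _).resolve_left h
    have e2 : M₂ = M' := huniq M₂ ⟨hM₂, le_sup_left.trans hle⟩
    subst e2
    exact hTM (le_sup_right.trans hle)
  -- conclude
  have h3 : (R : Subgroup G).map (QuotientGroup.mk' T) = ⊤ := by
    have : ((R : Subgroup G) ⊔ T).map (QuotientGroup.mk' T) = ⊤ := by
      rw [hRT, ← MonoidHom.range_eq_map, QuotientGroup.range_mk']
    rw [Subgroup.map_sup] at this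
    rwa [show T.map (QuotientGroup.mk' T) = ⊥ by
      rw [Subgroup.map_eq_bot_iff, QuotientGroup.ker_mk'], sup_bot_eq] at this
  have h4 := R.isPGroup'.map (QuotientGroup.mk' T)
  rw [h3] at h4
  exact h4.of_equiv topEquiv
end aux

/-- Let G be a finite group with a normal non-abelian simple subgroup T whose centralizer is trivial (G almost simple with socle T), r a prime and R a Sylow r-subgroup of G meeting T nontrivially. If R lies in exactly one maximal subgroup of G, then G/T is an r-group. -/
theorem result {G : Type*} [Group G] [Finite G] (T : Subgroup G) [T.Normal] (hT : IsSimpleGroup T) (hna : ¬ IsMulCommutative T)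
    (hC : Subgroup.centralizer (T : Set G) = ⊥) {r : ℕ} [Fact r.Prime] (R : Sylow r G) (hR0 : (R : Subgroup G) ⊓ T ≠ ⊥)
    (huniq : ∃! M : Subgroup G, IsCoatom M ∧ (R : Subgroup G) ≤ M) : IsPGroup r (G ⧸ T) := by
  exact aux T hT hna hC R hR0 huniq

end Cfsg.Agent.S3859
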