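import Cfsg.Statements.S3861
import Cfsg.Agent.H24.CoprimeLift

set_option autoImplicit false
set_option linter.all false
open Cfsg

namespace Cfsg.Agent.S3861

section aux
open Subgroup

theorem aux {G : Type*} [Group G] [Finite G] (P : Sylow 2 G) : (∀ x : G, x ≠ 1 → Odd (orderOf x) → ¬ IsConj x x⁻¹) ↔ (P : Subgroup G).Normal := by
  haveI : Fact (Nat.Prime 2) := ⟨Nat.prime_two⟩
  constructor
  · intro h
    apply H24.sylow_two_normal_of_no_inversion
    intro t y hy hty
    by_contra hy1
    exact h y hy1 hy (isConj_iff.mpr ⟨t, hty⟩)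
  · intro hP x hx1 hodd hconj
    obtain ⟨g, hg⟩ := isConj_iff.mp hconj
    have hpow : ∀ m : ℕ, g ^ m * x * (g ^ m)⁻¹ = if Odd m then x⁻¹ else x := by
      intro m
      induction m with
      | zero => simp
      | succ m ih =>
        have h1 : g ^ (m + 1) * x * (g ^ (m + 1))⁻¹ = g * (g ^ m * x * (g ^ m)⁻¹) * g⁻¹ := by rw [pow_succ']; group
        rw [h1, ih]
        by_cases hm : Odd m
        · have hm' : ¬ Odd (m + 1) := by rw [Nat.not_odd_iff_even]; exact hm.add_one
          rw [if_pos hm, if_neg hm']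
          have h2 : g * x⁻¹ * g⁻¹ = (g * x * g⁻¹)⁻¹ := by group
          rw [h2, hg, inv_inv]
        · have hm' : Odd (m + 1) := (Nat.not_odd_iff_even.mp hm).add_one
          rw [if_neg hm, if_pos hm', hg]
    obtain ⟨a, m, hm, hgm⟩ := Nat.exists_eq_two_pow_mul_odd (n := orderOf g) (orderOf_pos g).ne'
    have h1 := hpow m
    rw [if_pos hm] at h1
    have h2 : g ^ m ∈ (P : Subgroup G) := by
      have h3 : IsPGroup 2 (zpowers (g ^ m)) := by
        apply IsPGroup.of_card (n := a)
        rw [Nat.card_zpowers, orderOf_pow' g hm.pos.ne', hgm]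
        rw [Nat.gcd_eq_right (Dvd.intro_left _ rfl), Nat.mul_div_cancel _ hm.pos]
      obtain ⟨Q, hQ⟩ := h3.exists_le_sylow
      have h4 : Q = P := by
        have := Sylow.unique_of_normal P hP
        exact Subsingleton.elim _ _
      rw [h4] at hQ
      exact hQ (mem_zpowers _)
    have h3 : x⁻¹ * x⁻¹ ∈ (P : Subgroup G) := by
      have h4 := mul_mem h2 (hP.conj_mem _ (inv_mem h2) x)
      have h5 : g ^ m * (x * (g ^ m)⁻¹ * x⁻¹) = x⁻¹ * x⁻¹ := by rw [← h1]; group
      rwa [h5] at h4
    obtain ⟨k, hk⟩ := (IsPGroup.iff_orderOf.mp P.2) ⟨_, h3⟩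
    rw [orderOf_mk] at hk
    have h6 : orderOf (x⁻¹ * x⁻¹) ∣ orderOf x := by
      rw [orderOf_dvd_iff_pow_eq_one, ← pow_two, ← pow_mul, mul_comm, pow_mul, inv_pow, pow_orderOf_eq_one]
      simp
    have h7 : k = 0 := by
      by_contra hk0
      rw [hk] at h6
      have h8 : 2 ∣ orderOf x := (dvd_pow_self 2 hk0).trans h6
      exact (Nat.not_even_iff_odd.mpr hodd) (even_iff_two_dvd.mpr h8)
    rw [h7, pow_zero, orderOf_eq_one_iff] at hk
    have h8 : x ^ 2 = 1 := by
      have : x ^ 2 = (x⁻¹ * x⁻¹)⁻¹ := by rw [mul_inv_rev, inv_inv, pow_two]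
      rw [this, hk, inv_one]
    have h9 : orderOf x ∣ 2 := orderOf_dvd_of_pow_eq_one h8
    rcases (Nat.dvd_prime Nat.prime_two).mp h9 with h10 | h10
    · exact hx1 (orderOf_eq_one_iff.mp h10)
    · rw [h10] at hodd
      exact absurd hodd (by decide)
end aux

/-- A finite group G has no non-identity element of odd order that is conjugate to its inverse if and only if the Sylow 2-subgroups of G are normal. -/
theorem result {G : Type*} [Group G] [Finite G] (P : Sylow 2 G) : (∀ x : G, x ≠ 1 → Odd (orderOf x) → ¬ IsConj x x⁻¹) ↔ (P : Subgroup G).Normal := by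
  exact aux P

end Cfsg.Agent.S3861
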