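import Cfsg.Statements.S3862
import Cfsg.Agent.H3.Counting
import Cfsg.Agent.H2.Frobenius
import Cfsg.Agent.H23.Coprime2
import Cfsg.Agent.H29.XS

set_option autoImplicit false
set_option linter.all false
open Cfsg

namespace Cfsg.Agent.S3862

section aux
open Subgroup
open scoped commutatorElement ComplexConjugate
universe u

/-- An automorphism of odd order fixing all real elements fixes all homomorphisms to `{±1}`. -/
theorem real_hom {Q : Type u} [Group Q] [Finite Q] (α : MulAut Q) {m : ℕ} (hm : Odd m) (hαm : α ^ m = 1)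
    (hreal : ∀ x : Q, IsConj x x⁻¹ → α x = x) (μ : Q →* ℂˣ) (hμ : ∀ x, μ x * μ x = 1) (x : Q) : μ (α⁻¹ x) = μ x := by
  classical
  have hinv : ∀ k : ℕ, ∀ x, (α⁻¹ ^ k) x = (α ^ k)⁻¹ x := fun k x => by rw [inv_pow]
  let ac : IrrCharacter Q → IrrCharacter Q := fun χ => ⟨_, (H3.isIrr_comp_equiv_iff (α⁻¹ : MulAut Q)).mpr χ.2⟩
  have hac : ∀ (χ : IrrCharacter Q) g, (ac χ : Q → ℂ) g = (χ : Q → ℂ) (α⁻¹ g) := fun χ g => rfl
  let ca : Equiv.Perm (ConjClasses Q) := {
    toFun := ConjClasses.map (α : Q ≃* Q).toMonoidHom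
    invFun := ConjClasses.map ((α : Q ≃* Q).symm).toMonoidHom
    left_inv := by
      intro C
      obtain ⟨g, rfl⟩ := ConjClasses.mk_surjective C
      change ConjClasses.mk ((α : Q ≃* Q).symm (α g)) = _
      simp
    right_inv := by
      intro C
      obtain ⟨g, rfl⟩ := ConjClasses.mk_surjective C
      change ConjClasses.mk (α ((α : Q ≃* Q).symm g)) = _
      simp }
  let σ : IrrCharacter Q → IrrCharacter Q := fun χ => H3.irrConj (ac χ)
  let τ : Equiv.Perm (ConjClasses Q) := ca.trans (H3.classInv Q)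
  have hτ : ∀ g, τ (ConjClasses.mk g) = ConjClasses.mk (α g)⁻¹ := fun g => rfl
  have h1 := H3.brauer_perm_lemma σ τ (by
    intro χ g g' h
    rw [hτ] at h
    have h2 : IsConj g' (α g)⁻¹ := ConjClasses.mk_eq_mk_iff_isConj.mp h
    have h3 : IsConj (α⁻¹ g') g⁻¹ := by
      have := MonoidHom.map_isConj ((α⁻¹ : MulAut Q) : Q ≃* Q).toMonoidHom h2
      have e : (α⁻¹ : MulAut Q) ((α g)⁻¹) = g⁻¹ := by rw [map_inv, MulAut.inv_apply_self]
      change IsConj ((α⁻¹ : MulAut Q) g') ((α⁻¹ : MulAut Q) ((α g)⁻¹)) at this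
      rwa [e] at this
    show conj ((ac χ : Q → ℂ) g') = _
    rw [hac, H3.classFun_isConj (H3.irr_classFun χ.2) h3, H3.char_inv (H3.irr_isChar χ.2)]
    simp)
  have h2 := H3.card_real_irr (G := Q)
  have hcls : ∀ C : ConjClasses Q, τ C = C ↔ H3.classInv Q C = C := by
    intro C
    obtain ⟨g, rfl⟩ := ConjClasses.mk_surjective C
    rw [hτ, H3.classInv_mk, ConjClasses.mk_eq_mk_iff_isConj, ConjClasses.mk_eq_mk_iff_isConj]
    constructor
    · intro h
      have h0 : IsConj (α g) g⁻¹ := by
        have := isConj_iff.mp h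
        obtain ⟨c, hc⟩ := this
        refine isConj_iff.mpr ⟨c, ?_⟩
        have : c * α g * c⁻¹ = (c * (α g)⁻¹ * c⁻¹)⁻¹ := by group
        rw [this, hc]
      have key : ∀ k : ℕ, IsConj ((α ^ k) g) (if Odd k then g⁻¹ else g) := by
        intro k
        induction k with
        | zero =>
          rw [pow_zero, if_neg (by decide)]; exact IsConj.refl g
        | succ k ih =>
          have e1 := MonoidHom.map_isConj ((α : MulAut Q) : Q ≃* Q).toMonoidHom ih
          have e2 : (α : MulAut Q) ((α ^ k) g) = (α ^ (k + 1)) g := by rw [pow_succ']; rfl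
          change IsConj ((α : MulAut Q) ((α ^ k) g)) ((α : MulAut Q) (if Odd k then g⁻¹ else g)) at e1
          rw [e2] at e1
          refine e1.trans ?_
          by_cases hk : Odd k
          · have hk' : ¬ Odd (k + 1) := by rw [Nat.not_odd_iff_even]; exact hk.add_one
            rw [if_pos hk, if_neg hk', map_inv]
            obtain ⟨c, hc⟩ := isConj_iff.mp h0
            refine isConj_iff.mpr ⟨c, ?_⟩
            have : c * (α g)⁻¹ * c⁻¹ = (c * α g * c⁻¹)⁻¹ := by group
            rw [this, hc, inv_inv]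
          · have hk' : Odd (k + 1) := (Nat.not_odd_iff_even.mp hk).add_one
            rw [if_neg hk, if_pos hk']
            exact h0
      have h3 := key m
      rw [hαm, if_pos hm] at h3
      exact h3.symm
    · intro h
      have h3 : IsConj g g⁻¹ := h.symm
      rw [hreal g h3]
      exact h
  have hc : Nat.card {C : ConjClasses Q // τ C = C} = Nat.card {C : ConjClasses Q // H3.classInv Q C = C} :=
    Nat.card_congr (Equiv.subtypeEquivRight hcls)
  have h3 : Nat.card {χ : IrrCharacter Q // σ χ = χ} = Nat.card {χ : IrrCharacter Q // H3.irrConj χ = χ} := by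
    rw [h1, hc, h2]
  have hsub : ∀ χ : IrrCharacter Q, σ χ = χ → H3.irrConj χ = χ := by
    intro χ hχ
    have h4 : ∀ g, (χ : Q → ℂ) (α⁻¹ g) = conj ((χ : Q → ℂ) g) := by
      intro g
      have h5 : (σ χ : Q → ℂ) g = (χ : Q → ℂ) g := by rw [hχ]
      have h6 : conj ((χ : Q → ℂ) (α⁻¹ g)) = (χ : Q → ℂ) g := h5
      rw [← h6]; simp
    have key : ∀ k : ℕ, ∀ g, (χ : Q → ℂ) ((α⁻¹ ^ k) g) = if Odd k then conj ((χ : Q → ℂ) g) else (χ : Q → ℂ) g := by
      intro k
      induction k with
      | zero => intro g; simp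
      | succ k ih =>
        intro g
        have e2 : (α⁻¹ ^ (k + 1)) g = α⁻¹ ((α⁻¹ ^ k) g) := by rw [pow_succ']; rfl
        rw [e2, h4, ih]
        by_cases hk : Odd k
        · have hk' : ¬ Odd (k + 1) := by rw [Nat.not_odd_iff_even]; exact hk.add_one
          rw [if_pos hk, if_neg hk']; simp
        · have hk' : Odd (k + 1) := (Nat.not_odd_iff_even.mp hk).add_one
          rw [if_neg hk, if_pos hk']
    apply Subtype.ext
    ext g
    rw [H3.irrConj_apply]
    have h7 := key m g
    rw [inv_pow, hαm, if_pos hm] at h7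
    exact h7.symm
  haveI : Finite (IrrCharacter Q) := inferInstance
  have heq : ∀ χ : IrrCharacter Q, H3.irrConj χ = χ → σ χ = χ := by
    let f : {χ : IrrCharacter Q // σ χ = χ} → {χ : IrrCharacter Q // H3.irrConj χ = χ} := fun χ => ⟨χ.1, hsub _ χ.2⟩
    have hf : Function.Injective f := by
      intro a b hab
      have h0 := congrArg Subtype.val hab
      exact Subtype.ext h0
    have hfs : Function.Bijective f := (Nat.bijective_iff_injective_and_card f).mpr ⟨hf, h3⟩
    intro χ hχ
    obtain ⟨y, hy⟩ := hfs.2 ⟨χ, hχ⟩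
    have : y.1 = χ := congrArg Subtype.val hy
    rw [← this]; exact y.2
  -- apply to the linear character
  let χ : IrrCharacter Q := ⟨_, H3.isIrr_of_hom μ⟩
  have hχ : ∀ g, (χ : Q → ℂ) g = (μ g : ℂ) := fun g => rfl
  have hpm : ∀ g, ((μ g : ℂˣ) : ℂ) = 1 ∨ ((μ g : ℂˣ) : ℂ) = -1 := by
    intro g
    have := congrArg (fun u : ℂˣ => (u : ℂ)) (hμ g)
    simp only [Units.val_mul, Units.val_one] at this
    exact mul_self_eq_one_iff.mp this
  have hχr : H3.irrConj χ = χ := by
    apply Subtype.ext
    ext g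
    rw [H3.irrConj_apply, hχ]
    rcases hpm g with h | h
    · rw [h]; simp
    · rw [h]; simp
  have h8 := heq χ hχr
  have h9 : (σ χ : Q → ℂ) x = (χ : Q → ℂ) x := by rw [h8]
  have h10 : conj ((μ (α⁻¹ x) : ℂˣ) : ℂ) = ((μ x : ℂˣ) : ℂ) := h9
  apply Units.ext
  rw [← h10]
  rcases hpm (α⁻¹ x) with h | h
  · rw [h]; simp
  · rw [h]; simp
/-- `x` and `α x` agree modulo the Frattini subgroup. -/
theorem real_frattini {Q : Type u} [Group Q] [Finite Q] (hQ : IsPGroup 2 Q) (α : MulAut Q) {m : ℕ} (hm : Odd m) (hαm : α ^ m = 1)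
    (hreal : ∀ x : Q, IsConj x x⁻¹ → α x = x) (x : Q) : x * α⁻¹ x⁻¹ ∈ frattini Q := by
  haveI : Fact (Nat.Prime 2) := ⟨Nat.prime_two⟩
  rw [H29.mem_frattini_iff]
  intro M hM
  have hMn := H29.pgroup_coatom_normal hQ hM
  have hMi := H29.pgroup_coatom_index hQ hM
  classical
  let μ : Q →* ℂˣ := {
    toFun := fun g => if g ∈ M then 1 else -1
    map_one' := by rw [if_pos (one_mem M)]
    map_mul' := by
      intro a b
      have h1 := mul_mem_iff_of_index_two hMi (a := a) (b := b)
      by_cases ha : a ∈ M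
      · by_cases hb : b ∈ M
        · rw [if_pos ha, if_pos hb, if_pos (mul_mem ha hb), one_mul]
        · rw [if_pos ha, if_neg hb, if_neg (by rw [h1]; tauto), one_mul]
      · by_cases hb : b ∈ M
        · rw [if_neg ha, if_pos hb, if_neg (by rw [h1]; tauto), mul_one]
        · rw [if_neg ha, if_neg hb, if_pos (by rw [h1]; tauto)]; simp }
  have hμ : ∀ g, μ g = 1 ↔ g ∈ M := by
    intro g
    show (if g ∈ M then (1 : ℂˣ) else -1) = 1 ↔ g ∈ M
    by_cases hg : g ∈ M
    · rw [if_pos hg]; simp [hg]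
    · rw [if_neg hg]
      constructor
      · intro h
        exfalso
        have := congrArg (fun u : ℂˣ => (u : ℂ)) h
        simp only [Units.val_neg, Units.val_one] at this
        norm_num at this
      · intro h; exact absurd h hg
  have hμ2 : ∀ g, μ g * μ g = 1 := by
    intro g
    rw [← map_mul, hμ]
    rw [mul_mem_iff_of_index_two hMi]
  have h2 := real_hom α hm hαm hreal μ hμ2 x
  rw [← hμ, map_mul, map_inv, map_inv, h2, mul_inv_cancel]

theorem aux {G : Type*} [Group G] [Finite G] (h : ∀ x : G, (∃ j : ℕ, orderOf x = 2 ^ j) → IsConj x x⁻¹ → x ∈ Subgroup.center G) : Cfsg.HasNormalPComplement 2 G := by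
  haveI : Fact (Nat.Prime 2) := ⟨Nat.prime_two⟩
  apply H2.hasNormalPComplement_of_centralizer
  intro X hX g hg hcop
  have hcopA : (Nat.card (zpowers g)).Coprime (Nat.card X) := by
    obtain ⟨n, hn⟩ := IsPGroup.iff_card.mp hX
    rw [Nat.card_zpowers, hn]
    exact Nat.Coprime.pow_right n hcop
  have h1 : X ≤ centralizer ((zpowers g : Subgroup G) : Set G) := by
    apply H23.le_centralizer_of_commutator_le_frattini (zpowers_le.mpr hg) hcopA
    · left
      haveI : IsMulCommutative (zpowers g) := inferInstance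
      exact Group.isSolvable_of_comm (fun a b => (IsMulCommutative.is_comm.comm a b))
    · rw [commutator_le]
      intro x hx a ha
      have haN : a ∈ normalizer (X : Set G) := zpowers_le.mpr hg ha
      have haN' : a⁻¹ ∈ normalizer (X : Set G) := inv_mem haN
      let α : MulAut X := X.normalizerMonoidHom ⟨a⁻¹, haN'⟩
      have hα : ∀ y : X, ((α y : X) : G) = a⁻¹ * y * (a⁻¹)⁻¹ := fun y => rfl
      have hord : α ^ (orderOf g) = 1 := by
        rw [← map_pow]
        have : (⟨a⁻¹, haN'⟩ : normalizer (X : Set G)) ^ orderOf g = 1 := by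
          apply Subtype.ext
          show (a⁻¹) ^ orderOf g = 1
          rw [inv_pow, inv_eq_one, ← orderOf_dvd_iff_pow_eq_one]
          exact orderOf_dvd_of_mem_zpowers ha
        rw [this, map_one]
      have hodd : Odd (orderOf g) := by
        rw [← Nat.not_even_iff_odd, even_iff_two_dvd]
        intro h2
        have := Nat.Coprime.eq_one_of_dvd (Nat.Coprime.symm hcop) h2
        norm_num at this
      have hreal : ∀ y : X, IsConj y y⁻¹ → α y = y := by
        intro y hy
        have h3 : IsConj (y : G) (y : G)⁻¹ := MonoidHom.map_isConj X.subtype hy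
        have h4 : (y : G) ∈ center G := by
          apply h _ _ h3
          obtain ⟨k, hk⟩ := (IsPGroup.iff_orderOf.mp hX) y
          exact ⟨k, by rw [orderOf_coe]; exact hk⟩
        apply Subtype.ext
        rw [hα, mem_center_iff.mp h4 a⁻¹]; group
      have h5 := real_frattini hX α hodd hord hreal ⟨x, hx⟩
      refine ⟨_, h5, ?_⟩
      have h6 : (((α⁻¹ : MulAut X) (⟨x, hx⟩⁻¹ : X) : X) : G) = a * x⁻¹ * a⁻¹ := by
        have h7 : α ⟨a * x⁻¹ * a⁻¹, by
            have := (mem_normalizer_iff.mp haN x⁻¹).mp (inv_mem hx)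
            exact this⟩ = (⟨x, hx⟩⁻¹ : X) := by
          apply Subtype.ext
          rw [hα]
          show a⁻¹ * (a * x⁻¹ * a⁻¹) * (a⁻¹)⁻¹ = x⁻¹
          group
        rw [← h7, MulAut.inv_apply_self]
      show x * (((α⁻¹ : MulAut X) (⟨x, hx⟩⁻¹ : X) : X) : G) = ⁅x, a⁆
      rw [h6, commutatorElement_def]; group
  rw [mem_centralizer_iff]
  intro x hx
  exact (mem_centralizer_iff.mp (h1 hx) g (mem_zpowers g)).symm
end aux

/-- If every 2-element of the finite group G that is conjugate to its inverse lies in the centre of G, then G has a normal 2-complement. -/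
theorem result {G : Type*} [Group G] [Finite G] (h : ∀ x : G, (∃ j : ℕ, orderOf x = 2 ^ j) → IsConj x x⁻¹ → x ∈ Subgroup.center G) : Cfsg.HasNormalPComplement 2 G := by
  exact aux h

end Cfsg.Agent.S3862
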