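import Cfsg.Statements.S3863
import Mathlib
import Cfsg.Agent.H25.ClassSize

set_option autoImplicit false
set_option linter.all false
open Cfsg

namespace Cfsg.Agent.S3863

section aux
open Subgroup
open scoped commutatorElement

theorem aux {G : Type*} [Group G] [Finite G] (x : G) (hx : IsConj x x⁻¹) : (∃ t : G, (∃ j : ℕ, orderOf t = 2 ^ j) ∧ t * x * t⁻¹ = x⁻¹) ∧ (Odd (Subgroup.centralizer ({x} : Set G)).index → x ^ 2 = 1) ∧ ∀ (N : Subgroup G) [N.Normal], Odd N.index → ∃ hxN : x ∈ N, IsConj (⟨x, hxN⟩ : N) (⟨x, hxN⟩ : N)⁻¹ := by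
  rw [isConj_iff] at hx
  obtain ⟨g, hg⟩ := hx
  -- the 2-element
  have hpow : ∀ n : ℕ, Odd n → g ^ n * x * (g ^ n)⁻¹ = x⁻¹ := by
    have h2 : ∀ k : ℕ, g ^ (2 * k) * x * (g ^ (2 * k))⁻¹ = x := by
      intro k
      induction k with
      | zero => simp
      | succ k ih =>
        have e : g ^ (2 * (k + 1)) = g * (g * g ^ (2 * k)) := by
          rw [← pow_succ', ← pow_succ']; congr 1
        calc g ^ (2 * (k + 1)) * x * (g ^ (2 * (k + 1)))⁻¹
            = g * (g * (g ^ (2 * k) * x * (g ^ (2 * k))⁻¹) * g⁻¹) * g⁻¹ := by rw [e]; group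
          _ = g * (g * x * g⁻¹) * g⁻¹ := by rw [ih]
          _ = g * x⁻¹ * g⁻¹ := by rw [hg]
          _ = (g * x * g⁻¹)⁻¹ := by group
          _ = x := by rw [hg, inv_inv]
    rintro n ⟨k, rfl⟩
    calc g ^ (2 * k + 1) * x * (g ^ (2 * k + 1))⁻¹ = g * (g ^ (2 * k) * x * (g ^ (2 * k))⁻¹) * g⁻¹ := by
          rw [pow_succ']; group
      _ = x⁻¹ := by rw [h2, hg]
  have htwo : ∃ t : G, (∃ j : ℕ, orderOf t = 2 ^ j) ∧ t * x * t⁻¹ = x⁻¹ := by
    obtain ⟨j, m, hm, hjm⟩ := Nat.exists_eq_two_pow_mul_odd (orderOf_pos g).ne'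
    refine ⟨g ^ m, ⟨j, ?_⟩, hpow m hm⟩
    rw [orderOf_pow, hjm]
    rw [Nat.gcd_eq_right (dvd_mul_left m (2 ^ j))]
    exact Nat.mul_div_cancel _ hm.pos
  refine ⟨htwo, ?_, ?_⟩
  · intro hodd
    classical
    haveI : Fintype G := Fintype.ofFinite G
    -- the conjugacy class
    let C : Finset G := Finset.univ.filter fun y => IsConj x y
    have hCcard : C.card = (centralizer ({x} : Set G)).index := by
      rw [← H25.card_conj_eq_index, Nat.card_eq_fintype_card, Fintype.card_subtype]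
    have hinv : ∀ y ∈ C, y⁻¹ ∈ C := by
      intro y hy
      simp only [C, Finset.mem_filter, Finset.mem_univ, true_and] at hy ⊢
      have h1 : IsConj x⁻¹ y⁻¹ := by
        rw [isConj_iff] at hy ⊢
        obtain ⟨c, hc⟩ := hy
        exact ⟨c, by rw [← hc]; group⟩
      exact (isConj_iff.mpr ⟨g, hg⟩).trans h1
    -- fixed point of inversion
    have hfix : ∃ y ∈ C, y⁻¹ = y := by
      by_contra hcon
      push Not at hcon
      have : Even C.card := by
        have h2 : (∑ y ∈ C, (1 : ZMod 2)) = 0 := by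
          apply Finset.sum_involution (fun y _ => y⁻¹)
          · intro y _; decide
          · intro y hy _; exact hcon y hy
          · intro y _; exact inv_inv y
          · intro y hy; exact hinv y hy
        rw [Finset.sum_const, nsmul_eq_mul, mul_one] at h2
        exact (ZMod.natCast_eq_zero_iff_even).mp h2
      rw [hCcard] at this
      exact (Nat.not_even_iff_odd.mpr hodd) this
    obtain ⟨y, hy, hyy⟩ := hfix
    simp only [C, Finset.mem_filter, Finset.mem_univ, true_and] at hy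
    rw [isConj_iff] at hy
    obtain ⟨c, hc⟩ := hy
    have h1 : y ^ 2 = 1 := by
      rw [pow_two]; nth_rw 1 [← hyy]; exact inv_mul_cancel y
    have h2 : x ^ 2 = c⁻¹ * y ^ 2 * c := by rw [← hc, conj_pow]; group
    rw [h2, h1]; group
  · intro N _ hNodd
    obtain ⟨t, ⟨j, hj⟩, htx⟩ := htwo
    have hmem : ∀ y : G, ∀ i : ℕ, y ^ 2 ^ i ∈ N → y ∈ N := by
      intro y i hy
      have h1 : (QuotientGroup.mk y : G ⧸ N) ^ 2 ^ i = 1 := by
        rw [← QuotientGroup.mk_pow]; exact (QuotientGroup.eq_one_iff _).mpr hy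
      have h2 : orderOf (QuotientGroup.mk y : G ⧸ N) ∣ 2 ^ i := orderOf_dvd_of_pow_eq_one h1
      have h3 : orderOf (QuotientGroup.mk y : G ⧸ N) ∣ N.index := by
        rw [Subgroup.index_eq_card]; exact orderOf_dvd_natCard _
      have h4 : (2 ^ i).Coprime N.index := Nat.Coprime.pow_left _ (Nat.coprime_two_left.mpr hNodd)
      have h5 := Nat.dvd_gcd h2 h3
      rw [h4] at h5
      exact (QuotientGroup.eq_one_iff _).mp (orderOf_eq_one_iff.mp (Nat.dvd_one.mp h5))
    have htN : t ∈ N := hmem t j (by rw [← hj, pow_orderOf_eq_one]; exact one_mem N)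
    have hxN : x ∈ N := by
      apply hmem x 1
      have h1 : t * (x * t⁻¹ * x⁻¹) ∈ N := mul_mem htN ((inferInstance : N.Normal).conj_mem _ (inv_mem htN) x)
      have h2 : t * (x * t⁻¹ * x⁻¹) = (x ^ 2)⁻¹ := by
        calc t * (x * t⁻¹ * x⁻¹) = (t * x * t⁻¹) * x⁻¹ := by group
          _ = x⁻¹ * x⁻¹ := by rw [htx]
          _ = (x ^ 2)⁻¹ := by group
      rw [h2] at h1
      rw [pow_one]
      exact (inv_mem_iff).mp h1
    refine ⟨hxN, ?_⟩
    rw [isConj_iff]
    exact ⟨⟨t, htN⟩, Subtype.ext htx⟩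

end aux

/-- Let x be an element of the finite group G that is conjugate to its inverse. Then some 2-element conjugates x to its inverse; if the conjugacy class of x has odd size then x ^ 2 = 1; and x lies in, and is conjugate to its inverse inside, every normal subgroup of odd index. -/
theorem result {G : Type*} [Group G] [Finite G] (x : G) (hx : IsConj x x⁻¹) : (∃ t : G, (∃ j : ℕ, orderOf t = 2 ^ j) ∧ t * x * t⁻¹ = x⁻¹) ∧ (Odd (Subgroup.centralizer ({x} : Set G)).index → x ^ 2 = 1) ∧ ∀ (N : Subgroup G) [N.Normal], Odd N.index → ∃ hxN : x ∈ N, IsConj (⟨x, hxN⟩ : N) (⟨x, hxN⟩ : N)⁻¹ := by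
  exact aux x hx

end Cfsg.Agent.S3863
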