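import Cfsg.Statements.S3866
import Cfsg.Agent.H23.PGroup3

set_option autoImplicit false
set_option linter.all false
open Cfsg

namespace Cfsg.Agent.S3866

section aux
open Subgroup
open scoped commutatorElement

theorem aux {G : Type*} [Group G] [Finite G] (A : Subgroup G) [A.Normal] (hA : IsMulCommutative A) (x : G) (hgen : A ⊔ Subgroup.zpowers x = ⊤) : (∀ a ∈ A, x * a * x⁻¹ * a⁻¹ ∈ commutator G) ∧ (∀ c ∈ commutator G, ∃ a ∈ A, x * a * x⁻¹ * a⁻¹ = c) ∧ (∀ a ∈ A, ∀ b ∈ A, x * (a * b) * x⁻¹ * (a * b)⁻¹ = (x * a * x⁻¹ * a⁻¹) * (x * b * x⁻¹ * b⁻¹)) ∧ Nat.card (commutator G) * Nat.card ↥(A ⊓ Subgroup.centralizer ({x} : Set G)) = Nat.card A := by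
  have hcommA : ∀ a ∈ A, ∀ b ∈ A, a * b = b * a := by
    intro a ha b hb
    exact congrArg Subtype.val (hA.is_comm.comm (⟨a, ha⟩ : A) ⟨b, hb⟩)
  have hAn : A.Normal := inferInstance
  have hmemA : ∀ a ∈ A, x * a * x⁻¹ * a⁻¹ ∈ A := fun a ha =>
    mul_mem (hAn.conj_mem a ha x) (inv_mem ha)
  have hmul : ∀ a ∈ A, ∀ b ∈ A, x * (a * b) * x⁻¹ * (a * b)⁻¹ =
      (x * a * x⁻¹ * a⁻¹) * (x * b * x⁻¹ * b⁻¹) := by
    intro a ha b hb
    have h1 : x * (a * b) * x⁻¹ * (a * b)⁻¹ = (x * a * x⁻¹) * ((x * b * x⁻¹) * (b⁻¹ * a⁻¹)) := by group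
    have h2 : (x * b * x⁻¹) * (b⁻¹ * a⁻¹) = a⁻¹ * ((x * b * x⁻¹) * b⁻¹) := by
      rw [hcommA b⁻¹ (inv_mem hb) a⁻¹ (inv_mem ha), ← mul_assoc,
        hcommA _ (hAn.conj_mem b hb x) a⁻¹ (inv_mem ha), mul_assoc]
    rw [h1, h2]; group
  let φ : A →* G :=
    { toFun := fun a => x * a * x⁻¹ * (a : G)⁻¹
      map_one' := by simp
      map_mul' := by
        intro a b
        exact hmul a a.2 b b.2 }
  have hφ : ∀ a : A, φ a = ⁅x, (a : G)⁆ := fun _ => rfl
  have hrange : φ.range = commutator G := by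
    apply le_antisymm
    · rintro _ ⟨a, rfl⟩
      exact commutator_mem_commutator (mem_top _) (mem_top _)
    · have hTn : φ.range.Normal := by
        rw [← Subgroup.normalizer_eq_top_iff, eq_top_iff, ← hgen]
        refine sup_le ?_ ?_
        · refine H23.le_normalizer_of_conj_mem ?_
          rintro b hb _ ⟨a, rfl⟩
          refine ⟨a, ?_⟩
          rw [hφ]
          show ⁅x, (a : G)⁆ = b * ⁅x, (a : G)⁆ * b⁻¹
          have h9 : ⁅x, (a : G)⁆ ∈ A := hmemA a a.2
          rw [hcommA b hb _ h9, mul_inv_cancel_right]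
        · refine H23.le_normalizer_of_conj_mem ?_
          rintro _ ⟨k, rfl⟩ _ ⟨a, rfl⟩
          refine ⟨⟨x ^ k * a * (x ^ k)⁻¹, hAn.conj_mem _ a.2 _⟩, ?_⟩
          show ⁅x, x ^ k * (a : G) * (x ^ k)⁻¹⁆ = x ^ k * ⁅x, (a : G)⁆ * (x ^ k)⁻¹
          have h2 : x = x ^ k * x * (x ^ k)⁻¹ := by
            rw [← zpow_add_one, ← zpow_neg, ← zpow_add]; simp
          rw [conjugate_commutatorElement, ← h2]
      haveI := hTn
      rw [← Subgroup.Normal.quotient_commutative_iff_commutator_le]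
      have h1 : IsMulCommutative (A.map (QuotientGroup.mk' φ.range) ⊔
          zpowers (QuotientGroup.mk' φ.range x) : Subgroup (G ⧸ φ.range)) := by
        apply H23.isMulCommutative_sup_zpowers
        · refine ⟨⟨?_⟩⟩
          rintro ⟨_, a, ha, rfl⟩ ⟨_, b, hb, rfl⟩
          apply Subtype.ext
          show (QuotientGroup.mk' φ.range) a * (QuotientGroup.mk' φ.range) b = _ * _
          rw [← map_mul, hcommA a ha b hb, map_mul]
        · rw [mem_centralizer_iff]
          rintro _ ⟨a, ha, rfl⟩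
          symm
          rw [← commutatorElement_eq_one_iff_mul_comm, ← map_commutatorElement]
          exact (QuotientGroup.eq_one_iff _).mpr ⟨⟨a, ha⟩, rfl⟩
      rw [← MonoidHom.map_zpowers, ← Subgroup.map_sup, hgen,
        Subgroup.map_top_of_surjective _ (QuotientGroup.mk'_surjective _)] at h1
      exact ⟨⟨fun a b => congrArg Subtype.val (h1.is_comm.comm (⟨a, mem_top a⟩ : (⊤ : Subgroup (G ⧸ φ.range))) ⟨b, mem_top b⟩)⟩⟩
  refine ⟨?_, ?_, hmul, ?_⟩
  · intro a _
    exact commutator_mem_commutator (mem_top x) (mem_top a)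
  · intro c hc
    rw [← hrange] at hc
    obtain ⟨a, ha⟩ := hc
    exact ⟨a, a.2, ha⟩
  · have hker : φ.ker.map A.subtype = A ⊓ centralizer ({x} : Set G) := by
      ext a
      rw [mem_inf, mem_centralizer_singleton_iff]
      constructor
      · rintro ⟨b, hb, rfl⟩
        exact ⟨b.2, (commutatorElement_eq_one_iff_mul_comm.mp hb).symm⟩
      · rintro ⟨ha, h⟩
        exact ⟨⟨a, ha⟩, commutatorElement_eq_one_iff_mul_comm.mpr h.symm, rfl⟩
    rw [← hrange, ← hker, H1.card_map_subtype, mul_comm, ← φ.ker.card_mul_index, Subgroup.index_ker]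

end aux

/-- Let A be a commutative normal subgroup of the finite group G with G generated by A and an element x. Then a ↦ x a x⁻¹ a⁻¹ is a surjective homomorphism from A onto the commutator subgroup of G whose kernel is the centralizer of x in A; in particular the commutator subgroup has order equal to the index in A of that centralizer. -/
theorem result {G : Type*} [Group G] [Finite G] (A : Subgroup G) [A.Normal] (hA : IsMulCommutative A) (x : G) (hgen : A ⊔ Subgroup.zpowers x = ⊤) : (∀ a ∈ A, x * a * x⁻¹ * a⁻¹ ∈ commutator G) ∧ (∀ c ∈ commutator G, ∃ a ∈ A, x * a * x⁻¹ * a⁻¹ = c) ∧ (∀ a ∈ A, ∀ b ∈ A, x * (a * b) * x⁻¹ * (a * b)⁻¹ = (x * a * x⁻¹ * a⁻¹) * (x * b * x⁻¹ * b⁻¹)) ∧ Nat.card (commutator G) * Nat.card ↥(A ⊓ Subgroup.centralizer ({x} : Set G)) = Nat.card A := by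
  exact aux A hA x hgen

end Cfsg.Agent.S3866
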