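import Cfsg.Statements.S3867
import Cfsg.Agent.H23.PGroup3

set_option autoImplicit false
set_option linter.all false
open Cfsg

namespace Cfsg.Agent.S3867

section aux
open Subgroup
open scoped Pointwise

/-- `g` normalizes `P M` iff `g ∈ N(P) M` for `P` Sylow and `M` normal. -/
theorem normalizer_sup {G : Type*} [Group G] [Finite G] {p : ℕ} [Fact p.Prime] (P : Sylow p G)
    (M : Subgroup G) [M.Normal] :
    normalizer (((P : Subgroup G) ⊔ M : Subgroup G) : Set G) = normalizer ((P : Subgroup G) : Set G) ⊔ M := by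
  apply le_antisymm
  · intro g hg
    have h1 : MulAut.conj g • ((P : Subgroup G) ⊔ M) = (P : Subgroup G) ⊔ M :=
      H1.mem_normalizer_iff_conj_smul.mp hg
    have hPs : H23.IsSylowOf p (P : Subgroup G) ((P : Subgroup G) ⊔ M) := by
      apply H23.isSylowOf_of_not_dvd le_sup_left P.isPGroup'
      intro hd
      exact P.not_dvd_index (hd.trans (Subgroup.relIndex_dvd_index_of_le le_sup_left))
    have hPg : H23.IsSylowOf p (MulAut.conj g • (P : Subgroup G)) ((P : Subgroup G) ⊔ M) := hPs.conj hg
    obtain ⟨h, hh, hhP⟩ := hPs.exists_conj hPg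
    have h2 : h⁻¹ * g ∈ normalizer ((P : Subgroup G) : Set G) := by
      rw [H1.mem_normalizer_iff_conj_smul, ← H1.conj_smul_smul, ← hhP, H1.conj_smul_smul,
        inv_mul_cancel, H1.conj_one_smul]
    have h3 : h ∈ normalizer ((P : Subgroup G) : Set G) ⊔ M :=
      (sup_le_sup_right le_normalizer M) hh
    have : g = h * (h⁻¹ * g) := by group
    rw [this]
    exact mul_mem h3 (mem_sup_left h2)
  · refine sup_le ?_ (le_sup_right.trans le_normalizer)
    intro g hg
    rw [H1.mem_normalizer_iff_conj_smul, H1.conj_smul_sup, H1.mem_normalizer_iff_conj_smul.mp hg,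
      H1.conj_smul_normal]

theorem card_sylow_quotient {G : Type*} [Group G] [Finite G] {p : ℕ} [Fact p.Prime] (P : Sylow p G)
    (M : Subgroup G) [M.Normal] :
    Nat.card (Sylow p (G ⧸ M)) = (normalizer ((P : Subgroup G) : Set G) ⊔ M).index := by
  let f := QuotientGroup.mk' M
  have hf : Function.Surjective f := QuotientGroup.mk'_surjective M
  let Q : Sylow p (G ⧸ M) := P.mapSurjective hf
  have hQ : (Q : Subgroup (G ⧸ M)) = (P : Subgroup G).map f := rfl
  rw [Q.card_eq_index_normalizer]
  show (normalizer ((Q : Subgroup (G ⧸ M)) : Set (G ⧸ M))).index = _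
  rw [hQ, ← normalizer_sup P M]
  have h1 : normalizer (((P : Subgroup G) ⊔ M : Subgroup G) : Set G) =
      (normalizer (((P : Subgroup G).map f : Subgroup (G ⧸ M)) : Set (G ⧸ M))).comap f := by
    have h2 : ((P : Subgroup G).map f).comap f = (P : Subgroup G) ⊔ M := by
      rw [Subgroup.comap_map_eq, QuotientGroup.ker_mk']
    rw [← h2, ← Subgroup.comap_normalizer_eq_of_surjective _ hf]
  rw [h1, Subgroup.index_comap_of_surjective _ hf]

theorem aux {G : Type*} [Group G] [Finite G] (p : ℕ) [Fact p.Prime] (M N : Subgroup G) [M.Normal] [N.Normal] (hM : M ≠ ⊥) (hN : N ≠ ⊥) (hMN : M ⊓ N = ⊥) : Nat.card (Sylow p G) * Nat.card (Sylow p (G ⧸ (M ⊔ N))) = Nat.card (Sylow p (G ⧸ M)) * Nat.card (Sylow p (G ⧸ N)) := by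
  obtain ⟨P⟩ : Nonempty (Sylow p G) := inferInstance
  set K := normalizer ((P : Subgroup G) : Set G) with hK
  have e0 : Nat.card (Sylow p G) = K.index := P.card_eq_index_normalizer
  rw [e0, card_sylow_quotient P M, card_sylow_quotient P N, card_sylow_quotient P (M ⊔ N)]
  -- `K ∩ MN = (K ∩ M)(K ∩ N)`
  have hPM : ∀ m ∈ M, m ∈ K ⊔ N → m ∈ K := by
    intro m hm hmN
    rw [hK, ← normalizer_sup P N] at hmN
    have h1 : MulAut.conj m • (P : Subgroup G) ≤ (P : Subgroup G) ⊔ N := by
      rw [← H1.mem_normalizer_iff_conj_smul.mp hmN]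
      exact H1.conj_smul_le_conj_smul_iff.mpr le_sup_left
    have h2 : MulAut.conj m • (P : Subgroup G) ≤ (P : Subgroup G) ⊔ M := by
      have h3 : MulAut.conj m • ((P : Subgroup G) ⊔ M) = (P : Subgroup G) ⊔ M := by
        rw [← H1.mem_normalizer_iff_conj_smul]
        exact le_normalizer (mem_sup_right hm)
      rw [← h3]
      exact H1.conj_smul_le_conj_smul_iff.mpr le_sup_left
    -- `PM ∩ PN = P`
    set L := M ⊓ ((P : Subgroup G) ⊔ N) with hL
    have hLp : IsPGroup p L := by
      have h4 : IsPGroup p (((P : Subgroup G) ⊔ N).map (QuotientGroup.mk' N)) := by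
        rw [Subgroup.map_sup, QuotientGroup.map_mk'_self, sup_bot_eq]
        exact P.isPGroup'.map _
      have h5 : ∀ x : L, (QuotientGroup.mk' N) (x : G) ∈ ((P : Subgroup G) ⊔ N).map (QuotientGroup.mk' N) :=
        fun x => mem_map_of_mem _ (mem_inf.mp x.2).2
      refine h4.of_injective (((QuotientGroup.mk' N).comp L.subtype).codRestrict _ h5) ?_
      rw [injective_iff_map_eq_one]
      intro x hx
      have h6 : (QuotientGroup.mk' N) (x : G) = 1 := congrArg Subtype.val hx
      have h7 : (x : G) ∈ M ⊓ N := mem_inf.mpr ⟨(mem_inf.mp x.2).1, (QuotientGroup.eq_one_iff _).mp h6⟩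
      rw [hMN, mem_bot] at h7
      exact Subtype.ext h7
    have hPL : (P : Subgroup G) ≤ normalizer (L : Set G) := by
      intro g hg
      rw [H1.mem_normalizer_iff_conj_smul, hL, H1.conj_smul_inf, H1.conj_smul_normal (N := M),
        H1.conj_smul_sup, H1.conj_smul_normal (N := N), H1.mem_normalizer_iff_conj_smul.mp (le_normalizer hg)]
    have hPLp : IsPGroup p ((P : Subgroup G) ⊔ L : Subgroup G) :=
      P.isPGroup'.to_sup_of_normal_right' hLp hPL
    have hLP : L ≤ P := by
      have := P.3 hPLp le_sup_left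
      rw [← this]; exact le_sup_right
    have h8 : MulAut.conj m • (P : Subgroup G) ≤ P := by
      intro x hx
      have hx1 := h1 hx
      have hx2 := h2 hx
      rw [Subgroup.mem_sup_of_normal_right] at hx2
      obtain ⟨a, ha, b, hb, rfl⟩ := hx2
      have hbL : b ∈ L := by
        refine mem_inf.mpr ⟨hb, ?_⟩
        have : b = a⁻¹ * (a * b) := by group
        rw [this]
        exact mul_mem (mem_sup_left (inv_mem ha)) hx1
      exact mul_mem ha (hLP hbL)
    rw [hK, H1.mem_normalizer_iff_conj_smul]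
    exact eq_of_le_of_card_ge h8 (by rw [H1.card_conj_smul])
  have hPN : ∀ n ∈ N, n ∈ K ⊔ M → n ∈ K := by
    intro m hm hmN
    rw [hK, ← normalizer_sup P M] at hmN
    have h1 : MulAut.conj m • (P : Subgroup G) ≤ (P : Subgroup G) ⊔ M := by
      rw [← H1.mem_normalizer_iff_conj_smul.mp hmN]
      exact H1.conj_smul_le_conj_smul_iff.mpr le_sup_left
    have h2 : MulAut.conj m • (P : Subgroup G) ≤ (P : Subgroup G) ⊔ N := by
      have h3 : MulAut.conj m • ((P : Subgroup G) ⊔ N) = (P : Subgroup G) ⊔ N := by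
        rw [← H1.mem_normalizer_iff_conj_smul]
        exact le_normalizer (mem_sup_right hm)
      rw [← h3]
      exact H1.conj_smul_le_conj_smul_iff.mpr le_sup_left
    set L := N ⊓ ((P : Subgroup G) ⊔ M) with hL
    have hLp : IsPGroup p L := by
      have h4 : IsPGroup p (((P : Subgroup G) ⊔ M).map (QuotientGroup.mk' M)) := by
        rw [Subgroup.map_sup, QuotientGroup.map_mk'_self, sup_bot_eq]
        exact P.isPGroup'.map _
      have h5 : ∀ x : L, (QuotientGroup.mk' M) (x : G) ∈ ((P : Subgroup G) ⊔ M).map (QuotientGroup.mk' M) :=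
        fun x => mem_map_of_mem _ (mem_inf.mp x.2).2
      refine h4.of_injective (((QuotientGroup.mk' M).comp L.subtype).codRestrict _ h5) ?_
      rw [injective_iff_map_eq_one]
      intro x hx
      have h6 : (QuotientGroup.mk' M) (x : G) = 1 := congrArg Subtype.val hx
      have h7 : (x : G) ∈ M ⊓ N := mem_inf.mpr ⟨(QuotientGroup.eq_one_iff _).mp h6, (mem_inf.mp x.2).1⟩
      rw [hMN, mem_bot] at h7
      exact Subtype.ext h7
    have hPL : (P : Subgroup G) ≤ normalizer (L : Set G) := by
      intro g hg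
      rw [H1.mem_normalizer_iff_conj_smul, hL, H1.conj_smul_inf, H1.conj_smul_normal (N := N),
        H1.conj_smul_sup, H1.conj_smul_normal (N := M), H1.mem_normalizer_iff_conj_smul.mp (le_normalizer hg)]
    have hPLp : IsPGroup p ((P : Subgroup G) ⊔ L : Subgroup G) :=
      P.isPGroup'.to_sup_of_normal_right' hLp hPL
    have hLP : L ≤ P := by
      have := P.3 hPLp le_sup_left
      rw [← this]; exact le_sup_right
    have h8 : MulAut.conj m • (P : Subgroup G) ≤ P := by
      intro x hx
      have hx1 := h1 hx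
      have hx2 := h2 hx
      rw [Subgroup.mem_sup_of_normal_right] at hx2
      obtain ⟨a, ha, b, hb, rfl⟩ := hx2
      have hbL : b ∈ L := by
        refine mem_inf.mpr ⟨hb, ?_⟩
        have : b = a⁻¹ * (a * b) := by group
        rw [this]
        exact mul_mem (mem_sup_left (inv_mem ha)) hx1
      exact mul_mem ha (hLP hbL)
    rw [hK, H1.mem_normalizer_iff_conj_smul]
    exact eq_of_le_of_card_ge h8 (by rw [H1.card_conj_smul])
  have hsplit : K ⊓ (M ⊔ N) = (K ⊓ M) ⊔ (K ⊓ N) := by
    apply le_antisymm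
    · intro x hx
      obtain ⟨hxK, hxMN⟩ := mem_inf.mp hx
      rw [Subgroup.mem_sup_of_normal_right] at hxMN
      obtain ⟨m, hm, n, hn, rfl⟩ := hxMN
      have h1 : m ∈ K := by
        apply hPM m hm
        have : m = (m * n) * n⁻¹ := by group
        rw [this]
        exact mul_mem (mem_sup_left hxK) (mem_sup_right (inv_mem hn))
      have h2 : n ∈ K := by
        have : n = m⁻¹ * (m * n) := by group
        rw [this]; exact mul_mem (inv_mem h1) hxK
      exact mul_mem (mem_sup_left (mem_inf.mpr ⟨h1, hm⟩)) (mem_sup_right (mem_inf.mpr ⟨h2, hn⟩))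
    · exact sup_le (inf_le_inf_left _ le_sup_left) (inf_le_inf_left _ le_sup_right)
  have c1 := H2.card_sup_mul_card_inf K M
  have c2 := H2.card_sup_mul_card_inf K N
  have c3 := H2.card_sup_mul_card_inf K (M ⊔ N)
  have c4 := H2.card_sup_mul_card_inf M N
  rw [hMN, Subgroup.card_bot, mul_one] at c4
  have c5 : Nat.card (K ⊓ (M ⊔ N) : Subgroup G) = Nat.card (K ⊓ M : Subgroup G) * Nat.card (K ⊓ N : Subgroup G) := by
    rw [hsplit]
    have hn : K ⊓ N ≤ normalizer ((K ⊓ M : Subgroup G) : Set G) := by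
      intro g hg
      rw [H1.mem_normalizer_iff_conj_smul, H1.conj_smul_inf, H1.conj_smul_normal (N := M),
        H1.mem_normalizer_iff_conj_smul.mp (le_normalizer (mem_inf.mp hg).1)]
    have h0 : (K ⊓ N) ⊓ (K ⊓ M) = ⊥ := by
      rw [eq_bot_iff, ← hMN]
      exact le_inf (inf_le_right.trans inf_le_right) (inf_le_left.trans inf_le_right)
    exact H23.card_sup_of_inf_eq_bot hn h0
  rw [c4, c5] at c3
  have i0 := K.card_mul_index
  have i1 := (K ⊔ M).card_mul_index
  have i2 := (K ⊔ N).card_mul_index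
  have i3 := (K ⊔ (M ⊔ N)).card_mul_index
  have p1 : 0 < Nat.card K := Nat.card_pos
  have p2 : 0 < Nat.card (K ⊓ M : Subgroup G) := Nat.card_pos
  have p3 : 0 < Nat.card (K ⊓ N : Subgroup G) := Nat.card_pos
  have p4 : 0 < Nat.card (K ⊔ (M ⊔ N) : Subgroup G) := Nat.card_pos
  have p5 : 0 < Nat.card M := Nat.card_pos
  have p6 : 0 < Nat.card N := Nat.card_pos
  generalize Nat.card K = k at *
  generalize Nat.card (K ⊓ M : Subgroup G) = km at *
  generalize Nat.card (K ⊓ N : Subgroup G) = kn at *
  generalize Nat.card (K ⊔ (M ⊔ N) : Subgroup G) = kmn at *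
  generalize Nat.card (K ⊔ M : Subgroup G) = a at *
  generalize Nat.card (K ⊔ N : Subgroup G) = b at *
  generalize Nat.card M = m at *
  generalize Nat.card N = n at *
  -- k * kmn = a * b
  have hab : a * b = k * kmn := by
    have : (a * b) * (km * kn) = (k * kmn) * (km * kn) := by
      calc (a * b) * (km * kn) = (a * km) * (b * kn) := by ring
        _ = (k * m) * (k * n) := by rw [c1, c2]
        _ = k * (k * (m * n)) := by ring
        _ = k * (kmn * (km * kn)) := by rw [c3]
        _ = (k * kmn) * (km * kn) := by ring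
    exact Nat.eq_of_mul_eq_mul_right (Nat.mul_pos p2 p3) this
  have hfin : (k * kmn) * (K.index * (K ⊔ (M ⊔ N)).index) = (k * kmn) * ((K ⊔ M).index * (K ⊔ N).index) := by
    calc (k * kmn) * (K.index * (K ⊔ (M ⊔ N)).index)
        = (k * K.index) * (kmn * (K ⊔ (M ⊔ N)).index) := by ring
      _ = (a * (K ⊔ M).index) * (b * (K ⊔ N).index) := by rw [i0, i3, i1, i2]
      _ = (a * b) * ((K ⊔ M).index * (K ⊔ N).index) := by ring
      _ = (k * kmn) * ((K ⊔ M).index * (K ⊔ N).index) := by rw [hab]
  exact Nat.eq_of_mul_eq_mul_left (Nat.mul_pos p1 p4) hfin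

end aux

/-- Let M and N be nontrivial normal subgroups of the finite group G with M ⊓ N trivial, and let p be a prime. Writing n(X) for the number of Sylow p-subgroups of a group X, one has n(G) · n(G/MN) = n(G/M) · n(G/N). -/
theorem result {G : Type*} [Group G] [Finite G] (p : ℕ) [Fact p.Prime] (M N : Subgroup G) [M.Normal] [N.Normal] (hM : M ≠ ⊥) (hN : N ≠ ⊥) (hMN : M ⊓ N = ⊥) : Nat.card (Sylow p G) * Nat.card (Sylow p (G ⧸ (M ⊔ N))) = Nat.card (Sylow p (G ⧸ M)) * Nat.card (Sylow p (G ⧸ N)) := by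
  exact aux p M N hM hN hMN

end Cfsg.Agent.S3867
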