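import Cfsg.Statements.S3878
import Cfsg.Agent.H23.HallSym

set_option autoImplicit false
set_option linter.all false
open Cfsg

namespace Cfsg.Agent.S3878

section aux
open Subgroup
open scoped Pointwise

theorem pi_exists_maximal {G : Type} [Group G] [Finite G] {π : Set ℕ} {K : Subgroup G} (hK : Cfsg.IsPiSubgroup π K) :
    ∃ M, K ≤ M ∧ Maximal (Cfsg.IsPiSubgroup π) M := by
  haveI : Finite (Subgroup G) := inferInstance
  obtain ⟨M, hM1, hM2⟩ := Set.Finite.exists_le_maximal (s := {K : Subgroup G | Cfsg.IsPiSubgroup π K}) (Set.toFinite _) hK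
  exact ⟨M, hM1, hM2⟩

theorem isEPi_of_isDPi {G : Type} [Group G] [Finite G] {π : Set ℕ} (h : Cfsg.IsDPiGroup π G) : Cfsg.IsEPiGroup π G := by
  obtain ⟨M, -, hM⟩ := pi_exists_maximal (π := π) (K := (⊥ : Subgroup G)) (by
    intro p hp hd
    rw [card_bot, Nat.dvd_one] at hd
    exact absurd hd hp.ne_one)
  refine ⟨M, hM.1, ?_⟩
  intro p hp hpπ hd
  haveI := Fact.mk hp
  obtain ⟨P⟩ := (inferInstance : Nonempty (Sylow p G))
  have hPπ : Cfsg.IsPiSubgroup π (P : Subgroup G) := by
    intro q hq hqd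
    obtain ⟨n, hn⟩ := IsPGroup.iff_card.mp P.2
    rw [hn] at hqd
    rw [(Nat.prime_dvd_prime_iff_eq hq hp).mp (hq.dvd_of_dvd_pow hqd)]
    exact hpπ
  obtain ⟨K, hPK, hK⟩ := pi_exists_maximal hPπ
  obtain ⟨g, hg⟩ := h M K hM hK
  have hcard : Nat.card K = Nat.card M := by
    rw [hg]
    exact Nat.card_congr (M.equivMapOfInjective _ (MulAut.conj g).injective).toEquiv.symm
  have h1 : p ^ (Nat.card G).factorization p ∣ Nat.card M := by
    rw [← hcard, ← P.card_eq_multiplicity]
    exact card_dvd_of_le hPK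
  have h2 : p ^ (Nat.card G).factorization p * p ∣ Nat.card G := by
    have h3 := Nat.mul_dvd_mul h1 hd
    rwa [M.card_mul_index] at h3
  rw [← pow_succ] at h2
  exact Nat.pow_succ_factorization_not_dvd Nat.card_pos.ne' hp h2

theorem trivial_of_E {π : Set ℕ} (h : ∀ (G : Type) [Group G] [Finite G], Cfsg.IsEPiGroup π G) :
    (∀ p q : ℕ, p.Prime → q.Prime → p ∈ π → q ∈ π → p = q) ∨ ∀ p : ℕ, p.Prime → p ∈ π := by
  by_cases h1 : ∀ p q : ℕ, p.Prime → q.Prime → p ∈ π → q ∈ π → p = q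
  · exact Or.inl h1
  · push Not at h1
    obtain ⟨p, q, hp, hq, hpπ, hqπ, hpq⟩ := h1
    exact Or.inr fun r hr => H23.prime_mem_of_hall hp hq hpq hpπ hqπ h hr

theorem D_of_trivial {π : Set ℕ}
    (h : (∀ p q : ℕ, p.Prime → q.Prime → p ∈ π → q ∈ π → p = q) ∨ ∀ p : ℕ, p.Prime → p ∈ π)
    (G : Type) [Group G] [Finite G] : Cfsg.IsDPiGroup π G := by
  intro H K hH hK
  rcases h with h | h
  · by_cases hex : ∃ p, p.Prime ∧ p ∈ π
    · obtain ⟨p, hp, hpπ⟩ := hex
      haveI := Fact.mk hp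
      have key : ∀ M : Subgroup G, Maximal (Cfsg.IsPiSubgroup π) M → ∃ P : Sylow p G, (P : Subgroup G) = M := by
        intro M hM
        have hMp : IsPGroup p M := by
          apply IsPGroup.of_card (n := (Nat.card M).primeFactorsList.length)
          apply Nat.eq_prime_pow_of_unique_prime_dvd Nat.card_pos.ne'
          intro d hd hdM
          exact h d p hd hp (hM.1 d hd hdM) hpπ
        obtain ⟨P, hP⟩ := hMp.exists_le_sylow
        refine ⟨P, ?_⟩
        apply le_antisymm _ hP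
        apply hM.2 _ hP
        intro q hq hqd
        obtain ⟨n, hn⟩ := IsPGroup.iff_card.mp P.2
        rw [hn] at hqd
        rw [(Nat.prime_dvd_prime_iff_eq hq hp).mp (hq.dvd_of_dvd_pow hqd)]
        exact hpπ
      obtain ⟨P, rfl⟩ := key H hH
      obtain ⟨Q, rfl⟩ := key K hK
      obtain ⟨g, hg⟩ := MulAction.exists_smul_eq G P Q
      exact ⟨g, by rw [← hg]; rfl⟩
    · have key : ∀ M : Subgroup G, Cfsg.IsPiSubgroup π M → M = ⊥ := by
        intro M hM
        rw [← card_eq_one]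
        by_contra hne
        obtain ⟨q, hq, hqd⟩ := Nat.exists_prime_and_dvd hne
        exact hex ⟨q, hq, hM q hq hqd⟩
      rw [key H hH.1, key K hK.1]
      exact ⟨1, by simp⟩
  · have key : ∀ M : Subgroup G, Maximal (Cfsg.IsPiSubgroup π) M → M = ⊤ := by
      intro M hM
      exact top_le_iff.mp (hM.2 (fun p hp _ => h p hp) le_top)
    rw [key H hH, key K hK]
    refine ⟨1, ?_⟩
    simp

end aux

/-- For a set of primes π the following are equivalent: every finite group has a Hall π-subgroup; in every finite group the maximal π-subgroups are pairwise conjugate; π contains at most one prime or contains every prime. -/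
theorem result (π : Set ℕ) :
    ((∀ (G : Type) [Group G] [Finite G], Cfsg.IsEPiGroup π G) ↔
      ((∀ p q : ℕ, p.Prime → q.Prime → p ∈ π → q ∈ π → p = q) ∨ ∀ p : ℕ, p.Prime → p ∈ π)) ∧
    ((∀ (G : Type) [Group G] [Finite G], Cfsg.IsDPiGroup π G) ↔
      ((∀ p q : ℕ, p.Prime → q.Prime → p ∈ π → q ∈ π → p = q) ∨ ∀ p : ℕ, p.Prime → p ∈ π)) := by
  refine ⟨⟨fun h => trivial_of_E h, fun h G _ _ => isEPi_of_isDPi (D_of_trivial h G)⟩,
    ⟨fun h => trivial_of_E (fun G _ _ => isEPi_of_isDPi (h G)), fun h G _ _ => D_of_trivial h G⟩⟩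

end Cfsg.Agent.S3878
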