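import Cfsg.Statements.S3881
import Cfsg.Agent.H23.Metacyc6

set_option autoImplicit false
set_option linter.all false
open Cfsg

namespace Cfsg.Agent.S3881

section aux
open Subgroup

theorem card_kill {N : ℕ} [NeZero N] (d : ℕ) (hd : d ∣ N) :
    Nat.card ({v : ZMod N × ZMod N | d • v = 0} : Set (ZMod N × ZMod N)) = d ^ 2 := by
  have h1 : Nat.card (nsmulAddMonoidHom d : ZMod N →+ ZMod N).ker = d := by
    rw [IsAddCyclic.card_nsmulAddMonoidHom_ker, Nat.card_zmod, Nat.gcd_eq_right hd]
  have h2 : Nat.card ({v : ZMod N × ZMod N | d • v = 0} : Set (ZMod N × ZMod N)) =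
      Nat.card ((nsmulAddMonoidHom d : ZMod N →+ ZMod N).ker × (nsmulAddMonoidHom d : ZMod N →+ ZMod N).ker) := by
    refine Nat.card_congr
      { toFun := fun v => (⟨v.1.1, ?_⟩, ⟨v.1.2, ?_⟩)
        invFun := fun w => ⟨(w.1, w.2), ?_⟩
        left_inv := ?_
        right_inv := ?_ }
    · have := congrArg Prod.fst v.2
      exact this
    · have := congrArg Prod.snd v.2
      exact this
    · exact Prod.ext w.1.2 w.2.2
    · intro v; rfl
    · intro w; rfl
  rw [h2, Nat.card_prod, h1]; ring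

theorem aux {G : Type*} [Group G] [Finite G] {p : ℕ} [Fact p.Prime] (hp : p ≠ 2) (hG : IsPGroup p G) (hmc : Cfsg.IsMetacyclic G) (n : ℕ) (hn : n ≠ 0) (hGn : Nat.card ↥(commutator G) = p ^ n) (i : ℕ) (hi : 1 ≤ i) (hin : i ≤ n) :
    Nat.card {g : G // (Subgroup.centralizer ({g} : Set G)).index = p ^ i} =
      Nat.card ↥(Subgroup.center G) * (p ^ (2 * i) - p ^ (2 * i - 2)) := by
  obtain ⟨a, b, r, h⟩ := H23.exists_MC hG hmc
  have hN : h.NN = p ^ n := by rw [← h.card_commutator, hGn]
  haveI := h.NN_neZero hG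
  set S : Set (ZMod h.NN × ZMod h.NN) := {v | addOrderOf v = p ^ i} with hS
  have h1 := h.card_preimage hG hp S
  have h2 : Nat.card {g : G // (centralizer ({g} : Set G)).index = p ^ i} = Nat.card (h.ph ⁻¹' S : Set G) := by
    refine Nat.card_congr (Equiv.subtypeEquivRight ?_)
    intro g
    rw [h.index_centralizer hG hp g]
    rfl
  rw [h2, h1]
  congr 1
  obtain ⟨m, rfl⟩ : ∃ m, i = m + 1 := ⟨i - 1, by omega⟩
  set T : ℕ → Set (ZMod h.NN × ZMod h.NN) := fun k => {v | p ^ k • v = 0} with hT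
  have hST : S = T (m + 1) \ T m := by
    ext v
    constructor
    · intro hv
      have hv' : addOrderOf v = p ^ (m + 1) := hv
      refine ⟨?_, ?_⟩
      · show p ^ (m + 1) • v = 0
        rw [← hv']; exact addOrderOf_nsmul_eq_zero v
      · intro h3
        have h3' : p ^ m • v = 0 := h3
        have h4 := addOrderOf_dvd_of_nsmul_eq_zero h3'
        rw [hv'] at h4
        have h5 := (Nat.pow_dvd_pow_iff_le_right (Nat.Prime.one_lt Fact.out)).mp h4
        omega
    · rintro ⟨h3, h4⟩
      exact addOrderOf_eq_prime_pow h4 h3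
  have hsub : T m ⊆ T (m + 1) := by
    intro v hv
    have hv' : p ^ m • v = 0 := hv
    show p ^ (m + 1) • v = 0
    rw [pow_succ', mul_smul, hv', smul_zero]
  have hc : ∀ k, k ≤ n → (T k).ncard = p ^ (2 * k) := by
    intro k hk
    have := card_kill (N := h.NN) (p ^ k) (by rw [hN]; exact pow_dvd_pow p hk)
    rw [← Nat.card_coe_set_eq, this, ← pow_mul, mul_comm]
  rw [Nat.card_coe_set_eq, hST, Set.ncard_diff hsub (Set.toFinite _), hc _ hin, hc _ (by omega)]
  congr 2
end aux

/-- Let p be an odd prime and G a finite metacyclic p-group (G has a cyclic normal subgroup with cyclic quotient). Suppose G is non-abelian with |G'| = p^n. Then for 1 ≤ i ≤ n the number of elements of G whose conjugacy class has exactly p^i elements is |Z(G)| · (p^(2i) − p^(2i−2)). -/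
theorem result {G : Type*} [Group G] [Finite G] {p : ℕ} [Fact p.Prime] (hp : p ≠ 2) (hG : IsPGroup p G) (hmc : Cfsg.IsMetacyclic G) (n : ℕ) (hn : n ≠ 0) (hGn : Nat.card ↥(commutator G) = p ^ n) (i : ℕ) (hi : 1 ≤ i) (hin : i ≤ n) :
    Nat.card {g : G // (Subgroup.centralizer ({g} : Set G)).index = p ^ i} =
      Nat.card ↥(Subgroup.center G) * (p ^ (2 * i) - p ^ (2 * i - 2)) := by
  exact aux hp hG hmc n hn hGn i hi hin

end Cfsg.Agent.S3881
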