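import Cfsg.Statements.S3883
import Cfsg.Agent.H23.Metacyc6

set_option autoImplicit false
set_option linter.all false
open Cfsg

namespace Cfsg.Agent.S3883

/-- Let p be an odd prime and G a finite metacyclic p-group (G has a cyclic normal subgroup with cyclic quotient). Suppose G is non-abelian. Then an element g of G lies outside the Frattini subgroup if and only if its centralizer C_G(g) is abelian. -/
theorem result {G : Type*} [Group G] [Finite G] {p : ℕ} [Fact p.Prime] (hp : p ≠ 2) (hG : IsPGroup p G) (hmc : Cfsg.IsMetacyclic G) (hna : ¬ IsMulCommutative G) (g : G) :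
    g ∉ frattini G ↔ IsMulCommutative ↥(Subgroup.centralizer ({g} : Set G)) := by
  obtain ⟨a, b, r, h⟩ := H23.exists_MC hG hmc
  obtain ⟨n, hN⟩ := h.exists_NN_eq hG
  have hn0 : 1 ≤ n := by
    by_contra hcon
    have h0 : n = 0 := by omega
    rw [h0, pow_zero] at hN
    have h1 := h.card_commutator
    rw [hN, Subgroup.card_eq_one] at h1
    apply hna
    have h2 : Subgroup.center G = ⊤ := by rw [← commutator_eq_bot_iff_center_eq_top]; exact h1
    refine ⟨⟨fun x y => ?_⟩⟩
    exact (Subgroup.mem_center_iff.mp (h2 ▸ Subgroup.mem_top y : y ∈ Subgroup.center G) x)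
  rw [h.frattini_eq hG hp hN hn0]
  constructor
  · intro hg
    exact h.comm_centralizer_of_notMem hG hp hN hn0 hg
  · intro hc hg
    have h1 := H23.mc_card_le hp hG hmc hc
    rw [h.index_commutator hG hp] at h1
    have h2 := (h.pow_nsmul_eq_zero_iff hG hp hN hn0 g).mp hg
    have h3 := (Subgroup.centralizer ({g} : Set G)).index_mul_card
    rw [h.card_eq hG hp, hN] at h3
    rw [hN] at h1
    have hp1 : 1 < p := Nat.Prime.one_lt Fact.out
    have h4 : p ^ (n - 1) < p ^ n := Nat.pow_lt_pow_right hp1 (by omega)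
    have h5 : 0 < Nat.card (Subgroup.center G) := Nat.card_pos
    have h6 : 0 < p ^ n := pow_pos (by omega) n
    have h7 : (Subgroup.centralizer ({g} : Set G)).index * Nat.card (Subgroup.centralizer ({g} : Set G)) ≤
        p ^ (n - 1) * (Nat.card (Subgroup.center G) * p ^ n) := Nat.mul_le_mul h2 h1
    have h8 : p ^ (n - 1) * (Nat.card (Subgroup.center G) * p ^ n) < p ^ n * (Nat.card (Subgroup.center G) * p ^ n) :=
      Nat.mul_lt_mul_of_pos_right h4 (Nat.mul_pos h5 h6)
    rw [h3] at h7
    have h9 : p ^ n * (Nat.card (Subgroup.center G) * p ^ n) = Nat.card (Subgroup.center G) * (p ^ n) ^ 2 := by ring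
    omega

end Cfsg.Agent.S3883
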