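import Cfsg.Statements.S3884
import Cfsg.Agent.H23.Metacyc6
import Cfsg.Agent.H2.Basic

set_option autoImplicit false
set_option linter.all false
open Cfsg

namespace Cfsg.Agent.S3884

section aux
open Subgroup H23
open scoped commutatorElement

theorem exists_mul_modEq {w M : ℕ} (t : ℕ) (hM : 0 < M) (h : w.Coprime M) : ∃ x : ℕ, x * w ≡ t [MOD M] := by
  haveI : NeZero M := ⟨hM.ne'⟩
  refine ⟨((t : ZMod M) * (w : ZMod M)⁻¹).val, ?_⟩
  rw [← ZMod.natCast_eq_natCast_iff]
  push_cast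
  rw [ZMod.natCast_zmod_val, mul_assoc, ZMod.inv_mul_of_unit, mul_one]
  exact (ZMod.isUnit_iff_coprime w M).mpr h

theorem mul_pow_mc {p : ℕ} {G : Type*} [Group G] {a b : G} {r : ℕ} (h : MC p a b r) (x v m : ℕ) :
    (a ^ x * b ^ v) ^ m = a ^ (x * lam (r ^ v) m) * b ^ (v * m) := by
  induction m with
  | zero => simp [lam_zero]
  | succ m ih =>
    rw [pow_succ, ih, h.mul_eq, lam_succ]
    congr 2
    · rw [mul_add, ← pow_mul r v m]
    
theorem exists_lam_eq {p : ℕ} (hp : p.Prime) (hp2 : p ≠ 2) {ρ : ℕ} (hρ : ρ ≡ 1 [MOD p]) (l : ℕ) :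
    ∃ w : ℕ, lam ρ (p ^ l) = p ^ l * w ∧ ¬ p ∣ w := by
  obtain ⟨w, hw⟩ := (pow_dvd_lam_iff hp hp2 hρ l (p ^ l)).mpr dvd_rfl
  refine ⟨w, hw, ?_⟩
  rintro ⟨w', rfl⟩
  have h1 : p ^ (l + 1) ∣ lam ρ (p ^ l) := by
    rw [hw]; exact ⟨w', by ring⟩
  rw [pow_dvd_lam_iff hp hp2 hρ] at h1
  have := (Nat.pow_dvd_pow_iff_le_right hp.one_lt).mp h1
  omega

theorem aux {G : Type*} [Group G] [Finite G] {p : ℕ} [Fact p.Prime] (hp : p ≠ 2) (hG : IsPGroup p G) (hmc : Cfsg.IsMetacyclic G) : ∃ A B : Subgroup G, IsCyclic ↥A ∧ IsCyclic ↥B ∧ A ⊓ B = ⊥ ∧ Nat.card ↥A * Nat.card ↥B = Nat.card G := by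
  have hpp : p.Prime := Fact.out
  obtain ⟨a, b, r, h⟩ := exists_MC hG hmc
  set D := zpowers a ⊓ zpowers b with hD
  have hDZ : D ≤ center G := by
    rintro x ⟨hxa, hxb⟩
    obtain ⟨i, rfl⟩ := mem_zpowers_iff.mp hxa
    obtain ⟨j, hj⟩ := mem_zpowers_iff.mp hxb
    rw [mem_center_iff]
    intro g
    obtain ⟨s, t, rfl⟩ := h.gen g
    have e1 : Commute (a ^ s) (a ^ i) := ((Commute.refl a).pow_left s).zpow_right i
    have e2 : Commute (b ^ t) (a ^ i) := by rw [← hj]; exact ((Commute.refl b).pow_left t).zpow_right j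
    exact (e1.mul_left e2).eq
  haveI hDn : D.Normal := by
    constructor
    intro n hn g
    have := mem_center_iff.mp (hDZ hn) g
    rw [this, mul_inv_cancel_right]; exact hn
  set π := QuotientGroup.mk' D with hπ
  obtain ⟨k, hk⟩ : ∃ k, orderOf (π a) = p ^ k := (IsPGroup.iff_orderOf.mp (hG.to_quotient D)) _
  obtain ⟨l, hl⟩ : ∃ l, orderOf (π b) = p ^ l := (IsPGroup.iff_orderOf.mp (hG.to_quotient D)) _
  have hak : ∀ t : ℕ, a ^ t ∈ D ↔ p ^ k ∣ t := by
    intro t
    rw [← hk, orderOf_dvd_iff_pow_eq_one, ← map_pow]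
    exact (QuotientGroup.eq_one_iff _).symm
  have hbl : ∀ t : ℕ, b ^ t ∈ D ↔ p ^ l ∣ t := by
    intro t
    rw [← hl, orderOf_dvd_iff_pow_eq_one, ← map_pow]
    exact (QuotientGroup.eq_one_iff _).symm
  have hcard : ∀ c : G, D ≤ zpowers c → orderOf (π c) * Nat.card D = orderOf c := by
    intro c hc
    have h1 := H2.card_map_mul_card_inf_ker π (zpowers c)
    rw [MonoidHom.map_zpowers, Nat.card_zpowers, QuotientGroup.ker_mk', inf_eq_right.mpr hc, Nat.card_zpowers] at h1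
    exact h1
  have hca := hcard a inf_le_left
  have hcb := hcard b inf_le_right
  rw [hk] at hca
  rw [hl] at hcb
  haveI hAn : (zpowers a).Normal := by
    constructor
    intro n hn g
    obtain ⟨s, rfl⟩ := mem_powers_iff_mem_zpowers.mpr hn
    obtain ⟨i, j, rfl⟩ := h.gen g
    have h1 := h.pow_mul j s
    have h2 : a ^ i * b ^ j * a ^ s * (a ^ i * b ^ j)⁻¹ = a ^ i * (b ^ j * a ^ s) * (b ^ j)⁻¹ * (a ^ i)⁻¹ := by group
    simp only at h2 ⊢
    rw [h2, h1]
    have h3 : a ^ i * (a ^ (s * r ^ j) * b ^ j) * (b ^ j)⁻¹ * (a ^ i)⁻¹ = a ^ (s * r ^ j) := by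
      have : a ^ i * (a ^ (s * r ^ j) * b ^ j) * (b ^ j)⁻¹ * (a ^ i)⁻¹ = (a ^ i * a ^ (s * r ^ j)) * (a ^ i)⁻¹ := by group
      rw [this, ← pow_add, add_comm, pow_add]; group
    rw [h3]
    exact pow_mem (mem_zpowers a) _
  have hGcard : Nat.card G * Nat.card D = orderOf a * orderOf b := by
    have h1 : zpowers a ⊔ zpowers b = ⊤ := by
      rw [eq_top_iff]
      intro g _
      obtain ⟨i, j, rfl⟩ := h.gen g
      exact mul_mem (mem_sup_left (pow_mem (mem_zpowers a) _)) (mem_sup_right (pow_mem (mem_zpowers b) _))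
    have h2 := H2.card_sup_mul_card_inf (zpowers b) (zpowers a)
    rw [sup_comm, h1, card_top, inf_comm, Nat.card_zpowers, Nat.card_zpowers] at h2
    rw [h2, mul_comm]
  have hDpos : 0 < Nat.card D := Nat.card_pos
  have hG1 : Nat.card G = p ^ k * orderOf b := by
    apply Nat.eq_of_mul_eq_mul_right hDpos
    rw [hGcard, ← hca]; ring
  have hG2 : Nat.card G = orderOf a * p ^ l := by
    apply Nat.eq_of_mul_eq_mul_right hDpos
    rw [hGcard, ← hcb]; ring
  by_cases hDb : D = ⊥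
  · refine ⟨zpowers a, zpowers b, inferInstance, inferInstance, hDb, ?_⟩
    rw [hDb, card_bot, mul_one] at hGcard
    rw [Nat.card_zpowers, Nat.card_zpowers, hGcard]
  -- b ^ p ^ l = a ^ (p ^ k * s)
  obtain ⟨s, hs⟩ : ∃ s : ℕ, b ^ p ^ l = a ^ (p ^ k * s) := by
    have h1 : b ^ p ^ l ∈ D := (hbl _).mpr dvd_rfl
    obtain ⟨t, ht⟩ := mem_powers_iff_mem_zpowers.mpr h1.1
    have h2 : a ^ t = b ^ p ^ l := ht
    have h3 : a ^ t ∈ D := by rw [h2]; exact h1
    obtain ⟨s, rfl⟩ := (hak t).mp h3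
    exact ⟨s, h2.symm⟩
  obtain ⟨α, hα⟩ : ∃ α, orderOf a = p ^ α := (IsPGroup.iff_orderOf.mp hG) a
  have hcop : ∀ w : ℕ, ¬ p ∣ w → w.Coprime (orderOf a) := by
    intro w hw
    rw [hα]
    exact Nat.Coprime.pow_right _ ((Nat.Prime.coprime_iff_not_dvd hpp).mpr hw).symm
  rcases le_or_gt l k with hlk | hlk
  · obtain ⟨w, hw, hpw⟩ := exists_lam_eq hpp hp h.hr l
    obtain ⟨x, hx⟩ := exists_mul_modEq ((orderOf a - 1) * (s * p ^ (k - l))) (orderOf_pos a) (hcop w hpw)
    set b' := a ^ x * b ^ 1 with hb'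
    have hb'pow : ∀ m, b' ^ m = a ^ (x * lam r m) * b ^ m := by
      intro m
      have := mul_pow_mc h x 1 m
      rw [pow_one r, one_mul] at this
      exact this
    have h1 : b' ^ p ^ l = 1 := by
      rw [hb'pow, hw, hs, ← pow_add, ← orderOf_dvd_iff_pow_eq_one]
      have e1 : x * (p ^ l * w) + p ^ k * s = p ^ l * (x * w + s * p ^ (k - l)) := by
        have : p ^ k = p ^ l * p ^ (k - l) := by rw [← pow_add]; congr 1; omega
        rw [this]; ring
      rw [e1]
      apply Dvd.dvd.mul_left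
      have e2 : x * w + s * p ^ (k - l) ≡ (orderOf a - 1) * (s * p ^ (k - l)) + s * p ^ (k - l) [MOD orderOf a] :=
        hx.add_right _
      have e3 : (orderOf a - 1) * (s * p ^ (k - l)) + s * p ^ (k - l) = orderOf a * (s * p ^ (k - l)) := by
        have := orderOf_pos a
        obtain ⟨m, hm⟩ : ∃ m, orderOf a = m + 1 := ⟨orderOf a - 1, by omega⟩
        rw [hm]; simp; ring
      rw [e3] at e2
      exact (Nat.modEq_zero_iff_dvd).mp (e2.trans ((Nat.modEq_zero_iff_dvd).mpr (Dvd.intro _ rfl)))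
    have h2 : ∀ m, b' ^ m ∈ zpowers a → p ^ l ∣ m := by
      intro m hm
      rw [hb'pow] at hm
      have h3 := mul_mem (inv_mem (pow_mem (mem_zpowers a) (x * lam r m))) hm
      rw [inv_mul_cancel_left] at h3
      exact (hbl m).mp ⟨h3, pow_mem (mem_zpowers b) m⟩
    have hord : orderOf b' = p ^ l := by
      apply Nat.dvd_antisymm (orderOf_dvd_of_pow_eq_one h1)
      exact h2 _ (by rw [pow_orderOf_eq_one]; exact one_mem _)
    refine ⟨zpowers a, zpowers b', inferInstance, inferInstance, ?_, ?_⟩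
    · rw [eq_bot_iff]
      rintro y ⟨hya, hyb⟩
      obtain ⟨m, rfl⟩ := mem_powers_iff_mem_zpowers.mpr hyb
      obtain ⟨c, rfl⟩ := h2 m hya
      rw [mem_bot]
      show b' ^ (p ^ l * c) = 1
      rw [pow_mul, h1, one_pow]
    · rw [Nat.card_zpowers, Nat.card_zpowers, hord, hG2]
  · -- p does not divide s
    have ha1 : a ≠ 1 := by
      rintro rfl
      apply hDb
      rw [hD, zpowers_one_eq_bot, bot_inf_eq]
    have hpa : p ∣ orderOf a := by
      rw [hα]
      refine dvd_pow_self p ?_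
      rintro rfl
      rw [pow_zero, orderOf_eq_one_iff] at hα
      exact ha1 hα
    have hps : ¬ p ∣ s := by
      rintro ⟨s', rfl⟩
      apply hDb
      have h1 : a ^ p ^ k ∈ D := (hak _).mpr dvd_rfl
      obtain ⟨t, ht⟩ := mem_powers_iff_mem_zpowers.mpr h1.2
      have ht' : b ^ t = a ^ p ^ k := ht
      have h2 : b ^ t ∈ D := by rw [ht']; exact h1
      obtain ⟨t', rfl⟩ := (hbl t).mp h2
      rw [pow_mul, hs, ← pow_mul] at ht'
      have h3 : a ^ p ^ k = 1 := by
        have h4 : (a ^ p ^ k) ^ (p * s' * t') = (a ^ p ^ k) ^ 1 := by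
          rw [pow_one, ← pow_mul, ← ht']; congr 1; ring
        rw [pow_eq_pow_iff_modEq] at h4
        obtain ⟨β, hβ⟩ : ∃ β, orderOf (a ^ p ^ k) = p ^ β := (IsPGroup.iff_orderOf.mp hG) _
        rw [← orderOf_eq_one_iff, hβ]
        rcases Nat.eq_zero_or_pos β with h0 | h0
        · rw [h0, pow_zero]
        · exfalso
          rw [hβ] at h4
          have h5 : p * s' * t' ≡ 1 [MOD p] := h4.of_dvd (dvd_pow_self p h0.ne')
          have h6 : p * s' * t' ≡ 0 [MOD p] := (Nat.modEq_zero_iff_dvd).mpr ⟨s' * t', by ring⟩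
          have h7 := (h6.symm.trans h5)
          have h8 := (Nat.modEq_iff_dvd' (by norm_num : 0 ≤ 1)).mp h7
          exact hpp.one_lt.ne' (Nat.dvd_one.mp h8)
      rw [eq_bot_iff]
      rintro y hy
      obtain ⟨i, hi⟩ := mem_powers_iff_mem_zpowers.mpr hy.1
      have hi' : a ^ i = y := hi
      have h5 : a ^ i ∈ D := by rw [hi']; exact hy
      obtain ⟨i', rfl⟩ := (hak i).mp h5
      rw [mem_bot, ← hi', pow_mul, h3, one_pow]
    set v := p ^ (l - k) * (orderOf b - 1) with hv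
    have hρ : r ^ v ≡ 1 [MOD p] := by
      have := h.hr.pow v
      rwa [one_pow] at this
    obtain ⟨w, hw, hpw⟩ := exists_lam_eq hpp hp hρ k
    obtain ⟨x, hx⟩ := exists_mul_modEq s (orderOf_pos a) (hcop w hpw)
    have hpx : ¬ p ∣ x := by
      intro hpx
      apply hps
      have h1 : x * w ≡ s [MOD p] := hx.of_dvd hpa
      exact (Nat.modEq_zero_iff_dvd).mp (h1.symm.trans ((Nat.modEq_zero_iff_dvd).mpr (Dvd.dvd.mul_right hpx w)))
    set a' := a ^ x * b ^ v with ha'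
    have ha'pow : ∀ m, a' ^ m = a ^ (x * lam (r ^ v) m) * b ^ (v * m) := fun m => mul_pow_mc h x v m
    have h1 : a' ^ p ^ k = 1 := by
      rw [ha'pow, hw]
      have e1 : a ^ (x * (p ^ k * w)) = b ^ p ^ l := by
        rw [hs, pow_eq_pow_iff_modEq]
        have : x * (p ^ k * w) = p ^ k * (x * w) := by ring
        rw [this]
        exact hx.mul_left _
      have e2 : v * p ^ k = p ^ l * (orderOf b - 1) := by
        have : p ^ l = p ^ (l - k) * p ^ k := by rw [← pow_add]; congr 1; omega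
        rw [hv, this]; ring
      rw [e1, e2, ← pow_add, ← orderOf_dvd_iff_pow_eq_one]
      have := orderOf_pos b
      obtain ⟨m, hm⟩ : ∃ m, orderOf b = m + 1 := ⟨orderOf b - 1, by omega⟩
      refine ⟨p ^ l, ?_⟩
      rw [hm]; simp; ring
    have h2 : ∀ m, a' ^ m ∈ zpowers b → p ^ k ∣ m := by
      intro m hm
      rw [ha'pow] at hm
      have h3 := mul_mem hm (inv_mem (pow_mem (mem_zpowers b) (v * m)))
      rw [mul_inv_cancel_right] at h3
      have h4 := (hak _).mp ⟨pow_mem (mem_zpowers a) _, h3⟩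
      have h5 : (p ^ k).Coprime x := Nat.Coprime.pow_left _ ((Nat.Prime.coprime_iff_not_dvd hpp).mpr hpx)
      exact (pow_dvd_lam_iff hpp hp hρ k m).mp (h5.dvd_of_dvd_mul_left h4)
    have hord : orderOf a' = p ^ k := by
      apply Nat.dvd_antisymm (orderOf_dvd_of_pow_eq_one h1)
      exact h2 _ (by rw [pow_orderOf_eq_one]; exact one_mem _)
    refine ⟨zpowers a', zpowers b, inferInstance, inferInstance, ?_, ?_⟩
    · rw [eq_bot_iff]
      rintro y ⟨hya, hyb⟩
      obtain ⟨m, rfl⟩ := mem_powers_iff_mem_zpowers.mpr hya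
      obtain ⟨c, rfl⟩ := h2 m hyb
      rw [mem_bot]
      show a' ^ (p ^ k * c) = 1
      rw [pow_mul, h1, one_pow]
    · rw [Nat.card_zpowers, Nat.card_zpowers, hord, hG1]
end aux

/-- Let p be an odd prime and G a finite metacyclic p-group (G has a cyclic normal subgroup with cyclic quotient). Then G is the product of two cyclic subgroups with trivial intersection: there are cyclic subgroups A and B with A ∩ B = 1 and |A| · |B| = |G|. -/
theorem result {G : Type*} [Group G] [Finite G] {p : ℕ} [Fact p.Prime] (hp : p ≠ 2) (hG : IsPGroup p G) (hmc : Cfsg.IsMetacyclic G) : ∃ A B : Subgroup G, IsCyclic ↥A ∧ IsCyclic ↥B ∧ A ⊓ B = ⊥ ∧ Nat.card ↥A * Nat.card ↥B = Nat.card G := by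
  exact aux hp hG hmc

end Cfsg.Agent.S3884
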