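import Cfsg.Statements.S3886
import Cfsg.Agent.H23.Metacyc6

set_option autoImplicit false
set_option linter.all false
open Cfsg

namespace Cfsg.Agent.S3886

section aux
open Subgroup

theorem aux {G : Type*} [Group G] [Finite G] {p : ℕ} [Fact p.Prime] (hp : p ≠ 2) (hG : IsPGroup p G) (hmc : Cfsg.IsMetacyclic G) : Cfsg.maxCentralProduct G = (commutator G).index ^ 2 ∧
    ∀ R : Subgroup G, Cfsg.IsCentrallyLarge R ↔ (¬ IsMulCommutative ↥R ∨ Maximal (fun K : Subgroup G => IsMulCommutative ↥K) R) := by
  have hcen : ∀ R : Subgroup G, Nat.card (center R) = Nat.card (R ⊓ centralizer (R : Set G) : Subgroup G) := by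
    intro R
    have h1 : (center R).map R.subtype = R ⊓ centralizer (R : Set G) := by
      ext x
      constructor
      · rintro ⟨y, hy, rfl⟩
        refine ⟨y.2, ?_⟩
        refine mem_centralizer_iff.mpr ?_
        intro z hz
        exact congrArg Subtype.val (mem_center_iff.mp hy ⟨z, hz⟩)
      · rintro ⟨hx, hx'⟩
        refine ⟨⟨x, hx⟩, ?_, rfl⟩
        rw [SetLike.mem_coe, mem_center_iff]
        intro z
        exact Subtype.ext (mem_centralizer_iff.mp hx' z z.2)
    rw [← h1]
    exact (card_map_of_injective R.subtype_injective).symm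
  have hab : ∀ R : Subgroup G, IsMulCommutative R → Nat.card R * Nat.card (center R) = Nat.card R ^ 2 := by
    intro R hR
    rw [hcen, inf_eq_left.mpr (H23.isMulCommutative_iff_le_centralizer.mp hR)]; ring
  have hnab : ∀ R : Subgroup G, ¬ IsMulCommutative R → Nat.card R * Nat.card (center R) = (commutator G).index ^ 2 := by
    intro R hR
    obtain ⟨h1, h2, h3, h4⟩ := H23.mc_nonab hp hG hmc hR
    rw [hcen, inf_eq_right.mpr h1, h3]
  have hle : ∀ R : Subgroup G, Nat.card R * Nat.card (center R) ≤ (commutator G).index ^ 2 := by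
    intro R
    by_cases hR : IsMulCommutative R
    · rw [hab R hR]
      exact Nat.pow_le_pow_left (H23.mc_card_le hp hG hmc hR) 2
    · exact (hnab R hR).le
  have hmax : Cfsg.maxCentralProduct G = (commutator G).index ^ 2 := by
    unfold Cfsg.maxCentralProduct
    apply le_antisymm
    · refine csSup_le ⟨_, ⟨⊤, rfl⟩⟩ ?_
      rintro k ⟨R', rfl⟩
      exact hle R'
    · apply le_csSup
      · refine ⟨(commutator G).index ^ 2, ?_⟩
        rintro k ⟨R', rfl⟩
        exact hle R'
      · refine ⟨⊤, ?_⟩
        have := H23.mc_mul_eq_iff hp hG hmc (⊤ : Subgroup G)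
        rw [hcen, inf_eq_right.mpr le_top]
        exact this.mpr le_top
  refine ⟨hmax, ?_⟩
  intro R
  unfold Cfsg.IsCentrallyLarge
  rw [hmax, H23.mc_maximal_iff hp hG hmc]
  by_cases hR : IsMulCommutative R
  · rw [hab R hR]
    constructor
    · intro h
      exact Or.inr (Nat.pow_left_injective (by norm_num : 2 ≠ 0) h)
    · rintro (h | h)
      · exact absurd hR h
      · rw [h]
  · exact ⟨fun _ => Or.inl hR, fun _ => hnab R hR⟩
end aux

/-- Let p be an odd prime and G a finite metacyclic p-group (G has a cyclic normal subgroup with cyclic quotient). Then the largest value of |R| · |Z(R)| over subgroups R of G is |G : G'|², and the subgroups attaining it (the centrally large subgroups) are exactly the non-abelian subgroups together with the maximal abelian subgroups of G. -/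
theorem result {G : Type*} [Group G] [Finite G] {p : ℕ} [Fact p.Prime] (hp : p ≠ 2) (hG : IsPGroup p G) (hmc : Cfsg.IsMetacyclic G) : Cfsg.maxCentralProduct G = (commutator G).index ^ 2 ∧
    ∀ R : Subgroup G, Cfsg.IsCentrallyLarge R ↔ (¬ IsMulCommutative ↥R ∨ Maximal (fun K : Subgroup G => IsMulCommutative ↥K) R) := by
  exact aux hp hG hmc

end Cfsg.Agent.S3886
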