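import Cfsg.Statements.S3895
import Cfsg.Agent.H24.Centric
import Cfsg.Agent.H2.NComp

set_option autoImplicit false
set_option linter.all false
open Cfsg

namespace Cfsg.Agent.S3895

section aux
open Subgroup H23 H24
open scoped Pointwise

open Classical in
theorem class_count {G : Type*} [Group G] [Finite G] (S : Finset G) (T : Finset (ConjClasses G)) (m : ℕ)
    (h : ∀ c ∈ T, m ≤ (S.filter (fun x => ConjClasses.mk x = c)).card) : m * T.card ≤ S.card := by
  have h1 := Finset.card_nsmul_le_sum T (fun c => (S.filter (fun x => ConjClasses.mk x = c)).card) m h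
  have h2 : ∑ c ∈ T, (S.filter (fun x => ConjClasses.mk x = c)).card
      = (S.filter (fun x => ConjClasses.mk x ∈ T)).card := by
    rw [Finset.card_eq_sum_card_fiberwise (f := fun x : G => ConjClasses.mk x) (s := S.filter (fun x => ConjClasses.mk x ∈ T)) (t := T)
      (fun x hx => (Finset.mem_filter.mp hx).2)]
    apply Finset.sum_congr rfl
    intro c hc
    congr 1
    ext x
    simp only [Finset.mem_filter]
    constructor
    · rintro ⟨h1, h2⟩; exact ⟨⟨h1, by rw [h2]; exact hc⟩, h2⟩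
    · rintro ⟨⟨h1, _⟩, h2⟩; exact ⟨h1, h2⟩
  rw [h2] at h1
  have h3 : (S.filter (fun x => ConjClasses.mk x ∈ T)).card ≤ S.card := Finset.card_filter_le _ _
  rw [smul_eq_mul, mul_comm] at h1
  exact h1.trans h3

theorem four_mul_card_le {G : Type*} [Group G] [Finite G] {R : Subgroup G} (hR : IsPGroup 2 R) {y : G}
    (hy : y ∈ normalizer (R : Set G)) (hyo : Odd (orderOf y)) (hyc : y ∉ centralizer (R : Set G)) :
    4 * Nat.card (R ⊓ centralizer {y} : Subgroup G) ≤ Nat.card R := by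
  set C := R ⊓ centralizer {y} with hC
  have hCR : C ≤ R := inf_le_left
  have hmemC : ∀ r, r ∈ C ↔ r ∈ R ∧ y * r = r * y := fun r => by
    rw [hC, mem_inf, mem_centralizer_singleton_iff]
    exact ⟨fun h => ⟨h.1, h.2.symm⟩, fun h => ⟨h.1, h.2.symm⟩⟩
  have h1 := H19.card_relIndex hCR
  have h2 : ∃ k, C.relIndex R = 2 ^ k := by
    have h3 : C.relIndex R ∣ Nat.card R := Subgroup.relIndex_dvd_card C R
    obtain ⟨n, hn⟩ := IsPGroup.iff_card.mp hR
    rw [hn] at h3
    obtain ⟨k, _, hk⟩ := (Nat.dvd_prime_pow Nat.prime_two).mp h3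
    exact ⟨k, hk⟩
  obtain ⟨k, hk⟩ := h2
  rw [hk] at h1
  rcases k with _ | _ | k
  · exfalso
    rw [pow_zero] at hk
    rw [relIndex_eq_one] at hk
    apply hyc
    rw [mem_centralizer_iff]
    intro r hr
    exact ((hmemC r).mp (hk hr)).2.symm
  · exfalso
    rw [zero_add, pow_one] at hk
    apply hyc
    rw [mem_centralizer_iff]
    intro r hr
    by_cases hrC : r ∈ C
    · exact ((hmemC r).mp hrC).2.symm
    have hyr : y * r * y⁻¹ ∈ R := (mem_normalizer_iff.mp hy r).mp hr
    have hyrC : y * r * y⁻¹ ∉ C := by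
      intro h
      apply hrC
      rw [hmemC]
      refine ⟨hr, ?_⟩
      have h3 := ((hmemC _).mp h).2
      have h4 : y * (y * r * y⁻¹) * y⁻¹ = y * r * y⁻¹ := by rw [h3]; group
      have h5 : y * r * y⁻¹ = r := mul_left_cancel (mul_right_cancel h4)
      calc y * r = y * r * y⁻¹ * y := by group
        _ = r * y := by rw [h5]
    have hidx : (C.subgroupOf R).index = 2 := hk
    have h3 : r⁻¹ * (y * r * y⁻¹) ∈ C := by
      have h4 := Subgroup.mul_mem_iff_of_index_two hidx (a := ⟨r, hr⟩⁻¹) (b := ⟨y * r * y⁻¹, hyr⟩)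
      have h5 : ((⟨r, hr⟩ : R)⁻¹ ∈ C.subgroupOf R ↔ (⟨y * r * y⁻¹, hyr⟩ : R) ∈ C.subgroupOf R) := by
        rw [inv_mem_iff, mem_subgroupOf, mem_subgroupOf]
        exact ⟨fun h => absurd h hrC, fun h => absurd h hyrC⟩
      exact h4.mpr h5
    set c := r⁻¹ * (y * r * y⁻¹) with hc
    have hyc' : y * c = c * y := ((hmemC c).mp h3).2
    have hcom : Commute y c := hyc'
    have h4 : ∀ n : ℕ, y ^ n * r * (y ^ n)⁻¹ = r * c ^ n := by
      intro n
      induction n with
      | zero => simp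
      | succ n ih =>
        have e1 : y ^ (n + 1) * r * (y ^ (n + 1))⁻¹ = y * (y ^ n * r * (y ^ n)⁻¹) * y⁻¹ := by
          rw [pow_succ']; group
        rw [e1, ih]
        have e2 : y * (r * c ^ n) * y⁻¹ = (y * r * y⁻¹) * (y * c ^ n * y⁻¹) := by group
        have e3 : y * c ^ n * y⁻¹ = c ^ n := by
          rw [(hcom.pow_right n).eq]; group
        have e4 : y * r * y⁻¹ = r * c := by rw [hc]; group
        rw [e2, e3, e4, mul_assoc, ← pow_succ']
    have h5 := h4 (orderOf y)
    rw [pow_orderOf_eq_one, one_mul, inv_one, mul_one] at h5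
    have h6 : c ^ orderOf y = 1 := by
      have := h5.symm
      exact mul_eq_left.mp this
    obtain ⟨j, hj⟩ := hR ⟨c, hCR h3⟩
    have hj' : c ^ 2 ^ j = 1 := congrArg Subtype.val hj
    have h7 : orderOf c ∣ 1 := by
      have e1 := orderOf_dvd_of_pow_eq_one h6
      have e2 := orderOf_dvd_of_pow_eq_one hj'
      have e3 : Nat.Coprime (orderOf y) (2 ^ j) := Nat.Coprime.pow_right _ (Nat.coprime_two_right.mpr hyo)
      rw [← Nat.Coprime.gcd_eq_one e3]
      exact Nat.dvd_gcd e1 e2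
    have h8 : c = 1 := orderOf_eq_one_iff.mp (Nat.dvd_one.mp h7)
    have h9 : r * 1 = y * r * y⁻¹ := by rw [← h8, hc]; group
    rw [mul_one] at h9
    calc r * y = y * r * y⁻¹ * y := by rw [← h9]
      _ = y * r := by group
  · have h3 : 4 ≤ 2 ^ (k + 1 + 1) := by
      have : 1 ≤ 2 ^ k := Nat.one_le_two_pow
      rw [pow_succ, pow_succ]; omega
    calc 4 * Nat.card C ≤ 2 ^ (k + 1 + 1) * Nat.card C := Nat.mul_le_mul_right _ h3
      _ = Nat.card R := by rw [mul_comm]; exact h1

theorem exists_conj_mem {G : Type*} [Group G] [Finite G] (P : Sylow 2 G) {x : G} {k : ℕ} (hk : orderOf x = 2 ^ k) :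
    ∃ z ∈ (P : Subgroup G), ConjClasses.mk z = ConjClasses.mk x := by
  have h1 : IsPGroup 2 (zpowers x) := IsPGroup.of_card (n := k) (by rw [Nat.card_zpowers, hk])
  obtain ⟨Q, hQ⟩ := h1.exists_le_sylow
  obtain ⟨g, hg⟩ := MulAction.exists_smul_eq G Q P
  refine ⟨g * x * g⁻¹, ?_, ?_⟩
  · rw [← hg]
    show g * x * g⁻¹ ∈ (MulAut.conj g • (Q : Subgroup G))
    exact ⟨x, hQ (mem_zpowers x), rfl⟩
  · rw [ConjClasses.mk_eq_mk_iff_isConj]
    exact (isConj_iff.mpr ⟨g, rfl⟩).symm

theorem card_classes_of_complement {G : Type*} [Group G] [Finite G] (P : Sylow 2 G)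
    (h : Cfsg.HasNormalPComplement 2 G) :
    Nat.card {c : ConjClasses G // ∀ x ∈ c.carrier, ∃ k : ℕ, orderOf x = 2 ^ k} = Nat.card (ConjClasses ↥(P : Subgroup G)) := by
  obtain ⟨N, hN, hc⟩ := (H2.hasNormalPComplement_iff_sylow P).mp h
  have hinf : N ⊓ (P : Subgroup G) = ⊥ := hc.disjoint.eq_bot
  have hsup : N ⊔ (P : Subgroup G) = ⊤ := hc.sup_eq_top
  symm
  refine Nat.card_congr (Equiv.ofBijective (fun c => ⟨c.map (P : Subgroup G).subtype, ?_⟩) ⟨?_, ?_⟩)
  · obtain ⟨z, rfl⟩ := ConjClasses.mk_surjective c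
    intro x hx
    rw [ConjClasses.mem_carrier_iff_mk_eq] at hx
    have hx' : IsConj x (z : G) := ConjClasses.mk_eq_mk_iff_isConj.mp hx
    obtain ⟨k, hk⟩ := (IsPGroup.iff_orderOf.mp P.2) z
    refine ⟨k, ?_⟩
    obtain ⟨g, hg⟩ := isConj_iff.mp hx'
    rw [← hk, ← Subgroup.orderOf_coe, ← hg]
    have := MulEquiv.orderOf_eq (MulAut.conj g) x
    simpa using this.symm
  · intro c d hcd
    obtain ⟨a, rfl⟩ := ConjClasses.mk_surjective c
    obtain ⟨b, rfl⟩ := ConjClasses.mk_surjective d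
    have h1 : ConjClasses.mk (a : G) = ConjClasses.mk (b : G) := congrArg Subtype.val hcd
    rw [ConjClasses.mk_eq_mk_iff_isConj] at h1 ⊢
    obtain ⟨g, hg⟩ := isConj_iff.mp h1
    obtain ⟨n, hn, u, hu, rfl⟩ := mem_sup_of_normal_left.mp (show g ∈ N ⊔ (P : Subgroup G) by rw [hsup]; exact mem_top g)
    rw [isConj_iff]
    refine ⟨⟨u, hu⟩, Subtype.ext ?_⟩
    show u * (a : G) * u⁻¹ = b
    set w := u * (a : G) * u⁻¹ with hw
    have hwP : w ∈ (P : Subgroup G) := mul_mem (mul_mem hu a.2) (inv_mem hu)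
    have h2 : n * w * n⁻¹ = b := by rw [hw, ← hg]; group
    have h3 : w⁻¹ * (b : G) ∈ N ⊓ (P : Subgroup G) := by
      refine ⟨?_, (P : Subgroup G).mul_mem ((P : Subgroup G).inv_mem hwP) b.2⟩
      rw [← h2]
      have e : w⁻¹ * (n * w * n⁻¹) = (w⁻¹ * n * w⁻¹⁻¹) * n⁻¹ := by group
      rw [e]
      exact N.mul_mem (hN.conj_mem n hn _) (N.inv_mem hn)
    rw [hinf, mem_bot] at h3
    exact (inv_mul_eq_one.mp h3)
  · rintro ⟨c, hc⟩
    obtain ⟨x, rfl⟩ := ConjClasses.mk_surjective c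
    obtain ⟨k, hk⟩ := hc x ConjClasses.mem_carrier_mk
    obtain ⟨z, hz, hzx⟩ := exists_conj_mem P hk
    exact ⟨ConjClasses.mk ⟨z, hz⟩, Subtype.ext hzx⟩

theorem not_complement {G : Type*} [Group G] [Finite G] (P : Sylow 2 G) (h : ¬ Cfsg.HasNormalPComplement 2 G) :
    2 * Nat.card {c : ConjClasses G // ∀ x ∈ c.carrier, ∃ k : ℕ, orderOf x = 2 ^ k} ≤ Nat.card ↥(P : Subgroup G) := by
  classical
  haveI := Fintype.ofFinite G
  haveI := Fintype.ofFinite (ConjClasses G)
  obtain ⟨R, hRP, hRC, y, hy, hyo, hyc⟩ : ∃ R : Subgroup G, R ≤ P ∧ (P : Subgroup G) ⊓ centralizer (R : Set G) ≤ R ∧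
      ∃ y ∈ normalizer (R : Set G), Odd (orderOf y) ∧ y ∉ centralizer (R : Set G) := by
    by_contra hcon
    push Not at hcon
    apply h
    apply hasNormalPComplement_of_centric P
    intro R hR hRC y hy hyo
    exact hcon R hR hRC y hy (Nat.coprime_two_right.mp hyo)
  have hRp : IsPGroup 2 R := P.2.to_le hRP
  have h4 := four_mul_card_le hRp hy hyo hyc
  set C := R ⊓ centralizer {y} with hC
  have hmemC : ∀ r, r ∈ C ↔ r ∈ R ∧ y * r = r * y := fun r => by
    rw [hC, mem_inf, mem_centralizer_singleton_iff]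
    exact ⟨fun h => ⟨h.1, h.2.symm⟩, fun h => ⟨h.1, h.2.symm⟩⟩
  have hCR : C ≤ R := inf_le_left
  let SC : Finset G := Finset.univ.filter (fun x => x ∈ C)
  let SR : Finset G := Finset.univ.filter (fun x => x ∈ R)
  let SP : Finset G := Finset.univ.filter (fun x => x ∈ (P : Subgroup G))
  have cC : SC.card = Nat.card C := by
    rw [Nat.card_eq_fintype_card, Fintype.card_subtype]
  have cR : SR.card = Nat.card R := by
    rw [Nat.card_eq_fintype_card, Fintype.card_subtype]
  have cP : SP.card = Nat.card (P : Subgroup G) := by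
    rw [Nat.card_eq_fintype_card, Fintype.card_subtype]
  have hCR' : SC ⊆ SR := fun x hx => by
    simp only [SC, SR, Finset.mem_filter, Finset.mem_univ, true_and] at hx ⊢
    exact hCR hx
  have hRP' : SR ⊆ SP := fun x hx => by
    simp only [SR, SP, Finset.mem_filter, Finset.mem_univ, true_and] at hx ⊢
    exact hRP hx
  let T1 : Finset (ConjClasses G) := Finset.univ.filter (fun c => ∃ x ∈ C, ConjClasses.mk x = c)
  let T2 : Finset (ConjClasses G) := Finset.univ.filter (fun c => ∃ x ∈ R, x ∉ C ∧ ConjClasses.mk x = c)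
  let T3 : Finset (ConjClasses G) := Finset.univ.filter (fun c => (∃ x ∈ (P : Subgroup G), ConjClasses.mk x = c) ∧
    ∀ x ∈ R, ConjClasses.mk x ≠ c)
  have e1 : 1 * T1.card ≤ SC.card := by
    apply class_count
    intro c hc
    simp only [T1, Finset.mem_filter, Finset.mem_univ, true_and] at hc
    obtain ⟨x, hx, hxc⟩ := hc
    rw [Nat.one_le_iff_ne_zero, Finset.card_ne_zero]
    exact ⟨x, by simp [SC, hx, hxc]⟩
  have e2 : 3 * T2.card ≤ (SR \ SC).card := by
    apply class_count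
    intro c hc
    simp only [T2, Finset.mem_filter, Finset.mem_univ, true_and] at hc
    obtain ⟨x, hx, hxC, hxc⟩ := hc
    have step : ∀ z, z ∈ R → z ∉ C → y * z * y⁻¹ ∈ R ∧ y * z * y⁻¹ ∉ C ∧ z ≠ y * z * y⁻¹ := by
      intro z hz hzC
      have hne : ¬ y * z = z * y := fun h => hzC ((hmemC z).mpr ⟨hz, h⟩)
      refine ⟨(mem_normalizer_iff.mp hy z).mp hz, ?_, ?_⟩
      · intro h
        apply hne
        have h3 := ((hmemC _).mp h).2
        have h4 : y * (y * z * y⁻¹) * y⁻¹ = y * z * y⁻¹ := by rw [h3]; group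
        have h5 : y * z * y⁻¹ = z := mul_left_cancel (mul_right_cancel h4)
        calc y * z = y * z * y⁻¹ * y := by group
          _ = z * y := by rw [h5]
      · intro h
        apply hne
        calc y * z = y * z * y⁻¹ * y := by group
          _ = z * y := by rw [← h]
    obtain ⟨a1, a2, a3⟩ := step x hx hxC
    obtain ⟨b1, b2, b3⟩ := step _ a1 a2
    have hmk : ∀ z, ConjClasses.mk z = c → ConjClasses.mk (y * z * y⁻¹) = c := by
      intro z hz
      rw [← hz, ConjClasses.mk_eq_mk_iff_isConj]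
      exact (isConj_iff.mpr ⟨y, rfl⟩).symm
    have hx2 : x ≠ y * (y * x * y⁻¹) * y⁻¹ := by
      intro h
      apply hxC
      rw [hmemC]
      refine ⟨hx, ?_⟩
      have h5 : (y ^ 2) * x = x * y ^ 2 := by
        calc y ^ 2 * x = y * (y * x * y⁻¹) * y⁻¹ * y ^ 2 := by rw [pow_two]; group
          _ = x * y ^ 2 := by rw [← h]
      have h6 : Commute (y ^ 2) x := h5
      obtain ⟨m, hm⟩ := hyo
      have h7 : (y ^ 2) ^ (m + 1) = y := by
        rw [← pow_mul, show 2 * (m + 1) = orderOf y + 1 by omega, pow_succ, pow_orderOf_eq_one, one_mul]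
      have h8 := h6.pow_left (m + 1)
      rw [h7] at h8
      exact h8.eq
    apply Finset.two_lt_card.mpr
    refine ⟨x, ?_, y * x * y⁻¹, ?_, y * (y * x * y⁻¹) * y⁻¹, ?_, a3, hx2, b3⟩
    · simp only [SR, SC, Finset.mem_filter, Finset.mem_sdiff, Finset.mem_univ, true_and]
      exact ⟨⟨hx, hxC⟩, hxc⟩
    · simp only [SR, SC, Finset.mem_filter, Finset.mem_sdiff, Finset.mem_univ, true_and]
      exact ⟨⟨a1, a2⟩, hmk _ hxc⟩
    · simp only [SR, SC, Finset.mem_filter, Finset.mem_sdiff, Finset.mem_univ, true_and]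
      exact ⟨⟨b1, b2⟩, hmk _ (hmk _ hxc)⟩
  have e3 : 2 * T3.card ≤ (SP \ SR).card := by
    apply class_count
    intro c hc
    simp only [T3, Finset.mem_filter, Finset.mem_univ, true_and] at hc
    obtain ⟨⟨x, hx, hxc⟩, hxR⟩ := hc
    have hxnR : ∀ z, ConjClasses.mk z = c → z ∉ R := fun z hz hzR => hxR z hzR hz
    obtain ⟨g, hg, hgx⟩ : ∃ g ∈ (P : Subgroup G), g * x ≠ x * g := by
      by_contra hcon
      push Not at hcon
      apply hxnR x hxc
      apply hRC
      refine ⟨hx, mem_centralizer_iff.mpr ?_⟩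
      intro r hr
      exact hcon r (hRP hr)
    have hmk : ConjClasses.mk (g * x * g⁻¹) = c := by
      rw [← hxc, ConjClasses.mk_eq_mk_iff_isConj]
      exact (isConj_iff.mpr ⟨g, rfl⟩).symm
    apply Finset.one_lt_card.mpr
    refine ⟨x, ?_, g * x * g⁻¹, ?_, ?_⟩
    · simp only [SR, SP, Finset.mem_filter, Finset.mem_sdiff, Finset.mem_univ, true_and]
      exact ⟨⟨hx, hxnR _ hxc⟩, hxc⟩
    · simp only [SR, SP, Finset.mem_filter, Finset.mem_sdiff, Finset.mem_univ, true_and]
      exact ⟨⟨mul_mem (mul_mem hg hx) (inv_mem hg), hxnR _ hmk⟩, hmk⟩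
    · intro h
      apply hgx
      calc g * x = g * x * g⁻¹ * g := by group
        _ = x * g := by rw [← h]
  have e4 : Nat.card {c : ConjClasses G // ∀ x ∈ c.carrier, ∃ k : ℕ, orderOf x = 2 ^ k} ≤ T1.card + T2.card + T3.card := by
    rw [Nat.card_eq_fintype_card, Fintype.card_subtype]
    have : (Finset.univ.filter (fun c : ConjClasses G => ∀ x ∈ c.carrier, ∃ k : ℕ, orderOf x = 2 ^ k)) ⊆ T1 ∪ T2 ∪ T3 := by
      intro c hc
      simp only [Finset.mem_filter, Finset.mem_univ, true_and] at hc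
      obtain ⟨x, rfl⟩ := ConjClasses.mk_surjective c
      obtain ⟨k, hk⟩ := hc x ConjClasses.mem_carrier_mk
      obtain ⟨z, hz, hzx⟩ := exists_conj_mem P hk
      rw [← hzx]
      simp only [T1, T2, T3, Finset.mem_union, Finset.mem_filter, Finset.mem_univ, true_and]
      by_cases h5 : ∃ r ∈ R, ConjClasses.mk r = ConjClasses.mk z
      · obtain ⟨r, hr, hrz⟩ := h5
        by_cases h6 : r ∈ C
        · exact Or.inl (Or.inl ⟨r, h6, hrz⟩)
        · exact Or.inl (Or.inr ⟨r, hr, h6, hrz⟩)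
      · push Not at h5
        exact Or.inr ⟨⟨z, hz, rfl⟩, h5⟩
    refine (Finset.card_le_card this).trans ?_
    refine (Finset.card_union_le _ _).trans ?_
    have := Finset.card_union_le T1 T2
    omega
  rw [Finset.card_sdiff_of_subset hCR'] at e2
  rw [Finset.card_sdiff_of_subset hRP'] at e3
  have e5 := Finset.card_le_card hCR'
  have e6 := Finset.card_le_card hRP'
  rw [cC] at e1 e2 e5
  rw [cR] at e2 e3 e5 e6
  rw [cP] at e3 e6
  omega

end aux

/-- Let G be a finite group with Sylow 2-subgroup P, and write k₂(G) for the number of conjugacy classes of G consisting of 2-elements (elements of 2-power order, the identity included). Then k₂(G) > |P|/2 if and only if G has a normal 2-complement and P has more than |P|/2 conjugacy classes. -/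
theorem result {G : Type*} [Group G] [Finite G] (P : Sylow 2 G) :
    Nat.card ↥(P : Subgroup G) < 2 * Nat.card {c : ConjClasses G // ∀ x ∈ c.carrier, ∃ k : ℕ, orderOf x = 2 ^ k} ↔
      Cfsg.HasNormalPComplement 2 G ∧ Nat.card ↥(P : Subgroup G) < 2 * Nat.card (ConjClasses ↥(P : Subgroup G)) := by
  by_cases h : Cfsg.HasNormalPComplement 2 G
  · rw [card_classes_of_complement P h]
    exact ⟨fun h1 => ⟨h, h1⟩, fun h1 => h1.2⟩
  · have h1 := not_complement P h
    exact ⟨fun h2 => absurd h2 (by omega), fun h2 => absurd h2.1 h⟩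

end Cfsg.Agent.S3895
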