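import Cfsg.Statements.S3897
import Cfsg.Agent.H23.KPi

set_option autoImplicit false
set_option linter.all false
open Cfsg

namespace Cfsg.Agent.S3897

open Subgroup


/-- Let p be an odd prime and G a finite group with Sylow p-subgroup P, and write k_p(G) for the number of conjugacy classes of G consisting of p-elements (elements of p-power order, the identity included). Then k_p(G) > (p + 1)|P|/(2p) if and only if G has a normal p-complement and P is abelian. -/
theorem result {G : Type*} [Group G] [Finite G] {p : ℕ} [Fact p.Prime] (hp : p ≠ 2) (P : Sylow p G) :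
    (p + 1) * Nat.card ↥(P : Subgroup G) < 2 * p * Nat.card {c : ConjClasses G // ∀ x ∈ c.carrier, ∃ k : ℕ, orderOf x = p ^ k} ↔
      Cfsg.HasNormalPComplement p G ∧ IsMulCommutative ↥(P : Subgroup G) := by
  have hP0 : 0 < Nat.card ↥(P : Subgroup G) := Nat.card_pos
  have hp3 : 3 ≤ p := by
    have := (Fact.out : p.Prime).two_le
    omega
  constructor
  · intro h
    exact H23.npc_of_lt P h
  · rintro ⟨h, hc⟩
    have h1 := H23.le_card_PCl_of_npc P h hc
    calc (p + 1) * Nat.card ↥(P : Subgroup G) < 2 * p * Nat.card ↥(P : Subgroup G) :=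
          Nat.mul_lt_mul_of_pos_right (by omega) hP0
      _ ≤ _ := Nat.mul_le_mul_left _ h1

end Cfsg.Agent.S3897
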