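import Cfsg.Statements.S3898
import Cfsg.Agent.H23.KPi

set_option autoImplicit false
set_option linter.all false
open Cfsg

namespace Cfsg.Agent.S3898

open Subgroup
open Cfsg.Agent.H23

theorem card_le_of_fibers2 {α β : Type*} [Finite α] (f : α → β) (hf : Function.Surjective f)
    (T F : Set α) (hFT : F ⊆ T) (h4 : 4 * Nat.card F ≤ Nat.card T)
    (h3 : ∀ x ∈ T, x ∉ F → ∃ y ∈ T, ∃ z ∈ T, y ≠ x ∧ z ≠ x ∧ z ≠ y ∧ f y = f x ∧ f z = f x)
    (h2 : ∀ x, x ∉ T → ∃ y, y ≠ x ∧ f y = f x) : 2 * Nat.card β ≤ Nat.card α := by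
  classical
  haveI : Finite β := Finite.of_surjective f hf
  haveI := Fintype.ofFinite α
  haveI := Fintype.ofFinite β
  have e1 : Fintype.card α = ∑ b : β, (Finset.univ.filter (fun a => f a = b)).card := by
    rw [← Finset.card_univ]
    exact Finset.card_eq_sum_card_fiberwise (fun _ _ => Finset.mem_coe.mpr (Finset.mem_univ _))
  have e2 : ∀ F : Set α, Nat.card F = ∑ b : β, ((Finset.univ.filter (fun a => a ∈ F)).filter (fun a => f a = b)).card := by
    intro F
    have h0 : Nat.card F = (Finset.univ.filter (fun a => a ∈ F)).card := by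
      rw [Nat.card_eq_fintype_card]
      exact Fintype.card_subtype (fun a => a ∈ F)
    rw [h0]
    exact Finset.card_eq_sum_card_fiberwise (fun _ _ => Finset.mem_coe.mpr (Finset.mem_univ _))
  have key : ∀ b : β, 6 + ((Finset.univ.filter (fun a => a ∈ T)).filter (fun a => f a = b)).card ≤
      3 * (Finset.univ.filter (fun a => f a = b)).card +
      4 * ((Finset.univ.filter (fun a => a ∈ F)).filter (fun a => f a = b)).card := by
    intro b
    have hsub : ((Finset.univ.filter (fun a => a ∈ T)).filter (fun a => f a = b)) ⊆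
        (Finset.univ.filter (fun a => f a = b)) := by
      intro a ha
      simp only [Finset.mem_filter, Finset.mem_univ, true_and] at ha ⊢
      exact ha.2
    have hle := Finset.card_le_card hsub
    by_cases hb : ∃ x ∈ T, x ∉ F ∧ f x = b
    · obtain ⟨x, hxT, hxF, rfl⟩ := hb
      obtain ⟨y, hyT, z, hzT, h1, h2, h3, h4, h5⟩ := h3 x hxT hxF
      have : ({x, y, z} : Finset α) ⊆ ((Finset.univ.filter (fun a => a ∈ T)).filter (fun a => f a = f x)) := by
        intro a ha
        simp only [Finset.mem_insert, Finset.mem_singleton] at ha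
        simp only [Finset.mem_filter, Finset.mem_univ, true_and]
        rcases ha with rfl | rfl | rfl
        · exact ⟨hxT, rfl⟩
        · exact ⟨hyT, h4⟩
        · exact ⟨hzT, h5⟩
      have hc := Finset.card_le_card this
      rw [Finset.card_insert_of_notMem (by simp [h1.symm, h2.symm]), Finset.card_insert_of_notMem (by simp [h3.symm]),
        Finset.card_singleton] at hc
      omega
    · push Not at hb
      by_cases hb2 : ∃ x ∈ T, f x = b
      · obtain ⟨x, hxT, rfl⟩ := hb2
        have h1 : ((Finset.univ.filter (fun a => a ∈ T)).filter (fun a => f a = f x)) =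
            ((Finset.univ.filter (fun a => a ∈ F)).filter (fun a => f a = f x)) := by
          ext a
          simp only [Finset.mem_filter, Finset.mem_univ, true_and]
          constructor
          · rintro ⟨ha, hb'⟩
            refine ⟨?_, hb'⟩
            by_contra hne
            exact hb a ha hne hb'
          · rintro ⟨ha, hb'⟩
            exact ⟨hFT ha, hb'⟩
        have h0 : 0 < ((Finset.univ.filter (fun a => a ∈ T)).filter (fun a => f a = f x)).card :=
          Finset.card_pos.mpr ⟨x, by simp [hxT]⟩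
        rw [← h1]
        omega
      · push Not at hb2
        obtain ⟨x, rfl⟩ := hf b
        have hxT : x ∉ T := fun h => hb2 x h rfl
        obtain ⟨y, hyx, hy⟩ := h2 x hxT
        have : ({x, y} : Finset α) ⊆ (Finset.univ.filter (fun a => f a = f x)) := by
          intro a ha
          simp only [Finset.mem_insert, Finset.mem_singleton] at ha
          simp only [Finset.mem_filter, Finset.mem_univ, true_and]
          rcases ha with rfl | rfl
          · rfl
          · exact hy
        have hc := Finset.card_le_card this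
        rw [Finset.card_insert_of_notMem (by simp [hyx.symm]), Finset.card_singleton] at hc
        have h0 : ((Finset.univ.filter (fun a => a ∈ T)).filter (fun a => f a = f x)).card = 0 := by
          rw [Finset.card_eq_zero, Finset.filter_eq_empty_iff]
          intro a ha
          simp only [Finset.mem_filter, Finset.mem_univ, true_and] at ha
          exact hb2 a ha
        omega
  have hs := Finset.sum_le_sum (s := Finset.univ) (fun b _ => key b)
  rw [Finset.sum_add_distrib, Finset.sum_add_distrib, ← Finset.mul_sum, ← Finset.mul_sum, ← e1, ← e2, ← e2,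
    Finset.sum_const, Finset.card_univ, smul_eq_mul] at hs
  rw [Nat.card_eq_fintype_card, Nat.card_eq_fintype_card (α := α)]
  omega

variable {G : Type*} [Group G]

theorem conj_three {x y : G} (hy : Odd (orderOf y)) (h : y * x * y⁻¹ ≠ x) :
    y ^ 2 * x * (y ^ 2)⁻¹ ≠ x ∧ y ^ 2 * x * (y ^ 2)⁻¹ ≠ y * x * y⁻¹ := by
  constructor
  · intro h2
    apply h
    have h3 : Commute (y ^ 2) x := by
      have := mul_inv_eq_iff_eq_mul.mp h2
      exact this
    obtain ⟨k, hk⟩ := hy
    have h4 : y = (y ^ 2) ^ (k + 1) := by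
      rw [← pow_mul, show 2 * (k + 1) = orderOf y + 1 by omega, pow_succ, pow_orderOf_eq_one, one_mul]
    have h5 : Commute y x := by rw [h4]; exact h3.pow_left _
    rw [h5.eq]; group
  · intro h2
    apply h
    have h3 : y ^ 2 * x * (y ^ 2)⁻¹ = y * (y * x * y⁻¹) * y⁻¹ := by rw [pow_two]; group
    rw [h3] at h2
    exact mul_left_cancel (mul_right_cancel h2)

/-- no fixed coset outside -/
theorem conj_ne_coset {p : ℕ} [Fact p.Prime] {T : Subgroup G} (hT : IsPGroup p T) {y x c : G}
    (hx : x ∈ T) (hc : c ∈ T) (hy : (orderOf y).Coprime p)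
    (hyc : y * c * y⁻¹ = c) (hyx : y * x * y⁻¹ = x * c) : y * x * y⁻¹ = x := by
  have h1 : ∀ n : ℕ, y ^ n * x * (y ^ n)⁻¹ = x * c ^ n := by
    intro n
    induction n with
    | zero => simp
    | succ n ih =>
      have h2 : y * (c ^ n) * y⁻¹ = c ^ n := by
        rw [← conj_pow, hyc]
      calc y ^ (n + 1) * x * (y ^ (n + 1))⁻¹ = y * (y ^ n * x * (y ^ n)⁻¹) * y⁻¹ := by rw [pow_succ']; group
        _ = (y * x * y⁻¹) * (y * (c ^ n) * y⁻¹) := by rw [ih]; group
        _ = x * c ^ (n + 1) := by rw [h2, hyx, pow_succ', mul_assoc]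
  have h2 := h1 (orderOf y)
  rw [pow_orderOf_eq_one] at h2
  have h3 : c ^ orderOf y = 1 := by
    have : x * c ^ orderOf y = x * 1 := by rw [← h2]; group
    exact mul_left_cancel this
  obtain ⟨k, hk⟩ := hT ⟨c, hc⟩
  have h4 : c ^ p ^ k = 1 := congrArg (fun z : T => (z : G)) hk
  have h5 : orderOf c ∣ 1 := by
    have := Nat.dvd_gcd (orderOf_dvd_of_pow_eq_one h3) (orderOf_dvd_of_pow_eq_one h4)
    rwa [Nat.Coprime.pow_right k hy] at this
  have h6 : c = 1 := orderOf_eq_one_iff.mp (Nat.dvd_one.mp h5)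
  rw [hyx, h6, mul_one]

/-- the fixed points of `y` in the subgroup `T`, as a subgroup of `T` -/
theorem four_le_index [Finite G] {p : ℕ} [hp : Fact p.Prime] {T : Subgroup G} (hT : IsPGroup p T) {y : G}
    (hyT : y ∈ normalizer (T : Set G)) (hyo : Odd (orderOf y)) (hy : (orderOf y).Coprime p)
    (hyC : y ∉ centralizer (T : Set G)) (hab : p = 2 ∨ IsMulCommutative T) :
    4 * Nat.card ((centralizer {y}).subgroupOf T) ≤ Nat.card T := by
  set F := (centralizer {y}).subgroupOf T with hFdef
  have hFtop : F ≠ ⊤ := by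
    intro htop
    rw [hFdef, Subgroup.subgroupOf_eq_top] at htop
    apply hyC
    rw [Subgroup.mem_centralizer_iff]
    intro x hx
    exact (Subgroup.mem_centralizer_singleton_iff.mp (htop hx))
  have hmem : ∀ x : T, x ∈ F ↔ y * x * y⁻¹ = x := by
    intro x
    rw [hFdef, Subgroup.mem_subgroupOf, Subgroup.mem_centralizer_singleton_iff]
    constructor
    · intro h; rw [← h]; group
    · intro h
      calc (x : G) * y = (y * x * y⁻¹) * y := by rw [h]
        _ = y * x := by group
  obtain ⟨n, hn⟩ := IsPGroup.iff_card.mp hT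
  have h1 : F.index ∣ p ^ n := hn ▸ F.index_dvd_card
  obtain ⟨j, -, hj⟩ := (Nat.dvd_prime_pow hp.out).mp h1
  have h2 : j ≠ 0 := by
    rintro rfl
    exact hFtop (Subgroup.index_eq_one.mp (by simpa using hj))
  have h4 : 4 ≤ F.index := by
    by_contra hlt
    push Not at hlt
    have hp2 := hp.out.two_le
    have hj1 : j = 1 := by
      by_contra hj1
      have : p ^ 2 ≤ p ^ j := Nat.pow_le_pow_right hp.out.pos (by omega)
      have h22 : 4 ≤ p ^ 2 := by nlinarith
      omega
    rw [hj1, pow_one] at hj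
    obtain ⟨x, hx⟩ : ∃ x : T, x ∉ F := by
      by_contra h; push Not at h
      exact hFtop ((Subgroup.eq_top_iff' F).mpr h)
    have hyx : y * (x : G) * y⁻¹ ∈ T := (Subgroup.mem_normalizer_iff.mp hyT x).mp x.2
    have hxc : y * (x : G) * y⁻¹ ≠ x := fun h => hx ((hmem x).mpr h)
    set w : T := ⟨y * x * y⁻¹, hyx⟩ with hw
    have hwF : w ∉ F := by
      intro h
      rw [hmem] at h
      have h' : y * (y * (x : G) * y⁻¹) * y⁻¹ = y * (x : G) * y⁻¹ := h
      exact hxc (mul_left_cancel (mul_right_cancel h'))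
    have final : x⁻¹ * w ∈ F → False := by
      intro h
      have h5 := (hmem _).mp h
      refine hxc (conj_ne_coset hT x.2 (x⁻¹ * w).2 hy h5 ?_)
      change y * (x : G) * y⁻¹ = (x : G) * ((x : G)⁻¹ * (y * x * y⁻¹))
      group
    have hp3 : p = 2 ∨ p = 3 := by
      have : p < 4 := by omega
      interval_cases p
      · exact Or.inl rfl
      · exact Or.inr rfl
    rcases hp3 with hp3 | hp3
    · apply final
      have hidx : F.index = 2 := by rw [hj, hp3]
      rw [Subgroup.mul_mem_iff_of_index_two hidx]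
      constructor
      · intro h; exact absurd (F.inv_mem_iff.mp h) hx
      · intro h; exact absurd h hwF
    · have hcomm : IsMulCommutative T := by
        rcases hab with h | h
        · omega
        · exact h
      have hcm : ∀ a b : T, a * b = b * a := hcomm.1.1
      haveI hFn : F.Normal := ⟨fun n hn g => by rw [hcm g n, mul_assoc, mul_inv_cancel, mul_one]; exact hn⟩
      have hcard : Nat.card (T ⧸ F) = 3 := by rw [← Subgroup.index_eq_card, hj, hp3]
      haveI : Fact (Nat.Prime 3) := ⟨Nat.prime_three⟩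
      have hx1 : (x : T ⧸ F) ≠ 1 := fun h => hx ((QuotientGroup.eq_one_iff x).mp h)
      have hw1 : (w : T ⧸ F) ∈ Subgroup.zpowers (x : T ⧸ F) := mem_zpowers_of_prime_card hcard hx1
      have hx3 : (x : T ⧸ F) ^ 3 = 1 := by rw [← hcard]; exact pow_card_eq_one'
      have hw1' : (w : T ⧸ F) ≠ 1 := fun h => hwF ((QuotientGroup.eq_one_iff w).mp h)
      have hcases : (w : T ⧸ F) = (x : T ⧸ F) ∨ (w : T ⧸ F) = (x : T ⧸ F)⁻¹ := by
        obtain ⟨k, hk⟩ := Subgroup.mem_zpowers_iff.mp hw1
        have hk3 : (x : T ⧸ F) ^ (k % 3) = w := by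
          rw [← hk]
          conv_rhs => rw [← Int.emod_add_mul_ediv k 3]
          rw [zpow_add, zpow_mul]
          have : (x : T ⧸ F) ^ (3 : ℤ) = 1 := by exact_mod_cast hx3
          rw [this, one_zpow, mul_one]
        have h0 : 0 ≤ k % 3 := Int.emod_nonneg k (by norm_num)
        have h3 : k % 3 < 3 := Int.emod_lt_of_pos k (by norm_num)
        interval_cases hkk : k % 3
        · rw [zpow_zero] at hk3; exact absurd hk3.symm hw1'
        · left; rw [← hk3, zpow_one]
        · right; rw [← hk3]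
          rw [eq_comm]
          apply inv_eq_of_mul_eq_one_right
          have : (x : T ⧸ F) * (x : T ⧸ F) ^ (2 : ℤ) = (x : T ⧸ F) ^ 3 := by
            rw [← zpow_one_add]; norm_num
          rw [this, hx3]
      rcases hcases with h | h
      · apply final
        rw [← QuotientGroup.eq]; exact h.symm
      · -- w = x⁻¹ f
        have h5 : x * w ∈ F := by
          rw [← QuotientGroup.eq_one_iff, QuotientGroup.mk_mul, h, mul_inv_cancel]
        have h6 := (hmem _).mp h5
        have h7 : y * ((x : G) * (y * x * y⁻¹)) * y⁻¹ = (x : G) * (y * x * y⁻¹) := h6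
        have h8 : (y * (x : G) * y⁻¹) * (y ^ 2 * x * (y ^ 2)⁻¹) = (y * (x : G) * y⁻¹) * x := by
          have e1 : (y * (x : G) * y⁻¹) * (y ^ 2 * x * (y ^ 2)⁻¹) = y * ((x : G) * (y * x * y⁻¹)) * y⁻¹ := by
            rw [pow_two]; group
          have e2 : (y * (x : G) * y⁻¹) * x = (x : G) * (y * x * y⁻¹) :=
            congrArg (fun z : T => (z : G)) (hcm w x)
          rw [e1, e2, h7]
        exact (conj_three hyo hxc).1 (mul_left_cancel h8)
  rw [← F.card_mul_index, mul_comm]
  exact Nat.mul_le_mul_left _ h4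
theorem two_mul_le_odd [Finite G] (hodd : Odd (Nat.card G)) {r : ℕ} [hr : Fact r.Prime] (hr2 : r ≠ 2)
    (R : Sylow r G) (h : ¬ (Cfsg.HasNormalPComplement r G ∧ IsMulCommutative ↥(R : Subgroup G))) :
    2 * Nat.card (PCl r G) ≤ Nat.card (R : Subgroup G) := by
  have hr3 : 3 ≤ r := by have := hr.out.two_le; omega
  have hoddo : ∀ y : G, Odd (orderOf y) := fun y => Odd.of_dvd_nat hodd (orderOf_dvd_natCard y)
  by_cases hc : IsMulCommutative ↥(R : Subgroup G)
  · have hn : ¬ Cfsg.HasNormalPComplement r G := fun h' => h ⟨h', hc⟩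
    have h1 : ¬ (normalizer ((R : Subgroup G) : Set G) ≤ centralizer ((R : Subgroup G) : Set G)) :=
      fun h' => hn (H20.hasNormalPComplement_of_normalizer_le R h')
    obtain ⟨n, hnN, hnC⟩ := SetLike.not_le_iff_exists.mp h1
    obtain ⟨i, j, hij, ⟨k, hk⟩, hj⟩ := H24.exists_pPart_decomp r n
    have hi : n ^ i ∈ (R : Subgroup G) := by
      have h2 : IsPGroup r (zpowers (n ^ i)) := IsPGroup.of_card (n := k) (by rw [Nat.card_zpowers, hk])
      have h3 : IsPGroup r ((R : Subgroup G) ⊔ zpowers (n ^ i) : Subgroup G) := by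
        apply IsPGroup.to_sup_of_normal_left' R.isPGroup' h2
        rw [Subgroup.zpowers_le]
        exact Subgroup.pow_mem _ hnN i
      have h4 := R.3 h3 le_sup_left
      have h5 : n ^ i ∈ (R : Subgroup G) ⊔ zpowers (n ^ i) := Subgroup.mem_sup_right (mem_zpowers _)
      rw [h4] at h5
      exact h5
    have hiC : n ^ i ∈ centralizer ((R : Subgroup G) : Set G) := by
      rw [Subgroup.mem_centralizer_iff]
      intro x hx
      exact congrArg (fun z : (R : Subgroup G) => (z : G)) (hc.1.1 ⟨x, hx⟩ ⟨_, hi⟩)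
    have hjC : n ^ j ∉ centralizer ((R : Subgroup G) : Set G) := fun hjC => hnC (by
      rw [hij]; exact Subgroup.mul_mem _ hiC hjC)
    have hjN : n ^ j ∈ normalizer ((R : Subgroup G) : Set G) := Subgroup.pow_mem _ hnN j
    have h4 := four_le_index R.isPGroup' hjN (hoddo _) hj hjC (Or.inr hc)
    refine card_le_of_fibers2 (toPCl R) (toPCl_surjective R) Set.univ
      (((centralizer {n ^ j}).subgroupOf R : Subgroup (R : Subgroup G)) : Set (R : Subgroup G))
      (Set.subset_univ _) (by rw [Nat.card_congr (Equiv.Set.univ _)]; exact h4) ?_ (fun x hx => absurd (Set.mem_univ x) hx)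
    intro x _ hx
    have hxc : n ^ j * x * (n ^ j)⁻¹ ≠ x := by
      intro h5
      apply hx
      change x ∈ (centralizer {n ^ j}).subgroupOf (R : Subgroup G)
      rw [Subgroup.mem_subgroupOf, Subgroup.mem_centralizer_singleton_iff]
      calc (x : G) * n ^ j = (n ^ j * x * (n ^ j)⁻¹) * n ^ j := by rw [h5]
        _ = n ^ j * x := by group
    obtain ⟨c1, c2⟩ := conj_three (hoddo (n ^ j)) hxc
    have m1 : n ^ j * (x : G) * (n ^ j)⁻¹ ∈ (R : Subgroup G) := (Subgroup.mem_normalizer_iff.mp hjN x).mp x.2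
    have m2 : (n ^ j) ^ 2 * (x : G) * ((n ^ j) ^ 2)⁻¹ ∈ (R : Subgroup G) :=
      (Subgroup.mem_normalizer_iff.mp (Subgroup.pow_mem _ hjN 2) x).mp x.2
    refine ⟨⟨_, m1⟩, Set.mem_univ _, ⟨_, m2⟩, Set.mem_univ _, ?_, ?_, ?_, ?_, ?_⟩
    · exact fun e => hxc (congrArg (fun z : (R : Subgroup G) => (z : G)) e)
    · exact fun e => c1 (congrArg (fun z : (R : Subgroup G) => (z : G)) e)
    · exact fun e => c2 (congrArg (fun z : (R : Subgroup G) => (z : G)) e)
    · rw [toPCl_eq]; exact (isConj_iff.mpr ⟨_, rfl⟩ : IsConj (x : G) _).symm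
    · rw [toPCl_eq]; exact (isConj_iff.mpr ⟨_, rfl⟩ : IsConj (x : G) _).symm
  · set Z := center (R : Subgroup G) with hZ
    have h4 : 4 * Nat.card Z ≤ Nat.card (R : Subgroup G) := by
      obtain ⟨n, hn⟩ := IsPGroup.iff_card.mp R.isPGroup'
      have h1 : Z.index ∣ r ^ n := hn ▸ Z.index_dvd_card
      obtain ⟨j, -, hj⟩ := (Nat.dvd_prime_pow hr.out).mp h1
      have h2 : 2 ≤ j := by
        by_contra hlt
        have hcyc : IsCyclic ((R : Subgroup G) ⧸ Z) := by
          have hj' : j = 0 ∨ j = 1 := by omega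
          rcases hj' with hj' | hj'
          · have : Nat.card ((R : Subgroup G) ⧸ Z) = 1 := by rw [← Subgroup.index_eq_card, hj, hj', pow_zero]
            haveI := (Nat.card_eq_one_iff_unique.mp this).1
            infer_instance
          · have : Nat.card ((R : Subgroup G) ⧸ Z) = r := by rw [← Subgroup.index_eq_card, hj, hj', pow_one]
            exact isCyclic_of_prime_card this
        apply hc
        refine ⟨⟨fun a b => ?_⟩⟩
        exact commutative_of_cyclic_center_quotient (QuotientGroup.mk' Z)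
          (by rw [QuotientGroup.ker_mk']) a b
      have h3 : r ^ 2 ≤ r ^ j := Nat.pow_le_pow_right hr.out.pos h2
      have h5 : 4 ≤ Z.index := by rw [hj]; nlinarith
      rw [← Z.card_mul_index, mul_comm]
      exact Nat.mul_le_mul_left _ h5
    refine card_le_of_fibers2 (toPCl R) (toPCl_surjective R) Set.univ (Z : Set (R : Subgroup G))
      (Set.subset_univ _) (by rw [Nat.card_congr (Equiv.Set.univ _)]; exact h4) ?_ (fun x hx => absurd (Set.mem_univ x) hx)
    intro x _ hx
    have hx' : x ∉ Z := hx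
    rw [hZ, Subgroup.mem_center_iff] at hx'
    push Not at hx'
    obtain ⟨g, hg⟩ := hx'
    have hxc : (g : G) * x * (g : G)⁻¹ ≠ x := by
      intro h5
      apply hg
      apply Subtype.ext
      change (g : G) * x = x * g
      calc (g : G) * x = ((g : G) * x * (g : G)⁻¹) * g := by group
        _ = x * g := by rw [h5]
    obtain ⟨c1, c2⟩ := conj_three (hoddo (g : G)) hxc
    refine ⟨g * x * g⁻¹, Set.mem_univ _, g ^ 2 * x * (g ^ 2)⁻¹, Set.mem_univ _, ?_, ?_, ?_, ?_, ?_⟩
    · exact fun e => hxc (congrArg (fun z : (R : Subgroup G) => (z : G)) e)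
    · exact fun e => c1 (congrArg (fun z : (R : Subgroup G) => (z : G)) e)
    · exact fun e => c2 (congrArg (fun z : (R : Subgroup G) => (z : G)) e)
    · rw [toPCl_eq]; exact (isConj_iff.mpr ⟨(g : G), rfl⟩ : IsConj (x : G) _).symm
    · rw [toPCl_eq]; exact (isConj_iff.mpr ⟨(g : G) ^ 2, rfl⟩ : IsConj (x : G) _).symm

theorem two_mul_le_two [Finite G] (S : Sylow 2 G) (h : ¬ Cfsg.HasNormalPComplement 2 G) :
    2 * Nat.card (PCl 2 G) ≤ Nat.card (S : Subgroup G) := by
  have h1 : ∃ T : Subgroup G, T ≤ S ∧ (S : Subgroup G) ⊓ centralizer (T : Set G) ≤ T ∧ ¬ H24.PrC 2 T := by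
    by_contra hcon
    push Not at hcon
    exact h (H24.hasNormalPComplement_of_centric S (fun T h1 h2 => hcon T h1 h2))
  obtain ⟨T, hTS, hTC, hnp⟩ := h1
  unfold H24.PrC at hnp
  push Not at hnp
  obtain ⟨y, hyN, hyo, hyC⟩ := hnp
  have hTp : IsPGroup 2 T := S.isPGroup'.to_le hTS
  have hyodd : Odd (orderOf y) := Nat.coprime_two_right.mp hyo
  have h4 := four_le_index hTp hyN hyodd hyo hyC (Or.inl rfl)
  have hF : Nat.card (((T ⊓ centralizer {y}).subgroupOf S : Subgroup (S : Subgroup G)) : Set (S : Subgroup G)) =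
      Nat.card ((centralizer {y}).subgroupOf T) := by
    rw [← Subgroup.inf_subgroupOf_left (H := centralizer {y}) (K := T)]
    exact (Nat.card_congr (Subgroup.subgroupOfEquivOfLe (inf_le_left.trans hTS)).toEquiv).trans
      (Nat.card_congr (Subgroup.subgroupOfEquivOfLe inf_le_left).symm.toEquiv)
  have hT : Nat.card ((T.subgroupOf S : Subgroup (S : Subgroup G)) : Set (S : Subgroup G)) = Nat.card T :=
    Nat.card_congr (Subgroup.subgroupOfEquivOfLe hTS).toEquiv
  refine card_le_of_fibers2 (toPCl S) (toPCl_surjective S)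
    ((T.subgroupOf S : Subgroup (S : Subgroup G)) : Set (S : Subgroup G))
    (((T ⊓ centralizer {y}).subgroupOf S : Subgroup (S : Subgroup G)) : Set (S : Subgroup G))
    (fun x hx => ?_) (by rw [hF, hT]; exact h4) ?_ ?_
  · exact (Subgroup.mem_inf.mp (Subgroup.mem_subgroupOf.mp hx)).1
  · intro x hxT hx
    have hxT' : (x : G) ∈ T := hxT
    have hxc : y * x * y⁻¹ ≠ x := by
      intro h5
      apply hx
      change x ∈ (T ⊓ centralizer {y}).subgroupOf (S : Subgroup G)
      rw [Subgroup.mem_subgroupOf, Subgroup.mem_inf, Subgroup.mem_centralizer_singleton_iff]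
      refine ⟨hxT', ?_⟩
      calc (x : G) * y = (y * x * y⁻¹) * y := by rw [h5]
        _ = y * x := by group
    obtain ⟨c1, c2⟩ := conj_three hyodd hxc
    have m1 : y * (x : G) * y⁻¹ ∈ T := (Subgroup.mem_normalizer_iff.mp hyN x).mp hxT'
    have m2 : y ^ 2 * (x : G) * (y ^ 2)⁻¹ ∈ T :=
      (Subgroup.mem_normalizer_iff.mp (Subgroup.pow_mem _ hyN 2) x).mp hxT'
    refine ⟨⟨_, hTS m1⟩, m1, ⟨_, hTS m2⟩, m2, ?_, ?_, ?_, ?_, ?_⟩
    · exact fun e => hxc (congrArg (fun z : (S : Subgroup G) => (z : G)) e)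
    · exact fun e => c1 (congrArg (fun z : (S : Subgroup G) => (z : G)) e)
    · exact fun e => c2 (congrArg (fun z : (S : Subgroup G) => (z : G)) e)
    · rw [toPCl_eq]; exact (isConj_iff.mpr ⟨_, rfl⟩ : IsConj (x : G) _).symm
    · rw [toPCl_eq]; exact (isConj_iff.mpr ⟨_, rfl⟩ : IsConj (x : G) _).symm
  · intro x hx
    have hx1 : (x : G) ∉ T := hx
    have hx2 : (x : G) ∉ centralizer (T : Set G) := fun h' => hx1 (hTC (Subgroup.mem_inf.mpr ⟨x.2, h'⟩))
    rw [Subgroup.mem_centralizer_iff] at hx2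
    push Not at hx2
    obtain ⟨t, ht, htx⟩ := hx2
    refine ⟨⟨t * x * t⁻¹, (S : Subgroup G).mul_mem ((S : Subgroup G).mul_mem (hTS ht) x.2) ((S : Subgroup G).inv_mem (hTS ht))⟩, ?_, ?_⟩
    · intro e
      apply htx
      have e' : t * (x : G) * t⁻¹ = x := congrArg (fun z : (S : Subgroup G) => (z : G)) e
      calc t * (x : G) = (t * x * t⁻¹) * t := by group
        _ = x * t := by rw [e']
    · rw [toPCl_eq]; exact (isConj_iff.mpr ⟨_, rfl⟩ : IsConj (x : G) _).symm

theorem card_PCl_le_of_normal [Finite G] {r : ℕ} (hr : r.Prime) (M : Subgroup G) [M.Normal]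
    (hM : Nat.Coprime M.index r) : Nat.card (PCl r G) ≤ Nat.card (PCl r M) := by
  haveI : Finite (ConjClasses M) := Finite.of_surjective _ ConjClasses.mk_surjective
  have hmem : ∀ x : G, (∃ k : ℕ, orderOf x = r ^ k) → x ∈ M := by
    rintro x ⟨k, hk⟩
    rw [← QuotientGroup.eq_one_iff, ← orderOf_eq_one_iff, ← Nat.dvd_one]
    have h1 : orderOf (x : G ⧸ M) ∣ r ^ k := by
      rw [← hk]; exact orderOf_map_dvd (QuotientGroup.mk' M) x
    have h2 : orderOf (x : G ⧸ M) ∣ M.index := by
      rw [Subgroup.index_eq_card]; exact orderOf_dvd_natCard _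
    have := Nat.dvd_gcd h2 h1
    rwa [Nat.Coprime.pow_right k hM] at this
  have hex : ∀ c : PCl r G, ∃ x : M, ConjClasses.mk (x : G) = c.1 := by
    rintro ⟨c, hc⟩
    obtain ⟨x, rfl⟩ := ConjClasses.exists_rep c
    exact ⟨⟨x, hmem x (hc x (mem_carrier_mk.mpr (IsConj.refl x)))⟩, rfl⟩
  choose f hf using hex
  have hf2 : ∀ c : PCl r G, ∀ y ∈ (ConjClasses.mk (f c)).carrier, ∃ k : ℕ, orderOf y = r ^ k := by
    intro c y hy
    obtain ⟨k, hk⟩ := c.2 (f c : G) (by rw [ConjClasses.mem_carrier_iff_mk_eq]; exact hf c)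
    refine ⟨k, ?_⟩
    rw [← orderOf_eq_of_isConj (mem_carrier_mk.mp hy), ← Subgroup.orderOf_coe, hk]
  refine Nat.card_le_card_of_injective (fun c => (⟨ConjClasses.mk (f c), hf2 c⟩ : PCl r M)) ?_
  intro c d hcd
  have h1 : ConjClasses.mk (f c) = ConjClasses.mk (f d) := congrArg Subtype.val hcd
  have h2 := (ConjClasses.mk_eq_mk_iff_isConj.mp h1)
  apply Subtype.ext
  rw [← hf c, ← hf d, ConjClasses.mk_eq_mk_iff_isConj]
  exact MonoidHom.map_isConj M.subtype h2


/-- Let π be a finite set of primes containing 2 and G a finite group. Write k_π(G) for the number of conjugacy classes of G consisting of π-elements (elements all of whose order's prime divisors lie in π) and |G|_π for the π-part of the order of G. If k_π(G) > |G|_π/2, then G has a normal π-complement (a normal subgroup of order prime to π whose index is a π-number) and an abelian Hall subgroup for the set of odd primes in π. -/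
theorem result {G : Type*} [Group G] [Finite G] (π : Finset ℕ) (hπ : ∀ r ∈ π, r.Prime) (h2 : 2 ∈ π)
    (hk : π.prod (fun r => r ^ (Nat.card G).factorization r) < 2 * Nat.card {c : ConjClasses G // ∀ x ∈ c.carrier, ∀ r : ℕ, r.Prime → r ∣ orderOf x → r ∈ π}) :
    (∃ N : Subgroup G, N.Normal ∧ (∀ r : ℕ, r.Prime → r ∣ Nat.card ↥N → r ∉ π) ∧ ∀ r : ℕ, r.Prime → r ∣ N.index → r ∈ π) ∧ ∃ H : Subgroup G, Cfsg.IsPiHall ((↑π : Set ℕ) \ {2}) H ∧ IsMulCommutative ↥H := by
  classical
  have hlt : ∀ r ∈ π, r ^ (Nat.card G).factorization r < 2 * Nat.card (PCl r G) := by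
    intro r hrπ
    have h1 := card_KPi_le_mul (G := G) π hπ hrπ
    have h2 : π.prod (fun r => r ^ (Nat.card G).factorization r) =
        r ^ (Nat.card G).factorization r * (π.erase r).prod (fun r => r ^ (Nat.card G).factorization r) :=
      (Finset.mul_prod_erase π _ hrπ).symm
    rw [h2] at hk
    set B := (π.erase r).prod (fun r => r ^ (Nat.card G).factorization r)
    apply Nat.lt_of_mul_lt_mul_right (a := B)
    calc r ^ (Nat.card G).factorization r * B < _ := hk
      _ ≤ 2 * (Nat.card (PCl r G) * B) := Nat.mul_le_mul_left _ h1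
      _ = _ := by ring
  have hnpc2 : Cfsg.HasNormalPComplement 2 G := by
    by_contra hn
    obtain ⟨S⟩ := (inferInstance : Nonempty (Sylow 2 G))
    have h1 := two_mul_le_two S hn
    have h2 := hlt 2 h2
    rw [← S.card_eq_multiplicity] at h2
    omega
  haveI : Fact (Nat.Prime 2) := ⟨Nat.prime_two⟩
  obtain ⟨M, hMn, hM2, k, hMk⟩ := H2.hasNormalPComplement_iff.mp hnpc2
  have hModd : Odd (Nat.card M) := Nat.not_even_iff_odd.mp (fun he => hM2 he.two_dvd)
  have hσ : ∀ r ∈ π.erase 2, r.Prime := fun r hr => hπ r (Finset.mem_of_mem_erase hr)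
  have key : ∀ r ∈ π.erase 2, ∀ hr : r.Prime, ∃ N : Subgroup M, N.Normal ∧ ¬ r ∣ Nat.card N ∧
      (∃ k : ℕ, N.index = r ^ k) ∧ ∀ a b : M, a * b * a⁻¹ * b⁻¹ ∈ N := by
    intro r hrσ hr
    haveI : Fact r.Prime := ⟨hr⟩
    obtain ⟨R⟩ := (inferInstance : Nonempty (Sylow r M))
    have hr2 : r ≠ 2 := Finset.ne_of_mem_erase hrσ
    have h1 := hlt r (Finset.mem_of_mem_erase hrσ)
    have hcop : Nat.Coprime M.index r := by
      rw [hMk]; exact Nat.Coprime.pow_left _ ((Nat.coprime_primes Nat.prime_two hr).mpr hr2.symm)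
    have h3 := card_PCl_le_of_normal (G := G) hr M hcop
    have h4 : (Nat.card G).factorization r = (Nat.card M).factorization r := by
      rw [← M.card_mul_index, Nat.factorization_mul Nat.card_pos.ne' (Nat.pos_of_ne_zero Subgroup.index_ne_zero_of_finite).ne']
      have : (M.index).factorization r = 0 := by
        apply Nat.factorization_eq_zero_of_not_dvd
        exact (Nat.Prime.coprime_iff_not_dvd hr).mp hcop.symm
      simp [this]
    rw [h4, ← R.card_eq_multiplicity] at h1
    have h5 : Cfsg.HasNormalPComplement r M ∧ IsMulCommutative ↥(R : Subgroup M) := by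
      by_contra hcon
      have := two_mul_le_odd hModd hr2 R hcon
      omega
    exact npc_data R h5.1 h5.2
  obtain ⟨N, hN, h1, h2', h3⟩ := exists_pi_complement (π.erase 2) hσ key
  have hNmem : ∀ x : M, x ∈ N ↔ ∀ r ∈ π.erase 2, Nat.Coprime (orderOf x) r := by
    intro x
    constructor
    · intro hx r hr
      apply Nat.Coprime.symm
      rw [(hσ r hr).coprime_iff_not_dvd]
      intro hd
      exact h1 r (hσ r hr) (hd.trans (Subgroup.orderOf_dvd_natCard N hx)) hr
    · intro hx
      rw [← QuotientGroup.eq_one_iff]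
      by_contra hne
      have h4 : orderOf (x : M ⧸ N) ≠ 1 := fun h => hne (orderOf_eq_one_iff.mp h)
      obtain ⟨s, hs, hsd⟩ := Nat.exists_prime_and_dvd h4
      have h5 : s ∈ π.erase 2 := h2' s hs (hsd.trans (by
        rw [Subgroup.index_eq_card]; exact orderOf_dvd_natCard _))
      have h6 : s ∣ orderOf x := hsd.trans (orderOf_map_dvd (QuotientGroup.mk' N) x)
      exact (hs.coprime_iff_not_dvd.mp (hx s h5).symm) h6
  refine ⟨⟨N.map M.subtype, ?_, ?_, ?_⟩, ?_⟩
  · refine ⟨fun n hn g => ?_⟩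
    obtain ⟨m, hm, rfl⟩ := hn
    refine ⟨⟨g * m * g⁻¹, hMn.conj_mem m m.2 g⟩, ?_, rfl⟩
    have hm' : m ∈ N := hm
    change (⟨g * m * g⁻¹, hMn.conj_mem m m.2 g⟩ : M) ∈ N
    rw [hNmem] at hm' ⊢
    intro r hr
    have e : orderOf (⟨g * m * g⁻¹, hMn.conj_mem m m.2 g⟩ : M) = orderOf m := by
      rw [Subgroup.orderOf_mk, ← Subgroup.orderOf_coe]
      exact (orderOf_eq_of_isConj (isConj_iff.mpr ⟨g, rfl⟩ : IsConj (m : G) (g * m * g⁻¹))).symm
    rw [e]; exact hm' r hr
  · intro r hr hd hrπ
    rw [Subgroup.card_map_of_injective M.subtype_injective] at hd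
    by_cases hr2 : r = 2
    · subst hr2
      exact hM2 (hd.trans (Subgroup.card_subgroup_dvd_card N))
    · exact h1 r hr hd (Finset.mem_erase.mpr ⟨hr2, hrπ⟩)
  · intro r hr hd
    have h4 : (N.map M.subtype).index = N.index * M.index := by
      rw [Subgroup.index_map_of_injective _ M.subtype_injective, Subgroup.range_subtype]
    rw [h4, hMk] at hd
    rcases hr.dvd_mul.mp hd with h5 | h5
    · exact Finset.mem_of_mem_erase (h2' r hr h5)
    · rw [(Nat.prime_dvd_prime_iff_eq hr Nat.prime_two).mp (hr.dvd_of_dvd_pow h5)]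
      exact h2
  · obtain ⟨H, ⟨hH1, hH2⟩, hHc⟩ := exists_hall_of_complement (π.erase 2) hN h1 h2' h3
    refine ⟨H.map M.subtype, ⟨?_, ?_⟩, ?_⟩
    · intro r hr hd
      rw [Subgroup.card_map_of_injective M.subtype_injective] at hd
      have := hH1 r hr hd
      rw [Finset.mem_coe, Finset.mem_erase] at this
      exact ⟨this.2, this.1⟩
    · intro r hr hrπ hd
      have h4 : (H.map M.subtype).index = H.index * M.index := by
        rw [Subgroup.index_map_of_injective _ M.subtype_injective, Subgroup.range_subtype]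
      rw [h4, hMk] at hd
      rcases hr.dvd_mul.mp hd with h5 | h5
      · exact hH2 r hr (Finset.mem_coe.mpr (Finset.mem_erase.mpr ⟨hrπ.2, hrπ.1⟩)) h5
      · exact hrπ.2 ((Nat.prime_dvd_prime_iff_eq hr Nat.prime_two).mp (hr.dvd_of_dvd_pow h5))
    · refine ⟨⟨?_⟩⟩
      rintro ⟨a, a', ha, rfl⟩ ⟨b, b', hb, rfl⟩
      apply Subtype.ext
      have := hHc.1.1 ⟨a', ha⟩ ⟨b', hb⟩
      exact congrArg (fun z : H => ((z : M) : G)) this

end Cfsg.Agent.S3898
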