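import Cfsg.Statements.S3899
import Cfsg.Agent.H23.KPi

set_option autoImplicit false
set_option linter.all false
open Cfsg

namespace Cfsg.Agent.S3899

open Subgroup


/-- Let π be a finite non-empty set of odd primes with smallest member p and G a finite group. Write k_π(G) for the number of conjugacy classes of G consisting of π-elements (elements all of whose order's prime divisors lie in π) and |G|_π for the π-part of the order of G. If k_π(G) > (p + 1)|G|_π/(2p), then G has a normal π-complement (a normal subgroup of order prime to π whose index is a π-number) and an abelian Hall π-subgroup. -/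
theorem result {G : Type*} [Group G] [Finite G] (π : Finset ℕ) (hπ : ∀ r ∈ π, r.Prime) (h2 : 2 ∉ π) (p : ℕ) (hp : p ∈ π)
    (hmin : ∀ r ∈ π, p ≤ r) (hk : (p + 1) * π.prod (fun r => r ^ (Nat.card G).factorization r) < 2 * p * Nat.card {c : ConjClasses G // ∀ x ∈ c.carrier, ∀ r : ℕ, r.Prime → r ∣ orderOf x → r ∈ π}) :
    (∃ N : Subgroup G, N.Normal ∧ (∀ r : ℕ, r.Prime → r ∣ Nat.card ↥N → r ∉ π) ∧ ∀ r : ℕ, r.Prime → r ∣ N.index → r ∈ π) ∧ ∃ H : Subgroup G, Cfsg.IsPiHall (↑π : Set ℕ) H ∧ IsMulCommutative ↥H := by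
  classical
  have key : ∀ r ∈ π, ∀ hr : r.Prime, ∃ N : Subgroup G, N.Normal ∧ ¬ r ∣ Nat.card N ∧
      (∃ k : ℕ, N.index = r ^ k) ∧ ∀ a b : G, a * b * a⁻¹ * b⁻¹ ∈ N := by
    intro r hrπ hr
    haveI : Fact r.Prime := ⟨hr⟩
    obtain ⟨R⟩ := (inferInstance : Nonempty (Sylow r G))
    have h1 := H23.card_KPi_le_mul (G := G) π hπ hrπ
    have h2 : π.prod (fun r => r ^ (Nat.card G).factorization r) =
        r ^ (Nat.card G).factorization r * (π.erase r).prod (fun r => r ^ (Nat.card G).factorization r) :=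
      (Finset.mul_prod_erase π _ hrπ).symm
    have hB : 0 < (π.erase r).prod (fun r => r ^ (Nat.card G).factorization r) :=
      Finset.prod_pos fun s hs => pow_pos (hπ s (Finset.mem_of_mem_erase hs)).pos _
    rw [h2, ← R.card_eq_multiplicity] at hk
    set B := (π.erase r).prod (fun r => r ^ (Nat.card G).factorization r)
    have h3 : (p + 1) * (Nat.card R * B) < 2 * p * (Nat.card (H23.PCl r G) * B) :=
      hk.trans_le (Nat.mul_le_mul_left _ h1)
    have h4 : (p + 1) * Nat.card R < 2 * p * Nat.card (H23.PCl r G) := by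
      apply Nat.lt_of_mul_lt_mul_right (a := B)
      calc (p + 1) * Nat.card R * B = (p + 1) * (Nat.card R * B) := by ring
        _ < _ := h3
        _ = _ := by ring
    have h5 : (r + 1) * Nat.card R < 2 * r * Nat.card (H23.PCl r G) := by
      have hpr := hmin r hrπ
      have hp0 : 0 < p := (hπ p hp).pos
      apply Nat.lt_of_mul_lt_mul_right (a := p)
      calc (r + 1) * Nat.card R * p ≤ r * ((p + 1) * Nat.card R) := by nlinarith [Nat.zero_le (Nat.card R)]
        _ < r * (2 * p * Nat.card (H23.PCl r G)) := Nat.mul_lt_mul_of_pos_left h4 hr.pos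
        _ = _ := by ring
    obtain ⟨h6, h7⟩ := H23.npc_of_lt R h5
    exact H23.npc_data R h6 h7
  obtain ⟨N, hN, h1, h2, h3⟩ := H23.exists_pi_complement π hπ key
  exact ⟨⟨N, hN, h1, h2⟩, H23.exists_hall_of_complement π hN h1 h2 h3⟩

end Cfsg.Agent.S3899
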