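import Cfsg.Statements.S3900
import Cfsg.Agent.H23.LcsCrit

set_option autoImplicit false
set_option linter.all false
open Cfsg

namespace Cfsg.Agent.S3900

open Subgroup Cfsg.Agent.H23 Cfsg.Agent.H23.LC

theorem fold_aux {G : Type*} [Group G] (k : ℕ) : ∀ x : G,
    (∃ (a : G) (g : Fin k → G), x = (List.ofFn g).foldl (fun a b => a * b * a⁻¹ * b⁻¹) a) ↔ x ∈ V G k := by
  induction k with
  | zero =>
    intro x
    constructor
    · intro _; exact Set.mem_univ x
    · intro _; exact ⟨x, Fin.elim0, by simp⟩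
  | succ k ih =>
    intro x
    constructor
    · rintro ⟨a, g, rfl⟩
      rw [List.ofFn_succ', List.concat_eq_append, List.foldl_append, List.foldl_cons, List.foldl_nil]
      exact ⟨_, (ih _).1 ⟨a, fun i => g i.castSucc, rfl⟩, g (Fin.last k), rfl⟩
    · rintro ⟨y, hy, b, rfl⟩
      obtain ⟨a, g, rfl⟩ := (ih y).2 hy
      refine ⟨a, Fin.snoc g b, ?_⟩
      rw [List.ofFn_succ', List.concat_eq_append, List.foldl_append, List.foldl_cons, List.foldl_nil]
      simp

theorem fold_iff {G : Type*} [Group G] (k : ℕ) (x : G) :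
    (∃ f : Fin (k + 1) → G, x = ((List.ofFn f).tail).foldl (fun a b => a * b * a⁻¹ * b⁻¹) (f 0)) ↔ x ∈ V G k := by
  rw [← fold_aux]
  constructor
  · rintro ⟨f, rfl⟩
    exact ⟨f 0, fun i => f i.succ, by rw [List.ofFn_succ, List.tail_cons]⟩
  · rintro ⟨a, g, rfl⟩
    exact ⟨Fin.cons a g, by rw [List.ofFn_succ, List.tail_cons]; simp⟩

/-- A criterion of Baumslag–Wiegold type for a term of the lower central series. Let G be a finite group and k ≥ 0; call an element a left-normed commutator value of length k + 1 when it has the form [[…[x₀, x₁], …], x_k] with k + 1 entries (for k = 0, any element), where [a, b] = aba⁻¹b⁻¹. Then the (k+1)-st term γ_{k+1}(G) of the lower central series (γ₁(G) = G) is nilpotent if and only if for every two such values x, y of coprime orders, either every prime dividing o(x)·o(y) divides o(xy), or o(x)·o(y) ≤ o(xy). -/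
theorem result {G : Type*} [Group G] [Finite G] (k : ℕ) :
    Group.IsNilpotent ↥((⊤ : Subgroup G).lowerCentralSeries k) ↔
      ∀ x y : G, (∃ f : Fin (k + 1) → G, x = ((List.ofFn f).tail).foldl (fun a b => a * b * a⁻¹ * b⁻¹) (f 0)) → (∃ f : Fin (k + 1) → G, y = ((List.ofFn f).tail).foldl (fun a b => a * b * a⁻¹ * b⁻¹) (f 0)) → (orderOf x).Coprime (orderOf y) →
        (∀ r : ℕ, r.Prime → r ∣ orderOf x * orderOf y → r ∣ orderOf (x * y)) ∨ orderOf x * orderOf y ≤ orderOf (x * y) := by
  constructor
  · intro hnil x y hx hy hxy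
    rw [fold_iff] at hx hy
    right
    have hx1 := V_le_lcs k x hx
    have hy1 := V_le_lcs k y hy
    have hcomm : Commute x y := by
      by_contra hcon
      have h1 : x ∉ centralizer ({y} : Set G) := fun h1 => hcon (MaxCent.mem_C.1 h1)
      obtain ⟨p, j, hp, hj, i, hi⟩ := MaxCent.exists_primary _ x rfl h1
      haveI : Fact p.Prime := ⟨hp⟩
      apply hj
      rw [MaxCent.mem_C]
      have hord : orderOf (x ^ j) ∣ p ^ i := orderOf_dvd_of_pow_eq_one hi
      have hxj1 : x ^ j ≠ 1 := by
        intro h2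
        apply hj; rw [h2]; exact one_mem _
      obtain ⟨i', hi', hi2⟩ := (Nat.dvd_prime_pow hp).1 hord
      have hi0 : i' ≠ 0 := by
        rintro rfl
        rw [pow_zero, orderOf_eq_one_iff] at hi2
        exact hxj1 hi2
      have hpx : p ∣ orderOf x := (by rw [hi2]; exact dvd_pow_self p hi0 : p ∣ orderOf (x ^ j)).trans (orderOf_pow_dvd j)
      have hyp : (orderOf y).Coprime p := (Nat.Coprime.coprime_dvd_left hpx hxy).symm
      have h3 := H24.commute_of_nilpotent_coprime hnil (p := p) (x := ⟨x ^ j, pow_mem hx1 j⟩) (y := ⟨y, hy1⟩)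
        ⟨i', by rw [Subgroup.orderOf_mk]; exact hi2⟩ (by rw [Subgroup.orderOf_mk]; exact hyp)
      exact congrArg Subtype.val h3
    rw [hcomm.orderOf_mul_eq_mul_orderOf_of_coprime hxy]
  · intro h
    apply main_forward
    intro x hx y hy hxy
    exact h x y ((fold_iff k x).2 hx) ((fold_iff k y).2 hy) hxy

end Cfsg.Agent.S3900
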