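import Cfsg.Statements.S3903
import Cfsg.Agent.H23.KPi
import Cfsg.Agent.H23.Coprime
import Cfsg.Agent.H23.Coprime2
import Cfsg.Agent.H19.Sylow2

set_option autoImplicit false
set_option linter.all false
open Cfsg

namespace Cfsg.Agent.S3903

open Subgroup
open Cfsg.Agent.H23
open scoped Pointwise

variable {G : Type*} [Group G]

theorem isPGroup_of_primePow [Finite G] {N : Subgroup G} [N.Normal] {x : G} {r : ℕ} [hr : Fact r.Prime]
    (hxN : x ∉ N) (hxr : r ∣ orderOf x)
    (h : ∀ y : G, y ∉ N → IsPrimePow (orderOf y)) :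
    IsPGroup r (centralizer ({x} : Set G)) := by
  -- an `r'`-element `z` of the centralizer with `x z ∉ N` is trivial
  have key : ∀ z : G, Commute x z → (orderOf z).Coprime r → IsPrimePow (orderOf (x * z)) → z = 1 := by
    intro z hc hz hpp
    obtain ⟨s0, k0, hs, hk, hxk⟩ := (isPrimePow_nat_iff _).mp (h x hxN)
    have hxs := (Nat.prime_dvd_prime_iff_eq hr.out hs).mp (hr.out.dvd_of_dvd_pow (hxk.symm ▸ hxr))
    rw [← hxs] at hxk
    have hcop : (orderOf x).Coprime (orderOf z) := by
      rw [← hxk]; exact Nat.Coprime.pow_left _ hz.symm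
    rw [hc.orderOf_mul_eq_mul_orderOf_of_coprime hcop] at hpp
    obtain ⟨s, j, hs', hj, hsj⟩ := (isPrimePow_nat_iff _).mp hpp
    have h1 : r ∣ s ^ j := by rw [hsj]; exact hxr.mul_right _
    have h2 := (Nat.prime_dvd_prime_iff_eq hr.out hs').mp (hr.out.dvd_of_dvd_pow h1)
    rw [← h2] at hsj
    have h3 : orderOf z ∣ r ^ j := by rw [hsj]; exact dvd_mul_left _ _
    have h4 : orderOf z ∣ 1 := by
      have := Nat.dvd_gcd h3 dvd_rfl
      rwa [Nat.Coprime.pow_left j hz.symm] at this
    exact orderOf_eq_one_iff.mp (Nat.dvd_one.mp h4)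
  have hpow : ∀ y : G, (∀ i : ℕ, (orderOf (y ^ i)).Coprime r → y ^ i = 1) → ∃ k : ℕ, orderOf y = r ^ k := by
    intro y hy
    obtain ⟨i, j, hij, ⟨k, hk⟩, hj⟩ := H24.exists_pPart_decomp r y
    rw [hy j hj, mul_one] at hij
    exact ⟨k, by rw [hij]; exact hk⟩
  rw [IsPGroup.iff_orderOf]
  have hN : ∀ z : G, z ∈ N → Commute x z → (orderOf z).Coprime r → z = 1 := by
    intro z hz hc hzr
    exact key z hc hzr (h _ (fun hm => hxN ((Subgroup.mul_mem_cancel_right N hz).mp hm)))
  have hNr : ∀ y : G, y ∈ N → Commute x y → ∃ k : ℕ, orderOf y = r ^ k := fun y hy hc =>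
    hpow y (fun i hi => hN _ (N.pow_mem hy i) (hc.pow_right i) hi)
  have hall : ∀ z : G, Commute x z → (orderOf z).Coprime r → z = 1 := by
    intro z hc hzr
    by_cases hxz : x * z ∈ N
    · have h1 := hNr (x * z) hxz ((Commute.refl x).mul_right hc)
      obtain ⟨k, hk⟩ := h1
      obtain ⟨s, j, hs, hj, hsj⟩ := (isPrimePow_nat_iff _).mp (h x hxN)
      have hxs := (Nat.prime_dvd_prime_iff_eq hr.out hs).mp (hr.out.dvd_of_dvd_pow (hsj.symm ▸ hxr))
      rw [← hxs] at hsj
      have hcop : (orderOf x).Coprime (orderOf z) := by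
        rw [← hsj]; exact Nat.Coprime.pow_left _ hzr.symm
      rw [hc.orderOf_mul_eq_mul_orderOf_of_coprime hcop] at hk
      have h3 : orderOf z ∣ r ^ k := by rw [← hk]; exact dvd_mul_left _ _
      have h4 : orderOf z ∣ 1 := by
        have := Nat.dvd_gcd h3 dvd_rfl
        rwa [Nat.Coprime.pow_left k hzr.symm] at this
      exact orderOf_eq_one_iff.mp (Nat.dvd_one.mp h4)
    · exact key z hc hzr (h _ hxz)
  rintro ⟨y, hy⟩
  rw [Subgroup.orderOf_mk]
  have hc : Commute x y := (Subgroup.mem_centralizer_singleton_iff.mp hy).symm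
  exact hpow y (fun i hi => hall _ (hc.pow_right i) hi)

/-- a coatom which is a `p`-group and normal forces solvability -/
theorem solvable_of_normal_coatom [Finite G] {r : ℕ} [Fact r.Prime] {M : Subgroup G} (hM : IsCoatom M)
    (hr : IsPGroup r M) [M.Normal] : Group.IsSolvable G := by
  obtain ⟨g, hg⟩ : ∃ g : G, g ∉ M := by
    by_contra h; push Not at h
    exact hM.1 ((Subgroup.eq_top_iff' M).mpr h)
  have h1 : M ⊔ zpowers g = ⊤ := by
    apply hM.2
    exact lt_of_le_of_ne le_sup_left (fun e => hg (e ▸ (Subgroup.mem_sup_right (mem_zpowers g) : g ∈ M ⊔ zpowers g)))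
  haveI hMs : Group.IsSolvable M := isSolvable_of_isPGroup hr
  have h2 : Group.IsSolvable (G ⧸ M) := by
    apply Group.isSolvable_of_comm
    have key : ∀ a : G ⧸ M, ∃ k : ℤ, a = (g : G ⧸ M) ^ k := by
      intro a
      obtain ⟨x, rfl⟩ := QuotientGroup.mk_surjective a
      have hx : x ∈ M ⊔ zpowers g := by rw [h1]; exact Subgroup.mem_top x
      obtain ⟨m, hm, z, hz, rfl⟩ := Subgroup.mem_sup_of_normal_left.mp hx
      obtain ⟨k, rfl⟩ := Subgroup.mem_zpowers_iff.mp hz
      exact ⟨k, by rw [QuotientGroup.mk_mul, (QuotientGroup.eq_one_iff m).mpr hm, one_mul, QuotientGroup.mk_zpow]⟩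
    intro a b
    obtain ⟨i, rfl⟩ := key a
    obtain ⟨j, rfl⟩ := key b
    rw [← zpow_add, ← zpow_add, add_comm]
  exact (Group.isSolvable_iff_subgroup_quotient M).mpr ⟨hMs, h2⟩


/-- Let N be a proper normal subgroup of the finite group G such that every element x of G outside N has prime power order and has centralizer C_G(x) a maximal subgroup of G. Then N is solvable. -/
theorem result {G : Type*} [Group G] [Finite G] (N : Subgroup G) [N.Normal] (hN : N ≠ ⊤)
    (h : ∀ x : G, x ∉ N → IsPrimePow (orderOf x) ∧ IsCoatom (Subgroup.centralizer ({x} : Set G))) : Group.IsSolvable ↥N := by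
  classical
  by_contra hns
  have hGns : ¬ Group.IsSolvable G := fun hG => hns inferInstance
  have hpp : ∀ y : G, y ∉ N → IsPrimePow (orderOf y) := fun y hy => (h y hy).1
  -- structure of the centralizers
  have hsyl : ∀ x : G, x ∉ N → ∀ r : ℕ, ∀ _ : Fact r.Prime, r ∣ orderOf x →
      ¬ (centralizer ({x} : Set G)).Normal ∧ ∃ P : Sylow r G, (P : Subgroup G) = centralizer {x} := by
    intro x hx r hr hrx
    have h1 := isPGroup_of_primePow hx hrx hpp
    have h2 := (h x hx).2
    refine ⟨fun hn => hGns (solvable_of_normal_coatom h2 h1), ?_⟩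
    obtain ⟨P, hP⟩ := h1.exists_le_sylow
    refine ⟨P, ?_⟩
    rcases hP.eq_or_lt with h3 | h3
    · exact h3.symm
    · exfalso
      have h4 := h2.2 _ h3
      have h5 := P.isPGroup'
      rw [h4] at h5
      haveI := isSolvable_of_isPGroup h5
      exact hGns (Group.isSolvable_of_isSolvable_injective (f := (Subgroup.topEquiv (G := G)).symm.toMonoidHom)
        (Subgroup.topEquiv (G := G)).symm.injective)
  obtain ⟨x, hx⟩ : ∃ x : G, x ∉ N := by
    by_contra hcon; push Not at hcon
    exact hN ((Subgroup.eq_top_iff' N).mpr hcon)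
  obtain ⟨r, k, hr, hk, hxk⟩ := (isPrimePow_nat_iff _).mp (hpp x hx)
  haveI hrf : Fact r.Prime := ⟨hr⟩
  have hrx : r ∣ orderOf x := by rw [← hxk]; exact dvd_pow_self r hk.ne'
  obtain ⟨hMn, P, hP⟩ := hsyl x hx r hrf hrx
  have hPco : IsCoatom (P : Subgroup G) := hP ▸ (h x hx).2
  have hPn : ¬ (P : Subgroup G).Normal := hP ▸ hMn
  have hPN : (P : Subgroup G) ⊔ N = ⊤ := by
    by_contra hne
    have h1 : N ≤ P := by
      have h2 : (P : Subgroup G) ⊔ N = (P : Subgroup G) := by
        rcases (le_sup_left : (P : Subgroup G) ≤ (P : Subgroup G) ⊔ N).eq_or_lt with h3 | h3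
        · exact h3.symm
        · exact absurd (hPco.2 _ h3) hne
      exact sup_eq_left.mp h2
    exact hns (isSolvable_of_isPGroup (P.isPGroup'.to_le h1))
  have hxP : x ∈ (P : Subgroup G) := by rw [hP, Subgroup.mem_centralizer_singleton_iff]
  -- the coset of x is invariant
  have hxinv : ∀ g : G, ((g * x * g⁻¹ : G) : G ⧸ N) = (x : G ⧸ N) := by
    intro g
    have hg : g ∈ N ⊔ (P : Subgroup G) := by rw [sup_comm, hPN]; exact Subgroup.mem_top g
    obtain ⟨n, hn, u, hu, rfl⟩ := Subgroup.mem_sup_of_normal_left.mp hg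
    have hux : u * x = x * u := by
      rw [hP] at hu; exact Subgroup.mem_centralizer_singleton_iff.mp hu
    have e : n * u * x * (n * u)⁻¹ = n * x * n⁻¹ := by
      calc n * u * x * (n * u)⁻¹ = n * (u * x) * u⁻¹ * n⁻¹ := by group
        _ = n * x * n⁻¹ := by rw [hux]; group
    rw [e, QuotientGroup.mk_mul, QuotientGroup.mk_mul, QuotientGroup.mk_inv, (QuotientGroup.eq_one_iff n).mpr hn]
    simp
  have hxinv2 : ∀ g z : G, (z : G ⧸ N) = (x : G ⧸ N) → ((g * z * g⁻¹ : G) : G ⧸ N) = (x : G ⧸ N) := by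
    intro g z hz
    refine Eq.trans ?_ (hxinv g)
    rw [QuotientGroup.mk_mul, QuotientGroup.mk_mul, QuotientGroup.mk_mul, QuotientGroup.mk_mul, hz]
  have hcoset : ∀ y : G, (y : G ⧸ N) = (x : G ⧸ N) → y ∉ N ∧ r ∣ orderOf y := by
    intro y hy
    have hy1 : y ∉ N := fun hyN => hx (by
      rw [← QuotientGroup.eq_one_iff, ← hy]; exact (QuotientGroup.eq_one_iff y).mpr hyN)
    refine ⟨hy1, ?_⟩
    have h1 : orderOf (x : G ⧸ N) ∣ r ^ k := by
      rw [hxk]; exact orderOf_map_dvd (QuotientGroup.mk' N) x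
    obtain ⟨j, -, hj⟩ := (Nat.dvd_prime_pow hr).mp h1
    have h2 : j ≠ 0 := by
      rintro rfl
      rw [pow_zero, orderOf_eq_one_iff] at hj
      exact hx ((QuotientGroup.eq_one_iff x).mp hj)
    have h3 : r ∣ orderOf (x : G ⧸ N) := by rw [hj]; exact dvd_pow_self r h2
    rw [← hy] at h3
    exact h3.trans (orderOf_map_dvd (QuotientGroup.mk' N) y)
  -- counting
  let A := {z : G // (z : G ⧸ N) = (x : G ⧸ N) ∧ z ∈ (P : Subgroup G) ∧ z ∈ centralizer ((P : Subgroup G) : Set G)}
  let C := {z : G // (z : G ⧸ N) = (x : G ⧸ N)}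
  have hCcard : Nat.card C = Nat.card N := by
    refine Nat.card_congr ⟨fun z => ⟨x⁻¹ * z.1, ?_⟩, fun n => ⟨x * n.1, ?_⟩, ?_, ?_⟩
    · exact (QuotientGroup.eq.mp z.2.symm)
    · rw [QuotientGroup.mk_mul, (QuotientGroup.eq_one_iff n.1).mpr n.2, mul_one]
    · intro z; apply Subtype.ext; change x * (x⁻¹ * z.1) = z.1; group
    · intro z; apply Subtype.ext; change x⁻¹ * (x * z.1) = z.1; group
  let Ψ : (G ⧸ (P : Subgroup G)) × A → C := fun q => ⟨q.1.out * q.2.1 * q.1.out⁻¹,
    hxinv2 q.1.out q.2.1 q.2.2.1⟩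
  have hΨ : Function.Surjective Ψ := by
    rintro ⟨y, hy⟩
    obtain ⟨hyN, hry⟩ := hcoset y hy
    obtain ⟨-, Q, hQ⟩ := hsyl y hyN r hrf hry
    obtain ⟨g, hg⟩ := MulAction.exists_smul_eq G P Q
    have hmemQ : ∀ u ∈ (P : Subgroup G), g * u * g⁻¹ ∈ (Q : Subgroup G) := by
      intro u hu
      rw [← hg]
      exact Subgroup.smul_mem_pointwise_smul u (MulAut.conj g) (P : Subgroup G) hu
    have hmemP : ∀ u ∈ (Q : Subgroup G), g⁻¹ * u * g ∈ (P : Subgroup G) := by
      intro u hu
      rw [← hg] at hu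
      have hu' : u ∈ MulAut.conj g • (P : Subgroup G) := hu
      rw [Subgroup.mem_pointwise_smul_iff_inv_smul_mem] at hu'
      have e : (MulAut.conj g)⁻¹ • u = g⁻¹ * u * g := by
        rw [← map_inv, MulAut.smul_def, MulAut.conj_apply, inv_inv]
      rwa [e] at hu'
    have hyQ : y ∈ (Q : Subgroup G) := by rw [hQ, Subgroup.mem_centralizer_singleton_iff]
    set z := g⁻¹ * y * g with hz
    have hzP : z ∈ (P : Subgroup G) := hmemP y hyQ
    have hzC : z ∈ centralizer ((P : Subgroup G) : Set G) := by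
      rw [Subgroup.mem_centralizer_iff]
      intro u hu
      have h1 := hmemQ u hu
      rw [hQ, Subgroup.mem_centralizer_singleton_iff] at h1
      calc u * z = g⁻¹ * ((g * u * g⁻¹) * y) * g := by rw [hz]; group
        _ = g⁻¹ * (y * (g * u * g⁻¹)) * g := by rw [h1]
        _ = z * u := by rw [hz]; group
    have hzx : (z : G ⧸ N) = (x : G ⧸ N) := by
      have h1 := hxinv2 g⁻¹ y hy
      rwa [inv_inv] at h1
    refine ⟨⟨(g : G ⧸ (P : Subgroup G)), ⟨z, hzx, hzP, hzC⟩⟩, ?_⟩
    apply Subtype.ext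
    change (g : G ⧸ (P : Subgroup G)).out * z * ((g : G ⧸ (P : Subgroup G)).out)⁻¹ = y
    obtain ⟨u, hu⟩ := QuotientGroup.mk_out_eq_mul (P : Subgroup G) g
    rw [hu]
    have h2 : (u : G) * z = z * u := (Subgroup.mem_centralizer_iff.mp hzC) u u.2
    calc g * (u : G) * z * (g * u)⁻¹ = g * (u * z) * (u : G)⁻¹ * g⁻¹ := by group
      _ = g * z * g⁻¹ := by rw [h2]; group
      _ = y := by rw [hz]; group
  haveI : Finite A := inferInstance
  have hcard1 : Nat.card N ≤ (P : Subgroup G).index * Nat.card A := by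
    rw [← hCcard]
    refine (Nat.card_le_card_of_surjective Ψ hΨ).trans ?_
    rw [Nat.card_prod, ← Subgroup.index_eq_card]
  set D : Subgroup G := (P : Subgroup G) ⊓ N with hD
  have hcard2 : (P : Subgroup G).index * Nat.card D = Nat.card N := by
    have h1 : N.relIndex (P : Subgroup G) = N.index := by
      have := Subgroup.relIndex_sup_right (H := (P : Subgroup G)) (K := N)
      rw [← this, hPN, Subgroup.relIndex_top_right]
    have h2 : Nat.card D * N.relIndex (P : Subgroup G) = Nat.card (P : Subgroup G) := by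
      rw [hD, ← Subgroup.inf_relIndex_left]
      rw [← Subgroup.relIndex_bot_left, ← Subgroup.relIndex_bot_left]
      exact Subgroup.relIndex_mul_relIndex _ _ _ bot_le inf_le_left
    have h3 := N.card_mul_index
    have h4 := (P : Subgroup G).card_mul_index
    rw [h1] at h2
    have h5 : N.index * ((P : Subgroup G).index * Nat.card D) = N.index * Nat.card N := by
      calc N.index * ((P : Subgroup G).index * Nat.card D) = (Nat.card D * N.index) * (P : Subgroup G).index := by ring
        _ = N.index * Nat.card N := by rw [h2, h4, mul_comm, h3]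
    exact Nat.eq_of_mul_eq_mul_left (Nat.pos_of_ne_zero Subgroup.index_ne_zero_of_finite) h5
  have hDA : Nat.card D ≤ Nat.card A := by
    rw [← hcard2] at hcard1
    exact Nat.le_of_mul_le_mul_left hcard1 (Nat.pos_of_ne_zero Subgroup.index_ne_zero_of_finite)
  let ι : A → D := fun z => ⟨x⁻¹ * z.1, Subgroup.mem_inf.mpr
    ⟨Subgroup.mul_mem _ (Subgroup.inv_mem _ hxP) z.2.2.1, QuotientGroup.eq.mp z.2.1.symm⟩⟩
  have hιinj : Function.Injective ι := by
    intro a b hab
    have : x⁻¹ * a.1 = x⁻¹ * b.1 := congrArg (fun z : D => (z : G)) hab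
    exact Subtype.ext (mul_left_cancel this)
  have hιsurj : Function.Surjective ι := (hιinj.bijective_of_nat_card_le hDA).2
  have hxC : x ∈ centralizer ((P : Subgroup G) : Set G) := by
    rw [Subgroup.mem_centralizer_iff]
    intro u hu
    have hu' : u ∈ (P : Subgroup G) := hu
    rw [hP] at hu'; exact Subgroup.mem_centralizer_singleton_iff.mp hu'
  have hDC : D ≤ centralizer ((P : Subgroup G) : Set G) := by
    intro d hd
    obtain ⟨a, ha⟩ := hιsurj ⟨d, hd⟩
    have h1 : x⁻¹ * a.1 = d := congrArg (fun z : D => (z : G)) ha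
    rw [← h1]
    exact Subgroup.mul_mem _ (Subgroup.inv_mem _ hxC) a.2.2.2
  -- N has a normal r-complement
  have hPD : (P : Subgroup G) ≤ centralizer (D : Set G) := Subgroup.le_centralizer_iff.mp hDC
  have hND : normalizer (D : Set G) ≤ centralizer (D : Set G) := by
    have hcn : centralizer (D : Set G) ≤ normalizer (D : Set G) := Subgroup.centralizer_le_normalizer _
    rcases hPD.eq_or_lt with h1 | h1
    · rcases (hPD.trans hcn).eq_or_lt with h2 | h2
      · rw [← h2, ← h1]
      · exfalso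
        have h3 := hPco.2 _ h2
        have hDn : D.Normal := Subgroup.normalizer_eq_top_iff.mp h3
        apply hPn
        rw [h1]
        infer_instance
    · rw [hPco.2 _ h1]; exact le_top
  have hDsyl : IsSylowOf r D N := H19.isSylowOf_inf_normal inferInstance (H19.isSylowOf_top_of_sylow P)
  obtain ⟨S, hS⟩ := hDsyl
  have hSN : normalizer ((S : Subgroup N) : Set N) ≤ centralizer ((S : Subgroup N) : Set N) := by
    intro n hn
    have h1 : (n : G) ∈ normalizer (D : Set G) := by
      rw [Subgroup.mem_normalizer_iff] at hn ⊢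
      intro d
      rw [← hS]
      constructor
      · rintro ⟨e, he, rfl⟩
        exact ⟨n * e * n⁻¹, (hn e).mp he, rfl⟩
      · rintro ⟨e, he, hed⟩
        have hd : d = (n : G)⁻¹ * e * n := by
          have : (e : G) = n * d * (n : G)⁻¹ := hed
          rw [this]; group
        refine ⟨n⁻¹ * e * n, ?_, ?_⟩
        · apply (hn _).mpr
          have e2 : n * (n⁻¹ * e * n) * n⁻¹ = e := by group
          rw [e2]; exact he
        · rw [hd]; rfl
    have h2 := hND h1
    rw [Subgroup.mem_centralizer_iff] at h2 ⊢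
    intro e he
    apply Subtype.ext
    exact h2 (e : G) (by rw [← hS]; exact ⟨e, he, rfl⟩)
  obtain ⟨K, hK, hrK, j, hj⟩ := H2.hasNormalPComplement_iff.mp (H20.hasNormalPComplement_of_normalizer_le S hSN)
  have hKmem := H2.mem_normal_complement_iff hrK hj
  set L : Subgroup G := K.map N.subtype with hL
  have hLcard : Nat.card L = Nat.card K := Subgroup.card_map_of_injective N.subtype_injective
  have hNn : N.Normal := inferInstance
  have hLn : L.Normal := by
    refine ⟨fun n hn g => ?_⟩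
    obtain ⟨m, hm, rfl⟩ := hn
    refine ⟨⟨g * m * g⁻¹, hNn.conj_mem m m.2 g⟩, ?_, rfl⟩
    change (⟨g * m * g⁻¹, hNn.conj_mem m m.2 g⟩ : N) ∈ K
    have hm' : m ∈ K := hm
    rw [hKmem] at hm' ⊢
    have e : orderOf (⟨g * m * g⁻¹, hNn.conj_mem m m.2 g⟩ : N) = orderOf m := by
      rw [Subgroup.orderOf_mk, ← Subgroup.orderOf_coe]
      exact (orderOf_eq_of_isConj (isConj_iff.mpr ⟨g, rfl⟩ : IsConj (m : G) (g * m * g⁻¹))).symm
    rw [e]; exact hm'
  have hK1 : Nat.card K ≠ 1 := by
    intro hK1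
    apply hns
    have h1 : Nat.card N = r ^ j := by rw [← K.card_mul_index, hK1, hj, one_mul]
    have h2 : IsPGroup r N := IsPGroup.of_card h1
    exact isSolvable_of_isPGroup h2
  obtain ⟨q, hq, hqK⟩ := Nat.exists_prime_and_dvd hK1
  haveI : Fact q.Prime := ⟨hq⟩
  have hqr : q ≠ r := fun e => hrK (e ▸ hqK)
  have hPcop : (Nat.card (P : Subgroup G)).Coprime (Nat.card L) := by
    obtain ⟨m, hm⟩ := IsPGroup.iff_card.mp P.isPGroup'
    rw [hm, hLcard]
    exact Nat.Coprime.pow_left _ ((Nat.Prime.coprime_iff_not_dvd hr).mpr hrK)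
  have hPs : Group.IsSolvable (P : Subgroup G) := isSolvable_of_isPGroup P.isPGroup'
  obtain ⟨Q, hQ, hPQ⟩ := exists_invariant_sylow (A := (P : Subgroup G)) (G := L)
    (by rw [Subgroup.normalizer_eq_top_iff.mpr hLn]; exact le_top) hPcop (Or.inl hPs) q
  have hQ1 : Q ≠ ⊥ := by
    rintro rfl
    apply hQ.not_dvd
    rw [Subgroup.relIndex_bot_left, hLcard]; exact hqK
  have hQP : ¬ Q ≤ (P : Subgroup G) := by
    intro hle
    apply hQ1
    have h1 : IsPGroup r Q := P.isPGroup'.to_le hle
    have h2 : IsPGroup q Q := hQ.isPGroup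
    exact Subgroup.eq_bot_of_card_eq Q (by
      obtain ⟨a, ha⟩ := IsPGroup.iff_card.mp h1
      obtain ⟨b, hb⟩ := IsPGroup.iff_card.mp h2
      have hcop : Nat.Coprime (r ^ a) (q ^ b) := Nat.Coprime.pow _ _ ((Nat.coprime_primes hr hq).mpr hqr.symm)
      rw [← ha, ← hb] at hcop
      exact (Nat.coprime_self _).mp hcop)
  have hsup : (P : Subgroup G) ⊔ Q = ⊤ := by
    apply hPco.2
    refine lt_of_le_of_ne le_sup_left (fun e => hQP ?_)
    rw [e]; exact le_sup_right
  have hQn : Q.Normal := by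
    rw [← Subgroup.normalizer_eq_top_iff, eq_top_iff, ← hsup]
    exact sup_le hPQ le_normalizer
  have hQs : Group.IsSolvable Q := isSolvable_of_isPGroup hQ.isPGroup
  have hGQ : Group.IsSolvable (G ⧸ Q) := by
    have hsurj : Function.Surjective ((QuotientGroup.mk' Q).comp (P : Subgroup G).subtype) := by
      intro a
      obtain ⟨g, rfl⟩ := QuotientGroup.mk_surjective a
      have hg : g ∈ Q ⊔ (P : Subgroup G) := by rw [sup_comm, hsup]; exact Subgroup.mem_top g
      obtain ⟨n, hn, u, hu, rfl⟩ := Subgroup.mem_sup_of_normal_left.mp hg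
      refine ⟨⟨u, hu⟩, ?_⟩
      change (u : G ⧸ Q) = ((n * u : G) : G ⧸ Q)
      rw [QuotientGroup.mk_mul, (QuotientGroup.eq_one_iff n).mpr hn, one_mul]
    exact Group.isSolvable_of_surjective hsurj
  exact hGns ((Group.isSolvable_iff_subgroup_quotient Q).mpr ⟨hQs, hGQ⟩)

end Cfsg.Agent.S3903
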