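import Cfsg.Statements.S3904
import Cfsg.Agent.H23.MaxCent

set_option autoImplicit false
set_option linter.all false
open Cfsg

namespace Cfsg.Agent.S3904

open Subgroup Cfsg.Agent.H23 Cfsg.Agent.H23.MaxCent
open scoped Pointwise

/-- Let G be a non-abelian finite group in which the centralizer of every non-central element is a maximal subgroup. Then G/Z(G) is either an elementary abelian p-group for some prime p, or a minimal non-abelian group (non-abelian with all proper subgroups abelian) of order p^a · q for distinct primes p, q with a normal Sylow p-subgroup. -/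
theorem result {G : Type*} [Group G] [Finite G] (hna : ¬ IsMulCommutative G)
    (h : ∀ x : G, x ∉ Subgroup.center G → IsCoatom (Subgroup.centralizer ({x} : Set G))) :
    (∃ p : ℕ, p.Prime ∧ Cfsg.IsElementaryAbelian p (⊤ : Subgroup (G ⧸ Subgroup.center G))) ∨
    (¬ IsMulCommutative (G ⧸ Subgroup.center G) ∧ (∀ H : Subgroup (G ⧸ Subgroup.center G), H ≠ ⊤ → IsMulCommutative ↥H) ∧
      ∃ p q a : ℕ, p.Prime ∧ q.Prime ∧ p ≠ q ∧ Nat.card (G ⧸ Subgroup.center G) = p ^ a * q ∧
        ∀ P : Subgroup (G ⧸ Subgroup.center G), Nat.card ↥P = p ^ a → P.Normal) := by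
  classical
  have hnc : ∃ x : G, x ∉ center G := by
    by_contra hcon
    push Not at hcon
    exact hna ⟨⟨fun a b => (mem_center_iff.1 (hcon b) a)⟩⟩
  by_cases hn : ∀ x : G, x ∉ center G → (centralizer ({x} : Set G)).Normal
  · left
    exact normal_case h hn hnc
  · right
    push Not at hn
    obtain ⟨M, K, r, q, hr, hq, hrq, hFC, hMc, hKn, hKset, hKcomp, hMq, hKr, hKe⟩ := frob_case h hn
    haveI : Fact r.Prime := ⟨hr⟩
    haveI : Fact q.Prime := ⟨hq⟩
    have hKM : K ⊓ M = ⊥ := hKcomp.disjoint.eq_bot
    have hMz : ∀ a ∈ M, a ≠ 1 → M = zpowers a := by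
      intro a ha ha1
      have h1 : orderOf a ∣ q := by rw [← hMq]; exact Subgroup.orderOf_dvd_natCard M ha
      have h2 : orderOf a = q := by
        rcases (Nat.dvd_prime hq).1 h1 with h3 | h3
        · rw [orderOf_eq_one_iff] at h3; exact absurd h3 ha1
        · exact h3
      refine (Subgroup.eq_of_le_of_card_ge (by rwa [zpowers_le]) ?_).symm
      rw [hMq, Nat.card_zpowers, h2]
    have hMab : ∀ a ∈ M, ∀ b ∈ M, a * b = b * a := by
      intro a ha b hb
      by_cases ha1 : a = 1
      · rw [ha1, one_mul, mul_one]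
      · rw [hMz a ha ha1] at hb
        obtain ⟨i, rfl⟩ := mem_zpowers_iff.1 hb
        exact (Commute.refl a).zpow_right i
    have hKab : ∀ a ∈ K, ∀ b ∈ K, a * b = b * a := fun a ha b hb =>
      congrArg Subtype.val (hKe.1.is_comm.comm ⟨a, ha⟩ ⟨b, hb⟩)
    -- elements outside K have order q and are conjugate into M
    have hout : ∀ a : G ⧸ center G, a ∉ K → a ≠ 1 ∧ ∃ g : G ⧸ center G, g⁻¹ * a * g ∈ M := by
      intro a ha
      exact Cfsg.Agent.H21.frob_not_mem_kernel (by rw [← hKset]; exact ha)
    have hordout : ∀ a : G ⧸ center G, a ∉ K → orderOf a = q := by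
      intro a ha
      obtain ⟨ha1, g, hg⟩ := hout a ha
      have h1 : orderOf (g⁻¹ * a * g) = orderOf a := by
        have := orderOf_injective (MulAut.conj g⁻¹).toMonoidHom (MulAut.conj g⁻¹).injective a
        simpa [MulAut.conj_apply] using this
      have h2 : orderOf (g⁻¹ * a * g) ∣ q := by rw [← hMq]; exact Subgroup.orderOf_dvd_natCard M hg
      rw [h1] at h2
      rcases (Nat.dvd_prime hq).1 h2 with h3 | h3
      · rw [orderOf_eq_one_iff] at h3; exact absurd h3 ha1
      · exact h3
    refine ⟨?_, ?_, ?_⟩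
    · intro hcomm
      have hM1 : M ≠ ⊥ := hFC.1
      obtain ⟨⟨a, ha⟩, ha1⟩ := (ne_bot_iff_exists_ne_one (H := M)).1 hM1
      apply hFC.2.1
      rw [eq_top_iff]
      intro g _
      exact Cfsg.Agent.H21.frob_commute_mem hFC ha (fun h1 => ha1 (Subtype.ext h1)) (hcomm.is_comm.comm g a)
    · intro H hH
      constructor
      constructor
      rintro ⟨a, ha⟩ ⟨b, hb⟩
      apply Subtype.ext
      show a * b = b * a
      by_cases hHK : H ≤ K
      · exact hKab a (hHK ha) b (hHK hb)
      · obtain ⟨c, hc, hcK⟩ := SetLike.not_le_iff_exists.1 hHK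
        obtain ⟨hc1, g, hg⟩ := hout c hcK
        have hc2 : g⁻¹ * c * g ≠ 1 := by
          intro h1
          apply hc1
          have : c = g * (g⁻¹ * c * g) * g⁻¹ := by group
          rw [this, h1]; group
        have h1 : M ≤ H.map (MulAut.conj g⁻¹).toMonoidHom := by
          rw [hMz _ hg hc2, zpowers_le]
          exact ⟨c, hc, by simp [MulAut.conj_apply]⟩
        have h2 : M = H.map (MulAut.conj g⁻¹).toMonoidHom := by
          apply coatom_eq hMc _ h1
          intro h2
          apply hH
          rw [eq_top_iff]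
          intro s _
          have h3 : g⁻¹ * s * g ∈ H.map (MulAut.conj g⁻¹).toMonoidHom := by rw [h2]; exact mem_top _
          obtain ⟨s', hs', hs2⟩ := h3
          have h4 : g⁻¹ * s' * g = g⁻¹ * s * g := by
            rw [← hs2]; simp [MulAut.conj_apply]
          have h5 : s' = s := mul_left_cancel (mul_right_cancel h4)
          rw [← h5]; exact hs'
        have h3 : ∀ s ∈ H, g⁻¹ * s * g ∈ M := by
          intro s hs
          rw [h2]
          exact ⟨s, hs, by simp [MulAut.conj_apply]⟩
        have h4 := hMab _ (h3 a ha) _ (h3 b hb)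
        have h5 : g⁻¹ * (a * b) * g = g⁻¹ * (b * a) * g := by
          calc g⁻¹ * (a * b) * g = g⁻¹ * a * g * (g⁻¹ * b * g) := by group
            _ = _ := h4
            _ = _ := by group
        exact mul_left_cancel (mul_right_cancel h5)
    · obtain ⟨a, ha⟩ := IsPGroup.iff_card.1 hKr
      refine ⟨r, q, a, hr, hq, hrq, ?_, ?_⟩
      · rw [← hKcomp.card_mul, ha, hMq]
      · intro P hP
        have h1 : P ≤ K := by
          intro x hx
          by_contra hxK
          have h2 := hordout x hxK
          have h3 : orderOf x ∣ r ^ a := by rw [← hP]; exact Subgroup.orderOf_dvd_natCard P hx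
          rw [h2] at h3
          have h4 := (Nat.Prime.dvd_of_dvd_pow hq h3)
          exact hrq ((Nat.prime_dvd_prime_iff_eq hq hr).1 h4).symm
        have h2 : P = K := Subgroup.eq_of_le_of_card_ge h1 (by rw [ha, hP])
        rw [h2]; exact hKn

end Cfsg.Agent.S3904
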