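import Cfsg.Statements.S3905
import Cfsg.Agent.H23.MaxCentN

set_option autoImplicit false
set_option linter.all false
open Cfsg

namespace Cfsg.Agent.S3905

open Subgroup Cfsg.Agent.H23 Cfsg.Agent.H23.MaxCent Cfsg.Agent.H23.MCN

/-- Let N be a normal subgroup of the finite group G such that for every element x of N outside the center of N the centralizer C_G(x) is a maximal subgroup of G. Then N/Z(N) is either an elementary abelian p-group for some prime p, or a Frobenius group whose kernel is an elementary abelian normal subgroup and whose complement has prime order. -/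
theorem result {G : Type*} [Group G] [Finite G] (N : Subgroup G) [N.Normal]
    (h : ∀ x : G, x ∈ N → x ∉ Subgroup.centralizer (N : Set G) → IsCoatom (Subgroup.centralizer ({x} : Set G))) :
    (∃ p : ℕ, p.Prime ∧ Cfsg.IsElementaryAbelian p (⊤ : Subgroup (↥N ⧸ Subgroup.center ↥N))) ∨
    (∃ (Q K : Subgroup (↥N ⧸ Subgroup.center ↥N)) (p : ℕ), p.Prime ∧ Cfsg.IsFrobeniusComplement Q ∧ (Nat.card ↥Q).Prime ∧
      K.Normal ∧ (K : Set (↥N ⧸ Subgroup.center ↥N)) = Cfsg.frobeniusKernel Q ∧ Cfsg.IsElementaryAbelian p K) := by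
  have hH : Hyp N := h
  by_cases hn : ∀ x : G, x ∈ N → x ∉ centralizer (N : Set G) → (N ⊓ centralizer ({x} : Set G) : Subgroup G).Normal
  · exact Or.inl (caseI hH hn)
  · right
    push Not at hn
    obtain ⟨x, hx, hxc, hxn⟩ := hn
    obtain ⟨p, j, hp, hj, k, hk⟩ := exists_primary _ x rfl hxc
    haveI : Fact p.Prime := ⟨hp⟩
    have hxj : x ^ j ∈ N := pow_mem hx j
    rw [C_eq_of_le hH hx hxc hxj hj (C_le_of_mem_zpowers (pow_mem (mem_zpowers x) j))] at hxn
    exact frobN hH hxj hj hxn (MCN.alpha hH ⟨k, hk⟩ hxj hj hxn)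

end Cfsg.Agent.S3905
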