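import Cfsg.Statements.S3908
import Cfsg.Agent.H23.RankOne2
import Cfsg.Agent.H20.ElemAb

set_option autoImplicit false
set_option linter.all false
open Cfsg

namespace Cfsg.Agent.S3908

section aux
open Subgroup
open scoped Pointwise

theorem key {G : Type*} [Group G] [Finite G] (hB : ∀ A B : Subgroup G, IsMulCommutative ↥A → IsMulCommutative ↥B → Nat.card ↥A = Nat.card ↥B → ∃ g : G, B = A.map (MulAut.conj g).toMonoidHom)
    (p : ℕ) [hp : Fact p.Prime] (P : Sylow p G) :
    (IsCyclic ↥(P : Subgroup G) ∨ (p = 2 ∧ ∃ n, 1 ≤ n ∧ Nonempty (↥(P : Subgroup G) ≃* QuaternionGroup (2 ^ n)))) ∨ ∀ x ∈ (P : Subgroup G), x ^ p = 1 := by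
  classical
  have hPp := P.isPGroup'
  by_cases huniq : ∀ x y : (P : Subgroup G), orderOf x = p → orderOf y = p → y ∈ zpowers x
  · exact Or.inl (H23.cyclic_or_quaternion hPp huniq)
  right
  push Not at huniq
  obtain ⟨x, y, hx, hy, hxy⟩ := huniq
  -- a central element of order p
  haveI : Nontrivial (P : Subgroup G) := ⟨x, 1, fun h => by rw [h, orderOf_one] at hx; exact hp.out.one_lt.ne hx⟩
  have hZ := hPp.center_nontrivial
  have hZp : p ∣ Nat.card (center (P : Subgroup G)) := by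
    obtain ⟨k, hk⟩ := IsPGroup.iff_card.mp (hPp.to_subgroup (center (P : Subgroup G)))
    rw [hk]
    apply dvd_pow_self
    rintro rfl
    rw [pow_zero] at hk
    rw [← Finite.one_lt_card_iff_nontrivial] at hZ
    omega
  obtain ⟨z, hz⟩ := exists_prime_orderOf_dvd_card' p hZp
  have hzc := z.2
  have hz' : orderOf (z : (P : Subgroup G)) = p := by rw [orderOf_coe]; exact hz
  generalize (z : (P : Subgroup G)) = z at hzc hz'
  obtain ⟨w, hw, hwz⟩ : ∃ w : (P : Subgroup G), orderOf w = p ∧ w ∉ zpowers z := by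
    by_contra hcon
    push Not at hcon
    have h1 := hcon x hx
    have h2 := hcon y hy
    have h3 : zpowers x = zpowers z := by
      apply eq_of_le_of_card_ge (zpowers_le.mpr h1)
      rw [Nat.card_zpowers, Nat.card_zpowers, hx, hz']
    rw [h3] at hxy
    exact hxy h2
  haveI hzn : (zpowers z).Normal := by
    refine ⟨fun a ha g => ?_⟩
    have hac : a ∈ center (P : Subgroup G) := (zpowers_le.mpr hzc) ha
    rw [mem_center_iff.mp hac g, mul_inv_cancel_right]; exact ha
  set E := zpowers z ⊔ zpowers w with hE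
  have hEc : Nat.card E = p ^ 2 := by
    rw [hE, H23.card_sup_zpowers_of_pow_mem (p := p) hwz (by rw [orderOf_dvd_iff_pow_eq_one.mp hw.dvd]; exact one_mem _), Nat.card_zpowers, hz', pow_two]
  have hEp : ∀ a ∈ E, a ^ p = 1 := by
    intro a ha
    rw [hE, mem_sup_of_normal_left] at ha
    obtain ⟨c, hc, d, hd, rfl⟩ := ha
    have hcc : c ∈ center (P : Subgroup G) := (zpowers_le.mpr hzc) hc
    have hcd : Commute c d := (mem_center_iff.mp hcc d).symm
    obtain ⟨i, rfl⟩ := mem_zpowers_iff.mp hc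
    obtain ⟨j, rfl⟩ := mem_zpowers_iff.mp hd
    have hz1 : z ^ p = 1 := orderOf_dvd_iff_pow_eq_one.mp hz'.dvd
    have hw1 : w ^ p = 1 := orderOf_dvd_iff_pow_eq_one.mp hw.dvd
    rw [hcd.mul_pow, ← zpow_natCast, ← zpow_mul, mul_comm i, zpow_mul, zpow_natCast, hz1, one_zpow, one_mul,
      ← zpow_natCast, ← zpow_mul, mul_comm j, zpow_mul, zpow_natCast, hw1, one_zpow]
  intro t ht
  by_contra htp
  obtain ⟨k, hk⟩ := (IsPGroup.iff_orderOf.mp hPp) ⟨t, ht⟩
  rw [orderOf_mk] at hk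
  have hk2 : 2 ≤ k := by
    by_contra h
    apply htp
    rw [← orderOf_dvd_iff_pow_eq_one, hk]
    calc p ^ k ∣ p ^ 1 := pow_dvd_pow p (by omega)
      _ = p := pow_one p
  have hs : orderOf (t ^ (p ^ (k - 2))) = p ^ 2 := by
    rw [orderOf_pow_of_dvd (pow_pos hp.out.pos _).ne' (by rw [hk]; exact pow_dvd_pow p (by omega)), hk]
    rw [Nat.pow_div (by omega) hp.out.pos]
    congr 1; omega
  have hEcomm : IsMulCommutative ↥(E.map (P : Subgroup G).subtype) := by
    have hc := H23.comm_of_card_sq (p := p) (E := E.map (P : Subgroup G).subtype) (by rw [H1.card_map_subtype, hEc])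
    exact ⟨⟨fun a b => Subtype.ext (hc a a.2 b b.2)⟩⟩
  obtain ⟨g, hg⟩ := hB (E.map (P : Subgroup G).subtype) (zpowers (t ^ (p ^ (k - 2)))) hEcomm inferInstance
    (by rw [Nat.card_zpowers, hs, H1.card_map_subtype, hEc])
  have h1 : t ^ (p ^ (k - 2)) ∈ (E.map (P : Subgroup G).subtype).map (MulAut.conj g).toMonoidHom := by rw [← hg]; exact mem_zpowers _
  obtain ⟨v, ⟨e, he, rfl⟩, hv⟩ := h1
  have h3 : (t ^ (p ^ (k - 2))) ^ p = 1 := by rw [← hv, ← map_pow, ← map_pow, hEp e he, map_one, map_one]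
  have h4 := orderOf_dvd_of_pow_eq_one h3
  rw [hs] at h4
  have h5 := Nat.le_of_dvd hp.out.pos h4
  have := hp.out.one_lt
  nlinarith

theorem aux {G : Type*} [Group G] [Finite G] (hB : ∀ A B : Subgroup G, IsMulCommutative ↥A → IsMulCommutative ↥B → Nat.card ↥A = Nat.card ↥B → ∃ g : G, B = A.map (MulAut.conj g).toMonoidHom) :
    (∀ P : Sylow 2 G, IsCyclic ↥(P : Subgroup G) ∨ Cfsg.IsElementaryAbelian 2 (P : Subgroup G) ∨ ∃ k : ℕ, Nonempty (↥(P : Subgroup G) ≃* QuaternionGroup (2 ^ k))) ∧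
    ∀ (p : ℕ) [Fact p.Prime], p ≠ 2 → ∀ P : Sylow p G, IsCyclic ↥(P : Subgroup G) ∨ ∀ x ∈ (P : Subgroup G), x ^ p = 1 := by
  constructor
  · intro P
    haveI : Fact (Nat.Prime 2) := ⟨Nat.prime_two⟩
    rcases key hB 2 P with (h | ⟨-, n, -, h⟩) | h
    · exact Or.inl h
    · exact Or.inr (Or.inr ⟨n, h⟩)
    · refine Or.inr (Or.inl (H20.isElementaryAbelian_iff.mpr ⟨?_, h⟩))
      intro a ha b hb
      have h1 : ∀ c ∈ (P : Subgroup G), c⁻¹ = c := fun c hc => inv_eq_of_mul_eq_one_left (by rw [← pow_two]; exact h c hc)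
      have h2 := h1 (a * b) (mul_mem ha hb)
      rw [mul_inv_rev, h1 a ha, h1 b hb] at h2
      exact h2.symm
  · intro p hp hp2 P
    rcases key hB p P with (h | ⟨h, -⟩) | h
    · exact Or.inl h
    · exact absurd h hp2
    · exact Or.inr h
end aux

/-- Let G be a finite group in which any two abelian subgroups of the same order are conjugate. Then a Sylow 2-subgroup of G is cyclic, elementary abelian or generalized quaternion, and for an odd prime p a Sylow p-subgroup of G is cyclic or has exponent dividing p. -/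
theorem result {G : Type*} [Group G] [Finite G] (hB : ∀ A B : Subgroup G, IsMulCommutative ↥A → IsMulCommutative ↥B → Nat.card ↥A = Nat.card ↥B → ∃ g : G, B = A.map (MulAut.conj g).toMonoidHom) :
    (∀ P : Sylow 2 G, IsCyclic ↥(P : Subgroup G) ∨ Cfsg.IsElementaryAbelian 2 (P : Subgroup G) ∨ ∃ k : ℕ, Nonempty (↥(P : Subgroup G) ≃* QuaternionGroup (2 ^ k))) ∧
    ∀ (p : ℕ) [Fact p.Prime], p ≠ 2 → ∀ P : Sylow p G, IsCyclic ↥(P : Subgroup G) ∨ ∀ x ∈ (P : Subgroup G), x ^ p = 1 := by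
  exact aux hB

end Cfsg.Agent.S3908
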