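import Cfsg.Statements.S3909
import Cfsg.Agent.H1.Basic
import Cfsg.Agent.H20.ElemAb

set_option autoImplicit false
set_option linter.all false
open Cfsg

namespace Cfsg.Agent.S3909

section aux
open Subgroup
open scoped Pointwise

theorem zp_comm {G : Type*} [Group G] (a : G) : IsMulCommutative ↥(zpowers a) := inferInstance

theorem aux {G : Type*} [Group G] [Finite G] (hB : ∀ A B : Subgroup G, IsMulCommutative ↥A → IsMulCommutative ↥B → Nat.card ↥A = Nat.card ↥B → ∃ g : G, B = A.map (MulAut.conj g).toMonoidHom) (M : Subgroup G) [M.Normal] :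
    (∀ a : G, (∃ m ∈ M, orderOf m = orderOf a) → a ∈ M) ∧
    ∀ (p t : ℕ) [Fact p.Prime], 2 ≤ t → Nat.card ↥M = p ^ t → Cfsg.IsElementaryAbelian p M → ∀ P : Sylow p G, (P : Subgroup G) = M := by
  have hall : ∀ a : G, (∃ m ∈ M, orderOf m = orderOf a) → a ∈ M := by
    rintro a ⟨m, hm, hma⟩
    obtain ⟨g, hg⟩ := hB (zpowers m) (zpowers a) (zp_comm m) (zp_comm a) (by rw [Nat.card_zpowers, Nat.card_zpowers, hma])
    have h1 : a ∈ (zpowers m).map (MulAut.conj g).toMonoidHom := by rw [← hg]; exact mem_zpowers a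
    obtain ⟨y, hy, hya⟩ := h1
    have hyM : y ∈ M := (zpowers_le.mpr hm) hy
    rw [← hya]
    exact Normal.conj_mem inferInstance y hyM g
  refine ⟨hall, ?_⟩
  intro p t hp ht hM hE P
  have hMp : IsPGroup p M := IsPGroup.of_card hM
  have hMP : M ≤ (P : Subgroup G) := hMp.le_sylow_of_normal P
  refine le_antisymm ?_ hMP
  intro x hx
  by_contra hxM
  have hMel : ∀ y ∈ M, y ^ p = 1 := (H20.isElementaryAbelian_iff.mp hE).2
  have hMc := (H20.isElementaryAbelian_iff.mp hE).1
  -- element of order p in M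
  have hpM : p ∣ Nat.card M := by rw [hM]; exact dvd_pow_self p (by omega)
  obtain ⟨m, hm⟩ := exists_prime_orderOf_dvd_card' p hpM
  obtain ⟨k, hk⟩ := (IsPGroup.iff_orderOf.mp P.isPGroup') ⟨x, hx⟩
  rw [orderOf_mk] at hk
  have hk2 : 2 ≤ k := by
    by_contra h
    have h1 : k = 0 ∨ k = 1 := by omega
    rcases h1 with h1 | h1
    · rw [h1, pow_zero, orderOf_eq_one_iff] at hk
      rw [hk] at hxM; exact hxM (one_mem _)
    · rw [h1, pow_one] at hk
      exact hxM (hall x ⟨m, m.2, by rw [hk, orderOf_coe, hm]⟩)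
  have hy : orderOf (x ^ (p ^ (k - 2))) = p ^ 2 := by
    rw [orderOf_pow_of_dvd (pow_pos hp.out.pos _).ne' (by rw [hk]; exact pow_dvd_pow p (by omega)), hk]
    rw [Nat.pow_div (by omega) hp.out.pos]
    congr 1; omega
  obtain ⟨E, hEc⟩ := Sylow.exists_subgroup_card_pow_prime (G := M) p (n := 2) (by rw [hM]; exact pow_dvd_pow p ht)
  have hEM : E.map M.subtype ≤ M := map_subtype_le E
  have hEcomm : IsMulCommutative ↥(E.map M.subtype) := by
    refine ⟨⟨fun a b => ?_⟩⟩
    exact Subtype.ext (hMc a (hEM a.2) b (hEM b.2))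
  obtain ⟨g, hg⟩ := hB (E.map M.subtype) (zpowers (x ^ (p ^ (k - 2)))) hEcomm (zp_comm _)
    (by rw [Nat.card_zpowers, hy, H1.card_map_subtype, hEc])
  have h1 : x ^ (p ^ (k - 2)) ∈ (E.map M.subtype).map (MulAut.conj g).toMonoidHom := by rw [← hg]; exact mem_zpowers _
  obtain ⟨z, hz, hzx⟩ := h1
  have h2 : z ^ p = 1 := hMel z (hEM hz)
  have h3 : (x ^ (p ^ (k - 2))) ^ p = 1 := by rw [← hzx, ← map_pow, h2, map_one]
  have h4 := orderOf_dvd_of_pow_eq_one h3
  rw [hy] at h4
  have h5 := Nat.le_of_dvd hp.out.pos h4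
  have := hp.out.one_lt
  nlinarith
end aux

/-- Let G be a finite group in which any two abelian subgroups of the same order are conjugate. Let M be a normal subgroup of G. If M contains an element of the same order as a ∈ G, then a ∈ M; and if M is elementary abelian of order p^t with p prime and t ≥ 2, then M is the unique Sylow p-subgroup of G. -/
theorem result {G : Type*} [Group G] [Finite G] (hB : ∀ A B : Subgroup G, IsMulCommutative ↥A → IsMulCommutative ↥B → Nat.card ↥A = Nat.card ↥B → ∃ g : G, B = A.map (MulAut.conj g).toMonoidHom) (M : Subgroup G) [M.Normal] :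
    (∀ a : G, (∃ m ∈ M, orderOf m = orderOf a) → a ∈ M) ∧
    ∀ (p t : ℕ) [Fact p.Prime], 2 ≤ t → Nat.card ↥M = p ^ t → Cfsg.IsElementaryAbelian p M → ∀ P : Sylow p G, (P : Subgroup G) = M := by
  exact aux hB M

end Cfsg.Agent.S3909
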