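import Cfsg.Statements.S3910
import Cfsg.Agent.H1.Basic
import Cfsg.Agent.H1.Cores
import Cfsg.Agent.H23.Nilp
import Cfsg.Agent.H23.PGroup
import Cfsg.Agent.H4.Basic2

set_option autoImplicit false
set_option linter.all false
open Cfsg

namespace Cfsg.Agent.S3910

section aux
open Subgroup
open scoped Pointwise

/-- In a `p`-group, a normal subgroup contains normal subgroups of every possible order. -/
theorem exists_normal_card {P : Type*} [Group P] [Finite P] {p : ℕ} [Fact p.Prime]
    (hP : IsPGroup p P) (N : Subgroup P) [N.Normal] (k : ℕ) (hk : p ^ k ≤ Nat.card N) :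
    ∃ K ≤ N, K.Normal ∧ Nat.card K = p ^ k := by
  induction k with
  | zero => exact ⟨⊥, bot_le, inferInstance, by simp⟩
  | succ k ih =>
    have hpp := (Fact.out : p.Prime)
    obtain ⟨B, hBN, hBn, hBc⟩ := ih (le_trans (Nat.pow_le_pow_right hpp.pos (Nat.le_succ k)) hk)
    have hlt : B < N := by
      refine lt_of_le_of_ne hBN ?_
      rintro rfl
      rw [hBc, pow_succ] at hk
      have : 0 < p ^ k := pow_pos hpp.pos _
      nlinarith [hpp.one_lt]
    obtain ⟨x, hxN, hxB, hxp, hx⟩ := H23.exists_central_mod hP hlt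
    have hKn := H23.normal_sup_zpowers hx
    refine ⟨B ⊔ zpowers x, sup_le hBN (zpowers_le.mpr hxN), hKn, ?_⟩
    -- order
    have h1 : Nat.card ((zpowers x).map (QuotientGroup.mk' B)) = p := by
      rw [MonoidHom.map_zpowers, Nat.card_zpowers]
      apply orderOf_eq_prime
      · rw [← map_pow]; exact (QuotientGroup.eq_one_iff _).mpr hxp
      · intro h; exact hxB ((QuotientGroup.eq_one_iff _).mp h)
    have h2 := H1.card_map_mk'_mul B (B ⊔ zpowers x)
    rw [inf_eq_right.mpr (le_sup_left : B ≤ B ⊔ zpowers x)] at h2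
    have h3 : (B ⊔ zpowers x).map (QuotientGroup.mk' B) = (zpowers x).map (QuotientGroup.mk' B) := by
      rw [Subgroup.map_sup]
      have : B.map (QuotientGroup.mk' B) = ⊥ := by
        rw [Subgroup.map_eq_bot_iff, QuotientGroup.ker_mk']
      rw [this, bot_sup_eq]
    rw [h3, h1, hBc] at h2
    rw [pow_succ]
    exact h2.symm

theorem pgroup_case {P : Type*} [Group P] [Finite P] {p : ℕ} [Fact p.Prime] (hP : IsPGroup p P)
    (hB : ∀ A B : Subgroup P, IsMulCommutative ↥A → IsMulCommutative ↥B → Nat.card ↥A = Nat.card ↥B →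
      ∃ g : P, B = A.map (MulAut.conj g).toMonoidHom) : IsCyclic P := by
  classical
  obtain ⟨A, -, hAn, hAc, hA⟩ := H23.exists_selfcentralizing hP (⊥ : Subgroup P) inferInstance inferInstance
  have hcomm_le : ∀ {X Y : Subgroup P}, X ≤ Y → IsMulCommutative Y → IsMulCommutative X := by
    intro X Y h hY
    refine ⟨⟨fun a b => ?_⟩⟩
    have := hY.is_comm.comm ⟨a, h a.2⟩ ⟨b, h b.2⟩
    have h0 := congrArg Subtype.val this
    exact Subtype.ext h0
  have huniq : ∀ B C : Subgroup P, IsMulCommutative B → IsMulCommutative C → Nat.card B = Nat.card C →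
      Nat.card B ≤ Nat.card A → B = C := by
    intro B C hBc hCc hBC hle
    obtain ⟨k, hk⟩ := IsPGroup.iff_card.mp (hP.to_subgroup B)
    obtain ⟨N, hNA, hNn, hNc⟩ := exists_normal_card hP A k (hk ▸ hle)
    have hNcomm := hcomm_le hNA hAc
    have : ∀ X : Subgroup P, IsMulCommutative X → Nat.card X = p ^ k → X = N := by
      intro X hX hXk
      obtain ⟨g, hg⟩ := hB N X hNcomm hX (hNc.trans hXk.symm)
      rw [hg]
      exact H1.conj_smul_normal (N := N) g
    rw [this B hBc hk, this C hCc (hBC ▸ hk)]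
  obtain ⟨x, hx⟩ := Finite.exists_max (fun x : P => orderOf x)
  have hdiv : ∀ y : P, orderOf y ∣ orderOf x := by
    intro y
    obtain ⟨i, hi⟩ := IsPGroup.iff_orderOf.mp hP y
    obtain ⟨j, hj⟩ := IsPGroup.iff_orderOf.mp hP x
    have := hx y
    simp only [hi, hj] at this ⊢
    exact pow_dvd_pow p ((Nat.pow_le_pow_iff_right (Fact.out : p.Prime).one_lt).mp this)
  by_cases hle : orderOf x ≤ Nat.card A
  · refine ⟨x, fun y => ?_⟩
    have h1 := orderOf_pow_orderOf_div (orderOf_pos x).ne' (hdiv y)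
    have h2 : zpowers y = zpowers (x ^ (orderOf x / orderOf y)) := by
      apply huniq _ _ inferInstance inferInstance
      · rw [Nat.card_zpowers, Nat.card_zpowers, h1]
      · rw [Nat.card_zpowers]; exact (hx y).trans hle
    have h3 : y ∈ zpowers y := mem_zpowers y
    rw [h2] at h3
    exact (zpowers_le.mpr (pow_mem (mem_zpowers x) _)) h3
  · exfalso
    push Not at hle
    have hAd : Nat.card A ∣ orderOf x := by
      obtain ⟨i, hi⟩ := IsPGroup.iff_card.mp (hP.to_subgroup A)
      obtain ⟨j, hj⟩ := IsPGroup.iff_orderOf.mp hP x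
      rw [hi, hj] at hle ⊢
      exact pow_dvd_pow p ((Nat.pow_le_pow_iff_right (Fact.out : p.Prime).one_lt).mp hle.le)
    have h1 := orderOf_pow_orderOf_div (orderOf_pos x).ne' hAd
    have h2 : zpowers (x ^ (orderOf x / Nat.card A)) = A := by
      apply huniq _ _ inferInstance hAc
      · rw [Nat.card_zpowers, h1]
      · rw [Nat.card_zpowers, h1]
    have h3 : x ∈ A := by
      rw [← hA, mem_centralizer_iff, ← h2]
      intro z hz
      obtain ⟨i, hi⟩ := mem_zpowers_iff.mp hz
      rw [← hi]
      exact (((Commute.refl x).pow_left _).zpow_left i).eq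
    have h4 := card_le_of_le (zpowers_le.mpr h3)
    rw [Nat.card_zpowers] at h4
    omega

theorem aux {G : Type*} [Group G] [Finite G] (hB : ∀ A B : Subgroup G, IsMulCommutative ↥A → IsMulCommutative ↥B → Nat.card ↥A = Nat.card ↥B → ∃ g : G, B = A.map (MulAut.conj g).toMonoidHom) (hnil : Group.IsNilpotent G) : IsCyclic G := by
  classical
  haveI := hnil
  have hZ : IsZGroup G := by
    rw [isZGroup_iff]
    intro p hp P
    haveI := Fact.mk hp
    haveI hPn : (P : Subgroup G).Normal := (H1.isNilpotent_iff_sylow_normal.mp hnil) p ⟨hp⟩ P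
    have htop : centralizer ((P : Subgroup G) : Set G) ⊔ (P : Subgroup G) = ⊤ := by
      rw [eq_top_iff]
      apply H23.le_of_forall_isSylowOf_le
      intro q hq
      by_cases hpq : p = q
      · subst hpq
        refine ⟨P, ⟨(P.subtype (le_top : (P : Subgroup G) ≤ ⊤)), ?_⟩, le_sup_right⟩
        exact map_subgroupOf_eq_of_le le_top
      · obtain ⟨Q, hQ⟩ := H23.exists_isSylowOf q (⊤ : Subgroup G)
        refine ⟨Q, hQ, le_trans ?_ le_sup_left⟩
        intro y hy
        rw [mem_centralizer_iff]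
        intro x hx
        exact (H23.commute_of_isNilpotent hnil hpq (H23.isPGroup_zpowers_of_mem P.isPGroup' hx)
          (H23.isPGroup_zpowers_of_mem hQ.isPGroup hy)).eq
    apply pgroup_case P.isPGroup'
    intro A B hA hB' hAB
    obtain ⟨g, hg⟩ := hB (A.map (P : Subgroup G).subtype) (B.map (P : Subgroup G).subtype) inferInstance inferInstance
      (by rw [H1.card_map_subtype, H1.card_map_subtype, hAB])
    obtain ⟨c, hc, y, hy, rfl⟩ := H4.exists_mul_of_mem_sup_normal (A := centralizer ((P : Subgroup G) : Set G)) (B := (P : Subgroup G))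
      (by rw [htop]; exact mem_top g)
    refine ⟨⟨y, hy⟩, ?_⟩
    apply Subgroup.map_injective (P : Subgroup G).subtype_injective
    rw [hg]
    ext z
    simp only [Subgroup.mem_map]
    constructor
    · rintro ⟨w, ⟨w', hw', rfl⟩, rfl⟩
      refine ⟨⟨y, hy⟩ * w' * ⟨y, hy⟩⁻¹, ⟨w', hw', rfl⟩, ?_⟩
      have h1 := mem_centralizer_iff.mp hc (y * (w' : G) * y⁻¹) (mul_mem (mul_mem hy w'.2) (inv_mem hy))
      simp only [subtype_apply, MulEquiv.coe_toMonoidHom, MulAut.conj_apply, coe_mul, coe_inv, mul_inv_rev]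
      calc y * (w' : G) * y⁻¹ = (y * w' * y⁻¹) * c * c⁻¹ := by group
        _ = c * (y * w' * y⁻¹) * c⁻¹ := by rw [h1]
        _ = _ := by group
    · rintro ⟨w, ⟨w', hw', rfl⟩, rfl⟩
      refine ⟨w', ⟨w', hw', rfl⟩, ?_⟩
      have h1 := mem_centralizer_iff.mp hc (y * (w' : G) * y⁻¹) (mul_mem (mul_mem hy w'.2) (inv_mem hy))
      simp only [subtype_apply, MulEquiv.coe_toMonoidHom, MulAut.conj_apply, coe_mul, coe_inv, mul_inv_rev]
      symm
      calc y * (w' : G) * y⁻¹ = (y * w' * y⁻¹) * c * c⁻¹ := by group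
        _ = c * (y * w' * y⁻¹) * c⁻¹ := by rw [h1]
        _ = _ := by group
  infer_instance
end aux

/-- A finite nilpotent group in which any two abelian subgroups of the same order are conjugate is cyclic. -/
theorem result {G : Type*} [Group G] [Finite G] (hB : ∀ A B : Subgroup G, IsMulCommutative ↥A → IsMulCommutative ↥B → Nat.card ↥A = Nat.card ↥B → ∃ g : G, B = A.map (MulAut.conj g).toMonoidHom) (hnil : Group.IsNilpotent G) : IsCyclic G := by
  exact aux hB hnil

end Cfsg.Agent.S3910
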