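import Cfsg.Statements.S3915
import Cfsg.Agent.FT
import Cfsg.Agent.H10.CompConj

set_option autoImplicit false
open Cfsg

namespace Cfsg.Agent.S3915

open scoped commutatorElement

theorem center_solv (X : Type*) [Group X] : Group.IsSolvable (Subgroup.center X) :=
  letI : CommGroup (Subgroup.center X) := { (inferInstance : Group (Subgroup.center X)) with
    mul_comm := fun a b => Subtype.ext ((Subgroup.mem_center_iff.1 b.2) a) }
  inferInstance

open Subgroup in
theorem exists_noncentral {X : Type*} [Group X] [Finite X] (h : IsQuasisimple X) :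
    ∃ x : X, (∃ k : ℕ, orderOf x = 2 ^ k) ∧ x ∉ center X := by
  by_contra hcon
  push Not at hcon
  haveI : Fact (Nat.Prime 2) := ⟨Nat.prime_two⟩
  obtain ⟨P⟩ : Nonempty (Sylow 2 X) := inferInstance
  have hP : (P : Subgroup X) ≤ center X := by
    intro x hx
    apply hcon x
    obtain ⟨k, hk⟩ := P.2 ⟨x, hx⟩
    have h1 : x ^ 2 ^ k = 1 := by
      have := congrArg Subtype.val hk
      simpa using this
    obtain ⟨j, _, hj⟩ := (Nat.dvd_prime_pow Nat.prime_two).1 (orderOf_dvd_of_pow_eq_one h1)
    exact ⟨j, hj⟩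
  have hodd : Odd (Nat.card (X ⧸ center X)) := by
    rw [← Nat.not_even_iff_odd, even_iff_two_dvd]
    intro h2
    have h3 : (center X).index ∣ (P : Subgroup X).index := index_dvd_of_le hP
    exact P.not_dvd_index (dvd_trans h2 h3)
  have hs := FT.odd_order hodd
  apply H10.qs_not_solvable h
  haveI := center_solv X
  exact Group.isSolvable_of_ker_le_range (center X).subtype (QuotientGroup.mk' (center X))
    (by rw [QuotientGroup.ker_mk', range_subtype])

open Subgroup in
theorem aux {G : Type*} [Group G] [Finite G]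
    (hP : ∀ (p : ℕ), p.Prime → ∀ A B : Subgroup G, IsCyclic ↥A → IsCyclic ↥B → IsPGroup p ↥A →
      Nat.card ↥A = Nat.card ↥B → ∃ g : G, B = A.map (MulAut.conj g).toMonoidHom)
    {K L : Subgroup G} (hK : IsComponent K) (hL : IsComponent L) (hne : K ≠ L) {x y : G}
    (hx : x ∈ K) (hy : y ∈ L) (hxc : ¬ ∀ k ∈ K, x * k = k * x) (hyc : ¬ ∀ k ∈ L, y * k = k * y)
    (hx2 : ∃ k : ℕ, orderOf x = 2 ^ k) (hd : orderOf y ∣ orderOf x) : False := by
  have hcomm : ∀ {K' L' : Subgroup G}, IsComponent K' → IsComponent L' → K' ≠ L' →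
      ∀ a ∈ K', ∀ b ∈ L', a * b = b * a := by
    intro K' L' h1 h2 h3 a ha b hb
    have h4 : ⁅a, b⁆ ∈ ⁅K', L'⁆ := commutator_mem_commutator ha hb
    rw [H10.comp_commutes h1 h2 h3, mem_bot] at h4
    exact (commutatorElement_eq_one_iff_mul_comm).1 h4
  have hxy : Commute x y := hcomm hK hL hne x hx y hy
  have hz : orderOf (x * y) ∣ orderOf x := by
    apply orderOf_dvd_of_pow_eq_one
    rw [hxy.mul_pow, pow_orderOf_eq_one, one_mul]
    exact orderOf_dvd_iff_pow_eq_one.1 hd
  obtain ⟨a, ha⟩ : ∃ a, a = x ^ (orderOf x / orderOf (x * y)) := ⟨_, rfl⟩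
  have hao : orderOf a = orderOf (x * y) := by
    rw [ha]; exact orderOf_pow_orderOf_div (orderOf_pos x).ne' hz
  obtain ⟨k, hk⟩ := hx2
  have ha2 : IsPGroup 2 (zpowers a) := by
    haveI : Fact (Nat.Prime 2) := ⟨Nat.prime_two⟩
    obtain ⟨j, _, hj⟩ := (Nat.dvd_prime_pow Nat.prime_two).1 (hk ▸ hz)
    apply IsPGroup.of_card (n := j)
    rw [Nat.card_zpowers, hao, hj]
  obtain ⟨g, hg⟩ := hP 2 Nat.prime_two (zpowers a) (zpowers (x * y)) inferInstance inferInstance ha2
    (by rw [Nat.card_zpowers, Nat.card_zpowers, hao])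
  -- z centralises every component other than K^g
  have key : ∀ M : Subgroup G, IsComponent M → M ≠ K.map (MulAut.conj g).toMonoidHom →
      ∀ m ∈ M, (x * y) * m = m * (x * y) := by
    intro M hM hMne m hm
    have hzg : x * y ∈ (zpowers a).map (MulAut.conj g).toMonoidHom := by
      rw [← hg]; exact mem_zpowers _
    obtain ⟨a', ha', hza⟩ := mem_map.1 hzg
    have hza' : g * a' * g⁻¹ = x * y := by simpa using hza
    have hM' : IsComponent (M.map (MulAut.conj g⁻¹).toMonoidHom) :=
      H10.component_map_equiv (MulAut.conj g⁻¹) hM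
    have hne' : K ≠ M.map (MulAut.conj g⁻¹).toMonoidHom := by
      intro h1
      apply hMne
      rw [h1, map_map]
      have h2 : ((MulAut.conj g).toMonoidHom.comp (MulAut.conj g⁻¹).toMonoidHom) = MonoidHom.id G := by
        ext t
        simp [mul_assoc]
      rw [h2, map_id]
    have ha'K : a' ∈ K := by
      have h1 : zpowers a ≤ K := by
        rw [zpowers_le, ha]
        exact K.pow_mem hx _
      exact h1 ha'
    have hm' : g⁻¹ * m * g ∈ M.map (MulAut.conj g⁻¹).toMonoidHom :=
      mem_map.2 ⟨m, hm, by simp⟩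
    have h3 := hcomm hK hM' hne' a' ha'K _ hm'
    have h4 : g * (a' * (g⁻¹ * m * g)) * g⁻¹ = g * ((g⁻¹ * m * g) * a') * g⁻¹ := by rw [h3]
    rw [← hza']
    calc g * a' * g⁻¹ * m = g * (a' * (g⁻¹ * m * g)) * g⁻¹ := by group
      _ = g * ((g⁻¹ * m * g) * a') * g⁻¹ := h4
      _ = m * (g * a' * g⁻¹) := by group
  by_cases h : K = K.map (MulAut.conj g).toMonoidHom
  · apply hyc
    intro m hm
    have h1 := key L hL (by rw [← h]; exact hne.symm) m hm
    have h2 := hcomm hK hL hne x hx m hm
    have h3 : x * (y * m) = x * (m * y) := by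
      calc x * (y * m) = x * y * m := by group
        _ = m * (x * y) := h1
        _ = (m * x) * y := by group
        _ = (x * m) * y := by rw [h2]
        _ = x * (m * y) := by group
    exact mul_left_cancel h3
  · apply hxc
    intro m hm
    have h1 := key K hK h m hm
    have h2 := hcomm hL hK (Ne.symm hne) y hy m hm
    have h3 : (x * m) * y = (m * x) * y := by
      calc (x * m) * y = x * (m * y) := by group
        _ = x * (y * m) := by rw [h2]
        _ = x * y * m := by group
        _ = m * (x * y) := h1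
        _ = (m * x) * y := by group
    exact mul_right_cancel h3

/-- Let G be a finite group in which, for every prime p, any two cyclic p-subgroups of the same order are conjugate. If the layer E(G), the subgroup generated by the components of G, is non-trivial, then E(G)/Z(E(G)) is a non-abelian simple group. -/
theorem result {G : Type*} [Group G] [Finite G] (hP : ∀ (p : ℕ), p.Prime → ∀ A B : Subgroup G, IsCyclic ↥A → IsCyclic ↥B → IsPGroup p ↥A → Nat.card ↥A = Nat.card ↥B → ∃ g : G, B = A.map (MulAut.conj g).toMonoidHom) (hE : Cfsg.layer G ≠ ⊥) :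
    IsSimpleGroup (↥(Cfsg.layer G) ⧸ Subgroup.center ↥(Cfsg.layer G)) ∧ ¬ IsMulCommutative (↥(Cfsg.layer G) ⧸ Subgroup.center ↥(Cfsg.layer G)) := by
  classical
  obtain ⟨K, hK⟩ : ∃ K : Subgroup G, IsComponent K := by
    by_contra hcon
    push Not at hcon
    exact hE (H10.layer_eq_bot_iff.2 hcon)
  have hnc : ∀ {K : Subgroup G}, IsComponent K → ∃ x ∈ K, (∃ k : ℕ, orderOf x = 2 ^ k) ∧
      ¬ ∀ k ∈ K, x * k = k * x := by
    intro K hK
    obtain ⟨x, ⟨k, hk⟩, hx⟩ := exists_noncentral hK.2
    refine ⟨x, x.2, ⟨k, by rw [← hk]; exact Subgroup.orderOf_coe x⟩, ?_⟩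
    intro h
    apply hx
    rw [Subgroup.mem_center_iff]
    intro y
    exact Subtype.ext (h y y.2).symm
  have huniq : ∀ L : Subgroup G, IsComponent L → L = K := by
    intro L hL
    by_contra hne
    obtain ⟨x, hx, ⟨k, hk⟩, hxc⟩ := hnc hK
    obtain ⟨y, hy, ⟨l, hl⟩, hyc⟩ := hnc hL
    rcases le_total l k with h | h
    · exact aux hP hK hL (Ne.symm hne) hx hy hxc hyc ⟨k, hk⟩ (by rw [hk, hl]; exact pow_dvd_pow 2 h)
    · exact aux hP hL hK hne hy hx hyc hxc ⟨l, hl⟩ (by rw [hk, hl]; exact pow_dvd_pow 2 h)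
  have hlay : layer G = K := by
    apply le_antisymm
    · exact sSup_le (fun L hL => (huniq L hL).le)
    · exact H10.le_layer hK
  have key : ∀ E : Subgroup G, E = K → IsSimpleGroup (↥E ⧸ Subgroup.center ↥E) ∧
      ¬ IsMulCommutative (↥E ⧸ Subgroup.center ↥E) := by
    intro E hEK
    subst hEK
    refine ⟨hK.2.2, ?_⟩
    intro hc
    apply H10.qs_not_solvable hK.2
    haveI := center_solv E
    haveI : Group.IsSolvable (↥E ⧸ Subgroup.center ↥E) := by
      letI : CommGroup (↥E ⧸ Subgroup.center ↥E) :=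
        { (inferInstance : Group (↥E ⧸ Subgroup.center ↥E)) with mul_comm := hc.is_comm.comm }
      infer_instance
    exact Group.isSolvable_of_ker_le_range (Subgroup.center E).subtype
      (QuotientGroup.mk' (Subgroup.center E)) (by rw [QuotientGroup.ker_mk', Subgroup.range_subtype])
  exact key _ hlay

end Cfsg.Agent.S3915
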