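import Cfsg.Statements.S3917
import Cfsg.Agent.H1.Basic
import Cfsg.Agent.H23.PGroup

set_option autoImplicit false
set_option linter.all false
open Cfsg

namespace Cfsg.Agent.S3917

section aux
open Subgroup
open scoped Pointwise

theorem exists_two {G : Type*} [CommGroup G] [Finite G] {p : ℕ} [Fact p.Prime] (hP : IsPGroup p G)
    (hnc : ¬ IsCyclic G) : ∃ x y : G, orderOf x = p ∧ orderOf y = p ∧ y ∉ zpowers x := by
  have hpp := (Fact.out : p.Prime)
  obtain ⟨x, hx⟩ := Monoid.exists_orderOf_eq_exponent (G := G) Monoid.ExponentExists.of_finite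
  obtain ⟨e, he⟩ := IsPGroup.iff_orderOf.mp hP x
  have hlt : zpowers x < ⊤ := by
    refine lt_top_iff_ne_top.mpr fun h => hnc ?_
    exact ⟨x, fun y => show y ∈ zpowers x by rw [h]; exact mem_top y⟩
  obtain ⟨y, -, hy, hyp, -⟩ := H23.exists_central_mod hP hlt
  have he0 : e ≠ 0 := by
    rintro rfl
    rw [pow_zero] at he
    apply hnc
    have : ∀ a : G, a = 1 := by
      intro a
      have h1 := Monoid.order_dvd_exponent a
      rw [← hx, he, Nat.dvd_one, orderOf_eq_one_iff] at h1
      exact h1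
    exact ⟨1, fun a => show a ∈ zpowers 1 by rw [this a]; exact one_mem _⟩
  obtain ⟨f, rfl⟩ := Nat.exists_eq_succ_of_ne_zero he0
  rw [← mem_powers_iff_mem_zpowers] at hyp
  obtain ⟨k, hk⟩ := hyp
  simp only at hk
  have h1 : y ^ (p ^ (f + 1)) = 1 := by rw [← he, hx]; exact Monoid.pow_exponent_eq_one y
  have h2 : x ^ (k * p ^ f) = 1 := by
    rw [pow_mul, hk, ← pow_mul, ← pow_succ']; exact h1
  have h3 := orderOf_dvd_of_pow_eq_one h2
  rw [he, Nat.succ_eq_add_one, pow_succ, mul_comm] at h3
  have h4 : p ∣ k := Nat.dvd_of_mul_dvd_mul_right (pow_pos hpp.pos f) h3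
  obtain ⟨j, rfl⟩ := h4
  refine ⟨x ^ (p ^ f), y * (x ^ j)⁻¹, ?_, ?_, ?_⟩
  · rw [orderOf_pow_of_dvd (pow_pos hpp.pos _).ne' (by rw [he]; exact pow_dvd_pow p (Nat.le_succ f)), he,
      Nat.succ_eq_add_one, pow_succ, Nat.mul_div_cancel_left _ (pow_pos hpp.pos _)]
  · apply orderOf_eq_prime
    · rw [mul_pow, inv_pow, ← pow_mul, mul_comm j p, hk, mul_inv_cancel]
    · intro h
      apply hy
      rw [mul_inv_eq_one] at h
      rw [h]; exact pow_mem (mem_zpowers x) j
  · intro h
    apply hy
    have h5 : y * (x ^ j)⁻¹ ∈ zpowers x := (zpowers_le.mpr (pow_mem (mem_zpowers x) _)) h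
    exact (mul_mem_cancel_right (inv_mem (pow_mem (mem_zpowers x) _))).mp h5

theorem aux {G : Type*} [CommGroup G] [Finite G] (hX : (∀ H : Subgroup G, ¬ IsCyclic ↥H → Subgroup.centralizer (H : Set G) ≤ H)) :
    IsCyclic G ∨ ∃ p : ℕ, p.Prime ∧ Nat.card G = p ^ 2 ∧ Monoid.exponent G = p := by
  classical
  by_cases hc : IsCyclic G
  · exact Or.inl hc
  right
  have htop : ∀ H : Subgroup G, ¬ IsCyclic H → H = ⊤ := by
    intro H hH
    rw [eq_top_iff]
    refine le_trans ?_ (hX H hH)
    intro x _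
    rw [mem_centralizer_iff]
    intro y _
    exact mul_comm y x
  have hnz : ¬ IsZGroup G := fun h => hc inferInstance
  rw [isZGroup_iff] at hnz
  push Not at hnz
  obtain ⟨p, hp, P, hPc⟩ := hnz
  haveI := Fact.mk hp
  have hPt := htop _ hPc
  have hG : IsPGroup p G := by
    have := P.isPGroup'
    rw [hPt] at this
    exact this.of_equiv topEquiv
  refine ⟨p, hp, ?_⟩
  obtain ⟨x, y, hx, hy, hxy⟩ := exists_two hG hc
  have hK : ∀ H : Subgroup G, (∀ a ∈ H, a ^ p = 1) → p < Nat.card H → H = ⊤ := by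
    intro H hH hlt
    apply htop
    intro hcyc
    obtain ⟨g, hg⟩ := hcyc.exists_generator
    have h1 : orderOf g = Nat.card H := orderOf_eq_card_of_forall_mem_zpowers hg
    have h2 : orderOf g ∣ p := orderOf_dvd_of_pow_eq_one (Subtype.ext (hH g g.2))
    have := Nat.le_of_dvd hp.pos h2
    omega
  have hlt : p < Nat.card ((powMonoidHom p : G →* G).ker) := by
    have h1 : zpowers x < (powMonoidHom p : G →* G).ker := by
      refine lt_of_le_of_ne (zpowers_le.mpr ?_) ?_
      · rw [MonoidHom.mem_ker, powMonoidHom_apply, ← hx, pow_orderOf_eq_one]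
      · intro h
        apply hxy
        rw [h, MonoidHom.mem_ker, powMonoidHom_apply, ← hy, pow_orderOf_eq_one]
    have h2 := H1.card_lt_of_lt' h1
    rwa [Nat.card_zpowers, hx] at h2
  have h3 := hK _ (fun a ha => by simpa [MonoidHom.mem_ker] using ha) hlt
  have hexp : ∀ a : G, a ^ p = 1 := by
    intro a
    have : a ∈ (powMonoidHom p : G →* G).ker := by rw [h3]; exact mem_top a
    simpa [MonoidHom.mem_ker] using this
  constructor
  · rw [h3] at hlt
    obtain ⟨n, hn⟩ := IsPGroup.iff_card.mp hG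
    rw [card_top, hn] at hlt
    have hn2 : 2 ≤ n := by
      by_contra h
      have : n = 0 ∨ n = 1 := by omega
      rcases this with rfl | rfl
      · rw [pow_zero] at hlt; have := hp.pos; omega
      · rw [pow_one] at hlt; omega
    obtain ⟨T, hT⟩ := Sylow.exists_subgroup_card_pow_prime (G := G) p (n := 2) (by rw [hn]; exact pow_dvd_pow p hn2)
    have h4 := hK T (fun a _ => hexp a) (by rw [hT, pow_two]; nlinarith [hp.one_lt])
    rw [h4, card_top] at hT
    exact hT
  · have h5 : Monoid.exponent G ∣ p := Monoid.exponent_dvd_of_forall_pow_eq_one hexp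
    rcases (Nat.dvd_prime hp).mp h5 with h6 | h6
    · exfalso
      have h7 := Monoid.order_dvd_exponent x
      rw [h6, Nat.dvd_one, hx] at h7
      exact hp.one_lt.ne' h7
    · exact h6
end aux

/-- Say that a group has self-centralizing non-cyclic subgroups when every non-cyclic subgroup H satisfies C_G(H) ≤ H. A finite abelian group with self-centralizing non-cyclic subgroups is cyclic or elementary abelian of order p² for a prime p. -/
theorem result {G : Type*} [CommGroup G] [Finite G] (hX : (∀ H : Subgroup G, ¬ IsCyclic ↥H → Subgroup.centralizer (H : Set G) ≤ H)) :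
    IsCyclic G ∨ ∃ p : ℕ, p.Prime ∧ Nat.card G = p ^ 2 ∧ Monoid.exponent G = p := by
  exact aux hX

end Cfsg.Agent.S3917
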