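import Cfsg.Statements.S3918
import Cfsg.Agent.H23.RankOne2

set_option autoImplicit false
set_option linter.all false
open Cfsg

namespace Cfsg.Agent.S3918

section aux
open Subgroup
open scoped commutatorElement
theorem aux {G : Type*} [Group G] [Finite G] {p : ℕ} [Fact p.Prime] (hp : p ≠ 2) (hG : IsPGroup p G) (hna : ¬ IsMulCommutative G) :
    (∀ H : Subgroup G, ¬ IsCyclic ↥H → Subgroup.centralizer (H : Set G) ≤ H) ↔ Nat.card G = p ^ 3 := by
  have hpp := (Fact.out : p.Prime)
  constructor
  · intro h
    have hnc : ¬ IsCyclic G := fun hc => hna IsCyclic.commutative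
    obtain ⟨E, hEn, hEc, hEp⟩ := H23.exists_normal_sq_of_odd hG hp hnc
    have hEnc := H23.not_isCyclic_of_exponent (p := p) (E := E) (by rw [hEc]; nlinarith [hpp.one_lt]) hEp
    have h1 := H23.card_le_of_normal_sq hG hEc (h E hEnc)
    obtain ⟨n, hn⟩ := IsPGroup.iff_card.mp hG
    have h2 : ¬ Nat.card G ≤ p ^ 2 := fun h' => hna (H23.isMulCommutative_of_card_le_sq hG h')
    rw [hn] at h1 h2 ⊢
    have h3 : n ≤ 3 := (Nat.pow_le_pow_iff_right hpp.one_lt).mp h1
    have h4 : ¬ n ≤ 2 := fun h' => h2 (Nat.pow_le_pow_right hpp.pos h')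
    have : n = 3 := by omega
    rw [this]
  · intro hc H hH
    by_cases htop : H = ⊤
    · rw [htop]; exact le_top
    obtain ⟨k, hk⟩ := IsPGroup.iff_card.mp (hG.to_subgroup H)
    have hlt : Nat.card H < Nat.card G := by
      have := H1.card_lt_of_lt' (lt_top_iff_ne_top.mpr htop)
      rwa [card_top] at this
    have hk2 : k = 2 := by
      rw [hk, hc] at hlt
      have h1 : k < 3 := (Nat.pow_lt_pow_iff_right hpp.one_lt).mp hlt
      have h2 : k ≠ 0 := by
        rintro rfl
        rw [pow_zero] at hk
        apply hH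
        haveI : Subsingleton H := (Nat.card_eq_one_iff_unique.mp hk).1
        exact isCyclic_of_subsingleton
      have h3 : k ≠ 1 := by
        rintro rfl
        rw [pow_one] at hk
        exact hH (isCyclic_of_prime_card hk)
      omega
    subst hk2
    have hi : H.index = p := by
      have h1 := card_mul_index H
      rw [hk, hc, pow_succ p 2] at h1
      exact Nat.eq_of_mul_eq_mul_left (pow_pos hpp.pos 2) h1
    have hHc : H ≤ centralizer (H : Set G) := by
      intro a ha
      rw [mem_centralizer_iff]
      intro b hb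
      exact H23.comm_of_card_sq hk b hb a ha
    by_contra hne
    have hlt' : H < centralizer (H : Set G) := lt_of_le_of_ne hHc (fun h => hne h.ge)
    have h1 := H23.eq_top_of_lt_of_index_prime hi hlt'
    have h2 := H23.isMulCommutative_of_relIndex_le (p := p) (K := H) (D := ⊤) (hG.to_subgroup ⊤) le_top
      h1.ge (by rw [relIndex_top_right, hi])
    apply hna
    refine ⟨⟨fun a b => ?_⟩⟩
    have h0 := congrArg Subtype.val (h2.is_comm.comm ⟨a, mem_top a⟩ ⟨b, mem_top b⟩)
    exact h0
end aux

/-- Say that a group has self-centralizing non-cyclic subgroups when every non-cyclic subgroup H satisfies C_G(H) ≤ H. For an odd prime p, a finite non-abelian p-group has self-centralizing non-cyclic subgroups if and only if it has order p³. -/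
theorem result {G : Type*} [Group G] [Finite G] {p : ℕ} [Fact p.Prime] (hp : p ≠ 2) (hG : IsPGroup p G) (hna : ¬ IsMulCommutative G) :
    (∀ H : Subgroup G, ¬ IsCyclic ↥H → Subgroup.centralizer (H : Set G) ≤ H) ↔ Nat.card G = p ^ 3 := by
  exact aux hp hG hna

end Cfsg.Agent.S3918
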