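import Cfsg.Statements.S3919
import Cfsg.Agent.H23.MaxClass4

set_option autoImplicit false
set_option linter.all false
open Cfsg

namespace Cfsg.Agent.S3919

section aux
open Subgroup
open scoped commutatorElement
theorem aux {G : Type*} [Group G] [Finite G] (hna : ¬ IsMulCommutative G) (n : ℕ) (hG : Nat.card G = 2 ^ n) :
    (∀ H : Subgroup G, ¬ IsCyclic ↥H → Subgroup.centralizer (H : Set G) ≤ H) ↔ (⊤ : Subgroup G).lowerCentralSeries (n - 2) ≠ ⊥ := by
  haveI : Fact (Nat.Prime 2) := ⟨Nat.prime_two⟩
  have hG' : IsPGroup 2 G := IsPGroup.of_card hG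
  haveI := hG'.isNilpotent
  have hn : 3 ≤ n := by
    by_contra h
    apply hna
    apply H23.isMulCommutative_of_card_le_sq hG'
    rw [hG]
    exact Nat.pow_le_pow_right (by norm_num) (by omega)
  obtain ⟨m, rfl⟩ : ∃ m, n = m + 2 := ⟨n - 2, by omega⟩
  have h2 : m + 2 - 2 = m := rfl
  rw [h2]
  constructor
  · intro h
    by_cases hE : ∃ E : Subgroup G, E.Normal ∧ Nat.card E = 2 ^ 2 ∧ ∀ a ∈ E, a ^ 2 = 1
    · obtain ⟨E, hEn, hEc, hEp⟩ := hE
      have hEnc := H23.not_isCyclic_of_exponent (p := 2) (E := E) (by rw [hEc]; norm_num) hEp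
      have h1 := H23.card_le_of_normal_sq hG' hEc (h E hEnc)
      rw [hG] at h1
      have h3 : m + 2 ≤ 3 := (Nat.pow_le_pow_iff_right (by norm_num)).mp h1
      have : m = 1 := by omega
      subst this
      intro hbot
      rw [Subgroup.top_lowerCentralSeries_one] at hbot
      apply hna
      refine ⟨⟨fun a b => ?_⟩⟩
      have h4 : ⁅a, b⁆ ∈ commutator G := by
        rw [_root_.commutator_def]; exact commutator_mem_commutator (mem_top a) (mem_top b)
      rw [hbot, mem_bot, commutatorElement_eq_one_iff_commute] at h4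
      exact h4
    · push Not at hE
      rcases H23.cyclic_or_dqs hG' (fun E h1 h2 h3 => by
        obtain ⟨a, ha, ha'⟩ := hE E h1 h2
        exact ha' (h3 a ha)) with h1 | ⟨-, k, hk⟩
      · exact absurd IsCyclic.commutative hna
      · have h3 := hk.card
        rw [hG] at h3
        have h4 : m + 2 = k + 2 := Nat.pow_right_injective le_rfl h3
        have h5 := hk.nilpotencyClass
        intro hbot
        rw [Subgroup.lowerCentralSeries_eq_bot_iff_nilpotencyClass_le] at hbot
        omega
  · intro h H hH
    exact (H23.dqs_of_lcs hG hna h).centralizer_le hH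
end aux

/-- Say that a group has self-centralizing non-cyclic subgroups when every non-cyclic subgroup H satisfies C_G(H) ≤ H. A finite non-abelian 2-group G of order 2^n has self-centralizing non-cyclic subgroups if and only if G has nilpotency class n − 1 (that is, G is dihedral, semidihedral or generalized quaternion). -/
theorem result {G : Type*} [Group G] [Finite G] (hna : ¬ IsMulCommutative G) (n : ℕ) (hG : Nat.card G = 2 ^ n) :
    (∀ H : Subgroup G, ¬ IsCyclic ↥H → Subgroup.centralizer (H : Set G) ≤ H) ↔ (⊤ : Subgroup G).lowerCentralSeries (n - 2) ≠ ⊥ := by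
  exact aux hna n hG

end Cfsg.Agent.S3919
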