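import Cfsg.Statements.S3920

set_option autoImplicit false
set_option linter.all false
open Cfsg

namespace Cfsg.Agent.S3920

open DihedralGroup Subgroup

theorem cyc_of_no_sr {n : ℕ} [NeZero n] {H : Subgroup (DihedralGroup n)} (h : ∀ i, sr i ∉ H) : IsCyclic H := by
  have h1 : H ≤ zpowers (r 1 : DihedralGroup n) := by
    intro x hx
    rcases x with i | i
    · rw [mem_zpowers_iff]
      refine ⟨(i.val : ℤ), ?_⟩
      rw [zpow_natCast, r_one_pow, ZMod.natCast_zmod_val]
    · exact absurd hx (h i)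
  exact isCyclic_of_injective (Subgroup.inclusion h1) (Subgroup.inclusion_injective _)

theorem cyc_of_no_r {n : ℕ} {H : Subgroup (DihedralGroup n)} {j : ZMod n} (hj : sr j ∈ H)
    (h : ∀ i, r i ∈ H → i = 0) : IsCyclic H := by
  refine ⟨⟨⟨sr j, hj⟩, ?_⟩⟩
  rintro ⟨x, hx⟩
  show ∃ a : ℤ, (⟨sr j, hj⟩ : H) ^ a = ⟨x, hx⟩
  rcases x with i | i
  · refine ⟨0, ?_⟩
    have := h i hx
    subst this
    rw [zpow_zero]; rfl
  · refine ⟨1, ?_⟩
    have h1 : r (i - j) ∈ H := by
      have := mul_mem hj hx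
      rwa [sr_mul_sr] at this
    have h2 := h _ h1
    have h3 : i = j := sub_eq_zero.1 h2
    subst h3
    rw [zpow_one]

theorem comm_r_sr {n : ℕ} {i j : ZMod n} (h : r i * sr j = sr j * r i) : 2 * i = 0 := by
  rw [r_mul_sr, sr_mul_r] at h
  have h1 : j - i = j + i := by injection h
  have h2 : j - i = j + i := h1
  have h3 : (j + i) - (j - i) = 0 := by rw [h2]; ring
  have h4 : (j + i) - (j - i) = 2 * i := by ring
  rw [← h4, h3]

/-- Say that a group has self-centralizing non-cyclic subgroups when every non-cyclic subgroup H satisfies C_G(H) ≤ H. For n ≥ 3, the dihedral group of order 2n has self-centralizing non-cyclic subgroups if and only if n is odd or a power of 2. -/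
theorem result (n : ℕ) (hn : 3 ≤ n) : (∀ H : Subgroup (DihedralGroup n), ¬ IsCyclic ↥H → Subgroup.centralizer (H : Set (DihedralGroup n)) ≤ H) ↔ (Odd n ∨ ∃ k : ℕ, n = 2 ^ k) := by
  haveI : NeZero n := ⟨by omega⟩
  have hdata : ∀ H : Subgroup (DihedralGroup n), ¬ IsCyclic ↥H → (∃ j, sr j ∈ H) ∧ ∃ i, r i ∈ H ∧ i ≠ 0 := by
    intro H hH
    have h1 : ∃ j, sr j ∈ H := by
      by_contra hcon
      push Not at hcon
      exact hH (cyc_of_no_sr hcon)
    refine ⟨h1, ?_⟩
    obtain ⟨j, hj⟩ := h1
    by_contra hcon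
    push Not at hcon
    exact hH (cyc_of_no_r hj hcon)
  constructor
  · intro h
    by_contra hcon
    push Not at hcon
    obtain ⟨h1, h2⟩ := hcon
    obtain ⟨a, m, hm, hnm⟩ := Nat.exists_eq_two_pow_mul_odd (n := n) (by omega)
    have ha : a ≠ 0 := by
      rintro rfl
      rw [pow_zero, one_mul] at hnm
      exact h1 (hnm ▸ hm)
    obtain ⟨b, rfl⟩ := Nat.exists_eq_succ_of_ne_zero ha
    have hm1 : m ≠ 1 := by
      rintro rfl
      exact h2 _ (by rw [hnm, mul_one])
    have hm2 : ¬ m ∣ 2 := by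
      intro h3
      rcases (Nat.dvd_prime Nat.prime_two).1 h3 with h4 | h4
      · exact hm1 h4
      · rw [h4] at hm; exact absurd hm (by decide)
    let t : ZMod n := ((2 ^ (b + 1) : ℕ) : ZMod n)
    let H : Subgroup (DihedralGroup n) :=
      { carrier := {x | ∃ i : ZMod n, x = r (t * i) ∨ x = sr (t * i)}
        one_mem' := ⟨0, Or.inl (by rw [mul_zero]; rfl)⟩
        mul_mem' := by
          rintro _ _ ⟨i, rfl | rfl⟩ ⟨j, rfl | rfl⟩
          · exact ⟨i + j, Or.inl (by rw [r_mul_r, mul_add])⟩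
          · exact ⟨j - i, Or.inr (by rw [r_mul_sr, mul_sub])⟩
          · exact ⟨i + j, Or.inr (by rw [sr_mul_r, mul_add])⟩
          · exact ⟨j - i, Or.inl (by rw [sr_mul_sr, mul_sub])⟩
        inv_mem' := by
          rintro _ ⟨i, rfl | rfl⟩
          · exact ⟨-i, Or.inl (by rw [inv_r, mul_neg])⟩
          · exact ⟨i, Or.inr (by rw [inv_sr])⟩ }
    have hmemH : ∀ x, x ∈ H ↔ ∃ i : ZMod n, x = r (t * i) ∨ x = sr (t * i) := fun x => Iff.rfl
    have hHc : ¬ IsCyclic H := by
      intro hc
      have hr : r (t * 1) ∈ H := ⟨1, Or.inl rfl⟩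
      have hs : sr (t * 0) ∈ H := ⟨0, Or.inr rfl⟩
      have h3 : (⟨_, hr⟩ : H) * ⟨_, hs⟩ = ⟨_, hs⟩ * ⟨_, hr⟩ := by
        letI := hc.commGroup
        exact mul_comm _ _
      have h4 := comm_r_sr (congrArg Subtype.val h3)
      rw [mul_one] at h4
      have h5 : ((2 * 2 ^ (b + 1) : ℕ) : ZMod n) = 0 := by
        push_cast
        have : (2 : ZMod n) * t = 0 := h4
        simpa [t] using this
      rw [ZMod.natCast_eq_zero_iff] at h5
      rw [hnm, mul_comm 2] at h5
      exact hm2 (Nat.dvd_of_mul_dvd_mul_left (by positivity) h5)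
    have hz : r (((2 ^ b * m : ℕ) : ZMod n)) ∈ centralizer (H : Set (DihedralGroup n)) := by
      have h2z : ((2 ^ b * m : ℕ) : ZMod n) + ((2 ^ b * m : ℕ) : ZMod n) = 0 := by
        rw [← Nat.cast_add]
        rw [ZMod.natCast_eq_zero_iff]
        rw [hnm]
        exact ⟨1, by rw [Nat.succ_eq_add_one, pow_succ]; ring⟩
      rw [mem_centralizer_iff]
      intro x hx
      rcases x with i | i
      · rw [r_mul_r, r_mul_r, add_comm]
      · rw [sr_mul_r, r_mul_sr]
        congr 1
        rw [eq_sub_iff_add_eq, add_assoc, h2z, add_zero]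
    have h3 := h H hHc hz
    rw [hmemH] at h3
    obtain ⟨i, h4 | h4⟩ := h3
    · have h5 : ((2 ^ b * m : ℕ) : ZMod n) = t * i := by injection h4
      have h6 : ((2 ^ b * m : ℕ) : ZMod n) = ((2 ^ (b + 1) * i.val : ℕ) : ZMod n) := by
        rw [h5]
        show ((2 ^ (b + 1) : ℕ) : ZMod n) * i = _
        rw [Nat.cast_mul, ZMod.natCast_zmod_val]
      rw [ZMod.natCast_eq_natCast_iff] at h6
      have h7 : (2 ^ b * m) ≡ (2 ^ (b + 1) * i.val) [MOD 2 ^ (b + 1)] :=
        h6.of_dvd ⟨m, by rw [hnm]⟩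
      have h8 : 2 ^ (b + 1) ∣ 2 ^ b * m := by
        have h9 : (2 ^ (b + 1) * i.val) ≡ 0 [MOD 2 ^ (b + 1)] := (Nat.modEq_zero_iff_dvd).2 ⟨_, rfl⟩
        exact (Nat.modEq_zero_iff_dvd).1 (h7.trans h9)
      rw [pow_succ] at h8
      have h9 := Nat.dvd_of_mul_dvd_mul_left (by positivity) h8
      exact (Nat.not_even_iff_odd.2 hm) (even_iff_two_dvd.2 h9)
    · cases h4
  · rintro (hodd | ⟨k, hk⟩) H hH x hx
    · -- n odd
      have h2 : ∀ i : ZMod n, 2 * i = 0 → i = 0 := by
        intro i hi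
        have h3 : ((2 * i.val : ℕ) : ZMod n) = 0 := by
          rw [Nat.cast_mul, ZMod.natCast_zmod_val]; exact_mod_cast hi
        rw [ZMod.natCast_eq_zero_iff] at h3
        have h4 : n ∣ i.val := (Nat.Coprime.dvd_of_dvd_mul_left (Nat.coprime_two_right.2 hodd) h3)
        rw [← ZMod.natCast_zmod_val i, ZMod.natCast_eq_zero_iff]
        exact h4
      obtain ⟨⟨j, hj⟩, t, ht, ht0⟩ := hdata H hH
      rw [mem_centralizer_iff] at hx
      rcases x with i | i
      · have h3 := h2 i (comm_r_sr (hx _ hj).symm)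
        rw [h3]; exact one_mem _
      · exact absurd (h2 t (comm_r_sr (hx _ ht))) ht0
    · -- n = 2^k
      have hk1 : k ≠ 0 := by rintro rfl; omega
      obtain ⟨l, rfl⟩ := Nat.exists_eq_succ_of_ne_zero hk1
      have h2 : ∀ i : ZMod n, 2 * i = 0 → i = 0 ∨ i = ((2 ^ l : ℕ) : ZMod n) := by
        intro i hi
        have h3 : ((2 * i.val : ℕ) : ZMod n) = 0 := by
          rw [Nat.cast_mul, ZMod.natCast_zmod_val]; exact_mod_cast hi
        rw [ZMod.natCast_eq_zero_iff] at h3
        have h3' : 2 * 2 ^ l ∣ 2 * i.val := by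
          obtain ⟨c, hc⟩ := h3
          exact ⟨c, by rw [hc]; nth_rewrite 1 [hk]; rw [pow_succ']⟩
        have h4 : 2 ^ l ∣ i.val := Nat.dvd_of_mul_dvd_mul_left (by norm_num) h3'
        obtain ⟨c, hc⟩ := h4
        have hlt : i.val < n := ZMod.val_lt i
        have hlt2 : 2 ^ l * c < 2 ^ l * 2 := by
          rw [← hc, ← pow_succ]
          exact lt_of_lt_of_eq hlt hk
        have hc2 : c < 2 := Nat.lt_of_mul_lt_mul_left hlt2
        rw [← ZMod.natCast_zmod_val i, hc]
        interval_cases c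
        · left; simp
        · right; rw [mul_one]
      obtain ⟨⟨j, hj⟩, t, ht, ht0⟩ := hdata H hH
      -- the central involution lies in H
      have hz : r ((2 ^ l : ℕ) : ZMod n) ∈ H := by
        have hex : ∃ e : ℕ, ((2 ^ e : ℕ) : ZMod n) * t = 0 := ⟨l + 1, by rw [← hk, ZMod.natCast_self, zero_mul]⟩
        classical
        have h0 : Nat.find hex ≠ 0 := by
          intro h0
          have := Nat.find_spec hex
          rw [h0, pow_zero, Nat.cast_one, one_mul] at this
          exact ht0 this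
        obtain ⟨e, he⟩ := Nat.exists_eq_succ_of_ne_zero h0
        have h3 := Nat.find_min hex (m := e) (by omega)
        have h4 := Nat.find_spec hex
        rw [he] at h4
        have h5 : 2 * (((2 ^ e : ℕ) : ZMod n) * t) = 0 := by
          rw [← h4, Nat.succ_eq_add_one, pow_succ]; push_cast; ring
        have h6 : r (((2 ^ e : ℕ) : ZMod n) * t) ∈ H := by
          have := pow_mem ht (2 ^ e)
          have h7 : (r t : DihedralGroup n) ^ (2 ^ e) = r (((2 ^ e : ℕ) : ZMod n) * t) := by
            generalize 2 ^ e = c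
            induction c with
            | zero => simp
            | succ c ih => rw [pow_succ, ih, r_mul_r]; congr 1; push_cast; ring
          rwa [h7] at this
        rcases h2 _ h5 with h7 | h7
        · exact absurd h7 h3
        · rwa [h7] at h6
      rw [mem_centralizer_iff] at hx
      rcases x with i | i
      · rcases h2 i (comm_r_sr (hx _ hj).symm) with h3 | h3
        · rw [h3]; exact one_mem _
        · rw [h3]; exact hz
      · have h3 := hx _ hj
        rw [sr_mul_sr, sr_mul_sr] at h3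
        have h4 : i - j = j - i := by injection h3
        have h5 : 2 * (i - j) = 0 := by
          have : 2 * (i - j) = (i - j) - (j - i) := by ring
          rw [this, h4, sub_self]
        rcases h2 _ h5 with h6 | h6
        · rw [sub_eq_zero.1 h6]; exact hj
        · have h7 : i = j + ((2 ^ l : ℕ) : ZMod n) := by rw [← h6]; ring
          rw [h7, ← sr_mul_r]
          exact mul_mem hj hz

end Cfsg.Agent.S3920
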