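import Cfsg.Statements.S3927
import Cfsg.Agent.H23.ZipperVar2
import Mathlib.GroupTheory.SemidirectProduct

set_option autoImplicit false
set_option linter.all false
open Cfsg

namespace Cfsg.Agent.S3927

section aux
open Subgroup H23
open scoped Pointwise
universe u

theorem exists_semi (G : Type u) [Group G] [Finite G] (α : MulAut G) :
    ∃ (X : Type u) (_ : Group X) (_ : Finite X) (ι : G →* X) (a : X), Function.Injective ι ∧
      (∀ g, a * ι g * a⁻¹ = ι (α g)) ∧ (∀ x, ∃ g, ∃ b ∈ zpowers a, x = ι g * b) ∧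
      (∀ g, ι g ∈ zpowers a → g = 1) := by
  haveI : Finite (G ⋊[(zpowers α).subtype] (zpowers α)) :=
    Finite.of_equiv _ (SemidirectProduct.equivProd (φ := (zpowers α).subtype)).symm
  refine ⟨G ⋊[(zpowers α).subtype] (zpowers α), inferInstance, inferInstance, SemidirectProduct.inl,
    SemidirectProduct.inr ⟨α, mem_zpowers α⟩, SemidirectProduct.inl_injective, ?_, ?_, ?_⟩
  · intro g
    have := SemidirectProduct.inl_aut (φ := (zpowers α).subtype) ⟨α, mem_zpowers α⟩ g
    rw [map_inv] at this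
    exact this.symm
  · intro x
    refine ⟨x.left, SemidirectProduct.inr x.right, ?_, (SemidirectProduct.inl_left_mul_inr_right x).symm⟩
    obtain ⟨m, hm⟩ := mem_zpowers_iff.mp x.right.2
    rw [mem_zpowers_iff]
    refine ⟨m, ?_⟩
    have h1 : x.right = (⟨α, mem_zpowers α⟩ : zpowers α) ^ m := Subtype.ext hm.symm
    rw [h1, map_zpow]
  · intro g hg
    rw [mem_zpowers_iff] at hg
    obtain ⟨m, hm⟩ := hg
    rw [← map_zpow] at hm
    have h2 := congrArg SemidirectProduct.left hm
    exact h2.symm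

theorem comm_gen (n : ℕ) : ∀ (G : Type u) [Group G] [Finite G], Nat.card G = n → ∀ α : MulAut G,
    Subgroup.closure (Set.range (fun c : G => c * (α c)⁻¹)) = ⊤ → ∀ k : ℕ,
    Subgroup.closure (Set.range ((fun c : G => c * (α c)⁻¹)^[k])) = ⊤ := by
  induction n using Nat.strong_induction_on with
  | _ n ih =>
  intro G _ _ hn α hG k
  by_contra hH
  set f : G → G := fun c : G => c * (α c)⁻¹ with hf
  set H := Subgroup.closure (Set.range (f^[k])) with hHdef
  obtain ⟨X, _, _, ι, a, hιinj, hconj, hdec, hAG⟩ := exists_semi G α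
  have hcomm : ∀ g : G, ι g * a * (ι g)⁻¹ = ι (f g) * a := by
    intro g
    have h1 := hconj g
    have h2 : ι (f g) = ι g * (ι (α g))⁻¹ := by rw [hf]; simp only [map_mul, map_inv]
    rw [h2, ← h1]; group
  set A := zpowers a with hA
  have hAt : A ≠ ⊤ := by
    intro h
    apply hH
    rw [eq_top_iff]
    intro g _
    have := hAG g (by rw [h]; exact mem_top _)
    rw [this]; exact one_mem _
  have hcl : ∀ N : Subgroup X, N.Normal → A ≤ N → N = ⊤ := by
    intro N hN hAN
    have haN : a ∈ N := hAN (mem_zpowers a)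
    have h1 : N.comap ι = ⊤ := by
      rw [eq_top_iff, ← hG, closure_le]
      rintro _ ⟨c, rfl⟩
      show ι (f c) ∈ N
      have h2 : ι (f c) = (ι c * a * (ι c)⁻¹) * a⁻¹ := by rw [hcomm]; group
      rw [h2]
      exact mul_mem (hN.conj_mem a haN _) (inv_mem haN)
    rw [eq_top_iff]
    intro x _
    obtain ⟨g, b, hb, rfl⟩ := hdec x
    refine mul_mem ?_ (hAN hb)
    have : g ∈ N.comap ι := by rw [h1]; exact mem_top _
    exact this
  -- H is normalized by a
  have hfit : ∀ m : ℕ, ∀ c : G, α (f^[m] c) = f^[m] (α c) := by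
    intro m
    induction m with
    | zero => intro c; rfl
    | succ m ihm =>
      intro c
      rw [Function.iterate_succ_apply, Function.iterate_succ_apply, ihm]
      congr 1
      simp [hf]
  have haH : a ∈ normalizer ((H.map ι : Subgroup X) : Set X) := by
    apply mem_normalizer_of_cjs_le
    rw [cjs_le_iff]
    rw [map_le_iff_le_comap, hHdef, closure_le]
    rintro _ ⟨c, rfl⟩
    show ι (f^[k] c) ∈ cjs a⁻¹ (H.map ι)
    rw [mem_cjs, inv_inv, hconj]
    refine ⟨_, ?_, rfl⟩
    rw [hfit]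
    exact subset_closure ⟨_, rfl⟩
  have hHA : ∀ x ∈ (H.map ι ⊔ A : Subgroup X), ∃ h ∈ H, ∃ b ∈ A, x = ι h * b := by
    intro x hx
    have h1 : (x : X) ∈ ((A ⊔ H.map ι : Subgroup X) : Set X) := by rw [sup_comm]; exact hx
    rw [sup_comm, SetLike.mem_coe, ← SetLike.mem_coe, coe_mul_of_right_le_normalizer_left _ _ (zpowers_le.mpr haH)] at h1
    obtain ⟨_, ⟨h, hh, rfl⟩, b, hb, rfl⟩ := h1
    exact ⟨h, hh, b, hb, rfl⟩
  have hHAt : (H.map ι ⊔ A : Subgroup X) ≠ ⊤ := by
    intro h
    apply hH
    rw [eq_top_iff]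
    intro g _
    obtain ⟨h1, hh1, b, hb, he⟩ := hHA (ι g) (by rw [h]; exact mem_top _)
    have h2 : ι (h1⁻¹ * g) = b := by rw [map_mul, map_inv, he]; group
    have h3 := hAG _ (h2 ▸ hb)
    have h4 : g = h1 := by
      have := congrArg (h1 * ·) h3
      simpa using this
    rw [h4]; exact hh1
  have hHF : ∀ L ∈ HF A, L ≤ H.map ι ⊔ A := by
    intro L hL
    have haL : a ∈ L := hL.1 (mem_zpowers a)
    set L0 := L.comap ι with hL0
    have hL0a : ∀ c ∈ L0, α c ∈ L0 := by
      intro c hc
      show ι (α c) ∈ L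
      rw [← hconj]
      exact mul_mem (mul_mem haL hc) (inv_mem haL)
    have hL0f : ∀ c ∈ L0, f c ∈ L0 := fun c hc => mul_mem hc (inv_mem (hL0a c hc))
    set C := closure (f '' (L0 : Set G)) with hC
    have hCL : C ≤ L0 := by
      rw [hC, closure_le]
      rintro _ ⟨c, hc, rfl⟩
      exact hL0f c hc
    have haC : a ∈ normalizer ((C.map ι : Subgroup X) : Set X) := by
      apply mem_normalizer_of_cjs_le
      rw [cjs_le_iff, map_le_iff_le_comap, hC, closure_le]
      rintro _ ⟨c, hc, rfl⟩
      show ι (f c) ∈ cjs a⁻¹ (C.map ι)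
      rw [mem_cjs, inv_inv, hconj]
      refine ⟨_, ?_, rfl⟩
      have h1 : α (f c) = f (α c) := hfit 1 c
      rw [h1]
      exact subset_closure ⟨_, hL0a c hc, rfl⟩
    have hL0C : ∀ d ∈ L0, cjs (ι d) (C.map ι) ≤ C.map ι := by
      intro d hd
      rw [cjs_le_iff, map_le_iff_le_comap, hC, closure_le]
      rintro _ ⟨c, hc, rfl⟩
      show ι (f c) ∈ cjs (ι d)⁻¹ (C.map ι)
      rw [mem_cjs, inv_inv]
      refine ⟨f (d * c) * (f d)⁻¹, mul_mem (subset_closure ⟨_, mul_mem hd hc, rfl⟩) (inv_mem (subset_closure ⟨_, hd, rfl⟩)), ?_⟩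
      simp only [hf, map_mul, map_inv, mul_inv_rev, inv_inv]
      group
    set N := C.map ι ⊔ A with hN
    have hAN : A ≤ N := le_sup_right
    have hNL : N ≤ L := sup_le (map_le_iff_le_comap.mpr hCL) hL.1
    have hLN : L ≤ normalizer (N : Set X) := by
      intro x hx
      obtain ⟨g, b, hb, rfl⟩ := hdec x
      have hbN : b ∈ normalizer (N : Set X) := le_normalizer (hAN hb)
      refine mul_mem ?_ hbN
      have hgL : g ∈ L0 := by
        show ι g ∈ L
        have := mul_mem hx (inv_mem (hL.1 hb))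
        rwa [mul_inv_cancel_right] at this
      apply mem_normalizer_of_cjs_le
      rw [hN, cjs_sup]
      refine sup_le ((hL0C g hgL).trans le_sup_left) ?_
      rw [cjs_le_iff, hA, zpowers_le, mem_cjs, inv_inv, hcomm]
      exact mul_mem (le_sup_left (a := C.map ι) ⟨_, subset_closure ⟨_, hgL, rfl⟩, rfl⟩) (hAN (mem_zpowers a))
    have hNeq := hL.2.2 N hAN hNL hLN
    have hCeq : C = L0 := by
      apply le_antisymm hCL
      intro g hg
      have h1 : ι g ∈ (N : Set X) := by rw [hNeq]; exact hg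
      rw [hN, coe_mul_of_right_le_normalizer_left _ _ (zpowers_le.mpr haC)] at h1
      obtain ⟨_, ⟨h, hh, rfl⟩, b, hb, he⟩ := h1
      have h2 : ι (h⁻¹ * g) = b := by
        have he' : ι h * b = ι g := he
        rw [map_mul, map_inv, ← he']; group
      have h3 := hAG _ (h2 ▸ hb)
      have h4 : g = h := by
        have := congrArg (h * ·) h3
        simpa using this
      rw [h4]; exact hh
    -- L0 is proper
    have hL0t : L0 ≠ ⊤ := by
      intro h
      apply hL.2.1
      rw [eq_top_iff]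
      intro x _
      obtain ⟨g, b, hb, rfl⟩ := hdec x
      refine mul_mem ?_ (hL.1 hb)
      have : g ∈ L0 := by rw [h]; exact mem_top _
      exact this
    have hlt : Nat.card L0 < n := by
      rw [← hn]
      have := H1.card_lt_of_lt' (lt_top_iff_ne_top.mpr hL0t)
      rwa [card_top] at this
    let β0 : L0 →* L0 := (α.toMonoidHom.comp L0.subtype).codRestrict L0 (fun x => hL0a x x.2)
    have hβinj : Function.Injective β0 := by
      intro x y hxy
      have h0 := congrArg Subtype.val hxy
      have h1 : α (x : G) = α (y : G) := h0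
      exact Subtype.ext (α.injective h1)
    let β : MulAut L0 := MulEquiv.ofBijective β0 ⟨hβinj, Finite.surjective_of_injective hβinj⟩
    have hβ : ∀ x : L0, ((β x : L0) : G) = α x := fun x => rfl
    have hβf : ∀ m : ℕ, ∀ x : L0, (((fun c : L0 => c * (β c)⁻¹)^[m] x : L0) : G) = f^[m] (x : G) := by
      intro m
      induction m with
      | zero => intro x; rfl
      | succ m ihm =>
        intro x
        rw [Function.iterate_succ_apply, Function.iterate_succ_apply, ihm]
        rfl
    have h1 := ih _ hlt L0 rfl β (by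
      rw [eq_top_iff]
      intro x _
      have h2 : (x : G) ∈ C := by rw [hCeq]; exact x.2
      have h3 : C = (closure (Set.range (fun c : L0 => c * (β c)⁻¹))).map L0.subtype := by
        rw [hC, MonoidHom.map_closure]
        congr 1
        ext y
        constructor
        · rintro ⟨c, hc, rfl⟩
          exact ⟨_, ⟨⟨c, hc⟩, rfl⟩, rfl⟩
        · rintro ⟨_, ⟨c, rfl⟩, rfl⟩
          exact ⟨c, c.2, rfl⟩
      rw [h3] at h2
      obtain ⟨y, hy, hyx⟩ := h2
      have : y = x := Subtype.ext hyx
      rwa [← this]) k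
    have hL0H : L0 ≤ H := by
      intro x hx
      have h2 : (⟨x, hx⟩ : L0) ∈ closure (Set.range ((fun c : L0 => c * (β c)⁻¹)^[k])) := by rw [h1]; exact mem_top _
      have h3 : closure (Set.range ((fun c : L0 => c * (β c)⁻¹)^[k])) ≤ H.comap L0.subtype := by
        rw [closure_le]
        rintro _ ⟨c, rfl⟩
        show (((fun c : L0 => c * (β c)⁻¹)^[k] c : L0) : G) ∈ H
        rw [hβf]
        exact subset_closure ⟨_, rfl⟩
      exact h3 h2
    intro x hx
    obtain ⟨g, b, hb, rfl⟩ := hdec x
    refine mul_mem ?_ (le_sup_right (a := H.map ι) hb)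
    have hgL : g ∈ L0 := by
      show ι g ∈ L
      have := mul_mem hx (inv_mem (hL.1 hb))
      rwa [mul_inv_cancel_right] at this
    exact le_sup_left (a := H.map ι) ⟨g, hL0H hgL, rfl⟩
  have hU := zipper_var_aux _ A rfl hAt hcl (fun h => hHAt (top_le_iff.mp (h ▸ sSup_le hHF)))
  obtain ⟨M, hM, hHM⟩ := (eq_top_or_exists_le_coatom _).resolve_left hHAt
  have hAM : A ≤ M := le_sup_right.trans hHM
  have haM : a ∈ M := hAM (mem_zpowers a)
  obtain ⟨c, hc⟩ : ∃ c : G, ι c ∉ M := by
    by_contra hcon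
    push Not at hcon
    apply hM.1
    rw [eq_top_iff]
    intro x _
    obtain ⟨g, b, hb, rfl⟩ := hdec x
    exact mul_mem (hcon g) (hAM hb)
  classical
  have hex : ∃ j, ι (f^[j] c) ∈ M := ⟨k, hHM (le_sup_left (a := H.map ι) ⟨_, subset_closure ⟨_, rfl⟩, rfl⟩)⟩
  have h1 := Nat.find_spec hex
  have h0 : Nat.find hex ≠ 0 := by
    intro h
    rw [h] at h1
    exact hc h1
  obtain ⟨j, hj⟩ := Nat.exists_eq_succ_of_ne_zero h0
  have h2 := Nat.find_min hex (m := j) (by omega)
  rw [hj, Function.iterate_succ_apply'] at h1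
  set y := f^[j] c with hy
  have h3 : ι y * a * (ι y)⁻¹ ∈ M := by
    rw [hcomm]; exact mul_mem h1 haM
  have h4 : A ≤ cjs (ι y)⁻¹ M := by
    rw [hA, zpowers_le, mem_cjs, inv_inv]; exact h3
  have h5 := hU _ _ (cjs_coatom hM (ι y)⁻¹) hM h4 hAM
  have h6 : (ι y)⁻¹ ∈ normalizer (M : Set X) := mem_normalizer_iff_cjs.mpr h5
  have h7 : ι y ∈ normalizer (M : Set X) := by simpa using inv_mem h6
  have h8 : normalizer (M : Set X) = ⊤ := by
    apply hM.2
    refine lt_of_le_of_ne le_normalizer ?_
    intro h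
    rw [← h] at h7
    exact h2 h7
  exact hM.1 (hcl M (normalizer_eq_top_iff.mp h8) hAM)
end aux

/-- Let G be a finite group and α an automorphism of G with [G, α] = G, that is, the elements g·α(g)⁻¹ generate G. Then for every k ≥ 1 the iterated commutators [g, α, …, α] with k entries α — the values of the k-th iterate of the map c ↦ c·α(c)⁻¹ — also generate G. -/
theorem result {G : Type*} [Group G] [Finite G] (α : MulAut G) (hG : Subgroup.closure (Set.range (fun c : G => c * (α c)⁻¹)) = ⊤) (k : ℕ) (hk : 1 ≤ k) :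
    Subgroup.closure (Set.range ((fun c : G => c * (α c)⁻¹)^[k])) = ⊤ := by
  exact comm_gen _ G rfl α hG k

end Cfsg.Agent.S3927
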