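import Cfsg.Statements.S3933
import Cfsg.Agent.H23.Coprime
import Cfsg.Agent.H1.Sylow
import Cfsg.Agent.H9.SimplePQ

set_option autoImplicit false
set_option linter.all false
open Cfsg

namespace Cfsg.Agent.S3933

open Subgroup Cfsg
open Cfsg.Agent.H23
open scoped Pointwise

section
variable {G : Type*} [Group G] [Finite G]

theorem relIndex_sup_of_norm {M N : Subgroup G} (h : M ≤ normalizer (N : Set G)) :
    M.relIndex (N ⊔ M) = M.relIndex N := by
  have h1 := relIndex_mul_relIndex (⊥ : Subgroup G) M (N ⊔ M) bot_le le_sup_right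
  have h2 := relIndex_mul_relIndex (⊥ : Subgroup G) (M ⊓ N) N bot_le inf_le_right
  have h3 := H1.card_sup_mul_card_inf_of_le_normalizer (H := N) (K := M) h
  rw [relIndex_bot_left, relIndex_bot_left] at h1
  rw [relIndex_bot_left, relIndex_bot_left, inf_relIndex_right] at h2
  rw [inf_comm, ← h1, ← h2] at h3
  have h4 : 0 < Nat.card M := Nat.card_pos
  have h5 : 0 < Nat.card (M ⊓ N : Subgroup G) := Nat.card_pos
  have h6 : (Nat.card M * Nat.card (M ⊓ N : Subgroup G)) * M.relIndex (N ⊔ M) =
      (Nat.card M * Nat.card (M ⊓ N : Subgroup G)) * M.relIndex N := by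
    rw [mul_assoc, mul_comm (Nat.card (M ⊓ N : Subgroup G)), ← mul_assoc, h3]; ring
  exact Nat.eq_of_mul_eq_mul_left (Nat.mul_pos h4 h5) h6

theorem card_syl {r : ℕ} [Fact r.Prime] (P : Sylow r G) :
    Nat.card (Sylow r G) = (normalizer ((P : Subgroup G) : Set G)).index := P.card_eq_index_normalizer

theorem index_dvd_quot (r : ℕ) [Fact r.Prime] (N : Subgroup G) [N.Normal] :
    Nat.card (Sylow r (G ⧸ N)) ∣ Nat.card (Sylow r G) := by
  obtain ⟨P⟩ : Nonempty (Sylow r G) := inferInstance
  set π := QuotientGroup.mk' N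
  have hπ : Function.Surjective π := QuotientGroup.mk'_surjective N
  rw [(P.mapSurjective hπ).card_eq_index_normalizer, P.card_eq_index_normalizer,
    ← index_comap_of_surjective _ hπ]
  apply index_dvd_of_le
  rw [← map_le_iff_le_comap]
  exact le_normalizer_map π

theorem index_dvd_normal (r : ℕ) [Fact r.Prime] (N : Subgroup G) [N.Normal] :
    Nat.card (Sylow r N) ∣ Nat.card (Sylow r G) := by
  obtain ⟨Q⟩ : Nonempty (Sylow r N) := inferInstance
  obtain ⟨P, hP⟩ := (Q.isPGroup'.map N.subtype).exists_le_sylow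
  set M := normalizer (((Q : Subgroup N).map N.subtype : Subgroup G) : Set G) with hM
  have hfr : M ⊔ N = ⊤ := Q.normalizer_sup_eq_top
  have hPN : (P : Subgroup G) ⊓ N = (Q : Subgroup N).map N.subtype := by
    have h1 : IsPGroup r ((P : Subgroup G).subgroupOf N) := P.isPGroup'.comap_of_injective N.subtype N.subtype_injective
    have h2 : (Q : Subgroup N) ≤ (P : Subgroup G).subgroupOf N := map_le_iff_le_comap.1 hP
    have h3 := Q.is_maximal' h1 h2
    rw [← h3, subgroupOf_map_subtype]
  have hle : normalizer ((P : Subgroup G) : Set G) ≤ M := by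
    intro g hg
    rw [hM, ← hPN, H1.mem_normalizer_iff_conj_smul, smul_inf, H1.mem_normalizer_iff_conj_smul.1 hg,
      H1.mem_normalizer_iff_conj_smul.1 (show g ∈ normalizer (N : Set G) by rw [normalizer_eq_top]; exact mem_top g)]
  have h1 : Nat.card (Sylow r N) = M.index := by
    rw [Q.card_eq_index_normalizer]
    have h2 : M.subgroupOf N = normalizer ((Q : Subgroup N) : Set N) := by
      ext x
      rw [mem_subgroupOf, hM, mem_normalizer_iff, mem_normalizer_iff]
      constructor
      · intro h y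
        have := h y
        constructor
        · intro hy
          obtain ⟨z, hz, hz2⟩ := (this.1 ⟨y, hy, rfl⟩)
          have : z = x * y * x⁻¹ := Subtype.ext hz2
          rwa [← this]
        · intro hy
          obtain ⟨z, hz, hz2⟩ := (this.2 ⟨x * y * x⁻¹, hy, rfl⟩)
          have : z = y := Subtype.ext hz2
          rwa [← this]
      · intro h y
        constructor
        · rintro ⟨z, hz, rfl⟩
          exact ⟨x * z * x⁻¹, (h z).1 hz, rfl⟩
        · rintro ⟨z, hz, hz2⟩
          have hy : y = (x : G)⁻¹ * z * x := by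
            have : (z : G) = x * y * (x : G)⁻¹ := hz2
            rw [this]; group
          refine ⟨x⁻¹ * z * x, (h _).2 ?_, hy.symm⟩
          have : x * (x⁻¹ * z * x) * x⁻¹ = z := by group
          rw [this]; exact hz
    change (normalizer ((Q : Subgroup N) : Set N)).index = M.index
    rw [← h2]
    have h3 : M.relIndex N = M.relIndex (M ⊔ N) := by
      rw [sup_comm]
      exact (relIndex_sup_of_norm (by rw [normalizer_eq_top]; exact le_top)).symm
    change M.relIndex N = M.index
    rw [h3, hfr, relIndex_top_right]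
  rw [h1, P.card_eq_index_normalizer]
  exact index_dvd_of_le hle

theorem coprime_of_ppow {p q a b : ℕ} (hp : p.Prime) (hq : q.Prime) (h : p ≠ q) : (p ^ a).Coprime (q ^ b) :=
  Nat.Coprime.pow _ _ ((Nat.coprime_primes hp hq).2 h)

variable [IsSimpleGroup G] (hna : ¬ IsMulCommutative G)
include hna

/-- step 1 -/
theorem step1 {r q a s b : ℕ} [Fact r.Prime] [Fact q.Prime] (hs : s.Prime) (hrG : r ∣ Nat.card G)
    (hr : Nat.card (Sylow r G) = q ^ a) (hq : Nat.card (Sylow q G) = s ^ b) : s = r := by
  by_contra hne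
  have hrp : r.Prime := Fact.out
  have hqp : q.Prime := Fact.out
  obtain ⟨R⟩ : Nonempty (Sylow r G) := inferInstance
  have h1 : ¬ r ∣ Nat.card (Sylow q G) := by
    rw [hq]
    intro h
    exact hne ((Nat.prime_dvd_prime_iff_eq hrp hs).1 (hrp.dvd_of_dvd_pow h)).symm
  obtain ⟨Q, hQ⟩ := R.isPGroup'.nonempty_fixed_point_of_prime_not_dvd_card (Sylow q G) h1
  rw [sylow_mem_fixedPoints_iff] at hQ
  have hcop : ((Q : Subgroup G).index).Coprime (normalizer ((R : Subgroup G) : Set G)).index := by
    rw [← card_syl R, hr]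
    exact Nat.Coprime.pow_right a ((Nat.Prime.coprime_iff_not_dvd hqp).2 Q.not_dvd_index).symm
  have hfac := H1.factor_of_coprime_index hcop
  have hnc : normalClosure ((R : Subgroup G) : Set G) ≤ (Q : Subgroup G) ⊔ (R : Subgroup G) := by
    rw [normalClosure, closure_le]
    intro x hx
    rw [Group.mem_conjugatesOfSet_iff] at hx
    obtain ⟨u, hu, hux⟩ := hx
    obtain ⟨g, rfl⟩ := isConj_iff.1 hux
    obtain ⟨y, hy, n, hn, rfl⟩ := hfac g
    have h2 : y * n * u * (y * n)⁻¹ = y * (n * u * n⁻¹) * y⁻¹ := by group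
    rw [h2]
    have h3 : n * u * n⁻¹ ∈ (R : Subgroup G) := (mem_normalizer_iff.1 hn u).1 hu
    exact mul_mem (mul_mem (mem_sup_left hy) (mem_sup_right h3)) (inv_mem (mem_sup_left hy))
  have htop : (Q : Subgroup G) ⊔ (R : Subgroup G) = ⊤ := by
    rw [eq_top_iff]
    refine le_trans ?_ hnc
    rcases IsSimpleGroup.eq_bot_or_eq_top_of_normal (normalClosure ((R : Subgroup G) : Set G)) inferInstance with h2 | h2
    · exfalso
      have h3 : (R : Subgroup G) ≤ ⊥ := by rw [← h2]; exact le_normalClosure
      have h4 : (R : Subgroup G) = ⊥ := le_bot_iff.1 h3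
      exact R.ne_bot_of_dvd_card hrG h4
    · rw [h2]
  have hcard : Nat.card G ∣ Nat.card Q * Nat.card R := by
    have h2 := H1.card_sup_mul_card_inf_of_le_normalizer (H := (Q : Subgroup G)) (K := (R : Subgroup G)) hQ
    rw [htop, card_top] at h2
    exact Dvd.intro _ h2
  refine H9.Simple.not_paqb hna hrp hqp (fun t ht htG => ?_)
  have h2 := htG.trans hcard
  rcases (ht.dvd_mul).1 h2 with h3 | h3
  · right
    obtain ⟨k, hk⟩ := IsPGroup.iff_card.1 Q.isPGroup'
    rw [hk] at h3
    exact (Nat.prime_dvd_prime_iff_eq ht hqp).1 (ht.dvd_of_dvd_pow h3)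
  · left
    obtain ⟨k, hk⟩ := IsPGroup.iff_card.1 R.isPGroup'
    rw [hk] at h3
    exact (Nat.prime_dvd_prime_iff_eq ht hrp).1 (ht.dvd_of_dvd_pow h3)

theorem simple_case (h : ∀ (r : ℕ) [Fact r.Prime], Nat.card (Sylow r G) = 1 ∨ IsPrimePow (Nat.card (Sylow r G))) :
    False := by
  have hex : ∀ r : ℕ, r.Prime → r ∣ Nat.card G → ∃ q a, q.Prime ∧ 0 < a ∧ q ≠ r ∧ ∀ [Fact r.Prime], Nat.card (Sylow r G) = q ^ a := by
    intro r hr hrG
    haveI : Fact r.Prime := ⟨hr⟩
    rcases h r with h1 | h1
    · exact absurd h1 (H9.Simple.card_sylow_ne_one hna hrG)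
    · obtain ⟨q, a, hq, ha, hqa⟩ := (isPrimePow_nat_iff _).1 h1
      refine ⟨q, a, hq, ha, ?_, fun {_} => hqa.symm⟩
      rintro rfl
      have h2 := not_dvd_card_sylow q G
      apply h2
      rw [← hqa]
      exact dvd_pow_self q ha.ne'
  -- a prime divisor
  obtain ⟨r, hr, hrG⟩ : ∃ r : ℕ, r.Prime ∧ r ∣ Nat.card G := by
    apply Nat.exists_prime_and_dvd
    intro h1
    have h2 : Subsingleton G := (Nat.card_eq_one_iff_unique.1 h1).1
    exact not_subsingleton G h2
  haveI : Fact r.Prime := ⟨hr⟩
  obtain ⟨q, a, hq, ha, hqr, hqa⟩ := hex r hr hrG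
  have hqa' : Nat.card (Sylow r G) = q ^ a := hqa
  haveI : Fact q.Prime := ⟨hq⟩
  have hqG : q ∣ Nat.card G := by
    obtain ⟨R⟩ : Nonempty (Sylow r G) := inferInstance
    have h1 : Nat.card (Sylow r G) ∣ Nat.card G := by
      rw [card_syl R]; exact index_dvd_card _
    rw [hqa'] at h1
    exact (dvd_pow_self q ha.ne').trans h1
  obtain ⟨R⟩ : Nonempty (Sylow r G) := inferInstance
  set H := normalizer ((R : Subgroup G) : Set G) with hH
  have hHidx : H.index = q ^ a := by rw [← card_syl R]; exact hqa'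
  -- centralizer of `R` contains Sylow subgroups
  have hcen : ∀ s : ℕ, s.Prime → s ∣ Nat.card G → s ≠ r → s ≠ q → ∀ [Fact s.Prime], ∃ S : Sylow s G, (S : Subgroup G) ≤ centralizer ((R : Subgroup G) : Set G) := by
    intro s hs hsG hsr hsq _
    obtain ⟨u, c, hu, hc, hus, huc⟩ := hex s hs hsG
    have huc' : Nat.card (Sylow s G) = u ^ c := huc
    haveI : Fact u.Prime := ⟨hu⟩
    have hur : u ≠ r := by
      rintro rfl
      have h1 := step1 hna hq hsG huc' hqa'
      exact hsq h1.symm
    have huq : u ≠ q := by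
      rintro rfl
      obtain ⟨v, d, hv, hd, hvu, hvd⟩ := hex u hu hqG
      have hvd' : Nat.card (Sylow u G) = v ^ d := hvd
      have h1 := step1 hna hv hsG huc' hvd'
      have h2 := step1 hna hv hrG hqa' hvd'
      exact hsr (h1.symm.trans h2)
    -- a Sylow `s`-subgroup in `H`
    obtain ⟨T, hT⟩ := exists_isSylowOf s H
    have hTG : IsSylowOf s T (⊤ : Subgroup G) := by
      rw [isSylowOf_iff]
      refine ⟨le_top, hT.isPGroup, ?_⟩
      rw [relIndex_top_right, ← relIndex_mul_index hT.le, hs.dvd_mul, hHidx]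
      rintro (h1 | h1)
      · exact hT.not_dvd h1
      · exact hsq ((Nat.prime_dvd_prime_iff_eq hs hq).1 (hs.dvd_of_dvd_pow h1))
    have hTd : ¬ s ∣ T.index := by
      have := hTG.not_dvd
      rwa [relIndex_top_right] at this
    set S : Sylow s G := hT.isPGroup.toSylow hTd with hS
    have hST : (S : Subgroup G) = T := rfl
    refine ⟨S, ?_⟩
    set K := normalizer ((S : Subgroup G) : Set G) with hK
    have hKidx : K.index = u ^ c := by rw [← card_syl S]; exact huc'
    have hrel : ¬ r ∣ K.relIndex H := by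
      have h1 : (K ⊓ H).index ≤ K.index * H.index := index_inf_le
      have h2 : (K ⊓ H).relIndex H * H.index = (K ⊓ H).index := relIndex_mul_index inf_le_right
      have h3 : K.index ∣ (K ⊓ H).index := index_dvd_of_le inf_le_left
      have h4 : H.index ∣ (K ⊓ H).index := index_dvd_of_le inf_le_right
      have h5 : K.index.Coprime H.index := by
        rw [hKidx, hHidx]; exact coprime_of_ppow hu hq huq
      have h6 := Nat.le_of_dvd (Nat.pos_of_ne_zero index_ne_zero_of_finite) (Nat.Coprime.mul_dvd_of_dvd_of_dvd h5 h3 h4)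
      have h7 : (K ⊓ H).index = K.index * H.index := le_antisymm h1 h6
      rw [inf_relIndex_right, h7] at h2
      have h8 : K.relIndex H = K.index := Nat.eq_of_mul_eq_mul_right (Nat.pos_of_ne_zero index_ne_zero_of_finite) h2
      rw [h8, hKidx]
      intro h9
      exact hur ((Nat.prime_dvd_prime_iff_eq hr hu).1 (hr.dvd_of_dvd_pow h9)).symm
    have hRH : (R : Subgroup G) ≤ H := le_normalizer
    have hRK : (R : Subgroup G) ≤ K := by
      have h1 : (K ⊓ H).relIndex ((R : Subgroup G) ⊔ (K ⊓ H)) = (K ⊓ H).relIndex (R : Subgroup G) :=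
        relIndex_sup_of_norm inf_le_right
      have h2 : (K ⊓ H).relIndex ((R : Subgroup G) ⊔ (K ⊓ H)) ∣ (K ⊓ H).relIndex H :=
        Dvd.intro _ (relIndex_mul_relIndex _ _ _ le_sup_right (sup_le hRH inf_le_right))
      obtain ⟨k, hk⟩ := IsPGroup.iff_card.1 R.isPGroup'
      have h3 : (K ⊓ H).relIndex (R : Subgroup G) ∣ r ^ k := by
        rw [← hk]; exact relIndex_dvd_card _ _
      have h4 : ¬ r ∣ (K ⊓ H).relIndex (R : Subgroup G) := by
        intro h5
        rw [← h1] at h5
        have h6 := h5.trans h2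
        rw [inf_relIndex_right] at h6
        exact hrel h6
      have h5 : (K ⊓ H).relIndex (R : Subgroup G) = 1 := by
        have h7 : (r ^ k).Coprime ((K ⊓ H).relIndex (R : Subgroup G)) :=
          Nat.Coprime.pow_left k ((Nat.Prime.coprime_iff_not_dvd hr).2 h4)
        exact Nat.Coprime.eq_one_of_dvd h7.symm h3
      exact (relIndex_eq_one.1 h5).trans inf_le_left
    have hdisj : (R : Subgroup G) ⊓ (S : Subgroup G) = ⊥ := by
      apply Subgroup.inf_eq_bot_of_coprime
      obtain ⟨k, hk⟩ := IsPGroup.iff_card.1 R.isPGroup'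
      obtain ⟨l, hl⟩ := IsPGroup.iff_card.1 S.isPGroup'
      rw [hk, hl]
      exact coprime_of_ppow hr hs (Ne.symm hsr)
    rw [← commutator_eq_bot_iff_le_centralizer, eq_bot_iff, ← hdisj]
    refine le_inf ?_ ?_
    · rw [commutator_comm]; exact commutator_le_of_le_normalizer hT.le
    · exact commutator_le_of_le_normalizer hRK
  -- an element of the center of `R`
  have hRne : (R : Subgroup G) ≠ ⊥ := R.ne_bot_of_dvd_card hrG
  haveI : Nontrivial R := (nontrivial_iff_ne_bot _).2 hRne
  haveI := R.isPGroup'.center_nontrivial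
  obtain ⟨⟨z, hz⟩, hz1⟩ := exists_ne (1 : center (R : Subgroup G))
  have hzne : (z : G) ≠ 1 := fun hh => hz1 (Subtype.ext (Subtype.ext hh))
  have hRz : (R : Subgroup G) ≤ centralizer ({(z : G)} : Set G) := by
    intro x hx
    rw [mem_centralizer_singleton_iff]
    exact (congrArg Subtype.val (mem_center_iff.1 hz ⟨x, hx⟩))
  set D := centralizer ({(z : G)} : Set G) with hD
  have hDidx : ∀ {d : ℕ}, d.Prime → d ∣ D.index → d = q := by
    intro d hd hdD
    by_contra hdq
    haveI : Fact d.Prime := ⟨hd⟩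
    have hdG : d ∣ Nat.card G := hdD.trans (index_dvd_card D)
    by_cases hdr : d = r
    · subst hdr
      exact R.not_dvd_index (hdD.trans (index_dvd_of_le hRz))
    · obtain ⟨S, hS⟩ := hcen d hd hdG hdr hdq
      have h1 : (S : Subgroup G) ≤ D := by
        refine hS.trans (centralizer_le ?_)
        rw [Set.singleton_subset_iff]; exact z.2
      exact S.not_dvd_index (hdD.trans (index_dvd_of_le h1))
  have h1 := Nat.eq_prime_pow_of_unique_prime_dvd (index_ne_zero_of_finite (H := D)) hDidx
  have h2 := H3.prime_card_of_prime_power_class q _ hq (z : G) hzne h1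
  exact hna (H9.Simple.comm_of_prime_card h2 rfl)

end

universe u
theorem main : ∀ (n : ℕ) (G : Type u) [Group G] [Finite G], Nat.card G = n →
    (∀ (r : ℕ) [Fact r.Prime], Nat.card (Sylow r G) = 1 ∨ IsPrimePow (Nat.card (Sylow r G))) → Group.IsSolvable G := by
  intro n
  induction n using Nat.strong_induction_on with
  | _ n ih =>
    intro G _ _ hn h
    by_cases hcomm : IsMulCommutative G
    · letI : CommGroup G := { (inferInstance : Group G) with mul_comm := hcomm.is_comm.comm }
      infer_instance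
    haveI : Nontrivial G := by
      by_contra hnt
      rw [not_nontrivial_iff_subsingleton] at hnt
      exact hcomm ⟨⟨fun a b => Subsingleton.elim _ _⟩⟩
    by_cases hsimp : ∀ N : Subgroup G, N.Normal → N = ⊥ ∨ N = ⊤
    · haveI : IsSimpleGroup G := ⟨fun N hN => hsimp N hN⟩
      exact (simple_case hcomm h).elim
    · push Not at hsimp
      obtain ⟨N, hN, hNb, hNt⟩ := hsimp
      have hdiv : ∀ {a b : ℕ}, a ∣ b → (b = 1 ∨ IsPrimePow b) → (a = 1 ∨ IsPrimePow a) := by
        intro a b hab hb
        rcases hb with rfl | hb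
        · left; exact Nat.dvd_one.1 hab
        · by_cases ha : a = 1
          · exact Or.inl ha
          · exact Or.inr (hb.dvd hab ha)
      have h1 : Group.IsSolvable N := by
        refine ih (Nat.card N) ?_ N rfl (fun r _ => hdiv (index_dvd_normal r N) (h r))
        rw [← hn]
        exact lt_of_le_of_ne (card_le_card_group N) (fun hc => hNt (eq_top_of_card_eq N hc))
      have h2 : Group.IsSolvable (G ⧸ N) := by
        refine ih (Nat.card (G ⧸ N)) ?_ (G ⧸ N) rfl (fun r _ => hdiv (index_dvd_quot r N) (h r))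
        rw [← hn, card_eq_card_quotient_mul_card_subgroup N]
        have h3 : 1 < Nat.card N := by
          haveI : Nontrivial N := (nontrivial_iff_ne_bot N).2 hNb
          exact Finite.one_lt_card
        have h4 : 0 < Nat.card (G ⧸ N) := Nat.card_pos
        nlinarith
      exact solvable_of_ker_le_range N.subtype (QuotientGroup.mk' N) (by simp)

/-- If for every prime r the number of Sylow r-subgroups of the finite group G is a prime power or 1, then G is solvable. -/
theorem result {G : Type*} [Group G] [Finite G] (h : ∀ (r : ℕ) [Fact r.Prime], Nat.card (Sylow r G) = 1 ∨ IsPrimePow (Nat.card (Sylow r G))) :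
    Group.IsSolvable G := by
  exact main _ G rfl h

end Cfsg.Agent.S3933
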