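import Cfsg.Statements.S3937
import Cfsg.Agent.H23.Zipper
import Cfsg.Agent.H10.Basic
import Cfsg.Agent.H1.Cores

set_option autoImplicit false
set_option linter.all false
open Cfsg

namespace Cfsg.Agent.S3937

section aux
open Subgroup
open scoped Pointwise commutatorElement
universe u

theorem foldl_eq {G : Type*} [Group G] (g : G) (n : ℕ) : ∀ x : G,
    (List.replicate n g).foldl (fun a b => a * b * a⁻¹ * b⁻¹) x = (fun a => a * g * a⁻¹ * g⁻¹)^[n] x := by
  induction n with
  | zero => intro x; rfl
  | succ n ih =>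
    intro x
    rw [List.replicate_succ, List.foldl_cons, Function.iterate_succ_apply]
    exact ih _

theorem engel_subnormal (n : ℕ) : ∀ (G : Type u) [Group G] [Finite G], Nat.card G = n → ∀ g : G,
    (∀ x : G, ∃ n : ℕ, (fun a => a * g * a⁻¹ * g⁻¹)^[n] x = 1) → (zpowers g).IsSubnormal := by
  induction n using Nat.strong_induction_on with
  | _ n ih =>
  intro G _ _ hn g hg
  by_contra hA
  obtain ⟨M, hM, hNM, huniq⟩ := H23.zipper (zpowers g) (by
    intro H hAH hH
    have hgH : g ∈ H := hAH (mem_zpowers g)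
    have hlt : Nat.card H < n := by
      rw [← hn]
      have := H1.card_lt_of_lt' (lt_top_iff_ne_top.mpr hH)
      rwa [card_top] at this
    have h1 := ih _ hlt H rfl ⟨g, hgH⟩ (by
      intro x
      obtain ⟨k, hk⟩ := hg x
      refine ⟨k, ?_⟩
      have h2 : ∀ k : ℕ, ∀ x : H, (((fun a : H => a * (⟨g, hgH⟩ : H) * a⁻¹ * (⟨g, hgH⟩ : H)⁻¹)^[k] x : H) : G) =
          (fun a => a * g * a⁻¹ * g⁻¹)^[k] (x : G) := by
        intro k
        induction k with
        | zero => intro x; rfl
        | succ k ih' =>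
          intro x
          rw [Function.iterate_succ_apply, Function.iterate_succ_apply, ih']
          rfl
      apply Subtype.ext
      rw [h2, hk]; rfl)
    have h2 : (zpowers g).subgroupOf H = zpowers (⟨g, hgH⟩ : H) := by
      ext y
      rw [mem_subgroupOf, mem_zpowers_iff, mem_zpowers_iff]
      constructor
      · rintro ⟨k, hk⟩; exact ⟨k, Subtype.ext (by rw [← hk]; rfl)⟩
      · rintro ⟨k, hk⟩; exact ⟨k, by rw [← hk]; rfl⟩
    rw [h2]; exact h1) hA
  have hgM : g ∈ M := hNM (le_normalizer (mem_zpowers g))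
  obtain ⟨x, hx⟩ : ∃ x, x ∉ M := by
    by_contra hcon
    push Not at hcon
    exact hM.1 (eq_top_iff.mpr fun x _ => hcon x)
  obtain ⟨k, hk⟩ := hg x
  classical
  have hex : ∃ j, (fun a => a * g * a⁻¹ * g⁻¹)^[j] x ∈ M := ⟨k, by rw [hk]; exact one_mem _⟩
  have h1 := Nat.find_spec hex
  have h0 : Nat.find hex ≠ 0 := by
    intro h
    rw [h] at h1
    exact hx h1
  obtain ⟨j, hj⟩ := Nat.exists_eq_succ_of_ne_zero h0
  have h2 := Nat.find_min hex (m := j) (by omega)
  rw [hj, Function.iterate_succ_apply'] at h1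
  set y := (fun a => a * g * a⁻¹ * g⁻¹)^[j] x with hy
  have h3 : y * g * y⁻¹ ∈ M := by
    have := mul_mem h1 hgM
    simpa using this
  have h4 : zpowers g ≤ MulAut.conj y⁻¹ • M := by
    rw [zpowers_le, H1.mem_conj_smul, inv_inv]; exact h3
  have hcoat : IsCoatom (MulAut.conj y⁻¹ • M) := by
    have := (OrderIso.isCoatom_iff (MulEquiv.mapSubgroup (MulAut.conj y⁻¹)) M).mpr hM
    exact this
  have h5 := huniq _ hcoat h4
  have h6 : y⁻¹ ∈ normalizer (M : Set G) := H1.mem_normalizer_iff_conj_smul.mpr h5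
  have h7 : y ∈ normalizer (M : Set G) := by simpa using inv_mem h6
  have h8 : normalizer (M : Set G) = ⊤ := by
    apply hM.2
    refine lt_of_le_of_ne le_normalizer ?_
    intro h
    rw [← h] at h7
    exact h2 h7
  have hMn : M.Normal := normalizer_eq_top_iff.mp h8
  apply hA
  have h9 := ih (Nat.card M) (by
      rw [← hn]
      have := H1.card_lt_of_lt' (lt_top_iff_ne_top.mpr hM.1)
      rwa [card_top] at this) M rfl ⟨g, hgM⟩ (by
      intro x
      obtain ⟨k, hk⟩ := hg x
      refine ⟨k, ?_⟩
      have h2 : ∀ k : ℕ, ∀ x : M, (((fun a : M => a * (⟨g, hgM⟩ : M) * a⁻¹ * (⟨g, hgM⟩ : M)⁻¹)^[k] x : M) : G) =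
          (fun a => a * g * a⁻¹ * g⁻¹)^[k] (x : G) := by
        intro k
        induction k with
        | zero => intro x; rfl
        | succ k ih' =>
          intro x
          rw [Function.iterate_succ_apply, Function.iterate_succ_apply, ih']
          rfl
      apply Subtype.ext
      rw [h2, hk]; rfl)
  have h10 : (zpowers g).subgroupOf M = zpowers (⟨g, hgM⟩ : M) := by
      ext y
      rw [mem_subgroupOf, mem_zpowers_iff, mem_zpowers_iff]
      constructor
      · rintro ⟨k, hk⟩; exact ⟨k, Subtype.ext (by rw [← hk]; rfl)⟩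
      · rintro ⟨k, hk⟩; exact ⟨k, by rw [← hk]; rfl⟩
  rw [← h10] at h9
  exact IsSubnormal.trans (zpowers_le.mpr hgM) h9 hMn.isSubnormal

theorem aux {G : Type*} [Group G] [Finite G] (g : G) :
    g ∈ Cfsg.fittingSubgroup G ↔ ∀ x : G, ∃ n : ℕ, (List.replicate n g).foldl (fun a b => a * b * a⁻¹ * b⁻¹) x = 1 := by
  simp only [foldl_eq]
  constructor
  · intro hg x
    haveI hFn : (Cfsg.fittingSubgroup G).Normal := H1.fitting_normal G
    set F := Cfsg.fittingSubgroup G with hF
    haveI hnil : Group.IsNilpotent F := H1.fitting_isNilpotent G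
    have hstep : ∀ k, ∀ a ∈ ((⊤ : Subgroup F).lowerCentralSeries k).map F.subtype,
        a * g * a⁻¹ * g⁻¹ ∈ ((⊤ : Subgroup F).lowerCentralSeries (k + 1)).map F.subtype := by
      rintro k _ ⟨a, ha, rfl⟩
      refine ⟨⁅a, ⟨g, hg⟩⁆, ?_, rfl⟩
      rw [SetLike.mem_coe, Subgroup.lowerCentralSeries_succ]
      exact commutator_mem_commutator ha (mem_top _)
    have hit : ∀ n k, ∀ a ∈ ((⊤ : Subgroup F).lowerCentralSeries k).map F.subtype,
        (fun a => a * g * a⁻¹ * g⁻¹)^[n] a ∈ ((⊤ : Subgroup F).lowerCentralSeries (k + n)).map F.subtype := by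
      intro n
      induction n with
      | zero => intro k a ha; exact ha
      | succ n ih =>
        intro k a ha
        rw [Function.iterate_succ_apply]
        have := ih (k + 1) _ (hstep k a ha)
        have h1 : k + 1 + n = k + (n + 1) := by omega
        rwa [h1] at this
    obtain ⟨c, hc⟩ := Subgroup.nilpotent_iff_lowerCentralSeries.mp hnil
    refine ⟨c + 1, ?_⟩
    rw [Function.iterate_succ_apply]
    have hxF : x * g * x⁻¹ * g⁻¹ ∈ F := mul_mem (hFn.conj_mem g hg x) (inv_mem hg)
    have h2 := hit c 0 _ (show x * g * x⁻¹ * g⁻¹ ∈ ((⊤ : Subgroup F).lowerCentralSeries 0).map F.subtype from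
      ⟨⟨_, hxF⟩, mem_top _, rfl⟩)
    rw [zero_add, hc, Subgroup.map_bot, mem_bot] at h2
    exact h2
  · intro hg
    have h1 := engel_subnormal _ G rfl g hg
    have h2 : Group.IsNilpotent (zpowers g) := by
      letI : CommGroup (zpowers g) := { (inferInstance : Group (zpowers g)) with mul_comm := (inferInstance : IsMulCommutative (zpowers g)).is_comm.comm }
      exact CommGroup.isNilpotent
    exact (H10.subnormal_nilpotent_le_fitting h1 h2) (mem_zpowers g)
end aux

/-- Baer's characterization of the Fitting subgroup: in a finite group G, an element g lies in the Fitting subgroup if and only if g is a left Engel element, that is, for every x there is n with [x, g, g, …, g] = 1 (n entries g, [a, b] = aba⁻¹b⁻¹). -/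
theorem result {G : Type*} [Group G] [Finite G] (g : G) :
    g ∈ Cfsg.fittingSubgroup G ↔ ∀ x : G, ∃ n : ℕ, (List.replicate n g).foldl (fun a b => a * b * a⁻¹ * b⁻¹) x = 1 := by
  exact aux g

end Cfsg.Agent.S3937
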