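import Cfsg.Statements.S3939
import Cfsg.Agent.H23.Nilp
import Cfsg.Agent.H23.Coprime2

set_option autoImplicit false
set_option linter.all false
open Cfsg

namespace Cfsg.Agent.S3939

section aux
open Subgroup
open scoped Pointwise commutatorElement
universe u

theorem ucs_subgroupOf {G : Type*} [Group G] (H : Subgroup G) (n : ℕ) :
    (Subgroup.upperCentralSeries G n).subgroupOf H ≤ Subgroup.upperCentralSeries H n := by
  induction n with
  | zero =>
    intro x hx
    rw [mem_subgroupOf, Subgroup.upperCentralSeries_zero, mem_bot] at hx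
    rw [Subgroup.upperCentralSeries_zero, mem_bot]
    exact Subtype.ext hx
  | succ n ih =>
    intro x hx
    rw [Subgroup.mem_upperCentralSeries_succ_iff]
    intro y
    apply ih
    rw [mem_subgroupOf] at hx ⊢
    exact Subgroup.mem_upperCentralSeries_succ_iff.mp hx (y : G)

theorem nil_of_ucs {G : Type*} [Group G] (g x : G) (n : ℕ) (hg : g ∈ Subgroup.upperCentralSeries G n) :
    Group.IsNilpotent ↥(Subgroup.closure ({x, g} : Set G)) := by
  set H := Subgroup.closure ({x, g} : Set G) with hH
  have hxH : x ∈ H := subset_closure (by simp)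
  have hgH : g ∈ H := subset_closure (by simp)
  set Z := Subgroup.upperCentralSeries H n with hZ
  have hgZ : (⟨g, hgH⟩ : H) ∈ Z := ucs_subgroupOf H n (by rw [mem_subgroupOf]; exact hg)
  have hcl : closure (((↑) : H → G) ⁻¹' ({x, g} : Set G)) = ⊤ := closure_closure_coe_preimage
  have hle : (⊤ : Subgroup H) ≤ (zpowers (QuotientGroup.mk' Z ⟨x, hxH⟩)).comap (QuotientGroup.mk' Z) := by
    rw [← hcl, closure_le]
    rintro ⟨y, hy⟩ hy'
    rcases hy' with h | h
    · have : (⟨y, hy⟩ : H) = ⟨x, hxH⟩ := Subtype.ext h
      rw [SetLike.mem_coe, mem_comap, this]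
      exact mem_zpowers _
    · have : (⟨y, hy⟩ : H) = ⟨g, hgH⟩ := Subtype.ext h
      rw [SetLike.mem_coe, mem_comap, this]
      have h1 : QuotientGroup.mk' Z ⟨g, hgH⟩ = 1 := (QuotientGroup.eq_one_iff _).mpr hgZ
      rw [h1]; exact one_mem _
  have htop : Subgroup.upperCentralSeries H (n + 1) = ⊤ := by
    rw [eq_top_iff]
    intro a _
    rw [Subgroup.mem_upperCentralSeries_succ_iff]
    intro b
    rw [← hZ, ← QuotientGroup.eq_one_iff]
    change QuotientGroup.mk' Z ⁅a, b⁆ = 1
    rw [map_commutatorElement, commutatorElement_eq_one_iff_commute]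
    obtain ⟨i, hi⟩ := mem_zpowers_iff.mp (mem_comap.mp (hle (mem_top a)))
    obtain ⟨j, hj⟩ := mem_zpowers_iff.mp (mem_comap.mp (hle (mem_top b)))
    rw [← hi, ← hj]
    exact (Commute.refl _).zpow_zpow i j
  exact ⟨⟨n + 1, htop⟩⟩

theorem key (n : ℕ) : ∀ (G : Type u) [Group G] [Finite G], Nat.card G = n → ∀ g : G,
    (∀ x : G, Group.IsNilpotent ↥(Subgroup.closure ({x, g} : Set G))) → ∃ m, g ∈ Subgroup.upperCentralSeries G m := by
  induction n using Nat.strong_induction_on with
  | _ n ih =>
  intro G _ _ hn g hg
  classical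
  by_cases hZ : center G = ⊥
  · refine ⟨0, ?_⟩
    rw [Subgroup.upperCentralSeries_zero, mem_bot]
    by_contra hg1
    -- an element of prime order
    obtain ⟨p, hp, hpd⟩ := Nat.exists_prime_and_dvd (fun h => hg1 (orderOf_eq_one_iff.mp h) : orderOf g ≠ 1)
    haveI := Fact.mk hp
    set g' := g ^ (orderOf g / p) with hg'
    have hog' : orderOf g' = p := orderOf_pow_orderOf_div (orderOf_pos g).ne' hpd
    have hp' : IsPGroup p (zpowers g') := IsPGroup.of_card (n := 1) (by rw [Nat.card_zpowers, hog', pow_one])
    have hcomm : ∀ (q : ℕ) (_ : Fact q.Prime), q ≠ p → ∀ y : G, IsPGroup q (zpowers y) → Commute y g' := by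
      intro q hq hqp y hy
      have hyH : y ∈ closure ({y, g} : Set G) := subset_closure (by simp)
      have hgH : g ∈ closure ({y, g} : Set G) := subset_closure (by simp)
      have h1 := H23.commute_of_isNilpotent (hg y) hqp (x := ⟨y, hyH⟩) (y := ⟨g', pow_mem hgH _⟩)
        (H23.isPGroup_zpowers_subtype.mp hy) (H23.isPGroup_zpowers_subtype.mp hp')
      exact congrArg Subtype.val h1
    set N := normalClosure ({g'} : Set G) with hN
    set C := centralizer (N : Set G) with hC
    have hqC : ∀ (q : ℕ) (_ : Fact q.Prime), q ≠ p → ∀ y : G, IsPGroup q (zpowers y) → y ∈ C := by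
      intro q hq hqp y hy
      have h1 : N ≤ centralizer ({y} : Set G) := by
        rw [hN, normalClosure, closure_le]
        rintro w hw
        rw [Group.mem_conjugatesOfSet_iff] at hw
        obtain ⟨a, ha, hw⟩ := hw
        rw [Set.mem_singleton_iff] at ha
        subst ha
        obtain ⟨t, ht⟩ := isConj_iff.mp hw
        rw [SetLike.mem_coe, mem_centralizer_singleton_iff, ← ht]
        have h2 : IsPGroup q (zpowers (t⁻¹ * y * t)) := by
          have : zpowers (t⁻¹ * y * t) = (zpowers y).map (MulAut.conj t⁻¹).toMonoidHom := by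
            rw [MonoidHom.map_zpowers]; simp
          rw [this]; exact hy.map _
        have h3 := (hcomm q hq hqp _ h2).eq
        calc t * g' * t⁻¹ * y = t * (g' * (t⁻¹ * y * t)) * t⁻¹ := by group
          _ = t * ((t⁻¹ * y * t) * g') * t⁻¹ := by rw [h3]
          _ = y * (t * g' * t⁻¹) := by group
      rw [hC, mem_centralizer_iff]
      intro w hw
      exact mem_centralizer_singleton_iff.mp (h1 hw)
    obtain ⟨P, hP⟩ := hp'.exists_le_sylow
    have hg'P : g' ∈ (P : Subgroup G) := hP (mem_zpowers g')
    have htop : (P : Subgroup G) ⊔ C = ⊤ := by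
      rw [eq_top_iff]
      apply H23.le_of_forall_isSylowOf_le
      intro q hq
      by_cases hpq : p = q
      · subst hpq
        refine ⟨P, ⟨(P.subtype (le_top : (P : Subgroup G) ≤ ⊤)), ?_⟩, le_sup_left⟩
        exact map_subgroupOf_eq_of_le le_top
      · obtain ⟨Q, hQ⟩ := H23.exists_isSylowOf q (⊤ : Subgroup G)
        refine ⟨Q, hQ, le_trans ?_ le_sup_right⟩
        intro y hy
        exact hqC q hq (Ne.symm hpq) y (H23.isPGroup_zpowers_of_mem hQ.isPGroup hy)
    have hg'N : g' ∈ N := subset_normalClosure (Set.mem_singleton _)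
    have h5 : (N.subgroupOf (P : Subgroup G)) ≠ ⊥ := by
      intro h
      have : (⟨g', hg'P⟩ : (P : Subgroup G)) ∈ N.subgroupOf (P : Subgroup G) := by rw [mem_subgroupOf]; exact hg'N
      rw [h, mem_bot] at this
      have h6 := congrArg Subtype.val this
      simp only [OneMemClass.coe_one] at h6
      rw [h6, orderOf_one] at hog'
      exact hp.one_lt.ne hog'
    have h6 := H23.inf_center_ne_bot P.isPGroup' h5
    rw [Ne, eq_bot_iff_forall] at h6
    push Not at h6
    obtain ⟨z, hz, hz1⟩ := h6
    have hzN : (z : G) ∈ N := mem_subgroupOf.mp (mem_inf.mp hz).1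
    have hzZ : z ∈ center (P : Subgroup G) := (mem_inf.mp hz).2
    have h7 : (⊤ : Subgroup G) ≤ centralizer ({(z : G)} : Set G) := by
      rw [← htop]
      apply sup_le
      · intro y hy
        rw [mem_centralizer_singleton_iff]
        exact congrArg Subtype.val (mem_center_iff.mp hzZ ⟨y, hy⟩)
      · intro y hy
        rw [mem_centralizer_singleton_iff]
        exact (mem_centralizer_iff.mp hy z hzN).symm
    have h8 : (z : G) ∈ center G := by
      rw [mem_center_iff]
      intro y
      exact mem_centralizer_singleton_iff.mp (h7 (mem_top y))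
    rw [hZ, mem_bot] at h8
    exact hz1 (Subtype.ext h8)
  · have hlt : Nat.card (G ⧸ center G) < n := by
      rw [← hn]
      have h1 := card_mul_index (center G)
      have h2 : Nat.card (center G) ≠ 1 := fun h => hZ (card_eq_one.mp h)
      have h3 : 0 < Nat.card (center G) := Nat.card_pos
      have h4 : 0 < (center G).index := Nat.pos_of_ne_zero index_ne_zero_of_finite
      rw [← h1]
      change (center G).index < _
      nlinarith [show 2 ≤ Nat.card (center G) by omega]
    obtain ⟨m, hm⟩ := ih _ hlt (G ⧸ center G) rfl (QuotientGroup.mk' (center G) g) (by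
      intro x
      obtain ⟨x, rfl⟩ := QuotientGroup.mk'_surjective (center G) x
      have h1 : closure ({QuotientGroup.mk' (center G) x, QuotientGroup.mk' (center G) g} : Set (G ⧸ center G)) =
          (closure ({x, g} : Set G)).map (QuotientGroup.mk' (center G)) := by
        rw [MonoidHom.map_closure, Set.image_pair]
      rw [h1]
      haveI := hg x
      exact _root_.Group.nilpotent_of_surjective _ ((QuotientGroup.mk' (center G)).subgroupMap_surjective _))
    refine ⟨m + 1, ?_⟩
    rw [← Subgroup.comap_upperCentralSeries_quotient_center]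
    exact hm

theorem aux {G : Type*} [Group G] [Finite G] (g : G) :
    (∀ x : G, Group.IsNilpotent ↥(Subgroup.closure ({x, g} : Set G))) ↔ g ∈ ⨆ n : ℕ, Subgroup.upperCentralSeries G n := by
  constructor
  · intro h
    obtain ⟨m, hm⟩ := key _ G rfl g h
    exact mem_iSup_of_mem m hm
  · intro h x
    rw [mem_iSup_of_directed (Subgroup.upperCentralSeries_mono G).directed_le] at h
    obtain ⟨n, hn⟩ := h
    exact nil_of_ucs g x n hn
end aux

/-- In a finite group G the set of elements g such that the subgroup generated by g and x is nilpotent for every x ∈ G is exactly the hypercenter of G (the last term of the upper central series). -/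
theorem result {G : Type*} [Group G] [Finite G] (g : G) :
    (∀ x : G, Group.IsNilpotent ↥(Subgroup.closure ({x, g} : Set G))) ↔ g ∈ ⨆ n : ℕ, Subgroup.upperCentralSeries G n := by
  exact aux g

end Cfsg.Agent.S3939
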