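import Cfsg.Statements.S3941

set_option autoImplicit false
set_option linter.all false
open Cfsg

namespace Cfsg.Agent.S3941

open Equiv Equiv.Perm Subgroup

/-- Let n ≥ 5 and p an odd prime with p ≤ n, and suppose that every proper subgroup of the alternating group of degree n whose order is divisible by p has a normal Sylow p-subgroup. Then n = p. -/
theorem result (n p : ℕ) (hn : 5 ≤ n) [Fact p.Prime] (hp : p ≠ 2) (hpn : p ≤ n)
    (h : ∀ H : Subgroup ↥(alternatingGroup (Fin n)), H ≠ ⊤ → p ∣ Nat.card ↥H → Cfsg.IsPClosed p ↥H) : n = p := by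
  classical
  have hpp : p.Prime := Fact.out
  by_contra hne
  have hpn1 : p ≤ n - 1 := by omega
  let L : Fin n := ⟨n - 1, by omega⟩
  let H : Subgroup ↥(alternatingGroup (Fin n)) :=
    (MulAction.stabilizer (Perm (Fin n)) L).subgroupOf (alternatingGroup (Fin n))
  have hmemH : ∀ g : ↥(alternatingGroup (Fin n)), g ∈ H ↔ (g : Perm (Fin n)) L = L := fun g => Iff.rfl
  have hHtop : H ≠ ⊤ := by
    intro h1
    let a : Fin n := ⟨0, by omega⟩
    let b : Fin n := ⟨1, by omega⟩
    have hLa : L ≠ a := by intro h; have := congrArg Fin.val h; simp only [L, a] at this; omega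
    have hLb : L ≠ b := by intro h; have := congrArg Fin.val h; simp only [L, b] at this; omega
    have hab : a ≠ b := by intro h; have := congrArg Fin.val h; simp only [a, b] at this; omega
    have h2 := (isThreeCycle_swap_mul_swap_same hLa hLb hab).mem_alternatingGroup
    have h3 : (⟨_, h2⟩ : ↥(alternatingGroup (Fin n))) ∈ H := by rw [h1]; exact mem_top _
    rw [hmemH] at h3
    have h4 : (swap L a * swap L b) L = b := by
      rw [Perm.mul_apply, swap_apply_left, swap_apply_of_ne_of_ne hLb.symm hab.symm]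
    have h5 : b = L := h4.symm.trans h3
    exact hLb h5.symm
  -- evenness
  have heven : ∀ g : Perm (Fin n), g ^ p = 1 → g ∈ alternatingGroup (Fin n) := by
    intro g hg
    rw [mem_alternatingGroup]
    rcases Int.units_eq_one_or (sign g) with h1 | h1
    · exact h1
    · exfalso
      have h2 : (sign g) ^ p = 1 := by rw [← map_pow, hg, map_one]
      rw [h1, Odd.neg_one_pow (hpp.odd_of_ne_two hp)] at h2
      exact absurd h2 (by decide)
  obtain ⟨c, hc, hcL⟩ : ∃ c : Perm (Fin n), orderOf c = p ∧ c L = L := by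
    have h1 : p ∣ Nat.card (Perm {x : Fin n // x ≠ L}) := by
      rw [Nat.card_eq_fintype_card, Fintype.card_perm]
      apply (Nat.Prime.dvd_factorial hpp).2
      have : Fintype.card {x : Fin n // x ≠ L} = n - 1 := by
        rw [Fintype.card_subtype_compl, Fintype.card_fin, Fintype.card_subtype_eq]
      rw [this]; exact hpn1
    obtain ⟨σ, hσ⟩ := exists_prime_orderOf_dvd_card' p h1
    refine ⟨ofSubtype σ, ?_, ?_⟩
    · rw [← hσ]; exact orderOf_injective _ ofSubtype_injective σ
    · exact ofSubtype_apply_of_not_mem σ (by simp)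
  have hcp : c ^ p = 1 := by rw [← hc, pow_orderOf_eq_one]
  have hpH : p ∣ Nat.card H := by
    have h1 : (⟨⟨c, heven c hcp⟩, hcL⟩ : H) ^ p = 1 := Subtype.ext (Subtype.ext hcp)
    have h2 : orderOf (⟨⟨c, heven c hcp⟩, hcL⟩ : H) = p := by
      apply orderOf_eq_prime h1
      intro h3
      have h4 : c = 1 := congrArg (fun x : H => ((x : ↥(alternatingGroup (Fin n))) : Perm (Fin n))) h3
      rw [h4, orderOf_one] at hc
      exact hpp.one_lt.ne hc
    rw [← h2]; exact orderOf_dvd_natCard _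
  have hcl := h H hHtop hpH
  obtain ⟨P⟩ : Nonempty (Sylow p H) := inferInstance
  haveI hPn : (P : Subgroup H).Normal := hcl P
  have hinP : ∀ g : H, g ^ p = 1 → g ∈ (P : Subgroup H) := by
    intro g hg
    have h1 : IsPGroup p (zpowers g) := by
      rintro ⟨x, hx⟩
      obtain ⟨k, rfl⟩ := mem_zpowers_iff.1 hx
      refine ⟨1, Subtype.ext ?_⟩
      show (g ^ k) ^ p ^ 1 = 1
      rw [pow_one, ← zpow_natCast, ← zpow_mul, mul_comm, zpow_mul, zpow_natCast, hg, one_zpow]
    obtain ⟨Q, hQ⟩ := h1.exists_le_sylow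
    obtain ⟨x, hx⟩ := MulAction.exists_smul_eq H P Q
    rw [Sylow.smul_eq_of_normal] at hx
    rw [hx]
    exact hQ (mem_zpowers g)
  -- predicate
  let InP : Perm (Fin n) → Prop := fun g => ∃ x : H, x ∈ (P : Subgroup H) ∧ ((x : ↥(alternatingGroup (Fin n))) : Perm (Fin n)) = g
  have hInP : ∀ g : Perm (Fin n), g L = L → g ^ p = 1 → InP g := fun g h1 h2 =>
    ⟨⟨⟨g, heven g h2⟩, h1⟩, hinP _ (Subtype.ext (Subtype.ext h2)), rfl⟩
  have hInPmul : ∀ g g', InP g → InP g' → InP (g * g') := by
    rintro _ _ ⟨x, hx, rfl⟩ ⟨y, hy, rfl⟩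
    exact ⟨x * y, mul_mem hx hy, rfl⟩
  have hInPinv : ∀ g, InP g → InP g⁻¹ := by
    rintro _ ⟨x, hx, rfl⟩
    exact ⟨x⁻¹, inv_mem hx, rfl⟩
  have hInPord : ∀ g, InP g → ∃ k : ℕ, g ^ p ^ k = 1 := by
    rintro _ ⟨x, hx, rfl⟩
    obtain ⟨k, hk⟩ := P.2 ⟨x, hx⟩
    refine ⟨k, ?_⟩
    have h1 : x ^ p ^ k = 1 := congrArg Subtype.val hk
    have h2 := congrArg (fun x : H => ((x : ↥(alternatingGroup (Fin n))) : Perm (Fin n))) h1
    exact h2
  have hcInP := hInP c hcL hcp
  obtain ⟨a, ha⟩ : ∃ a, c a ≠ a := by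
    by_contra hcon
    push Not at hcon
    have : c = 1 := Equiv.ext hcon
    rw [this, orderOf_one] at hc
    exact hpp.one_lt.ne hc
  obtain ⟨b, hb⟩ : ∃ b, b = c a := ⟨_, rfl⟩
  obtain ⟨d, hd⟩ : ∃ d, d = c b := ⟨_, rfl⟩
  have hab : a ≠ b := by rw [hb]; exact ha.symm
  have hbd : b ≠ d := by
    intro h1
    rw [hd] at h1
    nth_rewrite 1 [hb] at h1
    exact hab (c.injective h1)
  have had : a ≠ d := by
    intro h1
    have h2 : (c ^ 2) a = a := by rw [pow_two, Perm.mul_apply, ← hb, ← hd, ← h1]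
    obtain ⟨k, hk⟩ := hpp.odd_of_ne_two hp
    have h3 : ((c ^ 2) ^ k) a = a := by
      clear hk
      induction k with
      | zero => simp
      | succ k ih => rw [pow_succ, Perm.mul_apply, h2, ih]
    have h4 : (c ^ p) a = c a := by
      rw [hk, pow_succ', pow_mul, Perm.mul_apply, h3]
    rw [hcp] at h4
    exact ha h4.symm
  have haL : a ≠ L := by rintro rfl; exact ha hcL
  have hbL : b ≠ L := by
    intro h1; apply haL
    apply c.injective
    rw [← hb, h1, hcL]
  have hdL : d ≠ L := by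
    intro h1; apply hbL
    apply c.injective
    rw [← hd, h1, hcL]
  have hsw : ∀ x y : Fin n, x ≠ L → y ≠ L → (swap x y) L = L := fun x y hx hy =>
    swap_apply_of_ne_of_ne hx.symm hy.symm
  obtain ⟨c', hc'⟩ : ∃ c', c' = swap a b * c * (swap a b)⁻¹ := ⟨_, rfl⟩
  have hc'InP : InP c' := by
    apply hInP
    · rw [hc', Perm.mul_apply, Perm.mul_apply, swap_inv, hsw a b haL hbL, hcL, hsw a b haL hbL]
    · rw [hc', conj_pow, hcp, mul_one, mul_inv_cancel]
  have hs : c' * c⁻¹ = swap b a * swap b d := by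
    have h1 : c * swap a b * c⁻¹ = swap b d := by
      rw [← swap_apply_apply, ← hb, ← hd]
    rw [hc', swap_inv, mul_assoc, mul_assoc, ← mul_assoc c, h1, swap_comm a b]
  obtain ⟨s, hsdef⟩ : ∃ s, s = swap b a * swap b d := ⟨_, rfl⟩
  have hs3 : s.IsThreeCycle := by rw [hsdef]; exact isThreeCycle_swap_mul_swap_same hab.symm hbd had
  have hsInP : InP s := by rw [hsdef, ← hs]; exact hInPmul _ _ hc'InP (hInPinv _ hcInP)
  have hp3 : p = 3 := by
    obtain ⟨k, hk⟩ := hInPord s hsInP
    have h1 := orderOf_dvd_of_pow_eq_one hk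
    rw [hs3.orderOf] at h1
    exact ((Nat.prime_dvd_prime_iff_eq Nat.prime_three hpp).1 (Nat.prime_three.dvd_of_dvd_pow h1)).symm
  obtain ⟨w, hw⟩ : ∃ w : Fin n, w ∉ ({a, b, d, L} : Finset (Fin n)) := by
    by_contra hcon
    push Not at hcon
    have h1 : (Finset.univ : Finset (Fin n)).card ≤ ({a, b, d, L} : Finset (Fin n)).card :=
      Finset.card_le_card (fun x _ => hcon x)
    rw [Finset.card_univ, Fintype.card_fin] at h1
    have h2 : ({a, b, d, L} : Finset (Fin n)).card ≤ 4 := Finset.card_le_four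
    omega
  simp only [Finset.mem_insert, Finset.mem_singleton, not_or] at hw
  obtain ⟨hwa, hwb, hwd, hwL⟩ := hw
  have hs'InP : InP (swap b a * swap b w) := by
    have h3c : (swap b a * swap b w).IsThreeCycle := isThreeCycle_swap_mul_swap_same hab.symm (Ne.symm hwb) (Ne.symm hwa)
    apply hInP
    · rw [Perm.mul_apply, hsw b w hbL hwL, hsw b a hbL haL]
    · rw [hp3, ← h3c.orderOf, pow_orderOf_eq_one]
  have hprod : s * (swap b a * swap b w) = swap a d * swap b w := by
    rw [hsdef]
    have h1 : swap b a * swap b d * swap b a = swap a d := by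
      have := swap_apply_apply (swap b a) b d
      rw [swap_inv, swap_apply_left, swap_apply_of_ne_of_ne hbd.symm had.symm] at this
      exact this.symm
    rw [← mul_assoc, h1]
  have hx := hInPmul _ _ hsInP hs'InP
  rw [hprod] at hx
  have hx2 : (swap a d * swap b w) ^ 2 = 1 := by
    have h1 : Commute (swap a d) (swap b w) := by
      apply Disjoint.commute
      apply disjoint_swap_swap
      simp only [List.nodup_cons, List.mem_cons, List.not_mem_nil, or_false, not_or, not_false_eq_true, List.nodup_nil,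
        and_true]
      exact ⟨⟨had, hab, Ne.symm hwa⟩, ⟨hbd.symm, Ne.symm hwd⟩, Ne.symm hwb⟩
    rw [h1.mul_pow, pow_two, pow_two, swap_mul_self, swap_mul_self, one_mul]
  obtain ⟨k, hk⟩ := hInPord _ hx
  have h1 : orderOf (swap a d * swap b w) ∣ 2 := orderOf_dvd_of_pow_eq_one hx2
  have h2 : orderOf (swap a d * swap b w) ∣ 3 ^ k := by rw [← hp3]; exact orderOf_dvd_of_pow_eq_one hk
  have h3 : orderOf (swap a d * swap b w) = 1 :=
    Nat.eq_one_of_dvd_coprimes (Nat.Coprime.pow_right k (by norm_num)) h1 h2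
  rw [orderOf_eq_one_iff] at h3
  have h4 : (swap a d * swap b w) a = d := by
    rw [Perm.mul_apply, swap_apply_of_ne_of_ne hab (Ne.symm hwa), swap_apply_left]
  rw [h3] at h4
  exact had h4

end Cfsg.Agent.S3941
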