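import Cfsg.Statements.S3946
import Cfsg.Agent.H23.Kegel

set_option autoImplicit false
set_option linter.all false
open Cfsg

namespace Cfsg.Agent.S3946

open Subgroup


/-- Call an automorphism α of order n of a group G splitting when x · α(x) · α²(x) ⋯ α^(n−1)(x) = 1 for every x ∈ G. A finite group admitting a splitting automorphism of prime order is nilpotent (this contains the case of a fixed-point-free automorphism of prime order). -/
theorem result {G : Type*} [Group G] [Finite G] (α : MulAut G) (hp : (orderOf α).Prime)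
    (hsplit : ∀ x : G, (((List.range (orderOf α)).map (fun i : ℕ => (α ^ i) x)).prod = 1)) : Group.IsNilpotent G := by
  classical
  set p := orderOf α with hpdef
  haveI : Fact p.Prime := ⟨hp⟩
  set A : Subgroup (MulAut G) := zpowers α with hA
  set φ : A →* MulAut G := A.subtype with hφ
  set a : A := ⟨α, mem_zpowers α⟩ with ha
  haveI : Finite (MulAut G) := inferInstance
  haveI : Finite (G ⋊[φ] A) := Finite.of_equiv _ (SemidirectProduct.equivProd (φ := φ)).symm
  have hcardA : Nat.card A = p := Nat.card_zpowers α
  have ha1 : orderOf a = p := by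
    rw [hpdef, ← Subgroup.orderOf_coe]
  have hapow : a ^ p = 1 := by rw [← ha1, pow_orderOf_eq_one]
  have hpow : ∀ (g : G) (k : ℕ), ((⟨g, a⟩ : G ⋊[φ] A) ^ k) =
      ⟨((List.range k).map (fun i : ℕ => (α ^ i) g)).prod, a ^ k⟩ := by
    intro g k
    induction k with
    | zero => rfl
    | succ k ih =>
      rw [pow_succ, ih]
      ext
      · rw [SemidirectProduct.mul_left, List.range_succ, List.map_append, List.prod_append]
        simp [hφ, ha]
      · rw [SemidirectProduct.mul_right, pow_succ]
  have hcoset : ∀ x : G ⋊[φ] A, x.right = a → x ^ p = 1 := by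
    intro x hx
    have h1 : x = ⟨x.left, a⟩ := by
      ext
      · rfl
      · rw [hx]
    rw [h1, hpow, hsplit, hapow]
    rfl
  set N : Subgroup (G ⋊[φ] A) := (SemidirectProduct.inl : G →* G ⋊[φ] A).range with hN
  have hNker : N = (SemidirectProduct.rightHom : G ⋊[φ] A →* A).ker := by
    rw [hN, SemidirectProduct.range_inl_eq_ker_rightHom]
  have hNn : N.Normal := by rw [hNker]; infer_instance
  have hNidx : N.index = p := by
    rw [hNker, index_ker, MonoidHom.range_eq_top.mpr SemidirectProduct.rightHom_surjective,
      Subgroup.card_top, hcardA]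
  have hord : ∀ x : G ⋊[φ] A, x ∉ N → x ^ p = 1 := by
    intro x hx
    have hb : x.right ≠ 1 := by
      intro h
      apply hx
      rw [hNker, MonoidHom.mem_ker]
      exact h
    have hbord : orderOf x.right = p := by
      have h1 : orderOf x.right ∣ p := by rw [← hcardA]; exact orderOf_dvd_natCard _
      rcases (Nat.dvd_prime hp).mp h1 with h | h
      · exact absurd (orderOf_eq_one_iff.mp h) hb
      · exact h
    have hz : zpowers x.right = ⊤ := by
      rw [← card_eq_iff_eq_top, Nat.card_zpowers, hbord, hcardA]
    have hmem : a ∈ zpowers x.right := by rw [hz]; exact mem_top _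
    rw [← mem_powers_iff_mem_zpowers] at hmem
    obtain ⟨m, hm⟩ := hmem
    change x.right ^ m = a at hm
    have hright : ∀ k : ℕ, (x ^ k).right = x.right ^ k := fun k =>
      map_pow (SemidirectProduct.rightHom : G ⋊[φ] A →* A) x k
    have h1 : (x ^ m) ^ p = 1 := hcoset _ (by rw [hright, hm])
    have h2 : (x ^ (m + p)) ^ p = 1 := hcoset _ (by
      rw [hright, pow_add, hm, ← hbord, pow_orderOf_eq_one, mul_one])
    rw [← pow_mul] at h1 h2
    have h3 : x ^ (p * p) = 1 := by
      have h4 : (m + p) * p = m * p + p * p := by ring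
      rw [h4, pow_add, h1, one_mul] at h2
      exact h2
    have hcop : m.Coprime p := by
      apply Nat.Coprime.symm
      rw [Nat.Prime.coprime_iff_not_dvd hp]
      rintro ⟨c, hc⟩
      have h5 : a = 1 := by
        rw [← hm, hc, pow_mul, ← hbord, pow_orderOf_eq_one, one_pow]
      rw [h5, orderOf_one] at ha1
      exact hp.one_lt.ne ha1
    have h6 : orderOf x ∣ Nat.gcd (m * p) (p * p) :=
      Nat.dvd_gcd (orderOf_dvd_of_pow_eq_one h1) (orderOf_dvd_of_pow_eq_one h3)
    rw [Nat.gcd_mul_right, hcop.gcd_eq_one, one_mul] at h6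
    exact orderOf_dvd_iff_pow_eq_one.mp h6
  have hnil := Cfsg.Agent.H23.kegel_main p (Nat.card (G ⋊[φ] A)) (G ⋊[φ] A) N hNn le_rfl hNidx hord
  exact Group.nilpotent_of_mulEquiv (MonoidHom.ofInjective
    (SemidirectProduct.inl_injective : Function.Injective (SemidirectProduct.inl : G →* G ⋊[φ] A))).symm

end Cfsg.Agent.S3946
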