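import Cfsg.Statements.S3947
import Cfsg.Agent.H23.ZipperVar2

set_option autoImplicit false
set_option linter.all false
open Cfsg

namespace Cfsg.Agent.S3947

section aux
open Subgroup
open scoped Pointwise

theorem aux {G : Type*} [Group G] [Finite G] (A : Subgroup G) (hA : Subgroup.normalClosure (A : Set G) = ⊤) (hAG : A ≠ ⊤) :
    sSup {H : Subgroup G | A ≤ H ∧ H ≠ ⊤ ∧ Subgroup.normalClosure ((A.subgroupOf H : Subgroup ↥H) : Set ↥H) = ⊤} = ⊤ ∨
      ∃! M : Subgroup G, IsCoatom M ∧ A ≤ M := by
  have hset : {H : Subgroup G | A ≤ H ∧ H ≠ ⊤ ∧ Subgroup.normalClosure ((A.subgroupOf H : Subgroup ↥H) : Set ↥H) = ⊤} = H23.HF A := by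
    ext H
    rw [H23.mem_HF_iff]
    rfl
  rw [hset]
  by_cases hY : sSup (H23.HF A) = ⊤
  · exact Or.inl hY
  refine Or.inr ?_
  have hcl : ∀ N : Subgroup G, N.Normal → A ≤ N → N = ⊤ := by
    intro N hN hAN
    have h1 : normalClosure (A : Set G) ≤ N := normalClosure_le_normal hAN
    rw [hA] at h1
    exact top_le_iff.mp h1
  have hU := H23.zipper_var_aux _ A rfl hAG hcl hY
  obtain ⟨M, hM, hAM⟩ := (eq_top_or_exists_le_coatom A).resolve_left hAG
  exact ⟨M, ⟨hM, hAM⟩, fun W hW => hU W M hW.1 hM hW.2 hAM⟩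
end aux

/-- Let G be a finite group and A a proper subgroup of G whose normal closure is G. Let Y be the join of all proper subgroups H of G that contain A and are generated by their own conjugates of A (the normal closure of A in H is H). Then either Y = G, or A is contained in exactly one maximal subgroup of G. -/
theorem result {G : Type*} [Group G] [Finite G] (A : Subgroup G) (hA : Subgroup.normalClosure (A : Set G) = ⊤) (hAG : A ≠ ⊤) :
    sSup {H : Subgroup G | A ≤ H ∧ H ≠ ⊤ ∧ Subgroup.normalClosure ((A.subgroupOf H : Subgroup ↥H) : Set ↥H) = ⊤} = ⊤ ∨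
      ∃! M : Subgroup G, IsCoatom M ∧ A ≤ M := by
  exact aux A hA hAG

end Cfsg.Agent.S3947
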