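import Cfsg.Statements.S3949

set_option autoImplicit false
set_option linter.all false
open Cfsg

namespace Cfsg.Agent.S3949

section aux
theorem aux {G : Type*} [Group G] [Finite G] (α : MulAut G) (hα : orderOf α = 2) (hG : Subgroup.closure (Set.range (fun c : G => c * (α c)⁻¹)) = ⊤)
    (j : ℕ) (hj : ∀ g : G, α g = g⁻¹ → ¬ 2 ^ j ∣ orderOf g) :
    Set.range ((fun c : G => c * (α c)⁻¹)^[j]) = {g : G | Odd (orderOf g) ∧ α g = g⁻¹} := by
  have hαα : ∀ c, α (α c) = c := by
    intro c
    have h1 : α ^ 2 = 1 := by rw [← hα]; exact pow_orderOf_eq_one α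
    have h2 : (α ^ 2) c = c := by rw [h1]; rfl
    rwa [pow_two] at h2
  have hinv : ∀ c, α (c * (α c)⁻¹) = (c * (α c)⁻¹)⁻¹ := by
    intro c
    rw [map_mul, map_inv, hαα, mul_inv_rev, inv_inv]
  have hit : ∀ n : ℕ, ∀ c, α c = c⁻¹ → (fun c : G => c * (α c)⁻¹)^[n] c = c ^ (2 ^ n) := by
    intro n
    induction n with
    | zero => intro c _; simp
    | succ n ih =>
      intro c hc
      rw [Function.iterate_succ_apply]
      have h1 : c * (α c)⁻¹ = c ^ 2 := by simp only [hc, inv_inv, pow_two]
      rw [h1, ih, ← pow_mul, pow_succ, mul_comm]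
      rw [map_pow, hc, inv_pow]
  rcases j with _ | k
  · exact absurd (one_dvd _) (hj 1 (by simp))
  ext x
  simp only [Set.mem_range, Set.mem_setOf_eq]
  constructor
  · rintro ⟨c, rfl⟩
    rw [Function.iterate_succ_apply]
    rw [hit k _ (hinv c)]
    set g := c * (α c)⁻¹ with hg
    have hgi : α g = g⁻¹ := hinv c
    refine ⟨?_, by rw [map_pow, hgi, inv_pow]⟩
    obtain ⟨a, m, hm, ham⟩ := Nat.exists_eq_two_pow_mul_odd (orderOf_pos g).ne'
    have hak : a ≤ k := by
      by_contra h
      push Not at h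
      apply hj g hgi
      rw [ham]
      exact (pow_dvd_pow 2 h).mul_right m
    have h1 : (g ^ 2 ^ k) ^ m = 1 := by
      rw [← pow_mul]
      apply orderOf_dvd_iff_pow_eq_one.mp
      rw [ham]
      exact mul_dvd_mul_right (pow_dvd_pow 2 hak) m
    exact Odd.of_dvd_nat hm (orderOf_dvd_of_pow_eq_one h1)
  · rintro ⟨hodd, hx⟩
    have hcop : (2 ^ (k + 1)).Coprime (orderOf x) := (Nat.coprime_two_left.mpr hodd).pow_left _
    obtain ⟨m, hm⟩ := exists_pow_eq_self_of_coprime hcop
    refine ⟨x ^ m, ?_⟩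
    rw [hit (k + 1) _ (by rw [map_pow, hx, inv_pow]), ← pow_mul, mul_comm, pow_mul, hm]
end aux

/-- Let G be a finite group and α an automorphism of G of order 2 such that the elements g·α(g)⁻¹ generate G. Let j be a positive integer such that 2^j divides the order of no element inverted by α. Then the set of values of the j-th iterate of the map c ↦ c·α(c)⁻¹ is exactly the set of elements of odd order inverted by α. -/
theorem result {G : Type*} [Group G] [Finite G] (α : MulAut G) (hα : orderOf α = 2) (hG : Subgroup.closure (Set.range (fun c : G => c * (α c)⁻¹)) = ⊤)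
    (j : ℕ) (hj : ∀ g : G, α g = g⁻¹ → ¬ 2 ^ j ∣ orderOf g) :
    Set.range ((fun c : G => c * (α c)⁻¹)^[j]) = {g : G | Odd (orderOf g) ∧ α g = g⁻¹} := by
  exact aux α hα hG j hj

end Cfsg.Agent.S3949
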