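import Cfsg.Statements.S3982
import Cfsg.Agent.H24.TI
import Cfsg.Agent.H24.Engel
import Cfsg.Agent.H24.CoprimeLift2
import Cfsg.Agent.H1.Coprime2

set_option autoImplicit false
open Cfsg

namespace Cfsg.Agent.S3982

/-- Let p be an odd prime and G a finite group of even order divisible by p in which the centralizer of every non-identity p-element has odd order. If some nontrivial p-subgroup of G has a normalizer of even order, then the normalizer of every Sylow p-subgroup of G has even order. -/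
theorem result {G : Type*} [Group G] [Finite G] (p : ℕ) [Fact p.Prime] (hp2 : p ≠ 2) (hpG : p ∣ Nat.card G) (h2G : 2 ∣ Nat.card G) (hC : ∀ g : G, g ≠ 1 → (∃ k : ℕ, orderOf g = p ^ k) → Odd (Nat.card ↥(Subgroup.centralizer ({g} : Set G)))) (Q : Subgroup G) (hQ : IsPGroup p ↥Q) (hQ1 : Q ≠ ⊥) (hev : Even (Nat.card ↥(Subgroup.normalizer (Q : Set G)))) (P : Sylow p G) : Even (Nat.card ↥(Subgroup.normalizer ((P : Subgroup G) : Set G))) := by
  classical
  have hp := Fact.out (p := p.Prime)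
  have hf2 : Fact (Nat.Prime 2) := ⟨Nat.prime_two⟩
  -- the involution
  obtain ⟨⟨y, hyQ⟩, hy0⟩ := exists_prime_orderOf_dvd_card' 2 (even_iff_two_dvd.1 hev)
  have hy : orderOf y = 2 := by rw [← hy0, Subgroup.orderOf_mk]
  have hyy : y * y = 1 := by
    have := pow_orderOf_eq_one y
    rwa [hy, pow_two] at this
  have hyinv : y⁻¹ = y := inv_eq_of_mul_eq_one_left hyy
  -- `y` commutes with no `p`-element
  have hyC : ∀ g : G, g ≠ 1 → (∃ k : ℕ, orderOf g = p ^ k) → y * g ≠ g * y := by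
    intro g hg1 hg h
    have h1 := hC g hg1 hg
    have h2 : y ∈ Subgroup.centralizer ({g} : Set G) := Subgroup.mem_centralizer_singleton_iff.2 h
    have h3 : 2 ∣ Nat.card (Subgroup.centralizer ({g} : Set G)) := by
      rw [← hy]; exact Subgroup.orderOf_dvd_natCard _ h2
    exact (Nat.not_even_iff_odd.2 h1) (even_iff_two_dvd.2 h3)
  -- maximal `y`-invariant `p`-subgroup
  obtain ⟨R, hRmax⟩ := (Set.toFinite {R : Subgroup G | IsPGroup p ↥R ∧ Q ≤ R ∧
    y ∈ Subgroup.normalizer (R : Set G)}).exists_maximal ⟨Q, hQ, le_rfl, hyQ⟩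
  obtain ⟨hRp, hQR, hyR⟩ := hRmax.prop
  have hRne : R ≠ ⊥ := fun h => hQ1 (eq_bot_iff.2 (h ▸ hQR))
  -- `y` inverts `R`
  have hinvR : ∀ r ∈ R, y * r * y⁻¹ = r⁻¹ := by
    let f : R → R := fun r => ⟨(r : G)⁻¹ * (y * r * y⁻¹), R.mul_mem (R.inv_mem r.2)
      ((Subgroup.mem_normalizer_iff.1 hyR r).1 r.2)⟩
    have hinj : Function.Injective f := by
      intro a b hab
      have h1 : (a : G)⁻¹ * (y * a * y⁻¹) = (b : G)⁻¹ * (y * b * y⁻¹) := congrArg Subtype.val hab
      by_contra hne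
      have h2 : (b : G) * (a : G)⁻¹ ≠ 1 := by
        intro h
        apply hne
        exact (Subtype.ext (mul_inv_eq_one.1 h)).symm
      apply hyC _ h2 (Cfsg.Agent.H24.exists_orderOf_eq_pow_of_mem hRp (R.mul_mem b.2 (R.inv_mem a.2)))
      have h3 : (y * b * y⁻¹) * (y * a * y⁻¹)⁻¹ = (b : G) * (a : G)⁻¹ := by
        calc (y * b * y⁻¹) * (y * a * y⁻¹)⁻¹
            = b * ((b : G)⁻¹ * (y * b * y⁻¹)) * (y * a * y⁻¹)⁻¹ := by group
          _ = b * ((a : G)⁻¹ * (y * a * y⁻¹)) * (y * a * y⁻¹)⁻¹ := by rw [h1]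
          _ = (b : G) * (a : G)⁻¹ := by group
      calc y * ((b : G) * (a : G)⁻¹) = ((y * b * y⁻¹) * (y * a * y⁻¹)⁻¹) * y := by group
        _ = _ := by rw [h3]
    have hsurj : Function.Surjective f := Finite.surjective_of_injective hinj
    intro r hr
    obtain ⟨s, hs⟩ := hsurj ⟨r, hr⟩
    have h1 : (s : G)⁻¹ * (y * s * y⁻¹) = r := congrArg Subtype.val hs
    rw [← h1]
    calc y * ((s : G)⁻¹ * (y * s * y⁻¹)) * y⁻¹
        = (y * s * y⁻¹)⁻¹ * ((y * y) * s * (y * y)⁻¹) := by group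
      _ = (y * s * y⁻¹)⁻¹ * s := by rw [hyy]; group
      _ = _ := by group
  have hRab : ∀ a ∈ R, ∀ b ∈ R, a * b = b * a := by
    intro a ha b hb
    have h1 := hinvR (a * b) (R.mul_mem ha hb)
    have h2 : y * (a * b) * y⁻¹ = (y * a * y⁻¹) * (y * b * y⁻¹) := by group
    rw [h2, hinvR a ha, hinvR b hb, mul_inv_rev] at h1
    have h3 := congrArg (fun t => t⁻¹) h1
    simpa using h3.symm
  set N := Subgroup.normalizer (R : Set G) with hN
  set C := Subgroup.centralizer (R : Set G) with hCdef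
  have hRC : R ≤ C := by
    intro a ha
    rw [Subgroup.mem_centralizer_iff]
    intro b hb
    exact hRab b hb a ha
  have hCN : C ≤ N := Subgroup.centralizer_le_normalizer _
  -- `C` has odd order
  obtain ⟨⟨r0, hr0⟩, hr01⟩ := Subgroup.ne_bot_iff_exists_ne_one.1 hRne
  have hr01' : r0 ≠ 1 := fun h => hr01 (Subtype.ext h)
  have hCodd : Odd (Nat.card C) := by
    have h1 := hC r0 hr01' (Cfsg.Agent.H24.exists_orderOf_eq_pow_of_mem hRp hr0)
    have h2 : C ≤ Subgroup.centralizer ({r0} : Set G) := by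
      intro g hg
      rw [Subgroup.mem_centralizer_singleton_iff]
      exact (Subgroup.mem_centralizer_iff.1 hg r0 hr0).symm
    exact Odd.of_dvd_nat h1 (Subgroup.card_dvd_of_le h2)
  -- `[N, y] ≤ C`
  have hNy : ∀ x ∈ N, x * y * x⁻¹ * y⁻¹ ∈ C := by
    intro x hx
    rw [Subgroup.mem_centralizer_iff]
    intro r hr
    -- conj by `x y x⁻¹ y⁻¹` fixes `r`
    have hx' : ∀ s ∈ R, x * s * x⁻¹ ∈ R := fun s hs => (Subgroup.mem_normalizer_iff.1 hx s).1 hs
    have hxi : ∀ s ∈ R, x⁻¹ * s * x ∈ R := by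
      intro s hs
      have := (Subgroup.mem_normalizer_iff.1 (N.inv_mem hx) s).1 hs
      simpa using this
    have h1 : y⁻¹ * r * y = r⁻¹ := by
      have := hinvR r hr
      rw [hyinv] at this ⊢; exact this
    have h2 : y * (x⁻¹ * r * x) * y⁻¹ = (x⁻¹ * r * x)⁻¹ := hinvR _ (hxi r hr)
    have h3 : (x * y * x⁻¹ * y⁻¹) * r * (x * y * x⁻¹ * y⁻¹)⁻¹ = r := by
      calc (x * y * x⁻¹ * y⁻¹) * r * (x * y * x⁻¹ * y⁻¹)⁻¹
          = x * (y * (x⁻¹ * (y⁻¹ * r * y) * x) * y⁻¹) * x⁻¹ := by group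
        _ = x * (y * (x⁻¹ * r⁻¹ * x) * y⁻¹) * x⁻¹ := by rw [h1]
        _ = x * (y * (x⁻¹ * r * x) * y⁻¹)⁻¹ * x⁻¹ := by group
        _ = x * ((x⁻¹ * r * x)⁻¹)⁻¹ * x⁻¹ := by rw [h2]
        _ = r := by group
    calc r * (x * y * x⁻¹ * y⁻¹) = ((x * y * x⁻¹ * y⁻¹) * r * (x * y * x⁻¹ * y⁻¹)⁻¹) * (x * y * x⁻¹ * y⁻¹) := by rw [h3]
      _ = _ := by group
  -- `p`-elements of `N` lie in `C`
  have hm : ¬ p ∣ Nat.card (Subgroup.centralizer ({y} : Set G)) := by
    intro hd
    obtain ⟨⟨g, hg⟩, hgo⟩ := exists_prime_orderOf_dvd_card' p hd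
    rw [Subgroup.orderOf_mk] at hgo
    have hg1 : g ≠ 1 := by
      rintro rfl
      rw [orderOf_one] at hgo
      exact hp.one_lt.ne hgo
    exact hyC g hg1 ⟨1, by rw [hgo, pow_one]⟩ (Subgroup.mem_centralizer_singleton_iff.1 hg).symm
  have hCn : (C.subgroupOf N).Normal := by
    rw [hCdef, hN, ← Subgroup.normalizerMonoidHom_ker]
    infer_instance
  have hpN : ∀ x ∈ N, (∃ k : ℕ, orderOf x = p ^ k) → x ∈ C := by
    intro x hx hxp
    -- find `t ∈ C(y) ∩ N` with `x ≡ t mod C`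
    have h1 : (QuotientGroup.mk (⟨x * y * x⁻¹, N.mul_mem (N.mul_mem hx hyR) (N.inv_mem hx)⟩ : N) :
        N ⧸ C.subgroupOf N) = QuotientGroup.mk ⟨y, hyR⟩ := by
      rw [eq_comm, QuotientGroup.eq]
      show y⁻¹ * (x * y * x⁻¹) ∈ C
      have h2 := hNy x hx
      have e : y⁻¹ * (x * y * x⁻¹) = y⁻¹ * (x * y * x⁻¹ * y⁻¹) * y := by group
      rw [e]
      have := hCn.conj_mem ⟨_, hCN h2⟩ h2 (⟨y, hyR⟩ : N)⁻¹
      have h3 : y⁻¹ * (x * y * x⁻¹ * y⁻¹) * y⁻¹⁻¹ ∈ C := this
      simpa using h3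
    have hcard : Nat.card (C.subgroupOf N) = Nat.card C :=
      Nat.card_congr (Subgroup.subgroupOfEquivOfLe hCN).toEquiv
    have hcop : Nat.Coprime 2 (Nat.card (C.subgroupOf N)) := by
      rw [hcard]; exact Nat.coprime_two_left.2 hCodd
    obtain ⟨n, hn, h2⟩ := Cfsg.Agent.H24.exists_conj_of_mk_eq (C.subgroupOf N)
      (⟨x * y * x⁻¹, N.mul_mem (N.mul_mem hx hyR) (N.inv_mem hx)⟩ : N) ⟨y, hyR⟩
      (by
        rw [Subgroup.orderOf_mk]
        have h3 : orderOf (x * y * x⁻¹) = orderOf y := by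
          have := MulEquiv.orderOf_eq (MulAut.conj x) y
          simpa using this
        rw [h3, hy]; exact hcop)
      (by rw [Subgroup.orderOf_mk, hy]; exact hcop) h1
    have h3 : (n : G) * y * (n : G)⁻¹ = x * y * x⁻¹ := congrArg Subtype.val h2
    set t := (n : G)⁻¹ * x with ht
    have htC : t ∈ Subgroup.centralizer ({y} : Set G) := by
      rw [Subgroup.mem_centralizer_singleton_iff]
      calc t * y = (n : G)⁻¹ * (x * y * x⁻¹) * x := by rw [ht]; group
        _ = (n : G)⁻¹ * ((n : G) * y * (n : G)⁻¹) * x := by rw [h3]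
        _ = y * t := by rw [ht]; group
    have htN : t ∈ N := N.mul_mem (N.inv_mem n.2) hx
    -- power
    set m := Nat.card (Subgroup.centralizer ({y} : Set G)) with hmdef
    have htm : t ^ m = 1 := by
      have := pow_card_eq_one' (x := (⟨t, htC⟩ : Subgroup.centralizer ({y} : Set G)))
      exact congrArg Subtype.val this
    have hxm : x ^ m ∈ C := by
      have h4 : (QuotientGroup.mk (⟨x, hx⟩ : N) : N ⧸ C.subgroupOf N) = QuotientGroup.mk ⟨t, htN⟩ := by
        rw [QuotientGroup.eq]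
        show x⁻¹ * ((n : G)⁻¹ * x) ∈ C
        have h5 := hCn.conj_mem _ ((C.subgroupOf N).inv_mem hn) (⟨x, hx⟩ : N)⁻¹
        have h6 : x⁻¹ * (n : G)⁻¹ * x⁻¹⁻¹ ∈ C := h5
        have e : x⁻¹ * ((n : G)⁻¹ * x) = x⁻¹ * (n : G)⁻¹ * x⁻¹⁻¹ := by group
        rw [e]; exact h6
      have h5 : (QuotientGroup.mk ((⟨x, hx⟩ : N) ^ m) : N ⧸ C.subgroupOf N) = 1 := by
        rw [QuotientGroup.mk_pow, h4, ← QuotientGroup.mk_pow]
        have : (⟨t, htN⟩ : N) ^ m = 1 := Subtype.ext htm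
        rw [this]; rfl
      rw [QuotientGroup.eq_one_iff] at h5
      exact h5
    refine Cfsg.Agent.H25.mem_of_pow_mem ?_ hxm
    obtain ⟨k, hk⟩ := hxp
    rw [hk]
    exact Nat.Coprime.pow_right _ ((Nat.Prime.coprime_iff_not_dvd hp).2 hm).symm
  -- `y`-invariant Sylow subgroup of `C` above `R`
  have hyCn : Subgroup.zpowers y ≤ Subgroup.normalizer (C : Set G) := by
    rw [Subgroup.zpowers_le, Subgroup.mem_normalizer_iff]
    intro z
    constructor
    · intro hz
      have := hCn.conj_mem ⟨z, hCN hz⟩ hz (⟨y, hyR⟩ : N)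
      exact this
    · intro hz
      have h1 : y * z * y⁻¹ ∈ C := hz
      have := hCn.conj_mem ⟨_, hCN h1⟩ h1 (⟨y, hyR⟩ : N)⁻¹
      have h2 : y⁻¹ * (y * z * y⁻¹) * y⁻¹⁻¹ ∈ C := this
      have e : y⁻¹ * (y * z * y⁻¹) * y⁻¹⁻¹ = z := by group
      rwa [e] at h2
  have hcop2 : (Nat.card (Subgroup.zpowers y)).Coprime (Nat.card C) := by
    rw [Nat.card_zpowers, hy]; exact Nat.coprime_two_left.2 hCodd
  have hsolv : Group.IsSolvable (Subgroup.zpowers y) :=
    Group.isSolvable_of_comm (fun a b => by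
      obtain ⟨a, i, rfl⟩ := a
      obtain ⟨b, j, rfl⟩ := b
      apply Subtype.ext
      show y ^ i * y ^ j = y ^ j * y ^ i
      rw [← zpow_add, ← zpow_add, add_comm])
  obtain ⟨S, hS1, hS2⟩ := Cfsg.Agent.H1.exists_invariant_sylow_ge (Subgroup.zpowers y) C hyCn hcop2
    (Or.inl hsolv) p R hRC hRp (by rw [Subgroup.zpowers_le]; exact hyR)
  have hSR : (S : Subgroup C).map C.subtype = R := by
    apply le_antisymm
    · exact hRmax.2 ⟨S.isPGroup'.map _, hQR.trans hS1, hS2 (Subgroup.mem_zpowers y)⟩ hS1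
    · exact hS1
  -- `R` is a Sylow subgroup of `G`
  obtain ⟨P', hP'⟩ := hRp.exists_le_sylow
  have hRP' : R = P' := by
    by_contra hne
    have hlt : R < P' := lt_of_le_of_ne hP' hne
    have hnil : Group.IsNilpotent (P' : Subgroup G) := P'.isPGroup'.isNilpotent
    -- normalizer grows
    have h1 := Cfsg.Agent.H1.isNilpotent_iff_normalizerCondition.1 hnil (R.subgroupOf P')
      (lt_top_iff_ne_top.2 (by
        rw [Ne, Subgroup.subgroupOf_eq_top]
        exact hlt.not_ge))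
    obtain ⟨-, h2⟩ := SetLike.lt_iff_le_and_exists.1 h1
    obtain ⟨⟨t, htP⟩, ht1, ht2⟩ := h2
    have htN : t ∈ N := by
      rw [hN, Subgroup.mem_normalizer_iff]
      rw [Subgroup.mem_normalizer_iff] at ht1
      intro z
      constructor
      · intro hz
        exact (ht1 ⟨z, hP' hz⟩).1 hz
      · intro hz
        have hzR : z ∈ (P' : Subgroup G) := by
          have h3 := hP' hz
          have e : z = t⁻¹ * (t * z * t⁻¹) * t := by group
          rw [e]
          exact (P' : Subgroup G).mul_mem ((P' : Subgroup G).mul_mem ((P' : Subgroup G).inv_mem htP) h3) htP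
        exact (ht1 ⟨z, hzR⟩).2 hz
    have htC := hpN t htN (Cfsg.Agent.H24.exists_orderOf_eq_pow_of_mem P'.isPGroup' htP)
    -- `R ⟨t⟩` is a `p`-subgroup of `C`
    apply ht2
    show t ∈ R
    have h3 : IsPGroup p ↥(((R ⊔ Subgroup.zpowers t) : Subgroup G).subgroupOf C) := by
      apply IsPGroup.comap_of_injective _ C.subtype C.subtype_injective
      exact P'.isPGroup'.to_le (sup_le hP' (by rw [Subgroup.zpowers_le]; exact htP))
    have h4 : (S : Subgroup C) ≤ ((R ⊔ Subgroup.zpowers t) : Subgroup G).subgroupOf C := by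
      intro s hs
      have : (s : G) ∈ R := by rw [← hSR]; exact Subgroup.mem_map_of_mem _ hs
      exact Subgroup.mem_sup_left this
    have h5 := S.3 h3 h4
    have h6 : (⟨t, htC⟩ : C) ∈ (S : Subgroup C) := by
      rw [← h5]
      exact Subgroup.mem_sup_right (Subgroup.mem_zpowers t)
    rw [← hSR]
    exact ⟨⟨t, htC⟩, h6, rfl⟩
  -- conclude by conjugacy
  obtain ⟨g, hg⟩ := MulAction.exists_smul_eq G P' P
  have hgy : g * y * g⁻¹ ∈ Subgroup.normalizer ((P : Subgroup G) : Set G) := by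
    rw [← hg, Sylow.coe_subgroup_smul, Cfsg.Agent.H24.mem_normalizer_conj_iff]
    have e : g⁻¹ * (g * y * g⁻¹) * g = y := by group
    rw [e, ← hRP']; exact hyR
  rw [even_iff_two_dvd, ← hy]
  have h1 : orderOf (g * y * g⁻¹) = orderOf y := by
    have := MulEquiv.orderOf_eq (MulAut.conj g) y
    simpa using this
  rw [← h1]
  exact Subgroup.orderOf_dvd_natCard _ hgy

end Cfsg.Agent.S3982
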