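import Cfsg.Statements.S3983
import Mathlib

set_option autoImplicit false
open scoped Pointwise
open Cfsg

namespace Cfsg.Agent.S3983

/-- Let P be a Sylow p-subgroup of the finite group G that meets each conjugate g P g⁻¹ with g outside N_G(P) trivially, and let U be a subgroup of G of order divisible by p. Then a Sylow p-subgroup Q of U has the same property inside U: Q meets each conjugate u Q u⁻¹ with u ∈ U outside N_U(Q) trivially. -/
theorem result {G : Type*} [Group G] [Finite G] (p : ℕ) [Fact p.Prime] (P : Sylow p G) (hTI : ∀ g : G, g ∉ Subgroup.normalizer ((P : Subgroup G) : Set G) → (P : Subgroup G) ⊓ (MulAut.conj g • (P : Subgroup G)) = ⊥) (U : Subgroup G) (hU : p ∣ Nat.card ↥U) (Q : Sylow p ↥U) : ∀ u : ↥U, u ∉ Subgroup.normalizer ((Q : Subgroup ↥U) : Set ↥U) → (Q : Subgroup ↥U) ⊓ (MulAut.conj u • (Q : Subgroup ↥U)) = ⊥ := by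
  classical
  have hE : ∀ h x : G, x ≠ 1 → x ∈ P → h⁻¹ * x * h ∈ P →
      h ∈ Subgroup.normalizer ((P : Subgroup G) : Set G) := by
    intro h x hx1 hx hxh
    by_contra hn
    have h1 := hTI h hn
    have h2 : x ∈ (P : Subgroup G) ⊓ (MulAut.conj h • (P : Subgroup G)) := by
      refine Subgroup.mem_inf.2 ⟨hx, ?_⟩
      rw [Subgroup.mem_pointwise_smul_iff_inv_smul_mem]
      simp only [MulAut.smul_def, MulAut.inv_apply, MulAut.conj_symm_apply]
      exact hxh
    rw [h1, Subgroup.mem_bot] at h2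
    exact hx1 h2
  -- a Sylow subgroup of `G` containing `Q`
  have hQ : IsPGroup p ((Q : Subgroup ↥U).map U.subtype) := Q.isPGroup'.map _
  obtain ⟨P', hP'⟩ := hQ.exists_le_sylow
  obtain ⟨g, rfl⟩ := MulAction.exists_smul_eq G P P'
  have hmem : ∀ x : G, x ∈ ((g • P : Sylow p G) : Subgroup G) ↔ g⁻¹ * x * g ∈ P := by
    intro x
    rw [Sylow.coe_subgroup_smul, Subgroup.mem_pointwise_smul_iff_inv_smul_mem]
    simp only [MulAut.smul_def, MulAut.inv_apply, MulAut.conj_symm_apply]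
    rfl
  have hQmem : ∀ z : ↥U, z ∈ (Q : Subgroup ↥U) ↔ g⁻¹ * (z : G) * g ∈ P := by
    intro z
    rw [← hmem]
    constructor
    · intro hz
      exact hP' (Subgroup.mem_map_of_mem U.subtype hz)
    · intro hz
      have h3 : IsPGroup p (((g • P : Sylow p G) : Subgroup G).subgroupOf U) :=
        (g • P : Sylow p G).isPGroup'.comap_of_injective U.subtype U.subtype_injective
      have h4 := Q.3 h3 (fun w hw => hP' (Subgroup.mem_map_of_mem U.subtype hw))
      have h5 : z ∈ ((g • P : Sylow p G) : Subgroup G).subgroupOf U := hz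
      rw [h4] at h5
      exact h5
  intro u hu
  rw [eq_bot_iff]
  intro y hy
  obtain ⟨hy1, hy2⟩ := Subgroup.mem_inf.1 hy
  rw [Subgroup.mem_pointwise_smul_iff_inv_smul_mem] at hy2
  have hy2' : u⁻¹ * y * u ∈ (Q : Subgroup ↥U) := by
    simpa [MulAut.inv_apply, MulAut.conj_symm_apply] using hy2
  rw [Subgroup.mem_bot]
  by_contra hy0
  apply hu
  have h6 := (hQmem y).1 hy1
  have h7 := (hQmem _).1 hy2'
  have h8 : g⁻¹ * (u : G) * g ∈ Subgroup.normalizer ((P : Subgroup G) : Set G) := by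
    refine hE _ (g⁻¹ * (y : G) * g) ?_ h6 ?_
    · intro h9
      apply hy0
      have : (y : G) = 1 := by
        calc (y : G) = g * (g⁻¹ * (y : G) * g) * g⁻¹ := by group
          _ = 1 := by rw [h9]; group
      exact Subtype.ext this
    · have h10 : (g⁻¹ * (u : G) * g)⁻¹ * (g⁻¹ * (y : G) * g) * (g⁻¹ * (u : G) * g)
          = g⁻¹ * ((u⁻¹ * y * u : ↥U) : G) * g := by
        push_cast; group
      rw [h10]; exact h7
  rw [Subgroup.mem_normalizer_iff] at h8 ⊢
  intro z
  show z ∈ (Q : Subgroup ↥U) ↔ u * z * u⁻¹ ∈ (Q : Subgroup ↥U)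
  rw [hQmem, hQmem]
  have h11 := h8 (g⁻¹ * (z : G) * g)
  have h12 : g⁻¹ * (u : G) * g * (g⁻¹ * (z : G) * g) * (g⁻¹ * (u : G) * g)⁻¹
      = g⁻¹ * ((u * z * u⁻¹ : ↥U) : G) * g := by
    push_cast; group
  rw [h12] at h11
  exact h11

end Cfsg.Agent.S3983
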