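import Cfsg.Statements.S3984
import Cfsg.Agent.H24.TI
import Cfsg.Agent.H24.CoprimeLift2

set_option autoImplicit false
open scoped Pointwise
open Cfsg

namespace Cfsg.Agent.S3984

/-- Let P be a Sylow p-subgroup of the finite group G that meets each conjugate g P g⁻¹ with g outside N_G(P) trivially, and let N be a normal subgroup of G of order prime to p. Then every Sylow p-subgroup Q of G ⧸ N meets each conjugate x Q x⁻¹ with x outside its normalizer trivially. -/
theorem result {G : Type*} [Group G] [Finite G] (p : ℕ) [Fact p.Prime] (P : Sylow p G) (hTI : ∀ g : G, g ∉ Subgroup.normalizer ((P : Subgroup G) : Set G) → (P : Subgroup G) ⊓ (MulAut.conj g • (P : Subgroup G)) = ⊥) (N : Subgroup G) [N.Normal] (hN : (Nat.card ↥N).Coprime p) (Q : Sylow p (G ⧸ N)) : ∀ x : G ⧸ N, x ∉ Subgroup.normalizer ((Q : Subgroup (G ⧸ N)) : Set (G ⧸ N)) → (Q : Subgroup (G ⧸ N)) ⊓ (MulAut.conj x • (Q : Subgroup (G ⧸ N))) = ⊥ := by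
  classical
  have hp := Fact.out (p := p.Prime)
  rw [Cfsg.Agent.H24.ti_iff] at hTI ⊢
  -- the image of `P`
  set π := QuotientGroup.mk' N with hπ
  have hsurj : Function.Surjective π := QuotientGroup.mk'_surjective N
  let Pb : Sylow p (G ⧸ N) := P.mapSurjective hsurj
  have hPb : (Pb : Subgroup (G ⧸ N)) = (P : Subgroup G).map π := rfl
  have hTIb : ∀ g x : G ⧸ N, x ≠ 1 → x ∈ (Pb : Subgroup (G ⧸ N)) → g⁻¹ * x * g ∈
      (Pb : Subgroup (G ⧸ N)) → g ∈ Subgroup.normalizer ((Pb : Subgroup (G ⧸ N)) : Set (G ⧸ N)) := by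
    intro g x hx1 hx hgx
    rw [hPb] at hx hgx
    obtain ⟨u, hu, rfl⟩ := hx
    obtain ⟨v, hv, hvg⟩ := hgx
    obtain ⟨g, rfl⟩ := hsurj g
    have hcop : ∀ w ∈ (P : Subgroup G), (orderOf w).Coprime (Nat.card N) := by
      intro w hw
      obtain ⟨k, hk⟩ := Cfsg.Agent.H24.exists_orderOf_eq_pow_of_mem P.isPGroup' hw
      rw [hk]; exact Nat.Coprime.pow_left _ hN.symm
    have ho : orderOf (g * v * g⁻¹) = orderOf v := by
      have := MulEquiv.orderOf_eq (MulAut.conj g) v
      simpa using this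
    have himg : (QuotientGroup.mk u : G ⧸ N) = QuotientGroup.mk (g * v * g⁻¹) := by
      have h1 : π v = (π g)⁻¹ * π u * π g := hvg
      show π u = π (g * v * g⁻¹)
      rw [map_mul, map_mul, h1, map_inv]; group
    obtain ⟨n, hn, h1⟩ := Cfsg.Agent.H24.exists_conj_of_mk_eq N u (g * v * g⁻¹) (hcop u hu)
      (by rw [ho]; exact hcop v hv) himg
    have hu1 : u ≠ 1 := by
      rintro rfl
      exact hx1 (map_one π)
    have h2 : n * g ∈ Subgroup.normalizer ((P : Subgroup G) : Set G) := by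
      refine hTI (n * g) u hu1 hu ?_
      have e : (n * g)⁻¹ * u * (n * g) = v := by
        rw [← h1]; group
      rw [e]; exact hv
    have h3 : π (n * g) = π g := by
      rw [map_mul]
      have : π n = 1 := (QuotientGroup.eq_one_iff n).2 hn
      rw [this, one_mul]
    rw [← h3, hPb, Subgroup.mem_normalizer_iff]
    rw [Subgroup.mem_normalizer_iff] at h2
    intro z
    constructor
    · rintro ⟨w, hw, rfl⟩
      exact ⟨n * g * w * (n * g)⁻¹, (h2 w).1 hw, by simp only [map_mul, map_inv]⟩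
    · rintro ⟨w, hw, hwz⟩
      refine ⟨(n * g)⁻¹ * w * (n * g), ?_, ?_⟩
      · apply (h2 _).2
        have e : n * g * ((n * g)⁻¹ * w * (n * g)) * (n * g)⁻¹ = w := by group
        rw [e]; exact hw
      · rw [map_mul, map_mul, hwz, map_inv]; group
  obtain ⟨a, ha⟩ := MulAction.exists_smul_eq (G ⧸ N) Pb Q
  have h1 := Cfsg.Agent.H24.ti_conj (Pb : Subgroup (G ⧸ N)) a hTIb
  have h2 : (Q : Subgroup (G ⧸ N)) = MulAut.conj a • (Pb : Subgroup (G ⧸ N)) := by
    rw [← ha]; exact Sylow.coe_subgroup_smul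
  rw [h2]
  exact h1

end Cfsg.Agent.S3984
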