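import Cfsg.Statements.S3985
import Cfsg.Agent.H24.TI
import Cfsg.Agent.H24.Engel
import Cfsg.Agent.H25.Primary

set_option autoImplicit false
open scoped Pointwise
open Cfsg

namespace Cfsg.Agent.S3985

/-- `r ≡ 1 mod p` implies `r ^ (p ^ k) ≡ 1 mod p ^ (k + 1)`. -/
theorem int_pow_modEq {p : ℕ} {r : ℤ} (h : r ≡ 1 [ZMOD p]) (k : ℕ) :
    r ^ (p ^ k) ≡ 1 [ZMOD (p : ℤ) ^ (k + 1)] := by
  have h1 := Int.ModEq.symm h
  rw [Int.modEq_iff_dvd] at h1
  have h2 := dvd_sub_pow_of_dvd_sub (R := ℤ) (p := p) (a := r) (b := 1) (by exact_mod_cast h1) k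
  rw [one_pow] at h2
  exact (Int.modEq_iff_dvd.2 h2).symm

/-- Let P be a cyclic Sylow p-subgroup of the finite group G. Then P meets each conjugate g P g⁻¹ with g outside N_G(P) trivially if and only if P is weakly self-centralizing: C_G(x) = C_G(P) for every non-identity x ∈ P. -/
theorem result {G : Type*} [Group G] [Finite G] (p : ℕ) [Fact p.Prime] (P : Sylow p G) (hcyc : IsCyclic ↥(P : Subgroup G)) : (∀ g : G, g ∉ Subgroup.normalizer ((P : Subgroup G) : Set G) → (P : Subgroup G) ⊓ (MulAut.conj g • (P : Subgroup G)) = ⊥) ↔ ∀ x : G, x ∈ (P : Subgroup G) → x ≠ 1 → Subgroup.centralizer ({x} : Set G) = Subgroup.centralizer ((P : Subgroup G) : Set G) := by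
  classical
  have hp := Fact.out (p := p.Prime)
  rw [Cfsg.Agent.H24.ti_iff]
  obtain ⟨⟨g0, hg0⟩, hgen⟩ := hcyc.exists_generator
  have hPgen : ∀ y ∈ (P : Subgroup G), ∃ k : ℤ, g0 ^ k = y := by
    intro y hy
    obtain ⟨k, hk⟩ := hgen ⟨y, hy⟩
    exact ⟨k, congrArg Subtype.val hk⟩
  have hPab : ∀ a ∈ (P : Subgroup G), ∀ b ∈ (P : Subgroup G), a * b = b * a := by
    intro a ha b hb
    obtain ⟨i, rfl⟩ := hPgen a ha
    obtain ⟨j, rfl⟩ := hPgen b hb
    rw [← zpow_add, ← zpow_add, add_comm]
  have hPC : ∀ a ∈ (P : Subgroup G), a ∈ Subgroup.centralizer ((P : Subgroup G) : Set G) := by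
    intro a ha
    rw [Subgroup.mem_centralizer_iff]
    intro b hb
    exact hPab b hb a ha
  constructor
  · intro hTI x hx hx1
    apply le_antisymm
    · -- reduce to elements of prime power order
      apply Cfsg.Agent.H25.le_of_primary
      intro g hg q k hq hk
      rw [Subgroup.mem_centralizer_singleton_iff] at hg
      have hgN : g ∈ Subgroup.normalizer ((P : Subgroup G) : Set G) := by
        refine hTI g x hx1 hx ?_
        have : g⁻¹ * x * g = x := by
          rw [mul_assoc, ← hg]; group
        rw [this]; exact hx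
      by_cases hqp : q = p
      · -- a `p`-element of `N(P)` is in `P`
        subst hqp
        apply hPC
        exact Cfsg.Agent.H24.mem_of_normalizer_of_sylow_le P (P : Subgroup G) le_rfl hgN ⟨k, hk⟩
      · -- `g` acts as a power map
        obtain ⟨r, hr⟩ := hPgen (g * g0 * g⁻¹) ((Subgroup.mem_normalizer_iff.1 hgN g0).1 hg0)
        have hact : ∀ j : ℤ, g * g0 ^ j * g⁻¹ = g0 ^ (r * j) := by
          intro j
          rw [← conj_zpow, ← hr, zpow_mul]
        have hactn : ∀ (n : ℕ) (j : ℤ), g ^ n * g0 ^ j * (g ^ n)⁻¹ = g0 ^ (r ^ n * j) := by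
          intro n
          induction n with
          | zero => intro j; simp
          | succ n ih =>
            intro j
            have e : g ^ (n + 1) * g0 ^ j * (g ^ (n + 1))⁻¹ = g * (g ^ n * g0 ^ j * (g ^ n)⁻¹) * g⁻¹ := by
              rw [pow_succ']; group
            rw [e, ih, hact, pow_succ']
            congr 1; ring
        -- order of `g0`
        obtain ⟨n, hn⟩ := Cfsg.Agent.H24.exists_orderOf_eq_pow_of_mem P.isPGroup' hg0
        obtain ⟨i, hi⟩ := hPgen x hx
        -- `r ≡ 1 mod p`
        have hr1 : r ≡ 1 [ZMOD p] := by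
          have h1 : g * x * g⁻¹ = x := by rw [hg]; group
          rw [← hi, hact, zpow_eq_zpow_iff_modEq, hn] at h1
          -- p ^ n ∣ (r - 1) i, p ^ n ∤ i
          have h2 : ((p ^ n : ℕ) : ℤ) ∣ i * (1 - r) := by
            have := Int.modEq_iff_dvd.1 h1
            have e : i - r * i = i * (1 - r) := by ring
            rwa [e] at this
          have h3 : ¬ ((p ^ n : ℕ) : ℤ) ∣ i := by
            intro hd
            apply hx1
            rw [← hi]
            rw [← orderOf_dvd_iff_zpow_eq_one, hn]
            exact hd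
          have hpz : Prime (p : ℤ) := Nat.prime_iff_prime_int.1 hp
          rw [Int.modEq_iff_dvd]
          by_contra hnd
          apply h3
          have h4 : IsCoprime ((p ^ n : ℕ) : ℤ) (1 - r) := by
            rw [Nat.cast_pow]
            apply IsCoprime.pow_left
            exact (Prime.coprime_iff_not_dvd hpz).2 hnd
          exact h4.dvd_of_dvd_mul_right h2
        -- `g ^ (p ^ n)` centralizes `P`
        have hgpn : g ^ (p ^ n) ∈ Subgroup.centralizer ((P : Subgroup G) : Set G) := by
          rw [Subgroup.mem_centralizer_iff]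
          intro y hy
          obtain ⟨j, rfl⟩ := hPgen y hy
          have h1 := hactn (p ^ n) j
          have h2 : g0 ^ (r ^ p ^ n * j) = g0 ^ j := by
            rw [zpow_eq_zpow_iff_modEq, hn]
            have h3 := int_pow_modEq hr1 n
            have h4 : r ^ p ^ n ≡ 1 [ZMOD ((p ^ n : ℕ) : ℤ)] := by
              rw [Nat.cast_pow]
              exact h3.of_dvd (pow_dvd_pow _ (Nat.le_succ n))
            have h5 := h4.mul_right j
            rwa [one_mul] at h5
          rw [h2] at h1
          calc g0 ^ j * g ^ (p ^ n) = (g ^ (p ^ n) * g0 ^ j * (g ^ (p ^ n))⁻¹) * g ^ (p ^ n) := by rw [h1]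
            _ = _ := by group
        refine Cfsg.Agent.H25.mem_of_pow_mem ?_ hgpn
        rw [hk]
        exact Nat.Coprime.pow _ _ ((Nat.coprime_primes hp hq).2 (Ne.symm hqp))
    · intro g hg
      rw [Subgroup.mem_centralizer_singleton_iff]
      exact (Subgroup.mem_centralizer_iff.1 hg x hx).symm
  · intro hC g x hx1 hx hgx
    -- `P^g` contains `x`
    have hCx := hC x hx hx1
    set R : Sylow p G := g • P with hR
    have hxR : x ∈ (R : Subgroup G) := (Cfsg.Agent.H24.mem_sylow_smul_iff P g x).2 hgx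
    have hRab : ∀ a ∈ (R : Subgroup G), ∀ b ∈ (R : Subgroup G), a * b = b * a := by
      intro a ha b hb
      rw [Cfsg.Agent.H24.mem_sylow_smul_iff] at ha hb
      have h1 := hPab _ ha _ hb
      have h2 : g⁻¹ * (a * b) * g = g⁻¹ * (b * a) * g := by
        calc g⁻¹ * (a * b) * g = (g⁻¹ * a * g) * (g⁻¹ * b * g) := by group
          _ = (g⁻¹ * b * g) * (g⁻¹ * a * g) := h1
          _ = _ := by group
      exact mul_left_cancel (mul_right_cancel h2)
    have hRC : (R : Subgroup G) ≤ Subgroup.normalizer ((P : Subgroup G) : Set G) := by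
      intro a ha
      have h1 : a ∈ Subgroup.centralizer ({x} : Set G) := by
        rw [Subgroup.mem_centralizer_singleton_iff]; exact hRab a ha x hxR
      rw [hCx] at h1
      exact Subgroup.centralizer_le_normalizer _ h1
    have hRP : (R : Subgroup G) ≤ P := by
      intro a ha
      exact Cfsg.Agent.H24.mem_of_normalizer_of_sylow_le P (P : Subgroup G) le_rfl (hRC ha)
        (Cfsg.Agent.H24.exists_orderOf_eq_pow_of_mem R.isPGroup' ha)
    have hRP' : (R : Subgroup G) = P := by
      apply Subgroup.eq_of_le_of_card_ge hRP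
      rw [R.card_eq_multiplicity, P.card_eq_multiplicity]
    rw [Subgroup.mem_normalizer_iff]
    intro z
    have h1 : g * z * g⁻¹ ∈ (R : Subgroup G) ↔ z ∈ (P : Subgroup G) := by
      rw [Cfsg.Agent.H24.mem_sylow_smul_iff]
      have : g⁻¹ * (g * z * g⁻¹) * g = z := by group
      rw [this]
    rw [hRP'] at h1
    exact h1.symm

end Cfsg.Agent.S3985
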