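import Cfsg.Statements.S3986
import Cfsg.Agent.H24.DirectFactor

set_option autoImplicit false
open Cfsg

namespace Cfsg.Agent.S3986

open Subgroup in
/-- `y ∈ K` for `y` of order prime to `p`, `G = P × K`. -/
theorem mem_K_of_coprime {G : Type*} [Group G] [Finite G] {p : ℕ} [Fact p.Prime] (P : Sylow p G)
    (K : Subgroup G) (hK : K.Normal) (htop : (P : Subgroup G) ⊔ K = ⊤) (y : G)
    (hy : (orderOf y).Coprime p) : y ∈ K := by
  have hp := Fact.out (p := p.Prime)
  have h1 : orderOf (QuotientGroup.mk y : G ⧸ K) ∣ orderOf y := orderOf_map_dvd (QuotientGroup.mk' K) y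
  have h2 : orderOf (QuotientGroup.mk y : G ⧸ K) ∣ Nat.card (P : Subgroup G) := by
    refine (_root_.orderOf_dvd_natCard _).trans ?_
    show K.index ∣ _
    rw [← Subgroup.relIndex_top_right, ← htop, Subgroup.relIndex_sup_right]
    exact Subgroup.relIndex_dvd_card _ _
  have h3 : orderOf (QuotientGroup.mk y : G ⧸ K) = 1 := by
    apply Nat.eq_one_of_dvd_coprimes _ h1 h2
    rw [P.card_eq_multiplicity]
    exact Nat.Coprime.pow_right _ hy
  rw [orderOf_eq_one_iff, QuotientGroup.eq_one_iff] at h3
  exact h3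

/-- Let p be a prime and G a finite group. Then some Sylow p-subgroup of G is a direct factor of G (it is normal and has a normal complement) if and only if every element of p-power order commutes with every element whose order is a power of a prime other than p. -/
theorem result {G : Type*} [Group G] [Finite G] (p : ℕ) [Fact p.Prime] : (∃ (P : Sylow p G) (K : Subgroup G), (P : Subgroup G).Normal ∧ K.Normal ∧ (P : Subgroup G) ⊓ K = ⊥ ∧ (P : Subgroup G) ⊔ K = ⊤) ↔ ∀ x y : G, (∃ a : ℕ, orderOf x = p ^ a) → (∃ q b : ℕ, q.Prime ∧ q ≠ p ∧ orderOf y = q ^ b) → x * y = y * x := by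
  classical
  have hp := Fact.out (p := p.Prime)
  constructor
  · rintro ⟨P, K, hP, hK, hPK, htop⟩ x y hx ⟨q, b, hq, hqp, hy⟩
    have hxP := Cfsg.Agent.H24.mem_of_normal_sylow P hP hx
    have hyK := mem_K_of_coprime P K hK htop y (by
      rw [hy]; exact Nat.Coprime.pow_left _ ((Nat.coprime_primes hq hp).2 hqp))
    exact (Subgroup.commute_of_normal_of_disjoint _ _ hP hK (disjoint_iff.2 hPK) x y hxP hyK)
  · intro h
    obtain ⟨P⟩ : Nonempty (Sylow p G) := inferInstance
    have htop := Cfsg.Agent.H24.sup_centralizer_eq_top P (by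
      intro y hy
      rw [Subgroup.mem_centralizer_iff]
      intro x hx
      exact h x y (Cfsg.Agent.H24.exists_orderOf_eq_pow_of_mem P.isPGroup' hx) hy)
    obtain ⟨hPn, H, hHn, -, h1, h2, -⟩ := Cfsg.Agent.H24.direct_factor_of_sup_centralizer P htop
    exact ⟨P, H, hPn, hHn, h1, h2⟩

end Cfsg.Agent.S3986
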