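import Cfsg.Statements.S3987
import Cfsg.Agent.H24.DirectFactor
import Cfsg.Agent.H24.ClassSize2
import Cfsg.Agent.H24.ClassSize3
import Cfsg.Agent.S3986

set_option autoImplicit false
open Cfsg

namespace Cfsg.Agent.S3987

open Subgroup in
/-- if the class of `xy` has the product size, then `x` and `y` commute. -/
theorem commute_of_index_eq {G : Type*} [Group G] [Finite G] (x y : G)
    (h : (centralizer ({x * y} : Set G)).index =
      (centralizer ({x} : Set G)).index * (centralizer ({y} : Set G)).index) : x * y = y * x := by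
  classical
  have hfin := Fintype.ofFinite G
  let f : {u : G // IsConj x u} × {v : G // IsConj y v} → G := fun t => t.1.1 * t.2.1
  have hsub : Set.range (fun g : G => g * (x * y) * g⁻¹) ⊆ Set.range f := by
    rintro _ ⟨g, rfl⟩
    refine ⟨(⟨g * x * g⁻¹, isConj_iff.2 ⟨g, rfl⟩⟩, ⟨g * y * g⁻¹, isConj_iff.2 ⟨g, rfl⟩⟩), ?_⟩
    show g * x * g⁻¹ * (g * y * g⁻¹) = g * (x * y) * g⁻¹
    group
  have h1 : (Set.range (fun g : G => g * (x * y) * g⁻¹)).ncard ≤ (Set.range f).ncard :=
    Set.ncard_le_ncard hsub (Set.toFinite _)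
  rw [Cfsg.Agent.H24.ncard_conj_range, h, ← Cfsg.Agent.H24.natCard_isConj,
    ← Cfsg.Agent.H24.natCard_isConj, ← Nat.card_prod, ← Nat.card_coe_set_eq] at h1
  have hsurj : Function.Surjective (Set.rangeFactorization f) := Set.rangeFactorization_surjective
  have hinj : Function.Injective (Set.rangeFactorization f) := by
    have hle : Nat.card (Set.range f) ≤ Nat.card ({u : G // IsConj x u} × {v : G // IsConj y v}) :=
      Nat.card_le_card_of_surjective _ hsurj
    have heq := le_antisymm h1 hle
    exact ((Nat.bijective_iff_surjective_and_card _).2 ⟨hsurj, heq⟩).1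
  have hfinj : Function.Injective f := by
    intro a b hab
    exact hinj (Subtype.ext hab)
  have h2 := @hfinj (⟨x, IsConj.refl x⟩, ⟨y, IsConj.refl y⟩)
    (⟨(x * y) * x * (x * y)⁻¹, isConj_iff.2 ⟨x * y, rfl⟩⟩,
      ⟨(x * y) * y * (x * y)⁻¹, isConj_iff.2 ⟨x * y, rfl⟩⟩) (by
        show x * y = (x * y) * x * (x * y)⁻¹ * ((x * y) * y * (x * y)⁻¹)
        group)
  have h3 : x = (x * y) * x * (x * y)⁻¹ := congrArg (fun t => t.1.1) h2
  have h4 : x * (x * y) = (x * y) * x := by
    nth_rewrite 1 [h3]; group
  rw [mul_assoc] at h4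
  exact mul_left_cancel h4

/-- Let p be a prime and G a finite group. Then some Sylow p-subgroup of G is a direct factor of G (normal with a normal complement) if and only if for every element x of p-power order and every element y whose order is a power of a prime other than p, the conjugacy class of x y has as many elements as the product of the sizes of the classes of x and of y. -/
theorem result {G : Type*} [Group G] [Finite G] (p : ℕ) [Fact p.Prime] : (∃ (P : Sylow p G) (K : Subgroup G), (P : Subgroup G).Normal ∧ K.Normal ∧ (P : Subgroup G) ⊓ K = ⊥ ∧ (P : Subgroup G) ⊔ K = ⊤) ↔ ∀ x y : G, (∃ a : ℕ, orderOf x = p ^ a) → (∃ q b : ℕ, q.Prime ∧ q ≠ p ∧ orderOf y = q ^ b) → (Subgroup.centralizer ({x * y} : Set G)).index = (Subgroup.centralizer ({x} : Set G)).index * (Subgroup.centralizer ({y} : Set G)).index := by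
  classical
  have hp := Fact.out (p := p.Prime)
  constructor
  · rintro ⟨P, K, hP, hK, hPK, htop⟩ x y hx ⟨q, b, hq, hqp, hy⟩
    have hxP := Cfsg.Agent.H24.mem_of_normal_sylow P hP hx
    have hyK := Cfsg.Agent.S3986.mem_K_of_coprime P K hK htop y (by
      rw [hy]; exact Nat.Coprime.pow_left _ ((Nat.coprime_primes hq hp).2 hqp))
    have hcomm : ∀ a ∈ (P : Subgroup G), ∀ b ∈ K, Commute a b := fun a ha b hb =>
      Subgroup.commute_of_normal_of_disjoint _ _ hP hK (disjoint_iff.2 hPK) a b ha hb
    have hcop : (orderOf x).Coprime (orderOf y) := by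
      obtain ⟨a, ha⟩ := hx
      rw [ha, hy]
      exact Nat.Coprime.pow _ _ ((Nat.coprime_primes hp hq).2 hqp.symm)
    rw [Cfsg.Agent.H24.centralizer_mul_of_coprime (hcomm x hxP y hyK) hcop]
    apply Cfsg.Agent.H24.index_inf_eq_mul_of_coprime
    -- indices are coprime
    have h1 : (Subgroup.centralizer ({x} : Set G)).index ∣ Nat.card (P : Subgroup G) := by
      have h2 : K ≤ Subgroup.centralizer ({x} : Set G) := by
        intro b hb
        rw [Subgroup.mem_centralizer_singleton_iff]
        exact (hcomm x hxP b hb).symm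
      refine (Subgroup.index_dvd_of_le h2).trans ?_
      rw [← Subgroup.relIndex_top_right, ← htop, Subgroup.relIndex_sup_right]
      exact Subgroup.relIndex_dvd_card _ _
    have h3 : (Subgroup.centralizer ({y} : Set G)).index ∣ (P : Subgroup G).index := by
      apply Subgroup.index_dvd_of_le
      intro a ha
      rw [Subgroup.mem_centralizer_singleton_iff]
      exact hcomm a ha y hyK
    exact Nat.Coprime.of_dvd h1 h3 P.card_coprime_index
  · intro h
    obtain ⟨P⟩ : Nonempty (Sylow p G) := inferInstance
    have htop := Cfsg.Agent.H24.sup_centralizer_eq_top P (by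
      intro y hy
      rw [Subgroup.mem_centralizer_iff]
      intro x hx
      exact commute_of_index_eq x y
        (h x y (Cfsg.Agent.H24.exists_orderOf_eq_pow_of_mem P.isPGroup' hx) hy))
    obtain ⟨hPn, H, hHn, -, h1, h2, -⟩ := Cfsg.Agent.H24.direct_factor_of_sup_centralizer P htop
    exact ⟨P, H, hPn, hHn, h1, h2⟩

end Cfsg.Agent.S3987
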