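import Cfsg.Statements.S3989
import Cfsg.Agent.H23.PSolvable
import Cfsg.Agent.H24.CoprimeLift2
import Cfsg.Agent.H24.MaxNil
import Cfsg.Agent.H2.Frobenius
import Mathlib

set_option autoImplicit false
open Cfsg

namespace Cfsg.Agent.S3989

universe u

open Cfsg.Agent.H24

def HypP (p : ℕ) (G : Type*) [Group G] : Prop :=
  ∀ x y : G, (∃ a : ℕ, orderOf x = p ^ a) → (∃ q b : ℕ, q.Prime ∧ q ≠ p ∧ orderOf y = q ^ b) →
    ∀ z : G, IsConj (x * y) z ↔ ∃ a b : G, z = a * x * a⁻¹ * (b * y * b⁻¹)

theorem hypP_quotient {G : Type*} [Group G] [Finite G] {p : ℕ} [Fact p.Prime] (h : HypP p G)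
    (N : Subgroup G) [N.Normal] : HypP p (G ⧸ N) := by
  intro x y hx hy z
  constructor
  · intro hz
    obtain ⟨c, hc⟩ := isConj_iff.1 hz
    refine ⟨c, c, ?_⟩
    rw [← hc]; group
  · rintro ⟨a, b, rfl⟩
    obtain ⟨q, k, hq, hqp, hk⟩ := hy
    haveI : Fact q.Prime := ⟨hq⟩
    obtain ⟨x', rfl, hx'⟩ := exists_lift_pElt p N x hx
    obtain ⟨y', rfl, k', hk'⟩ := exists_lift_pElt q N y ⟨k, hk⟩
    obtain ⟨a', rfl⟩ := QuotientGroup.mk_surjective a
    obtain ⟨b', rfl⟩ := QuotientGroup.mk_surjective b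
    have h1 := (h x' y' hx' ⟨q, k', hq, hqp, hk'⟩ (a' * x' * a'⁻¹ * (b' * y' * b'⁻¹))).2 ⟨a', b', rfl⟩
    obtain ⟨c, hc⟩ := isConj_iff.1 h1
    rw [isConj_iff]
    refine ⟨(c : G ⧸ N), ?_⟩
    have h2 := congrArg (QuotientGroup.mk' N) hc
    simpa using h2

theorem conj_mul_of_mem_normalClosure {G : Type*} [Group G] [Finite G] {p : ℕ} (h : HypP p G)
    {u y : G} (hu : ∃ a : ℕ, orderOf u = p ^ a) (hy : ∃ q b : ℕ, q.Prime ∧ q ≠ p ∧ orderOf y = q ^ b)
    (huy : IsConj (u * y) y) : ∀ k ∈ Subgroup.normalClosure ({u} : Set G), IsConj y (k * y) := by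
  let S : Subgroup G :=
    { carrier := {k | ∀ w, IsConj y w → IsConj y (k * w)}
      one_mem' := fun w hw => by rw [one_mul]; exact hw
      mul_mem' := by
        intro a b ha hb w hw
        rw [mul_assoc]
        exact ha _ (hb _ hw)
      inv_mem' := by
        intro a ha w hw
        have h1 : ∀ n : ℕ, ∀ w, IsConj y w → IsConj y (a ^ n * w) := by
          intro n
          induction n with
          | zero => intro w hw; rw [pow_zero, one_mul]; exact hw
          | succ n ih =>
            intro w hw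
            rw [pow_succ, mul_assoc]
            exact ih _ (ha _ hw)
        have h2 : a⁻¹ = a ^ (orderOf a - 1) := by
          rw [inv_eq_iff_mul_eq_one, ← pow_succ', Nat.sub_add_cancel (orderOf_pos a),
            pow_orderOf_eq_one]
        rw [h2]
        exact h1 _ _ hw }
  have hS : Subgroup.normalClosure ({u} : Set G) ≤ S := by
    rw [Subgroup.normalClosure, Subgroup.closure_le]
    intro v hv w hw
    obtain ⟨u', hu', hv'⟩ := Group.mem_conjugatesOfSet_iff.1 hv
    rw [Set.mem_singleton_iff] at hu'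
    rw [hu'] at hv'
    obtain ⟨a, ha⟩ := isConj_iff.1 hv'
    obtain ⟨b, hb⟩ := isConj_iff.1 hw
    have h1 := (h u y hu hy (a * u * a⁻¹ * (b * y * b⁻¹))).2 ⟨a, b, rfl⟩
    rw [ha, hb] at h1
    exact huy.symm.trans h1
  intro k hk
  exact hS hk y (IsConj.refl y)

theorem minimal_case {G : Type*} [Group G] [Finite G] {p : ℕ} [hp : Fact p.Prime] (h : HypP p G)
    (M : Subgroup G) [hMn : M.Normal]
    (hmin : ∀ K : Subgroup G, K.Normal → K ≤ M → K = ⊥ ∨ K = M) :
    (∃ m, Nat.card M = p ^ m) ∨ (Nat.card M).Coprime p := by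
  have hcomp : Cfsg.HasNormalPComplement p M := by
    apply Cfsg.Agent.H2.hasNormalPComplement_of_centralizer
    intro X hX g hg hgo
    have h1 : Subgroup.zpowers g ≤ Subgroup.centralizer (X : Set M) := by
      apply Cfsg.Agent.H25.le_of_primary
      intro y hy q k hq hk
      have hyN : y ∈ Subgroup.normalizer (X : Set M) := (Subgroup.zpowers_le.2 hg) hy
      rcases Nat.eq_zero_or_pos k with h0 | h0
      · rw [h0, pow_zero, orderOf_eq_one_iff] at hk
        rw [hk]; exact Subgroup.one_mem _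
      have hqp : q ≠ p := by
        rintro rfl
        have h2 : q ∣ orderOf g := by
          have h3 : q ∣ orderOf y := by rw [hk]; exact dvd_pow_self q h0.ne'
          exact h3.trans (orderOf_dvd_of_mem_zpowers hy)
        have h4 := Nat.dvd_gcd h2 (dvd_refl q)
        rw [hgo] at h4
        exact hq.one_lt.ne' (Nat.dvd_one.1 h4)
      rw [Subgroup.mem_centralizer_iff]
      intro x hx
      by_contra hne
      set u : M := x⁻¹ * (y * x * y⁻¹) with hu
      have huX : u ∈ X := X.mul_mem (X.inv_mem hx) ((Subgroup.mem_normalizer_iff.1 hyN x).1 hx)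
      have hu1 : u ≠ 1 := by
        intro h5
        apply hne
        have h6 : y * x * y⁻¹ = x := (inv_mul_eq_one.1 h5).symm
        calc x * y = (y * x * y⁻¹) * y := by rw [h6]
          _ = y * x := by group
      have huo : ∃ a : ℕ, orderOf (u : G) = p ^ a := by
        obtain ⟨a, ha⟩ := IsPGroup.iff_orderOf.1 hX ⟨u, huX⟩
        exact ⟨a, by rw [← ha, ← Subgroup.orderOf_coe, ← Subgroup.orderOf_coe]⟩
      have hyo : ∃ q b : ℕ, q.Prime ∧ q ≠ p ∧ orderOf (y : G) = q ^ b :=
        ⟨q, k, hq, hqp, by rw [Subgroup.orderOf_coe, hk]⟩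
      have huy : IsConj ((u : G) * y) (y : G) := by
        rw [isConj_iff]
        refine ⟨(x : G), ?_⟩
        show (x : G) * (((x : G)⁻¹ * ((y : G) * x * (y : G)⁻¹)) * y) * (x : G)⁻¹ = y
        group
      have hcl := conj_mul_of_mem_normalClosure h huo hyo huy
      have hK : Subgroup.normalClosure ({(u : G)} : Set G) = M := by
        have h8 : Subgroup.normalClosure ({(u : G)} : Set G) ≤ M := by
          apply Subgroup.normalClosure_le_normal
          intro v hv
          rw [Set.mem_singleton_iff.1 hv]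
          exact u.2
        rcases hmin _ Subgroup.normalClosure_normal h8 with h5 | h5
        · exfalso
          apply hu1
          have h6 : (u : G) ∈ Subgroup.normalClosure ({(u : G)} : Set G) :=
            Subgroup.subset_normalClosure rfl
          rw [h5, Subgroup.mem_bot] at h6
          exact Subtype.ext h6
        · exact h5
      have h7 := hcl (y : G)⁻¹ (by rw [hK]; exact M.inv_mem y.2)
      rw [inv_mul_cancel, isConj_one_left] at h7
      have hy1 : y = 1 := Subtype.ext h7
      apply hne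
      rw [hy1, mul_one, one_mul]
    exact h1 (Subgroup.mem_zpowers g)
  obtain ⟨N0, hN0, hpN0, k, hk⟩ := Cfsg.Agent.H2.hasNormalPComplement_iff.1 hcomp
  have hcard : Nat.card (N0.map M.subtype) = Nat.card N0 :=
    Subgroup.card_map_of_injective M.subtype_injective
  have hn : (N0.map M.subtype).Normal := by
    constructor
    rintro _ ⟨n, hn, rfl⟩ g
    have h1 : g * (n : G) * g⁻¹ ∈ M := hMn.conj_mem _ n.2 g
    refine ⟨⟨_, h1⟩, ?_, rfl⟩
    have h2 : (⟨_, h1⟩ : M) ^ p ^ k ∈ N0 := by rw [← hk]; exact Subgroup.pow_index_mem N0 _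
    refine Cfsg.Agent.H25.mem_of_pow_mem ?_ h2
    have h3 : orderOf (⟨_, h1⟩ : M) = orderOf n := by
      rw [← Subgroup.orderOf_coe, ← Subgroup.orderOf_coe n]
      exact MulEquiv.orderOf_eq (MulAut.conj g) (n : G)
    rw [h3]
    have h4 : orderOf n ∣ Nat.card N0 := by
      have := orderOf_dvd_natCard (⟨n, hn⟩ : N0)
      rwa [← Subgroup.orderOf_coe] at this
    exact (Nat.Coprime.coprime_dvd_right h4
      (Nat.Coprime.pow_left _ ((Nat.Prime.coprime_iff_not_dvd hp.out).2 hpN0)))
  rcases hmin _ hn (Subgroup.map_subtype_le _) with h1 | h1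
  · left
    rw [Subgroup.map_eq_bot_iff_of_injective _ M.subtype_injective] at h1
    refine ⟨k, ?_⟩
    rw [← hk, h1, Subgroup.index_bot]
  · right
    rw [← h1, hcard]
    exact ((Nat.Prime.coprime_iff_not_dvd hp.out).2 hpN0).symm

theorem aux (p : ℕ) [Fact p.Prime] (n : ℕ) : ∀ (G : Type u) [Group G] [Finite G], Nat.card G = n →
    HypP p G → Cfsg.IsPSolvable p G := by
  induction n using Nat.strong_induction_on with
  | _ n ih =>
  intro G _ _ hn h
  by_cases hG : Nat.card G = 1
  · exact Cfsg.Agent.H23.isPSolvable_of_card_coprime (by rw [hG]; exact Nat.coprime_one_left p)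
  haveI : Nontrivial G := by
    rw [← Finite.one_lt_card_iff_nontrivial]
    have := Nat.card_pos (α := G)
    omega
  obtain ⟨M, hM⟩ := (Set.toFinite {M : Subgroup G | M.Normal ∧ M ≠ ⊥}).exists_minimal
    ⟨⊤, inferInstance, top_ne_bot⟩
  obtain ⟨hMn, hM1⟩ := hM.prop
  haveI := hMn
  have hmin : ∀ K : Subgroup G, K.Normal → K ≤ M → K = ⊥ ∨ K = M := by
    intro K h1 h2
    by_cases h3 : K = ⊥
    · exact Or.inl h3
    · exact Or.inr (le_antisymm h2 (hM.le_of_le ⟨h1, h3⟩ h2))
  have hlt : Nat.card (G ⧸ M) < n := by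
    rw [← hn, ← Subgroup.card_mul_index M]
    have h1 : 1 < Nat.card M := by
      rw [Subgroup.one_lt_card_iff_ne_bot]; exact hM1
    have h2 : 0 < M.index := Nat.pos_of_ne_zero Subgroup.index_ne_zero_of_finite
    have h3 : Nat.card (G ⧸ M) = M.index := rfl
    rw [h3]
    nlinarith
  exact Cfsg.Agent.H23.isPSolvable_of_quotient M (minimal_case h M hmin)
    (ih _ hlt (G ⧸ M) rfl (hypP_quotient h M))

/-- Let p be a prime and G a finite group such that for every element x of p-power order and every element y whose order is a power of a prime other than p, the conjugacy class of x y is the set of all products of a conjugate of x with a conjugate of y. Then G is p-solvable. -/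
theorem result {G : Type*} [Group G] [Finite G] (p : ℕ) [Fact p.Prime] (h : ∀ x y : G, (∃ a : ℕ, orderOf x = p ^ a) → (∃ q b : ℕ, q.Prime ∧ q ≠ p ∧ orderOf y = q ^ b) → ∀ z : G, IsConj (x * y) z ↔ ∃ a b : G, z = a * x * a⁻¹ * (b * y * b⁻¹)) : Cfsg.IsPSolvable p G := by
  exact aux p _ G rfl h

end Cfsg.Agent.S3989
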