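import Cfsg.Statements.S3996
import Cfsg.Agent.H24.OrderCount
import Cfsg.Agent.H24.FTUse
import Cfsg.Agent.H20.TwoComp
import Cfsg.Agent.H3.BurnsidePQ
import Cfsg.Agent.FT

set_option autoImplicit false
open Cfsg

namespace Cfsg.Agent.S3996

open Cfsg.Agent.H24

theorem solv_cyc {G : Type*} [Group G] [Finite G] (S : Sylow 2 G) (hS : IsCyclic S) : Group.IsSolvable G :=
  H24.solvable_of_hasNormalTwoComplement (H20.hasNormalPComplement_of_cyclic S hS)

theorem zero_or {G : Type*} [Group G] [Finite G] {c2 : ℕ} {m : ℕ}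
    (h : NO G m ≠ 0 → NO G m = c2) : NO G m = 0 ∨ NO G m = c2 := by
  by_cases h0 : NO G m = 0
  · exact Or.inl h0
  · exact Or.inr (h h0)

theorem sum_four (G : Type*) [Group G] : ∑ d ∈ Nat.divisors 4, NO G d = NO G 1 + NO G 2 + NO G 4 := by
  have : Nat.divisors 4 = {1, 2, 4} := by decide
  rw [this]
  simp [add_assoc]

theorem sum_prime (G : Type*) [Group G] {p : ℕ} (hp : p.Prime) (f : ℕ → ℕ) :
    ∑ d ∈ Nat.divisors p, f d = f 1 + f p := by
  rw [Nat.Prime.sum_divisors hp, add_comm]

theorem sum_div_four (f : ℕ → ℕ) : ∑ d ∈ Nat.divisors 4, f d = f 1 + f 2 + f 4 := by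
  have : Nat.divisors 4 = {1, 2, 4} := by decide
  rw [this]
  simp [add_assoc]

/-- A finite group in which the numbers of elements of each order that occurs (the numbers #{g : o(g) = m}, m ranging over the element orders) take exactly three different values is solvable. -/
theorem result {G : Type*} [Group G] [Finite G] (h : (((fun m : ℕ => Nat.card {g : G // orderOf g = m}) '' Set.range (orderOf : G → ℕ))).ncard = 3) : Group.IsSolvable G := by
  classical
  by_contra hns
  set V := ((fun m : ℕ => Nat.card {g : G // orderOf g = m}) '' Set.range (orderOf : G → ℕ)) with hV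
  have hmem : ∀ m, NO G m ≠ 0 → NO G m ∈ V := by
    intro m hm
    obtain ⟨g, hg⟩ := (NO_ne_zero_iff m).mp hm
    exact ⟨m, ⟨g, hg⟩, rfl⟩
  have h2G : 2 ∣ Nat.card G := by
    by_contra hc
    exact hns (FT.odd_order (Nat.not_even_iff_odd.mp (fun h => hc h.two_dvd)))
  obtain ⟨p, hp, hp2, hpG⟩ : ∃ p, p.Prime ∧ p ≠ 2 ∧ p ∣ Nat.card G := by
    by_contra hc
    push Not at hc
    refine hns (H3.burnside_paqb 2 3 Nat.prime_two Nat.prime_three _ G rfl ?_)
    intro r hr hrG
    by_contra hr2
    push Not at hr2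
    exact hc r hr hr2.1 hrG
  obtain ⟨q, hq, hq2, hqp, hqG⟩ : ∃ q, q.Prime ∧ q ≠ 2 ∧ q ≠ p ∧ q ∣ Nat.card G := by
    by_contra hc
    push Not at hc
    refine hns (H3.burnside_paqb 2 p Nat.prime_two hp _ G rfl ?_)
    intro r hr hrG
    by_contra hr2
    push Not at hr2
    exact hc r hr hr2.1 hr2.2 hrG
  have hcauchy : ∀ r, r.Prime → r ∣ Nat.card G → NO G r ≠ 0 := by
    intro r hr hrG
    have := Fact.mk hr
    obtain ⟨x, hx⟩ := exists_prime_orderOf_dvd_card' r hrG
    exact (NO_ne_zero_iff r).mpr ⟨x, hx⟩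
  have h1r : ∀ r, r.Prime → r ∣ Nat.card G → ((1 + NO G r : ℕ) : ZMod r) = 0 := by
    intro r hr hrG
    have h := dvd_sum_NO hrG
    rw [sum_prime G hr, NO_one] at h
    exact (ZMod.natCast_eq_zero_iff _ _).mpr h
  have hoddodd : ∀ r, r.Prime → r ≠ 2 → Odd r := fun r hr hr2 => hr.odd_of_ne_two hr2
  have hdvd : ∀ m q, q.Prime → q ∣ Nat.card G → m.Coprime q → NO G (m * q) = 0 → (NO G m : ZMod q) = 0 := by
    intro m q hq hqG hmq h
    exact (ZMod.natCast_eq_zero_iff _ _).mpr (prime_dvd_NO hq hqG hmq h)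
  have h1V : 1 ∈ V := by
    have := hmem 1 (by rw [NO_one]; norm_num)
    rwa [NO_one] at this
  have heven : ∀ m, 3 ≤ m → 2 ∣ NO G m := by
    intro m hm
    exact ((Nat.totient_even (by omega)).two_dvd).trans (totient_dvd_NO m)
  have hp3 : 3 ≤ p := by have := hp.two_le; omega
  have hq3 : 3 ≤ q := by have := hq.two_le; omega
  have hpqd : ∀ p q, p.Prime → q.Prime → q ≠ p → p ∣ Nat.card G → q ∣ Nat.card G →
      ((1 + NO G p + NO G q + NO G (p * q) : ℕ) : ZMod p) = 0 ∧ ((1 + NO G p + NO G q + NO G (p * q) : ℕ) : ZMod q) = 0 := by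
    intro p q hp hq hqp hpG hqG
    have hcop : p.Coprime q := (Nat.coprime_primes hp hq).mpr hqp.symm
    have h := dvd_sum_NO (hcop.mul_dvd_of_dvd_of_dvd hpG hqG)
    rw [sum_div_mul hcop, sum_prime G hp, sum_prime G hq, sum_prime G hq, mul_one, mul_one, one_mul, NO_one] at h
    have e : 1 + NO G q + (NO G p + NO G (p * q)) = 1 + NO G p + NO G q + NO G (p * q) := by ring
    rw [e] at h
    exact ⟨(ZMod.natCast_eq_zero_iff _ _).mpr ((dvd_mul_right p q).trans h),
      (ZMod.natCast_eq_zero_iff _ _).mpr ((dvd_mul_left q p).trans h)⟩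
  have hfp := Fact.mk hp
  have hfq := Fact.mk hq
  have h2ne : ∀ r, r.Prime → r ≠ 2 → (2 : ZMod r) ≠ 0 := by
    intro r hr hr2 hc
    have : ((2 : ℕ) : ZMod r) = 0 := by exact_mod_cast hc
    rw [ZMod.natCast_eq_zero_iff] at this
    exact hr2 ((Nat.prime_dvd_prime_iff_eq hr Nat.prime_two).mp this)
  by_cases h21 : NO G 2 = 1
  swap
  · -- case A
    have h2odd : ¬ 2 ∣ NO G 2 := by
      intro hd
      have h := dvd_sum_NO h2G
      rw [sum_prime G Nat.prime_two, NO_one] at h
      omega
    have hall : ∀ m, 3 ≤ m → NO G m ≠ 0 → NO G m = NO G p := by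
      intro m hm hm0
      have h2m := heven m hm
      have h2p := heven p hp3
      have hp0 := hcauchy p hp hpG
      rcases eq_of_ncard_three h h1V (hmem 2 (hcauchy 2 Nat.prime_two h2G)) (hmem p hp0)
        (Ne.symm h21) (by omega) (fun hc => h2odd (hc ▸ h2p)) (hmem m hm0) with h | h | h
      · omega
      · exact absurd (h ▸ h2m) h2odd
      · exact h
    have hNq := hall q hq3 (hcauchy q hq hqG)
    have e1 := h1r p hp hpG
    have e2 := h1r q hq hqG
    rw [hNq] at e2
    push_cast at e1 e2
    obtain ⟨e3, e4⟩ := hpqd p q hp hq hqp hpG hqG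
    by_cases h0 : NO G (p * q) = 0
    · have e5 := hdvd p q hq hqG ((Nat.coprime_primes hp hq).mpr hqp.symm) h0
      rw [e5, add_zero] at e2
      exact one_ne_zero e2
    · have h5 := hall (p * q) (by nlinarith) h0
      rw [h5, hNq] at e3
      push_cast at e3
      apply h2ne p hp hp2
      linear_combination 3 * e1 - e3
  · -- case B
    have h4 : NO G 4 ≠ 0 := by
      intro h40
      obtain ⟨S⟩ := (inferInstance : Nonempty (Sylow 2 G))
      apply hns
      apply solv_cyc S
      -- every element of `S` has order at most two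
      have h5 : ∀ x : G, x ∈ (S : Subgroup G) → x = 1 ∨ orderOf x = 2 := by
        intro x hx
        obtain ⟨k, hk⟩ := (IsPGroup.iff_orderOf.mp S.2) ⟨x, hx⟩
        rw [Subgroup.orderOf_mk] at hk
        rcases Nat.lt_or_ge k 2 with h | h
        · interval_cases k
          · left
            rw [pow_zero] at hk
            exact orderOf_eq_one_iff.mp hk
          · right
            rw [pow_one] at hk
            exact hk
        · exfalso
          apply (NO_ne_zero_iff (G := G) 4).mpr ⟨x ^ (2 ^ (k - 2)), ?_⟩ h40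
          rw [orderOf_pow' x (by positivity), hk, Nat.gcd_eq_right (pow_dvd_pow 2 (by omega))]
          rw [Nat.pow_div (by omega) (by norm_num)]
          have : k - (k - 2) = 2 := by omega
          rw [this]
      obtain ⟨hs, -⟩ := Nat.card_eq_one_iff_unique.mp h21
      obtain ⟨z, hz⟩ := (NO_ne_zero_iff (G := G) 2).mp (hcauchy 2 Nat.prime_two h2G)
      have h6 : (S : Subgroup G) ≤ Subgroup.zpowers z := by
        intro x hx
        rcases h5 x hx with rfl | h
        · exact Subgroup.one_mem _
        · have : x = z := congrArg Subtype.val (Subsingleton.elim (⟨x, h⟩ : {g : G // orderOf g = 2}) ⟨z, hz⟩)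
          rw [this]
          exact Subgroup.mem_zpowers z
      exact isCyclic_of_injective (Subgroup.inclusion h6) (Subgroup.inclusion_injective h6)
    have h4G : 4 ∣ Nat.card G := by
      obtain ⟨x, hx⟩ := (NO_ne_zero_iff (G := G) 4).mp h4
      rw [← hx]
      exact orderOf_dvd_natCard x
    have h4mod : NO G 4 % 4 = 2 := by
      have h := dvd_sum_NO h4G
      rw [sum_four, NO_one, h21] at h
      omega
    obtain ⟨c2, hc2V, hc21, hc24⟩ : ∃ c2 ∈ V, c2 ≠ 1 ∧ c2 ≠ NO G 4 := by
      obtain ⟨a, b, c, hab, hac, hbc, hVe⟩ := Set.ncard_eq_three.mp h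
      have ha : a ∈ V := by rw [hVe]; simp
      have hb : b ∈ V := by rw [hVe]; simp
      have hc : c ∈ V := by rw [hVe]; simp
      have h1 : 1 = a ∨ 1 = b ∨ 1 = c := by
        have := h1V
        rw [hVe] at this
        simpa using this
      have h4' : NO G 4 = a ∨ NO G 4 = b ∨ NO G 4 = c := by
        have := hmem 4 h4
        rw [hVe] at this
        simpa using this
      rcases h1 with h1 | h1 | h1 <;> rcases h4' with h4' | h4' | h4'
      · omega
      · exact ⟨c, hc, by omega, by omega⟩
      · exact ⟨b, hb, by omega, by omega⟩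
      · exact ⟨c, hc, by omega, by omega⟩
      · omega
      · exact ⟨a, ha, by omega, by omega⟩
      · exact ⟨b, hb, by omega, by omega⟩
      · exact ⟨a, ha, by omega, by omega⟩
      · omega
    have hall : ∀ m, NO G m ≠ 0 → NO G m = 1 ∨ NO G m = NO G 4 ∨ NO G m = c2 := by
      intro m hm
      exact eq_of_ncard_three h h1V (hmem 4 h4) hc2V (by omega) hc21.symm hc24.symm (hmem m hm)
    have hfour : ∀ m, 4 ∣ m.totient → NO G m ≠ 0 → NO G m = c2 := by
      intro m hm hm0
      have h5 := hm.trans (totient_dvd_NO (G := G) m)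
      rcases hall m hm0 with h | h | h
      · omega
      · omega
      · exact h
    -- the main computation
    have hodd4 : ∀ r, r.Prime → r ≠ 2 → Nat.Coprime 4 r := by
      intro r hr hr2
      have : Nat.Coprime (2 ^ 2) r := Nat.Coprime.pow_left 2 ((Nat.coprime_primes Nat.prime_two hr).mpr hr2.symm)
      exact this
    have htot : ∀ r, r.Prime → r ≠ 2 → 2 ∣ r.totient := by
      intro r hr hr2
      exact (Nat.totient_even (by have := hr.two_le; omega)).two_dvd
    have ht4 : Nat.totient 4 = 2 := by decide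
    have h4r : ∀ r, r.Prime → r ≠ 2 → r ∣ Nat.card G → NO G (4 * r) ≠ 0 → NO G (4 * r) = c2 := by
      intro r hr hr2 hrG
      apply hfour
      rw [Nat.totient_mul (hodd4 r hr hr2), ht4]
      exact Nat.mul_dvd_mul (dvd_refl 2) (htot r hr hr2)
    have hsum4 : ∀ m, Odd m → m ∣ Nat.card G → ((2 * ∑ d ∈ m.divisors, NO G d + ∑ d ∈ m.divisors, NO G (4 * d) : ℕ) : ZMod m) = 0 := by
      intro m hm hmG
      have hcop : Nat.Coprime 4 m := by
        have : Nat.Coprime (2 ^ 2) m := Nat.Coprime.pow_left 2 (Nat.coprime_two_left.mpr hm)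
        exact this
      have h5 := dvd_sum_NO (hcop.mul_dvd_of_dvd_of_dvd h4G hmG)
      rw [sum_div_mul hcop, sum_div_four] at h5
      have h6 : ∑ d ∈ m.divisors, NO G (2 * d) = ∑ d ∈ m.divisors, NO G d := by
        apply Finset.sum_congr rfl
        intro d hd
        rw [mul_comm]
        exact NO_mul_two h21 (Odd.of_dvd_nat hm (Nat.dvd_of_mem_divisors hd))
      rw [h6] at h5
      simp only [one_mul] at h5
      have h7 := (dvd_mul_left m 4).trans h5
      rw [← two_mul] at h7
      exact (ZMod.natCast_eq_zero_iff _ _).mpr h7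
    have hB : ∀ r, r.Prime → r ≠ 2 → r ∣ Nat.card G → (NO G 4 : ZMod r) + (NO G (4 * r) : ZMod r) = 0 := by
      intro r hr hr2 hrG
      have h5 := hsum4 r (hr.odd_of_ne_two hr2) hrG
      rw [sum_prime G hr, sum_prime G hr, NO_one, mul_one] at h5
      have h6 := h1r r hr hrG
      push_cast at h5 h6
      linear_combination h5 - 2 * h6
    have hB2 : ∀ r, r.Prime → r ≠ 2 → r ∣ Nat.card G → (NO G 4 : ZMod r) ≠ 0 →
        NO G (4 * r) = c2 ∧ (NO G 4 : ZMod r) + (c2 : ZMod r) = 0 := by
      intro r hr hr2 hrG h40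
      have h5 := hB r hr hr2 hrG
      have h6 : NO G (4 * r) ≠ 0 := by
        intro hc
        rw [hc, Nat.cast_zero, add_zero] at h5
        exact h40 h5
      have h7 := h4r r hr hr2 hrG h6
      rw [h7] at h5
      exact ⟨h7, h5⟩
    have hX : ∀ p q, p.Prime → q.Prime → p ≠ 2 → q ≠ 2 → q ≠ p → NO G (p * q) = 0 ∨ NO G (p * q) = c2 := by
      intro p q hp hq hp2 hq2 hqp
      apply zero_or
      apply hfour
      rw [Nat.totient_mul ((Nat.coprime_primes hp hq).mpr hqp.symm)]
      exact Nat.mul_dvd_mul (htot p hp hp2) (htot q hq hq2)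
    -- case 3
    have case3 : ∀ p q, p.Prime → q.Prime → p ≠ 2 → q ≠ 2 → q ≠ p → p ∣ Nat.card G → q ∣ Nat.card G →
        NO G p = NO G 4 → NO G q = c2 → False := by
      intro p q hp hq hp2 hq2 hqp hpG hqG hNp hNq
      have hfp := Fact.mk hp
      obtain ⟨e3, -⟩ := hpqd p q hp hq hqp hpG hqG
      have e1 := h1r p hp hpG
      rw [hNp] at e1 e3
      rw [hNq] at e3
      push_cast at e1 e3
      have h40 : (NO G 4 : ZMod p) ≠ 0 := by
        intro hc
        rw [hc, add_zero] at e1
        exact one_ne_zero e1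
      obtain ⟨-, e5⟩ := hB2 p hp hp2 hpG h40
      rcases hX p q hp hq hp2 hq2 hqp with h | h
      · rw [h] at e3
        push_cast at e3
        apply one_ne_zero (α := ZMod p)
        linear_combination e3 - e5
      · rw [h] at e3
        apply h2ne p hp hp2
        linear_combination e3 + e1 - 2 * e5
    have hNp := (hall p (hcauchy p hp hpG)).resolve_left (by have := heven p hp3; omega)
    have hNq := (hall q (hcauchy q hq hqG)).resolve_left (by have := heven q hq3; omega)
    rcases hNp with hNp | hNp <;> rcases hNq with hNq | hNq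
    · -- both `N 4`
      have e1 := h1r p hp hpG
      have f1 := h1r q hq hqG
      obtain ⟨e3, f3⟩ := hpqd p q hp hq hqp hpG hqG
      have e3' := e3
      rw [hNp, hNq] at e3
      rw [hNp] at e1
      rw [hNq] at f1
      push_cast at e1 f1 e3
      have h40 : (NO G 4 : ZMod p) ≠ 0 := by
        intro hc
        rw [hc, add_zero] at e1
        exact one_ne_zero e1
      have h40' : (NO G 4 : ZMod q) ≠ 0 := by
        intro hc
        rw [hc, add_zero] at f1
        exact one_ne_zero f1
      obtain ⟨g1, e5⟩ := hB2 p hp hp2 hpG h40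
      obtain ⟨g2, f5⟩ := hB2 q hq hq2 hqG h40'
      have hcop : p.Coprime q := (Nat.coprime_primes hp hq).mpr hqp.symm
      have hpqo : Odd (p * q) := (hp.odd_of_ne_two hp2).mul (hq.odd_of_ne_two hq2)
      have h5 := hcop.mul_dvd_of_dvd_of_dvd hpG hqG
      have h6 := hsum4 (p * q) hpqo h5
      rw [ZMod.natCast_eq_zero_iff] at h6
      have h7 := (ZMod.natCast_eq_zero_iff _ _).mpr ((dvd_mul_right p q).trans h6)
      rw [sum_div_mul hcop, sum_div_mul hcop, sum_prime G hp, sum_prime G hq, sum_prime G hq, sum_prime G hp,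
        sum_prime G hq, sum_prime G hq] at h7
      simp only [mul_one, one_mul] at h7
      rw [NO_one] at h7
      have g3 : NO G (4 * (p * q)) = 0 ∨ NO G (4 * (p * q)) = c2 := by
        apply zero_or
        apply hfour
        have h8 : Nat.Coprime 4 (p * q) := Nat.Coprime.mul_right (hodd4 p hp hp2) (hodd4 q hq hq2)
        rw [Nat.totient_mul h8, ht4, Nat.totient_mul hcop]
        exact Nat.mul_dvd_mul (dvd_refl 2) ((htot p hp hp2).mul_right _)
      rw [g1, g2] at h7
      push_cast at h7 e3'
      rcases g3 with g3 | g3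
      · rw [g3] at h7
        push_cast at h7
        apply one_ne_zero (α := ZMod p)
        linear_combination h7 - 2 * e3' + e1 - 2 * e5
      · rw [g3] at h7
        apply h2ne p hp hp2
        linear_combination h7 - 2 * e3' + 2 * e1 - 3 * e5
    · exact case3 p q hp hq hp2 hq2 hqp hpG hqG hNp hNq
    · exact case3 q p hq hp hq2 hp2 hqp.symm hqG hpG hNq hNp
    · -- both `c2`
      have e1 := h1r p hp hpG
      obtain ⟨e3, -⟩ := hpqd p q hp hq hqp hpG hqG
      rw [hNp, hNq] at e3
      rw [hNp] at e1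
      push_cast at e1 e3
      rcases hX p q hp hq hp2 hq2 hqp with h | h
      · rw [h] at e3
        push_cast at e3
        apply one_ne_zero (α := ZMod p)
        linear_combination 2 * e1 - e3
      · rw [h] at e3
        apply h2ne p hp hp2
        linear_combination 3 * e1 - e3

end Cfsg.Agent.S3996
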