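import Cfsg.Statements.S4010
import Cfsg.Agent.H26.AugNil

set_option autoImplicit false
set_option linter.all false
open Cfsg

namespace Cfsg.Agent.S4010

open Module
universe u v w

section charp

variable {P : Type u} [Group P] {F : Type v} [Field F] {V : Type w} [AddCommGroup V] [Module F V]

/-- The ascending chain of fixed points. -/
noncomputable def Uc (ρ : P →* Module.End F V) : ℕ → Submodule F V
  | 0 => ⊥
  | i + 1 => ⨅ g : P, (Uc ρ i).comap (ρ g - 1)

theorem mem_Uc_succ (ρ : P →* Module.End F V) (i : ℕ) (v : V) :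
    v ∈ Uc ρ (i + 1) ↔ ∀ g, ρ g v - v ∈ Uc ρ i := by
  show v ∈ (⨅ g : P, (Uc ρ i).comap (ρ g - 1)) ↔ _
  simp only [Submodule.mem_iInf, Submodule.mem_comap]
  rfl

theorem Uc_inv (ρ : P →* Module.End F V) (i : ℕ) : ∀ (g : P) (v : V), v ∈ Uc ρ i → ρ g v ∈ Uc ρ i := by
  cases i with
  | zero =>
    intro g v hv
    have : v = 0 := hv
    rw [this, map_zero]; exact zero_mem _
  | succ i =>
    intro g v hv
    rw [mem_Uc_succ] at hv ⊢
    intro h
    have h1 := sub_mem (hv (h * g)) (hv g)
    have : ρ h (ρ g v) - ρ g v = (ρ (h * g) v - v) - (ρ g v - v) := by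
      rw [map_mul]
      show ρ h (ρ g v) - ρ g v = (ρ h (ρ g v) - v) - (ρ g v - v)
      abel
    rw [this]; exact h1

theorem Uc_le (ρ : P →* Module.End F V) (i : ℕ) : Uc ρ i ≤ Uc ρ (i + 1) := by
  intro v hv
  rw [mem_Uc_succ]
  exact fun g => sub_mem (Uc_inv ρ i g v hv) hv

theorem Uc_lt [Finite P] {p : ℕ} [Fact p.Prime] [CharP F p] (hP : IsPGroup p P) (ρ : P →* Module.End F V) (i : ℕ)
    (h : Uc ρ i ≠ ⊤) : Uc ρ i < Uc ρ (i + 1) := by
  refine lt_of_le_of_ne (Uc_le ρ i) fun heq => h ?_
  rw [Submodule.eq_top_iff']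
  by_contra hne
  push Not at hne
  obtain ⟨v, hv⟩ := hne
  let ρ' : P →* Module.End F (V ⧸ Uc ρ i) :=
    { toFun := fun g => (Uc ρ i).mapQ (Uc ρ i) (ρ g) (fun v hv => Uc_inv ρ i g v hv)
      map_one' := by
        apply LinearMap.ext
        intro x
        obtain ⟨v, rfl⟩ := Submodule.Quotient.mk_surjective _ x
        rw [Submodule.mapQ_apply, map_one]
        rfl
      map_mul' := by
        intro a b
        apply LinearMap.ext
        intro x
        obtain ⟨v, rfl⟩ := Submodule.Quotient.mk_surjective _ x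
        rw [Submodule.mapQ_apply, map_mul]
        rfl }
  letI : DistribMulAction P (V ⧸ Uc ρ i) := DistribMulAction.compHom _ ρ'
  obtain ⟨w, hw0, hw⟩ := H26.exists_fixed_ne_zero hP (V := V ⧸ Uc ρ i) (by
    intro x
    rw [← Nat.cast_smul_eq_nsmul F, CharP.cast_eq_zero, zero_smul]) (Submodule.Quotient.mk v) (by
    rw [Ne, Submodule.Quotient.mk_eq_zero]; exact hv)
  obtain ⟨w, rfl⟩ := Submodule.Quotient.mk_surjective _ w
  apply hw0
  rw [Submodule.Quotient.mk_eq_zero, heq, mem_Uc_succ]
  intro g
  rw [← Submodule.Quotient.eq]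
  exact hw g

theorem Uc_top [Finite P] {p : ℕ} [Fact p.Prime] [CharP F p] (hP : IsPGroup p P) (ρ : P →* Module.End F V)
    [FiniteDimensional F V] (i : ℕ) (hi : finrank F V ≤ i) : Uc ρ i = ⊤ := by
  have key : ∀ i, Uc ρ i = ⊤ ∨ i ≤ finrank F (Uc ρ i) := by
    intro i
    induction i with
    | zero => right; exact Nat.zero_le _
    | succ i ih =>
      by_cases h : Uc ρ i = ⊤
      · left
        rw [eq_top_iff, ← h]; exact Uc_le ρ i
      · right
        rcases ih with h' | h'
        · exact absurd h' h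
        · have := Submodule.finrank_lt_finrank_of_lt (Uc_lt hP ρ i h)
          omega
  rcases key i with h | h
  · exact h
  · apply Submodule.eq_top_of_finrank_eq
    exact le_antisymm (Submodule.finrank_le _) (hi.trans h)

theorem Uc_der (ρ : P →* Module.End F V) : ∀ (k i : ℕ) (g : P), g ∈ derivedSeries P k → ∀ v ∈ Uc ρ (i + 2 ^ k),
    ρ g v - v ∈ Uc ρ i := by
  intro k
  induction k with
  | zero =>
    intro i g _ v hv
    exact (mem_Uc_succ ρ i v).mp hv g
  | succ k ih =>
    intro i
    let S : Subgroup P :=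
      { carrier := {g | ∀ v ∈ Uc ρ (i + 2 ^ (k + 1)), ρ g v - v ∈ Uc ρ i}
        one_mem' := by
          intro v _
          rw [map_one]
          have : (1 : Module.End F V) v - v = 0 := sub_self v
          rw [this]; exact zero_mem _
        mul_mem' := by
          intro a b ha hb v hv
          have : ρ (a * b) v - v = ρ a (ρ b v - v) + (ρ a v - v) := by
            rw [map_mul, map_sub]
            show ρ a (ρ b v) - v = _
            abel
          rw [this]
          exact add_mem (Uc_inv ρ i _ _ (hb v hv)) (ha v hv)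
        inv_mem' := by
          intro a ha v hv
          have : ρ a⁻¹ v - v = - ρ a⁻¹ (ρ a v - v) := by
            rw [map_sub]
            have h1 : ρ a⁻¹ (ρ a v) = v := by
              have : (ρ a⁻¹ * ρ a) v = v := by rw [← map_mul, inv_mul_cancel, map_one]; rfl
              exact this
            rw [h1]; abel
          rw [this]
          exact neg_mem (Uc_inv ρ i _ _ (ha v hv)) }
    intro g hg
    have hS : derivedSeries P (k + 1) ≤ S := by
      rw [derivedSeries_succ, Subgroup.commutator_le]
      intro a ha b hb v hv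
      obtain ⟨w, hw⟩ : ∃ w, w = ρ (a⁻¹ * b⁻¹) v := ⟨_, rfl⟩
      have hwU : w ∈ Uc ρ (i + 2 ^ (k + 1)) := by rw [hw]; exact Uc_inv ρ _ _ _ hv
      have h1 : ρ (a * b * a⁻¹ * b⁻¹) v = ρ a (ρ b w) := by
        rw [hw]
        show _ = (ρ a * (ρ b * ρ (a⁻¹ * b⁻¹))) v
        rw [← map_mul, ← map_mul]
        congr 2
        group
      have h2 : v = ρ b (ρ a w) := by
        rw [hw]
        show _ = (ρ b * (ρ a * ρ (a⁻¹ * b⁻¹))) v
        rw [← map_mul, ← map_mul]
        have : b * (a * (a⁻¹ * b⁻¹)) = 1 := by group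
        rw [this, map_one]; rfl
      have h3 : ρ (a * b * a⁻¹ * b⁻¹) v - v = (ρ a (ρ b w - w) - (ρ b w - w)) - (ρ b (ρ a w - w) - (ρ a w - w)) := by
        rw [h1]
        nth_rewrite 1 [h2]
        rw [map_sub, map_sub]
        abel
      show ρ (a * b * a⁻¹ * b⁻¹) v - v ∈ _
      rw [h3]
      have hwU' : w ∈ Uc ρ (i + 2 ^ k + 2 ^ k) := by
        have : i + 2 ^ k + 2 ^ k = i + 2 ^ (k + 1) := by ring
        rw [this]; exact hwU
      exact sub_mem (ih i a ha _ (ih (i + 2 ^ k) b hb w hwU')) (ih i b hb _ (ih (i + 2 ^ k) a ha w hwU'))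
    exact hS hg

theorem charp_case [Finite P] {p : ℕ} [Fact p.Prime] [CharP F p] (hP : IsPGroup p P) (ρ : P →* Module.End F V)
    [FiniteDimensional F V] (k : ℕ) (hk : finrank F V ≤ 2 ^ k) (g : P) (hg : g ∈ derivedSeries P k) : ρ g = 1 := by
  apply LinearMap.ext
  intro v
  have h1 := Uc_der ρ k 0 g hg v (by rw [zero_add, Uc_top hP ρ _ hk]; trivial)
  exact sub_eq_zero.mp h1

end charp

section coprime

variable {P : Type u} [Group P] {K : Type v} [Field K] [IsAlgClosed K] {V : Type w} [AddCommGroup V] [Module K V]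
  [FiniteDimensional K V]

theorem diag {p : ℕ} [Fact p.Prime] (hp : (p : K) ≠ 0) (f : Module.End K V) (m : ℕ) (hf : f ^ p ^ m = 1) :
    ⨆ μ : K, f.eigenspace μ = ⊤ := by
  apply Module.End.IsSemisimple.iSup_eigenspace_eq_top
  have hsep : (Polynomial.X ^ (p ^ m) - 1 : Polynomial K).Separable := by
    rw [Polynomial.X_pow_sub_one_separable_iff]
    push_cast
    exact pow_ne_zero _ hp
  refine Module.End.isSemisimple_of_squarefree_aeval_eq_zero hsep.squarefree ?_
  simp [hf]

/-- the restriction of a representation to an invariant subspace -/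
noncomputable def resSub (ρ : P →* Module.End K V) (W : Submodule K V) (h : ∀ g, ∀ v ∈ W, ρ g v ∈ W) :
    P →* Module.End K W where
  toFun g := (ρ g).restrict (h g)
  map_one' := by
    apply LinearMap.ext
    intro x
    apply Subtype.ext
    show ρ 1 (x : V) = x
    rw [map_one]
    rfl
  map_mul' a b := by
    apply LinearMap.ext
    intro x
    apply Subtype.ext
    show ρ (a * b) (x : V) = ρ a (ρ b x)
    rw [map_mul]
    rfl

theorem resSub_eq_one {ρ : P →* Module.End K V} {W : Submodule K V} {h : ∀ g, ∀ v ∈ W, ρ g v ∈ W} {g : P}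
    (hg : resSub ρ W h g = 1) {v : V} (hv : v ∈ W) : ρ g v = v := by
  have := congrArg (fun f : Module.End K W => ((f ⟨v, hv⟩ : W) : V)) hg
  exact this

theorem der_le (C : Subgroup P) (hC : commutator P ≤ C) (k : ℕ) :
    derivedSeries P (k + 1) ≤ (derivedSeries C k).map C.subtype := by
  induction k with
  | zero =>
    intro x hx
    have : x ∈ C := hC (by rwa [zero_add, derivedSeries_one] at hx)
    exact ⟨⟨x, this⟩, trivial, rfl⟩
  | succ k ih =>
    have h1 : derivedSeries P (k + 1 + 1) = ⁅derivedSeries P (k + 1), derivedSeries P (k + 1)⁆ := rfl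
    have h2 : derivedSeries C (k + 1) = ⁅derivedSeries C k, derivedSeries C k⁆ := rfl
    rw [h1, h2, Subgroup.map_commutator]
    exact Subgroup.commutator_mono ih ih

end coprime

theorem coprime_case {K : Type v} [Field K] [IsAlgClosed K] {p : ℕ} [Fact p.Prime] (hp : (p : K) ≠ 0) (n : ℕ) :
    ∀ {P : Type u} [Group P] [Finite P] (_ : IsPGroup p P) {V : Type w} [AddCommGroup V] [Module K V]
      [FiniteDimensional K V] (_ : finrank K V = n) (ρ : P →* Module.End K V) (k : ℕ) (_ : n < 2 ^ k)
      (g : P) (_ : g ∈ derivedSeries P k), ρ g = 1 := by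
  induction n using Nat.strong_induction_on with
  | _ n ih =>
  intro P _ _ hP V _ _ _ hV ρ k hk g hg
  classical
  obtain ⟨M, hM⟩ := IsPGroup.iff_card.mp hP
  have hpow : ∀ a : P, (ρ a) ^ p ^ M = 1 := by
    intro a
    rw [← map_pow, ← hM, pow_card_eq_one', map_one]
  rcases Nat.eq_zero_or_pos n with hn | hn
  · haveI : Subsingleton V := by
      rw [hn] at hV
      exact finrank_zero_iff.mp hV
    exact LinearMap.ext fun v => Subsingleton.elim _ _
  obtain ⟨k', rfl⟩ : ∃ k', k = k' + 1 := by
    cases k with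
    | zero => omega
    | succ k' => exact ⟨k', rfl⟩
  have hinv : ∀ (a : P) (v : V), ρ a⁻¹ (ρ a v) = v := by
    intro a v
    have : (ρ a⁻¹ * ρ a) v = v := by rw [← map_mul, inv_mul_cancel, map_one]; rfl
    exact this
  have hspan : ∀ (f h : Module.End K V), (⨆ μ : K, f.eigenspace μ = ⊤) →
      (∀ μ, ∀ v ∈ f.eigenspace μ, h v = v) → h = 1 := by
    intro f h hf hh
    apply LinearMap.ext
    intro v
    have hv : v ∈ (⨆ μ : K, f.eigenspace μ) := by rw [hf]; trivial
    refine Submodule.iSup_induction _ (motive := fun v => h v = (1 : Module.End K V) v) hv (fun μ x hx => hh μ x hx)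
      (by rw [map_zero, map_zero]) (fun x y hx hy => by rw [map_add, map_add, hx, hy])
  by_cases hA : ∃ z : P, (∀ g, ρ g * ρ z = ρ z * ρ g) ∧ ∀ μ : K, ρ z ≠ algebraMap K (Module.End K V) μ
  · obtain ⟨z, hz, hzs⟩ := hA
    refine hspan (ρ z) _ (diag hp _ M (hpow z)) ?_
    intro μ v hv
    have hW : ∀ g, ∀ v ∈ (ρ z).eigenspace μ, ρ g v ∈ (ρ z).eigenspace μ := by
      intro g v hv
      rw [Module.End.mem_eigenspace_iff] at hv ⊢
      have : ρ z (ρ g v) = ρ g (ρ z v) := by
        show (ρ z * ρ g) v = (ρ g * ρ z) v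
        rw [hz]
      rw [this, hv, map_smul]
    have hlt : finrank K ((ρ z).eigenspace μ) < n := by
      rw [← hV]
      apply Submodule.finrank_lt
      intro htop
      apply hzs μ
      apply LinearMap.ext
      intro v
      have : v ∈ (ρ z).eigenspace μ := by rw [htop]; trivial
      rw [Module.End.mem_eigenspace_iff] at this
      rw [this]; rfl
    exact resSub_eq_one (ih _ hlt hP rfl (resSub ρ _ hW) (k' + 1) (hlt.trans hk) g hg) hv
  · push Not at hA
    haveI : Nontrivial V := Module.nontrivial_of_finrank_pos (R := K) (by rw [hV]; exact hn)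
    obtain ⟨Z, hZ⟩ : ∃ Z : Subgroup P, ∀ z, z ∈ Z ↔ ∀ g, ρ g * ρ z = ρ z * ρ g := by
      refine ⟨{ carrier := {z | ∀ g, ρ g * ρ z = ρ z * ρ g}
                one_mem' := fun g => by rw [map_one, one_mul, mul_one]
                mul_mem' := fun {a b} ha hb g => by
                  rw [map_mul, ← mul_assoc, ha g, mul_assoc, hb g, mul_assoc]
                inv_mem' := fun {a} ha g => by
                  have h1 : ρ a⁻¹ * ρ a = 1 := by rw [← map_mul, inv_mul_cancel, map_one]
                  have h2 : ρ a * ρ a⁻¹ = 1 := by rw [← map_mul, mul_inv_cancel, map_one]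
                  calc ρ g * ρ a⁻¹ = ρ a⁻¹ * (ρ a * ρ g) * ρ a⁻¹ := by rw [← mul_assoc, h1, one_mul]
                    _ = ρ a⁻¹ * (ρ g * ρ a) * ρ a⁻¹ := by rw [ha g]
                    _ = ρ a⁻¹ * ρ g := by rw [mul_assoc, mul_assoc, h2, mul_one] }, fun z => Iff.rfl⟩
    have hker : ∀ a b : P, ρ a * ρ b = ρ b * ρ a → ρ (a * b * a⁻¹ * b⁻¹) = 1 := by
      intro a b hab
      have : a * b * a⁻¹ * b⁻¹ = (a * b) * (b * a)⁻¹ := by group
      rw [this, map_mul, map_mul, hab, ← map_mul, ← map_mul, mul_inv_cancel, map_one]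
    haveI hZn : Z.Normal := by
      refine ⟨fun z hz g => ?_⟩
      rw [hZ] at hz ⊢
      intro h
      have h1 : ρ (g * z * g⁻¹) = ρ z := by
        rw [map_mul, map_mul, hz g, mul_assoc, ← map_mul, mul_inv_cancel, map_one, mul_one]
      rw [h1]; exact hz h
    by_cases hZt : Z = ⊤
    · have h1 : derivedSeries P (k' + 1) ≤ ρ.ker := by
        refine (derivedSeries_antitone P (by omega : 1 ≤ k' + 1)).trans ?_
        rw [derivedSeries_one, commutator_def, Subgroup.commutator_le]
        intro a _ b _
        rw [MonoidHom.mem_ker]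
        exact hker a b (((hZ b).mp (by rw [hZt]; trivial)) a)
      exact h1 hg
    · obtain ⟨a, haZ, haZ2⟩ : ∃ a : P, a ∉ Z ∧ ∀ g, g * a * g⁻¹ * a⁻¹ ∈ Z := by
        haveI : Nontrivial (P ⧸ Z) := by
          rw [QuotientGroup.nontrivial_iff]; exact hZt
        haveI := (hP.to_quotient Z).center_nontrivial
        obtain ⟨⟨c, hc⟩, hc1⟩ := exists_ne (1 : Subgroup.center (P ⧸ Z))
        obtain ⟨a, rfl⟩ := QuotientGroup.mk_surjective c
        refine ⟨a, fun h => hc1 (Subtype.ext ((QuotientGroup.eq_one_iff a).mpr h)), fun g => ?_⟩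
        rw [← QuotientGroup.eq_one_iff]
        have h2 := Subgroup.mem_center_iff.mp hc (g : P ⧸ Z)
        show (g : P ⧸ Z) * a * (g : P ⧸ Z)⁻¹ * (a : P ⧸ Z)⁻¹ = 1
        rw [h2, mul_inv_cancel_right, mul_inv_cancel]
      have hne0 : ∀ x y : P, ρ x * ρ y ≠ 0 := by
        intro x y h
        have h1 : ρ (x * y) * ρ (x * y)⁻¹ = 1 := by rw [← map_mul, mul_inv_cancel, map_one]
        rw [map_mul, h, zero_mul] at h1
        exact zero_ne_one h1
      have hR : ∀ g : P, ∃ c : K, c ≠ 0 ∧ ρ g * ρ a = c • (ρ a * ρ g) := by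
        intro g
        obtain ⟨c, hc⟩ := hA _ ((hZ _).mp (haZ2 g))
        have h1 : ρ g * ρ a = c • (ρ a * ρ g) := by
          have : g * a = (g * a * g⁻¹ * a⁻¹) * (a * g) := by group
          rw [← map_mul, this, map_mul, hc, map_mul, ← Algebra.smul_def]
        refine ⟨c, ?_, h1⟩
        rintro rfl
        rw [zero_smul] at h1
        exact hne0 g a h1
      have hmulR : ∀ (g h : P) (c d : K), ρ g * ρ a = c • (ρ a * ρ g) → ρ h * ρ a = d • (ρ a * ρ h) →
          ρ (g * h) * ρ a = (c * d) • (ρ a * ρ (g * h)) := by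
        intro g h c d hc hd
        rw [map_mul, mul_assoc, hd, mul_smul_comm, ← mul_assoc, hc, smul_mul_assoc, smul_smul, mul_comm d c, mul_assoc]
      have huniq : ∀ (g : P) (c d : K), ρ g * ρ a = c • (ρ a * ρ g) → ρ g * ρ a = d • (ρ a * ρ g) → c = d := by
        intro g c d hc hd
        exact smul_left_injective K (hne0 a g) (hc.symm.trans hd)
      obtain ⟨C, hC⟩ : ∃ C : Subgroup P, ∀ z, z ∈ C ↔ ρ z * ρ a = ρ a * ρ z := by
        refine ⟨{ carrier := {z | ρ z * ρ a = ρ a * ρ z}
                  one_mem' := by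
                    show ρ 1 * ρ a = ρ a * ρ 1
                    rw [map_one, one_mul, mul_one]
                  mul_mem' := fun {x b} (hx : ρ x * ρ a = ρ a * ρ x) (hb : ρ b * ρ a = ρ a * ρ b) => by
                    show ρ (x * b) * ρ a = ρ a * ρ (x * b)
                    rw [map_mul, mul_assoc, hb, ← mul_assoc, hx, mul_assoc]
                  inv_mem' := fun {x} (hx : ρ x * ρ a = ρ a * ρ x) => by
                    show ρ x⁻¹ * ρ a = ρ a * ρ x⁻¹
                    have h1 : ρ x⁻¹ * ρ x = 1 := by rw [← map_mul, inv_mul_cancel, map_one]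
                    have h2 : ρ x * ρ x⁻¹ = 1 := by rw [← map_mul, mul_inv_cancel, map_one]
                    calc ρ x⁻¹ * ρ a = ρ x⁻¹ * (ρ a * ρ x) * ρ x⁻¹ := by rw [mul_assoc, mul_assoc, h2, mul_one]
                      _ = ρ x⁻¹ * (ρ x * ρ a) * ρ x⁻¹ := by rw [hx]
                      _ = ρ a * ρ x⁻¹ := by rw [← mul_assoc, h1, one_mul] }, fun z => Iff.rfl⟩
      have hCcomm : commutator P ≤ C := by
        rw [commutator_def, Subgroup.commutator_le]
        intro x _ y _
        obtain ⟨c, hc0, hc⟩ := hR x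
        obtain ⟨d, hd0, hd⟩ := hR y
        obtain ⟨e, he0, he⟩ := hR (x * y * x⁻¹ * y⁻¹)
        have h1 := hmulR _ _ _ _ hc hd
        have h2 := hmulR _ _ _ _ he (hmulR _ _ _ _ hd hc)
        have h3 : x * y * x⁻¹ * y⁻¹ * (y * x) = x * y := by group
        rw [h3] at h2
        have h4 := huniq _ _ _ h1 h2
        have he1 : e = 1 := by
          have h5 : c * d ≠ 0 := mul_ne_zero hc0 hd0
          have h6 : 1 * (c * d) = e * (c * d) := by rw [one_mul, mul_comm c d] at *; exact h4
          exact (mul_right_cancel₀ h5 h6).symm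
        rw [he1, one_smul] at he
        exact (hC _).mpr he
      obtain ⟨g', hg', hgg'⟩ := der_le C hCcomm k' hg
      have hgoal : ρ g = 1 := by
        refine hspan (ρ a) _ (diag hp _ M (hpow a)) ?_
        intro μ v hv
        have hW : ∀ g : C, ∀ v ∈ (ρ a).eigenspace μ, (ρ.comp C.subtype) g v ∈ (ρ a).eigenspace μ := by
          intro g v hv
          rw [Module.End.mem_eigenspace_iff] at hv ⊢
          have : ρ a (ρ g v) = ρ g (ρ a v) := by
            show (ρ a * ρ g) v = (ρ g * ρ a) v
            rw [(hC g).mp g.2]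
          show ρ a (ρ g v) = μ • ρ g v
          rw [this, hv, map_smul]
        have h2 : 2 * finrank K ((ρ a).eigenspace μ) ≤ n := by
          by_cases hμ : μ = 0
          · have : (ρ a).eigenspace μ = ⊥ := by
              rw [eq_bot_iff]
              intro v hv
              rw [Module.End.mem_eigenspace_iff, hμ, zero_smul] at hv
              have := hinv a v
              rw [hv, map_zero] at this
              exact this.symm
            rw [this, finrank_bot]; omega
          · obtain ⟨g0, hg0⟩ : ∃ g0, ρ g0 * ρ a ≠ ρ a * ρ g0 := by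
              by_contra hno
              push Not at hno
              exact haZ ((hZ a).mpr hno)
            obtain ⟨c, hc0, hc⟩ := hR g0
            have hc1 : c ≠ 1 := by
              rintro rfl
              rw [one_smul] at hc
              exact hg0 hc
            have hle : ((ρ a).eigenspace μ).map (ρ g0) ≤ (ρ a).eigenspace (c⁻¹ * μ) := by
              rintro _ ⟨v, hv, rfl⟩
              have hv' : ρ a v = μ • v := Module.End.mem_eigenspace_iff.mp hv
              rw [Module.End.mem_eigenspace_iff]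
              have h3 : (ρ g0 * ρ a) v = (c • (ρ a * ρ g0)) v := by rw [hc]
              have h4 : ρ g0 (ρ a v) = c • ρ a (ρ g0 v) := h3
              rw [hv', map_smul] at h4
              rw [mul_smul, h4, smul_smul, inv_mul_cancel₀ hc0, one_smul]
            have hinj : Function.Injective (ρ g0) := Function.LeftInverse.injective (hinv g0)
            have hdisj : Disjoint ((ρ a).eigenspace μ) (((ρ a).eigenspace μ).map (ρ g0)) := by
              refine Disjoint.mono_right hle ?_
              refine (ρ a).disjoint_genEigenspace ?_ 1 1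
              intro h
              apply hc1
              have : c⁻¹ * μ = 1 * μ := by rw [one_mul]; exact h.symm
              have := mul_right_cancel₀ hμ this
              rwa [inv_eq_one] at this
            have h5 := Submodule.finrank_add_finrank_le_of_disjoint hdisj
            have h6 : finrank K (((ρ a).eigenspace μ).map (ρ g0)) = finrank K ((ρ a).eigenspace μ) :=
              (Submodule.equivMapOfInjective (ρ g0) hinj _).finrank_eq.symm
            rw [h6, hV] at h5
            omega
        have hlt : finrank K ((ρ a).eigenspace μ) < n := by omega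
        have hlt2 : finrank K ((ρ a).eigenspace μ) < 2 ^ k' := by
          rw [pow_succ] at hk; omega
        have h7 := resSub_eq_one (ih _ hlt (hP.to_subgroup C) rfl (resSub (ρ.comp C.subtype) _ hW) k' hlt2 g' hg') hv
        rw [← hgg']
        exact h7
      exact hgoal

theorem exists_rep {P : Type u} [Group P] {F : Type v} [Field F] {K : Type w} [Field K] (φ : F →+* K) {n : ℕ}
    (ρ : P →* Matrix.GeneralLinearGroup (Fin n) F) (hρ : Function.Injective ρ) :
    ∃ ρ' : P →* Module.End K (Fin n → K), ∀ g, ρ' g = 1 → g = 1 := by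
  refine ⟨((Matrix.toLinAlgEquiv' (R := K) (n := Fin n)).toRingEquiv.toRingHom.comp φ.mapMatrix).toMonoidHom.comp
    ((Units.coeHom _).comp ρ), fun g hg => ?_⟩
  apply hρ
  rw [map_one]
  apply Units.ext
  have h1 : Matrix.toLinAlgEquiv' (φ.mapMatrix ((ρ g : Matrix.GeneralLinearGroup (Fin n) F) : Matrix (Fin n) (Fin n) F)) = 1 := hg
  have h2 : φ.mapMatrix ((ρ g : Matrix.GeneralLinearGroup (Fin n) F) : Matrix (Fin n) (Fin n) F) = 1 := by
    apply (Matrix.toLinAlgEquiv' (R := K) (n := Fin n)).injective
    rw [h1, map_one]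
  have h3 : φ.mapMatrix ((ρ g : Matrix.GeneralLinearGroup (Fin n) F) : Matrix (Fin n) (Fin n) F) = φ.mapMatrix 1 := by
    rw [h2, map_one]
  exact Matrix.map_injective φ.injective h3

/-- Let F be a field, n ≥ 1, and P a finite p-group (p a prime) admitting an injective homomorphism into the general linear group of degree n over F. Then the derived length of P is at most ⌊log₂ n⌋ + 1: that term of the derived series of P is trivial. -/
theorem result {P : Type*} [Group P] [Finite P] (p : ℕ) [Fact p.Prime] (hP : IsPGroup p P) (F : Type*) [Field F] (n : ℕ) (hn : 1 ≤ n) (ρ : P →* Matrix.GeneralLinearGroup (Fin n) F) (hρ : Function.Injective ρ) : derivedSeries P (Nat.log 2 n + 1) = ⊥ := by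
  have hlog : n < 2 ^ (Nat.log 2 n + 1) := Nat.lt_pow_succ_log_self (by norm_num) n
  rw [eq_bot_iff]
  intro g hg
  rw [Subgroup.mem_bot]
  by_cases h0 : (p : F) = 0
  · haveI : CharP F p := (CharP.charP_iff_prime_eq_zero (Fact.out : p.Prime)).mpr h0
    obtain ⟨ρ', hρ'⟩ := exists_rep (RingHom.id F) ρ hρ
    exact hρ' g (charp_case hP ρ' _ (by rw [Module.finrank_fin_fun]; exact hlog.le) g hg)
  · obtain ⟨ρ', hρ'⟩ := exists_rep (algebraMap F (AlgebraicClosure F)) ρ hρ
    refine hρ' g (coprime_case (p := p) ?_ n hP (by rw [Module.finrank_fin_fun]) ρ' _ hlog g hg)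
    intro h
    apply h0
    apply (algebraMap F (AlgebraicClosure F)).injective
    rw [map_natCast, h, map_zero]

end Cfsg.Agent.S4010
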