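import Cfsg.Statements.S4013
import Cfsg.Agent.H24.ClassSize3

set_option autoImplicit false
open Cfsg

namespace Cfsg.Agent.S4013

/-- Let G be a finite p-group (p prime) and N < M normal subgroups of G such that for some g ∈ M ∖ N the conjugacy class of g is exactly M ∖ N. Then p = 2 and N has index 2 in M. -/
theorem result {G : Type*} [Group G] [Finite G] (p : ℕ) [Fact p.Prime] (hG : IsPGroup p G) (N M : Subgroup G) [N.Normal] [M.Normal] (hNM : N < M) (g : G) (hgM : g ∈ M) (hgN : g ∉ N) (hcl : {h : G | IsConj g h} = (M : Set G) \ (N : Set G)) : p = 2 ∧ N.relIndex M = 2 := by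
  have hp := Fact.out (p := p.Prime)
  have h1 : ((M : Set G) \ (N : Set G)).ncard = (Subgroup.centralizer ({g} : Set G)).index := by
    rw [← hcl]; exact Cfsg.Agent.H24.ncard_isConj g
  have hNM' : (N : Set G) ⊆ (M : Set G) := hNM.le
  have h2 : ((M : Set G) \ (N : Set G)).ncard = Nat.card M - Nat.card N := by
    rw [Set.ncard_sdiff hNM', ← Nat.card_coe_set_eq, ← Nat.card_coe_set_eq]
    rfl
  have h3 : Nat.card N * N.relIndex M = Nat.card M := by
    have := Subgroup.relIndex_mul_relIndex ⊥ N M bot_le hNM.le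
    rwa [Subgroup.relIndex_bot_left, Subgroup.relIndex_bot_left] at this
  set k := N.relIndex M with hk
  obtain ⟨n, hn⟩ := hG.exists_card_eq
  -- everything is a power of `p`
  obtain ⟨a, -, ha⟩ := (Nat.dvd_prime_pow hp).1
    (hn ▸ Subgroup.index_dvd_card (Subgroup.centralizer ({g} : Set G)))
  obtain ⟨e, -, he⟩ := (Nat.dvd_prime_pow hp).1
    (show k ∣ p ^ n from (Dvd.intro_left _ h3).trans (hn ▸ Subgroup.card_subgroup_dvd_card M))
  have hk1 : k ≠ 1 := by
    intro h
    rw [hk, Subgroup.relIndex_eq_one] at h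
    exact hNM.not_ge h
  have h4 : Nat.card N * (k - 1) = p ^ a := by
    rw [Nat.mul_sub, h3, mul_one, ← h2, h1, ha]
  obtain ⟨f, -, hf⟩ := (Nat.dvd_prime_pow hp).1 (Dvd.intro_left _ h4)
  have he0 : e ≠ 0 := by
    rintro rfl
    exact hk1 (by rw [he, pow_zero])
  have hpk : p ∣ k := by rw [he]; exact dvd_pow_self p he0
  have hkpos : 0 < k := by rw [he]; exact pow_pos hp.pos _
  have hf0 : f = 0 := by
    by_contra hf0
    have h5 : p ∣ k - 1 := by rw [hf]; exact dvd_pow_self p hf0
    have h6 : p ∣ 1 := by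
      have := (Nat.dvd_sub hpk h5)
      rwa [Nat.sub_sub_self hkpos] at this
    exact hp.one_lt.ne' (Nat.dvd_one.1 h6)
  rw [hf0, pow_zero] at hf
  have hk2 : k = 2 := by omega
  refine ⟨?_, hk2⟩
  rw [hk2] at hpk
  exact (Nat.prime_dvd_prime_iff_eq hp Nat.prime_two).1 hpk

end Cfsg.Agent.S4013
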