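import Cfsg.Statements.S4015
import Cfsg.Agent.H7.DLR

set_option autoImplicit false
open Cfsg

namespace Cfsg.Agent.S4015

/-- Let p be an odd prime, F a finite field with q elements where p does not divide q, and e the multiplicative order of q modulo p. Let n ≥ e and write w = ⌊n/e⌋ and k = ⌊log_p w⌋. Then a Sylow p-subgroup of GL(n, F) has derived length exactly k + 1: its (k+1)-st derived subgroup is trivial and its k-th is not. -/
theorem result (p : ℕ) [Fact p.Prime] (hp : p ≠ 2) (F : Type*) [Field F] [Fintype F] (q : ℕ) (hq : Fintype.card F = q) (hpq : ¬ p ∣ q) (n : ℕ) (hn : orderOf (q : ZMod p) ≤ n) (P : Sylow p (Matrix.GeneralLinearGroup (Fin n) F)) : derivedSeries ↥(P : Subgroup (Matrix.GeneralLinearGroup (Fin n) F)) (Nat.log p (n / orderOf (q : ZMod p)) + 1) = ⊥ ∧ derivedSeries ↥(P : Subgroup (Matrix.GeneralLinearGroup (Fin n) F)) (Nat.log p (n / orderOf (q : ZMod p))) ≠ ⊥ := by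
  have he0 : 0 < orderOf (q : ZMod p) := by
    rw [orderOf_pos_iff]
    have h1 : IsUnit (q : ZMod p) := (ZMod.isUnit_iff_coprime q p).2
      ((Nat.Prime.coprime_iff_not_dvd Fact.out).2 hpq).symm
    obtain ⟨u, hu⟩ := h1
    rw [← hu]
    have : IsOfFinOrder u := isOfFinOrder_of_finite u
    exact (Units.isOfFinOrder_val).2 this
  refine ⟨H7.DLR.upper hq hp hpq n _ rfl _ P.isPGroup', H7.DLR.lower hq hpq n _ ?_ P⟩
  have h1 : 0 < n / orderOf (q : ZMod p) := Nat.div_pos hn he0
  have h2 := Nat.pow_log_le_self p h1.ne'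
  calc orderOf (q : ZMod p) * p ^ Nat.log p (n / orderOf (q : ZMod p)) ≤ orderOf (q : ZMod p) * (n / orderOf (q : ZMod p)) :=
        Nat.mul_le_mul_left _ h2
    _ ≤ n := Nat.mul_div_le n _

end Cfsg.Agent.S4015
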