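import Cfsg.Statements.S4022
import Cfsg.Agent.H1.Chief
import Cfsg.Agent.H1.Hall
import Cfsg.Agent.H2.Cyc

set_option autoImplicit false
set_option linter.all false
open Cfsg

namespace Cfsg.Agent.S4022

open Subgroup
open scoped Pointwise
open Cfsg.Agent.H1
universe u

section
variable {G : Type u} [Group G]

/-- conjugacy of subgroups -/
def Cj (H K : Subgroup G) : Prop := ∃ g : G, MulAut.conj g • H = K

theorem Cj.refl (H : Subgroup G) : Cj H H := ⟨1, by rw [map_one, one_smul]⟩
theorem Cj.symm {H K : Subgroup G} (h : Cj H K) : Cj K H := by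
  obtain ⟨g, hg⟩ := h
  exact ⟨g⁻¹, by rw [← hg, conj_smul_smul, inv_mul_cancel, map_one, one_smul]⟩
theorem Cj.trans {H K L : Subgroup G} (h : Cj H K) (h' : Cj K L) : Cj H L := by
  obtain ⟨g, hg⟩ := h
  obtain ⟨g', hg'⟩ := h'
  exact ⟨g' * g, by rw [← conj_smul_smul, hg, hg']⟩

/-- any two `p`-subgroups of the same order are conjugate -/
def Dp (G : Type u) [Group G] : Prop := ∀ p : ℕ, p.Prime → ∀ H K : Subgroup G, IsPGroup p H → IsPGroup p K →
  Nat.card H = Nat.card K → Cj H K

def Cyc (G : Type u) [Group G] (r : ℕ) : Prop := ∀ p : ℕ, p.Prime → p ≠ r → ∀ P : Sylow p G, IsCyclic P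

/-- subgroups of the same order in a cyclic subgroup -/
theorem eq_of_cyclic {P : Subgroup G} [Finite P] (hP : IsCyclic P) {H K : Subgroup G} (hH : H ≤ P) (hK : K ≤ P)
    (h : Nat.card H = Nat.card K) : H = K := by
  have h1 : Nat.card (H.subgroupOf P) = Nat.card (K.subgroupOf P) := by
    rw [Nat.card_congr (Subgroup.subgroupOfEquivOfLe hH).toEquiv, Nat.card_congr (Subgroup.subgroupOfEquivOfLe hK).toEquiv, h]
  have h2 : H.subgroupOf P = K.subgroupOf P := by
    haveI := hP
    exact Cfsg.Agent.H2.eq_of_card_eq_of_isCyclic h1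
  rw [← Subgroup.map_subgroupOf_eq_of_le hH, ← Subgroup.map_subgroupOf_eq_of_le hK, h2]

theorem dp_of_cyc [Finite G] (h : ∀ p : ℕ, p.Prime → ∀ P : Sylow p G, IsCyclic P) : Dp G := by
  intro p hp H K hH hK hc
  haveI := Fact.mk hp
  obtain ⟨P, hP⟩ := hH.exists_le_sylow
  obtain ⟨Q, hQ⟩ := hK.exists_le_sylow
  obtain ⟨g, hg⟩ := MulAction.exists_smul_eq G P Q
  refine ⟨g, ?_⟩
  have hg' : MulAut.conj g • (P : Subgroup G) = Q := congrArg (fun S : Sylow p G => (S : Subgroup G)) hg
  refine eq_of_cyclic (h p hp Q) ?_ hQ (by rw [card_conj_smul, hc])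
  rw [← hg']
  exact conj_smul_le_conj_smul_iff.mpr hP

theorem cyc_sub [Finite G] {r : ℕ} (h : Cyc G r) (L : Subgroup G) : Cyc L r := by
  intro p hp hpr P
  haveI := Fact.mk hp
  obtain ⟨Q, hQ⟩ := (P.isPGroup'.map L.subtype).exists_le_sylow
  haveI := h p hp hpr Q
  let f : (P : Subgroup L) →* (Q : Subgroup G) :=
    (L.subtype.comp (P : Subgroup L).subtype).codRestrict (Q : Subgroup G) (fun x => hQ ⟨x, x.2, rfl⟩)
  exact isCyclic_of_injective f (fun x y hxy => by
    have : ((f x : (Q : Subgroup G)) : G) = (f y : (Q : Subgroup G)) := by rw [hxy]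
    exact Subtype.ext (Subtype.ext this))

theorem cyc_quot [Finite G] {r : ℕ} (h : Cyc G r) (N : Subgroup G) [N.Normal] : Cyc (G ⧸ N) r := by
  intro p hp hpr P
  haveI := Fact.mk hp
  obtain ⟨Q, rfl⟩ := Sylow.mapSurjective_surjective (QuotientGroup.mk'_surjective N) p P
  haveI := h p hp hpr Q
  show IsCyclic ((Q : Subgroup G).map (QuotientGroup.mk' N))
  exact isCyclic_of_surjective _ ((QuotientGroup.mk' N).subgroupMap_surjective (Q : Subgroup G))

theorem exists_compl [Finite G] {N X : Subgroup G} (hn : X ≤ normalizer (N : Set G)) (hNX : N ≤ X)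
    (hcop : (Nat.card N).Coprime (N.relIndex X)) : ∃ X1 ≤ X, N ⊔ X1 = X ∧ Nat.card X1 = N.relIndex X := by
  haveI : (N.subgroupOf X).Normal := (Subgroup.normal_subgroupOf_iff_le_normalizer hNX).mpr hn
  have hc1 : Nat.card (N.subgroupOf X) = Nat.card N :=
    Nat.card_congr (Subgroup.subgroupOfEquivOfLe hNX).toEquiv
  obtain ⟨F', hF'⟩ := Subgroup.exists_right_complement'_of_coprime (N := N.subgroupOf X) (by rw [hc1]; exact hcop)
  have hc2 : Nat.card F' = N.relIndex X := hF'.symm.index_eq_card.symm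
  have hc3 : Nat.card (F'.map X.subtype) = N.relIndex X := by
    rw [Subgroup.card_map_of_injective X.subtype_injective, hc2]
  refine ⟨F'.map X.subtype, Subgroup.map_subtype_le _, ?_, hc3⟩
  apply Subgroup.eq_of_le_of_card_ge (sup_le hNX (Subgroup.map_subtype_le _))
  rw [card_sup_of_coprime ((Subgroup.map_subtype_le _).trans hn) (by rw [hc3]; exact hcop), hc3]
  exact (card_mul_relIndex_aux hNX).ge

theorem dp_quot [Finite G] (hD : Dp G) {q : ℕ} (hq : q.Prime) (N : Subgroup G) [N.Normal] (hN : IsPGroup q N) :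
    Dp (G ⧸ N) := by
  intro p hp X Y hX hY hc
  haveI := Fact.mk hp
  haveI := Fact.mk hq
  have hcard : ∀ Z : Subgroup (G ⧸ N), Nat.card (Z.comap (QuotientGroup.mk' N)) = Nat.card N * Nat.card Z := by
    intro Z
    have h1 := card_mul_relIndex_aux (le_comap_mk' N Z)
    rw [← h1]
    congr 1
    have h2 : N.relIndex (Z.comap (QuotientGroup.mk' N)) = (⊥ : Subgroup (G ⧸ N)).relIndex Z := by
      have h3 := Subgroup.relIndex_comap (⊥ : Subgroup (G ⧸ N)) (QuotientGroup.mk' N) (Z.comap (QuotientGroup.mk' N))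
      rw [MonoidHom.comap_bot, QuotientGroup.ker_mk'] at h3
      rw [h3, Subgroup.map_comap_eq_self_of_surjective (QuotientGroup.mk'_surjective N)]
    rw [h2, Subgroup.relIndex_bot_left]
  have key : Cj (X.comap (QuotientGroup.mk' N)) (Y.comap (QuotientGroup.mk' N)) := by
    by_cases hpq : p = q
    · subst hpq
      refine hD p hp _ _ (hX.comap_of_ker_isPGroup _ ?_) (hY.comap_of_ker_isPGroup _ ?_) ?_
      · rw [QuotientGroup.ker_mk']; exact hN
      · rw [QuotientGroup.ker_mk']; exact hN
      · rw [hcard, hcard, hc]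
    · have hcop : ∀ Z : Subgroup (G ⧸ N), IsPGroup p Z → (Nat.card N).Coprime (Nat.card Z) := by
        intro Z hZ
        exact IsPGroup.coprime_card_of_ne q p (Ne.symm hpq) N Z hN hZ
      have hcompl : ∀ Z : Subgroup (G ⧸ N), IsPGroup p Z → ∃ Z1 : Subgroup G, IsPGroup p Z1 ∧ Nat.card Z1 = Nat.card Z ∧
          N ⊔ Z1 = Z.comap (QuotientGroup.mk' N) := by
        intro Z hZ
        have hr : N.relIndex (Z.comap (QuotientGroup.mk' N)) = Nat.card Z := by
          have h1 := card_mul_relIndex_aux (le_comap_mk' N Z)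
          rw [hcard] at h1
          exact Nat.eq_of_mul_eq_mul_left Nat.card_pos h1
        obtain ⟨Z1, -, h2, h3⟩ := exists_compl (N := N) (X := Z.comap (QuotientGroup.mk' N))
          (by rw [Subgroup.normalizer_eq_top]; exact le_top) (le_comap_mk' N Z) (by rw [hr]; exact hcop Z hZ)
        rw [hr] at h3
        obtain ⟨k, hk⟩ := IsPGroup.iff_card.mp hZ
        exact ⟨Z1, IsPGroup.of_card (n := k) (by rw [h3, hk]), h3, h2⟩
      obtain ⟨X1, hX1, hX1c, hX1s⟩ := hcompl X hX
      obtain ⟨Y1, hY1, hY1c, hY1s⟩ := hcompl Y hY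
      obtain ⟨g, hg⟩ := hD p hp X1 Y1 hX1 hY1 (by rw [hX1c, hY1c, hc])
      refine ⟨g, ?_⟩
      rw [← hX1s, ← hY1s, Subgroup.smul_sup, conj_smul_normal, hg]
  obtain ⟨g, hg⟩ := key
  refine ⟨QuotientGroup.mk' N g, ?_⟩
  have h1 := congrArg (Subgroup.map (QuotientGroup.mk' N)) hg
  rw [map_conj_smul, Subgroup.map_comap_eq_self_of_surjective (QuotientGroup.mk'_surjective N),
    Subgroup.map_comap_eq_self_of_surjective (QuotientGroup.mk'_surjective N)] at h1
  exact h1

/-- passing to the quotient -/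
theorem sup_of_map {N : Subgroup G} [N.Normal] {H K : Subgroup G} (g : G)
    (h : MulAut.conj (QuotientGroup.mk' N g) • (H.map (QuotientGroup.mk' N)) = K.map (QuotientGroup.mk' N)) :
    MulAut.conj g • H ⊔ N = K ⊔ N := by
  rw [← map_conj_smul] at h
  have h1 := congrArg (Subgroup.comap (QuotientGroup.mk' N)) h
  rw [Subgroup.comap_map_eq, Subgroup.comap_map_eq, QuotientGroup.ker_mk'] at h1
  exact h1

theorem cj_of_quot {N : Subgroup G} [N.Normal] {H K : Subgroup G}
    (h : Cj (H.map (QuotientGroup.mk' N)) (K.map (QuotientGroup.mk' N))) : ∃ g : G, MulAut.conj g • H ⊔ N = K ⊔ N := by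
  obtain ⟨g, hg⟩ := h
  obtain ⟨g, rfl⟩ := QuotientGroup.mk'_surjective N g
  exact ⟨g, sup_of_map g hg⟩

end

theorem main (n : ℕ) : ∀ (G : Type u) [Group G] [Finite G], Nat.card G = n → Group.IsSolvable G → Dp G →
    ∀ r : ℕ, Cyc G r → ∀ H K : Subgroup G, Nat.card H = Nat.card K → Cj H K := by
  induction n using Nat.strong_induction_on with
  | _ n ih =>
  intro G _ _ hn hs hD r hcyc H K hHK
  rcases subsingleton_or_nontrivial G with hsub | hnt
  · have : H = K := Subgroup.ext fun x => by
      rw [Subsingleton.elim x 1]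
      exact ⟨fun _ => one_mem _, fun _ => one_mem _⟩
    rw [this]; exact Cj.refl K
  obtain ⟨N, hNn, hN1, -, hNmin⟩ := exists_minimal_normal_le (G := G) (N := ⊤) inferInstance (by
    intro h
    exact (not_subsingleton G) (Subgroup.subsingleton_iff.mp ⟨fun a b => by
      have : ∀ a : Subgroup G, a = ⊥ := fun a => le_bot_iff.mp (h ▸ le_top)
      rw [this a, this b]⟩))
  have hNs : Group.IsSolvable N := inferInstance
  obtain ⟨hNc, q, hq, hNq, hNexp⟩ := minimal_normal_solvable hNn hN1 hNmin hNs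
  haveI := Fact.mk hq
  have hN2 : 1 < Nat.card N := by
    haveI := (Subgroup.nontrivial_iff_ne_bot N).mpr hN1
    exact Finite.one_lt_card
  have hquot : Nat.card (G ⧸ N) < n := by
    have h1 := N.card_mul_index
    have h3 : 0 < N.index := Nat.pos_of_ne_zero Subgroup.index_ne_zero_of_finite
    have h4 : Nat.card (G ⧸ N) = N.index := rfl
    rw [h4, ← hn, ← h1]
    nlinarith
  have hIHq : ∀ X Y : Subgroup (G ⧸ N), Nat.card X = Nat.card Y → Cj X Y :=
    ih _ hquot (G ⧸ N) rfl inferInstance (dp_quot hD hq N hNq) r (cyc_quot hcyc N)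
  have hcopN : ∀ m : ℕ, ¬ q ∣ m → (Nat.card N).Coprime m := by
    intro m hX
    obtain ⟨k, hk⟩ := IsPGroup.iff_card.mp hNq
    rw [hk]
    exact Nat.Coprime.pow_left k ((Nat.Prime.coprime_iff_not_dvd hq).mpr hX)
  -- an order argument: a cyclic q-group conjugate into N lies in N
  have hinN : ∀ x : G, ∀ Y : Subgroup G, Y ≤ N → Nat.card Y = orderOf x → (∃ k, orderOf x = q ^ k) → x ∈ N := by
    intro x Y hY hYc hxk
    obtain ⟨k, hk⟩ := hxk
    have hc : Nat.card (Subgroup.zpowers x) = orderOf x := Nat.card_zpowers x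
    obtain ⟨g, hg⟩ := hD q hq (Subgroup.zpowers x) Y (IsPGroup.of_card (n := k) (by rw [hc, hk]))
      (hNq.to_le hY) (by rw [hc, hYc])
    have h1 : g * x * g⁻¹ ∈ MulAut.conj g • (Subgroup.zpowers x) := conj_mem_conj_smul (Subgroup.mem_zpowers x)
    rw [hg] at h1
    have h2 := hNn.conj_mem _ (hY h1) g⁻¹
    have h3 : g⁻¹ * (g * x * g⁻¹) * g⁻¹⁻¹ = x := by group
    rwa [h3] at h2
  by_cases hNcard : Nat.card N = q
  · by_cases hqH : q ∣ Nat.card H
    · have key : ∀ X : Subgroup G, q ∣ Nat.card X → N ≤ X := by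
        intro X hX
        obtain ⟨x, hx⟩ := exists_prime_orderOf_dvd_card' (G := X) q hX
        have hx' : orderOf (x : G) = q := by rw [Subgroup.orderOf_coe, hx]
        have hxN : (x : G) ∈ N := hinN x N le_rfl (by rw [hNcard, hx']) ⟨1, by rw [hx', pow_one]⟩
        have h2 : Subgroup.zpowers (x : G) = N := by
          apply Subgroup.eq_of_le_of_card_ge ((Subgroup.zpowers_le).mpr hxN)
          rw [Nat.card_zpowers, hx', hNcard]
        rw [← h2]
        exact (Subgroup.zpowers_le).mpr x.2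
      have h1 := key H hqH
      have h2 := key K (hHK ▸ hqH)
      obtain ⟨g, hg⟩ := cj_of_quot (N := N) (H := H) (K := K) (hIHq _ _ (by
        have e1 := card_mul_relIndex_aux h1
        have e2 := card_mul_relIndex_aux h2
        rw [card_map_mk', card_map_mk']
        rw [← hHK, ← e1] at e2
        exact (Nat.eq_of_mul_eq_mul_left Nat.card_pos e2).symm))
      refine ⟨g, ?_⟩
      have h3 : N ≤ MulAut.conj g • H := by
        rw [← conj_smul_normal (N := N) g]
        exact conj_smul_le_conj_smul_iff.mpr h1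
      rwa [sup_eq_left.mpr h2, sup_eq_left.mpr h3] at hg
    · have c1 := hcopN _ hqH
      have c2 : (Nat.card N).Coprime (Nat.card K) := hHK ▸ c1
      obtain ⟨g, hg⟩ := cj_of_quot (N := N) (H := H) (K := K) (hIHq _ _ (by
        rw [card_map_mk', card_map_mk', relIndex_eq_card_of_coprime c1, relIndex_eq_card_of_coprime c2, hHK]))
      obtain ⟨x, -, hx⟩ := sz_conj_rel N (MulAut.conj g • H) K (by rw [Subgroup.normalizer_eq_top]; exact le_top)
        c2 (Or.inl hNs) (by rw [card_conj_smul, hHK]) (by rw [sup_comm, ← hg]; exact le_sup_left)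
      exact ⟨x * g, by rw [← conj_smul_smul, hx]⟩
  -- now |N| > q
  obtain ⟨k, hk⟩ := IsPGroup.iff_card.mp hNq
  have hk2 : 2 ≤ k := by
    by_contra hlt
    have hk' : k = 0 ∨ k = 1 := by omega
    rcases hk' with rfl | rfl
    · rw [pow_zero] at hk; omega
    · rw [pow_one] at hk; exact hNcard hk
  have hsubq : ∀ j ≤ k, ∃ Y : Subgroup G, Y ≤ N ∧ Nat.card Y = q ^ j := by
    intro j hj
    obtain ⟨Y, hY⟩ := Sylow.exists_subgroup_card_pow_prime (G := N) q (n := j) (by rw [hk]; exact pow_dvd_pow q hj)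
    exact ⟨Y.map N.subtype, Subgroup.map_subtype_le _, by rw [card_map_subtype, hY]⟩
  have hno : ∀ x : G, orderOf x ≠ q ^ 2 := by
    intro x hx
    obtain ⟨Y, hY, hYc⟩ := hsubq 2 hk2
    have hxN := hinN x Y hY (by rw [hYc, hx]) ⟨2, hx⟩
    have h1 := orderOf_dvd_of_pow_eq_one (hNexp x hxN)
    rw [hx] at h1
    have h2 := Nat.le_of_dvd hq.pos h1
    have h3 := hq.two_le
    nlinarith
  have hall : ∀ x : G, (∃ m, orderOf x = q ^ m) → x ∈ N := by
    rintro x ⟨m, hm⟩
    have hm2 : m < 2 := by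
      by_contra hge
      apply hno (x ^ (q ^ (m - 2)))
      rw [orderOf_pow_of_dvd (pow_ne_zero _ hq.ne_zero) (by rw [hm]; exact pow_dvd_pow q (by omega)), hm,
        Nat.pow_div (by omega) hq.pos]
      congr 1
      omega
    obtain ⟨Y, hY, hYc⟩ := hsubq m (by omega)
    exact hinN x Y hY (by rw [hYc, hm]) ⟨m, hm⟩
  have hndvd : ¬ q ∣ N.index := by
    obtain ⟨Q⟩ : Nonempty (Sylow q G) := inferInstance
    have hQ : (Q : Subgroup G) ≤ N := by
      intro x hx
      apply hall
      obtain ⟨m, hm⟩ := IsPGroup.iff_orderOf.mp Q.isPGroup' ⟨x, hx⟩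
      exact ⟨m, by rw [← hm, Subgroup.orderOf_mk]⟩
    intro h
    exact Q.not_dvd_index (h.trans (Subgroup.index_dvd_of_le hQ))
  have hqr : q = r := by
    by_contra hqr
    obtain ⟨Q, hQ⟩ := hNq.exists_le_sylow
    have hc := hcyc q hq hqr Q
    haveI := hc
    have hc2 : IsCyclic N := by
      let f : N →* (Q : Subgroup G) := Subgroup.inclusion hQ
      exact isCyclic_of_injective f (Subgroup.inclusion_injective hQ)
    obtain ⟨x, hx⟩ := hc2.exists_generator
    have h1 : orderOf x = Nat.card N := orderOf_eq_card_of_forall_mem_zpowers hx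
    have h2 : orderOf x ∣ q := orderOf_dvd_of_pow_eq_one (Subtype.ext (hNexp x x.2))
    rw [h1] at h2
    rcases (Nat.dvd_prime hq).mp h2 with h3 | h3
    · omega
    · exact hNcard h3
  have hndvdX : ∀ X : Subgroup G, ¬ q ∣ N.relIndex X := fun X h =>
    hndvd (h.trans (Subgroup.relIndex_dvd_index_of_normal N X))
  have hcardX : ∀ X : Subgroup G, Nat.card (X ⊓ N : Subgroup G) * N.relIndex X = Nat.card X := by
    intro X
    have := card_map_mk'_mul N X
    rwa [card_map_mk'] at this
  have step : ∀ H K : Subgroup G, Nat.card H = Nat.card K → H ⊓ N = K ⊓ N → Cj H K := by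
    clear hHK H K
    intro H K hHK hD'
    obtain ⟨D, hDdef⟩ : ∃ D, D = K ⊓ N := ⟨_, rfl⟩
    rw [← hDdef] at hD'
    have hDN : D ≤ N := hDdef ▸ inf_le_right
    have hDK : D ≤ K := hDdef ▸ inf_le_left
    have hDH : D ≤ H := hD' ▸ inf_le_left
    have hHL : H ≤ normalizer (D : Set G) := by
      intro h hh
      rw [mem_normalizer_iff_conj_smul, ← hD', conj_smul_inf, conj_smul_self_of_mem hh, conj_smul_normal]
    have hKL : K ≤ normalizer (D : Set G) := by
      intro h hh
      rw [mem_normalizer_iff_conj_smul, hDdef, conj_smul_inf, conj_smul_self_of_mem hh, conj_smul_normal]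
    have hrel : N.relIndex H = N.relIndex K := by
      have e1 := hcardX H
      have e2 := hcardX K
      rw [hD'] at e1
      rw [← hDdef, ← hHK, ← e1] at e2
      exact (Nat.eq_of_mul_eq_mul_left Nat.card_pos e2).symm
    obtain ⟨L, hL⟩ : ∃ L, L = normalizer (D : Set G) := ⟨_, rfl⟩
    rw [← hL] at hHL hKL
    have hcycL : ∀ p : ℕ, p.Prime → ∀ P : Sylow p (L.map (QuotientGroup.mk' N)), IsCyclic P := by
      intro p hp P
      by_cases hpr : p = r
      · haveI := Fact.mk hp
        have h1 : ¬ p ∣ Nat.card (L.map (QuotientGroup.mk' N)) := by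
          rw [card_map_mk', hpr, ← hqr]
          exact hndvdX L
        have h2 : Nat.card (P : Subgroup (L.map (QuotientGroup.mk' N))) = 1 := by
          obtain ⟨m, hm⟩ := IsPGroup.iff_card.mp P.isPGroup'
          rcases Nat.eq_zero_or_pos m with h0 | h0
          · rw [hm, h0, pow_zero]
          · exfalso
            apply h1
            refine ((dvd_pow_self p h0.ne').trans (dvd_of_eq hm.symm)).trans (Subgroup.card_subgroup_dvd_card _)
        haveI : Subsingleton (P : Subgroup (L.map (QuotientGroup.mk' N))) := (Nat.card_eq_one_iff_unique.mp h2).1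
        exact isCyclic_of_subsingleton
      · exact cyc_sub (cyc_quot hcyc N) _ p hp hpr P
    have hltL : Nat.card (L.map (QuotientGroup.mk' N)) < n :=
      lt_of_le_of_lt (Nat.le_of_dvd Nat.card_pos (Subgroup.card_subgroup_dvd_card _)) hquot
    have hmH : H.map (QuotientGroup.mk' N) ≤ L.map (QuotientGroup.mk' N) := Subgroup.map_mono hHL
    have hmK : K.map (QuotientGroup.mk' N) ≤ L.map (QuotientGroup.mk' N) := Subgroup.map_mono hKL
    obtain ⟨l', hl'⟩ := ih _ hltL (L.map (QuotientGroup.mk' N)) rfl inferInstance (dp_of_cyc hcycL) r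
      (fun p hp _ P => hcycL p hp P) ((H.map (QuotientGroup.mk' N)).subgroupOf _)
      ((K.map (QuotientGroup.mk' N)).subgroupOf _) (by
        rw [card_subgroupOf hmH, card_subgroupOf hmK, card_map_mk', card_map_mk', hrel])
    have hl2 := conj_smul_of_subgroupOf hmH hmK l' hl'
    obtain ⟨l, hl, hll⟩ := l'.2
    rw [← hll] at hl2
    have hl3 := sup_of_map l hl2
    have hlD : MulAut.conj l • D = D := by
      rw [← mem_normalizer_iff_conj_smul, ← hL]; exact hl
    have hcopD : ∀ X : Subgroup G, X ⊓ N = D → (Nat.card D).Coprime (D.relIndex X) := by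
      intro X hX
      have h1 : D.relIndex X = N.relIndex X := by
        rw [← hX, Subgroup.inf_relIndex_left]
      rw [h1]
      exact Nat.Coprime.coprime_dvd_left (Subgroup.card_dvd_of_le hDN) (hcopN _ (hndvdX X))
    obtain ⟨H1, hH1, hH1s, hH1c⟩ := exists_compl (N := D) (X := H) (by rw [← hL]; exact hHL) hDH (hcopD H hD')
    obtain ⟨K1, hK1, hK1s, hK1c⟩ := exists_compl (N := D) (X := K) (by rw [← hL]; exact hKL) hDK (hcopD K hDdef.symm)
    have hcH : D.relIndex H = N.relIndex H := by
      rw [← hD', Subgroup.inf_relIndex_left]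
    have hcK : D.relIndex K = N.relIndex K := by
      rw [hDdef, Subgroup.inf_relIndex_left]
    obtain ⟨x, hx, hx2⟩ := sz_conj_rel N (MulAut.conj l • H1) K1 (by rw [Subgroup.normalizer_eq_top]; exact le_top)
      (by rw [hK1c, hcK]; exact hcopN _ (hndvdX K)) (Or.inl hNs)
      (by rw [card_conj_smul, hH1c, hK1c, hcH, hcK, hrel])
      (by
        have h1 : MulAut.conj l • H1 ≤ K ⊔ N := by
          rw [← hl3]
          exact (conj_smul_le_conj_smul_iff.mpr hH1).trans le_sup_left
        refine h1.trans ?_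
        rw [← hK1s]
        exact sup_le (sup_le (hDN.trans le_sup_left) le_sup_right) le_sup_left)
    have hxD : MulAut.conj x • D = D := by
      have hcomm : ∀ d ∈ D, x * d = d * x := by
        intro d hd
        have := hNc.is_comm.comm (⟨x, hx⟩ : N) ⟨d, hDN hd⟩
        exact congrArg Subtype.val this
      rw [← mem_normalizer_iff_conj_smul]
      rw [Subgroup.mem_normalizer_iff]
      intro d
      constructor
      · intro hd
        rw [hcomm d hd, mul_inv_cancel_right]
        exact hd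
      · intro hd
        have h1 := hcomm _ hd
        have h2 : x * d * x⁻¹ = d := by
          have h3 : x * (x * d * x⁻¹) = x * d := by rw [h1]; group
          exact mul_left_cancel h3
        rwa [h2] at hd
    refine ⟨x * l, ?_⟩
    rw [← conj_smul_smul, ← hH1s, conj_smul_sup, conj_smul_sup, hx2, hlD, hxD, hK1s]
  -- reduce to the case of equal intersections
  have hcardD : Nat.card (H ⊓ N : Subgroup G) = Nat.card (K ⊓ N : Subgroup G) := by
    have e1 := hcardX H
    have e2 := hcardX K
    have hc : ∀ X Y : Subgroup G, (Nat.card (X ⊓ N : Subgroup G)).Coprime (N.relIndex Y) := fun X Y =>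
      Nat.Coprime.coprime_dvd_left (Subgroup.card_dvd_of_le inf_le_right) (hcopN _ (hndvdX Y))
    apply Nat.dvd_antisymm
    · apply (hc H K).dvd_of_dvd_mul_right
      rw [e2, ← hHK, ← e1]
      exact dvd_mul_right _ _
    · apply (hc K H).dvd_of_dvd_mul_right
      rw [e1, hHK, ← e2]
      exact dvd_mul_right _ _
  obtain ⟨g, hg⟩ := hD q hq _ _ (hNq.to_le inf_le_right) (hNq.to_le inf_le_right) hcardD
  have hfin := step (MulAut.conj g • H) K (by rw [card_conj_smul, hHK]) (by
    rw [← hg, conj_smul_inf, conj_smul_normal (N := N) g])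
  exact Cj.trans ⟨g, rfl⟩ hfin

/-- Let G be a finite solvable group in which, for every prime p, any two p-subgroups of the same order are conjugate, and suppose the Sylow p-subgroups of G are cyclic for all primes p with at most one exception. Then any two subgroups of G of the same order are conjugate. -/
theorem result {G : Type*} [Group G] [Finite G]
    [Group.IsSolvable G] (hD : ∀ p : ℕ, p.Prime → ∀ H K : Subgroup G, IsPGroup p H → IsPGroup p K → Nat.card H = Nat.card K →
      ∃ g : G, K = H.map (MulAut.conj g).toMonoidHom)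
    (r : ℕ) (hcyc : ∀ p : ℕ, p.Prime → p ≠ r → ∀ P : Sylow p G, IsCyclic P) :
    ∀ H K : Subgroup G, Nat.card H = Nat.card K → ∃ g : G, K = H.map (MulAut.conj g).toMonoidHom := by
  intro H K hHK
  have hD' : Dp G := by
    intro p hp H K hH hK hc
    obtain ⟨g, hg⟩ := hD p hp H K hH hK hc
    exact ⟨g, hg.symm⟩
  obtain ⟨g, hg⟩ := main _ G rfl inferInstance hD' r hcyc H K hHK
  exact ⟨g, hg.symm⟩

end Cfsg.Agent.S4022
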