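import Cfsg.Statements.S4023
import Cfsg.Agent.H22.IsoP
import Cfsg.Agent.H20.ElemAb

set_option autoImplicit false
set_option linter.all false
open Cfsg

namespace Cfsg.Agent.S4023

/-- conjugate subgroups of `P` are isomorphic -/
theorem iso_of_conj {G : Type*} [Group G] [Finite G]
    {p : ℕ} [Fact p.Prime] (hC : ∀ H K : Subgroup G, IsPGroup p H → IsPGroup p K → Nat.card H = Nat.card K →
      ∃ g : G, K = H.map (MulAut.conj g).toMonoidHom) (P : Sylow p G) (H K : Subgroup P)
    (h : Nat.card H = Nat.card K) : Nonempty (H ≃* K) := by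
  obtain ⟨g, hg⟩ := hC (H.map (P : Subgroup G).subtype) (K.map (P : Subgroup G).subtype)
    ((P.2.to_subgroup H).map _) ((P.2.to_subgroup K).map _)
    (by rw [Subgroup.card_map_of_injective (Subgroup.subtype_injective _),
          Subgroup.card_map_of_injective (Subgroup.subtype_injective _), h])
  have e1 : H ≃* (H.map (P : Subgroup G).subtype) := Subgroup.equivMapOfInjective H _ (Subgroup.subtype_injective _)
  have e2 : K ≃* (K.map (P : Subgroup G).subtype) := Subgroup.equivMapOfInjective K _ (Subgroup.subtype_injective _)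
  have e3 : (H.map (P : Subgroup G).subtype) ≃* ((H.map (P : Subgroup G).subtype).map (MulAut.conj g).toMonoidHom) :=
    Subgroup.equivMapOfInjective _ _ (MulAut.conj g).injective
  exact ⟨(e1.trans e3).trans ((MulEquiv.subgroupCongr hg.symm).trans e2.symm)⟩

/-- the trichotomy -/
theorem trich {G : Type*} [Group G] [Finite G]
    {p : ℕ} [Fact p.Prime] (hC : ∀ H K : Subgroup G, IsPGroup p H → IsPGroup p K → Nat.card H = Nat.card K →
      ∃ g : G, K = H.map (MulAut.conj g).toMonoidHom) (P : Sylow p G) :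
    IsCyclic P ∨ (p = 2 ∧ Nonempty ((P : Subgroup G) ≃* QuaternionGroup 2)) ∨
      ((∀ x : P, x ^ p = 1) ∧ ((∀ x y : P, x * y = y * x) ∨ (¬ (∀ x y : P, x * y = y * x)) ∧ Nat.card P = p ^ 3)) := by
  rcases Cfsg.Agent.H22.isoP_key P.2 (iso_of_conj hC P) with (h | ⟨h2, n, hn, ⟨e⟩⟩) | h
  · exact Or.inl h
  · refine Or.inr (Or.inl ⟨h2, ?_⟩)
    have := Cfsg.Agent.H22.isoP_quat (iso_of_conj hC P) hn e
    subst this
    exact ⟨e⟩
  · refine Or.inr (Or.inr ⟨h, ?_⟩)
    by_cases hc : ∀ x y : P, x * y = y * x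
    · exact Or.inl hc
    · exact Or.inr ⟨hc, Cfsg.Agent.H22.isoP_exp P.2 (iso_of_conj hC P) h hc⟩

/-- Let p be a prime and G a finite group in which any two p-subgroups of the same order are conjugate, with Sylow p-subgroup P. Then P is cyclic, or elementary abelian, or p = 2 and P is a quaternion group of order 8, or p is odd and P is non-abelian of order p³ and exponent p. -/
theorem result {G : Type*} [Group G] [Finite G]
    {p : ℕ} [Fact p.Prime] (hC : ∀ H K : Subgroup G, IsPGroup p H → IsPGroup p K → Nat.card H = Nat.card K →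
      ∃ g : G, K = H.map (MulAut.conj g).toMonoidHom) (P : Sylow p G) :
    IsCyclic P ∨ Cfsg.IsElementaryAbelian p (P : Subgroup G) ∨
      (p = 2 ∧ Nonempty ((P : Subgroup G) ≃* QuaternionGroup 2)) ∨
      (p ≠ 2 ∧ ¬ IsMulCommutative P ∧ Nat.card P = p ^ 3 ∧ Monoid.exponent P = p) := by
  rcases trich hC P with h | h | ⟨h1, h2 | ⟨h2, h3⟩⟩
  · exact Or.inl h
  · exact Or.inr (Or.inr (Or.inl h))
  · refine Or.inr (Or.inl (Cfsg.Agent.H20.isElementaryAbelian_iff.mpr ⟨?_, ?_⟩))
    · intro a ha b hb
      exact congrArg Subtype.val (h2 ⟨a, ha⟩ ⟨b, hb⟩)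
    · intro a ha
      exact congrArg Subtype.val (h1 ⟨a, ha⟩)
  · refine Or.inr (Or.inr (Or.inr ⟨?_, ?_, h3, ?_⟩))
    · rintro rfl
      apply h2
      intro x y
      have key : ∀ c : P, c⁻¹ = c := fun c => inv_eq_of_mul_eq_one_left (by rw [← pow_two]; exact h1 c)
      have h4 := key (x * y)
      rw [mul_inv_rev, key x, key y] at h4
      exact h4.symm
    · intro h
      exact h2 fun x y => h.is_comm.comm x y
    · have h5 : Monoid.exponent P ∣ p := Monoid.exponent_dvd_of_forall_pow_eq_one h1
      rcases (Nat.dvd_prime (Fact.out : p.Prime)).1 h5 with h6 | h6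
      · exfalso
        apply h2
        intro x y
        have : Subsingleton P := Monoid.exp_eq_one_iff.1 h6
        exact Subsingleton.elim _ _
      · exact h6

end Cfsg.Agent.S4023
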