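import Cfsg.Statements.S4024
import Cfsg.Agent.S4023
import Cfsg.Agent.H23.PSolvable
import Cfsg.Agent.H1.Cores

set_option autoImplicit false
set_option linter.all false
open Cfsg

namespace Cfsg.Agent.S4024

open Subgroup in
/-- a normal subgroup `K ≤ H`, extension of a `p'`-group by a nontrivial `p`-group. -/
theorem exists_pPrimeP {G : Type*} [Group G] [Finite G] {p : ℕ} [hp : Fact p.Prime]
    (H : Subgroup G) [hHn : H.Normal] (hsolv : Cfsg.IsPSolvable p H) (hdiv : p ∣ Nat.card H) :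
    ∃ (N : Subgroup G) (_ : N.Normal) (R : Subgroup (G ⧸ N)), R.Normal ∧ (Nat.card N).Coprime p ∧
      IsPGroup p R ∧ R ≠ ⊥ ∧ R.comap (QuotientGroup.mk' N) ≤ H := by
  classical
  obtain ⟨N, -, hNmax⟩ := Set.Finite.exists_le_maximal
    (s := {N : Subgroup G | N.Normal ∧ N ≤ H ∧ (Nat.card N).Coprime p}) (Set.toFinite _)
    (show (⊥ : Subgroup G) ∈ _ from ⟨inferInstance, bot_le, by simp⟩)
  obtain ⟨⟨hNn, hNH, hNp⟩, hmax⟩ := hNmax
  haveI := hNn
  set f := QuotientGroup.mk' N with hf
  have hfs : Function.Surjective f := QuotientGroup.mk'_surjective N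
  have hcomap : (H.map f).comap f = H := by
    rw [Subgroup.comap_map_eq, hf, QuotientGroup.ker_mk', sup_eq_left]; exact hNH
  haveI : (H.map f).Normal := hHn.map f hfs
  haveI : Nontrivial (H.map f) := by
    rw [Subgroup.nontrivial_iff_ne_bot]
    intro h
    rw [Subgroup.map_eq_bot_iff, hf, QuotientGroup.ker_mk'] at h
    have h1 := Nat.Coprime.coprime_dvd_left (card_dvd_of_le h) hNp
    exact hp.out.one_lt.ne' (Nat.eq_one_of_dvd_coprimes h1 hdiv dvd_rfl)
  have hcard : ∀ M : Subgroup (G ⧸ N), Nat.card (M.comap f) = Nat.card N * Nat.card M := by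
    intro M
    have h1 := Subgroup.card_mul_index (M.comap f)
    have h2 := Subgroup.card_mul_index M
    have h3 : (M.comap f).index = M.index := Subgroup.index_comap_of_surjective M hfs
    have h4 : Nat.card G = Nat.card N * Nat.card (G ⧸ N) := by
      rw [mul_comm]; exact Subgroup.card_eq_card_quotient_mul_card_subgroup N
    rw [h3] at h1
    have h5 : 0 < M.index := Nat.pos_of_ne_zero Subgroup.index_ne_zero_of_finite
    apply Nat.eq_of_mul_eq_mul_right h5
    rw [h1, h4, ← h2]; ring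
  rcases Cfsg.Agent.H23.pCore_ne_bot_or (Cfsg.Agent.H23.isPSolvable_map f hsolv) with h | h
  · refine ⟨N, hNn, (Cfsg.pCore p (H.map f)).map (H.map f).subtype, inferInstance, hNp,
      (Cfsg.Agent.H1.pCore_isPGroup p _).map _, ?_, ?_⟩
    · rw [Ne, Subgroup.map_eq_bot_iff_of_injective _ (Subgroup.subtype_injective _)]; exact h
    · exact (Subgroup.comap_mono (Subgroup.map_subtype_le _)).trans hcomap.le
  · exfalso
    set M := (Cfsg.pPrimeCore p (H.map f)).map (H.map f).subtype with hM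
    have hMn : M.Normal := inferInstance
    have h1 : M.comap f ≤ N := by
      refine hmax ⟨inferInstance, ?_, ?_⟩ ?_
      · exact (Subgroup.comap_mono (Subgroup.map_subtype_le _)).trans hcomap.le
      · rw [hcard]
        refine Nat.Coprime.mul_left hNp ?_
        rw [hM, card_map_of_injective (Subgroup.subtype_injective _)]
        exact Cfsg.Agent.H1.pPrimeCore_coprime p _
      · intro x hx
        rw [mem_comap]
        have : f x = 1 := by rw [← MonoidHom.mem_ker, hf, QuotientGroup.ker_mk']; exact hx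
        rw [this]; exact one_mem _
    apply h
    rw [← Subgroup.map_eq_bot_iff_of_injective _ (Subgroup.subtype_injective (H.map f)), ← hM, eq_bot_iff]
    intro y hy
    obtain ⟨x, rfl⟩ := hfs y
    have : x ∈ N := h1 hy
    rw [mem_bot, ← MonoidHom.mem_ker, hf, QuotientGroup.ker_mk']; exact this


/-- Let p be an odd prime and G a finite group in which any two p-subgroups of the same order are conjugate, with Sylow p-subgroup P. If H is a normal p-solvable subgroup of G whose order is divisible by p, then P is abelian, and either P ≤ H or P is cyclic. -/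
theorem result {G : Type*} [Group G] [Finite G]
    {p : ℕ} [Fact p.Prime] (hp : p ≠ 2) (hC : ∀ H K : Subgroup G, IsPGroup p H → IsPGroup p K → Nat.card H = Nat.card K →
      ∃ g : G, K = H.map (MulAut.conj g).toMonoidHom) (P : Sylow p G)
    (H : Subgroup G) [H.Normal] (hsolv : Cfsg.IsPSolvable p H) (hdiv : p ∣ Nat.card H) :
    IsMulCommutative P ∧ ((P : Subgroup G) ≤ H ∨ IsCyclic P) := by
  classical
  have hpp := Fact.out (p := p.Prime)
  obtain ⟨N, hNn, R, hRn, hNp, hRp, hR1, hRH⟩ := exists_pPrimeP H hsolv hdiv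
  haveI := hNn
  haveI := hRn
  set f := QuotientGroup.mk' N with hf
  have hfs : Function.Surjective f := QuotientGroup.mk'_surjective N
  have hker : ∀ x ∈ (P : Subgroup G), f x = 1 → x = 1 := by
    intro x hx h1
    rw [← MonoidHom.mem_ker, hf, QuotientGroup.ker_mk'] at h1
    obtain ⟨k, hk⟩ := IsPGroup.iff_orderOf.1 P.2 ⟨x, hx⟩
    have h3 : orderOf x = p ^ k := by rw [← hk, ← Subgroup.orderOf_coe]
    have h2 : orderOf x ∣ Nat.card N := by
      have := orderOf_dvd_natCard (⟨x, h1⟩ : N)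
      rwa [Subgroup.orderOf_mk] at this
    rw [← orderOf_eq_one_iff]
    exact Nat.eq_one_of_dvd_coprimes (hNp.pow_right k) h2 (by rw [h3])
  -- `R ≤ f(P)`
  have hRP : ∀ r ∈ R, ∃ x ∈ (P : Subgroup G), f x = r := by
    intro r hr
    have h1 : R ≤ (P.mapSurjective hfs : Subgroup (G ⧸ N)) :=
      (Cfsg.Agent.H1.le_pCore hRn hRp).trans (Cfsg.Agent.H1.pCore_le_sylow _)
    have h2 := h1 hr
    rw [Sylow.coe_mapSurjective] at h2
    obtain ⟨x, hx, hx'⟩ := Subgroup.mem_map.1 h2
    exact ⟨x, hx, hx'⟩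
  set K := R.comap f with hK
  haveI hKn : K.Normal := inferInstance
  -- uniqueness of `P ⊓ K`
  set Q := (P : Subgroup G) ⊓ K with hQ
  have hQp : IsPGroup p Q := P.2.to_le inf_le_left
  have hQ1 : Q ≠ ⊥ := by
    intro h
    apply hR1
    rw [eq_bot_iff]
    intro r hr
    obtain ⟨x, hx, rfl⟩ := hRP r hr
    have hxQ : x ∈ Q := Subgroup.mem_inf.2 ⟨hx, hr⟩
    rw [h, Subgroup.mem_bot] at hxQ
    rw [hxQ, map_one]; exact one_mem _
  have huniq : ∀ S : Subgroup G, S ≤ P → Nat.card S = Nat.card Q → S = Q := by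
    intro S hSP hSc
    obtain ⟨g, hg⟩ := hC Q S hQp (P.2.to_le hSP) hSc.symm
    have h1 : S ≤ Q := by
      refine le_inf hSP ?_
      rw [hg]
      rintro _ ⟨y, hy, rfl⟩
      exact hKn.conj_mem y (Subgroup.mem_inf.1 hy).2 g
    exact Subgroup.eq_of_le_of_card_ge h1 hSc.ge
  rcases Cfsg.Agent.S4023.trich hC P with h | ⟨h, -⟩ | ⟨h1, h2⟩
  · refine ⟨?_, Or.inr h⟩
    refine ⟨⟨fun a b => ?_⟩⟩
    letI := IsCyclic.commGroup (α := P)
    exact mul_comm a b
  · exact absurd h hp
  -- exponent p : Q = P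
  obtain ⟨n, hn⟩ := IsPGroup.iff_card.1 P.2
  obtain ⟨r, hr⟩ := IsPGroup.iff_card.1 hQp
  have hr1 : 1 ≤ r := by
    rcases Nat.eq_zero_or_pos r with h0 | h0
    · exfalso; rw [h0, pow_zero] at hr; exact hQ1 (Subgroup.card_eq_one.1 hr)
    · exact h0
  have hrn : r ≤ n := by
    have h3 : Nat.card Q ∣ Nat.card (P : Subgroup G) := Subgroup.card_dvd_of_le inf_le_left
    have h4 : Nat.card (P : Subgroup G) = p ^ n := hn
    rw [hr, h4] at h3
    exact (Nat.pow_dvd_pow_iff_le_right hpp.one_lt).1 h3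
  have hPQ : (P : Subgroup G) ≤ Q := by
    intro x hx
    have h3 : ∃ j, j ≤ 1 ∧ Nat.card (Subgroup.zpowers (⟨x, hx⟩ : P)) = p ^ j := by
      rw [Nat.card_zpowers]
      obtain ⟨j, hj, hj'⟩ := (Nat.dvd_prime_pow hpp).1 (show orderOf (⟨x, hx⟩ : P) ∣ p ^ 1 by
        rw [pow_one]; exact orderOf_dvd_of_pow_eq_one (h1 _))
      exact ⟨j, hj, hj'⟩
    obtain ⟨j, hj1, hj⟩ := h3
    obtain ⟨S, hS, hxS⟩ := Sylow.exists_subgroup_card_pow_prime_le p (n := j) (m := r) (G := P)
      (by rw [hn]; exact pow_dvd_pow p hrn) _ hj (by omega)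
    have h4 := huniq (S.map (P : Subgroup G).subtype) (Subgroup.map_subtype_le _)
      (by rw [Subgroup.card_map_of_injective (Subgroup.subtype_injective _), hS, hr])
    rw [← h4]
    exact ⟨⟨x, hx⟩, hxS (Subgroup.mem_zpowers _), rfl⟩
  have hPH : (P : Subgroup G) ≤ H := by
    intro x hx
    exact hRH (Subgroup.mem_inf.1 (hPQ hx)).2
  rcases h2 with h2 | ⟨h2, h3⟩
  · exact ⟨⟨⟨h2⟩⟩, Or.inl hPH⟩
  · exfalso
    -- the nonabelian case
    haveI : Nontrivial P := by
      by_contra hcon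
      rw [not_nontrivial_iff_subsingleton] at hcon
      exact h2 fun x y => Subsingleton.elim _ _
    haveI := P.2.center_nontrivial
    obtain ⟨z, hz⟩ := exists_ne (1 : Subgroup.center P)
    have hzc : ∀ g : P, g * (z : P) = (z : P) * g := fun g => Subgroup.mem_center_iff.1 z.2 g
    have hz1 : (z : P) ≠ 1 := fun h => hz (Subtype.ext h)
    apply h2
    intro x y
    by_cases hx1 : x = 1
    · rw [hx1, one_mul, mul_one]
    have ho : ∀ w : P, w ≠ 1 → orderOf (w : G) = p := by
      intro w hw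
      rw [Subgroup.orderOf_coe]; exact orderOf_eq_prime (h1 w) hw
    obtain ⟨g, hg⟩ := hC (Subgroup.zpowers ((z : P) : G)) (Subgroup.zpowers (x : G))
      (IsPGroup.of_card (n := 1) (by rw [Nat.card_zpowers, ho _ hz1, pow_one]))
      (IsPGroup.of_card (n := 1) (by rw [Nat.card_zpowers, ho _ hx1, pow_one]))
      (by rw [Nat.card_zpowers, Nat.card_zpowers, ho _ hz1, ho _ hx1])
    have hxm : (x : G) ∈ (Subgroup.zpowers ((z : P) : G)).map (MulAut.conj g).toMonoidHom := by
      rw [← hg]; exact Subgroup.mem_zpowers _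
    obtain ⟨w, hw, hwx⟩ := Subgroup.mem_map.1 hxm
    obtain ⟨j, rfl⟩ := Subgroup.mem_zpowers_iff.1 hw
    have hwx' : g * ((z : P) : G) ^ j * g⁻¹ = (x : G) := hwx
    -- conjugate y back
    have hyR : f (g⁻¹ * (y : G) * g) ∈ R := by
      have h5 : (y : G) ∈ K := (Subgroup.mem_inf.1 (hPQ y.2)).2
      have h6 := hKn.conj_mem _ h5 g⁻¹
      rw [inv_inv] at h6
      exact h6
    obtain ⟨u, hu, huy⟩ := hRP _ hyR
    have hcomm : f (((z : P) : G) ^ j) * f u = f u * f (((z : P) : G) ^ j) := by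
      rw [← map_mul, ← map_mul]
      congr 1
      have h7 : Commute ((z : P) : G) u := (congrArg Subtype.val (hzc ⟨u, hu⟩)).symm
      exact (h7.zpow_left j).eq
    rw [huy] at hcomm
    have hxy : f ((x : G) * y * (x : G)⁻¹ * (y : G)⁻¹) = 1 := by
      have h8 : f (x : G) * f (y : G) = f (y : G) * f (x : G) := by
        rw [← hwx']
        have e1 : f (g * ((z : P) : G) ^ j * g⁻¹) = f g * f (((z : P) : G) ^ j) * (f g)⁻¹ := by
          rw [map_mul, map_mul, map_inv]
        have e2 : f (y : G) = f g * f (g⁻¹ * (y : G) * g) * (f g)⁻¹ := by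
          rw [map_mul, map_mul, map_inv]; group
        rw [e1, e2]
        calc f g * f (((z : P) : G) ^ j) * (f g)⁻¹ * (f g * f (g⁻¹ * (y : G) * g) * (f g)⁻¹)
            = f g * (f (((z : P) : G) ^ j) * f (g⁻¹ * (y : G) * g)) * (f g)⁻¹ := by group
          _ = f g * (f (g⁻¹ * (y : G) * g) * f (((z : P) : G) ^ j)) * (f g)⁻¹ := by rw [hcomm]
          _ = _ := by group
      rw [map_mul, map_mul, map_mul, map_inv, map_inv, h8]; group
    have h9 := hker _ (mul_mem (mul_mem (mul_mem x.2 y.2) (inv_mem x.2)) (inv_mem y.2)) hxy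
    apply Subtype.ext
    show (x : G) * y = y * x
    calc (x : G) * y = ((x : G) * y * (x : G)⁻¹ * (y : G)⁻¹) * (y * x) := by group
      _ = _ := by rw [h9, one_mul]

end Cfsg.Agent.S4024
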