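import Cfsg.Statements.S4027
import Cfsg.Agent.H24.CoprimeLift

set_option autoImplicit false
open Cfsg

namespace Cfsg.Agent.S4027

/-- Let G be a finite group in which every element x of odd order satisfies N_G(⟨x⟩) = C_G(x). Then the Sylow 2-subgroups of G are normal. -/
theorem result {G : Type*} [Group G] [Finite G]
    (hirr : ∀ x : G, (∀ r : ℕ, r.Prime → r ∣ orderOf x → r ≠ 2) →
      Subgroup.normalizer ((Subgroup.zpowers x : Subgroup G) : Set G) ≤ Subgroup.centralizer {x}) (P : Sylow 2 G) :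
    (P : Subgroup G).Normal := by
  refine Cfsg.Agent.H24.sylow_two_normal_of_no_inversion ?_ P
  intro t y hy hty
  have h1 : ∀ r : ℕ, r.Prime → r ∣ orderOf y → r ≠ 2 := by
    rintro r hr hd rfl
    exact (Nat.not_even_iff_odd.2 hy) (even_iff_two_dvd.2 hd)
  have h2 : t ∈ Subgroup.normalizer ((Subgroup.zpowers y : Subgroup G) : Set G) := by
    rw [Subgroup.mem_normalizer_iff]
    intro z
    constructor
    · rintro ⟨k, rfl⟩
      refine ⟨-k, ?_⟩
      show y ^ (-k) = t * y ^ k * t⁻¹
      rw [← conj_zpow, hty, inv_zpow, zpow_neg]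
    · rintro ⟨k, hk⟩
      refine ⟨-k, ?_⟩
      have hk' : y ^ k = t * z * t⁻¹ := hk
      show y ^ (-k) = z
      have h3 : t * y ^ (-k) * t⁻¹ = t * z * t⁻¹ := by
        rw [← hk', ← conj_zpow, hty, inv_zpow, zpow_neg, inv_inv]
      exact mul_left_cancel (mul_right_cancel h3)
  have h3 := hirr y h1 h2
  rw [Subgroup.mem_centralizer_singleton_iff] at h3
  have h4 : y⁻¹ = y := by rw [← hty, h3]; group
  have h5 : y ^ 2 = 1 := by
    rw [pow_two]; nth_rewrite 1 [← h4]; exact inv_mul_cancel y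
  have h6 := orderOf_dvd_of_pow_eq_one h5
  rcases (Nat.dvd_prime Nat.prime_two).1 h6 with h | h
  · exact orderOf_eq_one_iff.1 h
  · rw [h] at hy; exact absurd hy (by decide)

end Cfsg.Agent.S4027
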