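import Cfsg.Statements.S4028
import Cfsg.Agent.H24.NormZ

set_option autoImplicit false
open Cfsg

namespace Cfsg.Agent.S4028

/-- Let G be a finite group with Sylow 2-subgroup P. Then N_G(⟨x⟩) = C_G(x) holds for every 2-element x of G if and only if N_P(⟨y⟩) = C_P(y) holds for every y ∈ P (computed inside P). -/
theorem result {G : Type*} [Group G] [Finite G] (P : Sylow 2 G) :
    (∀ x : G, (∀ r : ℕ, r.Prime → r ∣ orderOf x → r = 2) →
      Subgroup.normalizer ((Subgroup.zpowers x : Subgroup G) : Set G) ≤ Subgroup.centralizer {x}) ↔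
    (∀ y : ↥(P : Subgroup G), Subgroup.normalizer ((Subgroup.zpowers y : Subgroup ↥(P : Subgroup G)) : Set ↥(P : Subgroup G)) ≤
        Subgroup.centralizer {y}) := by
  constructor
  · intro h y t ht
    rw [Cfsg.Agent.H24.mem_normalizer_zpowers_iff] at ht
    obtain ⟨k, hk⟩ := ht
    have hy2 : ∀ r : ℕ, r.Prime → r ∣ orderOf (y : G) → r = 2 := by
      intro r hr hd
      obtain ⟨a, ha⟩ := P.isPGroup' y
      have h1 : orderOf (y : G) ∣ 2 ^ a := by
        rw [Subgroup.orderOf_coe]; exact orderOf_dvd_of_pow_eq_one ha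
      exact (Nat.prime_dvd_prime_iff_eq hr Nat.prime_two).1 (hr.dvd_of_dvd_pow (hd.trans h1))
    have h2 : (t : G) ∈ Subgroup.normalizer ((Subgroup.zpowers (y : G) : Subgroup G) : Set G) := by
      rw [Cfsg.Agent.H24.mem_normalizer_zpowers_iff]
      exact ⟨k, congrArg Subtype.val hk⟩
    have h3 := h y hy2 h2
    rw [Cfsg.Agent.H24.mem_centralizer_singleton_iff] at h3 ⊢
    exact Subtype.ext h3
  · intro h x hx
    obtain ⟨a, ha⟩ := Cfsg.Agent.H24.orderOf_eq_pow_of_forall_prime (orderOf_pos x).ne' hx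
    apply Cfsg.Agent.H25.le_of_primary
    intro t ht q k hq hto
    rw [Cfsg.Agent.H24.mem_centralizer_singleton_iff]
    by_cases hq2 : q = 2
    · subst hq2
      have hxp : IsPGroup 2 (Subgroup.zpowers x) :=
        IsPGroup.of_card (n := a) (by rw [Nat.card_zpowers, ha])
      have htp : IsPGroup 2 (Subgroup.zpowers t) :=
        IsPGroup.of_card (n := k) (by rw [Nat.card_zpowers, hto])
      have hS : IsPGroup 2 ↥(Subgroup.zpowers t ⊔ Subgroup.zpowers x) :=
        htp.to_sup_of_normal_right' hxp (Subgroup.zpowers_le.2 ht)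
      obtain ⟨Q, hQ⟩ := hS.exists_le_sylow
      obtain ⟨g, hg⟩ := MulAction.exists_smul_eq G Q P
      have hmem : ∀ z ∈ Q, g * z * g⁻¹ ∈ P := by
        intro z hz
        rw [← hg]
        exact ⟨z, hz, rfl⟩
      have hx' : g * x * g⁻¹ ∈ (P : Subgroup G) :=
        hmem x (hQ (Subgroup.mem_sup_right (Subgroup.mem_zpowers x)))
      have ht' : g * t * g⁻¹ ∈ (P : Subgroup G) :=
        hmem t (hQ (Subgroup.mem_sup_left (Subgroup.mem_zpowers t)))
      have h1 : (⟨_, ht'⟩ : (P : Subgroup G)) ∈ Subgroup.normalizer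
          ((Subgroup.zpowers (⟨_, hx'⟩ : (P : Subgroup G)) : Subgroup (P : Subgroup G)) :
            Set (P : Subgroup G)) := by
        rw [Cfsg.Agent.H24.mem_normalizer_zpowers_iff]
        rw [Cfsg.Agent.H24.mem_normalizer_zpowers_iff] at ht
        obtain ⟨m, hm⟩ := ht
        refine ⟨m, Subtype.ext ?_⟩
        show (g * x * g⁻¹) ^ m = g * t * g⁻¹ * (g * x * g⁻¹) * (g * t * g⁻¹)⁻¹
        have hm' : x ^ m = t * x * t⁻¹ := hm
        rw [conj_zpow, hm']
        group
      have h2 := h _ h1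
      rw [Cfsg.Agent.H24.mem_centralizer_singleton_iff] at h2
      have h3 : (g * x * g⁻¹) * (g * t * g⁻¹) = (g * t * g⁻¹) * (g * x * g⁻¹) :=
        congrArg Subtype.val h2
      have h4 : g * (x * t) * g⁻¹ = g * (t * x) * g⁻¹ := by
        calc g * (x * t) * g⁻¹ = (g * x * g⁻¹) * (g * t * g⁻¹) := by group
          _ = (g * t * g⁻¹) * (g * x * g⁻¹) := h3
          _ = g * (t * x) * g⁻¹ := by group
      simpa using h4
    · refine Cfsg.Agent.H24.commute_of_normalizes_zpowers (p := 2) ha ht hq hq2 hto ?_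
      norm_num
      exact hq.one_lt.ne'

end Cfsg.Agent.S4028
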