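import Cfsg.Statements.S4029
import Cfsg.Agent.H24.NormZ
import Cfsg.Agent.H3.Perm
import Cfsg.Agent.H3.Counting
import Mathlib

set_option autoImplicit false
open Cfsg

namespace Cfsg.Agent.S4029

open Cfsg.Agent.H3 in
theorem main {P : Type*} [Group P] [Finite P] (hP : IsPGroup 2 P)
    (hirr : ∀ y : P, Subgroup.normalizer ((Subgroup.zpowers y : Subgroup P) : Set P) ≤
      Subgroup.centralizer {y}) :
    Nat.card (P ⧸ frattini P) ≤
      Nat.card {c : ConjClasses P // ∃ y : P, ConjClasses.mk y = c ∧ orderOf y = 2} + 1 := by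
  classical
  have h2 : Fact (Nat.Prime 2) := ⟨Nat.prime_two⟩
  have hV : ∀ a b : P ⧸ frattini P, a * b = b * a := fun a b =>
    ((Subgroup.Normal.quotient_commutative_iff_commutator_le (N := frattini P)).2
      (Cfsg.Agent.H2.commutator_le_frattini hP)).is_comm.comm a b
  have hV2 : ∀ a : P ⧸ frattini P, a ^ 2 = 1 := by
    intro a
    obtain ⟨a, rfl⟩ := QuotientGroup.mk_surjective a
    rw [← QuotientGroup.mk_pow, QuotientGroup.eq_one_iff]
    exact Cfsg.Agent.H2.pow_mem_frattini hP a
  have hcard : Nat.card ((P ⧸ frattini P) →* ℂˣ) = Nat.card (P ⧸ frattini P) := by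
    rw [card_hom_units]
    have h1 : _root_.commutator (P ⧸ frattini P) = ⊥ := by
      rw [eq_bot_iff, _root_.commutator_def, Subgroup.commutator_le]
      intro a _ b _
      rw [Subgroup.mem_bot, commutatorElement_eq_one_iff_mul_comm]
      exact hV a b
    rw [h1, Subgroup.index_bot]
  -- real irreducible characters
  have hreal : Nat.card (P ⧸ frattini P) ≤ Nat.card {χ : Cfsg.IrrCharacter P // irrConj χ = χ} := by
    rw [← hcard]
    let F : ((P ⧸ frattini P) →* ℂˣ) → {χ : Cfsg.IrrCharacter P // irrConj χ = χ} := fun μ =>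
      ⟨(linCharEquiv (μ.comp (QuotientGroup.mk' (frattini P)))).1, by
        rw [irrConj_eq_iff]
        intro g
        show (((μ (QuotientGroup.mk' (frattini P) g) : ℂˣ) : ℂ)).im = 0
        have h3 : ((μ (QuotientGroup.mk' (frattini P) g) : ℂˣ) : ℂ) ^ 2 = 1 := by
          rw [← Units.val_pow_eq_pow_val, ← map_pow, hV2, map_one, Units.val_one]
        rcases sq_eq_one_iff.1 h3 with h4 | h4 <;> rw [h4] <;> simp⟩
    refine Nat.card_le_card_of_injective F ?_
    intro μ ν hμν
    have h5 : (linCharEquiv (μ.comp (QuotientGroup.mk' (frattini P)))).1 =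
      (linCharEquiv (ν.comp (QuotientGroup.mk' (frattini P)))).1 := by
      have := congrArg Subtype.val hμν
      exact this
    have h6 := linCharEquiv.injective (Subtype.ext h5)
    refine MonoidHom.ext fun v => ?_
    obtain ⟨v, rfl⟩ := QuotientGroup.mk_surjective v
    exact DFunLike.congr_fun h6 v
  refine hreal.trans ?_
  rw [card_real_irr]
  let T := {c : ConjClasses P // ∃ y : P, ConjClasses.mk y = c ∧ orderOf y = 2}
  have hT : Nat.card T + 1 = Nat.card (Option T) := (Finite.card_option).symm
  show _ ≤ Nat.card T + 1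
  rw [hT]
  have key : ∀ C : ConjClasses P, classInv P C = C → C ≠ ConjClasses.mk 1 →
      ∃ y : P, ConjClasses.mk y = C ∧ orderOf y = 2 := by
    intro C hC hC1
    obtain ⟨y, rfl⟩ := ConjClasses.mk_surjective C
    refine ⟨y, rfl, ?_⟩
    rw [classInv_mk, ConjClasses.mk_eq_mk_iff_isConj] at hC
    obtain ⟨c, hc⟩ := isConj_iff.1 hC.symm
    have h7 : c ∈ Subgroup.normalizer ((Subgroup.zpowers y : Subgroup P) : Set P) := by
      rw [Cfsg.Agent.H24.mem_normalizer_zpowers_iff, hc]
      exact (Subgroup.zpowers y).inv_mem (Subgroup.mem_zpowers y)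
    have h8 := hirr y h7
    rw [Cfsg.Agent.H24.mem_centralizer_singleton_iff] at h8
    have h9 : y = y⁻¹ := by rw [← hc, ← h8]; group
    have h10 : y ^ 2 = 1 := by
      rw [pow_two]
      nth_rewrite 2 [h9]
      exact mul_inv_cancel y
    refine orderOf_eq_prime h10 ?_
    rintro rfl
    exact hC1 rfl
  let F : {C : ConjClasses P // classInv P C = C} → Option T := fun C =>
    if h : C.1 = ConjClasses.mk 1 then none else some ⟨C.1, key C.1 C.2 h⟩
  refine Nat.card_le_card_of_injective F ?_
  intro C D hCD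
  by_cases hC : C.1 = ConjClasses.mk 1
  · by_cases hD : D.1 = ConjClasses.mk 1
    · exact Subtype.ext (hC.trans hD.symm)
    · simp [F, hC, hD] at hCD
  · by_cases hD : D.1 = ConjClasses.mk 1
    · simp [F, hC, hD] at hCD
    · simp only [F, hC, hD, dif_neg, not_false_eq_true, Option.some.injEq, Subtype.mk.injEq] at hCD
      have h9 : C.1 = D.1 := congrArg (fun t : T => t.1) hCD
      exact Subtype.ext h9

/-- Let P be a finite 2-group in which N_P(⟨y⟩) = C_P(y) for every y ∈ P. If s is the number of conjugacy classes of involutions of P, then #(P/Φ(P)) ≤ s + 1; in particular the subgroup generated by the involutions of P has order at least #(P/Φ(P)). -/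
theorem result {P : Type*} [Group P] [Finite P] (hP : IsPGroup 2 P)
    (hirr : ∀ y : P, Subgroup.normalizer ((Subgroup.zpowers y : Subgroup P) : Set P) ≤ Subgroup.centralizer {y}) :
    Nat.card (P ⧸ frattini P) ≤ Nat.card {c : ConjClasses P // ∃ y : P, ConjClasses.mk y = c ∧ orderOf y = 2} + 1 ∧
    Nat.card (P ⧸ frattini P) ≤ Nat.card (Subgroup.closure {y : P | orderOf y = 2}) := by
  classical
  have h1 := main hP hirr
  refine ⟨h1, h1.trans ?_⟩
  set T := {c : ConjClasses P // ∃ y : P, ConjClasses.mk y = c ∧ orderOf y = 2} with hTdef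
  have hT : Nat.card T + 1 = Nat.card (Option T) := (Finite.card_option).symm
  rw [hT]
  let F : Option T → Subgroup.closure {y : P | orderOf y = 2} := fun c =>
    c.elim 1 (fun c => ⟨c.2.choose, Subgroup.subset_closure c.2.choose_spec.2⟩)
  refine Nat.card_le_card_of_injective F ?_
  rintro (_ | c) (_ | d) hcd
  · rfl
  · exfalso
    have h2 : (1 : P) = d.2.choose := congrArg Subtype.val hcd
    have h3 := d.2.choose_spec.2
    rw [← h2, orderOf_one] at h3
    omega
  · exfalso
    have h2 : c.2.choose = (1 : P) := congrArg Subtype.val hcd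
    have h3 := c.2.choose_spec.2
    rw [h2, orderOf_one] at h3
    omega
  · have h2 : c.2.choose = d.2.choose := congrArg Subtype.val hcd
    have h3 := c.2.choose_spec.1
    have h4 := d.2.choose_spec.1
    rw [h2, h4] at h3
    rw [Subtype.ext h3]

end Cfsg.Agent.S4029
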