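import Cfsg.Statements.S4032
import Cfsg.Agent.H24.CoprimeLift

set_option autoImplicit false
open Cfsg

namespace Cfsg.Agent.S4032

/-- Let π be a set of primes and G a finite group in which N_G(⟨x⟩) = C_G(x) for every π-element x. If N is a normal subgroup of G whose order is divisible by no prime of π, then G/N has the same property: N_{G/N}(⟨y⟩) = C_{G/N}(y) for every π-element y of G/N. -/
theorem result {G : Type*} [Group G] [Finite G] (π : Set ℕ)
    (hirr : ∀ x : G, (∀ r : ℕ, r.Prime → r ∣ orderOf x → r ∈ π) →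
      Subgroup.normalizer ((Subgroup.zpowers x : Subgroup G) : Set G) ≤ Subgroup.centralizer {x})
    (N : Subgroup G) [N.Normal] (hN : ∀ r : ℕ, r.Prime → r ∣ Nat.card N → r ∉ π) :
    ∀ y : G ⧸ N, (∀ r : ℕ, r.Prime → r ∣ orderOf y → r ∈ π) →
      Subgroup.normalizer ((Subgroup.zpowers y : Subgroup (G ⧸ N)) : Set (G ⧸ N)) ≤ Subgroup.centralizer {y} := by
  intro y hy z hz
  have hcop : (orderOf y).Coprime (Nat.card N) := by
    apply Nat.coprime_of_dvd
    intro r hr h1 h2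
    exact hN r hr h2 (hy r hr h1)
  obtain ⟨x, hx1, hx2⟩ := Cfsg.Agent.H24.exists_lift_coprime N y hcop
  obtain ⟨g, rfl⟩ := QuotientGroup.mk_surjective z
  have h1 : (QuotientGroup.mk g : G ⧸ N) * y * (QuotientGroup.mk g : G ⧸ N)⁻¹ ∈ Subgroup.zpowers y :=
    (Subgroup.mem_normalizer_iff.1 hz y).1 (Subgroup.mem_zpowers y)
  obtain ⟨k, hk⟩ := h1
  have hk' : y ^ k = (QuotientGroup.mk g : G ⧸ N) * y * (QuotientGroup.mk g : G ⧸ N)⁻¹ := hk
  have h2 : g * x * g⁻¹ ∈ N ⊔ Subgroup.zpowers x := by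
    have h3 : g * x * g⁻¹ * (x ^ k)⁻¹ ∈ N := by
      rw [← QuotientGroup.eq_one_iff, QuotientGroup.mk_mul, QuotientGroup.mk_mul,
        QuotientGroup.mk_mul, QuotientGroup.mk_inv, QuotientGroup.mk_inv, QuotientGroup.mk_zpow,
        hx1, hk', mul_inv_cancel]
    have h4 : g * x * g⁻¹ = (g * x * g⁻¹ * (x ^ k)⁻¹) * x ^ k := by group
    rw [h4]
    exact Subgroup.mul_mem_sup h3 ⟨k, rfl⟩
  obtain ⟨n, hn, -, h5⟩ := Cfsg.Agent.H24.exists_mul_mem_normalizer_zpowers N x g
    (by rw [hx2]; exact hcop) h2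
  have h6 := hirr x (by rw [hx2]; exact hy) h5
  rw [Subgroup.mem_centralizer_singleton_iff] at h6 ⊢
  have h7 := congrArg (QuotientGroup.mk : G → G ⧸ N) h6
  simp only [QuotientGroup.mk_mul, hx1] at h7
  rwa [(QuotientGroup.eq_one_iff n).2 hn, one_mul] at h7

end Cfsg.Agent.S4032
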