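import Cfsg.Statements.S4034
import Cfsg.Agent.H24.RegClass
import Mathlib

set_option autoImplicit false
open Cfsg

namespace Cfsg.Agent.S4034

open Cfsg.Agent.H24 Cfsg.Agent.H23 Cfsg.Agent.H19
open scoped Pointwise

/-- `p`-regular elements are conjugate into an abelian `p`-complement. -/
theorem conj_into {G : Type*} [Group G] [Finite G] {p : ℕ} (hp : p.Prime) (H : Subgroup G)
    (hab : ∀ a ∈ H, ∀ b ∈ H, a * b = b * a) (hH : ∃ k : ℕ, H.index = p ^ k) (n : ℕ) :
    ∀ (C : Subgroup G) (x : G), orderOf x = n → H ≤ C → x ∈ C → (orderOf x).Coprime p →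
      ∃ c ∈ C, c * x * c⁻¹ ∈ H := by
  induction n using Nat.strong_induction_on with
  | _ n ih =>
  intro C x hn hHC hxC hxp
  by_cases hx1 : orderOf x = 1
  · rw [orderOf_eq_one_iff] at hx1
    exact ⟨1, C.one_mem, by rw [hx1]; simpa using H.one_mem⟩
  obtain ⟨q, hq, hqx⟩ := Nat.exists_prime_and_dvd hx1
  haveI : Fact q.Prime := ⟨hq⟩
  have hqp : q ≠ p := by
    rintro rfl
    have h4 := Nat.dvd_gcd hqx (dvd_refl q)
    rw [hxp] at h4
    exact hq.one_lt.ne' (Nat.dvd_one.1 h4)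
  obtain ⟨i, j, hij, ⟨k, hk⟩, hj⟩ := exists_pPart_decomp q x
  have hlt : orderOf (x ^ j) < n := by
    rw [← hn]
    refine lt_of_le_of_ne (Nat.le_of_dvd (orderOf_pos x) (orderOf_pow_dvd j)) ?_
    intro h1
    rw [h1] at hj
    have h4 := Nat.dvd_gcd hqx (dvd_refl q)
    rw [hj] at h4
    exact hq.one_lt.ne' (Nat.dvd_one.1 h4)
  -- Sylow q-subgroup of H is Sylow in C
  obtain ⟨Q, hQ⟩ := exists_isSylowOf q H
  have hQC : IsSylowOf q Q C := by
    refine isSylowOf_of_not_dvd (hQ.le.trans hHC) hQ.isPGroup ?_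
    intro hd
    have h1 := Subgroup.relIndex_mul_relIndex Q H C hQ.le hHC
    rw [← h1] at hd
    rcases (hq.dvd_mul).1 hd with h2 | h2
    · exact hQ.not_dvd h2
    · obtain ⟨m, hm⟩ := hH
      have h3 : q ∣ H.index := h2.trans ⟨_, (Subgroup.relIndex_mul_index hHC).symm⟩
      rw [hm] at h3
      exact hqp ((Nat.prime_dvd_prime_iff_eq hq hp).1 (hq.dvd_of_dvd_pow h3))
  obtain ⟨c, hc, hcQ⟩ := IsSylowOf.exists_conj_le hQC (Q := Subgroup.zpowers (x ^ i))
    (Subgroup.zpowers_le.2 (C.pow_mem hxC i)) (IsPGroup.of_card (n := k) (by rw [Nat.card_zpowers, hk]))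
  have hcx : c * x ^ i * c⁻¹ ∈ H := by
    apply hQ.le
    apply hcQ
    rw [Cfsg.Agent.H1.mem_conj_smul]
    have : c⁻¹ * (c * x ^ i * c⁻¹) * c = x ^ i := by group
    rw [this]; exact Subgroup.mem_zpowers _
  set y := c * x ^ i * c⁻¹ with hy
  have hordj : orderOf (c * x ^ j * c⁻¹) = orderOf (x ^ j) :=
    MulEquiv.orderOf_eq (MulAut.conj c) (x ^ j)
  have hCC : ∀ z : G, z ∈ C ⊓ Subgroup.centralizer ({y} : Set G) ↔ z ∈ C ∧ y * z = z * y := by
    intro z
    rw [Subgroup.mem_inf, mem_centralizer_singleton_iff]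
  obtain ⟨d, hd, hdx⟩ := ih (orderOf (x ^ j)) hlt (C ⊓ Subgroup.centralizer ({y} : Set G))
    (c * x ^ j * c⁻¹) hordj (by
      intro z hz
      rw [hCC]
      exact ⟨hHC hz, hab y hcx z hz⟩) (by
      rw [hCC]
      refine ⟨C.mul_mem (C.mul_mem hc (C.pow_mem hxC j)) (C.inv_mem hc), ?_⟩
      rw [hy]
      have h5 : x ^ i * x ^ j = x ^ j * x ^ i := by rw [← pow_add, ← pow_add, add_comm]
      calc c * x ^ i * c⁻¹ * (c * x ^ j * c⁻¹) = c * (x ^ i * x ^ j) * c⁻¹ := by group
        _ = c * (x ^ j * x ^ i) * c⁻¹ := by rw [h5]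
        _ = c * x ^ j * c⁻¹ * (c * x ^ i * c⁻¹) := by group) (by
      rw [hordj]
      exact Nat.Coprime.coprime_dvd_left (orderOf_pow_dvd j) hxp)
  rw [hCC] at hd
  refine ⟨d * c, C.mul_mem hd.1 hc, ?_⟩
  have h6 : d * c * x * (d * c)⁻¹ = (d * y * d⁻¹) * (d * (c * x ^ j * c⁻¹) * d⁻¹) := by
    rw [hy]
    conv_lhs => rw [hij]
    group
  have h7 : d * y * d⁻¹ = y := by rw [← hd.2]; group
  rw [h6, h7]
  exact H.mul_mem hcx hdx

theorem forward {G : Type*} [Group G] [Finite G] {p : ℕ} (hp : p.Prime) (h : RegP p G) :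
    ∃ H : Subgroup G, IsMulCommutative H ∧ ¬ p ∣ Nat.card H ∧ ∃ k : ℕ, H.index = p ^ k := by
  haveI : Fact p.Prime := ⟨hp⟩
  have hsol := regP_isSolvable hp G h
  set N := Cfsg.pCore p G with hN
  haveI : N.Normal := inferInstance
  have hNp : IsPGroup p N := Cfsg.Agent.H18.isPGroup_pCore p G
  have hQ : RegP p (G ⧸ N) := by
    intro y hy
    obtain ⟨x, rfl, hx⟩ := exists_lift_coprime_order N y hy
    obtain ⟨k, hk⟩ := h x hx
    have h1 := index_centralizer_quotient_dvd N x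
    rw [hk] at h1
    obtain ⟨j, _, hj⟩ := (Nat.dvd_prime_pow hp).1 h1
    exact ⟨j, hj⟩
  have hsolQ : Group.IsSolvable (G ⧸ N) := inferInstance
  have hOQ : Cfsg.pCore p (G ⧸ N) = ⊥ := Cfsg.Agent.H18.pCore_quotient_pCore
  obtain ⟨hFab, hFmem⟩ := regP_core hsolQ hOQ hQ
  set F := Cfsg.fittingSubgroup (G ⧸ N) with hF
  have hFn : F.Normal := Cfsg.Agent.H1.fitting_normal _
  have hFp : ¬ p ∣ Nat.card F := by
    intro hd
    obtain ⟨y, hy⟩ := exists_prime_orderOf_dvd_card' p hd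
    have h1 := (hFmem y).2 y.2
    rw [Subgroup.orderOf_coe, hy, Nat.coprime_self] at h1
    exact hp.one_lt.ne' h1
  have hFi : ∃ k : ℕ, F.index = p ^ k := by
    refine orderOf_eq_pow_of_forall_prime Subgroup.index_ne_zero_of_finite ?_
    intro q hq hqd
    by_contra hqp
    haveI : Fact q.Prime := ⟨hq⟩
    obtain ⟨y, hy⟩ := exists_prime_orderOf_dvd_card' q (show q ∣ Nat.card ((G ⧸ N) ⧸ F) from hqd)
    obtain ⟨x, hx, k, hk⟩ := exists_lift_pElt q F y ⟨1, by rw [hy, pow_one]⟩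
    have h1 : x ∈ F := by
      rw [← hFmem, hk]
      exact Nat.Coprime.pow_left _ ((Nat.coprime_primes hq hp).2 hqp)
    have h2 : y = 1 := by rw [← hx]; exact (QuotientGroup.eq_one_iff x).2 h1
    rw [h2, orderOf_one] at hy
    exact hq.one_lt.ne hy
  -- the preimage
  set L := F.comap (QuotientGroup.mk' N) with hL
  have hNL : N ≤ L := by
    intro n hn
    rw [hL, Subgroup.mem_comap, show QuotientGroup.mk' N n = 1 from (QuotientGroup.eq_one_iff n).2 hn]
    exact F.one_mem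
  have hLmap : L.map (QuotientGroup.mk' N) = F :=
    Subgroup.map_comap_eq_self_of_surjective (QuotientGroup.mk'_surjective N) F
  have hcardL : Nat.card F * Nat.card N = Nat.card L := by
    rw [← card_quotient_map N L hNL, hLmap]
  obtain ⟨c, hc⟩ := IsPGroup.iff_card.1 hNp
  haveI hNLn : (N.subgroupOf L).Normal := inferInstance
  have hcN : Nat.card (N.subgroupOf L) = Nat.card N :=
    Nat.card_congr (Subgroup.subgroupOfEquivOfLe hNL).toEquiv
  have hiN : (N.subgroupOf L).index = Nat.card F := by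
    have h1 := Subgroup.card_mul_index (N.subgroupOf L)
    rw [hcN, ← hcardL, mul_comm (Nat.card F)] at h1
    exact Nat.eq_of_mul_eq_mul_left Nat.card_pos h1
  have hcop : Nat.Coprime (Nat.card (N.subgroupOf L)) (N.subgroupOf L).index := by
    rw [hcN, hiN, hc]
    exact Nat.Coprime.pow_left _ ((Nat.Prime.coprime_iff_not_dvd hp).2 hFp)
  obtain ⟨H0, hH0⟩ := Subgroup.exists_right_complement'_of_coprime hcop
  set H := H0.map L.subtype with hH
  have hcH : Nat.card H = Nat.card F := by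
    rw [hH, Subgroup.card_map_of_injective L.subtype_injective]
    have h1 := hH0.card_mul
    rw [hcN, ← hcardL, mul_comm (Nat.card F)] at h1
    exact Nat.eq_of_mul_eq_mul_left Nat.card_pos h1
  have hHN : Disjoint H N := by
    apply Subgroup.disjoint_of_coprime_natCard
    rw [hcH, hc]
    exact Nat.Coprime.pow_right _ ((Nat.Prime.coprime_iff_not_dvd hp).2 hFp).symm
  refine ⟨H, ?_, ?_, ?_⟩
  · rw [isMulCommutative_iff_forall]
    intro a ha b hb
    have haF : QuotientGroup.mk' N a ∈ F := by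
      obtain ⟨a', _, rfl⟩ := ha
      exact a'.2
    have hbF : QuotientGroup.mk' N b ∈ F := by
      obtain ⟨b', _, rfl⟩ := hb
      exact b'.2
    have h1 := hFab _ haF _ hbF
    rw [← map_mul, ← map_mul] at h1
    have h2 : (a * b)⁻¹ * (b * a) ∈ N := QuotientGroup.eq.1 h1
    have h3 : (a * b)⁻¹ * (b * a) ∈ H ⊓ N :=
      ⟨H.mul_mem (H.inv_mem (H.mul_mem ha hb)) (H.mul_mem hb ha), h2⟩
    rw [hHN.eq_bot, Subgroup.mem_bot] at h3
    exact inv_mul_eq_one.1 h3
  · rw [hcH]; exact hFp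
  · obtain ⟨k, hk⟩ := hFi
    refine ⟨c + k, ?_⟩
    have h1 := Subgroup.card_mul_index H
    have h2 := Subgroup.card_mul_index F
    have h3 := Subgroup.card_mul_index N
    have h4 : Nat.card (G ⧸ N) = N.index := rfl
    have h5 : Nat.card F * H.index = Nat.card F * p ^ (c + k) := by
      rw [← hcH, h1, ← h3, ← h4, ← h2, hk, hc, hcH, pow_add]; ring
    exact Nat.eq_of_mul_eq_mul_left Nat.card_pos h5

/-- Let G be a finite group and p a prime. Every conjugacy class of p-regular elements of G (elements of order prime to p) has p-power size if and only if G has an abelian p-complement, i.e. an abelian subgroup of order prime to p and p-power index. -/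
theorem result {G : Type*} [Group G] [Finite G] {p : ℕ} (hp : p.Prime) :
    (∀ x : G, (orderOf x).Coprime p → ∃ k : ℕ, (ConjClasses.mk x).carrier.ncard = p ^ k) ↔
    (∃ H : Subgroup G, IsMulCommutative H ∧ ¬ p ∣ Nat.card H ∧ ∃ k : ℕ, H.index = p ^ k) := by
  constructor
  · intro h
    apply forward hp
    intro x hx
    obtain ⟨k, hk⟩ := h x hx
    exact ⟨k, by rw [← hk, Cfsg.Agent.H24.ncard_carrier]⟩
  · rintro ⟨H, hab, hpH, hk⟩ x hx
    rw [Cfsg.Agent.H24.ncard_carrier]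
    have hab' := Cfsg.Agent.H24.isMulCommutative_iff_forall.1 hab
    obtain ⟨c, -, hc⟩ := conj_into hp H hab' hk _ ⊤ x rfl le_top (Subgroup.mem_top x) hx
    rw [← Cfsg.Agent.H24.index_centralizer_conj c x]
    have h1 : H ≤ Subgroup.centralizer ({c * x * c⁻¹} : Set G) := by
      intro z hz
      rw [Cfsg.Agent.H24.mem_centralizer_singleton_iff]
      exact hab' _ hc z hz
    obtain ⟨k, hk⟩ := hk
    have h2 := Subgroup.index_dvd_of_le h1
    rw [hk] at h2
    obtain ⟨j, _, hj⟩ := (Nat.dvd_prime_pow hp).1 h2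
    exact ⟨j, hj⟩

end Cfsg.Agent.S4034
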