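import Cfsg.Statements.S4036
import Mathlib

set_option autoImplicit false
open Cfsg

namespace Cfsg.Agent.S4036

/-- Let P be a finite abelian p-group and K a group of automorphisms of P (a subgroup of Aut P) whose order is divisible by p. If all non-identity elements of K have the same fixed-point subgroup on P, then K has no non-trivial normal subgroup of order prime to p. -/
theorem result {P : Type*} [CommGroup P] [Finite P] {p : ℕ}
    [Fact p.Prime] (hP : IsPGroup p P) (K : Subgroup (MulAut P)) (hK : p ∣ Nat.card K)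
    (hfix : ∀ x y : MulAut P, x ∈ K → y ∈ K → x ≠ 1 → y ≠ 1 → ∀ v : P, x v = v ↔ y v = v) :
    ∀ N : Subgroup ↥K, N.Normal → ¬ p ∣ Nat.card N → N = ⊥ := by
  classical
  have hp := Fact.out (p := p.Prime)
  intro N hN hNp
  by_contra hne
  obtain ⟨n0, hn0, hn01⟩ : ∃ n0 : ↥K, n0 ∈ N ∧ n0 ≠ 1 := by
    obtain ⟨a, ha⟩ := Subgroup.ne_bot_iff_exists_ne_one.1 hne
    exact ⟨a, a.2, fun h => ha (Subtype.ext h)⟩
  -- an element of order `p`
  obtain ⟨x, hx⟩ := exists_prime_orderOf_dvd_card' p hK
  have hx1 : (x : MulAut P) ≠ 1 := by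
    intro h
    have : x = 1 := Subtype.ext h
    rw [this, orderOf_one] at hx
    exact hp.one_lt.ne hx
  have : Fintype N := Fintype.ofFinite N
  -- the norm map
  let ν : P →* P :=
    { toFun := fun v => ∏ n : N, ((n : ↥K) : MulAut P) v
      map_one' := by simp
      map_mul' := by intro a b; simp [Finset.prod_mul_distrib] }
  have hν : ∀ v, ν v = ∏ n : N, ((n : ↥K) : MulAut P) v := fun v => rfl
  have hνn : ∀ (m : ↥K) (hm : m ∈ N) (v : P), ν ((m : MulAut P) v) = ν v := by
    intro m hm v
    rw [hν, hν]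
    have := Equiv.prod_comp (Equiv.mulRight (⟨m, hm⟩ : N)) (fun n : N => ((n : ↥K) : MulAut P) v)
    rw [← this]
    rfl
  have hνK : ∀ (k : ↥K) (v : P), ν ((k : MulAut P) v) = (k : MulAut P) (ν v) := by
    intro k v
    rw [hν, hν, map_prod]
    let e : N ≃ N := (MulAut.conjNormal k : MulAut N).toEquiv
    have := Equiv.prod_comp e (fun n : N => ((n : ↥K) : MulAut P) ((k : MulAut P) v))
    rw [← this]
    refine Finset.prod_congr rfl ?_
    intro n _
    have h1 : ((e n : N) : ↥K) = k * n * k⁻¹ := MulAut.conjNormal_apply k n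
    rw [h1]
    simp only [Subgroup.coe_mul, Subgroup.coe_inv, MulAut.mul_apply, MulAut.inv_apply_self]
  let D := ν.ker
  -- an element of `D` fixed by `x` is trivial
  have hDfix : ∀ v ∈ D, (x : MulAut P) v = v → v = 1 := by
    intro v hv hxv
    have h1 : ∀ n : N, ((n : ↥K) : MulAut P) v = v := by
      intro n
      by_cases hn : ((n : ↥K) : MulAut P) = 1
      · rw [hn]; rfl
      · exact (hfix _ _ x.2 (n : ↥K).2 hx1 hn v).1 hxv
    have h2 : ν v = v ^ Nat.card N := by
      rw [hν, Finset.prod_congr rfl (fun n _ => h1 n), Finset.prod_const, Finset.card_univ,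
        Nat.card_eq_fintype_card]
    have h3 : v ^ Nat.card N = 1 := by rw [← h2]; exact hv
    obtain ⟨k, hk⟩ := (IsPGroup.iff_orderOf.1 hP) v
    have h4 : orderOf v ∣ Nat.card N := orderOf_dvd_of_pow_eq_one h3
    rcases Nat.eq_zero_or_pos k with h0 | h0
    · rw [h0, pow_zero, orderOf_eq_one_iff] at hk; exact hk
    · exact absurd ((dvd_pow_self p h0.ne').trans (hk ▸ h4)) hNp
  -- `D` is nontrivial
  obtain ⟨w, hw⟩ : ∃ w : P, (n0 : MulAut P) w ≠ w := by
    by_contra hcon
    push Not at hcon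
    apply hn01
    apply Subtype.ext
    ext v
    exact hcon v
  have hwD : (n0 : MulAut P) w * w⁻¹ ∈ D := by
    show ν _ = 1
    rw [map_mul, map_inv, hνn n0 hn0, mul_inv_cancel]
  have hwne : (n0 : MulAut P) w * w⁻¹ ≠ 1 := by
    intro h; exact hw (mul_inv_eq_one.1 h)
  -- action of `⟨x⟩` on `D`
  let S : SubMulAction (Subgroup.zpowers x) P :=
    { carrier := (D : Set P)
      smul_mem' := by
        intro c v hv
        show ν (((c : ↥K) : MulAut P) v) = 1
        rw [hνK]
        have : ν v = 1 := hv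
        rw [this, map_one] }
  have hXp : IsPGroup p (Subgroup.zpowers x) := by
    apply IsPGroup.of_card (n := 1)
    rw [Nat.card_zpowers, hx, pow_one]
  have hDp : IsPGroup p D := hP.to_subgroup D
  have hDnt : Nontrivial D := ⟨⟨⟨_, hwD⟩, 1, fun h => hwne (congrArg Subtype.val h)⟩⟩
  have hDdvd : p ∣ Nat.card S := by
    obtain ⟨k, hk⟩ := hDp.exists_card_eq
    have hk' : Nat.card S = p ^ k := hk
    have hk0 : k ≠ 0 := by
      rintro rfl
      rw [pow_zero] at hk
      have := Finite.one_lt_card_iff_nontrivial.2 hDnt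
      omega
    rw [hk']; exact dvd_pow_self p hk0
  have hone : (⟨1, D.one_mem⟩ : S) ∈ MulAction.fixedPoints (Subgroup.zpowers x) S := by
    intro c
    apply Subtype.ext
    show ((c : ↥K) : MulAut P) 1 = 1
    exact map_one _
  obtain ⟨b, hb, hb1⟩ := hXp.exists_fixed_point_of_prime_dvd_card_of_fixed_point S hDdvd hone
  have hb2 := hb ⟨x, Subgroup.mem_zpowers x⟩
  have hb3 : (x : MulAut P) (b : P) = b := congrArg Subtype.val hb2
  have hb4 := hDfix b b.2 hb3
  exact hb1 (Subtype.ext hb4.symm)

end Cfsg.Agent.S4036
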