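import Cfsg.Statements.S4039
import Cfsg.Agent.H24.MaxNil
import Mathlib

set_option autoImplicit false
open Cfsg

namespace Cfsg.Agent.S4039

open Cfsg.Agent.H24 in
theorem core_free {G : Type*} [Group G] [Finite G] (M : Subgroup G) (hmax : IsCoatom M)
    (hnil : Group.IsNilpotent M) (hcl : Group.nilpotencyClass ↥M ≤ 2)
    (hcore : M.normalCore = ⊥) : Group.IsSolvable G := by
  refine isSolvable_of_maximal_aux hmax hnil hcore ?_
  intro p hp hpM
  haveI : Fact p.Prime := ⟨hp⟩
  obtain ⟨P, hPM, hPne, hPN⟩ := exists_sylow_of_maximal hmax hnil hcore hpM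
  refine hasNormalPComplement_of_centric P ?_
  intro R hRP hRC
  -- p-elements of M lie in P
  have hpP : ∀ m ∈ M, (∃ k : ℕ, orderOf m = p ^ k) → m ∈ (P : Subgroup G) := by
    rintro m hm ⟨k, hk⟩
    have h2 : IsPGroup p (Subgroup.zpowers m) := IsPGroup.of_card (n := k) (by rw [Nat.card_zpowers, hk])
    have h3 : Subgroup.zpowers m ≤ Subgroup.normalizer ((P : Subgroup G) : Set G) := by
      rw [hPN]; exact Subgroup.zpowers_le.2 hm
    have h4 := h2.to_sup_of_normal_right' P.isPGroup' h3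
    have h5 := P.is_maximal' h4 le_sup_right
    exact h5.le (Subgroup.mem_sup_left (Subgroup.mem_zpowers m))
  -- p'-elements of M centralise P
  have hpC : ∀ m ∈ M, (orderOf m).Coprime p → ∀ x ∈ (P : Subgroup G), x * m = m * x := by
    intro m hm hmo x hx
    have h1 : ∃ k : ℕ, orderOf (⟨x, hPM hx⟩ : M) = p ^ k := by
      obtain ⟨k, hk⟩ := IsPGroup.iff_orderOf.1 P.isPGroup' ⟨x, hx⟩
      refine ⟨k, ?_⟩
      rw [← hk, ← Subgroup.orderOf_coe, ← Subgroup.orderOf_coe]
    have h2 := commute_of_nilpotent_coprime hnil (p := p) (x := ⟨x, hPM hx⟩) (y := ⟨m, hm⟩) h1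
      (by rw [← Subgroup.orderOf_coe]; exact hmo)
    exact congrArg Subtype.val h2.eq
  have hRM : R ≤ M := hRP.trans hPM
  have hPP : ∀ x ∈ (P : Subgroup G), ∀ y ∈ (P : Subgroup G), x * y * x⁻¹ * y⁻¹ ∈ R := by
    intro x hx y hy
    apply hRC
    refine ⟨(P : Subgroup G).mul_mem ((P : Subgroup G).mul_mem ((P : Subgroup G).mul_mem hx hy)
      ((P : Subgroup G).inv_mem hx)) ((P : Subgroup G).inv_mem hy), ?_⟩
    show _ ∈ Subgroup.centralizer (R : Set G)
    rw [Subgroup.mem_centralizer_iff]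
    intro r hr
    have h1 := class_two_comm hcl (⟨x, hPM hx⟩ : M) ⟨y, hPM hy⟩ ⟨r, hRM hr⟩
    exact (congrArg Subtype.val h1).symm
  have hMR : M ≤ Subgroup.normalizer (R : Set G) := by
    intro m hm
    obtain ⟨i, j, hij, hi, hj⟩ := exists_pPart_decomp p m
    refine mem_normalizer_of_conj_mem' ?_
    intro r hr
    have hi' := hpP (m ^ i) (M.pow_mem hm i) hi
    have hj' := hpC (m ^ j) (M.pow_mem hm j) hj r (hRP hr)
    have h1 : m * r * m⁻¹ = (m ^ i * r * (m ^ i)⁻¹ * r⁻¹) * r := by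
      calc m * r * m⁻¹ = (m ^ i * m ^ j) * r * (m ^ i * m ^ j)⁻¹ := by rw [← hij]
        _ = m ^ i * (m ^ j * r) * (m ^ j)⁻¹ * (m ^ i)⁻¹ := by group
        _ = m ^ i * (r * m ^ j) * (m ^ j)⁻¹ * (m ^ i)⁻¹ := by rw [hj']
        _ = (m ^ i * r * (m ^ i)⁻¹ * r⁻¹) * r := by group
    rw [h1]
    exact R.mul_mem (hPP _ hi' r (hRP hr)) hr
  have hR1 : R ≠ ⊥ := by
    intro hR
    rw [hR] at hRC
    have h1 : Subgroup.centralizer ((⊥ : Subgroup G) : Set G) = ⊤ := by
      rw [eq_top_iff]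
      intro x _
      rw [Subgroup.mem_centralizer_iff]
      intro y hy
      have hy' : y = 1 := hy
      rw [hy']; simp
    rw [h1, inf_top_eq, le_bot_iff] at hRC
    exact hPne hRC
  have hNR := normalizer_eq_of_maximal hmax hcore hRM hR1 hMR
  intro y hy hyo
  rw [hNR] at hy
  rw [Subgroup.mem_centralizer_iff]
  intro r hr
  exact hpC y hy hyo r (hRP hr)

/-- A finite group possessing a maximal subgroup that is nilpotent of class at most 2 is solvable. -/
theorem result {G : Type*} [Group G] [Finite G]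
    (M : Subgroup G) (hmax : IsCoatom M) (hnil : Group.IsNilpotent M) (hcl : Group.nilpotencyClass ↥M ≤ 2) :
    Group.IsSolvable G := by
  refine Cfsg.Agent.H24.isSolvable_of_coreFree M hmax hnil ?_
  intro X _ _ T f hf hT hTn hTc
  refine core_free T hT hTn ?_ hTc
  haveI := hnil
  exact (Group.nilpotencyClass_le_of_surjective f hf).trans hcl

end Cfsg.Agent.S4039
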