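import Cfsg.Statements.S4040
import Cfsg.Agent.H24.MaxNil
import Cfsg.Agent.S0117
import Cfsg.Agent.H2.Hall
import Cfsg.Agent.H2.ZJe
import Cfsg.Agent.H2.JSub
import Cfsg.Agent.H18.CharP

set_option autoImplicit false
set_option linter.all false
open Cfsg

namespace Cfsg.Agent.S4040

open Cfsg.Agent.H24 in
theorem core_free {G : Type*} [Group G] [Finite G] (M : Subgroup G) (hmax : IsCoatom M)
    (hnil : Group.IsNilpotent M) (hodd : Odd (Nat.card M))
    (hcore : M.normalCore = ⊥) : Group.IsSolvable G := by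
  refine isSolvable_of_maximal_aux hmax hnil hcore ?_
  intro p hp hpM
  haveI : Fact p.Prime := ⟨hp⟩
  have hp2 : p ≠ 2 := by
    rintro rfl
    exact (Nat.not_even_iff_odd.2 hodd) (even_iff_two_dvd.2 hpM)
  obtain ⟨P, hPM, hPne, hPN⟩ := exists_sylow_of_maximal hmax hnil hcore hpM
  rw [Cfsg.Agent.S0117.result hp2 P]
  set Z := Cfsg.centerThompsonOf p (P : Subgroup G) with hZ
  have hZP : Z ≤ P := Cfsg.Agent.H2.centerThompsonOf_le p _
  have hMZ : M ≤ Subgroup.normalizer (Z : Set G) := by
    rw [← hPN]; exact Cfsg.Agent.H2.normalizer_le_normalizer_centerThompsonOf _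
  have hpP : p ∣ Nat.card (P : Subgroup G) := by
    obtain ⟨n, hn⟩ := IsPGroup.iff_card.1 P.2
    have : Nat.card (P : Subgroup G) = p ^ n := hn
    rw [this]
    refine dvd_pow_self p ?_
    rintro rfl
    rw [pow_zero] at this
    exact hPne (Subgroup.card_eq_one.1 this)
  have hZ1 : Z ≠ ⊥ := by
    have hJ := Cfsg.Agent.H2.thompsonSubgroupOf_ne_bot hpP
    have hJp : IsPGroup p (Cfsg.thompsonSubgroupOf p (P : Subgroup G)) :=
      P.2.to_le (Cfsg.Agent.H2.thompsonSubgroupOf_le p _)
    exact Cfsg.Agent.H18.inf_centralizer_ne_bot hJp hJp Subgroup.le_normalizer hJ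
  rw [normalizer_eq_of_maximal hmax hcore (hZP.trans hPM) hZ1 hMZ]
  exact Cfsg.Agent.H2.HasNormalPComplement.of_isNilpotent hnil

/-- A finite group possessing a maximal subgroup that is nilpotent of odd order is solvable. -/
theorem result {G : Type*} [Group G] [Finite G]
    (M : Subgroup G) (hmax : IsCoatom M) (hnil : Group.IsNilpotent M) (hodd : Odd (Nat.card M)) :
    Group.IsSolvable G := by
  refine Cfsg.Agent.H24.isSolvable_of_coreFree M hmax hnil ?_
  intro X _ _ T f hf hT hTn hTc
  refine core_free T hT hTn ?_ hTc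
  exact Odd.of_dvd_nat hodd (Subgroup.card_dvd_of_surjective f hf)

end Cfsg.Agent.S4040
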