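import Cfsg.Statements.S4043
import Cfsg.Agent.H1.Hall
import Cfsg.Agent.H2.NComp
import Cfsg.Agent.H18.CharP
import Cfsg.Agent.H24.MaxNil
import Mathlib

set_option autoImplicit false
open Cfsg

namespace Cfsg.Agent.S4043

open scoped Pointwise
open Cfsg.Agent.H24

theorem nat_aux {a b p i j : ℕ} (hp : p.Prime) (ha : ¬ p ∣ a) (hb : ¬ p ∣ b)
    (h : a * p ^ i = b * p ^ j) : a = b := by
  have h1 : a.Coprime (p ^ j) := Nat.Coprime.pow_right _ ((Nat.Prime.coprime_iff_not_dvd hp).2 ha).symm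
  have h2 : b.Coprime (p ^ i) := Nat.Coprime.pow_right _ ((Nat.Prime.coprime_iff_not_dvd hp).2 hb).symm
  exact Nat.dvd_antisymm (h1.dvd_of_dvd_mul_right ⟨p ^ i, h.symm⟩) (h2.dvd_of_dvd_mul_right ⟨p ^ j, h⟩)

/-- data extracted from a normal `p`-complement of a subgroup `A` -/
theorem exists_data {G : Type*} [Group G] [Finite G] {p : ℕ} [hp : Fact p.Prime] (A : Subgroup G)
    (hA : Cfsg.HasNormalPComplement p A) :
    ∃ K : Subgroup G, K ≤ A ∧ A ≤ Subgroup.normalizer (K : Set G) ∧ ¬ p ∣ Nat.card K ∧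
      (∃ k : ℕ, Nat.card K * p ^ k = Nat.card A) ∧
      (∀ a ∈ A, (orderOf a).Coprime p → a ∈ K) ∧
      ∃ S : Subgroup G, IsPGroup p S ∧ S ≤ A ∧ A ≤ K ⊔ S := by
  obtain ⟨K0, hK0, hpK0, k, hk⟩ := Cfsg.Agent.H2.hasNormalPComplement_iff.1 hA
  have hcard : Nat.card (K0.map A.subtype) = Nat.card K0 :=
    Subgroup.card_map_of_injective A.subtype_injective
  refine ⟨K0.map A.subtype, Subgroup.map_subtype_le _, ?_, ?_, ⟨k, ?_⟩, ?_, ?_⟩
  · intro a ha
    refine mem_normalizer_of_conj_mem' ?_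
    rintro _ ⟨y, hy, rfl⟩
    exact ⟨⟨a, ha⟩ * y * ⟨a, ha⟩⁻¹, hK0.conj_mem y hy ⟨a, ha⟩, rfl⟩
  · rw [hcard]; exact hpK0
  · rw [hcard, ← hk]; exact Subgroup.card_mul_index K0
  · intro a ha hao
    have h1 : (⟨a, ha⟩ : A) ^ p ^ k ∈ K0 := by
      rw [← hk]; exact Subgroup.pow_index_mem K0 _
    have h2 : (⟨a, ha⟩ : A) ∈ K0 :=
      Cfsg.Agent.H25.mem_of_pow_mem (by rw [← Subgroup.orderOf_coe]; exact Nat.Coprime.pow_left _ hao.symm) h1
    exact ⟨_, h2, rfl⟩
  · obtain ⟨S0⟩ : Nonempty (Sylow p A) := inferInstance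
    refine ⟨(S0 : Subgroup A).map A.subtype, S0.isPGroup'.map _, Subgroup.map_subtype_le _, ?_⟩
    have h1 : K0 ⊔ (S0 : Subgroup A) = ⊤ := by
      rw [← Subgroup.index_eq_one]
      by_contra hne
      obtain ⟨q, hq, hqd⟩ := Nat.exists_prime_and_dvd hne
      have h2 : q ∣ K0.index := hqd.trans (Subgroup.index_dvd_of_le le_sup_left)
      rw [hk] at h2
      have h3 : q = p := (Nat.prime_dvd_prime_iff_eq hq hp.out).1 (hq.dvd_of_dvd_pow h2)
      rw [h3] at hqd
      exact S0.not_dvd_index (hqd.trans (Subgroup.index_dvd_of_le le_sup_right))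
    rw [← Subgroup.map_sup, h1]
    intro a ha
    exact ⟨⟨a, ha⟩, Subgroup.mem_top _, rfl⟩

/-- Let G be a finite group that is the semidirect product of a normal p-subgroup N by a subgroup A, and also of N by a subgroup A₁, where p is a prime and A and A₁ both have normal p-complements. If C_N(A) = C_N(A₁) = 1, then A₁ is conjugate to A by an element of N. -/
theorem result {G : Type*} [Group G] [Finite G] {p : ℕ}
    [Fact p.Prime] (N : Subgroup G) [N.Normal] (hN : IsPGroup p N) (A A₁ : Subgroup G)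
    (hA : A.IsComplement' N) (hA₁ : A₁.IsComplement' N)
    (hAp : Cfsg.HasNormalPComplement p A) (hA₁p : Cfsg.HasNormalPComplement p A₁)
    (hC : ∀ n : G, n ∈ N → (∀ a : G, a ∈ A → a * n * a⁻¹ = n) → n = 1)
    (hC₁ : ∀ n : G, n ∈ N → (∀ a : G, a ∈ A₁ → a * n * a⁻¹ = n) → n = 1) :
    ∃ n : G, n ∈ N ∧ A₁ = A.map (MulAut.conj n).toMonoidHom := by
  classical
  have hp : p.Prime := Fact.out
  obtain ⟨K, hKA, hAK, hpK, ⟨k, hk⟩, hKmem, -⟩ := exists_data A hAp
  obtain ⟨K₁, hKA₁, hAK₁, hpK₁, ⟨k₁, hk₁⟩, hKmem₁, S, hSp, hSA, hAS⟩ := exists_data A₁ hA₁p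
  have hcA : Nat.card A = Nat.card A₁ := by
    have h1 := hA.card_mul
    have h2 := hA₁.card_mul
    exact Nat.eq_of_mul_eq_mul_right Nat.card_pos (h1.trans h2.symm)
  have hcK : Nat.card K = Nat.card K₁ := nat_aux hp hpK hpK₁ (hk.trans (hcA.trans hk₁.symm))
  obtain ⟨m, hm⟩ := IsPGroup.iff_card.1 hN
  have hfac : ∀ x : G, ∃ n ∈ N, ∃ a ∈ A₁, n * a = x := by
    intro x
    have h1 : x ∈ N ⊔ A₁ := by rw [sup_comm, hA₁.sup_eq_top]; exact Subgroup.mem_top x
    rw [Subgroup.mem_sup_of_normal_left] at h1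
    exact h1
  have hKN : K ≤ N ⊔ K₁ := by
    intro x hx
    obtain ⟨n, hn, a, ha, rfl⟩ := hfac x
    have h1 : (n * a) ^ Nat.card K = 1 := by
      have := pow_card_eq_one' (x := (⟨n * a, hx⟩ : K))
      exact congrArg Subtype.val this
    have h2 : (QuotientGroup.mk' N (n * a)) = QuotientGroup.mk' N a := by
      rw [map_mul, show QuotientGroup.mk' N n = 1 from (QuotientGroup.eq_one_iff _).2 hn, one_mul]
    have h3 : a ^ Nat.card K ∈ N := by
      have h4 := congrArg (QuotientGroup.mk' N) h1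
      rw [map_pow, h2, ← map_pow, map_one] at h4
      exact (QuotientGroup.eq_one_iff _).1 h4
    have h4 : a ^ Nat.card K = 1 := by
      have h5 : a ^ Nat.card K ∈ A₁ ⊓ N := ⟨A₁.pow_mem ha _, h3⟩
      rw [hA₁.disjoint.eq_bot] at h5
      exact Subgroup.mem_bot.1 h5
    have h5 : (orderOf a).Coprime p :=
      Nat.Coprime.coprime_dvd_left (orderOf_dvd_of_pow_eq_one h4)
        ((Nat.Prime.coprime_iff_not_dvd hp).2 hpK).symm
    exact Subgroup.mul_mem_sup hn (hKmem₁ a ha h5)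
  obtain ⟨n, hn, hconj⟩ := Cfsg.Agent.H1.sz_conj_rel N K K₁
    (by rw [Subgroup.normalizer_eq_top_iff.2 inferInstance]; exact le_top)
    (by rw [hm]; exact Nat.Coprime.pow_left _ ((Nat.Prime.coprime_iff_not_dvd hp).2 hpK₁))
    (Or.inl (by have := hN.isNilpotent; infer_instance)) hcK hKN
  set D : Subgroup G := N ⊓ Subgroup.normalizer (K₁ : Set G) with hD
  have hcen : ∀ d ∈ D, ∀ x ∈ K₁, x * d = d * x := by
    intro d hd x hx
    have h1 : d * x * d⁻¹ ∈ K₁ := (Subgroup.mem_normalizer_iff.1 hd.2 x).1 hx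
    have h2 : d * x * d⁻¹ * x⁻¹ ∈ A₁ ⊓ N := by
      refine ⟨hKA₁ (K₁.mul_mem h1 (K₁.inv_mem hx)), ?_⟩
      have h3 : x * d⁻¹ * x⁻¹ ∈ N := ‹N.Normal›.conj_mem _ (N.inv_mem hd.1) x
      have h4 : d * x * d⁻¹ * x⁻¹ = d * (x * d⁻¹ * x⁻¹) := by group
      rw [h4]; exact N.mul_mem hd.1 h3
    rw [hA₁.disjoint.eq_bot, Subgroup.mem_bot] at h2
    have h3 : d * x = x * d := by
      calc d * x = (d * x * d⁻¹ * x⁻¹) * (x * d) := by group
        _ = x * d := by rw [h2, one_mul]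
    exact h3.symm
  have hDn : A₁ ≤ Subgroup.normalizer (D : Set G) := by
    intro a ha
    refine mem_normalizer_of_conj_mem' ?_
    intro y hy
    refine ⟨‹N.Normal›.conj_mem _ hy.1 a, ?_⟩
    exact (Subgroup.normalizer (K₁ : Set G)).mul_mem ((Subgroup.normalizer (K₁ : Set G)).mul_mem
      (hAK₁ ha) hy.2) ((Subgroup.normalizer (K₁ : Set G)).inv_mem (hAK₁ ha))
  have hD1 : D = ⊥ := by
    by_contra hne
    have h1 := Cfsg.Agent.H18.inf_centralizer_ne_bot (hN.to_le inf_le_left : IsPGroup p D) hSp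
      (hSA.trans hDn) hne
    rw [Subgroup.ne_bot_iff_exists_ne_one] at h1
    obtain ⟨⟨x, hx⟩, hx1⟩ := h1
    apply hx1
    apply Subtype.ext
    show x = 1
    refine hC₁ x hx.1.1 ?_
    intro a ha
    have h2 : A₁ ≤ Subgroup.centralizer ({x} : Set G) := by
      refine hAS.trans (sup_le ?_ ?_)
      · intro y hy
        rw [Subgroup.mem_centralizer_iff]
        intro z hz
        rw [Set.mem_singleton_iff.1 hz]
        exact (hcen x hx.1 y hy).symm
      · intro y hy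
        rw [Subgroup.mem_centralizer_iff]
        intro z hz
        rw [Set.mem_singleton_iff.1 hz]
        exact ((Subgroup.mem_centralizer_iff.1 hx.2) y hy).symm
    have h3 := Subgroup.mem_centralizer_iff.1 (h2 ha) x rfl
    rw [← h3]; group
  refine ⟨n, hn, ?_⟩
  have hB : A.map (MulAut.conj n).toMonoidHom ≤ A₁ := by
    rintro _ ⟨a, ha, rfl⟩
    have hbN : (MulAut.conj n).toMonoidHom a ∈ Subgroup.normalizer (K₁ : Set G) := by
      rw [← hconj, ← Cfsg.Agent.H1.conj_smul_normalizer]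
      exact ⟨a, hAK ha, rfl⟩
    obtain ⟨c, hc, a', ha', hca⟩ := hfac ((MulAut.conj n).toMonoidHom a)
    have h1 : c ∈ D := by
      refine ⟨hc, ?_⟩
      have h2 : c = (MulAut.conj n).toMonoidHom a * a'⁻¹ := by rw [← hca]; group
      rw [h2]
      exact (Subgroup.normalizer (K₁ : Set G)).mul_mem hbN
        ((Subgroup.normalizer (K₁ : Set G)).inv_mem (hAK₁ ha'))
    rw [hD1, Subgroup.mem_bot] at h1
    rw [← hca, h1, one_mul]; exact ha'
  refine (Subgroup.eq_of_le_of_card_ge hB ?_).symm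
  rw [Subgroup.card_map_of_injective (MulAut.conj n).injective, hcA]

end Cfsg.Agent.S4043
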