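import Cfsg.Statements.S4049
import Cfsg.Agent.H24.CoprimeLift

set_option autoImplicit false
open Cfsg

namespace Cfsg.Agent.S4049

/-- Let G be a finite group such that N_G(H)/C_G(H) has odd order for every nontrivial subgroup H of odd order. Then the Sylow 2-subgroups of G are normal. -/
theorem result {G : Type*} [Group G] [Finite G]
    (hhom : ∀ H : Subgroup G, H ≠ ⊥ → ¬ 2 ∣ Nat.card ↥H →
        ¬ 2 ∣ (Subgroup.centralizer (H : Set G)).relIndex (Subgroup.normalizer (H : Set G))) (P : Sylow 2 G) :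
    (P : Subgroup G).Normal := by
  refine Cfsg.Agent.H24.sylow_two_normal_of_no_inversion ?_ P
  intro t y hy hty
  by_contra hy1
  have h2 : t ∈ Subgroup.normalizer ((Subgroup.zpowers y : Subgroup G) : Set G) := by
    rw [Subgroup.mem_normalizer_iff]
    intro z
    constructor
    · rintro ⟨k, rfl⟩
      refine ⟨-k, ?_⟩
      show y ^ (-k) = t * y ^ k * t⁻¹
      rw [← conj_zpow, hty, inv_zpow, zpow_neg]
    · rintro ⟨k, hk⟩
      refine ⟨-k, ?_⟩
      have hk' : y ^ k = t * z * t⁻¹ := hk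
      show y ^ (-k) = z
      have h3 : t * y ^ (-k) * t⁻¹ = t * z * t⁻¹ := by
        rw [← hk', ← conj_zpow, hty, inv_zpow, zpow_neg, inv_inv]
      exact mul_left_cancel (mul_right_cancel h3)
  have h3 := hhom (Subgroup.zpowers y) (by rwa [Ne, Subgroup.zpowers_eq_bot])
    (by rw [Nat.card_zpowers]; rw [← even_iff_two_dvd, Nat.not_even_iff_odd]; exact hy)
  apply h3
  have h4 : t ∉ Subgroup.centralizer ((Subgroup.zpowers y : Subgroup G) : Set G) := by
    intro h4
    have h3 := Subgroup.mem_centralizer_iff.1 h4 y (Subgroup.mem_zpowers y)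
    have h4 : y⁻¹ = y := by rw [← hty, ← h3]; group
    have h5 : y ^ 2 = 1 := by
      rw [pow_two]; nth_rewrite 1 [← h4]; exact inv_mul_cancel y
    have h6 := orderOf_dvd_of_pow_eq_one h5
    rcases (Nat.dvd_prime Nat.prime_two).1 h6 with h | h
    · exact hy1 (orderOf_eq_one_iff.1 h)
    · rw [h] at hy; exact absurd hy (by decide)
  have h5 : t ^ 2 ∈ Subgroup.centralizer ((Subgroup.zpowers y : Subgroup G) : Set G) := by
    rw [Subgroup.mem_centralizer_iff]
    rintro _ ⟨k, rfl⟩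
    show y ^ k * t ^ 2 = t ^ 2 * y ^ k
    have h6 : t * y ^ k * t⁻¹ = (y ^ k)⁻¹ := by rw [← conj_zpow, hty, inv_zpow]
    have h7 : t * (y ^ k)⁻¹ * t⁻¹ = y ^ k := by
      rw [← inv_inj]
      calc (t * (y ^ k)⁻¹ * t⁻¹)⁻¹ = t * y ^ k * t⁻¹ := by group
        _ = _ := h6
    calc y ^ k * t ^ 2 = t * (y ^ k)⁻¹ * t⁻¹ * t ^ 2 := by rw [h7]
      _ = t * (t * y ^ k * t⁻¹) * t⁻¹ * t ^ 2 := by rw [h6]
      _ = t ^ 2 * y ^ k := by rw [pow_two]; group
  have hnorm : ((Subgroup.centralizer ((Subgroup.zpowers y : Subgroup G) : Set G)).subgroupOf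
      (Subgroup.normalizer ((Subgroup.zpowers y : Subgroup G) : Set G))).Normal := by
    rw [← Subgroup.normalizerMonoidHom_ker]
    infer_instance
  set N := Subgroup.normalizer ((Subgroup.zpowers y : Subgroup G) : Set G) with hN
  set C := (Subgroup.centralizer ((Subgroup.zpowers y : Subgroup G) : Set G)).subgroupOf N with hC
  have h6 : orderOf (QuotientGroup.mk (⟨t, h2⟩ : N) : N ⧸ C) = 2 := by
    rw [orderOf_eq_prime_iff]
    constructor
    · rw [← QuotientGroup.mk_pow, QuotientGroup.eq_one_iff]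
      exact h5
    · rw [Ne, QuotientGroup.eq_one_iff]
      exact h4
  have h7 : 2 ∣ Nat.card (N ⧸ C) := h6 ▸ orderOf_dvd_natCard _
  exact h7

end Cfsg.Agent.S4049
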