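import Cfsg.Statements.S4050
import Cfsg.Agent.H24.PiHom2
import Mathlib

set_option autoImplicit false
open Cfsg

namespace Cfsg.Agent.S4050

open Cfsg.Agent.H24

theorem piSub_congr {A B : Type*} [Group A] [Group B] {π : Set ℕ} (e : A ≃* B)
    (h : ∃ L : Subgroup A, ∀ x : A, x ∈ L ↔ IsPiElt π x) :
    ∃ L : Subgroup B, ∀ x : B, x ∈ L ↔ IsPiElt π x := by
  obtain ⟨L, hL⟩ := h
  refine ⟨L.comap e.symm.toMonoidHom, fun x => ?_⟩
  rw [Subgroup.mem_comap, hL]
  constructor
  · intro h1
    have h2 := h1.map e.toMonoidHom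
    simpa using h2
  · intro h1
    exact h1.map e.symm.toMonoidHom

theorem homog_subgroup {G : Type*} [Group G] {π : Set ℕ} (h : Homog π G) (S : Subgroup G) :
    Homog π S := by
  intro H hH hHp p hp hpπ x hx hxo
  have h1 : H.map S.subtype ≠ ⊥ := by
    intro h2
    rw [Subgroup.map_eq_bot_iff_of_injective _ S.subtype_injective] at h2
    exact hH h2
  have h2 : Nat.card (H.map S.subtype) = Nat.card H :=
    Subgroup.card_map_of_injective S.subtype_injective
  have h3 : (x : G) ∈ Subgroup.normalizer ((H.map S.subtype : Subgroup G) : Set G) := by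
    rw [Subgroup.mem_normalizer_iff] at hx ⊢
    intro y
    constructor
    · rintro ⟨z, hz, rfl⟩
      exact ⟨x * z * x⁻¹, (hx z).1 hz, rfl⟩
    · rintro ⟨z, hz, hzy⟩
      refine ⟨x⁻¹ * z * x, ?_, ?_⟩
      · refine (hx _).2 ?_
        have : x * (x⁻¹ * z * x) * x⁻¹ = z := by group
        rw [this]; exact hz
      · have hzy' : (z : G) = x * y * (x : G)⁻¹ := hzy
        show (x : G)⁻¹ * z * x = y
        rw [hzy']; group
  obtain ⟨k, hk⟩ := hxo
  have h4 := h (H.map S.subtype) h1 (by rw [h2]; exact hHp) p hp hpπ x h3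
    ⟨k, by rw [Subgroup.orderOf_coe, hk]⟩
  rw [Subgroup.mem_centralizer_iff] at h4 ⊢
  intro y hy
  exact Subtype.ext (h4 y ⟨y, hy, rfl⟩)

theorem isPiElt_of_card {A : Type*} [Group A] [Finite A] {π : Set ℕ} (x : A)
    (h : ∀ q : ℕ, q.Prime → q ∣ Nat.card A → q ∈ π) : IsPiElt π x :=
  fun q hq hd => h q hq (hd.trans (orderOf_dvd_natCard x))

/-- Let π be a set of primes and G a finite group. The π-elements of G (elements whose order is divisible only by primes of π) form a subgroup if and only if G is π-separable (it has a chain of normal subgroups from 1 to G with each successive index divisible only by primes in π or only by primes outside π) and N_G(H)/C_G(H) is a π'-group for every nontrivial π'-subgroup H of G. -/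
theorem result {G : Type*} [Group G] [Finite G] (π : Set ℕ)
    (hπ : ∀ p ∈ π, p.Prime) :
    (∃ K : Subgroup G, ∀ x : G, x ∈ K ↔ ∀ p : ℕ, p.Prime → p ∣ orderOf x → p ∈ π) ↔
    ((∃ (n : ℕ) (H : Fin (n + 1) → Subgroup G), H 0 = ⊥ ∧ H (Fin.last n) = ⊤ ∧ Monotone H ∧ (∀ i, (H i).Normal) ∧
      ∀ i : Fin n, (∀ q : ℕ, q.Prime → q ∣ (H i.castSucc).relIndex (H i.succ) → q ∈ π) ∨
        (∀ q : ℕ, q.Prime → q ∣ (H i.castSucc).relIndex (H i.succ) → q ∉ π)) ∧
     (∀ H : Subgroup G, H ≠ ⊥ → (∀ p : ℕ, p.Prime → p ∣ Nat.card ↥H → p ∉ π) →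
        ∀ p : ℕ, p.Prime → p ∣ (Subgroup.centralizer (H : Set G)).relIndex (Subgroup.normalizer (H : Set G)) → p ∉ π)) := by
  classical
  show (∃ K : Subgroup G, ∀ x : G, x ∈ K ↔ IsPiElt π x) ↔ _
  rw [← Cfsg.Agent.H24.homog_iff]
  constructor
  · rintro ⟨K, hK⟩
    haveI hKn : K.Normal := by
      constructor
      intro x hx g
      rw [hK] at hx ⊢
      exact hx.conj g
    have hKp : ∀ q : ℕ, q.Prime → q ∣ Nat.card K → q ∈ π := by
      intro q hq hd
      haveI : Fact q.Prime := ⟨hq⟩
      obtain ⟨y, hy⟩ := exists_prime_orderOf_dvd_card' q hd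
      exact (hK y).1 y.2 q hq (by rw [Subgroup.orderOf_coe, hy])
    have hKi : ∀ q : ℕ, q.Prime → q ∣ K.index → q ∉ π := by
      intro q hq hd hqπ
      haveI : Fact q.Prime := ⟨hq⟩
      obtain ⟨y, hy⟩ := exists_prime_orderOf_dvd_card' q (show q ∣ Nat.card (G ⧸ K) from hd)
      obtain ⟨x, rfl⟩ := QuotientGroup.mk_surjective y
      have h1 : x ^ q ∈ K := by
        rw [← QuotientGroup.eq_one_iff, QuotientGroup.mk_pow, ← hy, pow_orderOf_eq_one]
      have h2 : x ^ (q * Nat.card K) = 1 := by
        rw [pow_mul]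
        have := pow_card_eq_one' (x := (⟨_, h1⟩ : K))
        exact congrArg Subtype.val this
      have h3 : x ∈ K := by
        rw [hK]
        refine IsPiElt.of_pow_eq_one h2 ?_
        intro r hr hrd
        rcases (hr.dvd_mul).1 hrd with h4 | h4
        · rw [(Nat.prime_dvd_prime_iff_eq hr hq).1 h4]; exact hqπ
        · exact hKp r hr h4
      rw [(QuotientGroup.eq_one_iff x).2 h3, orderOf_one] at hy
      exact hq.one_lt.ne hy
    refine ⟨⟨2, ![⊥, K, ⊤], rfl, rfl, ?_, ?_, ?_⟩, ?_⟩
    · intro i j hij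
      fin_cases i <;> fin_cases j <;> simp_all
    · intro i
      fin_cases i
      · exact (inferInstance : (⊥ : Subgroup G).Normal)
      · exact hKn
      · exact (inferInstance : (⊤ : Subgroup G).Normal)
    · intro i
      fin_cases i
      · left
        intro q hq hd
        have hd' : q ∣ (⊥ : Subgroup G).relIndex K := hd
        rw [Subgroup.relIndex_bot_left] at hd'
        exact hKp q hq hd'
      · right
        intro q hq hd
        have hd' : q ∣ K.relIndex ⊤ := hd
        rw [Subgroup.relIndex_top_right] at hd'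
        exact hKi q hq hd'
    · intro H hH hHp p hp hpπ x hx hxo
      have hxK : x ∈ K := by
        rw [hK]
        obtain ⟨k, hk⟩ := hxo
        intro q hq hd
        rw [hk] at hd
        rw [(Nat.prime_dvd_prime_iff_eq hq hp).1 (hq.dvd_of_dvd_pow hd)]; exact hpπ
      rw [Subgroup.mem_centralizer_iff]
      intro y hy
      have h1 : x * y * x⁻¹ ∈ H := (Subgroup.mem_normalizer_iff.1 hx y).1 hy
      have h2 : x * y * x⁻¹ * y⁻¹ ∈ H := H.mul_mem h1 (H.inv_mem hy)
      have h3 : x * y * x⁻¹ * y⁻¹ ∈ K := by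
        have h4 : x * y * x⁻¹ * y⁻¹ = x * (y * x⁻¹ * y⁻¹) := by group
        rw [h4]
        exact K.mul_mem hxK (hKn.conj_mem _ (K.inv_mem hxK) y)
      have h4 : orderOf (x * y * x⁻¹ * y⁻¹) = 1 := by
        by_contra hne
        obtain ⟨q, hq, hqd⟩ := Nat.exists_prime_and_dvd hne
        refine hHp q hq (hqd.trans ?_) ((hK _).1 h3 q hq hqd)
        have := orderOf_dvd_natCard (⟨_, h2⟩ : H)
        rwa [← Subgroup.orderOf_coe] at this
      rw [orderOf_eq_one_iff] at h4
      calc y * x = (x * y * x⁻¹ * y⁻¹) * (y * x) := by rw [h4, one_mul]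
        _ = x * y := by group
  · rintro ⟨⟨n, H, hH0, hHn, hmono, hnorm, hidx⟩, hhom⟩
    have key : ∀ i : Fin (n + 1), ∃ L : Subgroup (H i), ∀ x : H i, x ∈ L ↔ IsPiElt π x := by
      intro i
      induction i using Fin.induction with
      | zero =>
        refine ⟨⊥, fun x => ?_⟩
        have hx : x = 1 := by
          apply Subtype.ext
          have h5 : ∀ y : G, y ∈ H 0 → y = 1 := by
            intro y hy
            rw [hH0] at hy
            exact Subgroup.mem_bot.1 hy
          exact h5 x x.2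
        rw [hx]
        refine ⟨fun _ p hp hd => ?_, fun _ => Subgroup.one_mem _⟩
        rw [orderOf_one] at hd
        exact absurd (Nat.dvd_one.1 hd) hp.one_lt.ne'
      | succ i ih =>
        have hle : H i.castSucc ≤ H i.succ := hmono (Fin.castSucc_lt_succ.le)
        haveI hn1 := hnorm i.castSucc
        haveI hn2 : ((H i.castSucc).subgroupOf (H i.succ)).Normal := hn1.subgroupOf _
        refine piSub_of_extension (homog_subgroup hhom (H i.succ))
          ((H i.castSucc).subgroupOf (H i.succ)) ?_ ?_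
        · exact piSub_congr (Subgroup.subgroupOfEquivOfLe hle).symm ih
        · rcases hidx i with h1 | h1
          · exact ⟨⊤, fun x => ⟨fun _ => isPiElt_of_card x h1, fun _ => Subgroup.mem_top x⟩⟩
          · refine ⟨⊥, fun x => ⟨?_, ?_⟩⟩
            · intro hx p hp hd
              rw [Subgroup.mem_bot.1 hx, orderOf_one] at hd
              exact absurd (Nat.dvd_one.1 hd) hp.one_lt.ne'
            · intro hx
              rw [Subgroup.mem_bot, ← orderOf_eq_one_iff]
              by_contra hne
              obtain ⟨q, hq, hqd⟩ := Nat.exists_prime_and_dvd hne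
              exact h1 q hq (hqd.trans (orderOf_dvd_natCard x)) (hx q hq hqd)
    have h1 := key (Fin.last n)
    rw [hHn] at h1
    exact piSub_congr Subgroup.topEquiv h1

end Cfsg.Agent.S4050
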