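import Cfsg.Statements.S4056
import Cfsg.Agent.H24.ClassTwo

set_option autoImplicit false
open Cfsg

namespace Cfsg.Agent.S4056

/-- In a finite 2-group of nilpotency class at most 2 and exponent dividing 4, the Frattini subgroup lies in the centre and is elementary abelian. -/
theorem result {P : Type*} [Group P] [Finite P] (hP : IsPGroup 2 P)
    (hcl : Group.nilpotencyClass P ≤ 2) (hexp : Monoid.exponent P ∣ 4) :
    frattini P ≤ Subgroup.center P ∧ Cfsg.IsElementaryAbelian 2 (frattini P) := by
  haveI : Fact (Nat.Prime 2) := ⟨Nat.prime_two⟩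
  haveI := hP.isNilpotent
  have h1 := Cfsg.Agent.H24.frattini_le_centP_two (fun x y z => Cfsg.Agent.H24.class_two_commute hcl x y z)
    (fun x => by
      obtain ⟨k, hk⟩ := hexp
      rw [hk, pow_mul, Monoid.pow_exponent_eq_one, one_pow])
  refine ⟨fun x hx => (h1 hx).1, ⟨⟨fun a b => ?_⟩⟩, fun x hx => (h1 hx).2⟩
  apply Subtype.ext
  exact (Subgroup.mem_center_iff.1 (h1 b.2).1) a

end Cfsg.Agent.S4056
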