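import Cfsg.Statements.S4058
import Cfsg.Agent.H24.LinAct
import Cfsg.Agent.H24.AutFrat
import Cfsg.Agent.H13.Perm

set_option autoImplicit false
open Cfsg

namespace Cfsg.Agent.S4058

open Cfsg Cfsg.Agent.H3 Cfsg.Agent.H24

/-- linear characters with values `±1` -/
def linTwo (G : Type*) [Group G] : Subgroup (G →* ℂˣ) where
  carrier := {l | ∀ g, l g * l g = 1}
  one_mem' := fun g => by simp
  mul_mem' := by
    intro a b ha hb g
    rw [MonoidHom.mul_apply, mul_mul_mul_comm, ha g, hb g, one_mul]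
  inv_mem' := by
    intro a ha g
    rw [MonoidHom.inv_apply, ← mul_inv, ha g, inv_one]

theorem mem_linTwo {G : Type*} [Group G] {l : G →* ℂˣ} : l ∈ linTwo G ↔ ∀ g, l g * l g = 1 := Iff.rfl

theorem finite_hom (G : Type*) [Group G] [Finite G] : Finite (G →* ℂˣ) := by
  apply Nat.finite_of_card_ne_zero
  rw [card_hom_units]
  exact Subgroup.index_ne_zero_of_finite

theorem card_linTwo {G : Type*} [Group G] [Finite G] (hG : IsPGroup 2 G) :
    Nat.card (G ⧸ frattini G) ≤ Nat.card (linTwo G) := by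
  haveI h2 : Fact (Nat.Prime 2) := ⟨Nat.prime_two⟩
  haveI := finite_hom G
  have hV : ∀ a b : G ⧸ frattini G, a * b = b * a := fun a b =>
    ((Subgroup.Normal.quotient_commutative_iff_commutator_le (N := frattini G)).2
      (Cfsg.Agent.H2.commutator_le_frattini hG)).is_comm.comm a b
  have hV2 : ∀ a : G ⧸ frattini G, a * a = 1 := by
    intro a
    obtain ⟨a, rfl⟩ := QuotientGroup.mk_surjective a
    rw [← QuotientGroup.mk_mul, QuotientGroup.eq_one_iff, ← pow_two]
    exact Cfsg.Agent.H2.pow_mem_frattini hG a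
  have hcard : Nat.card ((G ⧸ frattini G) →* ℂˣ) = Nat.card (G ⧸ frattini G) := by
    rw [card_hom_units]
    have h1 : _root_.commutator (G ⧸ frattini G) = ⊥ := by
      rw [eq_bot_iff, _root_.commutator_def, Subgroup.commutator_le]
      intro a _ b _
      rw [Subgroup.mem_bot, commutatorElement_eq_one_iff_mul_comm]
      exact hV a b
    rw [h1, Subgroup.index_bot]
  rw [← hcard]
  refine Nat.card_le_card_of_injective (fun μ : (G ⧸ frattini G) →* ℂˣ =>
    (⟨μ.comp (QuotientGroup.mk' (frattini G)), fun g => by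
      rw [MonoidHom.comp_apply, ← map_mul, hV2, map_one]⟩ : linTwo G)) ?_
  intro μ ν h
  have h1 : μ.comp (QuotientGroup.mk' (frattini G)) = ν.comp (QuotientGroup.mk' (frattini G)) :=
    congrArg Subtype.val h
  refine MonoidHom.ext fun v => ?_
  obtain ⟨v, rfl⟩ := QuotientGroup.mk_surjective v
  exact DFunLike.congr_fun h1 v

/-- Let G be a finite 2-group with #(G/Φ(G)) ≥ 2^(2k+1). Then the number of elements x of G with x² = 1 is divisible by 2^(k+1). -/
theorem result {G : Type*} [Group G] [Finite G] (hG : IsPGroup 2 G) (k : ℕ)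
    (hgen : 2 ^ (2 * k + 1) ≤ Nat.card (G ⧸ frattini G)) :
    2 ^ (k + 1) ∣ Nat.card {x : G // x ^ 2 = 1} := by
  classical
  haveI h2 : Fact (Nat.Prime 2) := ⟨Nat.prime_two⟩
  haveI := Fintype.ofFinite G
  haveI := finite_hom G
  haveI : Finite (IrrCharacter G) := inferInstance
  haveI := Fintype.ofFinite (IrrCharacter G)
  obtain ⟨t, ht⟩ : ∃ t : ℕ, Nat.card (linTwo G) = 2 ^ t := by
    rw [← IsPGroup.iff_card]
    intro l
    refine ⟨1, Subtype.ext ?_⟩
    apply MonoidHom.ext
    intro g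
    show ((l : G →* ℂˣ) ^ 2 ^ 1) g = 1
    rw [pow_one, pow_two]
    exact l.2 g
  have ht2 : 2 * k + 1 ≤ t := by
    have h3 := hgen.trans (card_linTwo hG)
    rw [ht] at h3
    exact (Nat.pow_le_pow_iff_right one_lt_two).1 h3
  have hn : ∀ χ : IrrCharacter G, ∃ n : ℤ, fsInd (χ : G → ℂ) = n := by
    intro χ
    obtain ⟨h3, h4⟩ := frobenius_schur χ.2
    by_cases h5 : (χ : G → ℂ) = fun g => (starRingEnd ℂ) ((χ : G → ℂ) g)
    · rcases h4 h5 with h6 | h6
      · exact ⟨1, by rw [h6]; simp⟩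
      · exact ⟨-1, by rw [h6]; simp⟩
    · exact ⟨0, by rw [h3 h5]; simp⟩
  choose n hn using hn
  choose d hd using fun χ : IrrCharacter G => char_one_eq_nat (irr_isChar χ.2)
  have hd' : ∀ χ : IrrCharacter G, (χ : G → ℂ) 1 = d χ := hd
  let f : IrrCharacter G → ℤ := fun χ => n χ * d χ
  have hsum : (Nat.card {x : G // x ^ 2 = 1} : ℤ) = ∑ χ, f χ := by
    have h3 := card_sq_eq_one (G := G)
    have h4 : Nat.card {s : G // s * s = 1} = Nat.card {x : G // x ^ 2 = 1} := by
      refine Nat.card_congr (Equiv.subtypeEquivRight fun s => ?_)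
      rw [pow_two]
    rw [h4] at h3
    have h5 : ((Nat.card {x : G // x ^ 2 = 1} : ℤ) : ℂ) = ((∑ χ, f χ : ℤ) : ℂ) := by
      push_cast
      rw [h3]
      refine Finset.sum_congr rfl fun χ _ => ?_
      have h6 := hn χ
      rw [fsInd] at h6
      rw [h6, hd']
      simp [f]
    exact_mod_cast h5
  have hfinv : ∀ (l : linTwo G) (χ : IrrCharacter G), f (l • χ) = f χ := by
    intro l χ
    have h3 : n (l • χ) = n χ := by
      have h4 : fsInd ((l • χ : IrrCharacter G) : G → ℂ) = fsInd (χ : G → ℂ) := by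
        rw [fsInd, fsInd]
        congr 1
        refine Finset.sum_congr rfl fun s _ => ?_
        show (((l : G →* ℂˣ) (s * s) : ℂˣ) : ℂ) * (χ : G → ℂ) (s * s) = (χ : G → ℂ) (s * s)
        rw [map_mul, l.2 s]; simp
      rw [hn, hn] at h4
      exact_mod_cast h4
    have h4 : d (l • χ) = d χ := by
      have h5 : ((l • χ : IrrCharacter G) : G → ℂ) 1 = (χ : G → ℂ) 1 := by
        show (((l : G →* ℂˣ) 1 : ℂˣ) : ℂ) * (χ : G → ℂ) 1 = (χ : G → ℂ) 1
        rw [map_one]; simp
      rw [hd', hd'] at h5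
      exact_mod_cast h5
    show n (l • χ) * d (l • χ) = n χ * d χ
    rw [h3, h4]
  have key : ((2 ^ (k + 1) : ℕ) : ℤ) ∣ ∑ χ, f χ := by
    apply dvd_sum_of_orbits (L := linTwo G) f hfinv
    intro χ
    have h3 := Cfsg.Agent.H13.card_orbit_mul_card_stabilizer (G := linTwo G) χ
    obtain ⟨s, hs1, hs⟩ : ∃ s, s ≤ t ∧ Nat.card (MulAction.stabilizer (linTwo G) χ) = 2 ^ s := by
      have h4 : Nat.card (MulAction.stabilizer (linTwo G) χ) ∣ 2 ^ t := by
        rw [← ht]; exact Subgroup.card_subgroup_dvd_card _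
      exact (Nat.dvd_prime_pow Nat.prime_two).1 h4
    have horb : Nat.card (MulAction.orbit (linTwo G) χ) = 2 ^ (t - s) := by
      rw [hs, ht] at h3
      have h5 : 2 ^ t = 2 ^ (t - s) * 2 ^ s := by rw [← pow_add, Nat.sub_add_cancel hs1]
      rw [h5] at h3
      exact Nat.eq_of_mul_eq_mul_right (pow_pos two_pos s) h3
    obtain ⟨N, hN⟩ := IsPGroup.iff_card.1 hG
    obtain ⟨e, -, he⟩ : ∃ e, e ≤ N ∧ d χ = 2 ^ e := by
      have h4 := irr_degree_dvd_card χ.2 (hd' χ)
      rw [hN] at h4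
      exact (Nat.dvd_prime_pow Nat.prime_two).1 h4
    have hse : s ≤ 2 * e := by
      have h5 := card_stab_le χ.2 (hd' χ) ((MulAction.stabilizer (linTwo G) χ).map (linTwo G).subtype)
        (by
          rintro _ ⟨l, hl, rfl⟩ g
          have h6 : l • χ = χ := hl
          have h7 := congrArg (fun ψ : IrrCharacter G => (ψ : G → ℂ) g) h6
          exact h7)
      rw [Subgroup.card_map_of_injective (linTwo G).subtype_injective, hs, he, ← pow_mul,
        mul_comm e 2] at h5
      exact (Nat.pow_le_pow_iff_right one_lt_two).1 h5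
    rw [horb]
    have h8 : ((2 ^ (t - s) : ℕ) : ℤ) * f χ = ((2 ^ (t - s) * d χ : ℕ) : ℤ) * n χ := by
      show ((2 ^ (t - s) : ℕ) : ℤ) * (n χ * d χ) = _
      push_cast; ring
    rw [h8, he, ← pow_add]
    apply Dvd.dvd.mul_right
    rw [Int.natCast_dvd_natCast]
    apply Nat.pow_dvd_pow
    omega
  rw [← hsum] at key
  exact_mod_cast key

end Cfsg.Agent.S4058
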