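import Cfsg.Statements.S4064
import Cfsg.Agent.H24.TIG
import Cfsg.Agent.FT
import Cfsg.Agent.H15.SzSub1

set_option autoImplicit false
open Cfsg

namespace Cfsg.Agent.S4064

open Subgroup Cfsg.Agent.H24

/-- the normal case -/
theorem normal_case {G : Type*} [Group G] [Finite G]
    (hTI : ∀ x : G, Cfsg.IsTISubset (Subgroup.centralizer ({x} : Set G) : Set G)) {z : G} (hz1 : z ≠ 1)
    (hH : HTI (centralizer ({z} : Set G))) (hn : normalizer (centralizer ({z} : Set G) : Set G) = ⊤)
    (htop : centralizer ({z} : Set G) ≠ ⊤) :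
    ∃ H : Subgroup G, Cfsg.IsFrobeniusComplement H ∧
      (IsCyclic H ∨ ∃ m : ℕ, Odd m ∧ Nonempty (H ≃* Multiplicative (ZMod m) × QuaternionGroup 2)) := by
  haveI hnor : (centralizer ({z} : Set G)).Normal := normalizer_eq_top_iff.mp hn
  set K := centralizer ({z} : Set G) with hK
  obtain ⟨D, hD⟩ := exists_right_complement'_of_coprime hH.cop
  have hinf : K ⊓ D = ⊥ := hD.isCompl.inf_eq_bot
  have hDF : Cfsg.IsFrobeniusComplement D := by
    refine ⟨?_, ?_, ?_⟩
    · rintro rfl
      apply htop
      have := hD.isCompl.sup_eq_top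
      rwa [sup_bot_eq] at this
    · rintro rfl
      apply hH.ne
      rwa [inf_top_eq] at hinf
    · intro g hg
      rw [eq_bot_iff]
      rintro x ⟨hxD, hx⟩
      rw [mem_bot]
      by_contra hx1
      have hx' : g⁻¹ * x * g ∈ D := by
        have h1 := mem_pointwise_smul_iff_inv_smul_mem.mp hx
        simpa [MulAut.smul_def] using h1
      -- write `g = k d`
      have hgtop : g ∈ (K ⊔ D : Subgroup G) := by rw [hD.isCompl.sup_eq_top]; exact mem_top g
      obtain ⟨k, hk, d, hd, hkd⟩ := (mem_sup_of_normal_left).mp hgtop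
      have hk1 : k ≠ 1 := by
        rintro rfl
        apply hg
        rw [← hkd, one_mul]; exact hd
      have h1 : k⁻¹ * x * k ∈ D := by
        have e : k⁻¹ * x * k = d * (g⁻¹ * x * g) * d⁻¹ := by rw [← hkd]; group
        rw [e]
        exact mul_mem (mul_mem hd hx') (inv_mem hd)
      have h2 : x⁻¹ * (k⁻¹ * x * k) ∈ K ⊓ D := by
        refine mem_inf.mpr ⟨?_, mul_mem (inv_mem hxD) h1⟩
        have e : x⁻¹ * (k⁻¹ * x * k) = (x⁻¹ * k⁻¹ * x⁻¹⁻¹) * k := by group
        rw [e]
        exact mul_mem (hnor.conj_mem _ (inv_mem hk) _) hk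
      rw [hinf, mem_bot, inv_mul_eq_one] at h2
      have h3 : x * k = k * x := by
        have : k * x = k * (k⁻¹ * x * k) := by rw [← h2]
        rw [this]; group
      have h4 : x ∈ K ⊓ D := ⟨hH.cen k hk hk1 x h3, hxD⟩
      rw [hinf, mem_bot] at h4
      exact hx1 h4
  refine ⟨D, hDF, ?_⟩
  have hc := H1.frob_compl_center hDF
  obtain ⟨w, hw, hw1⟩ := (bot_or_exists_ne_one _).resolve_left hc
  have hw1' : (w : G) ≠ 1 := fun e => hw1 (Subtype.ext e)
  have hDw : D ≤ centralizer ({(w : G)} : Set G) := by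
    intro g hg
    rw [mem_centralizer_singleton_iff]
    exact congrArg Subtype.val (mem_center_iff.mp hw ⟨g, hg⟩)
  exact frob_eng hDF ((ti_eng hTI hw1').mono hDw)

/-- Let G be a finite group in which the centralizer of every element meets each of its conjugates by elements outside its normalizer trivially. Then G is nilpotent; or G is a Frobenius group with a complement that is cyclic or isomorphic to the direct product of a cyclic group of odd order and the quaternion group of order 8; or G is isomorphic to PSL₂(2ⁿ) for some n ≥ 2. -/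
theorem result {G : Type*} [Group G] [Finite G] (hTI : ∀ x : G, Cfsg.IsTISubset (Subgroup.centralizer ({x} : Set G) : Set G)) :
    Group.IsNilpotent G ∨
    (∃ H : Subgroup G, Cfsg.IsFrobeniusComplement H ∧
      (IsCyclic H ∨ ∃ m : ℕ, Odd m ∧ Nonempty (H ≃* Multiplicative (ZMod m) × QuaternionGroup 2))) ∨
    (∃ n : ℕ, 2 ≤ n ∧ Nonempty (G ≃* Matrix.ProjectiveSpecialLinearGroup (Fin 2) (GaloisField 2 n))) := by
  classical
  by_cases hnil : Group.IsNilpotent G
  · exact Or.inl hnil
  right
  have hcn : ∀ z : G, z ≠ 1 → centralizer ({z} : Set G) ≠ ⊤ := by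
    intro z hz1 htop
    apply hnil
    have h1 := (ti_eng hTI hz1).nil
    rw [htop] at h1
    exact Group.nilpotent_of_mulEquiv (Subgroup.topEquiv (G := G))
  by_cases h2 : 2 ∣ Nat.card G
  · haveI := Fact.mk Nat.prime_two
    obtain ⟨u, P, huo, huP, hPK, hH⟩ := ti_hti hTI h2
    have hu1 : u ≠ 1 := by
      intro e; rw [e, orderOf_one] at huo; omega
    have hu2 : u * u = 1 := by rw [← pow_two, ← huo]; exact pow_orderOf_eq_one _
    by_cases hN : normalizer (centralizer ({u} : Set G) : Set G) = centralizer ({u} : Set G)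
    · left
      have hF : Cfsg.IsFrobeniusComplement (centralizer ({u} : Set G)) := by
        refine ⟨hH.ne, hcn u hu1, ?_⟩
        intro g hg
        rw [eq_bot_iff]
        rintro x ⟨hx1, hx2⟩
        rw [mem_bot]
        have h3 := mem_pointwise_smul_iff_inv_smul_mem.mp hx2
        have h4 : g⁻¹ * x * g⁻¹⁻¹ ∈ centralizer ({u} : Set G) := by
          simpa [MulAut.smul_def] using h3
        apply hTI u g⁻¹ _ x hx1 h4
        rw [hN]
        intro hc
        exact hg (by simpa using inv_mem hc)
      exact ⟨_, hF, frob_eng hF (ti_eng hTI hu1)⟩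
    · by_cases hex : ∃ v : G, v ≠ 1 ∧ v * v = 1 ∧ u * v ≠ v * u
      · right
        have hEv : Ev G u := ⟨hH, hu1, hu2, hex, hN⟩
        exact hEv.final hTI
      · left
        push Not at hex
        apply normal_case hTI hu1 hH _ (hcn u hu1)
        rw [eq_top_iff]
        intro g _
        apply hH.ti g u (mem_centralizer_singleton_iff.mpr rfl) hu1
        rw [mem_centralizer_singleton_iff]
        symm
        apply hex
        · exact H9.BSW.conj_ne_one' hu1
        · have : g * u * g⁻¹ * (g * u * g⁻¹) = g * (u * u) * g⁻¹ := by group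
          rw [this, hu2]; group
  · left
    have hodd : Odd (Nat.card G) := by
      rw [← Nat.not_even_iff_odd, even_iff_two_dvd]; exact h2
    have hsol : Group.IsSolvable G := FT.odd_order hodd
    haveI : Nontrivial G := by
      by_contra hc
      rw [not_nontrivial_iff_subsingleton] at hc
      apply hnil
      infer_instance
    obtain ⟨A, hA, hA1, hAc⟩ := H15.Suz.exists_abelian_normal (G := G)
    obtain ⟨a₀, ha₀, ha₀1⟩ := (bot_or_exists_ne_one A).resolve_left hA1
    obtain ⟨p, k, hp, hk⟩ := H18.exists_prime_power_ne_one ha₀1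
    haveI := Fact.mk hp
    set a := a₀ ^ k with ha
    have haA : a ∈ A := pow_mem ha₀ k
    have ha1 : a ≠ 1 := by
      intro e; rw [e, orderOf_one] at hk; exact hp.one_lt.ne hk
    have hpd : p ∣ Nat.card G := by
      rw [← hk]; exact orderOf_dvd_natCard a
    obtain ⟨z, P, hzo, hzP, hPK, hH⟩ := ti_hti hTI hpd
    have hz1 : z ≠ 1 := by
      intro e; rw [e, orderOf_one] at hzo; exact hp.one_lt.ne hzo
    obtain ⟨Q, hQ⟩ := (H18.isPGroup_zpowers_of_orderOf hk).exists_le_sylow
    obtain ⟨g, hg⟩ := MulAction.exists_smul_eq G Q P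
    have haP : g * a * g⁻¹ ∈ (P : Subgroup G) := by
      rw [← hg]
      have h1 : a ∈ (Q : Subgroup G) := hQ (mem_zpowers a)
      have h2 := Subgroup.smul_mem_pointwise_smul a (MulAut.conj g) _ h1
      exact h2
    have ha'A : g * a * g⁻¹ ∈ A := hA.conj_mem _ haA g
    have ha'1 : g * a * g⁻¹ ≠ 1 := H9.BSW.conj_ne_one' ha1
    apply normal_case hTI hz1 hH _ (hcn z hz1)
    rw [eq_top_iff]
    intro h _
    apply hH.ti h (g * a * g⁻¹) (hPK haP) ha'1
    apply hH.cen _ (hPK haP) ha'1
    exact hAc _ (hA.conj_mem _ ha'A h) _ ha'A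

end Cfsg.Agent.S4064
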