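import Cfsg.Statements.S4065
import Cfsg.Agent.H16.SL2Class

set_option autoImplicit false
set_option linter.all false
open Cfsg

namespace Cfsg.Agent.S4065

open Subgroup in
theorem ti_of_ct {G : Type*} [Group G] (h : ∀ x : G, x ≠ 1 → ∀ y z : G, y * x = x * y → z * x = x * z → y * z = z * y)
    (x : G) : Cfsg.IsTISubset (centralizer ({x} : Set G) : Set G) := by
  intro g hg y hy hgy
  by_contra hy1
  apply hg
  rw [SetLike.mem_coe, mem_centralizer_singleton_iff] at hy hgy
  by_cases hx : x = 1
  · rw [mem_normalizer_iff]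
    intro z
    rw [hx]
    simp [mem_centralizer_singleton_iff]
  -- `C(y) = C(x)`
  have key : ∀ w : G, w ≠ 1 → w * x = x * w → ∀ z, z * x = x * z ↔ z * w = w * z := by
    intro w hw hwx z
    constructor
    · intro hz; exact h x hx z w hz hwx
    · intro hz; exact h w hw z x hz hwx.symm
  have hgy1 : g * y * g⁻¹ ≠ 1 := fun h => hy1 (by
    have : y = g⁻¹ * (g * y * g⁻¹) * g := by group
    rw [this, h]; group)
  rw [mem_normalizer_iff]
  intro z
  show z ∈ centralizer ({x} : Set G) ↔ g * z * g⁻¹ ∈ centralizer ({x} : Set G)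
  rw [mem_centralizer_singleton_iff, mem_centralizer_singleton_iff, key y hy1 hy z, key _ hgy1 hgy (g * z * g⁻¹)]
  constructor
  · intro hz
    calc g * z * g⁻¹ * (g * y * g⁻¹) = g * (z * y) * g⁻¹ := by group
      _ = g * (y * z) * g⁻¹ := by rw [hz]
      _ = _ := by group
  · intro hz
    have h1 : g * (z * y) * g⁻¹ = g * (y * z) * g⁻¹ := by
      calc g * (z * y) * g⁻¹ = g * z * g⁻¹ * (g * y * g⁻¹) := by group
        _ = g * y * g⁻¹ * (g * z * g⁻¹) := hz
        _ = _ := by group
    exact mul_left_cancel (mul_right_cancel h1)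


/-- Let F be a finite field with 2ⁿ elements, n ≥ 2. In PSL₂(F) the centralizer of every element meets each of its conjugates by elements outside its normalizer trivially. -/
theorem result (n : ℕ) (hn : 2 ≤ n)
    (x : Matrix.ProjectiveSpecialLinearGroup (Fin 2) (GaloisField 2 n)) :
    Cfsg.IsTISubset (Subgroup.centralizer ({x} : Set (Matrix.ProjectiveSpecialLinearGroup (Fin 2) (GaloisField 2 n))) :
      Set (Matrix.ProjectiveSpecialLinearGroup (Fin 2) (GaloisField 2 n))) := by
  classical
  set F := GaloisField 2 n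
  have hscal : ∀ A : Matrix.SpecialLinearGroup (Fin 2) F, Cfsg.Agent.H16.IsScal (A : Matrix (Fin 2) (Fin 2) F) → A = 1 := by
    intro A hA
    obtain ⟨h1, h2, h3⟩ := hA
    have hdet := A.det_coe
    rw [Matrix.det_fin_two, h1, h2, ← h3] at hdet
    have h4 : (A 0 0 - 1) ^ 2 = 0 := by
      rw [sub_sq, one_pow, mul_one, pow_two]
      have h5 : (2 : F) = 0 := CharTwo.two_eq_zero
      rw [h5, zero_mul, sub_zero]
      have h6 : (A 0 0 * A 0 0 : F) = 1 := by linear_combination hdet
      rw [h6]
      have : (1 : F) + 1 = 2 := by norm_num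
      rw [this, h5]
    have h5 : A 0 0 = 1 := by
      have := pow_eq_zero_iff (two_ne_zero) |>.1 h4
      linear_combination this
    ext i j
    fin_cases i <;> fin_cases j <;> simp [h1, h2, ← h3, h5]
  have hZ1 : ∀ A ∈ Subgroup.center (Matrix.SpecialLinearGroup (Fin 2) F), A = 1 := by
    intro A hA
    rw [Matrix.SpecialLinearGroup.mem_center_iff] at hA
    obtain ⟨r, -, hr⟩ := hA
    apply hscal
    refine ⟨?_, ?_, ?_⟩ <;> rw [← hr] <;> simp
  have hinj : ∀ A B : Matrix.SpecialLinearGroup (Fin 2) F,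
      (QuotientGroup.mk A : Matrix.ProjectiveSpecialLinearGroup (Fin 2) F) = QuotientGroup.mk B → A = B := by
    intro A B h
    rw [QuotientGroup.eq] at h
    have := hZ1 _ h
    rw [inv_mul_eq_one] at this
    exact this
  apply ti_of_ct
  intro x hx y z hyx hzx
  induction x using QuotientGroup.induction_on with | _ A => ?_
  induction y using QuotientGroup.induction_on with | _ B => ?_
  induction z using QuotientGroup.induction_on with | _ C => ?_
  have hBA : B * A = A * B := hinj _ _ hyx
  have hCA : C * A = A * C := hinj _ _ hzx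
  have hA1 : A ≠ 1 := by rintro rfl; exact hx rfl
  have hAs : ¬ Cfsg.Agent.H16.IsScal (A : Matrix (Fin 2) (Fin 2) F) := fun h => hA1 (hscal A h)
  obtain ⟨a, b, hab⟩ := Cfsg.Agent.H16.commute_nonscalar hAs (congrArg Subtype.val hBA).symm
  obtain ⟨c, d, hcd⟩ := Cfsg.Agent.H16.commute_nonscalar hAs (congrArg Subtype.val hCA).symm
  have : B * C = C * B := by
    apply Subtype.ext
    show (B : Matrix (Fin 2) (Fin 2) F) * (C : Matrix (Fin 2) (Fin 2) F) = (C : Matrix (Fin 2) (Fin 2) F) * (B : Matrix (Fin 2) (Fin 2) F)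
    rw [hab, hcd]
    simp only [add_mul, mul_add, Matrix.smul_mul, Matrix.mul_smul, one_mul, mul_one, smul_add, smul_smul]
    rw [mul_comm c a, mul_comm d a, mul_comm c b, mul_comm d b]
    abel
  show (QuotientGroup.mk (B * C) : Matrix.ProjectiveSpecialLinearGroup (Fin 2) F) = QuotientGroup.mk (C * B)
  rw [this]

end Cfsg.Agent.S4065
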