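import Cfsg.Statements.S4066
import Cfsg.Agent.H24.Engel
import Cfsg.Agent.H24.ClassSize2

set_option autoImplicit false
open Cfsg

namespace Cfsg.Agent.S4066

/-- Let G be a finite group in which the centralizer of every element meets each of its conjugates by elements outside its normalizer trivially. Then any two distinct Sylow p-subgroups of G, for any prime p, intersect trivially. -/
theorem result {G : Type*} [Group G] [Finite G] (hTI : ∀ x : G, Cfsg.IsTISubset (Subgroup.centralizer ({x} : Set G) : Set G))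
    {p : ℕ} [Fact p.Prime] (P Q : Sylow p G) (hPQ : P ≠ Q) : (P : Subgroup G) ⊓ (Q : Subgroup G) = ⊥ := by
  classical
  by_contra hne
  obtain ⟨⟨x, hx⟩, hx1⟩ := Subgroup.ne_bot_iff_exists_ne_one.1 hne
  obtain ⟨hxP, hxQ⟩ := Subgroup.mem_inf.1 hx
  have hx1' : x ≠ 1 := fun h => hx1 (Subtype.ext h)
  have hPne : (P : Subgroup G) ≠ ⊥ := fun h => hx1' (by rw [h] at hxP; exact Subgroup.mem_bot.1 hxP)
  have hQne : (Q : Subgroup G) ≠ ⊥ := fun h => hx1' (by rw [h] at hxQ; exact Subgroup.mem_bot.1 hxQ)
  obtain ⟨z, hz, hz1, hzc⟩ := Cfsg.Agent.H24.exists_ne_one_mem_center_of_isPGroup (p := p)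
    (P : Subgroup G) P.isPGroup' hPne
  obtain ⟨w, hw, hw1, hwc⟩ := Cfsg.Agent.H24.exists_ne_one_mem_center_of_isPGroup (p := p)
    (Q : Subgroup G) Q.isPGroup' hQne
  set C := Subgroup.centralizer ({z} : Set G) with hC
  have hPC : (P : Subgroup G) ≤ C := fun y hy =>
    Subgroup.mem_centralizer_singleton_iff.2 (hzc y hy)
  -- anything commuting with a nontrivial element of `C` normalizes `C`
  have key1 : ∀ a : G, a ≠ 1 → a ∈ C → ∀ y : G, y * a = a * y →
      y ∈ Subgroup.normalizer (C : Set G) := by
    intro a ha1 ha y hy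
    by_contra hn
    apply ha1
    refine hTI z y hn a ha ?_
    have : y * a * y⁻¹ = a := by rw [hy]; group
    rw [this]; exact ha
  have hwN : w ∈ Subgroup.normalizer (C : Set G) :=
    key1 x hx1' (hPC hxP) w (hwc x hxQ).symm
  have hwC : w ∈ C := Cfsg.Agent.H24.mem_of_normalizer_of_sylow_le P C hPC hwN
    (Cfsg.Agent.H24.exists_orderOf_eq_pow_of_mem Q.isPGroup' hw)
  have hQC : (Q : Subgroup G) ≤ C := by
    intro y hy
    exact Cfsg.Agent.H24.mem_of_normalizer_of_sylow_le P C hPC (key1 w hw1 hwC y (hwc y hy))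
      (Cfsg.Agent.H24.exists_orderOf_eq_pow_of_mem Q.isPGroup' hy)
  have hnil : Group.IsNilpotent C := by
    apply Cfsg.Agent.H24.isNilpotent_of_commute_conj
    intro a g
    have hg : (g : G) * z = z * g := Subgroup.mem_centralizer_singleton_iff.1 g.2
    have ha : (a : G) * z = z * a := Subgroup.mem_centralizer_singleton_iff.1 a.2
    have h1 : (g : G) ∈ Subgroup.normalizer
        ((Subgroup.centralizer ({(a : G)} : Set G) : Set G)) := by
      by_contra hn
      apply hz1
      refine hTI a g hn z ?_ ?_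
      · exact Subgroup.mem_centralizer_singleton_iff.2 ha.symm
      · have : (g : G) * z * (g : G)⁻¹ = z := by rw [hg]; group
        rw [this]
        exact Subgroup.mem_centralizer_singleton_iff.2 ha.symm
    have h2 : (a : G) ∈ Subgroup.centralizer ({(a : G)} : Set G) :=
      Subgroup.mem_centralizer_singleton_iff.2 rfl
    have h3 := (Subgroup.mem_normalizer_iff.1 h1 (a : G)).1 h2
    have h4 := Subgroup.mem_centralizer_singleton_iff.1 h3
    exact Subtype.ext h4
  rw [Cfsg.Agent.H1.isNilpotent_iff_sylow_normal] at hnil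
  have h1 := hnil p inferInstance (P.subtype hPC)
  have h2 : P.subtype hPC = Q.subtype hQC := by
    have := Sylow.unique_of_normal (P.subtype hPC) h1
    exact Subsingleton.elim _ _
  apply hPQ
  apply Sylow.ext
  have h3 := congrArg (fun S : Sylow p C => (S : Subgroup C).map C.subtype) h2
  simp only [Sylow.coe_subtype, Subgroup.subgroupOf_map_subtype] at h3
  rwa [inf_eq_left.2 hPC, inf_eq_left.2 hQC] at h3

end Cfsg.Agent.S4066
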