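import Cfsg.Statements.S4067
import Cfsg.Agent.H14.AO3

set_option autoImplicit false
open Cfsg

namespace Cfsg.Agent.S4067

/-- Let G be a finite non-abelian group and p the least prime dividing its order. Then the automorphism group of G has at most #G/p orbits on G. -/
theorem result {G : Type*} [Group G] [Finite G] (hna : ¬ IsMulCommutative G) :
    Nat.card (MulAction.orbitRel.Quotient (MulAut G) G) ≤ Nat.card G / (Nat.card G).minFac := by
  classical
  have hna' : ∃ x y : G, x * y ≠ y * x := by
    by_contra hcon
    push Not at hcon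
    exact hna ⟨⟨hcon⟩⟩
  have hn1 : Nat.card G ≠ 1 := by
    intro h1
    obtain ⟨x, y, hxy⟩ := hna'
    haveI := (Nat.card_eq_one_iff_unique.1 h1).1
    exact hxy (Subsingleton.elim _ _)
  set p := (Nat.card G).minFac with hpdef
  have hpp : p.Prime := Nat.minFac_prime hn1
  haveI := Fact.mk hpp
  have hmin : ∀ q : ℕ, q.Prime → q ∣ Nat.card G → p ≤ q := fun q hq hd => Nat.minFac_le_of_dvd hq.two_le hd
  rw [Nat.le_div_iff_mul_le hpp.pos]
  by_cases hc : Nat.card (_root_.commutator G) = p
  · obtain ⟨D⟩ := Cfsg.Agent.H14.AO.exists_C2 hmin hc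
    exact D.main hmin hna'
  · -- the commutator subgroup has order at least p + 1
    have hlt : p + 1 ≤ Nat.card (_root_.commutator G) := by
      have h1 : Nat.card (_root_.commutator G) ≠ 1 := by
        intro h1
        apply hna
        have h2 : _root_.commutator G = ⊥ := Subgroup.card_eq_one.1 h1
        refine ⟨⟨fun x y => ?_⟩⟩
        have h3 := Subgroup.commutator_mem_commutator (Subgroup.mem_top x) (Subgroup.mem_top y)
        rw [show ⁅(⊤ : Subgroup G), ⊤⁆ = _root_.commutator G from rfl, h2, Subgroup.mem_bot] at h3
        exact commutatorElement_eq_one_iff_mul_comm.1 h3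
      have h2 := hmin _ (Nat.minFac_prime h1) ((Nat.minFac_dvd _).trans (Subgroup.card_subgroup_dvd_card _))
      have h3 := h2.trans (Nat.minFac_le Nat.card_pos)
      omega
    have hk := Cfsg.Agent.H24.card_classes_bound (H := G) (p := p) hmin
    have hidx := Subgroup.card_mul_index (_root_.commutator G)
    have hle : Nat.card (MulAction.orbitRel.Quotient (MulAut G) G) ≤ Nat.card (ConjClasses G) := by
      haveI : Finite (ConjClasses G) := Quotient.finite _
      let f : ConjClasses G → MulAction.orbitRel.Quotient (MulAut G) G :=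
        Quotient.map' id (fun a b hab => by
          obtain ⟨c, hc⟩ := isConj_iff.1 (show IsConj a b from hab)
          have h1 : (MulAction.orbitRel (MulAut G) G) b a := ⟨MulAut.conj c, by
            show MulAut.conj c a = b
            rw [MulAut.conj_apply, hc]⟩
          exact Setoid.symm' _ h1)
      refine Nat.card_le_card_of_surjective f ?_
      intro q
      obtain ⟨x, rfl⟩ := Quotient.exists_rep q
      exact ⟨ConjClasses.mk x, rfl⟩
    refine (Nat.mul_le_mul_right p hle).trans ?_
    generalize Nat.card (ConjClasses G) = k at *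
    generalize (_root_.commutator G).index = i at *
    generalize Nat.card (_root_.commutator G) = c at *
    generalize Nat.card G = n at *
    have hp1 := hpp.one_lt
    clear hmin hc hle hn1 this
    clear_value p
    clear hpp hpdef
    -- (p+1) i ≤ n, p^2 k + i ≤ n + p^2 i
    have h1 : (p + 1) * i ≤ n := by rw [← hidx]; exact Nat.mul_le_mul_right _ hlt
    have h2 : p * (k * p) + i ≤ n + p * p * i := by
      calc p * (k * p) + i = p ^ 2 * k + i := by ring
        _ ≤ _ := hk
        _ = _ := by ring
    obtain ⟨q, rfl⟩ : ∃ q, p = q + 1 := ⟨p - 1, by omega⟩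
    -- p² i - i = (p-1)(p+1) i ≤ (p-1) n
    have h3 : q * ((q + 1 + 1) * i) ≤ q * n := Nat.mul_le_mul_left _ h1
    have h4 : (q + 1) * (k * (q + 1)) ≤ (q + 1) * n := by nlinarith
    exact Nat.le_of_mul_le_mul_left h4 (by omega)

end Cfsg.Agent.S4067
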