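import Cfsg.Statements.S4068
import Cfsg.Agent.S1230
import Cfsg.Agent.S0252
import Cfsg.Agent.H24.FTUse
import Cfsg.Agent.H3.BurnsidePQ
import Cfsg.Agent.H20.TwoComp
import Cfsg.Agent.H17.PSLOrders

set_option autoImplicit false
open Cfsg

namespace Cfsg.Agent.S4068

universe u

/-- three primes -/
theorem three_primes {G : Type u} [Group G] [Finite G] (hns : ¬ Group.IsSolvable G) :
    2 < (Nat.card G).primeFactors.card := by
  by_contra hcon
  push Not at hcon
  apply hns
  have key : ∃ p q : ℕ, p.Prime ∧ q.Prime ∧ (Nat.card G).primeFactors ⊆ {p, q} := by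
    interval_cases hc : (Nat.card G).primeFactors.card
    · rw [Finset.card_eq_zero] at hc
      exact ⟨2, 2, Nat.prime_two, Nat.prime_two, by rw [hc]; simp⟩
    · rw [Finset.card_eq_one] at hc
      obtain ⟨a, ha⟩ := hc
      have h1 : a ∈ (Nat.card G).primeFactors := by rw [ha]; simp
      exact ⟨a, a, Nat.prime_of_mem_primeFactors h1, Nat.prime_of_mem_primeFactors h1,
        by rw [ha]; simp⟩
    · rw [Finset.card_eq_two] at hc
      obtain ⟨a, b, _, hab⟩ := hc
      have h1 : a ∈ (Nat.card G).primeFactors := by rw [hab]; simp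
      have h2 : b ∈ (Nat.card G).primeFactors := by rw [hab]; simp
      exact ⟨a, b, Nat.prime_of_mem_primeFactors h1, Nat.prime_of_mem_primeFactors h2,
        by rw [hab]⟩
  obtain ⟨p, q, hp, hq, hs⟩ := key
  refine Cfsg.Agent.H3.burnside_paqb p q hp hq _ G rfl ?_
  intro r hr hrd
  have h1 : r ∈ (Nat.card G).primeFactors := Nat.mem_primeFactors.2 ⟨hr, hrd, Nat.card_pos.ne'⟩
  have h2 := hs h1
  simpa using h2

theorem num_aux {n b : ℕ} (hn : 2 ≤ n) (h : 2 ^ n = 3 ^ b + 1) : n = 2 := by
  by_contra hne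
  have h3 : 3 ≤ n := by omega
  obtain ⟨k, rfl⟩ := Nat.exists_eq_add_of_le h3
  have h1 : (2 ^ (3 + k)) % 8 = 0 := by
    rw [pow_add]
    norm_num [Nat.mul_mod]
  have h2 : (3 ^ b) % 8 = 1 ∨ (3 ^ b) % 8 = 3 := by
    clear h h1
    induction b with
    | zero => left; rfl
    | succ b ih =>
      rw [pow_succ, Nat.mul_mod]
      rcases ih with h | h <;> rw [h] <;> simp
  omega

/-- A finite non-solvable group on which its automorphism group has exactly four orbits is isomorphic to the alternating group of degree 5. -/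
theorem result {G : Type*} [Group G] [Finite G] (hns : ¬ Group.IsSolvable G)
    (h4 : Nat.card (MulAction.orbitRel.Quotient (MulAut G) G) = 4) : Nonempty (G ≃* alternatingGroup (Fin 5)) := by
  classical
  haveI : Fact (Nat.Prime 2) := ⟨Nat.prime_two⟩
  obtain ⟨a, ha, b, hb, c, hc, hab, hac, hbc⟩ := Finset.two_lt_card.1 (three_primes hns)
  have hpr : ∀ r, r ∈ (Nat.card G).primeFactors → r.Prime ∧ ∃ x : G, orderOf x = r := by
    intro r hr
    have h1 := Nat.prime_of_mem_primeFactors hr
    haveI := Fact.mk h1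
    exact ⟨h1, exists_prime_orderOf_dvd_card' r (Nat.dvd_of_mem_primeFactors hr)⟩
  obtain ⟨ha1, x, hx⟩ := hpr a ha
  obtain ⟨hb1, y, hy⟩ := hpr b hb
  obtain ⟨hc1, z, hz⟩ := hpr c hc
  have hord : ∀ g h : G, (MulAction.orbitRel (MulAut G) G) g h → orderOf g = orderOf h := by
    rintro g h ⟨φ, rfl⟩
    exact MulEquiv.orderOf_eq φ h
  let ordQ : MulAction.orbitRel.Quotient (MulAut G) G → ℕ := Quotient.lift orderOf hord
  let f : Fin 4 → MulAction.orbitRel.Quotient (MulAut G) G :=
    ![Quotient.mk _ 1, Quotient.mk _ x, Quotient.mk _ y, Quotient.mk _ z]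
  have hf : Function.Injective f := by
    have h1 : Function.Injective (ordQ ∘ f) := by
      have e : ordQ ∘ f = ![1, a, b, c] := by
        funext i
        fin_cases i
        · exact orderOf_one
        · exact hx
        · exact hy
        · exact hz
      rw [e]
      have ha2 := ha1.one_lt.ne
      have hb2 := hb1.one_lt.ne
      have hc2 := hc1.one_lt.ne
      intro i j hij
      fin_cases i <;> fin_cases j <;> simp_all
    exact Function.Injective.of_comp h1
  haveI : Finite (MulAction.orbitRel.Quotient (MulAut G) G) := Nat.finite_of_card_ne_zero (by omega)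
  have hsurj : Function.Surjective f := by
    have h1 := (Nat.bijective_iff_injective_and_card f).2 ⟨hf, by rw [h4]; simp⟩
    exact h1.2
  have hords : ∀ g : G, orderOf g = 1 ∨ orderOf g = a ∨ orderOf g = b ∨ orderOf g = c := by
    intro g
    obtain ⟨i, hi⟩ := hsurj (Quotient.mk _ g)
    have h1 : ordQ (f i) = orderOf g := by rw [hi]; rfl
    rw [← h1]
    fin_cases i
    · left; exact orderOf_one
    · right; left; exact hx
    · right; right; left; exact hy
    · right; right; right; exact hz
  have hprime : ∀ g : G, g ≠ 1 → (orderOf g).Prime := by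
    intro g hg
    rcases hords g with h | h | h | h
    · exact absurd (orderOf_eq_one_iff.1 h) hg
    · rwa [h]
    · rwa [h]
    · rwa [h]
  obtain ⟨T⟩ := (inferInstance : Nonempty (Sylow 2 G))
  have hTnc : ¬ IsCyclic (T : Subgroup G) := by
    intro h
    exact hns (Cfsg.Agent.H24.solvable_of_hasNormalTwoComplement
      (Cfsg.Agent.H20.hasNormalPComplement_of_cyclic T h))
  have hTnn : ¬ (T : Subgroup G).Normal := by
    intro h
    apply hns
    haveI := h
    rw [Group.isSolvable_iff_subgroup_quotient (T : Subgroup G)]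
    refine ⟨?_, ?_⟩
    · haveI : Group.IsNilpotent (T : Subgroup G) := T.isPGroup'.isNilpotent
      infer_instance
    · apply Cfsg.Agent.H24.solvable_of_not_two_dvd
      rw [← Subgroup.index_eq_card]
      exact T.not_dvd_index
  have hTC : ∀ t : G, orderOf t = 2 → IsMulCommutative (Subgroup.centralizer ({t} : Set G)) ∧
      ∀ c ∈ Subgroup.centralizer ({t} : Set G), c ^ 2 = 1 := by
    intro t ht
    have h1 : ∀ g ∈ Subgroup.centralizer ({t} : Set G), g ^ 2 = 1 := by
      intro g hg
      by_cases hg1 : g = 1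
      · rw [hg1, one_pow]
      by_cases hg2 : orderOf g = 2
      · rw [← hg2]; exact pow_orderOf_eq_one g
      exfalso
      have h2 := hprime g hg1
      have hcomm : Commute g t := by
        have h3 := Subgroup.mem_centralizer_iff.1 hg t rfl
        exact h3.symm
      have hcop : Nat.Coprime (orderOf g) (orderOf t) := by
        rw [ht]
        exact (Nat.coprime_primes h2 Nat.prime_two).2 hg2
      have h3 := hcomm.orderOf_mul_eq_mul_orderOf_of_coprime hcop
      have h4 : g * t ≠ 1 := by
        intro h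
        rw [h, orderOf_one, ht] at h3
        omega
      have h5 := hprime _ h4
      rw [h3, ht] at h5
      exact Nat.not_prime_mul h2.one_lt.ne' (by norm_num) h5
    refine ⟨⟨⟨fun u v => ?_⟩⟩, h1⟩
    apply Subtype.ext
    have hu := h1 u u.2
    have hv := h1 v v.2
    have huv := h1 (u * v) (u * v).2
    rw [pow_two] at hu hv huv
    show (u : G) * v = v * u
    have e1 : (u : G)⁻¹ = u := inv_eq_of_mul_eq_one_left hu
    have e2 : (v : G)⁻¹ = v := inv_eq_of_mul_eq_one_left hv
    have e3 : ((u : G) * v)⁻¹ = u * v := inv_eq_of_mul_eq_one_left huv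
    rw [← e3, mul_inv_rev, e1, e2]
  obtain ⟨F, hF1, hF2, hFc, ⟨e⟩⟩ := Cfsg.Agent.S1230.result T hTnc hTnn hTC
  obtain ⟨n, hn⟩ := IsPGroup.iff_card.1 T.isPGroup'
  have hFc' : Nat.card T = 2 ^ n := hn
  rw [hFc'] at hFc
  -- `n ≥ 2`
  have hn2 : 2 ≤ n := by
    by_contra h
    apply hTnc
    have h5 : n = 0 ∨ n = 1 := by omega
    rcases h5 with rfl | rfl
    · rw [pow_zero] at hn
      haveI : Subsingleton (T : Subgroup G) := (Nat.card_eq_one_iff_unique.1 hn).1
      infer_instance
    · rw [pow_one] at hn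
      exact isCyclic_of_prime_card hn
  set q := 2 ^ n with hq
  have hq4 : 4 ≤ q := by
    calc 4 = 2 ^ 2 := by norm_num
      _ ≤ 2 ^ n := Nat.pow_le_pow_right (by norm_num) hn2
  have hqe : 2 ∣ q := dvd_pow_self 2 (by omega)
  -- the order of `G`
  have hcard : Nat.card G = q * (q ^ 2 - 1) := by
    have h1 := Cfsg.Agent.H5.card_PSL2 hFc
    have h2 : Nat.gcd 2 (q - 1) = 1 := by
      rw [Nat.Coprime.gcd_eq_one]
      rw [Nat.coprime_two_left, Nat.odd_iff]
      omega
    rw [h2, one_mul] at h1
    rw [← h1]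
    exact Nat.card_congr e.toEquiv
  have hcard' : Nat.card G = q * ((q - 1) * (q + 1)) := by
    rw [hcard]
    congr 1
    have : q ^ 2 - 1 ^ 2 = (q + 1) * (q - 1) := Nat.sq_sub_sq q 1
    rw [one_pow] at this
    rw [this, mul_comm]
  -- a Singer element
  obtain ⟨s, hs⟩ := Cfsg.Agent.H17.psl_singer (F := F) (n := 2) (by norm_num)
  have hsing : Cfsg.Agent.H17.singerOrd (Nat.card F) 2 = q + 1 := by
    rw [Nat.card_eq_fintype_card, hFc]
    unfold Cfsg.Agent.H17.singerOrd
    have h1 : (q ^ 2 - 1) / (q - 1) = q + 1 := by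
      apply Nat.div_eq_of_eq_mul_left (by omega)
      have : q ^ 2 - 1 ^ 2 = (q + 1) * (q - 1) := Nat.sq_sub_sq q 1
      rwa [one_pow] at this
    rw [h1]
    have h2 : Nat.gcd (q + 1) (q - 1) = 1 := by
      have h3 : Nat.gcd (q + 1) (q - 1) ∣ 2 := by
        have h4 := Nat.dvd_sub (Nat.gcd_dvd_left (q + 1) (q - 1)) (Nat.gcd_dvd_right (q + 1) (q - 1))
        have h5 : q + 1 - (q - 1) = 2 := by omega
        rwa [h5] at h4
      rcases (Nat.dvd_prime Nat.prime_two).1 h3 with h4 | h4
      · exact h4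
      · exfalso
        have h5 := Nat.gcd_dvd_left (q + 1) (q - 1)
        rw [h4] at h5
        omega
    rw [h2, Nat.div_one]
  rw [hsing] at hs
  have hprimeF : ∀ g : Matrix.ProjectiveSpecialLinearGroup (Fin 2) F, g ≠ 1 →
      (orderOf g).Prime := by
    intro g hg
    have h1 := hprime (e.symm g) (by
      intro h
      apply hg
      rw [← e.apply_symm_apply g, h, map_one])
    rwa [MulEquiv.orderOf_eq] at h1
  have hs1 : (orderOf s).Prime := by
    apply hprimeF
    intro h
    rw [h, orderOf_one] at hs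
    have := Nat.le_of_dvd (by norm_num) hs
    omega
  have hs2 : q + 1 = orderOf s := by
    rcases (Nat.dvd_prime hs1).1 hs with h | h
    · omega
    · exact h
  have hq1p : (q + 1).Prime := by rw [hs2]; exact hs1
  -- primes dividing `|G|`
  have hdiv : ∀ r : ℕ, r.Prime → r ∣ Nat.card G → r = a ∨ r = b ∨ r = c := by
    intro r hr hrd
    haveI := Fact.mk hr
    obtain ⟨w, hw⟩ := exists_prime_orderOf_dvd_card' r hrd
    rcases hords w with h | h | h | h
    · exfalso; rw [hw] at h; exact hr.one_lt.ne' h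
    · left; rw [← hw, h]
    · right; left; rw [← hw, h]
    · right; right; rw [← hw, h]
  have h2d := hdiv 2 Nat.prime_two (by rw [hcard']; exact Dvd.dvd.mul_right hqe _)
  have hqd := hdiv (q + 1) hq1p (by rw [hcard']; exact ⟨q * (q - 1), by ring⟩)
  have h3 : 3 ∣ q - 1 := by
    have h5 : ¬ 3 ∣ q := by
      intro h
      have := Nat.Prime.dvd_of_dvd_pow Nat.prime_three h
      omega
    have h6 : ¬ 3 ∣ q + 1 := by
      intro h
      rcases (Nat.dvd_prime hq1p).1 h with h | h <;> omega
    have h7 : q % 3 = 0 ∨ q % 3 = 1 ∨ q % 3 = 2 := by omega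
    rcases h7 with h7 | h7 | h7
    · exact absurd (Nat.dvd_of_mod_eq_zero h7) h5
    · omega
    · exfalso; apply h6; omega
  have h3d := hdiv 3 Nat.prime_three (by
    rw [hcard']
    exact (h3.mul_right (q + 1)).mul_left q)
  have honly : ∀ r : ℕ, r.Prime → r ∣ q - 1 → r = 3 := by
    intro r hr hrd
    have h5 := hdiv r hr (by rw [hcard']; exact (hrd.mul_right (q + 1)).mul_left q)
    have h6 : r ≠ 2 := by
      rintro rfl
      omega
    have h7 : r ≠ q + 1 := by
      intro h
      have := Nat.le_of_dvd (by omega) hrd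
      omega
    have h8 : (3 : ℕ) ≠ q + 1 := by omega
    have h9 : (2 : ℕ) ≠ q + 1 := by omega
    clear_value q
    clear hcard hcard' hFc hFc' hn hTC hprime hords
    rcases h2d with h | h | h <;> rcases hqd with h' | h' | h' <;> rcases h3d with h'' | h'' | h'' <;>
      rcases h5 with h5 | h5 | h5 <;> omega
  obtain ⟨k, hk⟩ : ∃ k, q - 1 = 3 ^ k := by
    refine ⟨(q - 1).primeFactorsList.length, ?_⟩
    apply Nat.eq_prime_pow_of_unique_prime_dvd (by omega)
    intro d hd1 hd2
    exact honly d hd1 hd2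
  have hn3 : n = 2 := num_aux hn2 (b := k) (by rw [← hk]; omega)
  have hF4 : Fintype.card F = 4 := by rw [hFc, hq, hn3]; norm_num
  obtain ⟨e'⟩ := Cfsg.Agent.S0252.result hF4
  exact ⟨e.trans e'⟩

end Cfsg.Agent.S4068
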