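import Cfsg.Statements.S4072
import Cfsg.Agent.H18.Coprime
import Cfsg.Agent.H23.Coprime2
import Cfsg.Agent.H22.CycSyl
import Cfsg.Agent.H2.Frobenius
import Cfsg.Agent.H2.NComp
import Cfsg.Agent.H24.ClassSize2
import Cfsg.Agent.H1.Coprime

set_option autoImplicit false
set_option linter.all false
open Cfsg

namespace Cfsg.Agent.S4072

open scoped commutatorElement

/-- central case -/
theorem central_case {G : Type*} [Group G] [Finite G]
    (hS : ∀ H : Subgroup G, ¬ IsMulCommutative H → Subgroup.normalizer (H : Set G) = H)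
    (hns : ¬ Group.IsSolvable G) (hab : ∀ N : Subgroup G, N.Normal → N ≠ ⊤ → IsMulCommutative N)
    {q : ℕ} [hq : Fact q.Prime] (n : G) (hn : orderOf n = q) (hc : ∀ g : G, g * n = n * g) : False := by
  classical
  by_cases hN : Cfsg.HasNormalPComplement q G
  · obtain ⟨K, hK, hKq, k, hk⟩ := Cfsg.Agent.H2.hasNormalPComplement_iff.1 hN
    haveI := hK
    have hKt : K ≠ ⊤ := by
      rintro rfl
      apply hKq
      rw [Subgroup.card_top, ← hn]
      exact orderOf_dvd_natCard n
    have hKab := hab K hK hKt
    apply hns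
    have h1 : IsPGroup q (G ⧸ K) := Cfsg.Agent.H2.isPGroup_quotient_iff_index.2 ⟨k, hk⟩
    haveI : Group.IsNilpotent (G ⧸ K) := h1.isNilpotent
    haveI : Group.IsSolvable (G ⧸ K) := inferInstance
    haveI : Group.IsSolvable K := by
      letI : CommGroup K := { (inferInstance : Group K) with mul_comm := hKab.is_comm.comm }
      infer_instance
    exact Group.isSolvable_of_ker_le_range K.subtype (QuotientGroup.mk' K)
      (by rw [QuotientGroup.ker_mk', Subgroup.range_subtype])
  · have h1 : ¬ ∀ X : Subgroup G, IsPGroup q X → ∀ g ∈ Subgroup.normalizer (X : Set G),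
        Nat.Coprime (orderOf g) q → g ∈ Subgroup.centralizer (X : Set G) := fun h =>
      hN (Cfsg.Agent.H2.hasNormalPComplement_of_centralizer h)
    push Not at h1
    obtain ⟨X, hX, g, hg, hgo, hgC⟩ := h1
    have hXab : IsMulCommutative X := by
      by_contra hcon
      rw [hS X hcon] at hg
      obtain ⟨m, hm⟩ := IsPGroup.iff_orderOf.1 hX ⟨g, hg⟩
      rw [Subgroup.orderOf_mk] at hm
      rw [hm] at hgo
      have : orderOf g = 1 := by
        rw [hm]; exact Nat.eq_one_of_dvd_coprimes hgo dvd_rfl
          (by rcases Nat.eq_zero_or_pos m with h0 | h0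
              · rw [h0, pow_zero]; exact one_dvd _
              · exfalso
                have := Nat.eq_one_of_dvd_coprimes hgo (dvd_pow_self q h0.ne') dvd_rfl
                exact hq.out.one_lt.ne' this)
      rw [orderOf_eq_one_iff] at this
      exact hgC (this ▸ one_mem _)
    set A := Subgroup.zpowers g with hA
    have hAX : A ≤ Subgroup.normalizer (X : Set G) := by rw [hA, Subgroup.zpowers_le]; exact hg
    have hAq : (Nat.card A).Coprime q := by rw [hA, Nat.card_zpowers]; exact hgo
    have hAXc : (Nat.card A).Coprime (Nat.card X) := by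
      obtain ⟨m, hm⟩ := IsPGroup.iff_card.1 hX
      rw [hm]; exact hAq.pow_right m
    set W := ⁅X, A⁆ with hW
    have hWX : W ≤ X := Subgroup.le_normalizer_iff_commutator_le_left.1 hAX
    have hAW : A ≤ Subgroup.normalizer (W : Set G) := by
      rw [Subgroup.le_normalizer_iff_commutator_le_left, hW,
        Cfsg.Agent.H18.commutator_commutator_of_coprime hX hAX hAq]
    have hWne : W ≠ ⊥ := by
      intro hb
      apply hgC
      have := Subgroup.commutator_eq_bot_iff_le_centralizer.1 hb
      rw [Subgroup.mem_centralizer_iff]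
      intro x hx
      exact (Subgroup.mem_centralizer_iff.1 (this hx) g (Subgroup.mem_zpowers g)).symm
    set H := W ⊔ A with hH
    have hHna : ¬ IsMulCommutative H := by
      intro hcm
      apply hWne
      have : ⁅W, A⁆ = ⊥ := by
        rw [Subgroup.commutator_eq_bot_iff_le_centralizer]
        intro w hw
        rw [Subgroup.mem_centralizer_iff]
        intro a ha
        exact congrArg Subtype.val (hcm.is_comm.comm (⟨a, Subgroup.mem_sup_right ha⟩ : H) ⟨w, Subgroup.mem_sup_left hw⟩)
      rw [hW, ← Cfsg.Agent.H18.commutator_commutator_of_coprime hX hAX hAq]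
      exact this
    have hnH : n ∈ H := by
      rw [← hS H hHna, Subgroup.mem_normalizer_iff]
      intro y
      rw [← hc y, mul_inv_cancel_right]
    obtain ⟨w, hw, a, ha, hwa⟩ := (Cfsg.Agent.H1.mem_sup_iff_of_le_normalizer hAW).1 hnH
    -- a = 1
    have hwn : Commute w⁻¹ n := hc w⁻¹
    have ha1 : a = 1 := by
      have e : a = w⁻¹ * n := by rw [← hwa]; group
      have h2 : ∃ m, orderOf w⁻¹ = q ^ m := by
        obtain ⟨m, hm⟩ := IsPGroup.iff_orderOf.1 hX ⟨w⁻¹, inv_mem (hWX hw)⟩
        rw [Subgroup.orderOf_mk] at hm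
        exact ⟨m, hm⟩
      obtain ⟨m, hm⟩ := h2
      have h3 : a ^ (q ^ (m + 1)) = 1 := by
        rw [e, hwn.mul_pow, pow_succ, pow_mul, ← hm, pow_orderOf_eq_one, one_pow, one_mul, hm, mul_comm,
          pow_mul, ← hn, pow_orderOf_eq_one, one_pow]
      have h4 : (orderOf a).Coprime q := by
        refine Nat.Coprime.coprime_dvd_left ?_ hAq
        have := orderOf_dvd_natCard (⟨a, ha⟩ : A)
        rwa [Subgroup.orderOf_mk] at this
      have h5 := Nat.eq_one_of_dvd_coprimes (h4.pow_right (m + 1)) dvd_rfl (orderOf_dvd_of_pow_eq_one h3)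
      rwa [orderOf_eq_one_iff] at h5
    rw [ha1, mul_one] at hwa
    have h6 : n ∈ W ⊓ Subgroup.centralizer (A : Set G) := by
      refine Subgroup.mem_inf.2 ⟨by rw [← hwa]; exact hw, ?_⟩
      rw [Subgroup.mem_centralizer_iff]
      intro y _; exact hc y
    rw [hW, Cfsg.Agent.H23.commutator_inf_centralizer_of_abelian hAX hAXc hXab, Subgroup.mem_bot] at h6
    rw [h6, orderOf_one] at hn
    exact hq.out.one_lt.ne hn

/-- self-centralizing case -/
theorem selfcent_case {G : Type*} [Group G] [Finite G]
    (hS : ∀ H : Subgroup G, ¬ IsMulCommutative H → Subgroup.normalizer (H : Set G) = H)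
    (M : Subgroup G) [M.Normal] (hsimple : IsSimpleGroup (G ⧸ M)) (hns : ¬ Group.IsSolvable (G ⧸ M))
    (hC : Subgroup.centralizer (M : Set G) = M) : False := by
  classical
  haveI := hsimple
  set f := QuotientGroup.mk' M with hf
  have hfs : Function.Surjective f := QuotientGroup.mk'_surjective M
  have hcard : Nat.card (G ⧸ M) ≠ 1 := Finite.one_lt_card.ne'
  obtain ⟨p, hp, hpd⟩ := Nat.exists_prime_and_dvd hcard
  haveI : Fact p.Prime := ⟨hp⟩
  obtain ⟨P⟩ : Nonempty (Sylow p (G ⧸ M)) := inferInstance
  obtain ⟨z, hzP, hz1, hzC⟩ := Cfsg.Agent.H24.exists_ne_one_mem_sylow_centralizing P hpd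
  obtain ⟨x, rfl⟩ := hfs z
  have hxM : x ∉ M := by
    intro hx
    apply hz1
    rw [← MonoidHom.mem_ker, hf, QuotientGroup.ker_mk']; exact hx
  have hself : Subgroup.normalizer ((Subgroup.zpowers (f x) : Subgroup (G ⧸ M)) : Set (G ⧸ M)) = Subgroup.zpowers (f x) := by
    have h1 : ¬ IsMulCommutative ((Subgroup.zpowers (f x)).comap f) := by
      intro hcm
      apply hxM
      rw [← hC, Subgroup.mem_centralizer_iff]
      intro y hy
      have hy' : y ∈ (Subgroup.zpowers (f x)).comap f := by
        rw [Subgroup.mem_comap]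
        have : f y = 1 := by rw [← MonoidHom.mem_ker, hf, QuotientGroup.ker_mk']; exact hy
        rw [this]; exact one_mem _
      have hx' : x ∈ (Subgroup.zpowers (f x)).comap f := Subgroup.mem_zpowers _
      exact congrArg Subtype.val (hcm.is_comm.comm (⟨y, hy'⟩ : (Subgroup.zpowers (f x)).comap f) ⟨x, hx'⟩)
    have h2 := hS _ h1
    rw [← Subgroup.comap_normalizer_eq_of_surjective _ hfs] at h2
    exact Subgroup.comap_injective hfs h2
  have hPz : (P : Subgroup (G ⧸ M)) = Subgroup.zpowers (f x) := by
    apply le_antisymm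
    · rw [← hself]
      refine le_trans ?_ (Cfsg.Agent.H2.centralizer_le_normalizer _)
      intro y hy
      rw [Subgroup.mem_centralizer_iff]
      intro w hw
      obtain ⟨j, rfl⟩ := Subgroup.mem_zpowers_iff.1 hw
      have : Commute (f x) y := (Subgroup.mem_centralizer_iff.1 hzC y hy).symm
      exact (this.zpow_left j).eq
    · rw [Subgroup.zpowers_le]; exact hzP
  have hnpc : Cfsg.HasNormalPComplement p (G ⧸ M) := by
    refine Cfsg.Agent.H22.npc_of_cyclic P (y := f x) hPz.symm ?_
    intro g hg
    refine ⟨1, ?_, by simp⟩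
    rw [hPz, hself] at hg
    obtain ⟨j, rfl⟩ := Subgroup.mem_zpowers_iff.1 hg
    rw [zpow_one]
    group
  obtain ⟨K, hK, hKp, k, hk⟩ := Cfsg.Agent.H2.hasNormalPComplement_iff.1 hnpc
  rcases hsimple.eq_bot_or_eq_top_of_normal K hK with h | h
  · apply hns
    have h1 : IsPGroup p (G ⧸ M) := by
      rw [h, Subgroup.index_bot] at hk
      exact IsPGroup.of_card hk
    haveI : Group.IsNilpotent (G ⧸ M) := h1.isNilpotent
    infer_instance
  · rw [h, Subgroup.card_top] at hKp
    exact hKp hpd

/-- A finite group in which every non-abelian subgroup is self-normalizing is solvable or simple. -/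
theorem result {G : Type*} [Group G] [Finite G] (hS : ∀ H : Subgroup G, ¬ IsMulCommutative H → Subgroup.normalizer (H : Set G) = H) :
    Group.IsSolvable G ∨ IsSimpleGroup G := by
  classical
  by_cases hsol : Group.IsSolvable G
  · exact Or.inl hsol
  right
  have hab : ∀ N : Subgroup G, N.Normal → N ≠ ⊤ → IsMulCommutative N := by
    intro N hN hNt
    by_contra hcon
    apply hNt
    rw [← hS N hcon, Subgroup.normalizer_eq_top_iff]; exact hN
  haveI : Nontrivial G := by
    by_contra hcon
    rw [not_nontrivial_iff_subsingleton] at hcon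
    exact hsol inferInstance
  refine ⟨?_⟩
  intro N hN
  by_contra hcon
  push Not at hcon
  obtain ⟨hNb, hNt⟩ := hcon
  obtain ⟨M, hNM, hMmax⟩ := Set.Finite.exists_le_maximal
    (s := {M : Subgroup G | M.Normal ∧ M ≠ ⊤}) (Set.toFinite _) (show N ∈ _ from ⟨hN, hNt⟩)
  obtain ⟨⟨hMn, hMt⟩, hmax⟩ := hMmax
  haveI := hMn
  have hMb : M ≠ ⊥ := by
    rintro rfl
    exact hNb (le_bot_iff.1 hNM)
  have hMab := hab M hMn hMt
  have hsimple : IsSimpleGroup (G ⧸ M) := by
    haveI : Nontrivial (G ⧸ M) := QuotientGroup.nontrivial_iff.2 hMt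
    refine ⟨?_⟩
    intro L hL
    by_contra hcon
    push Not at hcon
    have h1 : M ≤ L.comap (QuotientGroup.mk' M) := by
      intro m hm
      rw [Subgroup.mem_comap]
      have : QuotientGroup.mk' M m = 1 := by rw [← MonoidHom.mem_ker, QuotientGroup.ker_mk']; exact hm
      rw [this]; exact one_mem _
    have hfs := QuotientGroup.mk'_surjective M
    have h2 : L.comap (QuotientGroup.mk' M) ≤ M := hmax ⟨inferInstance, fun h => hcon.2 (by
      rw [← Subgroup.comap_top (QuotientGroup.mk' M)] at h
      exact Subgroup.comap_injective hfs h)⟩ h1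
    apply hcon.1
    rw [eq_bot_iff]
    intro y hy
    obtain ⟨x, rfl⟩ := hfs y
    have : x ∈ M := h2 hy
    rw [Subgroup.mem_bot, ← MonoidHom.mem_ker, QuotientGroup.ker_mk']; exact this
  have hMsol : Group.IsSolvable M := by
    letI : CommGroup M := { (inferInstance : Group M) with mul_comm := hMab.is_comm.comm }
    infer_instance
  have hQns : ¬ Group.IsSolvable (G ⧸ M) := by
    intro h
    apply hsol
    haveI := h
    haveI := hMsol
    exact Group.isSolvable_of_ker_le_range M.subtype (QuotientGroup.mk' M)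
      (by rw [QuotientGroup.ker_mk', Subgroup.range_subtype])
  by_cases hC : Subgroup.centralizer (M : Set G) = ⊤
  · -- central
    have hMcard : Nat.card M ≠ 1 := by
      rw [Ne, Subgroup.card_eq_one]; exact hMb
    obtain ⟨q, hq, hqd⟩ := Nat.exists_prime_and_dvd hMcard
    haveI : Fact q.Prime := ⟨hq⟩
    obtain ⟨n, hn⟩ := exists_prime_orderOf_dvd_card' q hqd
    refine central_case hS hsol hab (q := q) (n : G) (by rw [Subgroup.orderOf_coe]; exact hn) ?_
    intro g
    have : g ∈ Subgroup.centralizer (M : Set G) := by rw [hC]; exact Subgroup.mem_top g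
    exact (Subgroup.mem_centralizer_iff.1 this n n.2).symm
  · have h1 : M ≤ Subgroup.centralizer (M : Set G) := by
      intro x hx
      rw [Subgroup.mem_centralizer_iff]
      intro y hy
      exact congrArg Subtype.val (hMab.is_comm.comm (⟨y, hy⟩ : M) ⟨x, hx⟩)
    have h2 := hmax ⟨(inferInstance : (Subgroup.centralizer (M : Set G)).Normal), hC⟩ h1
    exact selfcent_case hS M hsimple hQns (le_antisymm h2 h1)

end Cfsg.Agent.S4072
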