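import Cfsg.Statements.S4074
import Cfsg.Agent.H22.Dihedral
import Mathlib

set_option autoImplicit false
open Cfsg

namespace Cfsg.Agent.S4074

open DihedralGroup

theorem comm_of_rot (n : ℕ) (H : Subgroup (DihedralGroup n))
    (h : ∀ i : ZMod n, (sr i : DihedralGroup n) ∉ H) : IsMulCommutative H := by
  refine ⟨⟨?_⟩⟩
  rintro ⟨a, ha⟩ ⟨b, hb⟩
  apply Subtype.ext
  show a * b = b * a
  rcases a with i | i
  · rcases b with j | j
    · rw [r_mul_r, r_mul_r, add_comm]
    · exact absurd hb (h j)
  · exact absurd ha (h i)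

theorem odd_case (n : ℕ) (hn : Odd n) (H : Subgroup (DihedralGroup n))
    (hH : ¬ IsMulCommutative H) :
    Subgroup.normalizer (H : Set (DihedralGroup n)) = H := by
  apply le_antisymm _ Subgroup.le_normalizer
  obtain ⟨i, hi⟩ : ∃ i : ZMod n, (sr i : DihedralGroup n) ∈ H := by
    by_contra hcon
    push Not at hcon
    exact hH (comm_of_rot n H hcon)
  have hrot : ∀ k : ZMod n, (r k : DihedralGroup n) ∈ Subgroup.normalizer (H : Set (DihedralGroup n)) →
      (r k : DihedralGroup n) ∈ H := by
    intro k hk
    have h1 := (Subgroup.mem_normalizer_iff.1 hk (sr i)).1 hi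
    have h2 : (r k : DihedralGroup n) * sr i * (r k)⁻¹ = sr (i - k - k) := by
      rw [r_mul_sr, inv_r, sr_mul_r]; congr 1; ring
    rw [h2] at h1
    have h3 := H.mul_mem h1 hi
    rw [sr_mul_sr] at h3
    have h4 : i - (i - k - k) = 2 * k := by ring
    rw [h4] at h3
    obtain ⟨m, hm⟩ := hn
    have h5 : (r (2 * k) : DihedralGroup n) ^ (m + 1) = r k := by
      have h6 : ∀ (t : ZMod n) (j : ℕ), (r t : DihedralGroup n) ^ j = r ((j : ZMod n) * t) := by
        intro t j
        induction j with
        | zero => rw [pow_zero, Nat.cast_zero, zero_mul]; rfl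
        | succ j ih => rw [pow_succ, ih, r_mul_r]; congr 1; push_cast; ring
      rw [h6]
      congr 1
      have h7 : ((n : ℕ) : ZMod n) = 0 := ZMod.natCast_self n
      have h8 : ((2 * m + 1 : ℕ) : ZMod n) = 0 := by rw [← hm]; exact h7
      push_cast at h8 ⊢
      have h9 : ((m : ZMod n) + 1) * (2 * k) = (2 * m + 1) * k + k := by ring
      rw [h9, h8]; ring
    rw [← h5]
    exact H.pow_mem h3 _
  rintro (k | k) hk
  · exact hrot k hk
  · have h1 : (sr k : DihedralGroup n) * sr i ∈ Subgroup.normalizer (H : Set (DihedralGroup n)) :=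
      (Subgroup.normalizer (H : Set (DihedralGroup n))).mul_mem hk (Subgroup.le_normalizer hi)
    rw [sr_mul_sr] at h1
    have h2 := hrot _ h1
    have h3 := H.mul_mem hi (H.inv_mem h2)
    have h4 := H.mul_mem h2 hi
    rw [r_mul_sr] at h4
    have h5 : i - (i - k) = k := by ring
    rwa [h5] at h4

theorem comm_of_card_lt (H : Subgroup (DihedralGroup 4)) (h : H ≠ ⊤) : IsMulCommutative H := by
  have h1 : Nat.card H ∣ 8 := by
    have := Subgroup.card_subgroup_dvd_card H
    rwa [nat_card] at this
  have h2 : Nat.card H < 8 := by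
    refine lt_of_le_of_ne (Nat.le_of_dvd (by norm_num) h1) ?_
    intro h3
    exact h (Subgroup.eq_top_of_card_eq H (by rw [h3, nat_card]))
  have h3 : ∀ a b : H, a * b = b * a := by
    have h4 : Nat.card H = 1 ∨ Nat.card H = 2 ∨ Nat.card H = 2 ^ 2 := by
      have h5 : Nat.card H ∈ Nat.divisors 8 := Nat.mem_divisors.2 ⟨h1, by norm_num⟩
      have h6 : Nat.divisors 8 = {1, 2, 4, 8} := by decide
      rw [h6] at h5
      simp only [Finset.mem_insert, Finset.mem_singleton] at h5
      omega
    haveI : Fact (Nat.Prime 2) := ⟨Nat.prime_two⟩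
    rcases h4 with h4 | h4 | h4
    · have := (Nat.card_eq_one_iff_unique.1 h4).1
      exact fun a b => Subsingleton.elim _ _
    · have : IsCyclic H := isCyclic_of_prime_card h4
      letI := IsCyclic.commGroup (α := H)
      exact fun a b => mul_comm a b
    · exact fun a b => (IsPGroup.commutative_of_card_eq_prime_sq h4) a b
  exact ⟨⟨h3⟩⟩

/-- For n > 2, every non-abelian subgroup of the dihedral group of order 2n is self-normalizing if and only if n = 4 or n is odd. -/
theorem result (n : ℕ) (hn : 2 < n) :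
    (∀ H : Subgroup (DihedralGroup n), ¬ IsMulCommutative H → Subgroup.normalizer (H : Set (DihedralGroup n)) = H) ↔
    (n = 4 ∨ Odd n) := by
  constructor
  · intro h
    by_contra hcon
    push Not at hcon
    obtain ⟨h4, hodd⟩ := hcon
    obtain ⟨m, hm⟩ := Nat.not_odd_iff_even.1 hodd
    have hm' : n = 2 * m := by omega
    let φ : DihedralGroup n →* Multiplicative (ZMod 2) :=
      Cfsg.Agent.H22.dihedralLift n (Multiplicative.ofAdd (1 : ZMod 2)) 1
        (by
          rw [hm', pow_mul]
          have : (Multiplicative.ofAdd (1 : ZMod 2)) ^ 2 = 1 := by decide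
          rw [this, one_pow])
        (one_mul 1) (by decide)
    have hφr : ∀ k : ℤ, φ (r (k : ZMod n)) = (Multiplicative.ofAdd (1 : ZMod 2)) ^ k :=
      fun k => Cfsg.Agent.H22.dihedralLift_r n _ _ _ _ _ k
    have hφsr : ∀ k : ℤ, φ (sr (k : ZMod n)) = 1 * (Multiplicative.ofAdd (1 : ZMod 2)) ^ k :=
      fun k => Cfsg.Agent.H22.dihedralLift_sr n _ _ _ _ _ k
    have hr2 : (r 2 : DihedralGroup n) ∈ φ.ker := by
      rw [MonoidHom.mem_ker]
      have := hφr 2
      push_cast at this
      rw [this]; decide
    have hsr0 : (sr 0 : DihedralGroup n) ∈ φ.ker := by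
      rw [MonoidHom.mem_ker]
      have := hφsr 0
      push_cast at this
      rw [this]; simp
    have hr1 : (r 1 : DihedralGroup n) ∉ φ.ker := by
      rw [MonoidHom.mem_ker]
      have := hφr 1
      push_cast at this
      rw [this]; decide
    have hnc : ¬ IsMulCommutative φ.ker := by
      intro hc
      have h5 := congrArg Subtype.val (hc.is_comm.comm ⟨_, hr2⟩ ⟨_, hsr0⟩)
      have h6 : (r 2 : DihedralGroup n) * sr 0 = sr 0 * r 2 := h5
      rw [r_mul_sr, sr_mul_r] at h6
      have h7 : (0 : ZMod n) - 2 = 0 + 2 := by injection h6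
      have h8 : ((4 : ℕ) : ZMod n) = 0 := by
        push_cast
        have h9 : (4 : ZMod n) = (0 + 2) - (0 - 2) := by ring
        rw [h9, h7]; ring
      rw [ZMod.natCast_eq_zero_iff] at h8
      have h9 := Nat.le_of_dvd (by norm_num) h8
      interval_cases n
      · omega
      · exact h4 rfl
    have h5 := h φ.ker hnc
    rw [Subgroup.normalizer_eq_top_iff.2 inferInstance] at h5
    apply hr1
    rw [← h5]
    exact Subgroup.mem_top _
  · rintro (h | h)
    · subst h
      intro H hH
      have h1 : H = ⊤ := by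
        by_contra hcon
        exact hH (comm_of_card_lt H hcon)
      rw [h1]
      exact Subgroup.normalizer_eq_top_iff.2 inferInstance
    · intro H hH
      exact odd_case n h H hH

end Cfsg.Agent.S4074
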