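import Cfsg.Statements.S4075
import Cfsg.Agent.H24.PBasic
import Cfsg.Agent.H25.Primary
import Cfsg.Agent.H1.Cores

set_option autoImplicit false
open Cfsg

namespace Cfsg.Agent.S4075

/-- Let G be a finite nilpotent group. Every non-abelian subgroup of G is self-normalizing if and only if G is abelian or G is a minimal non-abelian p-group for some prime p (non-abelian of prime-power order with every proper subgroup abelian). -/
theorem result {G : Type*} [Group G] [Finite G]
    [Group.IsNilpotent G] :
    (∀ H : Subgroup G, ¬ IsMulCommutative H → Subgroup.normalizer (H : Set G) = H) ↔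
    (IsMulCommutative G ∨ (IsPrimePow (Nat.card G) ∧ ¬ IsMulCommutative G ∧ ∀ H : Subgroup G, H ≠ ⊤ → IsMulCommutative H)) := by
  classical
  have hnil : Group.IsNilpotent G := inferInstance
  constructor
  · intro h
    by_cases hab : IsMulCommutative G
    · left; exact hab
    right
    have hprop : ∀ H : Subgroup G, H ≠ ⊤ → IsMulCommutative H := by
      intro H hH
      by_contra hna
      have h1 := h H hna
      have h2 := Cfsg.Agent.H1.isNilpotent_iff_normalizerCondition.1 hnil H (lt_top_iff_ne_top.2 hH)
      rw [h1] at h2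
      exact lt_irrefl _ h2
    refine ⟨?_, hab, hprop⟩
    -- a non-central element of prime power order
    have h1 : ∃ x : G, x ∉ Subgroup.center G := by
      by_contra hcon
      push Not at hcon
      apply hab
      exact ⟨⟨fun a b => (Subgroup.mem_center_iff.1 (hcon b) a)⟩⟩
    obtain ⟨x, hx⟩ := h1
    obtain ⟨p, hp, m, hm, k, hk⟩ := Cfsg.Agent.H25.exists_primary_notMem _ hx
    set u := x ^ m with hu
    have h2 : ∃ y : G, y ∉ Subgroup.centralizer ({u} : Set G) := by
      by_contra hcon
      push Not at hcon
      apply hm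
      rw [Subgroup.mem_center_iff]
      intro g
      exact Subgroup.mem_centralizer_singleton_iff.1 (hcon g)
    obtain ⟨y, hy⟩ := h2
    obtain ⟨q, hq, m', hm', k', hk'⟩ := Cfsg.Agent.H25.exists_primary_notMem _ hy
    set v := y ^ m' with hv
    have hfp : Fact p.Prime := ⟨hp⟩
    have hfq : Fact q.Prime := ⟨hq⟩
    obtain ⟨P, hP⟩ := (Cfsg.Agent.H24.isPGroup_zpowers_of_orderOf ⟨k, hk⟩).exists_le_sylow
    obtain ⟨Q, hQ⟩ := (Cfsg.Agent.H24.isPGroup_zpowers_of_orderOf ⟨k', hk'⟩).exists_le_sylow
    have huP := hP (Subgroup.mem_zpowers u)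
    have hvQ := hQ (Subgroup.mem_zpowers v)
    have hPn := Cfsg.Agent.H1.isNilpotent_iff_sylow_normal.1 hnil p hfp P
    have hQn := Cfsg.Agent.H1.isNilpotent_iff_sylow_normal.1 hnil q hfq Q
    have hpq : p = q := by
      by_contra hne
      apply hm'
      rw [Subgroup.mem_centralizer_singleton_iff]
      have hdisj : Disjoint (P : Subgroup G) (Q : Subgroup G) :=
        IsPGroup.disjoint_of_ne p q hne _ _ P.isPGroup' Q.isPGroup'
      exact (Subgroup.commute_of_normal_of_disjoint _ _ hPn hQn hdisj u v huP hvQ).symm
    subst hpq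
    have hPtop : (P : Subgroup G) = ⊤ := by
      by_contra hne
      have h3 := hprop _ hne
      rw [Cfsg.Agent.H24.isMulCommutative_subgroup_iff] at h3
      apply hm'
      rw [Subgroup.mem_centralizer_singleton_iff]
      have h4 : P = Q := by
        have := Sylow.unique_of_normal P hPn
        exact Subsingleton.elim _ _
      rw [← h4] at hvQ
      exact h3 v hvQ u huP
    obtain ⟨n, hn⟩ := P.isPGroup'.exists_card_eq
    have hcard : Nat.card G = p ^ n := by
      rw [← hn, ← Subgroup.card_top (G := G), ← hPtop]
    rw [hcard]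
    have hn0 : n ≠ 0 := by
      rintro rfl
      rw [pow_zero] at hcard
      have : Subsingleton G := (Nat.card_eq_one_iff_unique.1 hcard).1
      apply hm
      rw [Subsingleton.elim u 1]; exact one_mem _
    exact hp.isPrimePow.pow hn0
  · rintro (h | ⟨-, -, h⟩) H hH
    · exfalso
      apply hH
      exact ⟨⟨fun a b => Subtype.ext (h.1.1 a b)⟩⟩
    · have h1 : H = ⊤ := by
        by_contra hne
        exact hH (h H hne)
      rw [h1]
      exact Subgroup.normalizer_eq_top_iff.2 inferInstance

end Cfsg.Agent.S4075
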