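import Cfsg.Statements.S4080
import Mathlib
import Cfsg.Agent.H16.Unip

set_option autoImplicit false
open Cfsg

namespace Cfsg.Agent.S4080

/-- binomial trick: `(1 + N) ^ p = 1`, `N ^ 2 ∈ p E`, `p ^ 2 = 0`, `p > 3` imply `p N = 0`. -/
theorem p_mul_eq_zero_of_pow {E : Type*} [Ring E] {p : ℕ} (hp : p.Prime) (hp3 : 3 < p)
    (h0 : ((p : E)) ^ 2 = 0) (N C : E) (hN : N ^ 2 = (p : E) * C) (h1 : (1 + N) ^ p = 1) :
    (p : E) * N = 0 := by
  have hN4 : N ^ 4 = 0 := by
    have : N ^ 4 = (N ^ 2) * (N ^ 2) := by rw [← pow_add]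
    rw [this, hN]
    calc (p : E) * C * ((p : E) * C) = (p : E) * (C * (p : E)) * C := by noncomm_ring
      _ = (p : E) * ((p : E) * C) * C := by rw [(Nat.cast_commute p C).eq]
      _ = ((p : E) ^ 2) * C * C := by rw [pow_two]; noncomm_ring
      _ = 0 := by rw [h0]; simp
  have hcomm : Commute N 1 := Commute.one_right N
  rw [add_comm, hcomm.add_pow] at h1
  simp only [one_pow, mul_one] at h1
  obtain ⟨k, hk⟩ : ∃ k, p = k + 2 := ⟨p - 2, by omega⟩
  have h2 : ∀ m ∈ Finset.range (k + 1), N ^ (m + 1 + 1) * ((p.choose (m + 1 + 1) : ℕ) : E) = 0 := by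
    intro m hm
    rw [Finset.mem_range] at hm
    by_cases hm2 : m + 1 + 1 = p
    · have : N ^ (m + 1 + 1) = N ^ 4 * N ^ (m + 1 + 1 - 4) := by
        rw [← pow_add]; congr 1; omega
      rw [this, hN4]; simp
    · have hlt : m + 1 + 1 < p := by omega
      obtain ⟨c, hc⟩ := hp.dvd_choose_self (Nat.succ_ne_zero _) hlt
      have hc' : p.choose (m + 1 + 1) = p * c := hc
      have h3 : N ^ (m + 1 + 1) = N ^ m * ((p : E) * C) := by rw [← hN, ← pow_add]
      rw [hc', h3, Nat.cast_mul]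
      calc N ^ m * ((p : E) * C) * ((p : E) * (c : E))
          = N ^ m * ((p : E) * (C * (p : E))) * (c : E) := by noncomm_ring
        _ = N ^ m * ((p : E) * ((p : E) * C)) * (c : E) := by rw [(Nat.cast_commute p C).eq]
        _ = N ^ m * ((p : E) ^ 2 * C) * (c : E) := by rw [pow_two]; noncomm_ring
        _ = 0 := by rw [h0]; simp
  have h4 : Finset.range (p + 1) = Finset.range (k + 1 + 1 + 1) := by rw [hk]
  rw [h4, Finset.sum_range_succ', Finset.sum_range_succ', Finset.sum_eq_zero h2] at h1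
  simp only [zero_add, pow_one, Nat.choose_one_right, pow_zero, Nat.choose_zero_right,
    Nat.cast_one, mul_one] at h1
  have h5 : N * (p : E) = 0 := by
    have := h1
    exact add_eq_right.1 this
  rw [(Nat.cast_commute p N).eq]; exact h5

/-- Let p > 3 be a prime and L the direct product of two cyclic groups of order p². Every automorphism of L of order p fixes every element of order p of L. -/
theorem result {p : ℕ} [Fact p.Prime] (hp : 3 < p)
    (a : MulAut (Multiplicative (ZMod (p ^ 2) × ZMod (p ^ 2)))) (ha : orderOf a = p)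
    (x : Multiplicative (ZMod (p ^ 2) × ZMod (p ^ 2))) (hx : orderOf x = p) : a x = x := by
  classical
  have hpp := Fact.out (p := p.Prime)
  have hq : Fact (1 < p ^ 2) := ⟨Nat.one_lt_pow (by norm_num) hpp.one_lt⟩
  have hne : NeZero (p ^ 2) := ⟨(pow_pos hpp.pos 2).ne'⟩
  -- the linear map
  let α0 : (ZMod (p ^ 2) × ZMod (p ^ 2)) →+ (ZMod (p ^ 2) × ZMod (p ^ 2)) :=
    MonoidHom.toAdditive a.toMonoidHom
  let α : Module.End (ZMod (p ^ 2)) (ZMod (p ^ 2) × ZMod (p ^ 2)) := AddMonoidHom.toZModLinearMap _ α0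
  have hα : ∀ v : ZMod (p ^ 2) × ZMod (p ^ 2), α v = Multiplicative.toAdd (a (Multiplicative.ofAdd v)) :=
    fun v => rfl
  have hαpow : ∀ (n : ℕ) (v : ZMod (p ^ 2) × ZMod (p ^ 2)),
      (α ^ n) v = Multiplicative.toAdd ((a ^ n) (Multiplicative.ofAdd v)) := by
    intro n
    induction n with
    | zero => intro v; rfl
    | succ n ih =>
      intro v
      rw [pow_succ α n, Module.End.mul_apply, ih, hα, pow_succ a n, MulAut.mul_apply]
      rfl
  have hap : a ^ p = 1 := by
    have := pow_orderOf_eq_one a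
    rwa [ha] at this
  have hα1 : α ^ p = 1 := by
    apply LinearMap.ext
    intro v
    rw [hαpow, hap]
    rfl
  let Φ := LinearMap.toMatrixAlgEquiv (Module.Basis.finTwoProd (ZMod (p ^ 2)))
  set A := Φ α with hA
  have hA1 : A ^ p = 1 := by rw [hA, ← map_pow, hα1, map_one]
  let c : ZMod (p ^ 2) →+* ZMod p := ZMod.castHom (dvd_pow_self p two_ne_zero) (ZMod p)
  let cM : Matrix (Fin 2) (Fin 2) (ZMod (p ^ 2)) →+* Matrix (Fin 2) (Fin 2) (ZMod p) := c.mapMatrix
  have hB : (cM A - 1) ^ p = 0 := by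
    have h1 : (cM A) ^ p = 1 := by rw [← map_pow, hA1, map_one]
    have hch : CharP (Matrix (Fin 2) (Fin 2) (ZMod p)) p := inferInstance
    rw [sub_pow_char_of_commute _ (Commute.one_right _), h1, one_pow, sub_self]
  have hB2 : (cM A - 1) ^ 2 = 0 := by
    have := Cfsg.Agent.H16.matrix_pow_card_of_isNilpotent (N := cM A - 1) ⟨p, hB⟩
    rwa [Fintype.card_fin] at this
  have hker : ∀ z : ZMod (p ^ 2), c z = 0 → ∃ y, z = (p : ZMod (p ^ 2)) * y := by
    intro z hz
    have h1 : c z = (z.val : ZMod p) := by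
      rw [← map_natCast c, ZMod.natCast_zmod_val]
    rw [h1, ZMod.natCast_eq_zero_iff] at hz
    obtain ⟨y, hy⟩ := hz
    exact ⟨y, by rw [← ZMod.natCast_zmod_val z, hy, Nat.cast_mul]⟩
  have hN2 : ∃ C : Matrix (Fin 2) (Fin 2) (ZMod (p ^ 2)), (A - 1) ^ 2 =
      (p : Matrix (Fin 2) (Fin 2) (ZMod (p ^ 2))) * C := by
    have h1 : ∀ i j, ∃ y, ((A - 1) ^ 2 : Matrix (Fin 2) (Fin 2) (ZMod (p ^ 2))) i j =
        (p : ZMod (p ^ 2)) * y := by
      intro i j
      apply hker
      have h2 : cM ((A - 1) ^ 2) = 0 := by rw [map_pow, map_sub, map_one, hB2]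
      exact congrFun (congrFun h2 i) j
    choose C hC using h1
    refine ⟨Matrix.of C, ?_⟩
    ext i j
    rw [hC, ← nsmul_eq_mul p (Matrix.of C), Matrix.smul_apply, Matrix.of_apply, nsmul_eq_mul]
  obtain ⟨C, hC⟩ := hN2
  have hp0 : ((p : Matrix (Fin 2) (Fin 2) (ZMod (p ^ 2)))) ^ 2 = 0 := by
    rw [← Nat.cast_pow]
    ext i j
    rw [Matrix.natCast_apply]
    split_ifs
    · rw [ZMod.natCast_self]; rfl
    · simp
  have hpN := p_mul_eq_zero_of_pow hpp hp hp0 (A - 1) C hC (by rw [add_sub_cancel]; exact hA1)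
  have hpα : (p : Module.End (ZMod (p ^ 2)) (ZMod (p ^ 2) × ZMod (p ^ 2))) * (α - 1) = 0 := by
    apply Φ.injective
    rw [map_mul, map_natCast, map_sub, map_one, map_zero]
    exact hpN
  -- `x = p y`
  have hx1 : ∃ y : ZMod (p ^ 2) × ZMod (p ^ 2), Multiplicative.toAdd x = p • y := by
    have h1 : x ^ p = 1 := by
      have := pow_orderOf_eq_one x
      rwa [hx] at this
    have h2 : p • Multiplicative.toAdd x = 0 := congrArg Multiplicative.toAdd h1
    have h3 : ∀ z : ZMod (p ^ 2), p • z = 0 → ∃ y, z = p • y := by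
      intro z hz
      have h4 : ((p * z.val : ℕ) : ZMod (p ^ 2)) = 0 := by
        rw [Nat.cast_mul, ZMod.natCast_zmod_val, ← nsmul_eq_mul, hz]
      rw [ZMod.natCast_eq_zero_iff] at h4
      obtain ⟨y, hy0⟩ := h4
      have hy : z.val = p * y := by
        apply Nat.eq_of_mul_eq_mul_left hpp.pos
        rw [hy0]; ring
      exact ⟨y, by rw [← ZMod.natCast_zmod_val z, hy, Nat.cast_mul, nsmul_eq_mul]⟩
    obtain ⟨y1, hy1⟩ := h3 (Multiplicative.toAdd x).1 (congrArg Prod.fst h2)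
    obtain ⟨y2, hy2⟩ := h3 (Multiplicative.toAdd x).2 (congrArg Prod.snd h2)
    exact ⟨(y1, y2), Prod.ext hy1 hy2⟩
  obtain ⟨y, hy⟩ := hx1
  have h1 : α (p • y) - p • y = 0 := by
    have h2 := LinearMap.congr_fun hpα y
    rw [Module.End.mul_apply, LinearMap.sub_apply, Module.End.one_apply] at h2
    rw [map_nsmul, ← nsmul_sub]
    have h3 : ∀ w : ZMod (p ^ 2) × ZMod (p ^ 2),
        (p : Module.End (ZMod (p ^ 2)) (ZMod (p ^ 2) × ZMod (p ^ 2))) w = p • w := by
      intro w
      rw [← nsmul_one p, LinearMap.smul_apply, Module.End.one_apply]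
    rw [h3] at h2
    exact h2
  rw [← hy, sub_eq_zero] at h1
  have h2 : Multiplicative.toAdd (a x) = Multiplicative.toAdd x := by
    rw [hα] at h1
    exact h1
  exact h2

end Cfsg.Agent.S4080
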