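import Cfsg.Statements.S4081
import Cfsg.Agent.H24.ThreeOrb4

set_option autoImplicit false
open Cfsg

namespace Cfsg.Agent.S4081

/-- Let G be a finite group whose order is not a prime power. Then the automorphism group of G has exactly three orbits on G if and only if there are distinct primes p, q with #G = pⁿ·q (n ≥ 1) such that G has a normal elementary abelian Sylow p-subgroup P, p is a primitive root modulo q (the multiplicative order of p mod q is q − 1), and every element of order q of G acts on P without non-identity fixed points. -/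
theorem result {G : Type*} [Group G] [Finite G] (hnpp : ¬ IsPrimePow (Nat.card G)) (hnt : Nat.card G ≠ 1) :
    Nat.card (MulAction.orbitRel.Quotient (MulAut G) G) = 3 ↔
    ∃ (p q n : ℕ) (_ : Fact p.Prime) (_ : Fact q.Prime), p ≠ q ∧ 1 ≤ n ∧ Nat.card G = p ^ n * q ∧
      (∀ P : Sylow p G, (P : Subgroup G).Normal ∧ Cfsg.IsElementaryAbelian p (P : Subgroup G)) ∧
      orderOf (p : ZMod q) = q - 1 ∧
      ∀ x y : G, orderOf x = q → orderOf y = p → x * y * x⁻¹ ≠ y := by
  constructor
  · intro h3
    classical
    -- primes
    obtain ⟨p, hp, hpG⟩ := Nat.exists_prime_and_dvd hnt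
    have hqex : ∃ q : ℕ, q.Prime ∧ q ∣ Nat.card G ∧ p ≠ q := by
      by_contra hcon
      push Not at hcon
      apply hnpp
      have h1 := Nat.eq_prime_pow_of_unique_prime_dvd (n := Nat.card G) (p := p) Nat.card_pos.ne'
        (fun {d} hd hdn => (hcon d hd hdn).symm)
      rw [h1]
      refine hp.isPrimePow.pow ?_
      intro h0
      rw [h0, pow_zero] at h1
      exact hnt h1
    obtain ⟨q, hq, hqG, hpq⟩ := hqex
    haveI : Fact p.Prime := ⟨hp⟩
    haveI : Fact q.Prime := ⟨hq⟩
    obtain ⟨a, ha⟩ := exists_prime_orderOf_dvd_card' (G := G) p hpG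
    obtain ⟨b, hb⟩ := exists_prime_orderOf_dvd_card' (G := G) q hqG
    let orb : G → MulAction.orbitRel.Quotient (MulAut G) G := fun g => Quotient.mk'' g
    have horb : ∀ g h : G, orb g = orb h ↔ ∃ α : MulAut G, α h = g := by
      intro g h
      rw [Quotient.eq'']
      exact Iff.rfl
    have hordorb : ∀ g h : G, orb g = orb h → orderOf g = orderOf h := by
      intro g h hgh
      obtain ⟨α, rfl⟩ := (horb g h).1 hgh
      exact MulEquiv.orderOf_eq α h
    have h1a : orb 1 ≠ orb a := by
      intro h
      have := hordorb _ _ h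
      rw [orderOf_one, ha] at this
      exact hp.one_lt.ne this
    have h1b : orb 1 ≠ orb b := by
      intro h
      have := hordorb _ _ h
      rw [orderOf_one, hb] at this
      exact hq.one_lt.ne this
    have hab : orb a ≠ orb b := by
      intro h
      have := hordorb _ _ h
      rw [ha, hb] at this
      exact hpq this
    have hall : ∀ g : G, g ≠ 1 → (∃ α : MulAut G, α a = g) ∨ (∃ α : MulAut G, α b = g) := by
      intro g hg
      by_contra hcon
      push Not at hcon
      have hg1 : orb 1 ≠ orb g := by
        intro h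
        have := hordorb _ _ h
        rw [orderOf_one] at this
        exact hg (orderOf_eq_one_iff.1 this.symm)
      have hga : orb a ≠ orb g := fun h => by
        obtain ⟨α, hα⟩ := (horb g a).1 h.symm
        exact hcon.1 α hα
      have hgb : orb b ≠ orb g := fun h => by
        obtain ⟨α, hα⟩ := (horb g b).1 h.symm
        exact hcon.2 α hα
      have h4 : ({orb 1, orb a, orb b, orb g} : Set (MulAction.orbitRel.Quotient (MulAut G) G)).ncard = 4 := by
        rw [Set.ncard_insert_of_notMem, Set.ncard_insert_of_notMem, Set.ncard_pair hgb]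
        · simp [hab, hga]
        · simp [h1a, h1b, hg1]
      have h5 := Set.ncard_le_card ({orb 1, orb a, orb b, orb g} : Set (MulAction.orbitRel.Quotient (MulAut G) G))
      omega
    -- solvability
    have hsolv : Group.IsSolvable G := by
      apply H3.burnside_paqb p q hp hq (Nat.card G) G rfl
      intro r hr hrG
      haveI : Fact r.Prime := ⟨hr⟩
      obtain ⟨x, hx⟩ := exists_prime_orderOf_dvd_card' (G := G) r hrG
      rcases hall x (by rintro rfl; rw [orderOf_one] at hx; exact hr.one_lt.ne hx) with ⟨α, rfl⟩ | ⟨α, rfl⟩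
      · left
        rw [← hx, ← ha]
        exact MulEquiv.orderOf_eq α a
      · right
        rw [← hx, ← hb]
        exact MulEquiv.orderOf_eq α b
    haveI : Nontrivial G := by
      rw [← Finite.one_lt_card_iff_nontrivial]
      have : 0 < Nat.card G := Nat.card_pos
      omega
    obtain ⟨r, A, hr, hAc, hA1, hAab, hAp⟩ := H1.exists_pgroup_characteristic_of_solvable G hsolv
    obtain ⟨c, hc, hc1⟩ := (Subgroup.bot_or_exists_ne_one A).resolve_left hA1
    have hc' : ∃ k, orderOf c = r ^ k := by
      haveI : Fact r.Prime := ⟨hr⟩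
      obtain ⟨k, hk⟩ := IsPGroup.iff_orderOf.1 hAp ⟨c, hc⟩
      rw [Subgroup.orderOf_mk] at hk
      exact ⟨k, hk⟩
    obtain ⟨k, hk⟩ := hc'
    rcases hall c hc1 with ⟨α, hα⟩ | ⟨α, hα⟩
    · have h1 : orderOf c = p := by rw [← hα, ← ha]; exact MulEquiv.orderOf_eq α a
      have h2 : r = p := by
        rw [h1] at hk
        exact ((Nat.prime_dvd_prime_iff_eq hp hr).1 (hp.dvd_of_dvd_pow (dvd_of_eq hk))).symm
      subst h2
      exact H24.three_orb_forward hpq ha hb hall A hAc hA1 hAab hAp
    · have h1 : orderOf c = q := by rw [← hα, ← hb]; exact MulEquiv.orderOf_eq α b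
      have h2 : r = q := by
        rw [h1] at hk
        exact ((Nat.prime_dvd_prime_iff_eq hq hr).1 (hq.dvd_of_dvd_pow (dvd_of_eq hk))).symm
      subst h2
      exact H24.three_orb_forward hpq.symm hb ha (fun g hg => (hall g hg).symm) A hAc hA1 hAab hAp
  · rintro ⟨p, q, n, hp, hq, hpq, hn, hcard, hP, hord, hfree⟩
    exact H24.three_orb_backward hpq hn hcard hP hord hfree

end Cfsg.Agent.S4081
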