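import Cfsg.Statements.S4082
import Cfsg.Agent.H18.PCyc4
import Cfsg.Agent.H2.Cyc
import Cfsg.Agent.H18.PRes

set_option autoImplicit false
open Cfsg
open Subgroup Cfsg.Agent.H18 Cfsg.Agent.H18.PCyc

namespace Cfsg.Agent.S4082

set_option maxHeartbeats 1000000 in
/-- case (1): Burnside -/
theorem commute_of_burnside {G : Type*} [Group G] [Finite G] {p : ℕ} [hp : Fact p.Prime] (P : Sylow p G)
    (hN : normalizer ((P : Subgroup G) : Set G) ≤ centralizer ((P : Subgroup G) : Set G))
    {T : Subgroup G} (hT : IsPGroup p T) {g : G} (hg : g ∈ normalizer (T : Set G)) (hgo : (orderOf g).Coprime p) :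
    ∀ t ∈ T, g * t = t * g := by
  intro t ht
  have hgK : g ∈ (MonoidHom.transferSylow P hN).ker := by
    rw [MonoidHom.mem_ker, ← orderOf_eq_one_iff]
    obtain ⟨k, hk⟩ := (IsPGroup.iff_orderOf.1 P.2) (MonoidHom.transferSylow P hN g)
    rw [hk]
    have h1 := orderOf_map_dvd (MonoidHom.transferSylow P hN) g
    rw [hk] at h1
    exact Nat.eq_one_of_dvd_coprimes (Nat.Coprime.pow_right k hgo) h1 dvd_rfl
  have h1 : g * t * g⁻¹ * t⁻¹ ∈ (MonoidHom.transferSylow P hN).ker := by
    have h2 := (inferInstance : (MonoidHom.transferSylow P hN).ker.Normal).conj_mem _ (inv_mem hgK) t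
    have h3 : g * t * g⁻¹ * t⁻¹ = g * (t * g⁻¹ * t⁻¹) := by group
    rw [h3]; exact mul_mem hgK h2
  have h2 : g * t * g⁻¹ * t⁻¹ ∈ T := mul_mem ((mem_normalizer_iff.1 hg t).1 ht) (inv_mem ht)
  have h3 := (MonoidHom.ker_transferSylow_disjoint P hN T hT).le_bot ⟨h1, h2⟩
  rw [mem_bot] at h3
  calc g * t = (g * t * g⁻¹ * t⁻¹) * (t * g) := by group
    _ = t * g := by rw [h3, one_mul]

set_option maxHeartbeats 1000000 in
/-- case (2), inside `P` -/
theorem case_two {G : Type*} [Group G] [Finite G] {p : ℕ} [hp : Fact p.Prime] (P : Sylow p G)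
    (hPc : IsCyclic P)
    (h : ∀ Q : Subgroup G, Q ≤ P → Nat.card Q = p →
          IsMulCommutative ↥(Subgroup.centralizer (Q : Set G)) ∧
          ∀ x : G, x ∈ Subgroup.normalizer (Q : Set G) → x ∉ Subgroup.centralizer (Q : Set G) →
            orderOf x = 2 ∧ ∀ c : G, c ∈ Subgroup.centralizer (Q : Set G) → x * c * x⁻¹ = c⁻¹)
    {T : Subgroup G} (hT : T ≤ P) {g : G} (hg : g ∈ normalizer (T : Set G)) :
    (∀ t ∈ T, g * t = t * g) ∨ (g * g = 1 ∧ ∀ t ∈ T, g * t * g⁻¹ = t⁻¹) := by
  by_cases hT1 : T = ⊥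
  · left
    subst hT1
    intro t ht
    rw [mem_bot] at ht
    rw [ht, mul_one, one_mul]
  have hTc : IsCyclic T := by
    haveI := hPc
    exact isCyclic_of_injective (Subgroup.inclusion hT) (Subgroup.inclusion_injective hT)
  have hTp : IsPGroup p T := P.2.to_le hT
  have hpT : p ∣ Nat.card T := by
    obtain ⟨k, hk⟩ := IsPGroup.iff_card.1 hTp
    rcases Nat.eq_zero_or_pos k with rfl | hk0
    · exact absurd (Subgroup.card_eq_one.1 (by rw [hk, pow_zero])) hT1
    · rw [hk]; exact dvd_pow_self p hk0.ne'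
  obtain ⟨s, hs⟩ := exists_prime_orderOf_dvd_card' p hpT
  set Q := zpowers (s : G) with hQ
  have hQT : Q ≤ T := zpowers_le.2 s.2
  have hQp : Nat.card Q = p := by rw [hQ, Nat.card_zpowers, Subgroup.orderOf_coe, hs]
  have hcomm : ∀ a ∈ T, ∀ b ∈ T, a * b = b * a := by
    intro a ha b hb
    have := (IsCyclic.commGroup (α := T)).mul_comm ⟨a, ha⟩ ⟨b, hb⟩
    exact congrArg Subtype.val this
  have hTC : T ≤ centralizer (Q : Set G) := fun t ht => mem_centralizer_iff.2 fun q hq => hcomm q (hQT hq) t ht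
  -- uniqueness of `Q`
  have hgQ : g ∈ normalizer (Q : Set G) := by
    rw [H18.mem_normalizer_iff_map]
    have h1 : Q.map (MulAut.conj g).toMonoidHom ≤ T := by
      rintro _ ⟨q, hq, rfl⟩
      exact (mem_normalizer_iff.1 hg q).1 (hQT hq)
    have h2 : Nat.card (Q.map (MulAut.conj g).toMonoidHom) = p := by
      rw [← hQp]
      exact (Nat.card_congr (Q.equivMapOfInjective _ (MulAut.conj g).injective).toEquiv).symm
    have h3 : ((Q.map (MulAut.conj g).toMonoidHom).subgroupOf T) = Q.subgroupOf T := by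
      haveI := hTc
      apply H2.eq_of_card_eq_of_isCyclic
      rw [Nat.card_congr (Subgroup.subgroupOfEquivOfLe h1).toEquiv, h2,
        Nat.card_congr (Subgroup.subgroupOfEquivOfLe hQT).toEquiv, hQp]
    have h4 := congrArg (Subgroup.map T.subtype) h3
    rw [Subgroup.map_subgroupOf_eq_of_le h1, Subgroup.map_subgroupOf_eq_of_le hQT] at h4
    exact h4
  obtain ⟨hab, hinv⟩ := h Q (hQT.trans hT) hQp
  by_cases hgC : g ∈ centralizer (Q : Set G)
  · left
    intro t ht
    have := hab.is_comm.comm ⟨g, hgC⟩ ⟨t, hTC ht⟩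
    exact congrArg Subtype.val this
  · right
    obtain ⟨h5, h6⟩ := hinv g hgQ hgC
    refine ⟨?_, fun t ht => h6 t (hTC ht)⟩
    rw [← pow_two]
    exact orderOf_dvd_iff_pow_eq_one.1 h5.dvd

/-- Let p be an odd prime and G a finite group with Sylow p-subgroup P. Say that G has restricted p-by-cyclic subgroups when every subgroup H of G whose Sylow p-subgroup is normal in H with cyclic quotient is itself cyclic or dihedral of order 2pⁿ for some n. Then G has restricted p-by-cyclic subgroups if and only if P is cyclic and one of the following holds: (1) N_G(P) = C_G(P); or (2) N_G(P)/C_G(P) has order 2 and, for the subgroup Q of order p of P, the centralizer C_G(Q) is abelian and every element of N_G(Q) outside C_G(Q) is an involution inverting every element of C_G(Q). -/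
theorem result {G : Type*} [Group G] [Finite G] {p : ℕ}
    [Fact p.Prime] (hp : p ≠ 2) (P : Sylow p G) :
    (∀ H : Subgroup G, (∀ S : Sylow p ↥H, (S : Subgroup ↥H).Normal) →
        (∀ (S : Sylow p ↥H) [(S : Subgroup ↥H).Normal], IsCyclic (↥H ⧸ (S : Subgroup ↥H))) →
        IsCyclic H ∨ (∃ n : ℕ, Nonempty (H ≃* DihedralGroup (p ^ n)))) ↔
    (IsCyclic P ∧
      (Subgroup.normalizer ((P : Subgroup G) : Set G) = Subgroup.centralizer ((P : Subgroup G) : Set G) ∨
       ((Subgroup.centralizer ((P : Subgroup G) : Set G)).relIndex (Subgroup.normalizer ((P : Subgroup G) : Set G)) = 2 ∧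
        ∀ Q : Subgroup G, Q ≤ P → Nat.card Q = p →
          IsMulCommutative ↥(Subgroup.centralizer (Q : Set G)) ∧
          ∀ x : G, x ∈ Subgroup.normalizer (Q : Set G) → x ∉ Subgroup.centralizer (Q : Set G) →
            orderOf x = 2 ∧ ∀ c : G, c ∈ Subgroup.centralizer (Q : Set G) → x * c * x⁻¹ = c⁻¹))) := by
  refine ⟨odd_fwd hp P, ?_⟩
  rintro ⟨hPc, hcase⟩ H h1 h2
  obtain ⟨T, g, hTp, hTH, hHT, hgH, hgo, hH⟩ := exists_gen h1 h2
  have hgT : g ∈ normalizer (T : Set G) := hHT hgH
  obtain ⟨S, hS⟩ := hTp.exists_le_sylow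
  have hTc : IsCyclic T := by
    haveI : IsCyclic S := (MulEquiv.isCyclic (S.equiv P)).2 hPc
    exact isCyclic_of_injective (Subgroup.inclusion hS) (Subgroup.inclusion_injective hS)
  have hmain : (∀ t ∈ T, g * t = t * g) ∨ (g * g = 1 ∧ ∀ t ∈ T, g * t * g⁻¹ = t⁻¹) := by
    rcases hcase with hN | ⟨-, hQ⟩
    · exact Or.inl (commute_of_burnside P hN.le hTp hgT hgo)
    · obtain ⟨w, hw⟩ := MulAction.exists_smul_eq G S P
      have hT' : T.map (MulAut.conj w).toMonoidHom ≤ P := by
        rw [← hw]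
        exact Subgroup.map_mono hS
      have hg' : w * g * w⁻¹ ∈ normalizer ((T.map (MulAut.conj w).toMonoidHom : Subgroup G) : Set G) := by
        rw [mem_normalizer_iff]
        intro y
        constructor
        · rintro ⟨t, ht, rfl⟩
          refine ⟨g * t * g⁻¹, (mem_normalizer_iff.1 hgT t).1 ht, ?_⟩
          show w * (g * t * g⁻¹) * w⁻¹ = w * g * w⁻¹ * (w * t * w⁻¹) * (w * g * w⁻¹)⁻¹
          group
        · rintro ⟨t, ht, h3⟩
          have h4 : w * t * w⁻¹ = w * g * w⁻¹ * y * (w * g * w⁻¹)⁻¹ := h3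
          refine ⟨g⁻¹ * t * g, ?_, ?_⟩
          · apply (mem_normalizer_iff.1 hgT (g⁻¹ * t * g)).2
            have : g * (g⁻¹ * t * g) * g⁻¹ = t := by group
            rw [this]; exact ht
          · show w * (g⁻¹ * t * g) * w⁻¹ = y
            calc w * (g⁻¹ * t * g) * w⁻¹ = (w * g * w⁻¹)⁻¹ * (w * t * w⁻¹) * (w * g * w⁻¹) := by group
              _ = y := by rw [h4]; group
      rcases case_two P hPc hQ hT' hg' with h3 | ⟨h3, h4⟩
      · left
        intro t ht
        have h5 := h3 (w * t * w⁻¹) ⟨t, ht, rfl⟩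
        have h6 : w * (g * t) * w⁻¹ = w * (t * g) * w⁻¹ := by
          calc w * (g * t) * w⁻¹ = w * g * w⁻¹ * (w * t * w⁻¹) := by group
            _ = w * t * w⁻¹ * (w * g * w⁻¹) := h5
            _ = w * (t * g) * w⁻¹ := by group
        exact mul_left_cancel (mul_right_cancel h6)
      · right
        constructor
        · have h6 : w * (g * g) * w⁻¹ = w * 1 * w⁻¹ := by
            calc w * (g * g) * w⁻¹ = w * g * w⁻¹ * (w * g * w⁻¹) := by group
              _ = 1 := h3
              _ = w * 1 * w⁻¹ := by group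
          exact mul_left_cancel (mul_right_cancel h6)
        · intro t ht
          have h5 := h4 (w * t * w⁻¹) ⟨t, ht, rfl⟩
          have h6 : w * (g * t * g⁻¹) * w⁻¹ = w * t⁻¹ * w⁻¹ := by
            calc w * (g * t * g⁻¹) * w⁻¹ = w * g * w⁻¹ * (w * t * w⁻¹) * (w * g * w⁻¹)⁻¹ := by group
              _ = (w * t * w⁻¹)⁻¹ := h5
              _ = w * t⁻¹ * w⁻¹ := by group
          exact mul_left_cancel (mul_right_cancel h6)
  by_cases hcm : ∀ t ∈ T, g * t = t * g
  · exact Or.inl (cyc_of hTc hTp hcm hgo hH)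
  right
  obtain ⟨hgg, hginv⟩ := hmain.resolve_left hcm
  obtain ⟨⟨s, hsT⟩, hs⟩ := hTc.exists_generator
  have hsz : T = zpowers s := by
    apply le_antisymm
    · intro y hy
      obtain ⟨k, hk⟩ := hs ⟨y, hy⟩
      exact ⟨k, congrArg Subtype.val hk⟩
    · exact zpowers_le.2 hsT
  obtain ⟨k, hk⟩ := (IsPGroup.iff_orderOf.1 hTp) ⟨s, hsT⟩
  rw [Subgroup.orderOf_mk] at hk
  refine ⟨k, H4.dihedral_equiv (a := s) (b := g) (hTH hsT) hgH hk hgg (hginv s hsT) ?_ ?_⟩
  · intro h3
    apply hcm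
    obtain ⟨j, rfl⟩ := h3
    intro t ht
    rw [hsz] at ht
    obtain ⟨i, rfl⟩ := ht
    show s ^ j * s ^ i = s ^ i * s ^ j
    rw [← zpow_add, ← zpow_add, add_comm]
  · intro y hy
    rw [hH] at hy
    have hzn : zpowers g ≤ normalizer (T : Set G) := zpowers_le.2 hgT
    have h3 := (Subgroup.sup_eq_closure_mul T (zpowers g))
    have h4 : y ∈ T ∨ g * y ∈ T := by
      have h5 : T ⊔ zpowers g ≤ normalizer (T : Set G) := sup_le le_normalizer hzn
      have hzz : ∀ i : ℤ, g ^ i = 1 ∨ g ^ i = g := by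
        intro i
        rcases Int.even_or_odd' i with ⟨j, rfl | rfl⟩
        · left; rw [zpow_mul, zpow_ofNat, pow_two, hgg, one_zpow]
        · right; rw [zpow_add, zpow_mul, zpow_ofNat, pow_two, hgg, one_zpow, one_mul, zpow_one]
      rw [sup_comm, H18.mem_sup_iff_of_le_normalizer' hzn] at hy
      obtain ⟨t, ht, _, ⟨i, rfl⟩, rfl⟩ := hy
      have ht' : t ∈ T := ht
      rcases hzz i with h7 | h7
      · left
        show t * g ^ i ∈ T
        rw [h7, mul_one]; exact ht'
      · right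
        show g * (t * g ^ i) ∈ T
        rw [h7]
        have h8 := (mem_normalizer_iff.1 hgT t).1 ht'
        have h9 : g⁻¹ = g := inv_eq_of_mul_eq_one_left hgg
        rw [h9] at h8
        rwa [← mul_assoc]
    rwa [hsz] at h4

end Cfsg.Agent.S4082
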