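import Cfsg.Statements.S4083
import Cfsg.Agent.H18.PCyc3
import Cfsg.Agent.H23.ActLem
import Cfsg.Agent.H5.Dk14
import Cfsg.Agent.H5.Dk22

set_option autoImplicit false
open Cfsg
open Subgroup

namespace Cfsg.Agent.S4083

set_option maxHeartbeats 1000000 in
theorem fwd {G : Type*} [Group G] [Finite G] (P : Sylow 2 G)
    (h : ∀ H : Subgroup G, (∀ S : Sylow 2 ↥H, (S : Subgroup ↥H).Normal) →
        (∀ (S : Sylow 2 ↥H) [(S : Subgroup ↥H).Normal], IsCyclic (↥H ⧸ (S : Subgroup ↥H))) →
        IsCyclic H ∨ (∃ n : ℕ, Nonempty (H ≃* DihedralGroup (2 ^ n))) ∨ Nonempty (H ≃* alternatingGroup (Fin 4))) :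
    (IsCyclic P ∨
      ((∃ n : ℕ, 1 ≤ n ∧ Nonempty ((P : Subgroup G) ≃* DihedralGroup (2 ^ n))) ∧
        ∀ K : Subgroup G, K ≤ P → Nat.card K = 4 → (∀ k ∈ K, k ^ 2 = 1) → Subgroup.centralizer (K : Set G) = K)) := by
  haveI : Fact (Nat.Prime 2) := ⟨Nat.prime_two⟩
  have hPT : (P : Subgroup G) = (P : Subgroup G) ⊔ zpowers (1 : G) := by simp
  obtain ⟨a1, a2⟩ := H18.PCyc.hyp_of' P.2 (one_mem _) hPT
  have hfour : ∀ K : Subgroup G, Nat.card K = 4 → (∀ k ∈ K, k ^ 2 = 1) → Subgroup.centralizer (K : Set G) = K := by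
    intro K hK hK2
    have hKp : IsPGroup 2 K := IsPGroup.of_card (n := 2) (by rw [hK]; norm_num)
    have hcomm : ∀ a ∈ K, ∀ b ∈ K, a * b = b * a := by
      intro a ha b hb
      have e1 : a * a = 1 := by rw [← pow_two]; exact hK2 a ha
      have e2 : b * b = 1 := by rw [← pow_two]; exact hK2 b hb
      have e3 : (a * b) * (a * b) = 1 := by rw [← pow_two]; exact hK2 _ (K.mul_mem ha hb)
      have e4 : (a * b)⁻¹ = a * b := inv_eq_of_mul_eq_one_left e3
      rw [← e4, mul_inv_rev, inv_eq_of_mul_eq_one_left e1, inv_eq_of_mul_eq_one_left e2]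
    apply le_antisymm
    · intro c hc
      have hcK : ∀ k ∈ K, k * c = c * k := fun k hk => mem_centralizer_iff.1 hc k hk
      have hcn : c ∈ normalizer (K : Set G) := by
        rw [mem_normalizer_iff]
        intro k
        constructor
        · intro hk
          rw [← hcK k hk]
          simpa using hk
        · intro hk
          have h3 := hcK _ hk
          have h4 : k = c * k * c⁻¹ := by
            have : c⁻¹ * (c * k * c⁻¹ * c) = c⁻¹ * (c * (c * k * c⁻¹)) := by rw [h3]
            calc k = c⁻¹ * (c * k * c⁻¹ * c) := by group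
              _ = c⁻¹ * (c * (c * k * c⁻¹)) := this
              _ = c * k * c⁻¹ := by group
          rw [h4]; exact hk
      obtain ⟨b1, b2⟩ := H18.PCyc.hyp_of' hKp hcn (rfl : K ⊔ zpowers c = K ⊔ zpowers c)
      have hab : ∀ a ∈ K ⊔ zpowers c, ∀ b ∈ K ⊔ zpowers c, a * b = b * a := by
        have g1 : K ⊔ zpowers c ≤ centralizer (K : Set G) := by
          refine sup_le (fun a ha => mem_centralizer_iff.2 fun b hb => hcomm b hb a ha) (zpowers_le.2 hc)
        have g2 : K ⊔ zpowers c ≤ centralizer ({c} : Set G) := by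
          refine sup_le (fun a ha => ?_) ?_
          · rw [mem_centralizer_singleton_iff]; exact (hcK a ha)
          · rw [zpowers_le, mem_centralizer_singleton_iff]
        have g3 : K ⊔ zpowers c ≤ centralizer ((K ⊔ zpowers c : Subgroup G) : Set G) := by
          refine sup_le (fun a ha => mem_centralizer_iff.2 fun b hb => ?_) ?_
          · exact (mem_centralizer_iff.1 (g1 hb) a ha).symm
          · rw [zpowers_le]
            exact mem_centralizer_iff.2 fun b hb => (mem_centralizer_singleton_iff.1 (g2 hb))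
        intro a ha b hb
        exact mem_centralizer_iff.1 (g3 hb) a ha
      have hnc : ¬ IsCyclic (K ⊔ zpowers c : Subgroup G) := by
        intro hcy
        haveI : IsCyclic K := isCyclic_of_injective (Subgroup.inclusion (le_sup_left : K ≤ K ⊔ zpowers c)) (Subgroup.inclusion_injective _)
        have h5 := IsCyclic.exponent_eq_card (α := K)
        have h6 : Monoid.exponent K ∣ 2 := by
          apply Monoid.exponent_dvd_of_forall_pow_eq_one
          rintro ⟨k, hk⟩
          exact Subtype.ext (hK2 k hk)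
        rw [h5, hK] at h6
        norm_num at h6
      rcases h _ b1 b2 with h3 | ⟨n, ⟨e⟩⟩ | ⟨⟨e⟩⟩
      · exact absurd h3 hnc
      · have hn : n ≤ 1 := by
          by_contra hn
          have h5 : ∀ a b : DihedralGroup (2 ^ n), a * b = b * a := by
            intro a b
            have := congrArg e (Subtype.ext (hab _ (e.symm a).2 _ (e.symm b).2) : e.symm a * e.symm b = e.symm b * e.symm a)
            simpa using this
          have h6 := h5 (DihedralGroup.r 1) (DihedralGroup.sr 0)
          simp only [DihedralGroup.r_mul_sr, DihedralGroup.sr_mul_r, DihedralGroup.sr.injEq] at h6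
          have h7 : ((2 : ℕ) : ZMod (2 ^ n)) = 0 := by
            have : (1 : ZMod (2 ^ n)) + 1 = 0 := by
              have h8 : (0 : ZMod (2^n)) - 1 = 0 + 1 := h6
              have h9 : (1 : ZMod (2 ^ n)) + 1 = (0 + 1) + 1 := by ring
              rw [h9, ← h8]; ring
            push_cast
            rw [← this]; ring
          rw [ZMod.natCast_eq_zero_iff] at h7
          have h8 := Nat.le_of_dvd (by norm_num) h7
          have h9 : 2 ^ 2 ≤ 2 ^ n := Nat.pow_le_pow_right (by norm_num) (by omega)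
          omega
        have hcard : Nat.card (K ⊔ zpowers c : Subgroup G) ≤ 4 := by
          rw [Nat.card_congr e.toEquiv, DihedralGroup.nat_card]
          calc 2 * 2 ^ n ≤ 2 * 2 ^ 1 := Nat.mul_le_mul_left _ (Nat.pow_le_pow_right (by norm_num) hn)
            _ = 4 := by norm_num
        have := Subgroup.eq_of_le_of_card_ge (le_sup_left : K ≤ K ⊔ zpowers c) (by rw [hK]; exact hcard)
        rw [this]
        exact (le_sup_right : zpowers c ≤ K ⊔ zpowers c) (mem_zpowers c)
      · exfalso
        obtain ⟨a, b, -, -, hne⟩ := H5.a4_noncomm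
        apply hne
        have := congrArg e (Subtype.ext (hab _ (e.symm a).2 _ (e.symm b).2) : e.symm a * e.symm b = e.symm b * e.symm a)
        simpa using this
    · intro a ha
      exact mem_centralizer_iff.2 fun b hb => hcomm b hb a ha
  rcases h P a1 a2 with h3 | ⟨n, ⟨e⟩⟩ | ⟨⟨e⟩⟩
  · exact Or.inl h3
  · rcases Nat.eq_zero_or_pos n with rfl | hn
    · left
      have h4 : Nat.card (P : Subgroup G) = 2 := by
        rw [Nat.card_congr e.toEquiv, DihedralGroup.nat_card]; norm_num
      exact isCyclic_of_prime_card h4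
    · exact Or.inr ⟨⟨n, hn, ⟨e⟩⟩, fun K _ => hfour K⟩
  · exfalso
    obtain ⟨k, hk⟩ := IsPGroup.iff_card.1 P.2
    have h4 := (Nat.card_congr e.toEquiv).symm.trans hk
    rw [H5.card_A4'] at h4
    have h5 : 3 ∣ 2 ^ k := by rw [← h4]; norm_num
    have h6 := Nat.Prime.dvd_of_dvd_pow Nat.prime_three h5
    norm_num at h6

/-- Let G be a finite group with Sylow 2-subgroup P. Every subgroup H of G whose Sylow 2-subgroup is normal in H with cyclic quotient is cyclic, dihedral of 2-power order, or isomorphic to the alternating group of degree 4, if and only if either P is cyclic, or P is dihedral (of order at least 4) and every elementary abelian subgroup K of order 4 of P satisfies C_G(K) = K. -/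
theorem result {G : Type*} [Group G] [Finite G] (P : Sylow 2 G) :
    (∀ H : Subgroup G, (∀ S : Sylow 2 ↥H, (S : Subgroup ↥H).Normal) →
        (∀ (S : Sylow 2 ↥H) [(S : Subgroup ↥H).Normal], IsCyclic (↥H ⧸ (S : Subgroup ↥H))) →
        IsCyclic H ∨ (∃ n : ℕ, Nonempty (H ≃* DihedralGroup (2 ^ n))) ∨ Nonempty (H ≃* alternatingGroup (Fin 4))) ↔
    (IsCyclic P ∨
      ((∃ n : ℕ, 1 ≤ n ∧ Nonempty ((P : Subgroup G) ≃* DihedralGroup (2 ^ n))) ∧
        ∀ K : Subgroup G, K ≤ P → Nat.card K = 4 → (∀ k ∈ K, k ^ 2 = 1) → Subgroup.centralizer (K : Set G) = K)) := by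
  haveI : Fact (Nat.Prime 2) := ⟨Nat.prime_two⟩
  refine ⟨fwd P, ?_⟩
  rintro (hcyc | ⟨⟨n, hn, ⟨e⟩⟩, hK⟩) H h1 h2
  · left
    obtain ⟨T, g, hTp, hTH, hHT, hgH, hgo, hH⟩ := H18.PCyc.exists_gen h1 h2
    have hgT : g ∈ normalizer (T : Set G) := hHT hgH
    have hTc : IsCyclic T := by
      obtain ⟨Q, hQ⟩ := hTp.exists_le_sylow
      haveI : IsCyclic Q := (MulEquiv.isCyclic (Q.equiv P)).2 hcyc
      exact isCyclic_of_injective (Subgroup.inclusion hQ) (Subgroup.inclusion_injective hQ)
    exact H18.PCyc.cyc_of hTc hTp (H23.commute_of_cyclic_two hTc hTp hgT hgo) hgo hH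
  · exact H18.PCyc.conclude (H18.PCyc.fourC_of hK) (m := 2 ^ n)
      (by calc 2 = 2 ^ 1 := rfl
            _ ≤ 2 ^ n := Nat.pow_le_pow_right (by norm_num) hn) e h1 h2

end Cfsg.Agent.S4083
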