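import Cfsg.Statements.S4084
import Mathlib

set_option autoImplicit false
open Cfsg

namespace Cfsg.Agent.S4084

open Subgroup in
theorem exists_orderOf_of_commuting_iso {G H : Type*} [Group G] [Finite G] [Group H] [Finite H]
    (e : G ≃ H) (he : ∀ x y : G, Commute x y ↔ Commute (e x) (e y))
    {p q : ℕ} (hp : p.Prime) (hq : q.Prime) (hpq : p ≠ q) (h : ∃ g : G, orderOf g = p * q) :
    ∃ h : H, orderOf h = p * q := by
  classical
  obtain ⟨g, hg⟩ := h
  have hfp : Fact p.Prime := ⟨hp⟩
  have hfq : Fact q.Prime := ⟨hq⟩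
  obtain ⟨S, hS⟩ := Set.Finite.exists_maximal
    (Set.toFinite {S : Set G | g ∈ S ∧ ∀ x ∈ S, ∀ y ∈ S, Commute x y})
    ⟨{g}, rfl, by rintro x rfl y rfl; exact Commute.refl _⟩
  obtain ⟨hgS, hcomm⟩ := hS.1
  have hS1 : S = (centralizer S : Set G) := by
    ext x
    rw [SetLike.mem_coe, mem_centralizer_iff]
    constructor
    · intro hx y hy; exact hcomm y hy x hx
    · intro hx
      have h1 := hS.2 (y := insert x S) ⟨Set.mem_insert_of_mem _ hgS, by
        rintro a (rfl | ha) b (rfl | hb)
        · exact Commute.refl _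
        · exact (hx b hb).symm
        · exact hx a ha
        · exact hcomm a ha b hb⟩ (Set.subset_insert _ _)
      exact h1 (Set.mem_insert _ _)
  set T := e '' S with hT
  have hT1 : T = (centralizer T : Set H) := by
    ext x
    rw [SetLike.mem_coe, mem_centralizer_iff]
    constructor
    · rintro ⟨a, ha, rfl⟩ _ ⟨b, hb, rfl⟩
      exact (he b a).1 (hcomm b hb a ha)
    · intro hx
      refine ⟨e.symm x, ?_, e.apply_symm_apply x⟩
      rw [hS1, SetLike.mem_coe, mem_centralizer_iff]
      intro y hy
      have h1 : Commute (e y) (e (e.symm x)) := by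
        rw [e.apply_symm_apply]; exact hx (e y) ⟨y, hy, rfl⟩
      exact (he _ _).2 h1
  have hcard : Nat.card (centralizer T) = Nat.card (centralizer S) := by
    have h1 : T.ncard = S.ncard := Set.ncard_image_of_injective S e.injective
    have h2 : Nat.card (centralizer T) = T.ncard := by
      have := congrArg Set.ncard hT1
      rw [this, ← Nat.card_coe_set_eq]; rfl
    have h3 : Nat.card (centralizer S) = S.ncard := by
      have := congrArg Set.ncard hS1
      rw [this, ← Nat.card_coe_set_eq]; rfl
    rw [h2, h3, h1]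
  have hgC : g ∈ centralizer S := by
    rw [← SetLike.mem_coe, ← hS1]; exact hgS
  have hd : p * q ∣ Nat.card (centralizer T) := by
    rw [hcard, ← hg]; exact Subgroup.orderOf_dvd_natCard _ hgC
  obtain ⟨a, ha⟩ := exists_prime_orderOf_dvd_card' p ((Dvd.intro _ rfl).trans hd)
  obtain ⟨b, hb⟩ := exists_prime_orderOf_dvd_card' q ((Dvd.intro_left _ rfl).trans hd)
  have haT : (a : H) ∈ T := (Set.ext_iff.1 hT1 (a : H)).2 a.2
  have hab : Commute (a : H) (b : H) := mem_centralizer_iff.1 b.2 a haT
  refine ⟨a * b, ?_⟩
  rw [hab.orderOf_mul_eq_mul_orderOf_of_coprime, Subgroup.orderOf_coe, Subgroup.orderOf_coe, ha, hb]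
  rw [Subgroup.orderOf_coe, Subgroup.orderOf_coe, ha, hb]
  exact (Nat.coprime_primes hp hq).2 hpq

/-- Let G and H be finite groups whose commuting graphs are isomorphic: there is a bijection e : G → H with x, y commuting exactly when e(x), e(y) commute. Then G and H have the same prime graph: for distinct primes p, q, G has an element of order pq if and only if H does (and #G = #H, so the prime divisors agree). -/
theorem result {G H : Type*} [Group G] [Finite G] [Group H] [Finite H] (e : G ≃ H)
    (he : ∀ x y : G, Commute x y ↔ Commute (e x) (e y))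
    {p q : ℕ} (hp : p.Prime) (hq : q.Prime) (hpq : p ≠ q) :
    (∃ g : G, orderOf g = p * q) ↔ (∃ h : H, orderOf h = p * q) := by
  refine ⟨exists_orderOf_of_commuting_iso e he hp hq hpq, ?_⟩
  refine exists_orderOf_of_commuting_iso e.symm ?_ hp hq hpq
  intro x y
  rw [he, e.apply_symm_apply, e.apply_symm_apply]

end Cfsg.Agent.S4084
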