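import Cfsg.Statements.S4086
import Mathlib

set_option autoImplicit false
open Cfsg

namespace Cfsg.Agent.S4086

/-- For a finite group G the following are equivalent: every non-identity element has prime-power order; whenever two elements generate a cyclic subgroup, one of them is a power of the other (the enhanced power graph of G coincides with its power graph). -/
theorem result {G : Type*} [Group G] [Finite G] :
    (∀ g : G, g ≠ 1 → IsPrimePow (orderOf g)) ↔
    (∀ x y : G, IsCyclic ↥(Subgroup.closure ({x, y} : Set G)) → (x ∈ Subgroup.zpowers y ∨ y ∈ Subgroup.zpowers x)) := by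
  classical
  constructor
  · intro h x y hcyc
    obtain ⟨g, hg⟩ := hcyc.exists_generator
    have hx : x ∈ Subgroup.closure ({x, y} : Set G) := Subgroup.subset_closure (by simp)
    have hy : y ∈ Subgroup.closure ({x, y} : Set G) := Subgroup.subset_closure (by simp)
    -- order divisibility implies membership
    have key : ∀ a b : Subgroup.closure ({x, y} : Set G), orderOf a ∣ orderOf b →
        a ∈ Subgroup.zpowers b := by
      intro a b hab
      have := Fintype.ofFinite (Subgroup.closure ({x, y} : Set G))
      have h1 := IsCyclic.card_pow_eq_one_le (α := Subgroup.closure ({x, y} : Set G))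
        (orderOf_pos b)
      have h2 : (Finset.univ.filter (fun z => z ∈ Subgroup.zpowers b)) ⊆
          Finset.univ.filter (fun z : Subgroup.closure ({x, y} : Set G) => z ^ orderOf b = 1) := by
        intro z hz
        rw [Finset.mem_filter] at hz ⊢
        refine ⟨Finset.mem_univ _, ?_⟩
        exact orderOf_dvd_iff_pow_eq_one.1 (by
          have := Subgroup.orderOf_dvd_natCard _ hz.2
          rwa [Nat.card_zpowers] at this)
      have h3 : (Finset.univ.filter (fun z => z ∈ Subgroup.zpowers b)).card = orderOf b := by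
        rw [← Nat.card_zpowers, Nat.card_eq_fintype_card, Fintype.card_subtype]
      have h4 := Finset.eq_of_subset_of_card_le h2 (by rw [h3]; exact h1)
      have h5 : a ∈ Finset.univ.filter (fun z : Subgroup.closure ({x, y} : Set G) =>
          z ^ orderOf b = 1) := by
        rw [Finset.mem_filter]
        exact ⟨Finset.mem_univ _, orderOf_dvd_iff_pow_eq_one.1 hab⟩
      rw [← h4, Finset.mem_filter] at h5
      exact h5.2
    have hmap : ∀ a b : Subgroup.closure ({x, y} : Set G), a ∈ Subgroup.zpowers b →
        (a : G) ∈ Subgroup.zpowers (b : G) := by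
      rintro a b ⟨k, hk⟩
      refine ⟨k, ?_⟩
      have : (b ^ k : Subgroup.closure ({x, y} : Set G)) = a := hk
      rw [← this]; rfl
    by_cases hg1 : g = 1
    · left
      have : (⟨x, hx⟩ : Subgroup.closure ({x, y} : Set G)) = 1 := by
        have h1 := hg ⟨x, hx⟩
        rw [hg1, Subgroup.zpowers_one_eq_bot, Subgroup.mem_bot] at h1
        exact h1
      have hx1 : x = 1 := congrArg Subtype.val this
      rw [hx1]; exact one_mem _
    have hgp : IsPrimePow (orderOf (g : G)) := h g (fun h => hg1 (Subtype.ext h))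
    rw [Subgroup.orderOf_coe] at hgp
    obtain ⟨p, k, hp, hk, hpk⟩ := hgp
    have hp' := hp.nat_prime
    have hdiv : ∀ a : Subgroup.closure ({x, y} : Set G), ∃ i, orderOf a = p ^ i := by
      intro a
      have h1 : orderOf a ∣ p ^ k := by
        rw [hpk]
        have := Subgroup.orderOf_dvd_natCard _ (hg a)
        rwa [Nat.card_zpowers] at this
      obtain ⟨i, -, hi⟩ := (Nat.dvd_prime_pow hp').1 h1
      exact ⟨i, hi⟩
    obtain ⟨i, hi⟩ := hdiv ⟨x, hx⟩
    obtain ⟨j, hj⟩ := hdiv ⟨y, hy⟩
    rcases le_total i j with hij | hij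
    · left
      exact hmap _ _ (key ⟨x, hx⟩ ⟨y, hy⟩ (by rw [hi, hj]; exact pow_dvd_pow p hij))
    · right
      exact hmap _ _ (key ⟨y, hy⟩ ⟨x, hx⟩ (by rw [hi, hj]; exact pow_dvd_pow p hij))
  · intro h g hg
    by_contra hnp
    set n := orderOf g with hn
    have hn1 : n ≠ 1 := fun h1 => hg (orderOf_eq_one_iff.1 h1)
    have hn0 : n ≠ 0 := (orderOf_pos g).ne'
    obtain ⟨p, hp, hpn⟩ := Nat.exists_prime_and_dvd hn1
    obtain ⟨k, m, hm, hnm⟩ := Nat.exists_eq_pow_mul_and_not_dvd hn0 p hp.ne_one
    have hk0 : k ≠ 0 := by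
      rintro rfl
      rw [pow_zero, one_mul] at hnm
      exact hm (hnm ▸ hpn)
    have hm1 : m ≠ 1 := by
      rintro rfl
      apply hnp
      rw [hnm, mul_one]
      exact hp.isPrimePow.pow hk0
    have hm0 : m ≠ 0 := by
      rintro rfl
      exact hm (dvd_zero p)
    have hcop : Nat.Coprime (p ^ k) m := Nat.Coprime.pow_left _ ((Nat.Prime.coprime_iff_not_dvd hp).2 hm)
    have ho1 : orderOf (g ^ (p ^ k)) = m := by
      rw [orderOf_pow_of_dvd (pow_pos hp.pos k).ne' (by rw [← hn, hnm]; exact Dvd.intro _ rfl),
        ← hn, hnm, Nat.mul_div_cancel_left _ (pow_pos hp.pos k)]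
    have ho2 : orderOf (g ^ m) = p ^ k := by
      rw [orderOf_pow_of_dvd hm0 (by rw [← hn, hnm]; exact Dvd.intro_left _ rfl),
        ← hn, hnm, Nat.mul_div_cancel _ (Nat.pos_of_ne_zero hm0)]
    have hcyc : IsCyclic ↥(Subgroup.closure ({g ^ (p ^ k), g ^ m} : Set G)) := by
      have hle : Subgroup.closure ({g ^ (p ^ k), g ^ m} : Set G) ≤ Subgroup.zpowers g := by
        rw [Subgroup.closure_le]
        rintro z (rfl | rfl)
        · exact (Subgroup.zpowers g).pow_mem (Subgroup.mem_zpowers g) _
        · exact (Subgroup.zpowers g).pow_mem (Subgroup.mem_zpowers g) _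
      exact isCyclic_of_injective (Subgroup.inclusion hle) (Subgroup.inclusion_injective hle)
    rcases h _ _ hcyc with h1 | h1
    · have h2 := Subgroup.orderOf_dvd_natCard _ h1
      rw [Nat.card_zpowers, ho1, ho2] at h2
      have h3 := Nat.Coprime.eq_one_of_dvd hcop.symm h2
      exact hm1 h3
    · have h2 := Subgroup.orderOf_dvd_natCard _ h1
      rw [Nat.card_zpowers, ho1, ho2] at h2
      have h3 := Nat.Coprime.eq_one_of_dvd hcop h2
      exact hk0 (by
        rcases Nat.pow_eq_one.1 h3 with h4 | h4
        · exact absurd h4 hp.ne_one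
        · exact h4)

end Cfsg.Agent.S4086
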