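import Cfsg.Statements.S4088
import Cfsg.Agent.H24.SubCnt

set_option autoImplicit false
open Cfsg

namespace Cfsg.Agent.S4088

open Subgroup Cfsg.Agent.H24
open scoped Pointwise

theorem sylow_top {G : Type*} [Group G] [Finite G] (p : ℕ) [Fact p.Prime] (P : Sylow p G) :
    H23.IsSylowOf p (P : Subgroup G) ⊤ := by
  rw [H23.isSylowOf_iff]
  refine ⟨le_top, P.2, ?_⟩
  rw [relIndex_top_right]
  exact P.not_dvd_index

/-- Let G be a finite group, p a prime dividing the order of G, H a p-subgroup of G and P a Sylow p-subgroup of G. Call the subnormalizer of H the set of elements g of G such that H is subnormal in the subgroup generated by H and g. Then the number of elements of the subnormalizer of H equals the number of Sylow p-subgroups of G containing H times the order of N_G(P), and also equals the number of conjugates of H contained in P times the order of N_G(H). -/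
theorem result {G : Type*} [Group G] [Finite G] (p : ℕ) [Fact p.Prime]
    (hp : p ∣ Nat.card G) (H : Subgroup G) (hH : IsPGroup p H) (P : Sylow p G) :
    Nat.card {g : G // ((H).subgroupOf (H ⊔ Subgroup.zpowers g)).IsSubnormal} =
        Nat.card {Q : Sylow p G // H ≤ (Q : Subgroup G)} * Nat.card (Subgroup.normalizer ((P : Subgroup G) : Set G)) ∧
    Nat.card {g : G // ((H).subgroupOf (H ⊔ Subgroup.zpowers g)).IsSubnormal} =
        Nat.card {K : Subgroup G // K ≤ (P : Subgroup G) ∧ ∃ g : G, K = H.map (MulAut.conj g).toMonoidHom} *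
          Nat.card (Subgroup.normalizer (H : Set G)) := by
  have h0 := SubCnt.main H hH ⊤ le_top (P : Subgroup G) (sylow_top p P)
  have h1 : Nat.card {g : G // ((H).subgroupOf (H ⊔ Subgroup.zpowers g)).IsSubnormal} =
      Nat.card {g : G // g ∈ (⊤ : Subgroup G) ∧ (H.subgroupOf (H ⊔ zpowers g)).IsSubnormal} :=
    Nat.card_congr (Equiv.subtypeEquivRight fun g => by simp)
  constructor
  · rw [h1, h0, SubCnt.card_fib ⊤ (P : Subgroup G) (fun Q => H ≤ Q), top_inf_eq]
    congr 1
    refine (Nat.card_congr (Equiv.ofBijective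
      (fun Q : {Q : Sylow p G // H ≤ (Q : Subgroup G)} =>
        (⟨(Q.1 : Subgroup G), Q.2, by
          obtain ⟨g, hg⟩ := MulAction.exists_smul_eq G P Q.1
          exact ⟨g, mem_top g, by rw [← hg, Sylow.coe_subgroup_smul]⟩⟩ :
          {Q : Subgroup G // H ≤ Q ∧ ∃ g ∈ (⊤ : Subgroup G), MulAut.conj g • (P : Subgroup G) = Q})) ⟨?_, ?_⟩)).symm
    · intro Q Q' h
      have : (Q.1 : Subgroup G) = Q'.1 := congrArg Subtype.val h
      exact Subtype.ext (Sylow.ext this)
    · rintro ⟨Q, hQ, g, -, rfl⟩
      exact ⟨⟨g • P, by rw [Sylow.coe_subgroup_smul]; exact hQ⟩, Subtype.ext (by simp [Sylow.coe_subgroup_smul])⟩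
  · have h2 : Nat.card {g : G // g ∈ (⊤ : Subgroup G) ∧ H ≤ MulAut.conj g • (P : Subgroup G)} =
        Nat.card {g : G // g ∈ (⊤ : Subgroup G) ∧ MulAut.conj g • H ≤ (P : Subgroup G)} := by
      refine Nat.card_congr ((Equiv.inv G).subtypeEquiv fun g => ?_)
      simp only [mem_top, true_and, Equiv.inv_apply, map_inv]
      constructor
      · intro h
        have := H1.conj_smul_le_conj_smul_iff (g := g⁻¹) |>.mpr h
        rwa [map_inv, inv_smul_smul] at this
      · intro h
        have := H1.conj_smul_le_conj_smul_iff (g := g) |>.mpr h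
        rwa [smul_inv_smul] at this
    rw [h1, h0, h2, SubCnt.card_fib ⊤ H (fun Q => Q ≤ (P : Subgroup G)), top_inf_eq]
    congr 1
    refine Nat.card_congr (Equiv.subtypeEquivRight fun K => ?_)
    refine and_congr_right fun _ => ?_
    constructor
    · rintro ⟨g, -, rfl⟩; exact ⟨g, rfl⟩
    · rintro ⟨g, rfl⟩; exact ⟨g, mem_top g, rfl⟩

end Cfsg.Agent.S4088
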