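import Cfsg.Statements.S4089
import Mathlib
import Cfsg.Agent.H10.SubnIn
import Cfsg.Agent.H18.Subnormal

set_option autoImplicit false
set_option linter.all false
open Cfsg

namespace Cfsg.Agent.S4089

open Cfsg.Agent.H10

theorem subn_iff {G : Type*} [Group G] [Finite G] (p : ℕ) [Fact p.Prime]
    (H : Subgroup G) (hH : IsPGroup p H) (g : G) :
    ((H).subgroupOf (H ⊔ Subgroup.zpowers g)).IsSubnormal ↔
      ∃ R : Subgroup G, IsPGroup p R ∧ H ≤ R ∧ g ∈ Subgroup.normalizer (R : Set G) := by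
  constructor
  · intro h
    have h1 : SubnIn H (H ⊔ Subgroup.zpowers g) := ⟨le_sup_left, h⟩
    refine ⟨cO p (H ⊔ Subgroup.zpowers g), cO_isPGroup p _, le_cO_of_subnIn h1 hH, ?_⟩
    exact (Subgroup.le_normalizer.trans (le_normalizer_cO p _))
      ((le_sup_right : Subgroup.zpowers g ≤ H ⊔ Subgroup.zpowers g) (Subgroup.mem_zpowers g))
  · rintro ⟨R, hR, hHR, hg⟩
    have h1 : SubnIn H R := ⟨hHR, Cfsg.Agent.H18.isSubnormal_of_isPGroup hR _⟩
    have h2 : SubnIn R (R ⊔ Subgroup.zpowers g) := by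
      apply subnIn_of_normal le_sup_left
      refine sup_le Subgroup.le_normalizer ?_
      rw [Subgroup.zpowers_le]
      exact hg
    exact ((h1.trans h2).mono le_sup_left (sup_le_sup_right hHR _)).2

open scoped Pointwise in
theorem norm_sInf {G : Type*} [Group G] (p : ℕ) (R : Subgroup G) {g x : G}
    (hg : g ∈ Subgroup.normalizer (R : Set G))
    (hx : x ∈ sInf {K : Subgroup G | ∃ Q : Sylow p G, R ≤ (Q : Subgroup G) ∧ K = (Q : Subgroup G)}) :
    g * x * g⁻¹ ∈
      sInf {K : Subgroup G | ∃ Q : Sylow p G, R ≤ (Q : Subgroup G) ∧ K = (Q : Subgroup G)} := by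
  rw [Subgroup.mem_sInf] at hx ⊢
  rintro K ⟨Q, hQ, rfl⟩
  have h1 : R ≤ ((g⁻¹ • Q : Sylow p G) : Subgroup G) := by
    intro y hy
    rw [Sylow.smul_def, Sylow.pointwise_smul_def, Subgroup.mem_pointwise_smul_iff_inv_smul_mem,
      ← map_inv, inv_inv, MulAut.smul_def, MulAut.conj_apply]
    exact hQ ((Subgroup.mem_normalizer_iff.1 hg y).1 hy)
  have h2 := hx _ ⟨_, h1, rfl⟩
  rw [Sylow.smul_def, Sylow.pointwise_smul_def, Subgroup.mem_pointwise_smul_iff_inv_smul_mem,
      ← map_inv, inv_inv, MulAut.smul_def, MulAut.conj_apply] at h2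
  exact h2


/-- Let G be a finite group, p a prime and H a p-subgroup of G. Then the set of elements g of G such that H is subnormal in the subgroup generated by H and g is the union of the normalizers N_G(R) over the subgroups R of G containing H with R = O_p(N_G(R)); and this set does not change when H is replaced by the intersection of all Sylow p-subgroups of G containing H. -/
theorem result {G : Type*} [Group G] [Finite G] (p : ℕ) [Fact p.Prime]
    (H : Subgroup G) (hH : IsPGroup p H) :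
    {g : G | ((H).subgroupOf (H ⊔ Subgroup.zpowers g)).IsSubnormal} =
      {g : G | ∃ R : Subgroup G, H ≤ R ∧ (Cfsg.pCore p (Subgroup.normalizer (R : Set G))).map (Subgroup.normalizer (R : Set G)).subtype = R ∧ g ∈ Subgroup.normalizer (R : Set G)} ∧
    ∀ g : G, (((H).subgroupOf (H ⊔ Subgroup.zpowers g)).IsSubnormal ↔
      (((sInf {K : Subgroup G | ∃ Q : Sylow p G, H ≤ (Q : Subgroup G) ∧ K = (Q : Subgroup G)})).subgroupOf ((sInf {K : Subgroup G | ∃ Q : Sylow p G, H ≤ (Q : Subgroup G) ∧ K = (Q : Subgroup G)}) ⊔ Subgroup.zpowers g)).IsSubnormal) := by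
  constructor
  · ext g
    simp only [Set.mem_setOf_eq]
    rw [subn_iff p H hH g]
    constructor
    · rintro ⟨R, hR, hHR, hg⟩
      obtain ⟨M, hM, hmax⟩ := Set.Finite.exists_le_maximal
        (Set.toFinite {R : Subgroup G | IsPGroup p R ∧ H ≤ R ∧ g ∈ Subgroup.normalizer (R : Set G)})
        (show R ∈ _ from ⟨hR, hHR, hg⟩)
      refine ⟨M, hmax.1.2.1, ?_, hmax.1.2.2⟩
      have h1 : M ≤ cO p (Subgroup.normalizer (M : Set G)) :=
        le_cO_of_normal Subgroup.le_normalizer le_rfl hmax.1.1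
      apply le_antisymm _ h1
      refine hmax.2 ⟨cO_isPGroup p _, hmax.1.2.1.trans h1, ?_⟩ h1
      exact (Subgroup.le_normalizer.trans (le_normalizer_cO p _)) hmax.1.2.2
    · rintro ⟨R, hHR, hR, hg⟩
      refine ⟨R, ?_, hHR, hg⟩
      rw [← hR]
      exact cO_isPGroup p _
  · intro g
    set Hs := sInf {K : Subgroup G | ∃ Q : Sylow p G, H ≤ (Q : Subgroup G) ∧ K = (Q : Subgroup G)}
      with hHs
    obtain ⟨Q, hQ⟩ := hH.exists_le_sylow
    have hHHs : H ≤ Hs := le_sInf (by rintro K ⟨Q, hQ, rfl⟩; exact hQ)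
    have hHsp : IsPGroup p Hs := Q.isPGroup'.to_le (sInf_le ⟨Q, hQ, rfl⟩)
    rw [subn_iff p H hH g, subn_iff p Hs hHsp g]
    constructor
    · rintro ⟨R, hR, hHR, hg⟩
      set Rs := sInf {K : Subgroup G | ∃ Q : Sylow p G, R ≤ (Q : Subgroup G) ∧ K = (Q : Subgroup G)}
        with hRs
      obtain ⟨Q', hQ'⟩ := hR.exists_le_sylow
      refine ⟨Rs, Q'.isPGroup'.to_le (sInf_le ⟨Q', hQ', rfl⟩), ?_, ?_⟩
      · exact sInf_le_sInf (by rintro K ⟨Q, hQ, rfl⟩; exact ⟨Q, hHR.trans hQ, rfl⟩)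
      · rw [Subgroup.mem_normalizer_iff]
        intro x
        constructor
        · exact fun hx => norm_sInf p R hg hx
        · intro hx
          have := norm_sInf p R (inv_mem hg) hx
          have h3 : g⁻¹ * (g * x * g⁻¹) * g⁻¹⁻¹ = x := by group
          rwa [h3] at this
    · rintro ⟨R, hR, hHR, hg⟩
      exact ⟨R, hR, hHHs.trans hHR, hg⟩

end Cfsg.Agent.S4089
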