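import Cfsg.Statements.S4090
import Cfsg.Agent.H24.SubCnt2

set_option autoImplicit false
open scoped BigOperators
open Cfsg

namespace Cfsg.Agent.S4090

open Subgroup Cfsg.Agent.H24
open scoped Pointwise

/-- Let G be a finite p-solvable group, H a p-subgroup of G and P a Sylow p-subgroup, and fix a chain of normal subgroups 1 = M₀ ≤ M₁ ≤ ⋯ ≤ Mₙ = G of G each of whose factors is a p-group or a p'-group. Then the number of elements g of G such that H is subnormal in the subgroup generated by H and g equals the order of P times the product, over the factors Mᵢ₊₁/Mᵢ of order prime to p, of the order of the centralizer of H in Mᵢ₊₁/Mᵢ (counted as the number of u ∈ Mᵢ₊₁ with [h, u] ∈ Mᵢ for all h ∈ H, divided by the order of Mᵢ). -/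
theorem result {G : Type*} [Group G] [Finite G] (p : ℕ) [Fact p.Prime]
    (hG : Cfsg.IsPSolvable p G) (H : Subgroup G) (hH : IsPGroup p H) (P : Sylow p G)
    (n : ℕ) (M : Fin (n + 1) → Subgroup G) (h0 : M 0 = ⊥) (hn : M (Fin.last n) = ⊤) (hmono : Monotone M)
    (hnormal : ∀ i, (M i).Normal)
    (hfac : ∀ i : Fin n, (∃ m : ℕ, (M i.castSucc).relIndex (M i.succ) = p ^ m) ∨ ((M i.castSucc).relIndex (M i.succ)).Coprime p) :
    Nat.card {g : G // ((H).subgroupOf (H ⊔ Subgroup.zpowers g)).IsSubnormal} =
      Nat.card (P : Subgroup G) *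
        ∏ i : Fin n, (if ((M i.castSucc).relIndex (M i.succ)).Coprime p then
          Nat.card {u : G // u ∈ M i.succ ∧ ∀ h ∈ H, h * u * h⁻¹ * u⁻¹ ∈ M i.castSucc} / Nat.card (M i.castSucc)
          else 1) := by
  classical
  haveI := hnormal
  have hp := Fact.out (p := p.Prime)
  -- the counting functions
  let T : Fin (n + 1) → ℕ := fun i => Nat.card {g : G // SubCnt.SA H (P : Subgroup G) (M i) g}
  let a : Fin n → ℕ := fun i => if ((M i.castSucc).relIndex (M i.succ)).Coprime p then
    (M i.castSucc).relIndex (M i.succ) else 1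
  let c : Fin n → ℕ := fun i => (if ((M i.castSucc).relIndex (M i.succ)).Coprime p then
          Nat.card {u : G // u ∈ M i.succ ∧ ∀ h ∈ H, h * u * h⁻¹ * u⁻¹ ∈ M i.castSucc} / Nat.card (M i.castSucc)
          else 1)
  let b : Fin (n + 1) → ℕ := fun i => Nat.card ((P : Subgroup G) ⊔ M i : Subgroup G)
  have hle : ∀ i : Fin n, M i.castSucc ≤ M i.succ := fun i => hmono (Fin.castSucc_le_succ i)
  have hT : ∀ i : Fin n, T i.castSucc * a i = c i * T i.succ := by
    intro i
    show Nat.card {g : G // SubCnt.SA H (P : Subgroup G) (M i.castSucc) g} * (if ((M i.castSucc).relIndex (M i.succ)).Coprime p then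
      (M i.castSucc).relIndex (M i.succ) else 1) = (if ((M i.castSucc).relIndex (M i.succ)).Coprime p then
          Nat.card {u : G // u ∈ M i.succ ∧ ∀ h ∈ H, h * u * h⁻¹ * u⁻¹ ∈ M i.castSucc} / Nat.card (M i.castSucc)
          else 1) * Nat.card {g : G // SubCnt.SA H (P : Subgroup G) (M i.succ) g}
    split_ifs with hc
    · have h1 := SubCnt.core hH P (M i.castSucc) (M i.succ) (hle i) hc
      have h2 := H2.card_relIndex_mul_card (hle i)
      have h3 : M i.castSucc ≤ SubCnt.CC H (M i.castSucc) (M i.succ) := by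
        intro u hu
        refine ⟨hle i hu, fun h _ => ?_⟩
        exact mul_mem ((hnormal i.castSucc).conj_mem _ hu h) (inv_mem hu)
      have h4 := H2.card_relIndex_mul_card h3
      have h5 : Nat.card {u : G // u ∈ M i.succ ∧ ∀ h ∈ H, h * u * h⁻¹ * u⁻¹ ∈ M i.castSucc} =
          Nat.card (SubCnt.CC H (M i.castSucc) (M i.succ)) := rfl
      have h6 : 0 < Nat.card (M i.castSucc) := Nat.card_pos
      rw [h5, ← h4, Nat.mul_div_cancel _ h6]
      apply Nat.eq_of_mul_eq_mul_right h6
      rw [← h4, ← h2] at h1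
      calc _ = Nat.card {g : G // SubCnt.SA H (P : Subgroup G) (M i.castSucc) g} *
            ((M i.castSucc).relIndex (M i.succ) * Nat.card (M i.castSucc)) := by ring
        _ = _ := by rw [h1]; ring
    · obtain ⟨m, hm⟩ := (hfac i).resolve_right hc
      have h1 := SubCnt.le_of_ppower P (M i.castSucc) (M i.succ) hm
      rw [mul_one, one_mul]
      refine Nat.card_congr (Equiv.subtypeEquivRight fun g => ⟨fun h => h.mono (hle i), fun h => ?_⟩)
      intro x hx
      exact (sup_le le_sup_left h1 : (P : Subgroup G) ⊔ M i.succ ≤ (P : Subgroup G) ⊔ M i.castSucc) (h x hx)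
  have hb : ∀ i : Fin n, b i.castSucc * a i = 1 * b i.succ := by
    intro i
    show Nat.card ((P : Subgroup G) ⊔ M i.castSucc : Subgroup G) * (if ((M i.castSucc).relIndex (M i.succ)).Coprime p then
      (M i.castSucc).relIndex (M i.succ) else 1) = 1 * Nat.card ((P : Subgroup G) ⊔ M i.succ : Subgroup G)
    split_ifs with hc
    · rw [SubCnt.card_sup_eq P (M i.castSucc) (M i.succ) (hle i) hc, one_mul]
    · obtain ⟨m, hm⟩ := (hfac i).resolve_right hc
      have h1 := SubCnt.le_of_ppower P (M i.castSucc) (M i.succ) hm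
      have h2 : (P : Subgroup G) ⊔ M i.castSucc = (P : Subgroup G) ⊔ M i.succ :=
        le_antisymm (sup_le_sup_left (hle i) _) (sup_le le_sup_left h1)
      rw [h2, mul_one, one_mul]
  have t1 := SubCnt.telescope n T a c hT
  have t2 := SubCnt.telescope n b a (fun _ => 1) hb
  have hT0 : T 0 = Nat.card {g : G // ((H).subgroupOf (H ⊔ Subgroup.zpowers g)).IsSubnormal} := by
    have h0 := SubCnt.main H hH ⊤ le_top (P : Subgroup G) (SubCnt.sylow_top P)
    have h1 : Nat.card {g : G // ((H).subgroupOf (H ⊔ Subgroup.zpowers g)).IsSubnormal} =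
        Nat.card {g : G // g ∈ (⊤ : Subgroup G) ∧ (H.subgroupOf (H ⊔ zpowers g)).IsSubnormal} :=
      Nat.card_congr (Equiv.subtypeEquivRight fun g => by simp)
    rw [h1, h0]
    refine Nat.card_congr ((Equiv.inv G).subtypeEquiv fun g => ?_)
    simp only [mem_top, true_and, Equiv.inv_apply]
    constructor
    · intro h x hx
      have h3 : g * x * g⁻¹ ∈ (P : Subgroup G) := by
        have := h x hx
        rw [‹M 0 = ⊥›] at this
        simpa using this
      exact ⟨g * x * g⁻¹, h3, by simp [mul_assoc]⟩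
    · intro h x hx
      obtain ⟨y, hy, hyx⟩ := h hx
      have hyx' : g⁻¹ * y * g = x := by simpa using hyx
      have : g * x * g⁻¹ = y := by rw [← hyx']; group
      rw [this]
      exact mem_sup_left hy
  have hTn : T (Fin.last n) = b (Fin.last n) := by
    show Nat.card {g : G // SubCnt.SA H (P : Subgroup G) (M (Fin.last n)) g} =
      Nat.card ((P : Subgroup G) ⊔ M (Fin.last n) : Subgroup G)
    rw [hn, sup_top_eq]
    refine Nat.card_congr (Equiv.subtypeEquivRight fun g => ⟨fun _ => mem_top g, fun _ x _ => ?_⟩)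
    rw [sup_top_eq]; exact mem_top _
  have hb0 : b 0 = Nat.card (P : Subgroup G) := by
    show Nat.card ((P : Subgroup G) ⊔ M 0 : Subgroup G) = _
    rw [h0, sup_bot_eq]
  have ha : ∏ i, a i ≠ 0 := by
    rw [Finset.prod_ne_zero_iff]
    intro i _
    show (if ((M i.castSucc).relIndex (M i.succ)).Coprime p then
      (M i.castSucc).relIndex (M i.succ) else 1) ≠ 0
    split_ifs
    · intro h
      have h2 := H2.card_relIndex_mul_card (hle i)
      rw [h, zero_mul] at h2
      exact Nat.card_pos.ne h2
    · exact one_ne_zero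
  rw [← hT0]
  show T 0 = Nat.card (P : Subgroup G) * ∏ i, c i
  rw [Finset.prod_const_one, one_mul] at t2
  rw [hTn, ← t2, hb0] at t1
  apply Nat.eq_of_mul_eq_mul_right (Nat.pos_of_ne_zero ha)
  rw [t1]; ring

end Cfsg.Agent.S4090
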