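import Cfsg.Statements.S4091
import Cfsg.Agent.H24.PElem5

set_option autoImplicit false
open Cfsg

namespace Cfsg.Agent.S4091

open Subgroup Cfsg.Agent.H24

universe u

theorem mc_zpowers_eq {G : Type*} [Group G] [Fintype G] (P : Subgroup G)
    [DecidablePred (· ∈ P)] (y : G) :
    (mc P (zpowers y) : ℝ) = ∑ g : G, (if g * y * g⁻¹ ∈ P then (1 : ℝ) else 0) := by
  classical
  rw [Finset.sum_boole]
  unfold mc
  rw [Nat.card_eq_fintype_card, Fintype.card_subtype]
  congr 2
  ext g
  simp only [Finset.mem_filter, Finset.mem_univ, true_and]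
  constructor
  · intro h; exact h y (mem_zpowers y)
  · rintro h _ ⟨k, rfl⟩
    have : g * y ^ k * g⁻¹ = (g * y * g⁻¹) ^ k := by rw [conj_zpow]
    show g * y ^ k * g⁻¹ ∈ P
    rw [this]
    exact P.zpow_mem h k

theorem count_pelem {G : Type*} [Group G] [Fintype G] (p : ℕ) [hp : Fact p.Prime] (P : Sylow p G)
    [Fintype (P : Subgroup G)] :
    (Nat.card {g : G // ∃ k : ℕ, orderOf g = p ^ k} : ℝ) = Nat.card G *
      ∑ x : (P : Subgroup G), (1 / (mc (P : Subgroup G) (zpowers (x : G)) : ℝ)) := by
  classical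
  set c : G → ℝ := fun y => (mc (P : Subgroup G) (zpowers y) : ℝ) with hc
  have hcs : ∀ y, c y = ∑ g : G, (if g * y * g⁻¹ ∈ (P : Subgroup G) then (1 : ℝ) else 0) :=
    fun y => mc_zpowers_eq _ y
  have hconj : ∀ g y : G, c (g⁻¹ * y * g) = c y := by
    intro g y
    rw [hcs, hcs]
    refine Fintype.sum_equiv (Equiv.mulRight g⁻¹) _ _ fun h => ?_
    have : h * (g⁻¹ * y * g) * h⁻¹ = (Equiv.mulRight g⁻¹) h * y * ((Equiv.mulRight g⁻¹) h)⁻¹ := by
      simp [mul_assoc]
    rw [this]
  have hU : ∀ y : G, c y * (1 / c y) = if (∃ k : ℕ, orderOf y = p ^ k) then 1 else 0 := by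
    intro y
    split_ifs with h
    · have h1 : IsPGroup p (zpowers y) := by
        obtain ⟨k, hk⟩ := h
        exact IsPGroup.of_card (by rw [Nat.card_zpowers, hk])
      obtain ⟨Q, hQ⟩ := h1.exists_le_sylow
      obtain ⟨g, hg⟩ := MulAction.exists_smul_eq G Q P
      have h2 : g * y * g⁻¹ ∈ (P : Subgroup G) := by
        rw [← hg]
        exact ⟨y, hQ (mem_zpowers y), by simp [MulAut.smul_def]⟩
      have h3 : c y ≠ 0 := by
        have h4 : 0 < c y := by
          rw [hcs]
          refine lt_of_lt_of_le one_pos ?_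
          have h5 := Finset.single_le_sum
            (f := fun g : G => (if g * y * g⁻¹ ∈ (P : Subgroup G) then (1 : ℝ) else 0))
            (fun i _ => by split_ifs <;> norm_num) (Finset.mem_univ g)
          simpa [h2] using h5
        exact h4.ne'
      field_simp
    · have h1 : c y = 0 := by
        rw [hcs]
        refine Finset.sum_eq_zero fun g _ => ?_
        rw [if_neg]
        intro h2
        apply h
        obtain ⟨k, hk⟩ := IsPGroup.iff_orderOf.1 P.2 ⟨_, h2⟩
        refine ⟨k, ?_⟩
        rw [← hk, ← Subgroup.orderOf_coe]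
        show orderOf y = orderOf (g * y * g⁻¹)
        exact ((MulAut.conj g).orderOf_eq y).symm
      rw [h1, zero_mul]
  have h1 : (Nat.card {g : G // ∃ k : ℕ, orderOf g = p ^ k} : ℝ) =
      ∑ y : G, c y * (1 / c y) := by
    rw [Finset.sum_congr rfl (fun y _ => hU y), Finset.sum_boole, Nat.card_eq_fintype_card,
      Fintype.card_subtype]
  rw [h1]
  have h2 : ∀ y : G, c y * (1 / c y) = ∑ g : G,
      (if g * y * g⁻¹ ∈ (P : Subgroup G) then (1 / c y) else 0) := by
    intro y
    nth_rw 1 [hcs]
    rw [Finset.sum_mul]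
    refine Finset.sum_congr rfl fun g _ => ?_
    split_ifs <;> simp
  rw [Finset.sum_congr rfl (fun y _ => h2 y), Finset.sum_comm]
  have h3 : ∀ g : G, ∑ y : G, (if g * y * g⁻¹ ∈ (P : Subgroup G) then (1 / c y) else 0) =
      ∑ x : (P : Subgroup G), 1 / c x := by
    intro g
    have h4 : ∑ y : G, (if g * y * g⁻¹ ∈ (P : Subgroup G) then (1 / c y) else 0) =
        ∑ x : G, (if x ∈ (P : Subgroup G) then (1 / c x) else 0) := by
      refine Fintype.sum_equiv (MulAut.conj g).toEquiv _ _ fun y => ?_
      have h5 : (MulAut.conj g).toEquiv y = g * y * g⁻¹ := rfl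
      have h6 : c (g * y * g⁻¹) = c y := by
        have := hconj g⁻¹ y
        simpa using this
      rw [h5, h6]
    rw [h4, ← Finset.sum_filter]
    refine (Finset.sum_subtype _ (fun x => ?_) _)
    simp
  rw [Finset.sum_congr rfl (fun g _ => h3 g), Finset.sum_const, Finset.card_univ, nsmul_eq_mul,
    ← Nat.card_eq_fintype_card]

theorem mc_self {G : Type*} [Group G] [Finite G] (P : Subgroup G) :
    mc P P = Nat.card (Subgroup.normalizer (P : Set G)) := by
  unfold mc
  refine Nat.card_congr (Equiv.subtypeEquivRight fun g => ?_)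
  constructor
  · intro h
    rw [Subgroup.mem_normalizer_iff]
    intro x
    constructor
    · exact h x
    · intro hx
      have hinj : Function.Injective (fun x : P => (⟨g * x * g⁻¹, h x x.2⟩ : P)) := by
        intro a b hab
        have := congrArg Subtype.val hab
        simp only [mul_left_inj, mul_right_inj] at this
        exact Subtype.ext this
      obtain ⟨y, hy⟩ := (Finite.injective_iff_surjective.1 hinj) ⟨_, hx⟩
      have := congrArg Subtype.val hy
      simp only [mul_left_inj, mul_right_inj] at this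
      rw [← this]; exact y.2
  · intro h x hx
    exact (Subgroup.mem_normalizer_iff.1 h x).1 hx

/-- Let G be a finite p-solvable group, P a Sylow p-subgroup of G, u the number of p-elements of G (elements of p-power order, the identity included) and n the number of Sylow p-subgroups of G. Then u/#P ≥ n^((p−1)/p), stated as u^p ≥ #P^p · n^(p−1). -/
theorem result {G : Type*} [Group G] [Finite G] (p : ℕ) [Fact p.Prime]
    (hG : Cfsg.IsPSolvable p G) (P : Sylow p G) :
    Nat.card (P : Subgroup G) ^ p * Nat.card (Sylow p G) ^ (p - 1) ≤ Nat.card {g : G // ∃ k : ℕ, orderOf g = p ^ k} ^ p := by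
  classical
  haveI := Fintype.ofFinite G
  haveI := Fintype.ofFinite (P : Subgroup G)
  have hp := Fact.out (p := p.Prime)
  have hmain := main_log (p := p) _ G (P : Subgroup G) rfl hG P.2 P.not_dvd_index
  rw [finsum_eq_sum_of_fintype] at hmain
  have hcount := count_pelem p P
  set u : ℕ := Nat.card {g : G // ∃ k : ℕ, orderOf g = p ^ k} with hu
  have hupos : 0 < u := by
    haveI : Nonempty {g : G // ∃ k : ℕ, orderOf g = p ^ k} := ⟨⟨1, 0, by simp⟩⟩
    exact Nat.card_pos
  have hPpos : (0 : ℝ) < Nat.card (P : Subgroup G) := by exact_mod_cast Nat.card_pos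
  have hGpos : (0 : ℝ) < Nat.card G := by exact_mod_cast Nat.card_pos
  have hnpos : 0 < Nat.card (Sylow p G) := Nat.card_pos
  have hmcpos : ∀ x : (P : Subgroup G), (0 : ℝ) < mc (P : Subgroup G) (zpowers (x : G)) := by
    intro x
    exact_mod_cast mc_pos (zpowers_le.2 x.2)
  have hn : (Nat.card G : ℝ) = Nat.card (Sylow p G) * mc (P : Subgroup G) (P : Subgroup G) := by
    rw [mc_self, P.card_eq_index_normalizer]
    have := (Subgroup.normalizer ((P : Subgroup G) : Set G)).index_mul_card
    exact_mod_cast this.symm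
  have hmPP : (0 : ℝ) < mc (P : Subgroup G) (P : Subgroup G) := by exact_mod_cast mc_pos le_rfl
  have hlogn : Real.log (Nat.card G) = Real.log (Nat.card (Sylow p G)) +
      Real.log (mc (P : Subgroup G) (P : Subgroup G)) := by
    rw [hn, Real.log_mul]
    · exact_mod_cast hnpos.ne'
    · exact hmPP.ne'
  -- AM-GM
  set A : ℝ := (u : ℝ) / Nat.card (P : Subgroup G) with hA
  have hApos : 0 < A := div_pos (by exact_mod_cast hupos) hPpos
  have hag : ∑ x : (P : Subgroup G), (Real.log (Nat.card G) -
      Real.log (mc (P : Subgroup G) (zpowers (x : G)))) ≤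
      (Nat.card (P : Subgroup G) : ℝ) * Real.log A := by
    have h1 : ∀ x : (P : Subgroup G), (Real.log (Nat.card G) -
        Real.log (mc (P : Subgroup G) (zpowers (x : G)))) - Real.log A ≤
        (Nat.card G * (1 / (mc (P : Subgroup G) (zpowers (x : G)) : ℝ))) / A - 1 := by
      intro x
      have h2 := Real.log_le_sub_one_of_pos (x := (Nat.card G *
        (1 / (mc (P : Subgroup G) (zpowers (x : G)) : ℝ))) / A)
        (div_pos (mul_pos hGpos (one_div_pos.2 (hmcpos x))) hApos)
      rw [Real.log_div (mul_pos hGpos (one_div_pos.2 (hmcpos x))).ne' hApos.ne',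
        Real.log_mul hGpos.ne' (one_div_pos.2 (hmcpos x)).ne', one_div, Real.log_inv] at h2
      rw [one_div]
      linarith
    have h2 := Finset.sum_le_sum (fun (x : (P : Subgroup G)) (_ : x ∈ Finset.univ) => h1 x)
    rw [Finset.sum_sub_distrib, Finset.sum_sub_distrib (g := fun _ => (1 : ℝ)),
      Finset.sum_const, Finset.sum_const, Finset.card_univ,
      nsmul_eq_mul, nsmul_eq_mul, ← Finset.sum_div, ← Finset.mul_sum, ← hcount,
      ← Nat.card_eq_fintype_card] at h2
    have h3 : (u : ℝ) / A = Nat.card (P : Subgroup G) := by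
      rw [hA]
      have : (u : ℝ) ≠ 0 := by exact_mod_cast hupos.ne'
      field_simp
    rw [h3] at h2
    linarith
  rw [Finset.sum_sub_distrib, Finset.sum_const, Finset.card_univ, nsmul_eq_mul,
    ← Nat.card_eq_fintype_card] at hag
  have hlogA : Real.log A = Real.log u - Real.log (Nat.card (P : Subgroup G)) := by
    rw [hA, Real.log_div (by exact_mod_cast hupos.ne') hPpos.ne']
  have hp0 : (0 : ℝ) < p := by exact_mod_cast hp.pos
  have hfin : (p : ℝ) * Real.log (Nat.card (P : Subgroup G)) +
      ((p : ℝ) - 1) * Real.log (Nat.card (Sylow p G)) ≤ p * Real.log u := by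
    have h4 := mul_le_mul_of_nonneg_left hag hp0.le
    rw [hlogA] at h4
    have h5 : Real.log (mc (P : Subgroup G) (P : Subgroup G)) =
      Real.log (Nat.card G) - Real.log (Nat.card (Sylow p G)) := by linarith
    rw [h5] at hmain
    refine le_of_mul_le_mul_left ?_ hPpos
    linarith
  have hcast : ((p - 1 : ℕ) : ℝ) = (p : ℝ) - 1 := by
    rw [Nat.cast_sub hp.pos, Nat.cast_one]
  have hgoal : Real.log ((Nat.card (P : Subgroup G) : ℝ) ^ p *
      (Nat.card (Sylow p G) : ℝ) ^ (p - 1)) ≤ Real.log ((u : ℝ) ^ p) := by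
    rw [Real.log_mul (pow_ne_zero _ hPpos.ne') (pow_ne_zero _ (by exact_mod_cast hnpos.ne')),
      Real.log_pow, Real.log_pow, Real.log_pow, hcast]
    exact hfin
  have h6 := (Real.log_le_log_iff (mul_pos (pow_pos hPpos _)
    (pow_pos (by exact_mod_cast hnpos) _)) (pow_pos (by exact_mod_cast hupos) _)).1 hgoal
  exact_mod_cast h6

end Cfsg.Agent.S4091
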