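import Cfsg.Statements.S4092
import Cfsg.Agent.H24.Frobenius

set_option autoImplicit false
open Cfsg

namespace Cfsg.Agent.S4092

/-- Let G be a finite group, p a prime and P a Sylow p-subgroup of G that is not normal in G. Then G has at least p·#P elements of p-power order (the identity included). -/
theorem result {G : Type*} [Group G] [Finite G] (p : ℕ) [Fact p.Prime]
    (P : Sylow p G) (hP : ¬ (P : Subgroup G).Normal) :
    p * Nat.card (P : Subgroup G) ≤ Nat.card {g : G // ∃ k : ℕ, orderOf g = p ^ k} := by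
  classical
  have hp := Fact.out (p := p.Prime)
  have := Fintype.ofFinite G
  set N := Nat.card {g : G // ∃ k : ℕ, orderOf g = p ^ k} with hN
  have hPc : Nat.card (P : Subgroup G) = p ^ (Nat.card G).factorization p := P.card_eq_multiplicity
  have h1 : Nat.card (P : Subgroup G) ∣ N := by
    rw [hPc]; exact Cfsg.Agent.H24.ordProj_dvd_card_pElt p
  obtain ⟨c, hc⟩ := h1
  -- `P` is a proper subset
  have hPsub : ((P : Subgroup G) : Set G) ⊆ {g : G | ∃ k : ℕ, orderOf g = p ^ k} :=
    fun g hg => Cfsg.Agent.H24.exists_orderOf_eq_pow_of_mem P.isPGroup' hg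
  have hNs : ({g : G | ∃ k : ℕ, orderOf g = p ^ k}).ncard = N := by
    rw [← Nat.card_coe_set_eq]; rfl
  have hPs : ((P : Subgroup G) : Set G).ncard = Nat.card (P : Subgroup G) := by
    rw [← Nat.card_coe_set_eq]; rfl
  have hPpos : 0 < Nat.card (P : Subgroup G) := Nat.card_pos
  have hc1 : c ≠ 1 := by
    rintro rfl
    apply hP
    have h6 : ((P : Subgroup G) : Set G) = {g : G | ∃ k : ℕ, orderOf g = p ^ k} := by
      apply Set.eq_of_subset_of_ncard_le hPsub _ (Set.toFinite _)
      rw [hNs, hPs, hc, mul_one]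
    constructor
    intro n hn g
    have h7 : g * n * g⁻¹ ∈ ((P : Subgroup G) : Set G) := by
      rw [h6]
      show ∃ k : ℕ, orderOf (g * n * g⁻¹) = p ^ k
      rw [Cfsg.Agent.H24.orderOf_conj']
      have : n ∈ ((P : Subgroup G) : Set G) := hn
      rw [h6] at this
      exact this
    exact h7
  have hc0 : c ≠ 0 := by
    rintro rfl
    have h2 := Set.ncard_le_ncard hPsub (Set.toFinite _)
    rw [hNs, hPs, hc] at h2
    omega
  -- congruence modulo `p - 1`
  have hmod : N ≡ 1 [MOD (p - 1)] := by
    have h2 : N = ∑ j ∈ Finset.range ((Nat.card G).factorization p + 1),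
        Nat.card {g : G // orderOf g = p ^ j} := by
      rw [hN, Nat.card_eq_fintype_card, Fintype.card_subtype]
      have h3 : (Finset.univ.filter (fun g : G => ∃ k : ℕ, orderOf g = p ^ k)).card =
          ∑ j ∈ Finset.range ((Nat.card G).factorization p + 1),
          (Finset.filter (fun g => (orderOf g).factorization p = j)
            (Finset.univ.filter (fun g : G => ∃ k : ℕ, orderOf g = p ^ k))).card := by
        apply Finset.card_eq_sum_card_fiberwise
        intro g _
        rw [Finset.mem_coe, Finset.mem_range, Nat.lt_succ_iff]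
        exact (Nat.factorization_le_iff_dvd (orderOf_pos g).ne' Nat.card_pos.ne').2
          (orderOf_dvd_natCard g) p
      rw [h3]
      apply Finset.sum_congr rfl
      intro j _
      rw [Nat.card_eq_fintype_card, Fintype.card_subtype]
      congr 1
      ext g
      simp only [Finset.mem_filter, Finset.mem_univ, true_and]
      constructor
      · rintro ⟨⟨k, hk⟩, hj⟩
        rw [hk, hp.factorization_pow, Finsupp.single_eq_same] at hj
        rw [hk, hj]
      · intro h
        refine ⟨⟨j, h⟩, ?_⟩
        rw [h, hp.factorization_pow, Finsupp.single_eq_same]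
    rw [h2, Finset.sum_range_succ']
    have h3 : Nat.card {g : G // orderOf g = p ^ 0} = 1 := by
      rw [Nat.card_eq_one_iff_unique]
      refine ⟨⟨?_⟩, ⟨⟨1, by simp⟩⟩⟩
      rintro ⟨a, ha⟩ ⟨b, hb⟩
      rw [pow_zero, orderOf_eq_one_iff] at ha hb
      apply Subtype.ext
      show a = b
      rw [ha, hb]
    rw [h3]
    have h4 : (p - 1) ∣ ∑ k ∈ Finset.range ((Nat.card G).factorization p),
        Nat.card {g : G // orderOf g = p ^ (k + 1)} := by
      apply Finset.dvd_sum
      intro j _
      refine Dvd.dvd.trans ?_ (Cfsg.Agent.H24.totient_dvd_card_orderOf_eq _)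
      rw [Nat.totient_prime_pow_succ hp]
      exact Dvd.intro_left _ rfl
    have h5 := (Nat.modEq_zero_iff_dvd.2 h4).add_right 1
    rwa [zero_add] at h5
  have hp1 : p ≡ 1 [MOD (p - 1)] := by
    have h2 : (p - 1) + 1 = p := Nat.sub_add_cancel hp.one_lt.le
    have h3 := (Nat.modEq_zero_iff_dvd.2 (dvd_refl (p - 1))).add_right 1
    rwa [h2, zero_add] at h3
  have hPm : Nat.card (P : Subgroup G) ≡ 1 [MOD (p - 1)] := by
    rw [hPc]
    have := hp1.pow ((Nat.card G).factorization p)
    rwa [one_pow] at this
  have hcm : c ≡ 1 [MOD (p - 1)] := by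
    have h2 : Nat.card (P : Subgroup G) * c ≡ 1 * c [MOD (p - 1)] := hPm.mul_right c
    rw [← hc, one_mul] at h2
    exact h2.symm.trans hmod
  have hcp : p ≤ c := by
    have h2 : (p - 1) ∣ c - 1 := (Nat.modEq_iff_dvd' (by omega)).1 hcm.symm
    have h3 := Nat.le_of_dvd (by omega) h2
    omega
  rw [hc, mul_comm]
  exact Nat.mul_le_mul_left _ hcp

end Cfsg.Agent.S4092
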