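import Cfsg.Statements.S4093
import Cfsg.Agent.H24.CoprimeLift2
import Cfsg.Agent.H24.ClassSize4

set_option autoImplicit false
open scoped BigOperators
open Cfsg

namespace Cfsg.Agent.S4093

/-- Let G be a finite group with a normal subgroup N complementing a Sylow p-subgroup P (a normal p-complement). Then the number of elements of G of p-power order equals the sum over x ∈ P of the index of C_N(x) in N. -/
theorem result {G : Type*} [Group G] [Finite G] (p : ℕ) [Fact p.Prime]
    (P : Sylow p G) (N : Subgroup G) [N.Normal] (hNP : N.IsComplement' (P : Subgroup G)) :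
    Nat.card {g : G // ∃ k : ℕ, orderOf g = p ^ k} =
      ∑ᶠ x : (P : Subgroup G), Nat.card N / Nat.card ↥(N ⊓ Subgroup.centralizer ({(x : G)} : Set G)) := by
  classical
  have hp := Fact.out (p := p.Prime)
  have := Fintype.ofFinite G
  have := Fintype.ofFinite (P : Subgroup G)
  have hcop : ∀ g : G, (∃ k : ℕ, orderOf g = p ^ k) → (orderOf g).Coprime (Nat.card N) := by
    rintro g ⟨k, hk⟩
    rw [hk]
    apply Nat.Coprime.pow_left
    rw [Nat.Prime.coprime_iff_not_dvd hp]
    intro hd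
    have h1 : Nat.card N = (P : Subgroup G).index := by
      have h2 := hNP.card_mul
      have h3 := Subgroup.card_mul_index (P : Subgroup G)
      rw [← h3, mul_comm] at h2
      exact Nat.eq_of_mul_eq_mul_left Nat.card_pos h2
    rw [h1] at hd
    exact P.not_dvd_index hd
  have hinj : ∀ x y : G, x ∈ (P : Subgroup G) → y ∈ (P : Subgroup G) →
      (QuotientGroup.mk x : G ⧸ N) = QuotientGroup.mk y → x = y := by
    intro x y hx hy hxy
    have h1 : x⁻¹ * y ∈ N ⊓ (P : Subgroup G) :=
      ⟨QuotientGroup.eq.1 hxy, (P : Subgroup G).mul_mem ((P : Subgroup G).inv_mem hx) hy⟩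
    rw [hNP.disjoint.eq_bot, Subgroup.mem_bot] at h1
    exact inv_mul_eq_one.1 h1
  have hmk : ∀ n ∈ N, ∀ x : G, (QuotientGroup.mk (n * x * n⁻¹) : G ⧸ N) = QuotientGroup.mk x := by
    intro n hn x
    simp only [QuotientGroup.mk_mul, QuotientGroup.mk_inv]
    rw [(QuotientGroup.eq_one_iff n).2 hn]
    simp
  let f : (Σ x : (P : Subgroup G), {g : G // ∃ n ∈ N, n * (x : G) * n⁻¹ = g}) →
      {g : G // ∃ k : ℕ, orderOf g = p ^ k} := fun s => ⟨s.2.1, by
        obtain ⟨n, hn, hg⟩ := s.2.2
        rw [← hg]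
        have h1 : orderOf (n * (s.1 : G) * n⁻¹) = orderOf (s.1 : G) := by
          have := MulEquiv.orderOf_eq (MulAut.conj n) (s.1 : G)
          simpa using this
        rw [h1]
        exact Cfsg.Agent.H24.exists_orderOf_eq_pow_of_mem P.isPGroup' s.1.2⟩
  have hf : Function.Bijective f := by
    constructor
    · rintro ⟨x, g, n, hn, rfl⟩ ⟨y, g', m, hm, rfl⟩ h
      have h1 : n * (x : G) * n⁻¹ = m * (y : G) * m⁻¹ := congrArg Subtype.val h
      have h2 := congrArg (QuotientGroup.mk : G → G ⧸ N) h1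
      rw [hmk n hn, hmk m hm] at h2
      have h3 : x = y := Subtype.ext (hinj _ _ x.2 y.2 h2)
      subst h3
      simp only [h1]
    · rintro ⟨g, hg⟩
      have h1 : g ∈ N ⊔ (P : Subgroup G) := by rw [hNP.sup_eq_top]; trivial
      obtain ⟨n, hn, x, hx, rfl⟩ := Subgroup.mem_sup_of_normal_left.1 h1
      obtain ⟨m, hm, h2⟩ := Cfsg.Agent.H24.exists_conj_of_mk_eq N (n * x) x (hcop _ hg)
        (hcop _ (Cfsg.Agent.H24.exists_orderOf_eq_pow_of_mem P.isPGroup' hx)) (by
          rw [QuotientGroup.mk_mul, (QuotientGroup.eq_one_iff n).2 hn, one_mul])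
      exact ⟨⟨⟨x, hx⟩, ⟨n * x, m, hm, h2⟩⟩, rfl⟩
  rw [← Nat.card_congr (Equiv.ofBijective f hf), Nat.card_sigma, finsum_eq_sum_of_fintype]
  apply Finset.sum_congr rfl
  intro x _
  rw [Cfsg.Agent.H24.natCard_conj_subgroup, Cfsg.Agent.H24.relIndex_eq_card_div]

end Cfsg.Agent.S4093
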