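import Cfsg.Statements.S4104
import Cfsg.Agent.H24.NilCount5

set_option autoImplicit false
open Cfsg

namespace Cfsg.Agent.S4104

/-- Let G be a finite group, π a set of primes with least member p, m the π-part of the order of G and k the number of conjugacy classes of G consisting of π-elements (elements whose order is divisible only by primes in π). If k > m/p, then G has a nilpotent Hall π-subgroup (a nilpotent subgroup of order m) whose derived subgroup has order at most p. -/
theorem result {G : Type*} [Group G] [Finite G]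
    (π : Set ℕ) (hπ : ∀ q ∈ π, q.Prime) (p : ℕ) (hp : p ∈ π) (hmin : ∀ q ∈ π, p ≤ q)
    (m : ℕ) (hm : m ∣ Nat.card G) (hmπ : ∀ q : ℕ, q.Prime → q ∣ m → q ∈ π)
    (hm' : ∀ q ∈ π, ¬ q ∣ Nat.card G / m)
    (k : ℕ) (hk : k = Nat.card {C : ConjClasses G // ∀ q : ℕ, q.Prime → (∃ g : G, ConjClasses.mk g = C ∧ q ∣ orderOf g) → q ∈ π})
    (hmany : m < p * k) :
    ∃ H : Subgroup G, Nat.card H = m ∧ Group.IsNilpotent H ∧ Nat.card (commutator H) ≤ p := by
  obtain ⟨T, hT, hTn, hkT, hb⟩ := H24.exists_nilpotent_hall_of_many π hπ p hmin m hm hmπ hm' k hk hmany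
  refine ⟨T, hT, hTn, ?_⟩
  have hp2 := (hπ p hp).two_le
  have h1 := H24.card_classes_bound (H := T) hb
  have h2 : Nat.card (commutator T) * (commutator T).index = Nat.card T := Subgroup.card_mul_index _
  set n := Nat.card (commutator T) with hn
  set i := (commutator T).index with hi
  have hi0 : 0 < i := Nat.pos_of_ne_zero Subgroup.index_ne_zero_of_finite
  have h3 : m < p * Nat.card (ConjClasses T) := hmany.trans_le (Nat.mul_le_mul_left _ hkT)
  have h4 : p * m < p * (p * Nat.card (ConjClasses T)) := Nat.mul_lt_mul_of_pos_left h3 (by omega)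
  have h5 : p * m + i < m + p ^ 2 * i := by
    have h6 : p * (p * Nat.card (ConjClasses T)) = p ^ 2 * Nat.card (ConjClasses T) := by ring
    rw [hT] at h1
    omega
  rw [hT] at h2
  rw [← h2] at h5
  by_contra hlt
  push Not at hlt
  obtain ⟨r, rfl⟩ : ∃ r, p = r + 1 := ⟨p - 1, by omega⟩
  have h7 : (r + 2) * i ≤ n * i := Nat.mul_le_mul_right _ (by omega)
  nlinarith

end Cfsg.Agent.S4104
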