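import Cfsg.Statements.S4105
import Cfsg.Agent.H24.NilCount5
import Cfsg.Agent.H24.SelfNorm

set_option autoImplicit false
open Cfsg

namespace Cfsg.Agent.S4105

/-- Let G be a finite group, π a set of primes with least member p, m the π-part of the order of G and k the number of conjugacy classes of G consisting of π-elements. If k > m·(p² + p − 1)/p³, then G has an abelian Hall π-subgroup (an abelian subgroup of order m). -/
theorem result {G : Type*} [Group G] [Finite G]
    (π : Set ℕ) (hπ : ∀ q ∈ π, q.Prime) (p : ℕ) (hp : p ∈ π) (hmin : ∀ q ∈ π, p ≤ q)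
    (m : ℕ) (hm : m ∣ Nat.card G) (hmπ : ∀ q : ℕ, q.Prime → q ∣ m → q ∈ π)
    (hm' : ∀ q ∈ π, ¬ q ∣ Nat.card G / m)
    (k : ℕ) (hk : k = Nat.card {C : ConjClasses G // ∀ q : ℕ, q.Prime → (∃ g : G, ConjClasses.mk g = C ∧ q ∣ orderOf g) → q ∈ π})
    (hmany : m * (p ^ 2 + p - 1) < p ^ 3 * k) :
    ∃ H : Subgroup G, Nat.card H = m ∧ IsMulCommutative H := by
  have hp2 := (hπ p hp).two_le
  have hmany' : m < p * k := by
    have h1 : m * p ^ 2 ≤ m * (p ^ 2 + p - 1) := Nat.mul_le_mul_left _ (by omega)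
    have h2 : m * p ^ 2 < p ^ 3 * k := h1.trans_lt hmany
    have h3 : p ^ 2 * m < p ^ 2 * (p * k) := by
      calc p ^ 2 * m = m * p ^ 2 := by ring
        _ < p ^ 3 * k := h2
        _ = _ := by ring
    exact Nat.lt_of_mul_lt_mul_left h3
  obtain ⟨T, hT, hTn, hkT, hb⟩ := H24.exists_nilpotent_hall_of_many π hπ p hmin m hm hmπ hm' k hk hmany'
  refine ⟨T, hT, ?_⟩
  have h1 := H24.card_classes_bound (H := T) hb
  have h2 : Nat.card (commutator T) * (commutator T).index = Nat.card T := Subgroup.card_mul_index _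
  set n := Nat.card (commutator T) with hn
  set i := (commutator T).index with hi
  have hi0 : 0 < i := Nat.pos_of_ne_zero Subgroup.index_ne_zero_of_finite
  have hn1 : n = 1 := by
    by_contra hne
    obtain ⟨q, hq, hqd⟩ := Nat.exists_prime_and_dvd hne
    have h3 : p ≤ q := hb q hq (hqd.trans ⟨i, h2.symm⟩)
    have h4 : p ≤ n := h3.trans (Nat.le_of_dvd Nat.card_pos hqd)
    have h5 : p * i ≤ m := by
      rw [← hT, ← h2]
      exact Nat.mul_le_mul_right _ h4
    rw [hT] at h1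
    set K := Nat.card (ConjClasses T) with hK
    have h6 : m * (p ^ 2 + p - 1) < p ^ 3 * K := hmany.trans_le (Nat.mul_le_mul_left _ hkT)
    have h7 : m * (p ^ 2 + p - 1) + m = m * (p ^ 2 + p) := by
      rw [← Nat.mul_succ]
      congr 1
      have : 1 ≤ p ^ 2 := Nat.one_le_pow _ _ (by omega)
      omega
    have h8 : p * (p ^ 2 * K + i) ≤ p * (m + p ^ 2 * i) := Nat.mul_le_mul_left _ h1
    obtain ⟨r, rfl⟩ : ∃ r, p = r + 1 := ⟨p - 1, by omega⟩
    have h9 : m * ((r + 1) ^ 2 + (r + 1)) < (r + 1) ^ 3 * K + m := by omega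
    have h10 : (r + 1) ^ 3 * K + (r + 1) * i ≤ (r + 1) * m + (r + 1) ^ 3 * i := by
      calc (r + 1) ^ 3 * K + (r + 1) * i = (r + 1) * ((r + 1) ^ 2 * K + i) := by ring
        _ ≤ (r + 1) * (m + (r + 1) ^ 2 * i) := h8
        _ = _ := by ring
    -- `(r+1)^3 i - (r+1) i = (r+1) i ((r+1)^2 - 1) ≤ m ((r+1)^2 - 1)`
    have h11 : (r * (r + 2)) * ((r + 1) * i) ≤ (r * (r + 2)) * m := Nat.mul_le_mul_left _ h5
    nlinarith
  have hbot : commutator T = ⊥ := Subgroup.card_eq_one.1 hn1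
  rw [H24.isMulCommutative_iff_forall]
  intro x hx y hy
  open scoped commutatorElement in
  have h3 : ⁅(⟨x, hx⟩ : T), (⟨y, hy⟩ : T)⁆ ∈ commutator T :=
    Subgroup.commutator_mem_commutator (Subgroup.mem_top _) (Subgroup.mem_top _)
  rw [hbot, Subgroup.mem_bot, commutatorElement_eq_one_iff_mul_comm] at h3
  exact congrArg Subtype.val h3

end Cfsg.Agent.S4105
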