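import Cfsg.Statements.S4106
import Cfsg.Agent.H24.PiClasses

set_option autoImplicit false
open Cfsg

namespace Cfsg.Agent.S4106

/-- Let G be a finite group, π a set of primes and m the π-part of the order of G. Then the number of conjugacy classes of G consisting of π-elements (elements whose order is divisible only by primes in π) is at most m. -/
theorem result {G : Type*} [Group G] [Finite G]
    (π : Set ℕ) (hπ : ∀ q ∈ π, q.Prime)
    (m : ℕ) (hm : m ∣ Nat.card G) (hmπ : ∀ q : ℕ, q.Prime → q ∣ m → q ∈ π)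
    (hm' : ∀ q ∈ π, ¬ q ∣ Nat.card G / m) :
    Nat.card {C : ConjClasses G // ∀ q : ℕ, q.Prime → (∃ g : G, ConjClasses.mk g = C ∧ q ∣ orderOf g) → q ∈ π} ≤ m := by
  classical
  have hG0 : Nat.card G ≠ 0 := Nat.card_pos.ne'
  have hm0 : m ≠ 0 := fun h => hG0 (Nat.eq_zero_of_zero_dvd (h ▸ hm))
  set S : Finset ℕ := (Nat.card G).primeFactors.filter (fun q => q ∈ π) with hS
  have hSp : ∀ q ∈ S, q.Prime := fun q hq => Nat.prime_of_mem_primeFactors (Finset.mem_filter.1 hq).1
  obtain ⟨R, hR1, hR2⟩ := Cfsg.Agent.H24.exists_reps_S_elements S hSp G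
  have hmS : ∏ q ∈ S, q ^ (Nat.card G).factorization q ≤ m := by
    apply Nat.le_of_dvd (Nat.pos_of_ne_zero hm0)
    apply Finset.prod_dvd_of_isRelPrime
    · intro q hq r hr hqr
      exact Nat.coprime_iff_isRelPrime.1 (Nat.Coprime.pow _ _ ((Nat.coprime_primes (hSp q hq) (hSp r hr)).2 hqr))
    · intro q hq
      have hqp := hSp q hq
      have hq' := (Finset.mem_filter.1 hq).2
      have h1 : q ^ (Nat.card G).factorization q ∣ m * (Nat.card G / m) := by
        rw [Nat.mul_div_cancel' hm]; exact Nat.ordProj_dvd _ _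
      refine Nat.Coprime.dvd_of_dvd_mul_right ?_ h1
      exact Nat.Coprime.pow_left _ ((Nat.Prime.coprime_iff_not_dvd hqp).2 (hm' q hq'))
  refine le_trans ?_ (hR1.trans hmS)
  have h1 : Nat.card {C : ConjClasses G // ∀ q : ℕ, q.Prime →
      (∃ g : G, ConjClasses.mk g = C ∧ q ∣ orderOf g) → q ∈ π} ≤
      Nat.card ((R.image ConjClasses.mk : Finset (ConjClasses G)) : Set (ConjClasses G)) := by
    refine Nat.card_mono (Set.toFinite _) ?_
    intro C hC
    obtain ⟨g, rfl⟩ := ConjClasses.exists_rep C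
    obtain ⟨r, hr, hgr⟩ := hR2 g (by
      intro q hq hd
      rw [hS, Finset.mem_filter, Nat.mem_primeFactors]
      exact ⟨⟨hq, hd.trans (orderOf_dvd_natCard g), hG0⟩, hC q hq ⟨g, rfl, hd⟩⟩)
    rw [Finset.mem_coe, Finset.mem_image]
    exact ⟨r, hr, (ConjClasses.mk_eq_mk_iff_isConj.2 hgr).symm⟩
  refine h1.trans ?_
  rw [Nat.card_coe_set_eq, Set.ncard_coe_finset]
  exact Finset.card_image_le

end Cfsg.Agent.S4106
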