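import Cfsg.Statements.S4107
import Cfsg.Agent.H1.Cores
import Cfsg.Agent.H23.Nilp

set_option autoImplicit false
set_option linter.all false
open Cfsg

namespace Cfsg.Agent.S4107

theorem aux {G : Type*} [Group G] [Finite G] (N : Subgroup G) [N.Normal]
    (heq : ∀ x : G, x ∉ N → ∀ n ∈ N, orderOf (x * n) = orderOf x) {p : ℕ} [hp : Fact p.Prime]
    (hN : ¬ Cfsg.pCore p G ≤ N) : IsPGroup p N := by
  obtain ⟨x, hx, hxN⟩ := Set.not_subset.1 hN
  have hO := Cfsg.Agent.H1.pCore_isPGroup p G
  obtain ⟨k, hk⟩ := IsPGroup.iff_orderOf.1 hO ⟨x, hx⟩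
  rw [Subgroup.orderOf_mk] at hk
  intro n
  have h1 := heq x hxN n n.2
  rw [hk] at h1
  have h2 : ((n : G) ^ (p ^ k)) ∈ Cfsg.pCore p G := by
    rw [← QuotientGroup.eq_one_iff]
    have h3 : ((x * (n : G) : G) : G ⧸ Cfsg.pCore p G) = ((n : G) : G ⧸ Cfsg.pCore p G) := by
      rw [QuotientGroup.mk_mul, (QuotientGroup.eq_one_iff x).2 hx, one_mul]
    rw [QuotientGroup.mk_pow, ← h3, ← QuotientGroup.mk_pow, ← h1, pow_orderOf_eq_one, QuotientGroup.mk_one]
  obtain ⟨l, hl⟩ := hO ⟨_, h2⟩
  refine ⟨k + l, ?_⟩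
  apply Subtype.ext
  have h4 := congrArg Subtype.val hl
  show (n : G) ^ (p ^ (k + l)) = 1
  rw [pow_add, pow_mul]
  exact h4

/-- Let G be a finite group and N a proper non-trivial normal subgroup such that for every x outside N all elements of the coset xN have the same order as x. Then N ≤ F(G) or F(G) ≤ N, where F(G) is the Fitting subgroup; and if N is properly contained in F(G) then F(G) has prime-power order. -/
theorem result {G : Type*} [Group G] [Finite G] (N : Subgroup G) [N.Normal] (hN1 : N ≠ ⊥) (hN2 : N ≠ ⊤)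
    (heq : ∀ x : G, x ∉ N → ∀ n ∈ N, orderOf (x * n) = orderOf x) :
    (N ≤ Cfsg.fittingSubgroup G ∨ Cfsg.fittingSubgroup G ≤ N) ∧
    (N < Cfsg.fittingSubgroup G → IsPrimePow (Nat.card (Cfsg.fittingSubgroup G))) := by
  have key : ¬ Cfsg.fittingSubgroup G ≤ N → ∃ p : ℕ, ∃ _ : Fact p.Prime, ¬ Cfsg.pCore p G ≤ N := by
    intro h
    by_contra hcon
    push Not at hcon
    apply h
    rw [Cfsg.Agent.H1.fitting_eq_iSup_pCore]
    refine iSup_le fun p => ?_
    exact hcon (p : ℕ) ⟨p.2⟩
  constructor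
  · by_cases h : Cfsg.fittingSubgroup G ≤ N
    · exact Or.inr h
    · left
      obtain ⟨p, hp, hpN⟩ := key h
      have h1 := aux N heq hpN
      haveI : Group.IsNilpotent N := h1.isNilpotent
      exact Cfsg.Agent.H1.le_fitting inferInstance inferInstance
  · intro hlt
    obtain ⟨p, hp, hpN⟩ := key (not_le_of_gt hlt)
    have h1 := aux N heq hpN
    -- no other prime divides |F|
    have h2 : ∀ q : ℕ, q.Prime → q ∣ Nat.card (Cfsg.fittingSubgroup G) → q = p := by
      intro q hq hqd
      haveI : Fact q.Prime := ⟨hq⟩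
      by_contra hne
      obtain ⟨y, hy⟩ := exists_prime_orderOf_dvd_card' q hqd
      have hy' : orderOf (y : G) = q := by rw [Subgroup.orderOf_coe]; exact hy
      have hyO : (y : G) ∈ Cfsg.pCore q G :=
        Cfsg.Agent.H23.mem_pCore_of_mem_fitting y.2 (IsPGroup.of_card (n := 1) (by rw [Nat.card_zpowers, hy', pow_one]))
      have h3 : ¬ Cfsg.pCore q G ≤ N := by
        intro h
        have h4 := h hyO
        obtain ⟨k, hk⟩ := IsPGroup.iff_orderOf.1 h1 ⟨y, h4⟩
        rw [Subgroup.orderOf_mk, hy'] at hk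
        have h5 : q ∣ p ^ k := by rw [← hk]
        exact hne ((Nat.prime_dvd_prime_iff_eq hq hp.out).1 (hq.dvd_of_dvd_pow h5))
      have h5 := aux N heq h3
      apply hN1
      obtain ⟨a, ha⟩ := IsPGroup.iff_card.1 h1
      obtain ⟨b, hb⟩ := IsPGroup.iff_card.1 h5
      rw [← Subgroup.card_eq_one]
      have hc : Nat.Coprime (p ^ a) (q ^ b) := Nat.Coprime.pow a b ((Nat.coprime_primes hp.out hq).2 (Ne.symm hne))
      exact Nat.eq_one_of_dvd_coprimes hc (by rw [ha]) (by rw [hb])
    have h3 : Nat.card (Cfsg.fittingSubgroup G) ≠ 1 := by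
      rw [Ne, Subgroup.card_eq_one]
      intro h
      rw [h] at hlt
      exact not_lt_bot hlt
    have h4 : Nat.card (Cfsg.fittingSubgroup G) = p ^ (Nat.card (Cfsg.fittingSubgroup G)).factorization p := by
      have h5 := Nat.eq_prime_pow_of_unique_prime_dvd (n := Nat.card (Cfsg.fittingSubgroup G)) (p := p) Nat.card_pos.ne'
        (fun {d} hd hdd => h2 d hd hdd)
      have h6 := h5
      have h7 : (Nat.card (Cfsg.fittingSubgroup G)).primeFactorsList.length = (Nat.card (Cfsg.fittingSubgroup G)).factorization p := by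
        conv_rhs => rw [h5]
        rw [Nat.Prime.factorization_pow hp.out, Finsupp.single_eq_same]
      rw [← h7]; exact h5
    rw [isPrimePow_nat_iff]
    refine ⟨p, (Nat.card (Cfsg.fittingSubgroup G)).factorization p, hp.out, ?_, h4.symm⟩
    by_contra h0
    have h0' : (Nat.card (Cfsg.fittingSubgroup G)).factorization p = 0 := by omega
    rw [h0', pow_zero] at h4
    exact h3 h4

end Cfsg.Agent.S4107
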