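import Cfsg.Statements.S4108
import Cfsg.Agent.H12.FrobMk

set_option autoImplicit false
open Cfsg

namespace Cfsg.Agent.S4108


open Subgroup

/-- Let G be a finite group, p a prime and N a proper non-trivial normal p-subgroup such that for every x outside N all elements of the coset xN have the same order as x. Then every non-trivial subgroup H of G of order prime to p acts fixed-point-freely on N: NH is a Frobenius group with complement H and kernel N. -/
theorem result {G : Type*} [Group G] [Finite G] (N : Subgroup G) [N.Normal] (hN1 : N ≠ ⊥) (hN2 : N ≠ ⊤)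
    (heq : ∀ x : G, x ∉ N → ∀ n ∈ N, orderOf (x * n) = orderOf x)
    (p : ℕ) [Fact p.Prime] (hNp : IsPGroup p N) :
    ∀ H : Subgroup G, H ≠ ⊥ → (Nat.card H).Coprime p →
      Cfsg.IsFrobeniusComplement (H.subgroupOf (N ⊔ H)) ∧ Cfsg.frobeniusKernel (H.subgroupOf (N ⊔ H)) = (N.subgroupOf (N ⊔ H) : Set ↥(N ⊔ H)) := by
  intro H hH1 hHp
  have hp : p.Prime := Fact.out
  haveI hn : (N.subgroupOf (N ⊔ H)).Normal := inferInstance
  have hbot : ∀ x, x ∈ N → x ∈ H → x = 1 := by
    intro x hx hx'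
    obtain ⟨k, hk⟩ := hNp ⟨x, hx⟩
    have h1 : x ^ p ^ k = 1 := congrArg Subtype.val hk
    have h2 : orderOf x ∣ p ^ k := orderOf_dvd_of_pow_eq_one h1
    have h3 : orderOf x ∣ Nat.card H := by
      have := orderOf_dvd_natCard (⟨x, hx'⟩ : H)
      rwa [Subgroup.orderOf_mk] at this
    have h4 : (orderOf x).Coprime (p ^ k) := (Nat.Coprime.coprime_dvd_left h3 hHp).pow_right k
    rw [← orderOf_eq_one_iff]
    exact Nat.eq_one_of_dvd_coprimes h4 dvd_rfl h2
  apply H12.frob_mk
  · rw [Ne, Subgroup.subgroupOf_eq_bot, disjoint_iff, inf_eq_left.2 le_sup_left]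
    exact hN1
  · rw [Ne, Subgroup.subgroupOf_eq_bot, disjoint_iff, inf_eq_left.2 le_sup_right]
    exact hH1
  · rw [Subgroup.eq_bot_iff_forall]
    intro x hx
    obtain ⟨h1, h2⟩ := Subgroup.mem_inf.1 hx
    rw [Subgroup.mem_subgroupOf] at h1 h2
    exact Subtype.ext (hbot _ h1 h2)
  · rw [← Subgroup.subgroupOf_sup le_sup_left le_sup_right, Subgroup.subgroupOf_self]
  · intro x hx hx1 k hk hxk
    rw [Subgroup.mem_subgroupOf] at hx hk
    apply Subtype.ext
    have hxk' : (x : G) * (k : G) = (k : G) * (x : G) := congrArg Subtype.val hxk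
    have hx1' : (x : G) ≠ 1 := fun h => hx1 (Subtype.ext h)
    have hxN : (x : G) ∉ N := fun h => hx1' (hbot _ h hx)
    have h1 := heq (x : G) hxN (k : G) hk
    have h3 : orderOf (x : G) ∣ Nat.card H := by
      have := orderOf_dvd_natCard (⟨(x : G), hx⟩ : H)
      rwa [Subgroup.orderOf_mk] at this
    obtain ⟨j, hj⟩ := hNp ⟨(k : G), hk⟩
    have h4 : (k : G) ^ p ^ j = 1 := congrArg Subtype.val hj
    have h5 : orderOf (k : G) ∣ p ^ j := orderOf_dvd_of_pow_eq_one h4
    have hcop : (orderOf (x : G)).Coprime (orderOf (k : G)) :=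
      Nat.Coprime.coprime_dvd_right h5 ((Nat.Coprime.coprime_dvd_left h3 hHp).pow_right j)
    have hc : Commute (x : G) (k : G) := hxk'
    rw [hc.orderOf_mul_eq_mul_orderOf_of_coprime hcop] at h1
    have h2 : 0 < orderOf (x : G) := orderOf_pos _
    have h6 : orderOf (x : G) * orderOf (k : G) = orderOf (x : G) * 1 := by rw [h1, mul_one]
    exact orderOf_eq_one_iff.1 (Nat.eq_of_mul_eq_mul_left h2 h6)

end Cfsg.Agent.S4108
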