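import Cfsg.Statements.S4112

set_option autoImplicit false
open Cfsg

namespace Cfsg.Agent.S4112


open Subgroup

/-- order of an element times a commuting element of prime order not dividing it -/
theorem pprime_part {G : Type*} [Group G] [Finite G] {p : ℕ} (hp : p.Prime) (g : G) :
    ∃ a : ℕ, ¬ p ∣ orderOf (g ^ p ^ a) ∧ ∃ b : ℕ, (g ^ b) ^ p ^ a = 1 ∧
      ∃ c : ℕ, g ^ (p ^ a * c) * g ^ b = g := by
  obtain ⟨a, m, hm, hom⟩ := Nat.exists_eq_pow_mul_and_not_dvd (orderOf_pos g).ne' p hp.ne_one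
  have hcop : Nat.Coprime (p ^ a) m := (Nat.Coprime.pow_left a ((hp.coprime_iff_not_dvd).2 hm))
  refine ⟨a, ?_, ?_⟩
  · rw [orderOf_pow, hom, Nat.gcd_eq_right (dvd_mul_right _ _), Nat.mul_div_cancel_left _ (pow_pos hp.pos a)]
    exact hm
  · -- Bezout in the exponents modulo the order
    obtain ⟨k, hk1, hk2⟩ := Nat.chineseRemainder hcop 0 1
    have hk3 : p ^ a ∣ k := (Nat.modEq_zero_iff_dvd).1 hk1
    obtain ⟨c, hc⟩ := hk3
    obtain ⟨l, hl1, hl2⟩ := Nat.chineseRemainder hcop 1 0
    have hl3 : m ∣ l := (Nat.modEq_zero_iff_dvd).1 hl2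
    refine ⟨l, ?_, c, ?_⟩
    · rw [← pow_mul, ← orderOf_dvd_iff_pow_eq_one, hom, mul_comm]
      exact mul_dvd_mul hl3 dvd_rfl
    · rw [← hc, ← pow_add]
      conv_rhs => rw [← pow_one g]
      rw [pow_eq_pow_iff_modEq, hom]
      rw [← Nat.modEq_and_modEq_iff_modEq_mul hcop]
      constructor
      · have := hk1.add hl1
        simpa using this
      · have := hk2.add hl2
        simpa using this

/-- a supplement of minimal order -/
theorem exists_supp {G : Type*} [Group G] [Finite G] (N : Subgroup G) [N.Normal] :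
    ∃ H : Subgroup G, H ⊔ N = ⊤ ∧ ∀ p : ℕ, p.Prime → p ∣ Nat.card H → p ∣ N.index := by
  obtain ⟨H, hH, hmin⟩ := (Set.toFinite {H : Subgroup G | H ⊔ N = ⊤}).exists_minimal
    ⟨⊤, by simp⟩
  simp only [Set.mem_setOf_eq] at hH hmin
  refine ⟨H, hH, ?_⟩
  intro p hp hpH
  by_contra hpN
  have hfp : Fact p.Prime := ⟨hp⟩
  have hmin' : ∀ L : Subgroup H, L.map H.subtype ⊔ N = ⊤ → L = ⊤ := by
    intro L hL
    have h1 := hmin hL (map_subtype_le L)
    rw [eq_top_iff]
    intro x _
    obtain ⟨y, hy, hyx⟩ := h1 x.2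
    have : y = x := Subtype.ext hyx
    rw [← this]; exact hy
  set K : Subgroup H := N.subgroupOf H with hK
  have hKn : K.Normal := inferInstance
  have hKi : K.index = N.index := by
    change N.relIndex H = N.index
    rw [← Subgroup.relIndex_sup_right, sup_comm, sup_comm N H, hH, relIndex_top_right]
  obtain ⟨Q⟩ : Nonempty (Sylow p K) := inferInstance
  -- Frattini
  have hF : normalizer ((Q.map K.subtype : Subgroup H) : Set H) ⊔ K = ⊤ := Q.normalizer_sup_eq_top
  have hQn : normalizer ((Q.map K.subtype : Subgroup H) : Set H) = ⊤ := by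
    apply hmin'
    rw [eq_top_iff, ← hH]
    apply sup_le _ le_sup_right
    intro x hx
    have h1 : (⟨x, hx⟩ : H) ∈ normalizer ((Q.map K.subtype : Subgroup H) : Set H) ⊔ K := by
      rw [hF]; trivial
    rw [Subgroup.mem_sup_of_normal_right] at h1
    obtain ⟨y, hy, z, hz, hyz⟩ := h1
    have h2 : (y : G) * (z : G) = x := congrArg Subtype.val hyz
    rw [← h2]
    exact mul_mem (mem_sup_left ⟨y, hy, rfl⟩) (mem_sup_right hz)
  set R : Subgroup H := Q.map K.subtype with hR
  have hRn : R.Normal := normalizer_eq_top_iff.1 hQn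
  have hRle : R ≤ K := map_subtype_le _
  have hRi : ¬ p ∣ R.index := by
    intro h
    have e : R.index = R.relIndex K * K.index := (relIndex_mul_index hRle).symm
    rw [e, hKi] at h
    rcases (hp.dvd_mul).1 h with h1 | h1
    · have e2 : R.relIndex K = (Q : Subgroup K).index := by
        rw [hR]
        change ((Subgroup.map K.subtype Q).comap K.subtype).index = _
        rw [Subgroup.comap_map_eq_self_of_injective (subtype_injective K)]
      rw [e2] at h1
      exact Q.not_dvd_index h1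
    · exact hpN h1
  have hRp : IsPGroup p R := by
    rw [hR]; exact Q.2.map K.subtype
  obtain ⟨k, hk⟩ := (IsPGroup.iff_card).1 hRp
  have hcop : Nat.Coprime (Nat.card R) R.index := by
    rw [hk]
    exact Nat.Coprime.pow_left k ((hp.coprime_iff_not_dvd).2 hRi)
  obtain ⟨L, hL⟩ := exists_right_complement'_of_coprime hcop
  have hLt : L = ⊤ := by
    apply hmin'
    rw [eq_top_iff, ← hH]
    apply sup_le _ le_sup_right
    intro x hx
    have h1 : (⟨x, hx⟩ : H) ∈ R ⊔ L := by rw [hL.sup_eq_top]; trivial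
    rw [Subgroup.mem_sup_of_normal_left] at h1
    obtain ⟨y, hy, z, hz, hyz⟩ := h1
    have h2 : (y : G) * (z : G) = x := congrArg Subtype.val hyz
    rw [← h2]
    exact mul_mem (mem_sup_right (hRle hy)) (mem_sup_left ⟨z, hz, rfl⟩)
  have hR1 : R = ⊥ := by
    have := hL.disjoint.eq_bot
    rwa [hLt, inf_top_eq] at this
  rw [hR1, index_bot] at hRi
  exact hRi hpH

/-- Let G be a finite group and M ≤ N non-trivial proper normal subgroups such that for every g outside N the conjugacy class of g is a union of cosets of M (equivalently gm is conjugate to g for every m ∈ M). Then (1) and (2) below are equivalent, and they imply (3): (1) every g outside N acts fixed-point-freely on M, that is C_G(x) ≤ N for every x ∈ M, x ≠ 1; (2) the index of N in G is coprime to the order of M; (3) there is a subgroup H of G with HN = G and H ∩ M = 1. -/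
theorem result {G : Type*} [Group G] [Finite G] (N M : Subgroup G) [N.Normal] [M.Normal] (hMN : M ≤ N) (hM1 : M ≠ ⊥) (hN2 : N ≠ ⊤)
    (hcam : ∀ g : G, g ∉ N → ∀ m ∈ M, ∃ x : G, x * g * x⁻¹ = g * m) :
    ((∀ x ∈ M, x ≠ 1 → Subgroup.centralizer ({x} : Set G) ≤ N) ↔ N.index.Coprime (Nat.card M)) ∧
    ((∀ x ∈ M, x ≠ 1 → Subgroup.centralizer ({x} : Set G) ≤ N) → ∃ H : Subgroup G, H ⊔ N = ⊤ ∧ H ⊓ M = ⊥) := by
  have hcop1 : (∀ x ∈ M, x ≠ 1 → Subgroup.centralizer ({x} : Set G) ≤ N) →
      N.index.Coprime (Nat.card M) := by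
    intro h1
    by_contra hcon
    obtain ⟨p, hp, hpN, hpM⟩ := Nat.Prime.not_coprime_iff_dvd.1 hcon
    have hfp : Fact p.Prime := ⟨hp⟩
    obtain ⟨P⟩ : Nonempty (Sylow p G) := inferInstance
    letI : MulAction P M := MulAction.compHom M
      ((MulAut.conjNormal : G →* MulAut M).comp (P : Subgroup G).subtype)
    have hact : ∀ (g : P) (m : M), ((g • m : M) : G) = (g : G) * (m : G) * (g : G)⁻¹ := by
      intro g m; rfl
    have hfix : (1 : M) ∈ MulAction.fixedPoints P M := by
      intro g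
      apply Subtype.ext
      rw [hact]; simp
    obtain ⟨b, hb, hb1⟩ := P.2.exists_fixed_point_of_prime_dvd_card_of_fixed_point M hpM hfix
    have hb1' : (b : G) ≠ 1 := fun h => hb1 (Subtype.ext h.symm)
    have hPN : (P : Subgroup G) ≤ N := by
      refine le_trans ?_ (h1 b b.2 hb1')
      intro g hg
      rw [Subgroup.mem_centralizer_singleton_iff]
      have h2 := hb ⟨g, hg⟩
      have h3 : g * (b : G) * g⁻¹ = b := by
        have := congrArg Subtype.val h2
        rwa [hact] at this
      exact mul_inv_eq_iff_eq_mul.1 h3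
    exact P.not_dvd_index (hpN.trans (Subgroup.index_dvd_of_le hPN))
  have hcop2 : N.index.Coprime (Nat.card M) →
      (∀ x ∈ M, x ≠ 1 → Subgroup.centralizer ({x} : Set G) ≤ N) := by
    intro hcop x hx hx1 g hg
    by_contra hgN
    rw [Subgroup.mem_centralizer_singleton_iff] at hg
    have ho : orderOf x ≠ 1 := fun h => hx1 (orderOf_eq_one_iff.1 h)
    obtain ⟨p, hp, hpo⟩ := Nat.exists_prime_and_dvd ho
    have hfp : Fact p.Prime := ⟨hp⟩
    set y := x ^ (orderOf x / p) with hy
    have hyM : y ∈ M := M.pow_mem hx _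
    have hyo : orderOf y = p := by
      rw [hy, orderOf_pow_orderOf_div (orderOf_pos x).ne' hpo]
    have hpM : p ∣ Nat.card M := by
      have := orderOf_dvd_natCard (⟨y, hyM⟩ : M)
      rwa [Subgroup.orderOf_mk, hyo] at this
    have hpN : ¬ p ∣ N.index := by
      intro h
      exact Nat.not_coprime_of_dvd_of_dvd hp.one_lt h hpM hcop
    obtain ⟨a, ha, b, hb, c, hc⟩ := pprime_part hp g
    have hgN' : g ^ p ^ a ∉ N := by
      intro h
      apply hgN
      rw [← hc]
      refine N.mul_mem ?_ ?_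
      · rw [pow_mul]; exact N.pow_mem h c
      · -- the `p`-part lies in `N`
        have h1 : ((g ^ b : G) : G ⧸ N) ^ p ^ a = 1 := by
          rw [← QuotientGroup.mk_pow, hb]; rfl
        have h2 : orderOf ((g ^ b : G) : G ⧸ N) ∣ p ^ a := orderOf_dvd_of_pow_eq_one h1
        have h3 : orderOf ((g ^ b : G) : G ⧸ N) ∣ N.index := orderOf_dvd_natCard _
        have h4 : Nat.Coprime (p ^ a) N.index :=
          Nat.Coprime.pow_left a ((hp.coprime_iff_not_dvd).2 hpN)
        have h5 := Nat.eq_one_of_dvd_coprimes h4 h2 h3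
        rw [orderOf_eq_one_iff] at h5
        exact (QuotientGroup.eq_one_iff _).1 h5
    have hcomm : Commute (g ^ p ^ a) y := by
      have : Commute g x := hg
      exact (this.pow_pow _ _)
    obtain ⟨t, ht⟩ := hcam (g ^ p ^ a) hgN' y hyM
    have h6 : orderOf (g ^ p ^ a * y) = orderOf (g ^ p ^ a) := by
      rw [← ht]
      exact (MulAut.conj t).orderOf_eq (g ^ p ^ a)
    rw [hcomm.orderOf_mul_eq_mul_orderOf_of_coprime (by
      rw [hyo, Nat.coprime_comm, hp.coprime_iff_not_dvd]; exact ha), hyo] at h6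
    have h7 : 0 < orderOf (g ^ p ^ a) := orderOf_pos _
    have h8 : orderOf (g ^ p ^ a) * p = orderOf (g ^ p ^ a) * 1 := by rw [h6, mul_one]
    exact hp.ne_one (Nat.eq_of_mul_eq_mul_left h7 h8)
  refine ⟨⟨hcop1, hcop2⟩, ?_⟩
  intro h1
  have hcop := hcop1 h1
  obtain ⟨H, hH, hHp⟩ := exists_supp N
  refine ⟨H, hH, ?_⟩
  apply Subgroup.inf_eq_bot_of_coprime
  by_contra hcon
  obtain ⟨p, hp, hpH, hpM⟩ := Nat.Prime.not_coprime_iff_dvd.1 hcon
  exact Nat.not_coprime_of_dvd_of_dvd hp.one_lt (hHp p hp hpH) hpM hcop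

end Cfsg.Agent.S4112
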