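import Cfsg.Statements.S4116
import Cfsg.Agent.H1.FrobComp
import Cfsg.Agent.H1.Sylow
import Cfsg.Agent.H25.Primary

set_option autoImplicit false
set_option linter.all false
open Cfsg

namespace Cfsg.Agent.S4116

open scoped Pointwise

open Subgroup in
theorem aux_mem {G : Type*} [Group G] [Finite G] (H : Subgroup G)
    (hHall : (Nat.card H).Coprime H.index) {n : G} (hn : n ∈ normalizer (H : Set G))
    (ho : ∀ q : ℕ, q.Prime → q ∣ orderOf n → q ∣ Nat.card H) : n ∈ H := by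
  have h1 : (⟨n, hn⟩ : normalizer (H : Set G)) ^ (H.subgroupOf (normalizer (H : Set G))).index ∈
      H.subgroupOf (normalizer (H : Set G)) := Subgroup.pow_index_mem _ _
  rw [mem_subgroupOf] at h1
  have h1' : n ^ (H.subgroupOf (normalizer (H : Set G))).index ∈ H := h1
  have h2 : (H.subgroupOf (normalizer (H : Set G))).index ∣ H.index :=
    Subgroup.relIndex_dvd_index_of_le (le_normalizer)
  refine Cfsg.Agent.H25.mem_of_pow_mem (m := (H.subgroupOf (normalizer (H : Set G))).index) ?_ h1'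
  rw [Nat.coprime_iff_gcd_eq_one]
  by_contra hg
  obtain ⟨q, hq, hqd⟩ := Nat.exists_prime_and_dvd hg
  have h3 := ho q hq (hqd.trans (Nat.gcd_dvd_right _ _))
  have h4 := (hqd.trans (Nat.gcd_dvd_left _ _)).trans h2
  exact Nat.Prime.one_lt hq |>.ne' (Nat.eq_one_of_dvd_coprimes hHall h3 h4)

open Subgroup in
theorem aux_frob {G : Type*} [Group G] [Finite G] (H : Subgroup G)
    (hHall : (Nat.card H).Coprime H.index) (hTI : Cfsg.IsTISubset (H : Set G))
    (K : Subgroup G) (hK : ∀ q : ℕ, q.Prime → q ∣ Nat.card K → q ∣ Nat.card H) (g : G)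
    (h1 : (MulAut.conj g • H).subgroupOf K ≠ ⊥) (h2 : (MulAut.conj g • H).subgroupOf K ≠ ⊤) :
    Cfsg.IsFrobeniusComplement ((MulAut.conj g • H).subgroupOf K) := by
  refine ⟨h1, h2, ?_⟩
  intro k hk
  rw [eq_bot_iff]
  intro x hxx
  rw [mem_bot]
  by_contra hx
  obtain ⟨hx1, hx2⟩ := Subgroup.mem_inf.1 hxx
  rw [mem_subgroupOf, Cfsg.Agent.H1.mem_conj_smul] at hx1
  rw [Cfsg.Agent.H1.mem_conj_smul, mem_subgroupOf, Cfsg.Agent.H1.mem_conj_smul] at hx2
  apply hk
  rw [mem_subgroupOf, Cfsg.Agent.H1.mem_conj_smul]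
  have h3 : g⁻¹ * (k : G)⁻¹ * g ∈ normalizer (H : Set G) := by
    by_contra h3
    have h4 := hTI _ h3 _ hx1 (by
      have : g⁻¹ * (k : G)⁻¹ * g * (g⁻¹ * (x : G) * g) * (g⁻¹ * (k : G)⁻¹ * g)⁻¹ =
        g⁻¹ * ((k⁻¹ * x * k : K) : G) * g := by push_cast; group
      rw [this]; exact hx2)
    apply hx
    apply Subtype.ext
    have : (x : G) = g * (g⁻¹ * (x : G) * g) * g⁻¹ := by group
    rw [this, h4]; simp
  have h5 : g⁻¹ * (k : G) * g ∈ normalizer (H : Set G) := by
    have := inv_mem h3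
    have e : (g⁻¹ * (k : G)⁻¹ * g)⁻¹ = g⁻¹ * (k : G) * g := by group
    rwa [e] at this
  refine aux_mem H hHall h5 ?_
  intro q hq hqd
  refine hK q hq (hqd.trans ?_)
  have e : orderOf (g⁻¹ * (k : G) * g) = orderOf k := by
    have e2 : g⁻¹ * (k : G) * g = MulAut.conj g⁻¹ (k : G) := by simp [MulAut.conj_apply]
    rw [e2, MulEquiv.orderOf_eq, Subgroup.orderOf_coe]
  rw [e]; exact orderOf_dvd_natCard k


/-- Let G be a finite group with a subgroup H whose order is coprime to its index (a Hall subgroup) and which meets each of its conjugates by elements outside N_G(H) trivially. Then every subgroup of G whose order is divisible only by primes dividing the order of H lies in a conjugate of H. -/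
theorem result {G : Type*} [Group G] [Finite G] (H : Subgroup G)
    (hHall : (Nat.card H).Coprime H.index) (hTI : Cfsg.IsTISubset (H : Set G))
    (K : Subgroup G) (hK : ∀ q : ℕ, q.Prime → q ∣ Nat.card K → q ∣ Nat.card H) :
    ∃ g : G, K ≤ H.map (MulAut.conj g).toMonoidHom := by
  classical
  have key : ∀ g : G, (MulAut.conj g • H).subgroupOf K = ⊤ → ∃ g : G, K ≤ H.map (MulAut.conj g).toMonoidHom := by
    intro g hg
    rw [Subgroup.subgroupOf_eq_top] at hg
    exact ⟨g, hg⟩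
  by_contra hcon
  have hnt : ∀ g : G, (MulAut.conj g • H).subgroupOf K ≠ ⊤ := fun g hg => hcon (key g hg)
  -- Sylow
  have hsyl : ∀ q : ℕ, q.Prime → q ∣ Nat.card K → ∃ g : G, (MulAut.conj g • H).subgroupOf K ≠ ⊥ ∧
      ¬ q ∣ ((MulAut.conj g • H).subgroupOf K).index := by
    intro q hq hqd
    haveI : Fact q.Prime := ⟨hq⟩
    obtain ⟨Q⟩ : Nonempty (Sylow q K) := inferInstance
    have hQp : IsPGroup q ((Q : Subgroup K).map K.subtype) := Q.2.map _
    have hqi : ¬ q ∣ H.index := fun h =>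
      hq.one_lt.ne' (Nat.eq_one_of_dvd_coprimes hHall (hK q hq hqd) h)
    obtain ⟨g, hg⟩ := Cfsg.Agent.H1.exists_conj_le_of_not_dvd_index hQp hqi
    have hQle : (Q : Subgroup K) ≤ (MulAut.conj g⁻¹ • H).subgroupOf K := by
      intro x hx
      rw [Subgroup.mem_subgroupOf, Cfsg.Agent.H1.mem_conj_smul]
      refine hg ?_
      rw [Cfsg.Agent.H1.mem_conj_smul]
      refine Subgroup.mem_map.2 ⟨x, hx, ?_⟩
      simp only [Subgroup.coe_subtype]; group
    refine ⟨g⁻¹, ?_, ?_⟩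
    · intro h
      rw [h, le_bot_iff] at hQle
      exact Q.ne_bot_of_dvd_card hqd hQle
    · intro h
      exact Q.not_dvd_index (h.trans (Subgroup.index_dvd_of_le hQle))
  have hKne : Nat.card K ≠ 1 := by
    intro h
    apply hcon
    refine ⟨1, ?_⟩
    rw [Subgroup.card_eq_one] at h
    rw [h]; exact bot_le
  obtain ⟨r, hr, hrd⟩ := Nat.exists_prime_and_dvd hKne
  obtain ⟨g, hg, hgr⟩ := hsyl r hr hrd
  have hind : ((MulAut.conj g • H).subgroupOf K).index ≠ 1 := by
    rw [Ne, Subgroup.index_eq_one]; exact hnt g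
  obtain ⟨q, hq, hqd⟩ := Nat.exists_prime_and_dvd hind
  have hqK : q ∣ Nat.card K := hqd.trans (Subgroup.index_dvd_card _)
  obtain ⟨h, hh, hhq⟩ := hsyl q hq hqK
  set A := (MulAut.conj g • H).subgroupOf K with hA
  set B := (MulAut.conj h • H).subgroupOf K with hB
  have hFA := aux_frob H hHall hTI K hK g hg (hnt g)
  have hFB := aux_frob H hHall hTI K hK h hh (hnt h)
  -- meeting
  have hmeet : ∃ x : K, x ∉ Cfsg.frobeniusKernel A ∧ x ∉ Cfsg.frobeniusKernel B := by
    by_contra hno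
    push Not at hno
    have h1 := Cfsg.Agent.H1.frob_card_kernel hFA
    have h2 := Cfsg.Agent.H1.frob_card_kernel hFB
    have h3 : (Cfsg.frobeniusKernel A ∪ Cfsg.frobeniusKernel B : Set K) = Set.univ := by
      ext x; simp only [Set.mem_union, Set.mem_univ, iff_true]
      by_cases hx : x ∈ Cfsg.frobeniusKernel A
      · exact Or.inl hx
      · exact Or.inr (hno x hx)
    have h4 := Set.ncard_union_add_ncard_inter (Cfsg.frobeniusKernel A) (Cfsg.frobeniusKernel B)
    rw [h3, Set.ncard_univ] at h4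
    have h5 : 0 < (Cfsg.frobeniusKernel A ∩ Cfsg.frobeniusKernel B : Set K).ncard := by
      rw [Set.ncard_pos]
      exact ⟨1, Or.inl rfl, Or.inl rfl⟩
    have h6 : (Cfsg.frobeniusKernel A).ncard = A.index := h1
    have h7 : (Cfsg.frobeniusKernel B).ncard = B.index := h2
    have h8 : 2 * A.index ≤ Nat.card K := by
      rw [← A.card_mul_index]
      exact Nat.mul_le_mul_right _ (Subgroup.one_lt_card_iff_ne_bot A |>.2 hg)
    have h9 : 2 * B.index ≤ Nat.card K := by
      rw [← B.card_mul_index]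
      exact Nat.mul_le_mul_right _ (Subgroup.one_lt_card_iff_ne_bot B |>.2 hh)
    omega
  obtain ⟨x, hxA, hxB⟩ := hmeet
  simp only [Cfsg.frobeniusKernel, Set.mem_setOf_eq, not_or, not_forall, not_not] at hxA hxB
  obtain ⟨hx1, a, ha⟩ := hxA
  obtain ⟨-, b, hb⟩ := hxB
  rw [Cfsg.Agent.H1.mem_conj_smul, hA, Subgroup.mem_subgroupOf, Cfsg.Agent.H1.mem_conj_smul] at ha
  rw [Cfsg.Agent.H1.mem_conj_smul, hB, Subgroup.mem_subgroupOf, Cfsg.Agent.H1.mem_conj_smul] at hb
  -- n = h⁻¹ b⁻¹ a g ∈ N(H)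
  have hn : h⁻¹ * (b : G)⁻¹ * (a : G) * g ∈ Subgroup.normalizer (H : Set G) := by
    by_contra hn
    have h1 := hTI _ hn _ ha (by
      have : h⁻¹ * (b : G)⁻¹ * (a : G) * g * (g⁻¹ * ((a⁻¹ * x * a : K) : G) * g) * (h⁻¹ * (b : G)⁻¹ * (a : G) * g)⁻¹
        = h⁻¹ * ((b⁻¹ * x * b : K) : G) * h := by push_cast; group
      rw [this]; exact hb)
    apply hx1
    apply Subtype.ext
    have : (x : G) = (a : G) * g * (g⁻¹ * ((a⁻¹ * x * a : K) : G) * g) * (a * g)⁻¹ := by
      push_cast; group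
    rw [this, h1]; simp
  -- hence B = conj (b⁻¹ a) A
  have hAB : B = MulAut.conj (b⁻¹ * a) • A := by
    ext y
    rw [Cfsg.Agent.H1.mem_conj_smul, hA, hB, Subgroup.mem_subgroupOf, Subgroup.mem_subgroupOf,
      Cfsg.Agent.H1.mem_conj_smul, Cfsg.Agent.H1.mem_conj_smul]
    have h1 := (Subgroup.mem_normalizer_iff.1 hn) (g⁻¹ * (((b⁻¹ * a)⁻¹ * y * (b⁻¹ * a) : K) : G) * g)
    rw [h1]
    have : h⁻¹ * (b : G)⁻¹ * (a : G) * g * (g⁻¹ * (((b⁻¹ * a)⁻¹ * y * (b⁻¹ * a) : K) : G) * g) *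
      (h⁻¹ * (b : G)⁻¹ * (a : G) * g)⁻¹ = h⁻¹ * (y : G) * h := by push_cast; group
    rw [this]
  have hcard : Nat.card B = Nat.card A := by
    rw [hAB]; exact Cfsg.Agent.H1.card_conj_smul _ _
  have hidx : B.index = A.index := by
    have e1 := A.card_mul_index
    have e2 := B.card_mul_index
    rw [hcard] at e2
    exact Nat.eq_of_mul_eq_mul_left Nat.card_pos (e2.trans e1.symm)
  rw [hidx] at hhq
  exact hhq hqd

end Cfsg.Agent.S4116
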