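import Cfsg.Statements.S4115
import Cfsg.Agent.H24.TIHall
import Cfsg.Agent.FT
import Cfsg.Agent.S4116
import Cfsg.Agent.S0877

set_option autoImplicit false
universe u
open Cfsg

namespace Cfsg.Agent.S4115

open Subgroup Cfsg.Agent.H24
open scoped Pointwise

variable {G : Type*} [Group G] [Finite G]

theorem part1 (H : Subgroup G)
    (hTI : Cfsg.IsTISubset (H : Set G)) (hHall : (Nat.card H).Coprime (H.subgroupOf (Subgroup.normalizer (H : Set G))).index)
    (hK : ∃ K : Subgroup (Subgroup.normalizer (H : Set G)), K.Normal ∧ K.IsComplement' (H.subgroupOf (Subgroup.normalizer (H : Set G)))) :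
    ∃ N : Subgroup G, N.Normal ∧ N.IsComplement' H := by
  obtain ⟨K, hKn, hKc⟩ := hK
  have hcop := TIHall.coprime_index hTI hHall
  haveI := hKn
  have hHN : H ≤ normalizer (H : Set G) := le_normalizer
  have hfus : ∀ x ∈ H, ∀ y ∈ H, IsConj x y → ∃ h ∈ H, h * x * h⁻¹ = y := by
    intro x hx y hy hxy
    obtain ⟨g, hg⟩ := isConj_iff.mp hxy
    by_cases hx1 : x = 1
    · refine ⟨1, H.one_mem, ?_⟩
      rw [← hg, hx1]; simp
    have hgN : g ∈ normalizer (H : Set G) := by
      by_contra h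
      exact hx1 (hTI g h x hx (by rw [hg]; exact hy))
    obtain ⟨⟨k, h⟩, hkh, -⟩ := hKc.existsUnique ⟨g, hgN⟩
    have hkh' : ((k : normalizer (H : Set G)) : G) * ((h : normalizer (H : Set G)) : G) = g := by
      have := congrArg (Subtype.val) hkh
      simpa using this
    have hhH : ((h : normalizer (H : Set G)) : G) ∈ H := h.2
    refine ⟨h, hhH, ?_⟩
    set w : G := ((h : normalizer (H : Set G)) : G) * x * ((h : normalizer (H : Set G)) : G)⁻¹ with hw
    have hwH : w ∈ H := H.mul_mem (H.mul_mem hhH hx) (H.inv_mem hhH)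
    have hkw : ((k : normalizer (H : Set G)) : G) * w * ((k : normalizer (H : Set G)) : G)⁻¹ = y := by
      rw [← hg, ← hkh', hw]; group
    -- commutator of k and w is in K ∩ H
    have h1 : (k : normalizer (H : Set G)) * ⟨w, hHN hwH⟩ * (k : normalizer (H : Set G))⁻¹ * (⟨w, hHN hwH⟩ : normalizer (H : Set G))⁻¹ ∈ K ⊓ H.subgroupOf (normalizer (H : Set G)) := by
      refine mem_inf.mpr ⟨?_, ?_⟩
      · have := K.mul_mem k.2 (hKn.conj_mem _ (K.inv_mem k.2) ⟨w, hHN hwH⟩)
        simpa [mul_assoc] using this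
      · rw [mem_subgroupOf]
        show ((k : normalizer (H : Set G)) : G) * w * ((k : normalizer (H : Set G)) : G)⁻¹ * w⁻¹ ∈ H
        rw [hkw]
        exact H.mul_mem hy (H.inv_mem hwH)
    rw [disjoint_iff.mp hKc.disjoint, mem_bot] at h1
    have h2 := congrArg (Subtype.val) h1
    have h3 : ((k : normalizer (H : Set G)) : G) * w * ((k : normalizer (H : Set G)) : G)⁻¹ * w⁻¹ = 1 := by simpa using h2
    rw [hkw] at h3
    exact (mul_inv_eq_one.mp h3).symm
  have hel : ∀ (E : Subgroup G) (p : ℕ), p.Prime → Cfsg.IsElementary p E → Nat.card E ∣ Nat.card H →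
      ∃ g : G, E.map (MulAut.conj g).toMonoidHom ≤ H := by
    intro E p hp _ hE
    obtain ⟨g, hg⟩ := S4116.result H hcop hTI E (fun q _ hq => hq.trans hE)
    refine ⟨g⁻¹, ?_⟩
    rintro _ ⟨e, he, rfl⟩
    obtain ⟨h, hh, hhe⟩ := hg he
    have : g * h * g⁻¹ = e := by simpa using hhe
    have h4 : g⁻¹ * e * g = h := by rw [← this]; group
    simpa [h4] using hh
  obtain ⟨L, hLn, hL1, hL2⟩ := S0877.result H hcop hfus hel
  haveI := hLn
  exact ⟨L, hLn, isComplement'_of_disjoint_and_mul_eq_univ (disjoint_iff.mpr hL2)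
      (by rw [← Subgroup.normal_mul, hL1, coe_top])⟩

theorem part2 (H : Subgroup G)
    (hN : ∃ N : Subgroup G, N.Normal ∧ N.IsComplement' H) :
    ∃ K : Subgroup (Subgroup.normalizer (H : Set G)), K.Normal ∧ K.IsComplement' (H.subgroupOf (Subgroup.normalizer (H : Set G))) := by
  obtain ⟨L, hLn, hLc⟩ := hN
  haveI := hLn
  refine ⟨L.subgroupOf _, inferInstance, ?_⟩
  have hdis := disjoint_iff.mp hLc.disjoint
  refine isComplement'_of_disjoint_and_mul_eq_univ ?_ ?_
  · rw [disjoint_iff, eq_bot_iff]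
    rintro ⟨x, hxN⟩ hx
    obtain ⟨h1, h2⟩ := mem_inf.mp hx
    have h3 : x ∈ L ⊓ H := mem_inf.mpr ⟨h1, h2⟩
    rw [hdis, mem_bot] at h3
    exact mem_bot.mpr (Subtype.ext h3)
  · rw [Set.eq_univ_iff_forall]
    rintro ⟨x, hx⟩
    obtain ⟨⟨k, h⟩, hkh, -⟩ := hLc.existsUnique x
    have hkh' : (k : G) * (h : G) = x := hkh
    have hhN : (h : G) ∈ normalizer (H : Set G) := le_normalizer h.2
    have hkN : (k : G) ∈ normalizer (H : Set G) := by
      have : (k : G) = x * (h : G)⁻¹ := by rw [← hkh']; group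
      rw [this]
      exact mul_mem hx (inv_mem hhN)
    exact Set.mem_mul.mpr ⟨⟨k, hkN⟩, k.2, ⟨h, hhN⟩, h.2, Subtype.ext hkh'⟩

theorem part3 {G : Type u} [Group G] [Finite G] (H : Subgroup G)
    (hTI : Cfsg.IsTISubset (H : Set G)) (hcop : (Nat.card H).Coprime H.index)
    (hnn : ¬ H.Normal) (L : Subgroup G) (hLn : L.Normal) (hLc : L.IsComplement' H) :
    ∃ (F : Type u) (_ : Group F) (_ : Finite F) (C : Subgroup F), Cfsg.IsFrobeniusComplement C ∧ Nonempty (H ≃* C) := by
  have hcL : Nat.card L = H.index := hLc.index_eq_card.symm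
  have hcop' : (Nat.card L).Coprime (Nat.card H) := by rw [hcL]; exact hcop.symm
  have hLN : H ≤ normalizer (L : Set G) := by rw [normalizer_eq_top]; exact le_top
  have hsolv : Group.IsSolvable H ∨ Group.IsSolvable L := by
    rcases Nat.even_or_odd (Nat.card H) with h | h
    · refine Or.inr (FT.odd_order ?_)
      rcases Nat.even_or_odd (Nat.card L) with h' | h'
      · exact absurd (Nat.dvd_gcd h'.two_dvd h.two_dvd) (by rw [hcop']; norm_num)
      · exact h'
    · exact Or.inl (FT.odd_order h)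
  have htop : L ⊔ H = ⊤ := hLc.sup_eq_top
  -- an H-invariant r-subgroup of L not centralized by H
  obtain ⟨r, hr, R, hRL, hRr, hHR, hRC⟩ : ∃ (r : ℕ) (_ : Fact r.Prime) (R : Subgroup G), R ≤ L ∧ IsPGroup r R ∧
      H ≤ normalizer (R : Set G) ∧ ¬ R ≤ centralizer (H : Set G) := by
    by_contra hcon
    push Not at hcon
    apply hnn
    have h1 : L ≤ centralizer (H : Set G) := by
      refine H23.le_of_forall_isSylowOf_le fun p hp => ?_
      obtain ⟨P, hP, hHP⟩ := H23.exists_invariant_sylow hLN hcop'.symm hsolv p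
      exact ⟨P, hP, hcon p hp P hP.le hP.isPGroup hHP⟩
    have h2 : L ≤ normalizer (H : Set G) := h1.trans (centralizer_le_normalizer _)
    rw [← normalizer_eq_top_iff, eq_top_iff, ← htop]
    exact sup_le h2 le_normalizer
  -- minimal such
  obtain ⟨W, ⟨hWR, hHW, hWC⟩, hWmin⟩ := (Set.toFinite {W : Subgroup G | W ≤ R ∧ H ≤ normalizer (W : Set G) ∧
    ¬ W ≤ centralizer (H : Set G)}).exists_minimal ⟨R, le_rfl, hHR, hRC⟩
  have hWr : IsPGroup r W := hRr.to_le hWR
  have hWL : W ≤ L := hWR.trans hRL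
  have hWH : W ⊓ H = ⊥ := by
    rw [eq_bot_iff, ← disjoint_iff.mp hLc.disjoint]
    exact inf_le_inf_right _ hWL
  set D : Subgroup G := W ⊓ centralizer (H : Set G) with hD
  have hWW : ⁅W, W⁆ ≤ D := by
    have h1 : ⁅W, W⁆ ≤ W := commutator_le.mpr fun a ha b hb => by
      rw [commutatorElement_def]
      exact W.mul_mem (W.mul_mem (W.mul_mem ha hb) (W.inv_mem ha)) (W.inv_mem hb)
    refine le_inf h1 ?_
    by_contra h2
    have h3 : H ≤ normalizer ((⁅W, W⁆ : Subgroup G) : Set G) := by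
      intro h hh
      refine H1.mem_normalizer_iff_conj_smul.mpr ?_
      rw [H23.conj_smul_commutator, H1.mem_normalizer_iff_conj_smul.mp (hHW hh)]
    have h4 : W ≤ ⁅W, W⁆ := hWmin ⟨h1.trans hWR, h3, h2⟩ h1
    have hWne : W ≠ ⊥ := by
      rintro rfl
      exact hWC bot_le
    have := H23.commutator_lt_of_isPGroup (P := W) (B := W) hWr hWr le_normalizer hWne
    exact absurd h4 (not_le_of_gt this)
  have hMD : W ⊔ H ≤ normalizer (D : Set G) := by
    refine sup_le ?_ ?_
    · intro w hw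
      rw [mem_normalizer_iff]
      intro d
      have key : ∀ w ∈ W, ∀ d ∈ D, w * d * w⁻¹ ∈ D := by
        intro w hw d hd
        have h1 : w * d * w⁻¹ * d⁻¹ ∈ D := by
          have := hWW (commutator_mem_commutator hw (mem_inf.mp hd).1)
          rwa [commutatorElement_def] at this
        have h2 : w * d * w⁻¹ = (w * d * w⁻¹ * d⁻¹) * d := by group
        rw [h2]; exact D.mul_mem h1 hd
      refine ⟨key w hw d, fun h => ?_⟩
      have := key w⁻¹ (W.inv_mem hw) _ h
      have e : w⁻¹ * (w * d * w⁻¹) * w⁻¹⁻¹ = d := by group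
      rwa [e] at this
    · exact (le_centralizer_iff.mp inf_le_right).trans (centralizer_le_normalizer _)
  have hCx : ∀ x ∈ H, x ≠ 1 → ∀ w ∈ W, w * x = x * w → w ∈ D := by
    intro x hx hx1 w hw hwx
    have h1 := TIHall.centralizer_le hTI L hLn hcop' x hx hx1
      (mem_inf.mpr ⟨hWL hw, mem_centralizer_singleton_iff.mpr hwx⟩)
    exact mem_inf.mpr ⟨hw, h1⟩
  have hHM : H ≤ W ⊔ H := le_sup_right
  let M : Subgroup G := W ⊔ H
  let D' : Subgroup M := D.subgroupOf M
  have hDM : D ≤ M := inf_le_left.trans le_sup_left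
  haveI hD'n : D'.Normal := normal_subgroupOf_of_le_normalizer hMD
  let φ : H →* M ⧸ D' := (QuotientGroup.mk' D').comp (inclusion hHM)
  have hφmem : ∀ h : H, φ h = 1 → h = 1 := by
    intro h hh
    have h1 : inclusion hHM h ∈ D' := (QuotientGroup.eq_one_iff _).mp hh
    have h2 : (h : G) ∈ D := h1
    have h3 : (h : G) ∈ W ⊓ H := mem_inf.mpr ⟨(mem_inf.mp h2).1, h.2⟩
    rw [hWH, mem_bot] at h3
    exact Subtype.ext h3
  have hφ : Function.Injective φ := (injective_iff_map_eq_one φ).mpr hφmem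
  have hHne : H ≠ ⊥ := by
    rintro rfl
    exact hnn inferInstance
  refine ⟨M ⧸ D', inferInstance, inferInstance, φ.range, ⟨?_, ?_, ?_⟩, ⟨MonoidHom.ofInjective hφ⟩⟩
  · intro h
    obtain ⟨x, hx⟩ := ne_bot_iff_exists_ne_one.mp hHne
    apply hx
    apply hφmem
    have : φ x ∈ φ.range := ⟨x, rfl⟩
    rw [h] at this
    exact mem_bot.mp this
  · -- range ≠ ⊤
    intro h
    apply hWC
    intro w hw
    have h1 : (QuotientGroup.mk' D' ⟨w, (le_sup_left : W ≤ M) hw⟩) ∈ φ.range := by rw [h]; trivial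
    obtain ⟨x, hx⟩ := h1
    have h2 : (inclusion hHM x)⁻¹ * ⟨w, (le_sup_left : W ≤ M) hw⟩ ∈ D' := QuotientGroup.eq.mp hx
    have h3 : (x : G)⁻¹ * w ∈ D := h2
    have h4 : (x : G) ∈ W ⊓ H := by
      refine mem_inf.mpr ⟨?_, x.2⟩
      have := W.mul_mem hw (W.inv_mem (mem_inf.mp h3).1)
      have e : w * ((x : G)⁻¹ * w)⁻¹ = x := by group
      rwa [e] at this
    rw [hWH, mem_bot] at h4
    rw [h4, inv_one, one_mul] at h3
    exact (mem_inf.mp h3).2
  · intro f hf
    rw [eq_bot_iff]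
    intro c hc
    obtain ⟨hc1, hc2⟩ := mem_inf.mp hc
    obtain ⟨x, rfl⟩ := hc1
    rw [mem_smul_pointwise_iff_exists] at hc2
    obtain ⟨_, ⟨y, rfl⟩, hy⟩ := hc2
    rw [mem_bot]
    by_contra hx1
    apply hf
    -- f = w h
    obtain ⟨m, rfl⟩ := QuotientGroup.mk_surjective f
    have hm : (m : G) ∈ W ⊔ H := m.2
    obtain ⟨w, hw, h, hh, hwh⟩ := (H23.mem_sup_iff_of_le_normalizer hHW).mp hm
    let y' : H := ⟨h, hh⟩ * y * ⟨h, hh⟩⁻¹
    have hmy : ((m : G)) * y * (m : G)⁻¹ = w * (y' : G) * w⁻¹ := by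
      rw [← hwh]
      show w * h * (y : G) * (w * h)⁻¹ = w * (h * y * h⁻¹) * w⁻¹
      group
    have hy2 : QuotientGroup.mk' D' (m * inclusion hHM y * m⁻¹) = QuotientGroup.mk' D' (inclusion hHM x) := by
      rw [← MulAut.conj_apply] 
      exact hy
    have h3 : (inclusion hHM x)⁻¹ * (m * inclusion hHM y * m⁻¹) ∈ D' :=
      QuotientGroup.eq.mp hy2.symm
    have h4 : (x : G)⁻¹ * (w * (y' : G) * w⁻¹) ∈ D := by
      rw [← hmy]
      exact h3
    set d : G := (x : G)⁻¹ * (w * (y' : G) * w⁻¹) with hd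
    obtain ⟨hdW, hdC⟩ := mem_inf.mp h4
    have hxd : w * (y' : G) * w⁻¹ = x * d := by rw [hd]; group
    -- x = y'
    have hxy' : (x : G) = y' := by
      have h5 : (y' : G) * w⁻¹ * (y' : G)⁻¹ ∈ W := (mem_normalizer_iff.mp (hHW y'.2) _).mp (W.inv_mem hw)
      have h6 : (x : G) * d * (x : G)⁻¹ ∈ W := (mem_normalizer_iff.mp (hHW x.2) _).mp hdW
      have h7 : (x : G) * (y' : G)⁻¹ ∈ W ⊓ H := by
        refine mem_inf.mpr ⟨?_, H.mul_mem x.2 (H.inv_mem y'.2)⟩
        have h8 := W.mul_mem (W.inv_mem h6) (W.mul_mem hw h5)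
        have e : ((x : G) * d * (x : G)⁻¹)⁻¹ * (w * ((y' : G) * w⁻¹ * (y' : G)⁻¹)) =
            (x : G) * d⁻¹ * (x : G)⁻¹ * (w * (y' : G) * w⁻¹) * (y' : G)⁻¹ := by group
        rw [e, hxd] at h8
        have e2 : (x : G) * d⁻¹ * (x : G)⁻¹ * ((x : G) * d) * (y' : G)⁻¹ = (x : G) * (y' : G)⁻¹ := by group
        rwa [e2] at h8
      rw [hWH, mem_bot] at h7
      exact mul_inv_eq_one.mp h7
    rw [← hxy'] at hxd
    have hdx : Commute (x : G) d := by
      have := mem_centralizer_iff.mp hdC x x.2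
      exact this
    have h9 : d ^ orderOf (x : G) = 1 := by
      have h10 : (w * (x : G) * w⁻¹) ^ orderOf (x : G) = 1 := by
        rw [conj_pow, pow_orderOf_eq_one]; group
      rw [hxd, hdx.mul_pow, pow_orderOf_eq_one, one_mul] at h10
      exact h10
    have hd1 : d = 1 := by
      have h11 : orderOf d ∣ Nat.card L := by
        have := orderOf_dvd_natCard (⟨d, hWL hdW⟩ : L)
        rwa [Subgroup.orderOf_mk] at this
      have h12 : orderOf (x : G) ∣ Nat.card H := by
        have := orderOf_dvd_natCard x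
        rwa [← Subgroup.orderOf_coe] at this
      have h13 : orderOf d ∣ Nat.card H := (orderOf_dvd_of_pow_eq_one h9).trans h12
      exact orderOf_eq_one_iff.mp (Nat.eq_one_of_dvd_coprimes hcop' h11 h13)
    rw [hd1, mul_one] at hxd
    have hx1' : (x : G) ≠ 1 := by
      intro h
      apply hx1
      have : x = 1 := Subtype.ext h
      rw [this, map_one]
    have hwD : w ∈ D := hCx x x.2 hx1' w hw (by
      calc w * (x : G) = (w * (x : G) * w⁻¹) * w := by group
        _ = x * w := by rw [hxd])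
    refine ⟨⟨h, hh⟩, ?_⟩
    show (QuotientGroup.mk (inclusion hHM ⟨h, hh⟩) : M ⧸ D') = QuotientGroup.mk m
    rw [QuotientGroup.eq]
    show h⁻¹ * (m : G) ∈ D
    rw [← hwh]
    have h14 : h⁻¹ * (w * h) = h⁻¹ * w * h⁻¹⁻¹ := by group
    rw [h14]
    exact (mem_normalizer_iff.mp (hMD (hHM (H.inv_mem hh))) w).mp hwD

/-- Let G be a finite group and H a subgroup that meets each of its conjugates by elements outside N_G(H) trivially and whose order is coprime to its index in N_G(H). Then H has a normal complement in N_G(H) if and only if H has a normal complement in G. Moreover, if H is not normal in G and has a normal complement in N_G(H), then H is isomorphic to a Frobenius complement of some finite Frobenius group. -/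
theorem result {G : Type u} [Group G] [Finite G] (H : Subgroup G)
    (hTI : Cfsg.IsTISubset (H : Set G)) (hHall : (Nat.card H).Coprime (H.subgroupOf (Subgroup.normalizer (H : Set G))).index) :
    ((∃ K : Subgroup (Subgroup.normalizer (H : Set G)), K.Normal ∧ K.IsComplement' (H.subgroupOf (Subgroup.normalizer (H : Set G)))) ↔
      (∃ N : Subgroup G, N.Normal ∧ N.IsComplement' H)) ∧
    (¬ H.Normal → (∃ K : Subgroup (Subgroup.normalizer (H : Set G)), K.Normal ∧ K.IsComplement' (H.subgroupOf (Subgroup.normalizer (H : Set G)))) →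
      ∃ (F : Type u) (_ : Group F) (_ : Finite F) (C : Subgroup F), Cfsg.IsFrobeniusComplement C ∧ Nonempty (H ≃* C)) := by
  have hcop := TIHall.coprime_index hTI hHall
  refine ⟨⟨part1 H hTI hHall, part2 H⟩, fun hnn hK => ?_⟩
  obtain ⟨L, hLn, hLc⟩ := part1 H hTI hHall hK
  exact part3 H hTI hcop hnn L hLn hLc

end Cfsg.Agent.S4115
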