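import Cfsg.Statements.S4117
import Cfsg.Agent.H24.ZCop
import Cfsg.Agent.H1.Cyc

set_option autoImplicit false
open Cfsg

namespace Cfsg.Agent.S4117

open Cfsg.Agent
open scoped commutatorElement

universe u

theorem comm_le_centralizer {Γ : Type*} [Group Γ] {D K Q : Subgroup Γ} (hD : IsCyclic D)
    (hK : K ≤ Subgroup.normalizer (D : Set Γ)) (hQ : Q ≤ Subgroup.normalizer (D : Set Γ)) :
    ⁅K, Q⁆ ≤ Subgroup.centralizer (D : Set Γ) := by
  rw [Subgroup.commutator_le]
  intro k hk q hq
  set N := Subgroup.normalizer (D : Set Γ) with hN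
  have h1 : (D.subgroupOf N).Normal := Subgroup.normal_subgroupOf_of_le_normalizer le_rfl
  have h2 : IsCyclic (D.subgroupOf N) :=
    isCyclic_of_injective (Subgroup.subgroupOfEquivOfLe (Subgroup.le_normalizer (H := D))).toMonoidHom
      (Subgroup.subgroupOfEquivOfLe (Subgroup.le_normalizer (H := D))).injective
  have h3 := H1.commutator_le_centralizer_of_cyclic h1 h2
  have h4 : ⁅(⟨k, hK hk⟩ : N), ⟨q, hQ hq⟩⁆ ∈ _root_.commutator N := by
    rw [_root_.commutator_def]
    exact Subgroup.commutator_mem_commutator (Subgroup.mem_top _) (Subgroup.mem_top _)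
  have h5 := h3 h4
  rw [Subgroup.mem_centralizer_iff] at h5 ⊢
  intro d hd
  have h6 := h5 ⟨d, Subgroup.le_normalizer hd⟩ (Subgroup.mem_subgroupOf.mpr hd)
  exact congrArg Subtype.val h6

theorem K_cyclic {Γ : Type*} [Group Γ] [Finite Γ] (K Q : Subgroup Γ) (hQ : Q ≤ Subgroup.normalizer (K : Set Γ))
    (hKQ : ⁅K, Q⁆ = K) [hZ : IsZGroup K] : IsCyclic K := by
  have hDc : IsCyclic (_root_.commutator K) := IsZGroup.isCyclic_commutator K
  set D : Subgroup Γ := (_root_.commutator K).map K.subtype with hD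
  have hDcyc : IsCyclic D :=
    isCyclic_of_surjective _ ((_root_.commutator K).equivMapOfInjective _ K.subtype_injective).surjective
  have hDe : D = ⁅K, K⁆ := by
    rw [hD, _root_.commutator_def, Subgroup.map_commutator, ← MonoidHom.range_eq_map, Subgroup.range_subtype]
  have hKD : K ≤ Subgroup.normalizer (D : Set Γ) := by
    rw [hDe]
    exact H1.left_le_normalizer_commutator K K
  have hQD : Q ≤ Subgroup.normalizer (D : Set Γ) := by
    intro q hq
    rw [H1.mem_normalizer_iff_conj_smul, hDe, H1.conj_smul_commutator, (H1.mem_normalizer_iff_conj_smul).mp (hQ hq)]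
  have h1 := comm_le_centralizer hDcyc hKD hQD
  rw [hKQ] at h1
  have h2 : _root_.commutator K ≤ Subgroup.center K := by
    intro x hx
    rw [Subgroup.mem_center_iff]
    intro k
    apply Subtype.ext
    have h3 := (Subgroup.mem_centralizer_iff.mp (h1 k.2)) (x : Γ) ⟨x, hx, rfl⟩
    exact h3.symm
  have h3 : ∀ a b : K, a * b = b * a := by
    have : IsCyclic (Abelianization K) := IsZGroup.isCyclic_abelianization
    apply commutative_of_cyclic_center_quotient (Abelianization.of : K →* Abelianization K)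
    rw [Abelianization.ker_of]
    exact h2
  have h4 : Group.IsNilpotent K := by
    let _ : CommGroup K := { (inferInstance : Group K) with mul_comm := h3 }
    exact CommGroup.isNilpotent
  infer_instance

theorem main {G A Γ : Type*} [Group G] [Finite G] [Group A] [Finite A] [Group Γ] [Finite Γ]
    [MulDistribMulAction A G] (hcop : (Nat.card A).Coprime (Nat.card G))
    (hcyc : ∀ (p : ℕ) [Fact p.Prime] (P : Sylow p G), IsCyclic (P : Subgroup G))
    (iG : G →* Γ) (iA : A →* Γ) (hiG : Function.Injective iG) (hiA : Function.Injective iA)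
    (hconj : ∀ (a : A) (g : G), iA a * iG g * (iA a)⁻¹ = iG (a • g)) :
    (Nat.card (MulAction.fixedPoints A G : Set G)).Coprime (Nat.card G / Nat.card (MulAction.fixedPoints A G : Set G)) ∧
    IsCyclic (Subgroup.closure {y : G | ∃ (a : A) (g : G), y = g⁻¹ * a • g}) ∧
    (Subgroup.closure {y : G | ∃ (a : A) (g : G), y = g⁻¹ * a • g}).Normal ∧
    (Subgroup.closure {y : G | ∃ (a : A) (g : G), y = g⁻¹ * a • g} : Set G) ∩ MulAction.fixedPoints A G = {1} ∧
    Subgroup.closure {y : G | ∃ (a : A) (g : G), y = g⁻¹ * a • g} ⊔ Subgroup.closure (MulAction.fixedPoints A G) = ⊤ := by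
  classical
  set H : Subgroup Γ := iG.range with hH
  set Q : Subgroup Γ := iA.range with hQd
  have hQ : Q ≤ Subgroup.normalizer (H : Set Γ) := by
    rintro _ ⟨a, rfl⟩
    rw [Subgroup.mem_normalizer_iff]
    intro x
    constructor
    · rintro ⟨g, rfl⟩
      exact ⟨a • g, (hconj a g).symm⟩
    · rintro ⟨g, hg⟩
      refine ⟨a⁻¹ • g, ?_⟩
      rw [← hconj, hg, map_inv]
      group
  have hcH : Nat.card H = Nat.card G := Nat.card_congr (MonoidHom.ofInjective hiG).symm.toEquiv
  have hcQ : Nat.card Q = Nat.card A := Nat.card_congr (MonoidHom.ofInjective hiA).symm.toEquiv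
  have hcop' : (Nat.card Q).Coprime (Nat.card H) := by rw [hcH, hcQ]; exact hcop
  have hZG : IsZGroup G := ⟨fun p hp P => by
    have := Fact.mk hp
    exact hcyc p P⟩
  have hZH : IsZGroup H := IsZGroup.of_injective (f := (MonoidHom.ofInjective hiG).symm.toMonoidHom)
    (MonoidHom.ofInjective hiG).symm.injective
  have hsol : Group.IsSolvable Q ∨ Group.IsSolvable H := Or.inr inferInstance
  set K : Subgroup Γ := ⁅H, Q⁆ with hK
  set C : Subgroup Γ := H ⊓ Subgroup.centralizer (Q : Set Γ) with hC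
  have hKH : K ≤ H := H1.commutator_le_left_of_le_normalizer hQ
  have hKQ : ⁅K, Q⁆ = K := H1.commutator_commutator_eq Q H hQ hcop' hsol
  have hQK : Q ≤ Subgroup.normalizer (K : Set Γ) := H1.right_le_normalizer_commutator H Q
  have hHK : H ≤ Subgroup.normalizer (K : Set Γ) := H1.left_le_normalizer_commutator H Q
  have hsup : K ⊔ C = H := H1.commutator_sup_centralizer Q H hQ hcop' hsol
  have hcopCK : (Nat.card C).Coprime (Nat.card K) := H24.ZCop.coprime_centralizer_commutator H Q hQ hcop'
  have hZK : IsZGroup K := IsZGroup.of_injective (f := Subgroup.inclusion hKH) (Subgroup.inclusion_injective hKH)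
  have hKcyc : IsCyclic K := K_cyclic K Q hQK hKQ
  have hinf : K ⊓ C = ⊥ := Subgroup.inf_eq_bot_of_coprime hcopCK.symm
  -- translation
  set K₀ : Subgroup G := Subgroup.closure {y : G | ∃ (a : A) (g : G), y = g⁻¹ * a • g} with hK₀
  have hK₀m : K₀.map iG = K := by
    rw [hK₀, MonoidHom.map_closure, hK, Subgroup.commutator_def]
    congr 1
    ext x
    constructor
    · rintro ⟨_, ⟨a, g, rfl⟩, rfl⟩
      refine ⟨iG g⁻¹, ⟨g⁻¹, rfl⟩, iA a, ⟨a, rfl⟩, ?_⟩
      rw [commutatorElement_def, map_inv, inv_inv, map_mul, map_inv, ← hconj]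
      group
    · rintro ⟨_, ⟨g, rfl⟩, _, ⟨a, rfl⟩, rfl⟩
      refine ⟨g * a • g⁻¹, ⟨a, g⁻¹, by rw [inv_inv]⟩, ?_⟩
      rw [commutatorElement_def, map_mul, ← hconj, map_inv]
      group
  have hfix : ∀ g : G, g ∈ MulAction.fixedPoints A G ↔ iG g ∈ C := by
    intro g
    rw [hC, Subgroup.mem_inf]
    constructor
    · intro hg
      refine ⟨⟨g, rfl⟩, ?_⟩
      rw [Subgroup.mem_centralizer_iff]
      rintro _ ⟨a, rfl⟩
      have h1 := hconj a g
      rw [hg a] at h1
      exact mul_inv_eq_iff_eq_mul.mp h1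
    · rintro ⟨-, hg⟩ a
      apply hiG
      rw [← hconj, (Subgroup.mem_centralizer_iff.mp hg) (iA a) ⟨a, rfl⟩, mul_inv_cancel_right]
  let C₀ : Subgroup G := C.comap iG
  have hC₀ : (C₀ : Set G) = MulAction.fixedPoints A G := by
    ext g
    exact (hfix g).symm
  have hC₀m : C₀.map iG = C := by
    rw [Subgroup.map_comap_eq, inf_eq_right]
    exact inf_le_left
  have hcC : Nat.card (MulAction.fixedPoints A G : Set G) = Nat.card C := by
    rw [← hC₀, ← hC₀m]
    exact Nat.card_congr (C₀.equivMapOfInjective iG hiG).toEquiv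
  have hcK : Nat.card K₀ = Nat.card K := by
    rw [← hK₀m]
    exact Nat.card_congr (K₀.equivMapOfInjective iG hiG).toEquiv
  have hcard : Nat.card H = Nat.card K * Nat.card C := by
    have h1 := H1.card_sup_of_coprime (H := K) (K := C) ((inf_le_left).trans hHK) hcopCK.symm
    rw [hsup] at h1
    exact h1
  refine ⟨?_, ?_, ?_, ?_, ?_⟩
  · rw [hcC, ← hcH, hcard, Nat.mul_div_cancel _ Nat.card_pos]
    exact hcopCK
  · have e := K₀.equivMapOfInjective iG hiG
    rw [hK₀m] at e
    exact isCyclic_of_injective e.toMonoidHom e.injective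
  · constructor
    intro n hn g
    have h1 : iG n ∈ K := by rw [← hK₀m]; exact ⟨n, hn, rfl⟩
    have h2 := (Subgroup.mem_normalizer_iff.mp (hHK ⟨g, rfl⟩) (iG n)).mp h1
    rw [← hK₀m] at h2
    obtain ⟨y, hy, hyx⟩ := h2
    have : y = g * n * g⁻¹ := hiG (by rw [hyx]; simp)
    rw [← this]
    exact hy
  · rw [← hC₀, ← Subgroup.coe_inf]
    have h1 : K₀ ⊓ C₀ = ⊥ := by
      rw [eq_bot_iff]
      intro x hx
      have h2 : iG x ∈ K ⊓ C := ⟨by rw [← hK₀m]; exact ⟨x, hx.1, rfl⟩, hx.2⟩
      rw [hinf, Subgroup.mem_bot] at h2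
      rw [Subgroup.mem_bot]
      exact hiG (by rw [h2, map_one])
    rw [h1, Subgroup.coe_bot]
  · rw [← hC₀, Subgroup.closure_eq]
    apply (Subgroup.map_injective hiG)
    rw [Subgroup.map_sup, hK₀m, hC₀m, hsup, hH, ← MonoidHom.range_eq_map]

/-- Let A be a finite group acting on the finite group G by automorphisms with the orders of A and G coprime, and suppose every Sylow subgroup of G is cyclic. Then the fixed-point subgroup C_G(A) is a Hall subgroup of G (its order is coprime to its index), the subgroup [G, A] generated by the elements g⁻¹·a(g) is cyclic and normal with [G, A] ∩ C_G(A) = 1 and [G, A]·C_G(A) = G. -/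
theorem result {G A : Type*} [Group G] [Finite G] [Group A] [Finite A]
    [MulDistribMulAction A G] (hcop : (Nat.card A).Coprime (Nat.card G))
    (hcyc : ∀ (p : ℕ) [Fact p.Prime] (P : Sylow p G), IsCyclic (P : Subgroup G)) :
    (Nat.card (MulAction.fixedPoints A G : Set G)).Coprime (Nat.card G / Nat.card (MulAction.fixedPoints A G : Set G)) ∧
    IsCyclic (Subgroup.closure {y : G | ∃ (a : A) (g : G), y = g⁻¹ * a • g}) ∧
    (Subgroup.closure {y : G | ∃ (a : A) (g : G), y = g⁻¹ * a • g}).Normal ∧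
    (Subgroup.closure {y : G | ∃ (a : A) (g : G), y = g⁻¹ * a • g} : Set G) ∩ MulAction.fixedPoints A G = {1} ∧
    Subgroup.closure {y : G | ∃ (a : A) (g : G), y = g⁻¹ * a • g} ⊔ Subgroup.closure (MulAction.fixedPoints A G) = ⊤ := by
  classical
  let φ : A →* MulAut G := MulDistribMulAction.toMulAut A G
  have hfin : Finite (G ⋊[φ] A) := Finite.of_equiv (G × A) SemidirectProduct.equivProd.symm
  refine main (Γ := G ⋊[φ] A) hcop hcyc SemidirectProduct.inl SemidirectProduct.inr
    SemidirectProduct.inl_injective SemidirectProduct.inr_injective ?_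
  intro a g
  have := SemidirectProduct.inl_aut (φ := φ) a g
  rw [← map_inv]
  exact this.symm

end Cfsg.Agent.S4117
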