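import Cfsg.Statements.S4134
import Cfsg.Agent.H25.Ito

set_option autoImplicit false
open Cfsg

namespace Cfsg.Agent.S4134

/-- Let G be a finite group whose conjugacy classes have exactly two sizes, 1 and n > 1. Then n is a power of a prime p and G is the direct product of a p-group and an abelian group of order prime to p: its Sylow p-subgroup P is normal with an abelian normal complement centralizing it; moreover P has an abelian normal subgroup A with P/A of exponent dividing p. -/
theorem result {G : Type*} [Group G] [Finite G] (n : ℕ) (hn : 1 < n)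
    (h : ∀ x : G, (Subgroup.centralizer ({x} : Set G)).index = 1 ∨ (Subgroup.centralizer ({x} : Set G)).index = n) (hex : ∃ x : G, (Subgroup.centralizer ({x} : Set G)).index = n) :
    ∃ (p : ℕ) (_ : Fact p.Prime) (a : ℕ), n = p ^ a ∧ ∀ P : Sylow p G, (P : Subgroup G).Normal ∧
      (∃ N : Subgroup G, N.Normal ∧ N.IsComplement' (P : Subgroup G) ∧ IsMulCommutative N ∧
        ∀ x ∈ N, ∀ y ∈ (P : Subgroup G), x * y = y * x) ∧
      ∃ A : Subgroup (P : Subgroup G), A.Normal ∧ IsMulCommutative A ∧ ∀ y : (P : Subgroup G), y ^ p ∈ A := by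
  have H : Cfsg.Agent.H25.Ito.HI G n := ⟨hn, h, hex⟩
  obtain ⟨p, hp, hmain⟩ := H.main
  refine ⟨p, hp, n.factorization p, ?_, ?_⟩
  · apply Nat.eq_of_factorization_eq (by omega) (pow_ne_zero _ hp.out.pos.ne')
    intro r
    rw [hp.out.factorization_pow]
    by_cases hrp : r = p
    · rw [hrp, Finsupp.single_eq_same]
    · rw [Finsupp.single_eq_of_ne hrp]
      by_cases hr : r.Prime
      · exact (hmain r hr hrp).2
      · exact Nat.factorization_eq_zero_of_not_prime _ hr
  · intro P
    have htop : (P : Subgroup G) ⊔ Subgroup.centralizer ((P : Subgroup G) : Set G) = ⊤ := by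
      apply Cfsg.Agent.H25.CS3.eq_of_v le_top
      intro r hr
      haveI : Fact r.Prime := ⟨hr⟩
      by_cases hrp : r = p
      · subst hrp
        have h1 : Cfsg.Agent.H25.CS3.v r (P : Subgroup G) = Cfsg.Agent.H25.CS3.v r (⊤ : Subgroup G) := by
          rw [← Cfsg.Agent.H25.CS3.not_dvd_index_iff hr]
          exact P.not_dvd_index
        rw [← h1]
        exact Cfsg.Agent.H25.CS3.v_mono r le_sup_left
      · rw [← (hmain r hr hrp).1]
        apply Cfsg.Agent.H25.CS3.v_mono r
        refine le_trans ?_ le_sup_right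
        exact Subgroup.center_le_centralizer _
    obtain ⟨hPn, K, hKn, hpK, hPK, hPK2, hKc⟩ := Cfsg.Agent.H24.direct_factor_of_sup_centralizer P htop
    refine ⟨hPn, ⟨K, hKn, ?_, ?_, ?_⟩, ?_⟩
    · rw [Subgroup.isComplement'_comm]
      exact Subgroup.isComplement'_of_disjoint_and_mul_eq_univ (disjoint_iff.2 hPK) (by
        rw [← Subgroup.mul_normal, hPK2]; rfl)
    · rw [Cfsg.Agent.H24.isMulCommutative_subgroup_iff]
      have hKZ : K ≤ Subgroup.center G := by
        apply Cfsg.Agent.H25.le_of_primary
        intro x hx q k hq hqk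
        haveI : Fact q.Prime := ⟨hq⟩
        by_cases hqp : q = p
        · subst hqp
          have h2 : orderOf x ∣ Nat.card K := by
            have := orderOf_dvd_natCard (⟨x, hx⟩ : K)
            rwa [Subgroup.orderOf_mk] at this
          rw [hqk] at h2
          rcases Nat.eq_zero_or_pos k with h0 | hpos
          · rw [h0, pow_zero, orderOf_eq_one_iff] at hqk
            rw [hqk]; exact one_mem _
          · exact absurd ((dvd_pow_self q hpos.ne').trans h2) hpK
        · exact Cfsg.Agent.H25.CS3.mem_of_normal le_top (hmain q hq hqp).1.ge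
            (Cfsg.Agent.H25.CS3.center_conj _) (Subgroup.mem_top x) ⟨k, hqk⟩
      intro x hx y hy
      exact (Subgroup.mem_center_iff.1 (hKZ hx) y).symm
    · intro x hx y hy
      exact (Subgroup.mem_centralizer_iff.1 (hKc hx) y hy).symm
    · obtain ⟨A, hAn, hAc, hA⟩ := Cfsg.Agent.H24.exists_abelian_normal_self_centralizing P.isPGroup'
      exact ⟨A, hAn, hAc, fun y => H.pow_mem_of_selfcentralizing P A hAn hAc hA y⟩

end Cfsg.Agent.S4134
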