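import Cfsg.Statements.S4142
import Cfsg.Agent.H24.ClassSize3
import Cfsg.Agent.H24.OrderType

set_option autoImplicit false
open Cfsg

namespace Cfsg.Agent.S4142

/-- Let G be a finite group and N a normal subgroup. Then the conjugacy class of every element g outside N is a union of cosets of N (gn is conjugate to g for all n ∈ N) if and only if for every g outside N the centralizer of g in G has the same order as the centralizer of gN in G/N. -/
theorem result {G : Type*} [Group G] [Finite G] (N : Subgroup G) [N.Normal] :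
    (∀ g : G, g ∉ N → ∀ n ∈ N, ∃ x : G, x * g * x⁻¹ = g * n) ↔
      ∀ g : G, g ∉ N → Nat.card (Subgroup.centralizer ({g} : Set G)) =
        Nat.card (Subgroup.centralizer ({(QuotientGroup.mk g : G ⧸ N)} : Set (G ⧸ N))) := by
  classical
  refine forall_congr' fun g => forall_congr' fun hg => ?_
  have h1 := Cfsg.Agent.H24.ncard_isConj_mul_card_centralizer g
  have h2 := Cfsg.Agent.H24.ncard_isConj_mul_card_centralizer (QuotientGroup.mk g : G ⧸ N)
  have h3 := Cfsg.Agent.H24.card_preimage_quotient N (fun x => IsConj (QuotientGroup.mk g : G ⧸ N) x)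
  have hcard : Nat.card G = Nat.card (G ⧸ N) * Nat.card N :=
    Subgroup.card_eq_card_quotient_mul_card_subgroup N
  set S : Set G := {h : G | IsConj g h} with hS
  set S' : Set G := {h : G | IsConj (QuotientGroup.mk g : G ⧸ N) (QuotientGroup.mk h)} with hS'
  have hsub : S ⊆ S' := by
    intro h hh
    obtain ⟨x, hx⟩ := isConj_iff.1 hh
    exact isConj_iff.2 ⟨QuotientGroup.mk x, by
      rw [← QuotientGroup.mk_mul, ← QuotientGroup.mk_inv, ← QuotientGroup.mk_mul, hx]⟩
  have h4 : S'.ncard = Nat.card N * {x : G ⧸ N | IsConj (QuotientGroup.mk g : G ⧸ N) x}.ncard := by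
    rw [← Nat.card_coe_set_eq, ← Nat.card_coe_set_eq]; exact h3
  have h5 : S'.ncard * Nat.card (Subgroup.centralizer ({(QuotientGroup.mk g : G ⧸ N)} : Set (G ⧸ N)))
      = Nat.card G := by
    rw [h4, mul_assoc, h2, hcard, mul_comm]
  have hGpos : 0 < Nat.card G := Nat.card_pos
  have hiff : S = S' ↔ Nat.card (Subgroup.centralizer ({g} : Set G)) =
        Nat.card (Subgroup.centralizer ({(QuotientGroup.mk g : G ⧸ N)} : Set (G ⧸ N))) := by
    constructor
    · intro h
      rw [← h, ← h1] at h5
      refine (Nat.eq_of_mul_eq_mul_left ?_ h5).symm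
      rw [Nat.pos_iff_ne_zero]; rintro h0
      rw [h0, zero_mul] at h1; omega
    · intro h
      apply Set.eq_of_subset_of_ncard_le hsub _ (Set.toFinite _)
      rw [← h, ← h1] at h5
      refine (Nat.eq_of_mul_eq_mul_right ?_ h5).le
      exact Nat.card_pos
  rw [← hiff]
  constructor
  · intro h
    apply Set.Subset.antisymm hsub
    intro y hy
    obtain ⟨x, hx⟩ := isConj_iff.1 hy
    obtain ⟨x, rfl⟩ := QuotientGroup.mk_surjective x
    rw [← QuotientGroup.mk_mul, ← QuotientGroup.mk_inv, ← QuotientGroup.mk_mul, QuotientGroup.eq] at hx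
    -- y = x g x⁻¹ n = x (g n') x⁻¹
    have h6 : x⁻¹ * ((x * g * x⁻¹)⁻¹ * y) * x ∈ N := by
      have := Subgroup.Normal.conj_mem (inferInstance : N.Normal) _ hx x⁻¹
      simpa using this
    obtain ⟨z, hz⟩ := h _ h6
    refine isConj_iff.2 ⟨x * z, ?_⟩
    calc x * z * g * (x * z)⁻¹ = x * (z * g * z⁻¹) * x⁻¹ := by group
      _ = y := by rw [hz]; group
  · intro h n hn
    have h6 : g * n ∈ S' := by
      show IsConj _ _
      rw [QuotientGroup.mk_mul_of_mem g hn]
    rw [← h] at h6
    exact isConj_iff.1 h6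

end Cfsg.Agent.S4142
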