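import Cfsg.Statements.S4143
import Cfsg.Agent.H23.MaxClass3

set_option autoImplicit false
set_option linter.all false
open Cfsg

namespace Cfsg.Agent.S4143

open Subgroup in
/-- nonabelian of order `p³` : generated by two non commuting elements -/
theorem closure_pair {X : Type*} [Group X] [Finite X] {p : ℕ} [hp : Fact p.Prime] {B : Subgroup X}
    (hB : Nat.card B = p ^ 3) {x y : X} (hx : x ∈ B) (hy : y ∈ B) (hxy : x * y ≠ y * x) :
    closure {x, y} = B := by
  have hle : closure {x, y} ≤ B := by
    rw [closure_le]; rintro z (rfl | rfl)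
    · exact hx
    · exact hy
  have hxm : x ∈ closure {x, y} := subset_closure (by simp)
  have hym : y ∈ closure {x, y} := subset_closure (by simp)
  obtain ⟨k, hk, hk2⟩ := (Nat.dvd_prime_pow hp.out).1 (hB ▸ card_dvd_of_le hle)
  have hk3 : ¬ k ≤ 2 := by
    intro hk'
    have hcomm : ∀ a b : closure {x, y}, a * b = b * a := by
      interval_cases k
      · have : Subsingleton (closure {x, y}) := by
          rw [← Finite.card_le_one_iff_subsingleton, hk2, pow_zero]
        intro a b; exact Subsingleton.elim _ _
      · have hc : IsCyclic (closure {x, y}) := isCyclic_of_prime_card (p := p) (by simpa using hk2)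
        intro a b
        obtain ⟨g, hg⟩ := hc.exists_generator
        obtain ⟨i, rfl⟩ := hg a
        obtain ⟨j, rfl⟩ := hg b
        show g ^ i * g ^ j = g ^ j * g ^ i
        rw [← zpow_add, ← zpow_add, add_comm]
      · have := IsPGroup.isMulCommutative_of_card_eq_prime_sq hk2
        exact this.is_comm.comm
    exact hxy (congrArg Subtype.val (hcomm ⟨x, hxm⟩ ⟨y, hym⟩))
  have : k = 3 := by omega
  exact eq_of_le_of_card_ge hle (by rw [hk2, hB, this])

/-- Let X be a finite p-group of order p^n containing a non-abelian subgroup B of order p³ with C_X(B) ≤ B. Then X has nilpotency class n − 1 (maximal class). -/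
theorem result {X : Type*} [Group X] [Finite X] {p : ℕ} [Fact p.Prime] (n : ℕ) (hX : Nat.card X = p ^ n)
    (B : Subgroup X) (hB : Nat.card B = p ^ 3) (hBna : ¬ IsMulCommutative B) (hC : Subgroup.centralizer (B : Set X) ≤ B) :
    Group.nilpotencyClass X = n - 1 := by
  classical
  have hp : p.Prime := Fact.out
  have hnc : ∃ x ∈ B, ∃ y ∈ B, x * y ≠ y * x := by
    by_contra hc
    push Not at hc
    exact hBna ⟨⟨fun a b => Subtype.ext (hc a a.2 b b.2)⟩⟩
  obtain ⟨x, hx, y, hy, hxy⟩ := hnc
  have hcl := closure_pair hB hx hy hxy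
  have hXp : IsPGroup p X := IsPGroup.of_card hX
  have hn3 : 3 ≤ n := by
    have h1 : p ^ 3 ∣ p ^ n := by rw [← hB, ← hX]; exact Subgroup.card_subgroup_dvd_card B
    exact (Nat.pow_dvd_pow_iff_le_right hp.one_lt).1 h1
  haveI : Nontrivial X := ⟨⟨x, 1, fun h => hxy (by rw [h, one_mul, mul_one])⟩⟩
  set Z := Subgroup.center X with hZdef
  have hZc : Z ≤ Subgroup.centralizer (B : Set X) := Subgroup.center_le_centralizer _
  have hZB : Z ≤ B := hZc.trans hC
  -- the centralizer of `B` has order `p`
  have hCcard : Nat.card (Subgroup.centralizer (B : Set X)) ≤ p := by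
    obtain ⟨k, hk, hk2⟩ := (Nat.dvd_prime_pow hp).1 (hB ▸ Subgroup.card_dvd_of_le hC)
    by_contra hgt
    push Not at hgt
    have hk2' : 2 ≤ k := by
      by_contra hk'
      have : p ^ k ≤ p ^ 1 := Nat.pow_le_pow_right hp.pos (by omega)
      rw [pow_one, ← hk2] at this
      omega
    -- the subgroup generated by `C_X(B)` and `x` is abelian of order `> p²`
    have hlt : Subgroup.centralizer (B : Set X) < Subgroup.centralizer (B : Set X) ⊔ Subgroup.closure {x} := by
      refine lt_of_le_of_ne le_sup_left fun he => hxy ?_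
      have hxc : x ∈ Subgroup.centralizer (B : Set X) := by
        rw [he]; exact Subgroup.mem_sup_right (Subgroup.subset_closure rfl)
      exact (Subgroup.mem_centralizer_iff.1 hxc y hy).symm
    have hle : Subgroup.centralizer (B : Set X) ⊔ Subgroup.closure {x} ≤ Subgroup.centralizer {x} := by
      refine sup_le ?_ ?_
      · intro g hg
        rw [Subgroup.mem_centralizer_singleton_iff]
        exact (Subgroup.mem_centralizer_iff.1 hg x hx).symm
      · rw [Subgroup.closure_le]
        rintro z rfl
        rw [SetLike.mem_coe, Subgroup.mem_centralizer_singleton_iff]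
    have hleB : Subgroup.centralizer (B : Set X) ⊔ Subgroup.closure {x} ≤ B :=
      sup_le hC ((Subgroup.closure_le _).2 (by rintro z rfl; exact hx))
    have hcard3 : Nat.card ↥(Subgroup.centralizer (B : Set X) ⊔ Subgroup.closure {x}) = p ^ 3 := by
      obtain ⟨j, hj, hj2⟩ := (Nat.dvd_prime_pow hp).1 (hB ▸ Subgroup.card_dvd_of_le hleB)
      have hlt' : p ^ k < p ^ j := by
        rw [← hk2, ← hj2]
        exact Set.ncard_lt_ncard (by exact_mod_cast hlt) (Set.toFinite _)
      have : k < j := (Nat.pow_lt_pow_iff_right hp.one_lt).1 hlt'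
      have : j = 3 := by omega
      rw [hj2, this]
    have heq := Subgroup.eq_of_le_of_card_ge hleB (by rw [hcard3, hB])
    apply hxy
    have hy' : y ∈ Subgroup.centralizer (B : Set X) ⊔ Subgroup.closure {x} := by rw [heq]; exact hy
    have : y ∈ Subgroup.centralizer ({x} : Set X) := hle hy'
    rw [Subgroup.mem_centralizer_singleton_iff] at this
    exact this.symm
  have hZ1 : p ≤ Nat.card Z := by
    obtain ⟨k, hk, hk2⟩ := IsPGroup.card_center_eq_prime_pow hX (by omega)
    rw [hk2]
    calc p = p ^ 1 := (pow_one p).symm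
      _ ≤ p ^ k := Nat.pow_le_pow_right hp.pos hk
  have hZC : Z = Subgroup.centralizer (B : Set X) :=
    Subgroup.eq_of_le_of_card_ge hZc (hCcard.trans hZ1)
  have hZcard : Nat.card Z = p := le_antisymm (hZC ▸ hCcard) hZ1
  -- the quotient
  let π := QuotientGroup.mk' Z
  let A : Subgroup (X ⧸ Z) := B.map π
  have hAcard : Nat.card A = p ^ 2 := by
    have h1 : Nat.card (B.map π) * Nat.card Z = Nat.card B := by
      have h2 := Subgroup.card_eq_card_quotient_mul_card_subgroup (Z.subgroupOf B)
      have h3 : Nat.card (Z.subgroupOf B) = Nat.card Z :=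
        Nat.card_congr (Subgroup.subgroupOfEquivOfLe hZB).toEquiv
      have h4 : Nat.card (B.map π) = Nat.card (B ⧸ Z.subgroupOf B) := by
        have e := QuotientGroup.quotientKerEquivRange (π.comp B.subtype)
        have hk : (π.comp B.subtype).ker = Z.subgroupOf B := by
          ext b; simp [π, Subgroup.mem_subgroupOf]
        have hr : (π.comp B.subtype).range = B.map π := by
          rw [MonoidHom.range_comp, Subgroup.range_subtype]
        rw [← hr, ← Nat.card_congr e.toEquiv, hk]
      rw [h4, h2, h3]
    rw [hZcard, hB] at h1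
    have : Nat.card (B.map π) * p = p ^ 2 * p := by rw [h1]; ring
    exact Nat.eq_of_mul_eq_mul_right hp.pos this
  have hcomap : (Subgroup.centralizer (A : Set (X ⧸ Z))).comap π = B := by
    symm
    apply Subgroup.eq_of_le_of_card_ge
    · intro b hb
      rw [Subgroup.mem_comap, Subgroup.mem_centralizer_iff]
      intro a ha
      have := IsPGroup.isMulCommutative_of_card_eq_prime_sq hAcard
      have h1 := this.is_comm.comm ⟨a, ha⟩ ⟨π b, Subgroup.mem_map_of_mem _ hb⟩
      exact congrArg Subtype.val h1
    · set D := (Subgroup.centralizer (A : Set (X ⧸ Z))).comap π with hD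
      have hDm : ∀ g ∈ D, ∀ b ∈ B, g * b * g⁻¹ * b⁻¹ ∈ Z := by
        intro g hg b hb
        rw [hD, Subgroup.mem_comap, Subgroup.mem_centralizer_iff] at hg
        have h1 := hg (π b) (Subgroup.mem_map_of_mem _ hb)
        rw [← QuotientGroup.eq_one_iff]
        have : ((g * b * g⁻¹ * b⁻¹ : X) : X ⧸ Z) = π g * π b * (π g)⁻¹ * (π b)⁻¹ := rfl
        rw [this, ← h1]; group
      let f : D → Z × Z := fun g => (⟨_, hDm g g.2 x hx⟩, ⟨_, hDm g g.2 y hy⟩)
      have hf : ∀ g g' : D, f g = f g' → (g' : X)⁻¹ * g ∈ Z := by
        intro g g' h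
        have h1 : (g : X) * x * (g : X)⁻¹ = g' * x * (g' : X)⁻¹ :=
          mul_right_cancel (congrArg (fun t => (t.1 : X)) h)
        have h2 : (g : X) * y * (g : X)⁻¹ = g' * y * (g' : X)⁻¹ :=
          mul_right_cancel (congrArg (fun t => (t.2 : X)) h)
        have key : ∀ z : X, (g : X) * z * (g : X)⁻¹ = g' * z * (g' : X)⁻¹ →
            z * ((g' : X)⁻¹ * g) = ((g' : X)⁻¹ * g) * z := by
          intro z hz
          calc z * ((g' : X)⁻¹ * g) = (g' : X)⁻¹ * (g' * z * (g' : X)⁻¹) * g := by group
            _ = (g' : X)⁻¹ * (g * z * (g : X)⁻¹) * g := by rw [hz]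
            _ = _ := by group
        rw [hZC, ← hcl, Subgroup.centralizer_closure, Subgroup.mem_centralizer_iff]
        rintro z (rfl | rfl)
        · exact key _ h1
        · exact key _ h2
      let r : Z × Z → X := fun v => if h : ∃ g : D, f g = v then (h.choose : X) else 1
      have hr : ∀ g : D, (r (f g))⁻¹ * g ∈ Z := by
        intro g
        have h : ∃ g' : D, f g' = f g := ⟨g, rfl⟩
        have e : r (f g) = (h.choose : X) := by simp only [r]; rw [dif_pos h]
        rw [e]
        exact hf g h.choose h.choose_spec.symm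
      let F : D → (Z × Z) × Z := fun g => (f g, ⟨_, hr g⟩)
      have hF : Function.Injective F := by
        intro g g' h
        have h1 : f g = f g' := congrArg Prod.fst h
        have h2 : (r (f g))⁻¹ * (g : X) = (r (f g'))⁻¹ * g' := congrArg (fun t => (t.2 : X)) h
        rw [h1] at h2
        exact Subtype.ext (mul_left_cancel h2)
      have h3 := Nat.card_le_card_of_injective F hF
      rw [Nat.card_prod, Nat.card_prod, hZcard] at h3
      rw [hB]
      calc Nat.card D ≤ p * p * p := h3
        _ = p ^ 3 := by ring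
  have hCA : Subgroup.centralizer (A : Set (X ⧸ Z)) = A := by
    have : Function.Surjective π := QuotientGroup.mk'_surjective Z
    rw [← Subgroup.map_comap_eq_self_of_surjective this (Subgroup.centralizer (A : Set (X ⧸ Z))),
      hcomap]
  have hq : Nat.card (X ⧸ Z) = p ^ (n - 1) := by
    have h1 := Subgroup.card_eq_card_quotient_mul_card_subgroup Z
    rw [hX, hZcard] at h1
    have : p ^ n = p ^ (n - 1) * p := by rw [← pow_succ]; congr 1; omega
    rw [this] at h1
    exact (Nat.eq_of_mul_eq_mul_right hp.pos h1).symm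
  have hmain := Cfsg.Agent.H23.nilpotencyClass_of_sq (n - 1) (X ⧸ Z) hq A hAcard hCA
  haveI : Group.IsNilpotent X := hXp.isNilpotent
  have h4 := Group.nilpotencyClass_eq_quotient_center_plus_one (G := X)
  rw [h4]
  have : Group.nilpotencyClass (X ⧸ Subgroup.center X) = n - 1 - 1 := hmain
  rw [this]; omega

end Cfsg.Agent.S4143
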