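import Cfsg.Statements.S4145
import Cfsg.Agent.H22.CycSyl
import Cfsg.Agent.H2.NPCFun

set_option autoImplicit false
set_option linter.all false
open Cfsg

namespace Cfsg.Agent.S4145

open Subgroup in
/-- the second part: a normal `p`-subgroup and a cyclic Sylow subgroup -/
theorem psolv_of_normal {G : Type*} [Group G] [Finite G] (p : ℕ) [hp : Fact p.Prime]
    (P : Sylow p G) {y : G} (hy : zpowers y = (P : Subgroup G)) (H : Subgroup G) [hH : H.Normal]
    (hHp : IsPGroup p H) (hH1 : H ≠ ⊥) : Cfsg.IsPSolvable p G := by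
  have hHP : H ≤ P := (Cfsg.Agent.H1.le_pCore hH hHp).trans (Cfsg.Agent.H1.pCore_le_sylow P)
  obtain ⟨a, ha⟩ := IsPGroup.iff_card.1 P.2
  have hya : orderOf y = p ^ a := by rw [← ha, ← Nat.card_zpowers, hy]
  set C := centralizer (H : Set G) with hC
  have hPC : (P : Subgroup G) ≤ C := by
    intro x hx
    rw [hC, mem_centralizer_iff]
    intro z hz
    have hz' := hHP hz
    rw [← hy] at hz' hx
    obtain ⟨i, rfl⟩ := mem_zpowers_iff.1 hz'
    obtain ⟨j, rfl⟩ := mem_zpowers_iff.1 hx
    exact (Commute.zpow_zpow_self y i j).eq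
  have hCn : C.Normal := inferInstance
  have hpC : Cfsg.HasNormalPComplement p C := by
    have hyC : y ∈ C := hPC (by rw [← hy]; exact mem_zpowers y)
    refine Cfsg.Agent.H22.npc_of_cyclic (P.subtype hPC) (y := ⟨y, hyC⟩) ?_ ?_
    · ext ⟨x, hx⟩
      rw [Sylow.coe_subtype, Subgroup.mem_subgroupOf]
      show _ ↔ x ∈ (P : Subgroup G)
      rw [show x ∈ (P : Subgroup G) ↔ x ∈ zpowers y by rw [hy], mem_zpowers_iff, mem_zpowers_iff]
      constructor
      · rintro ⟨k, hk⟩; exact ⟨k, congrArg Subtype.val hk⟩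
      · rintro ⟨k, hk⟩; exact ⟨k, Subtype.ext hk⟩
    · intro g hg
      have h1 : (⟨y, hyC⟩ : C) ∈ ((P.subtype hPC : Sylow p C) : Subgroup C) := by
        rw [Sylow.coe_subtype, Subgroup.mem_subgroupOf]
        show y ∈ (P : Subgroup G)
        rw [← hy]; exact mem_zpowers y
      have h2 := (Subgroup.mem_normalizer_iff.1 hg _).1 h1
      rw [Sylow.coe_subtype, Subgroup.mem_subgroupOf] at h2
      have h3 : (g : G) * y * (g : G)⁻¹ ∈ zpowers y := by rw [hy]; exact h2
      obtain ⟨r, hr⟩ := mem_zpowers_iff.1 h3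
      refine ⟨r, Subtype.ext hr.symm, ?_⟩
      by_contra hpr
      obtain ⟨z', hz1⟩ := Subgroup.ne_bot_iff_exists_ne_one.1 hH1
      obtain ⟨z, hz⟩ := z'
      have hzP := hHP hz
      rw [← hy] at hzP
      obtain ⟨m, hm⟩ := mem_zpowers_iff.1 hzP
      have h4 : z * (g : G) = g * z := by
        have := mem_centralizer_iff.1 g.2 z hz
        exact this
      have h5 : (g : G) * z * (g : G)⁻¹ = z := by rw [← h4]; group
      rw [← hm, ← conj_zpow, ← hr, ← zpow_mul] at h5
      have h6 : y ^ ((r - 1) * m) = 1 := by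
        have : y ^ ((r - 1) * m) = y ^ (r * m) * (y ^ m)⁻¹ := by rw [← zpow_neg, ← zpow_add]; congr 1; ring
        rw [this, h5, mul_inv_cancel]
      rw [← orderOf_dvd_iff_zpow_eq_one, hya] at h6
      have hcop : IsCoprime ((p ^ a : ℕ) : ℤ) (r - 1) := by
        push_cast
        exact IsCoprime.pow_left ((Prime.coprime_iff_not_dvd (Nat.prime_iff_prime_int.1 hp.out)).2 hpr)
      have h7 := hcop.dvd_of_dvd_mul_left h6
      rw [← hya, orderOf_dvd_iff_zpow_eq_one, hm] at h7
      exact hz1 (Subtype.ext h7)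
  refine Cfsg.Agent.H23.isPSolvable_of_extension C (Cfsg.Agent.H2.isPSolvable_of_npc hpC) ?_
  apply Cfsg.Agent.H23.isPSolvable_of_card_coprime
  have h1 : ¬ p ∣ C.index := fun hd => P.not_dvd_index (hd.trans (Subgroup.index_dvd_of_le hPC))
  exact ((Nat.Prime.coprime_iff_not_dvd hp.out).2 h1).symm

open Subgroup in
theorem npc_part {G : Type*} [Group G] [Finite G] (p : ℕ) [hp : Fact p.Prime]
    (P : Sylow p G) {y : G} (hy : zpowers y = (P : Subgroup G)) (H : Subgroup G) [hH : H.Normal]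
    (h2 : p ∣ H.index) : Cfsg.HasNormalPComplement p H := by
  obtain ⟨a, ha⟩ := IsPGroup.iff_card.1 P.2
  have hya : orderOf y = p ^ a := by rw [← ha, ← Nat.card_zpowers, hy]
  have hyP : y ∈ (P : Subgroup G) := by rw [← hy]; exact mem_zpowers y
  have hPL : (P : Subgroup G) ≤ H ⊔ P := le_sup_right
  have hyL : y ∈ H ⊔ (P : Subgroup G) := hPL hyP
  have hL : Cfsg.HasNormalPComplement p ↥(H ⊔ (P : Subgroup G)) := by
    refine Cfsg.Agent.H22.npc_of_cyclic (P.subtype hPL) (y := ⟨y, hyL⟩) ?_ ?_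
    · ext ⟨x, hx⟩
      rw [Sylow.coe_subtype, Subgroup.mem_subgroupOf]
      show _ ↔ x ∈ (P : Subgroup G)
      rw [show x ∈ (P : Subgroup G) ↔ x ∈ zpowers y by rw [hy], mem_zpowers_iff, mem_zpowers_iff]
      constructor
      · rintro ⟨k, hk⟩; exact ⟨k, congrArg Subtype.val hk⟩
      · rintro ⟨k, hk⟩; exact ⟨k, Subtype.ext hk⟩
    · intro g hg
      have h1 : (⟨y, hyL⟩ : ↥(H ⊔ (P : Subgroup G))) ∈ ((P.subtype hPL : Sylow p _) : Subgroup _) := by
        rw [Sylow.coe_subtype, Subgroup.mem_subgroupOf]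
        exact hyP
      have h2' := (Subgroup.mem_normalizer_iff.1 hg _).1 h1
      rw [Sylow.coe_subtype, Subgroup.mem_subgroupOf] at h2'
      have h3 : (g : G) * y * (g : G)⁻¹ ∈ zpowers y := by rw [hy]; exact h2'
      obtain ⟨r, hr⟩ := mem_zpowers_iff.1 h3
      refine ⟨r, Subtype.ext hr.symm, ?_⟩
      by_contra hpr
      -- `g = h k`
      have hg' : (g : G) ∈ ((H ⊔ (P : Subgroup G) : Subgroup G) : Set G) := g.2
      rw [Subgroup.normal_mul] at hg'
      obtain ⟨h, hh, k, hk, hgk⟩ := hg'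
      have hk' : k * y * k⁻¹ = y := by
        have hk2 : k ∈ zpowers y := by rw [hy]; exact hk
        obtain ⟨i, rfl⟩ := mem_zpowers_iff.1 hk2
        rw [(Commute.zpow_self y i).eq, mul_inv_cancel_right]
      have h4 : (g : G) * y * (g : G)⁻¹ = h * y * h⁻¹ := by
        rw [← hgk]
        calc h * k * y * (h * k)⁻¹ = h * (k * y * k⁻¹) * h⁻¹ := by group
          _ = _ := by rw [hk']
      rw [h4] at hr
      have h5 : y ^ (r - 1) ∈ H := by
        have : y ^ (r - 1) = h * (y * h⁻¹ * y⁻¹) := by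
          rw [zpow_sub, hr, zpow_one]; group
        rw [this]
        exact H.mul_mem hh (hH.conj_mem _ (H.inv_mem hh) y)
      have hcop : IsCoprime ((p ^ a : ℕ) : ℤ) (r - 1) := by
        push_cast
        exact IsCoprime.pow_left ((Prime.coprime_iff_not_dvd (Nat.prime_iff_prime_int.1 hp.out)).2 hpr)
      obtain ⟨u, v, huv⟩ := hcop
      have h6 : y ∈ H := by
        have : y = (y ^ (r - 1)) ^ v := by
          rw [← zpow_mul]
          have h8 : y ^ (u * ((p ^ a : ℕ) : ℤ)) = 1 := by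
            rw [mul_comm, zpow_mul, zpow_natCast, ← hya, pow_orderOf_eq_one, one_zpow]
          calc y = y ^ (u * ((p ^ a : ℕ) : ℤ) + v * (r - 1)) := by rw [huv, zpow_one]
            _ = y ^ ((r - 1) * v) := by rw [zpow_add, h8, one_mul, mul_comm v]
        rw [this]; exact H.zpow_mem h5 v
      have h7 : (P : Subgroup G) ≤ H := by rw [← hy, zpowers_le]; exact h6
      exact P.not_dvd_index (h2.trans (Subgroup.index_dvd_of_le h7))
  exact Cfsg.Agent.H2.HasNormalPComplement.of_le hL le_sup_left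

/-- Let G be a finite group with a cyclic Sylow p-subgroup and H a normal subgroup such that p divides both the order of H and the index of H. Then H has a normal p-complement and G is p-solvable. -/
theorem result {G : Type*} [Group G] [Finite G] (p : ℕ) [Fact p.Prime]
    (P : Sylow p G) (hP : IsCyclic (P : Subgroup G)) (H : Subgroup G) [H.Normal] (h1 : p ∣ Nat.card H) (h2 : p ∣ H.index) :
    Cfsg.HasNormalPComplement p H ∧ Cfsg.IsPSolvable p G := by
  obtain ⟨⟨y, hyP⟩, hy⟩ := hP.exists_generator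
  have hy' : Subgroup.zpowers y = (P : Subgroup G) := by
    apply le_antisymm
    · rw [Subgroup.zpowers_le]; exact hyP
    · intro x hx
      obtain ⟨k, hk⟩ := Subgroup.mem_zpowers_iff.1 (hy ⟨x, hx⟩)
      exact Subgroup.mem_zpowers_iff.2 ⟨k, congrArg Subtype.val hk⟩
  have hnpc := npc_part p P hy' H h2
  refine ⟨hnpc, ?_⟩
  obtain ⟨N, hN, hpN, k, hk⟩ := Cfsg.Agent.H2.hasNormalPComplement_iff.1 hnpc
  have hKn : (N.map H.subtype).Normal := by
    constructor
    rintro _ ⟨x, hx, rfl⟩ g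
    have hgx : g * x * g⁻¹ ∈ H := Subgroup.Normal.conj_mem inferInstance (x : G) x.2 g
    refine ⟨⟨_, hgx⟩, ?_, rfl⟩
    rw [SetLike.mem_coe, Cfsg.Agent.H2.mem_normal_complement_iff hpN hk] at hx ⊢
    rw [Subgroup.orderOf_mk]
    have : orderOf (g * (x : G) * g⁻¹) = orderOf x := by
      rw [← MulAut.conj_apply, MulEquiv.orderOf_eq, Subgroup.orderOf_coe]
    rwa [this]
  set K := N.map H.subtype with hK
  have hKcard : Nat.card K = Nat.card N := Subgroup.card_map_of_injective H.subtype_injective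
  have hcopK : (Nat.card K).Coprime p := by
    rw [hKcard]; exact ((Nat.Prime.coprime_iff_not_dvd Fact.out).2 hpN).symm
  refine Cfsg.Agent.H23.isPSolvable_of_quotient K (Or.inr hcopK) ?_
  have hKH : K ≤ H := Subgroup.map_subtype_le _
  have hsurj : Function.Surjective (QuotientGroup.mk' K) := QuotientGroup.mk'_surjective K
  have hHn : (H.map (QuotientGroup.mk' K)).Normal := Subgroup.Normal.map inferInstance _ hsurj
  have hcard : Nat.card (H.map (QuotientGroup.mk' K)) * Nat.card K = Nat.card H := by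
    have := Cfsg.Agent.H1.card_map_mk'_mul K H
    rw [inf_of_le_right hKH] at this; rw [mul_comm]; exact this
  have hNi : N.index * Nat.card N = Nat.card H := N.index_mul_card
  have hcard2 : Nat.card (H.map (QuotientGroup.mk' K)) = p ^ k := by
    rw [hKcard, ← hNi, hk] at hcard
    exact Nat.eq_of_mul_eq_mul_right Nat.card_pos hcard
  refine psolv_of_normal p (P.mapSurjective hsurj) (y := QuotientGroup.mk' K y) ?_
    (H.map (QuotientGroup.mk' K)) (IsPGroup.of_card hcard2) ?_
  · rw [Sylow.coe_mapSurjective, ← hy', MonoidHom.map_zpowers]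
  · intro hbot
    rw [hbot, Subgroup.card_bot, one_mul] at hcard
    rw [← hcard] at h1
    exact ((Nat.Prime.coprime_iff_not_dvd Fact.out).1 hcopK.symm) h1

end Cfsg.Agent.S4145
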