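import Cfsg.Statements.S4149
import Cfsg.Agent.H24.ClassSize

set_option autoImplicit false
open Cfsg

namespace Cfsg.Agent.S4149

/-- Let G be a finite group that has a normal p-complement for at most one prime p dividing its order, and let σ be a natural number such that every conjugacy class size of G has at most σ distinct prime divisors. Then the number of primes dividing at least one conjugacy class size of G is at most 2σ. -/
theorem result {G : Type*} [Group G] [Finite G] (σ : ℕ)
    (hσ : ∀ x : G, ((Subgroup.centralizer ({x} : Set G)).index).primeFactors.card ≤ σ)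
    (hnil : ∀ p q : ℕ, p.Prime → q.Prime → p ∣ Nat.card G → q ∣ Nat.card G →
      Cfsg.HasNormalPComplement p G → Cfsg.HasNormalPComplement q G → p = q) :
    Nat.card {p : ℕ | p.Prime ∧ ∃ x : G, p ∣ (Subgroup.centralizer ({x} : Set G)).index} ≤ 2 * σ := by
  classical
  set ρ : Set ℕ := {p : ℕ | p.Prime ∧ ∃ x : G, p ∣ (Subgroup.centralizer ({x} : Set G)).index} with hρ
  have hρsub : ρ ⊆ ((Nat.card G).primeFactors : Set ℕ) := by
    rintro p ⟨hp, x, hx⟩
    simp only [Finset.mem_coe, Nat.mem_primeFactors]
    exact ⟨hp, hx.trans (Subgroup.index_dvd_card _), Nat.card_pos.ne'⟩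
  have hfin : ρ.Finite := Set.Finite.subset (Finset.finite_toSet _) hρsub
  set R : Finset ℕ := hfin.toFinset with hR
  have hmemR : ∀ p, p ∈ R ↔ (p.Prime ∧ ∃ x : G, p ∣ (Subgroup.centralizer ({x} : Set G)).index) := by
    intro p; rw [hR, Set.Finite.mem_toFinset]; rfl
  have hcard : Nat.card ρ = R.card := by
    rw [Nat.card_coe_set_eq, Set.ncard_eq_toFinset_card _ hfin]
  have hgoal : R.card ≤ 2 * σ := by
    have : Fintype G := Fintype.ofFinite G
    -- the number of elements whose class size is not divisible by p
    set T : ℕ → ℕ := fun p => (Finset.univ.filter (fun x : G => ¬ p ∣ (Subgroup.centralizer ({x} : Set G)).index)).card with hT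
    have hTcard : ∀ p, T p = Nat.card {x : G // ¬ p ∣ (Subgroup.centralizer ({x} : Set G)).index} := by
      intro p
      rw [Nat.card_eq_fintype_card, Fintype.card_subtype]
    -- double counting
    have hdc : ∑ p ∈ R, T p = ∑ x : G, (R.filter (fun p => ¬ p ∣ (Subgroup.centralizer ({x} : Set G)).index)).card := by
      simp only [hT, Finset.card_filter]
      rw [Finset.sum_comm]
    have hlow : ∀ x : G, R.card ≤ (R.filter (fun p => ¬ p ∣ (Subgroup.centralizer ({x} : Set G)).index)).card + σ := by
      intro x
      have h1 := Finset.card_filter_add_card_filter_not (s := R) (fun p => ¬ p ∣ (Subgroup.centralizer ({x} : Set G)).index)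
      have h2 : (R.filter (fun p => ¬ ¬ p ∣ (Subgroup.centralizer ({x} : Set G)).index)).card ≤ σ := by
        refine le_trans (Finset.card_le_card ?_) (hσ x)
        intro p hp
        rw [Finset.mem_filter, not_not, hmemR] at hp
        rw [Nat.mem_primeFactors]
        exact ⟨hp.1.1, hp.2, Subgroup.index_ne_zero_of_finite⟩
      omega
    have hsum : Nat.card G * R.card ≤ ∑ p ∈ R, T p + Nat.card G * σ := by
      rw [hdc]
      have := Finset.sum_le_sum (s := (Finset.univ : Finset G)) (fun x _ => hlow x)
      simp only [Finset.sum_add_distrib, Finset.sum_const, smul_eq_mul, Finset.card_univ] at this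
      rw [Nat.card_eq_fintype_card]
      exact this
    have hTle : ∀ p ∈ R, T p ≤ Nat.card G := by
      intro p _
      rw [hTcard]
      exact Nat.card_le_card_of_injective (Subtype.val) Subtype.val_injective
    have hT2 : ∀ p ∈ R, ¬ Cfsg.HasNormalPComplement p G → 2 * T p ≤ Nat.card G := by
      intro p hp hnc
      have : Fact p.Prime := ⟨((hmemR p).mp hp).1⟩
      obtain ⟨P⟩ : Nonempty (Sylow p G) := inferInstance
      have h1 := H24.card_not_dvd_mul_relIndex_le P
      rw [← hTcard] at h1
      have h2 : (Subgroup.centralizer ((P : Subgroup G) : Set G)).relIndex (Subgroup.normalizer ((P : Subgroup G) : Set G)) ≠ 0 := H24.relIndex_ne_zero_of_finite' _ _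
      have h3 : (Subgroup.centralizer ((P : Subgroup G) : Set G)).relIndex (Subgroup.normalizer ((P : Subgroup G) : Set G)) ≠ 1 :=
        fun h => hnc (H24.hasNormalPComplement_of_relIndex_eq_one P h)
      have h4 : 2 ≤ (Subgroup.centralizer ((P : Subgroup G) : Set G)).relIndex (Subgroup.normalizer ((P : Subgroup G) : Set G)) := by omega
      calc 2 * T p = T p * 2 := mul_comm _ _
        _ ≤ _ := (Nat.mul_le_mul_left _ h4).trans h1
    have hG : 0 < Nat.card G := Nat.card_pos
    by_cases hex : ∃ p₀ ∈ R, Cfsg.HasNormalPComplement p₀ G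
    · obtain ⟨p₀, hp₀, hc₀⟩ := hex
      have hlt : T p₀ < Nat.card G := by
        rw [hTcard]
        obtain ⟨_, x, hx⟩ := (hmemR p₀).mp hp₀
        have : Nat.card {x : G // ¬ p₀ ∣ (Subgroup.centralizer ({x} : Set G)).index} < Nat.card G := by
          rw [Nat.card_eq_fintype_card, Nat.card_eq_fintype_card]
          exact Fintype.card_subtype_lt (x := x) (by simpa using hx)
        exact this
      have hrest : ∀ p ∈ R.erase p₀, 2 * T p ≤ Nat.card G := by
        intro p hp
        rw [Finset.mem_erase] at hp
        refine hT2 p hp.2 (fun hc => hp.1 ?_)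
        obtain ⟨hpp, x, hx⟩ := (hmemR p).mp hp.2
        obtain ⟨hpp₀, x₀, hx₀⟩ := (hmemR p₀).mp hp₀
        exact hnil p p₀ hpp hpp₀ (hx.trans (Subgroup.index_dvd_card _)) (hx₀.trans (Subgroup.index_dvd_card _)) hc hc₀
      have hsum2 : 2 * ∑ p ∈ R, T p < (R.card + 1) * Nat.card G := by
        rw [← Finset.add_sum_erase R T hp₀, mul_add, Finset.mul_sum]
        have h5 := Finset.sum_le_sum hrest
        rw [Finset.sum_const, smul_eq_mul, Finset.card_erase_of_mem hp₀] at h5
        have h6 : 1 ≤ R.card := Finset.card_pos.mpr ⟨p₀, hp₀⟩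
        obtain ⟨m, hm⟩ : ∃ m, R.card = m + 1 := ⟨R.card - 1, by omega⟩
        rw [hm] at h5 ⊢
        simp only [Nat.add_sub_cancel] at h5
        nlinarith
      by_contra hcon
      push Not at hcon
      have h7 : (2 * σ + 1) * Nat.card G ≤ R.card * Nat.card G := Nat.mul_le_mul_right _ hcon
      nlinarith
    · push Not at hex
      have hsum2 : 2 * ∑ p ∈ R, T p ≤ R.card * Nat.card G := by
        rw [Finset.mul_sum]
        have h5 := Finset.sum_le_sum (fun p hp => hT2 p hp (hex p hp))
        rw [Finset.sum_const, smul_eq_mul] at h5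
        exact h5
      have h8 : Nat.card G * R.card ≤ Nat.card G * (2 * σ) := by nlinarith
      exact Nat.le_of_mul_le_mul_left h8 hG
  rw [hcard]; exact hgoal

end Cfsg.Agent.S4149
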