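import Cfsg.Statements.S4150
import Cfsg.Agent.H24.AltGen6
import Cfsg.Agent.H24.TwoPrimes

set_option autoImplicit false
open Cfsg

namespace Cfsg.Agent.S4150

/-- Let m ≥ 5. Then there are primes p < q with m/2 ≤ p and q ≤ m such that any two elements x, y of the alternating group of degree m with x of order p and y of order q generate a subgroup isomorphic to an alternating group of some degree d ≥ 5. -/
theorem result (m : ℕ) (hm : 5 ≤ m) :
    ∃ p q : ℕ, p.Prime ∧ q.Prime ∧ m ≤ 2 * p ∧ p < q ∧ q ≤ m ∧
      ∀ x y : alternatingGroup (Fin m), orderOf x = p → orderOf y = q →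
        ∃ d : ℕ, 5 ≤ d ∧ Nonempty (Subgroup.closure ({x, y} : Set (alternatingGroup (Fin m))) ≃* alternatingGroup (Fin d)) := by
  rcases Nat.lt_or_ge m 18 with h18 | h18
  · rcases Nat.lt_or_ge m 7 with h | h
    · exact ⟨3, 5, by norm_num, by norm_num, by omega, by omega, by omega, fun x y =>
        H24.two_generated (by norm_num) (by norm_num) (by norm_num) (by norm_num) (by omega) (by omega) (by omega) x y⟩
    rcases Nat.lt_or_ge m 11 with h | h
    · exact ⟨5, 7, by norm_num, by norm_num, by omega, by omega, by omega, fun x y =>
        H24.two_generated (by norm_num) (by norm_num) (by norm_num) (by norm_num) (by omega) (by omega) (by omega) x y⟩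
    rcases Nat.lt_or_ge m 15 with h | h
    · exact ⟨7, 11, by norm_num, by norm_num, by omega, by omega, by omega, fun x y =>
        H24.two_generated (by norm_num) (by norm_num) (by norm_num) (by norm_num) (by omega) (by omega) (by omega) x y⟩
    rcases Nat.lt_or_ge m 17 with h | h
    · exact ⟨11, 13, by norm_num, by norm_num, by omega, by omega, by omega, fun x y =>
        H24.two_generated (by norm_num) (by norm_num) (by norm_num) (by norm_num) (by omega) (by omega) (by omega) x y⟩
    · exact ⟨11, 17, by norm_num, by norm_num, by omega, by omega, by omega, fun x y =>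
        H24.two_generated (by norm_num) (by norm_num) (by norm_num) (by norm_num) (by omega) (by omega) (by omega) x y⟩
  · obtain ⟨p, q, hp, hq, h1, h2, h3⟩ := H24.two_primes (m / 2) (by omega)
    exact ⟨p, q, hp, hq, by omega, by omega, by omega, fun x y =>
        H24.two_generated hp hq (by omega) (by omega) (by omega) (by omega) (by omega) x y⟩

end Cfsg.Agent.S4150
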