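import Cfsg.Statements.S4151
import Cfsg.Agent.H24.TIHall
import Cfsg.Agent.H24.ZCop

set_option autoImplicit false
open Cfsg

namespace Cfsg.Agent.S4151

open Subgroup
open Cfsg.Agent Cfsg.Agent.H24

/-- Let G be a finite group and H a non-normal subgroup meeting each of its conjugates by elements outside N_G(H) trivially, with the order of H coprime to its index in N_G(H), such that G is π-separable for π the set of primes dividing the order of H (G has a chain of normal subgroups from 1 to G each of whose factors has order divisible only by primes dividing the order of H or coprime to it). Suppose a Sylow 2-subgroup of H is abelian and Q is a complement of H in N_G(H). Then C_H(Q), the subgroup of elements of H commuting with Q, has order coprime to its index in G and has a normal complement in G. -/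
theorem result {G : Type*} [Group G] [Finite G] (H : Subgroup G)
    (hTI : Cfsg.IsTISubset (H : Set G)) (hnn : ¬ H.Normal)
    (hHall : (Nat.card H).Coprime (H.subgroupOf (Subgroup.normalizer (H : Set G))).index)
    (hsep : ∃ (n : ℕ) (M : Fin (n + 1) → Subgroup G), M 0 = ⊥ ∧ M (Fin.last n) = ⊤ ∧ Monotone M ∧ (∀ i, (M i).Normal) ∧
      ∀ i : Fin n, (∀ q : ℕ, q.Prime → q ∣ (M i.castSucc).relIndex (M i.succ) → q ∣ Nat.card H) ∨
        ((M i.castSucc).relIndex (M i.succ)).Coprime (Nat.card H))
    (h2 : ∀ P : Sylow 2 H, IsMulCommutative (P : Subgroup H))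
    (Q : Subgroup G) (hQ : Q ≤ Subgroup.normalizer (H : Set G)) (hQH : Q ⊓ H = ⊥) (hQH' : Q ⊔ H = Subgroup.normalizer (H : Set G)) :
    (Nat.card ↥(H ⊓ Subgroup.centralizer (Q : Set G))).Coprime (H ⊓ Subgroup.centralizer (Q : Set G)).index ∧
    ∃ N : Subgroup G, N.Normal ∧ N.IsComplement' (H ⊓ Subgroup.centralizer (Q : Set G)) := by
  classical
  have hcop := TIHall.coprime_index hTI hHall
  have hH : H ≠ ⊥ := by
    rintro rfl
    exact hnn inferInstance
  obtain ⟨O, hON, hOc, hOmax⟩ := TIHall.exists_max_coprime (G := G) (Nat.card H)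
  obtain ⟨M, -, -, -, hfr⟩ := TIHall.frattini hTI hcop hH hsep O hON hOc hOmax
  haveI := hON
  -- H is a Z-group
  haveI hZ : IsZGroup H := by
    rw [isZGroup_iff]
    intro p hp P
    haveI : Fact p.Prime := ⟨hp⟩
    let P' : Subgroup G := (P : Subgroup H).map H.subtype
    have hP' : P' ≤ H := by
      rintro _ ⟨x, -, rfl⟩; exact x.2
    haveI hcyc : IsCyclic P' := by
      refine TIHall.isCyclic_pgroup hTI hnn O hON hOc hfr p P' hP' (P.2.map _) ?_
      by_cases h : p = 2
      · right
        subst h
        haveI := h2 P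
        exact Subgroup.map_isMulCommutative _ _
      · exact Or.inl h
    exact isCyclic_of_surjective _
      ((P : Subgroup H).equivMapOfInjective _ H.subtype_injective).symm.surjective
  have hcopQ : (Nat.card Q).Coprime (Nat.card H) := by
    have h1 : (H.relIndex (normalizer (H : Set G))) = Nat.card Q := by
      have h3 := H1.card_mul_relIndex (K := H) (H := normalizer (H : Set G)) le_normalizer
      have h4 := H1.card_sup_mul_card_inf_of_le_normalizer hQ
      rw [inf_comm, hQH, sup_comm, hQH', Subgroup.card_bot, mul_one] at h4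
      rw [h4] at h3
      exact Nat.eq_of_mul_eq_mul_left Nat.card_pos h3
    have h2 : (Nat.card H).Coprime (H.relIndex (normalizer (H : Set G))) := hHall
    rw [h1] at h2
    exact h2.symm
  have hCK := ZCop.coprime_centralizer_commutator H Q hQ hcopQ
  set C : Subgroup G := H ⊓ centralizer (Q : Set G) with hC
  set K : Subgroup G := ⁅H, Q⁆ with hK
  have hsolvZ : Group.IsSolvable H := inferInstance
  have hKCH : K ⊔ C = H := H1.commutator_sup_centralizer Q H hQ hcopQ (Or.inr hsolvZ)
  have hKH : K ≤ H := H1.commutator_le_left_of_le_normalizer hQ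
  have hHK : H ≤ normalizer (K : Set G) := H1.left_le_normalizer_commutator H Q
  have hQK : Q ≤ normalizer (K : Set G) := H1.right_le_normalizer_commutator H Q
  set X : Subgroup G := O ⊔ K with hX
  set N : Subgroup G := X ⊔ Q with hN
  have hON' : ∀ A : Subgroup G, A ≤ normalizer (O : Set G) := fun A => Subgroup.normalizer_eq_top O ▸ le_top
  have hNn : N.Normal := by
    rw [← Subgroup.normalizer_eq_top_iff, eq_top_iff, ← hfr, ← hQH']
    have hCn : C ≤ normalizer (N : Set G) := by
      refine ZCop.le_normalizer_sup (ZCop.le_normalizer_sup (hON' C) (inf_le_left.trans hHK)) ?_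
      exact inf_le_right.trans (Subgroup.centralizer_le_normalizer _)
    have h1 : O ≤ N := le_sup_left.trans le_sup_left
    have h2 : K ≤ N := le_sup_right.trans le_sup_left
    have h3 : Q ≤ N := le_sup_right
    refine sup_le (h1.trans le_normalizer) (sup_le (h3.trans le_normalizer) ?_)
    rw [← hKCH]
    exact sup_le (h2.trans le_normalizer) hCn
  have hCH : Nat.card C ∣ Nat.card H := Subgroup.card_dvd_of_le inf_le_left
  have hcN : (Nat.card N).Coprime (Nat.card C) := by
    have h1 : Nat.card X ∣ Nat.card O * Nat.card K := by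
      rw [mul_comm, hX, sup_comm]
      exact H1.card_sup_dvd_of_le_normalizer K O (hON' K)
    have h2 : Nat.card N ∣ Nat.card Q * Nat.card X := by
      rw [hN, sup_comm]
      exact H1.card_sup_dvd_of_le_normalizer Q X (ZCop.le_normalizer_sup (hON' Q) hQK)
    have hQC : (Nat.card Q).Coprime (Nat.card C) := Nat.Coprime.coprime_dvd_right hCH hcopQ
    have hOC : (Nat.card O).Coprime (Nat.card C) := Nat.Coprime.coprime_dvd_right hCH hOc
    exact Nat.Coprime.coprime_dvd_left h2 (Nat.Coprime.mul_left hQC
      (Nat.Coprime.coprime_dvd_left h1 (Nat.Coprime.mul_left hOC hCK.symm)))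
  have hsup : N ⊔ C = ⊤ := by
    rw [eq_top_iff, ← hfr, ← hQH', ← hKCH]
    have h1 : O ≤ N := le_sup_left.trans le_sup_left
    have h2 : K ≤ N := le_sup_right.trans le_sup_left
    have h3 : Q ≤ N := le_sup_right
    exact sup_le (h1.trans le_sup_left) (sup_le (h3.trans le_sup_left)
      (sup_le (h2.trans le_sup_left) le_sup_right))
  haveI := hNn
  have hcompl : N.IsComplement' C := by
    refine Subgroup.isComplement'_of_disjoint_and_mul_eq_univ ?_ ?_
    · rw [disjoint_iff]; exact Subgroup.inf_eq_bot_of_coprime hcN
    · rw [← Subgroup.normal_mul, hsup]; rfl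
  refine ⟨?_, N, hNn, hcompl⟩
  rw [(Subgroup.IsComplement'.index_eq_card hcompl)]
  exact hcN.symm

end Cfsg.Agent.S4151
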