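import Cfsg.Statements.S4153
import Cfsg.Agent.H24.CoprimeLift2
import Cfsg.Agent.H24.SylowInf

set_option autoImplicit false
open Cfsg

namespace Cfsg.Agent.S4153

/-- Let G be a finite group, p a prime, N a normal subgroup, P a Sylow p-subgroup of G and P̄ a Sylow p-subgroup of G/N. Count the elements of p-power order, the identity included. Then (number of such elements of G/N)/#P̄ ≤ (number of such elements of G)/#P, stated as a cross-multiplied inequality, with equality when N is central. -/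
theorem result {G : Type*} [Group G] [Finite G] (p : ℕ) [Fact p.Prime] (N : Subgroup G) [N.Normal]
    (P : Sylow p G) (Pbar : Sylow p (G ⧸ N)) :
    Nat.card {g : (G ⧸ N) // ∃ k : ℕ, orderOf g = p ^ k} * Nat.card (P : Subgroup G) ≤ Nat.card {g : G // ∃ k : ℕ, orderOf g = p ^ k} * Nat.card (Pbar : Subgroup (G ⧸ N)) ∧
    (N ≤ Subgroup.center G → Nat.card {g : (G ⧸ N) // ∃ k : ℕ, orderOf g = p ^ k} * Nat.card (P : Subgroup G) = Nat.card {g : G // ∃ k : ℕ, orderOf g = p ^ k} * Nat.card (Pbar : Subgroup (G ⧸ N))) := by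
  classical
  have hp := Fact.out (p := p.Prime)
  have := Fintype.ofFinite G
  have := Fintype.ofFinite (G ⧸ N)
  set v := (Nat.card N).factorization p with hv
  have hGN : Nat.card G = Nat.card (G ⧸ N) * Nat.card N :=
    Subgroup.card_eq_card_quotient_mul_card_subgroup N
  have hP : Nat.card (P : Subgroup G) = Nat.card (Pbar : Subgroup (G ⧸ N)) * p ^ v := by
    rw [P.card_eq_multiplicity, Pbar.card_eq_multiplicity, hGN,
      Nat.factorization_mul Nat.card_pos.ne' Nat.card_pos.ne']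
    simp only [Finsupp.coe_add, Pi.add_apply, pow_add]
    rfl
  -- fibres
  have himg : ∀ g : G, (∃ k : ℕ, orderOf g = p ^ k) →
      ∃ k : ℕ, orderOf (QuotientGroup.mk g : G ⧸ N) = p ^ k := by
    rintro g ⟨k, hk⟩
    have h1 : orderOf (QuotientGroup.mk g : G ⧸ N) ∣ p ^ k := by
      rw [← hk]; exact orderOf_map_dvd (QuotientGroup.mk' N) g
    obtain ⟨j, -, hj⟩ := (Nat.dvd_prime_pow hp).1 h1
    exact ⟨j, hj⟩
  have hsum : Nat.card {g : G // ∃ k : ℕ, orderOf g = p ^ k} =
      ∑ x : {x : G ⧸ N // ∃ k : ℕ, orderOf x = p ^ k},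
        Nat.card {g : G // (∃ k : ℕ, orderOf g = p ^ k) ∧ (QuotientGroup.mk g : G ⧸ N) = x.1} := by
    have e : {g : G // ∃ k : ℕ, orderOf g = p ^ k} ≃
      Σ x : {x : G ⧸ N // ∃ k : ℕ, orderOf x = p ^ k},
        {g : G // (∃ k : ℕ, orderOf g = p ^ k) ∧ (QuotientGroup.mk g : G ⧸ N) = x.1} :=
      { toFun := fun g => ⟨⟨QuotientGroup.mk g.1, himg g.1 g.2⟩, ⟨g.1, g.2, rfl⟩⟩
        invFun := fun s => ⟨s.2.1, s.2.2.1⟩
        left_inv := fun g => rfl
        right_inv := by
          rintro ⟨x, g, hg1, hg2⟩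
          have hx : x = ⟨QuotientGroup.mk g, himg g hg1⟩ := Subtype.ext hg2.symm
          subst hx
          rfl }
    rw [Nat.card_congr e, Nat.card_sigma]
  have hfib : ∀ x : {x : G ⧸ N // ∃ k : ℕ, orderOf x = p ^ k}, p ^ v ≤
      Nat.card {g : G // (∃ k : ℕ, orderOf g = p ^ k) ∧ (QuotientGroup.mk g : G ⧸ N) = x.1} := by
    rintro ⟨x, hx⟩
    obtain ⟨y, hy1, hy2⟩ := Cfsg.Agent.H24.exists_lift_pElt p N x hx
    obtain ⟨Q, hQ⟩ := (Cfsg.Agent.H24.isPGroup_zpowers_of_orderOf hy2).exists_le_sylow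
    have hyQ : y ∈ (Q : Subgroup G) := hQ (Subgroup.mem_zpowers y)
    -- `Q ∩ N` has order `p ^ v`
    have h1 : Nat.card ↥(N ⊓ (Q : Subgroup G)) = p ^ v := Cfsg.Agent.H24.card_inf_sylow N Q
    rw [← h1]
    refine Nat.card_le_card_of_injective
      (fun n : ↥(N ⊓ (Q : Subgroup G)) => (⟨y * n, ?_, ?_⟩ :
        {g : G // (∃ k : ℕ, orderOf g = p ^ k) ∧ (QuotientGroup.mk g : G ⧸ N) = x})) ?_
    · exact Cfsg.Agent.H24.exists_orderOf_eq_pow_of_mem Q.isPGroup' ((Q : Subgroup G).mul_mem hyQ n.2.2)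
    · rw [QuotientGroup.mk_mul_of_mem y n.2.1]; exact hy1
    · intro a b hab
      have : y * (a : G) = y * b := congrArg Subtype.val hab
      exact Subtype.ext (mul_left_cancel this)
  have hcardeq : Nat.card {x : G ⧸ N // ∃ k : ℕ, orderOf x = p ^ k} =
      (Finset.univ : Finset {x : G ⧸ N // ∃ k : ℕ, orderOf x = p ^ k}).card := by
    rw [Nat.card_eq_fintype_card]; rfl
  constructor
  · have h1 : Nat.card {x : G ⧸ N // ∃ k : ℕ, orderOf x = p ^ k} * p ^ v ≤
        Nat.card {g : G // ∃ k : ℕ, orderOf g = p ^ k} := by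
      rw [hsum, hcardeq, ← smul_eq_mul]
      exact Finset.card_nsmul_le_sum _ _ _ (fun x _ => hfib x)
    rw [hP]
    calc _ = Nat.card {x : G ⧸ N // ∃ k : ℕ, orderOf x = p ^ k} * p ^ v *
          Nat.card (Pbar : Subgroup (G ⧸ N)) := by ring
      _ ≤ _ := Nat.mul_le_mul_right _ h1
  · intro hNZ
    have hcomm : ∀ n ∈ N, ∀ g : G, Commute g n := fun n hn g =>
      Subgroup.mem_center_iff.1 (hNZ hn) g
    have hfib' : ∀ x : {x : G ⧸ N // ∃ k : ℕ, orderOf x = p ^ k},
        Nat.card {g : G // (∃ k : ℕ, orderOf g = p ^ k) ∧ (QuotientGroup.mk g : G ⧸ N) = x.1}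
          = p ^ v := by
      intro x
      apply le_antisymm _ (hfib x)
      obtain ⟨x, hx⟩ := x
      obtain ⟨y, hy1, hy2⟩ := Cfsg.Agent.H24.exists_lift_pElt p N x hx
      -- the Sylow subgroup of `N`
      obtain ⟨R⟩ : Nonempty (Sylow p N) := inferInstance
      have hNab : ∀ a b : N, a * b = b * a := fun a b => Subtype.ext (hcomm b b.2 a)
      have hRn : (R : Subgroup N).Normal := ⟨fun n hn g => by
        rw [hNab g n]; simpa using hn⟩
      rw [hv, ← R.card_eq_multiplicity]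
      refine Nat.card_le_card_of_injective
        (fun g : {g : G // (∃ k : ℕ, orderOf g = p ^ k) ∧ (QuotientGroup.mk g : G ⧸ N) = x} =>
          (⟨⟨y⁻¹ * g.1, ?_⟩, ?_⟩ : (R : Subgroup N))) ?_
      · rw [← QuotientGroup.eq, hy1]; exact g.2.2.symm
      · have hn : y⁻¹ * g.1 ∈ N := by rw [← QuotientGroup.eq, hy1]; exact g.2.2.symm
        have h2 : IsPGroup p (Subgroup.zpowers (⟨y⁻¹ * g.1, hn⟩ : N)) := by
          apply Cfsg.Agent.H24.isPGroup_zpowers_of_orderOf
          rw [Subgroup.orderOf_mk]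
          have h3 : g.1 = y * (y⁻¹ * g.1) := by group
          have h4 : Commute g.1 y⁻¹ := by
            rw [h3]
            exact ((Commute.refl y).inv_right).mul_left
              ((hcomm _ hn y⁻¹).symm)
          have h5 : orderOf (y⁻¹ * g.1) ∣ orderOf y⁻¹ * orderOf g.1 :=
            h4.symm.orderOf_mul_dvd_mul_orderOf
          obtain ⟨k1, hk1⟩ := hy2
          obtain ⟨k2, hk2⟩ := g.2.1
          rw [orderOf_inv, hk1, hk2, ← pow_add] at h5
          obtain ⟨j, -, hj⟩ := (Nat.dvd_prime_pow hp).1 h5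
          exact ⟨j, hj⟩
        obtain ⟨S, hS⟩ := h2.exists_le_sylow
        have h6 : S = R := by
          have := Sylow.unique_of_normal R hRn
          exact Subsingleton.elim _ _
        rw [h6] at hS
        exact hS (Subgroup.mem_zpowers _)
      · intro a b hab
        have : y⁻¹ * a.1 = y⁻¹ * b.1 := congrArg (fun t => ((t : (R : Subgroup N)) : N).1) hab
        exact Subtype.ext (mul_left_cancel this)
    have h1 : Nat.card {g : G // ∃ k : ℕ, orderOf g = p ^ k} =
        Nat.card {x : G ⧸ N // ∃ k : ℕ, orderOf x = p ^ k} * p ^ v := by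
      rw [hsum, Finset.sum_congr rfl (fun x _ => hfib' x), Finset.sum_const, smul_eq_mul, ← hcardeq]
    rw [h1, hP]; ring

end Cfsg.Agent.S4153
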