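import Cfsg.Statements.S4154
import Mathlib

set_option autoImplicit false
open Cfsg

namespace Cfsg.Agent.S4154

/-- Let G be a finite group and α an automorphism of G such that every element of G is the product of an element fixed by α and an element of the form g⁻¹α(g). If N is a normal α-invariant subgroup, then the automorphism ᾱ induced on G/N has the same property, and every coset fixed by ᾱ contains an element fixed by α (so the fixed points of ᾱ are the images of the fixed points of α). -/
theorem result {G : Type*} [Group G] [Finite G] (α : MulAut G)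
    (hccp : ∀ x : G, ∃ c g : G, α c = c ∧ x = c * (g⁻¹ * α g))
    (N : Subgroup G) [N.Normal] (hN : ∀ n ∈ N, α n ∈ N) :
    (∀ x : G, ∃ c g : G, c⁻¹ * α c ∈ N ∧ x⁻¹ * (c * (g⁻¹ * α g)) ∈ N) ∧
    (∀ x : G, x⁻¹ * α x ∈ N → ∃ c : G, α c = c ∧ c⁻¹ * x ∈ N) := by
  classical
  refine ⟨fun x => ?_, ?_⟩
  · obtain ⟨c, g, hc, hx⟩ := hccp x
    refine ⟨c, g, ?_, ?_⟩
    · rw [hc, inv_mul_cancel]; exact N.one_mem
    · rw [← hx, inv_mul_cancel]; exact N.one_mem
  · intro x hx
    -- induced endomorphism
    let β : G ⧸ N →* G ⧸ N := QuotientGroup.map N N α.toMonoidHom (fun n hn => hN n hn)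
    have hβ : ∀ g : G, β (QuotientGroup.mk g) = QuotientGroup.mk (α g) := fun g => rfl
    let C : Subgroup (G ⧸ N) := β.eqLocus (MonoidHom.id _)
    let C0 : Subgroup G := α.toMonoidHom.eqLocus (MonoidHom.id _)
    let D : Subgroup (G ⧸ N) := C0.map (QuotientGroup.mk' N)
    have hDC : D ≤ C := by
      rintro _ ⟨c, hc, rfl⟩
      have hc' : α c = c := hc
      show β (QuotientGroup.mk c) = QuotientGroup.mk c
      rw [hβ, hc']
    let V : Set (G ⧸ N) := Set.range (fun q : G ⧸ N => q * (β q)⁻¹)
    have hV : Nat.card V ≤ C.index := by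
      let f : (G ⧸ N) ⧸ C → V := fun q => Quotient.liftOn' q
        (fun a => ⟨a * (β a)⁻¹, a, rfl⟩) (by
          intro a b hab
          rw [QuotientGroup.leftRel_apply] at hab
          have hab' : β (a⁻¹ * b) = a⁻¹ * b := hab
          rw [map_mul, map_inv] at hab'
          apply Subtype.ext
          show a * (β a)⁻¹ = b * (β b)⁻¹
          have h1 : (β a)⁻¹ = a⁻¹ * b * (β b)⁻¹ := by
            rw [← hab']; group
          rw [h1]; group)
      have hf : Function.Surjective f := by
        rintro ⟨_, a, rfl⟩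
        exact ⟨QuotientGroup.mk a, rfl⟩
      exact Nat.card_le_card_of_surjective f hf
    have hsurj : Function.Surjective (fun t : D × V => (t.1 : G ⧸ N) * (t.2 : G ⧸ N)) := by
      intro q
      obtain ⟨y, rfl⟩ := QuotientGroup.mk_surjective q
      obtain ⟨c, g, hc, hy⟩ := hccp y
      refine ⟨(⟨QuotientGroup.mk c, c, hc, rfl⟩, ⟨QuotientGroup.mk (g⁻¹ * α g), QuotientGroup.mk g⁻¹, ?_⟩), ?_⟩
      · show QuotientGroup.mk g⁻¹ * (β (QuotientGroup.mk g⁻¹))⁻¹ = _
        rw [hβ, map_inv, QuotientGroup.mk_mul, QuotientGroup.mk_inv, QuotientGroup.mk_inv, inv_inv]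
      · show (QuotientGroup.mk c : G ⧸ N) * QuotientGroup.mk (g⁻¹ * α g) = _
        rw [← QuotientGroup.mk_mul, ← hy]
    have h1 := Nat.card_le_card_of_surjective _ hsurj
    rw [Nat.card_prod, ← Subgroup.card_mul_index C] at h1
    have h2 : Nat.card C ≤ Nat.card D := by
      have h3 : 0 < C.index := Nat.pos_of_ne_zero Subgroup.index_ne_zero_of_finite
      have h4 : Nat.card C * C.index ≤ Nat.card D * C.index :=
        h1.trans (Nat.mul_le_mul_left _ hV)
      exact Nat.le_of_mul_le_mul_right h4 h3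
    have h3 : D = C := Subgroup.eq_of_le_of_card_ge hDC h2
    have h4 : (QuotientGroup.mk x : G ⧸ N) ∈ C := by
      show β (QuotientGroup.mk x) = QuotientGroup.mk x
      rw [hβ, eq_comm, QuotientGroup.eq]; exact hx
    rw [← h3] at h4
    obtain ⟨c, hc, hcx⟩ := h4
    exact ⟨c, hc, QuotientGroup.eq.1 hcx⟩

end Cfsg.Agent.S4154
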