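import Cfsg.Statements.S4156

set_option autoImplicit false
open Cfsg

namespace Cfsg.Agent.S4156


open Module

variable (F : Type*) [Field F] (n : ℕ)

/-- the sum functional -/
def sm : (Fin (n + 1) → F) →ₗ[F] F := ∑ i, LinearMap.proj i

theorem sm_apply (v : Fin (n + 1) → F) : sm F n v = ∑ i, v i := by
  simp [sm]

/-- the sum zero hyperplane -/
abbrev W : Submodule F (Fin (n + 1) → F) := LinearMap.ker (sm F n)

theorem finrank_W : finrank F (W F n) = n := by
  have h1 := LinearMap.finrank_range_add_finrank_ker (sm F n)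
  have h2 : LinearMap.range (sm F n) = ⊤ := by
    rw [LinearMap.range_eq_top]
    intro c
    refine ⟨Pi.single 0 c, ?_⟩
    rw [sm_apply]; simp
  rw [h2, finrank_top, finrank_self] at h1
  simp only [finrank_fintype_fun_eq_card, Fintype.card_fin] at h1
  change finrank F (LinearMap.ker (sm F n)) = n
  omega

/-- the permutation action on the hyperplane -/
def act (s : Equiv.Perm (Fin (n + 1))) : W F n →ₗ[F] W F n :=
  (LinearMap.funLeft F F (s.symm : Fin (n + 1) → Fin (n + 1))).restrict (by
    intro v hv
    rw [LinearMap.mem_ker, sm_apply] at hv ⊢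
    rw [← hv]
    exact Equiv.sum_comp s.symm v)

theorem act_apply (s : Equiv.Perm (Fin (n + 1))) (w : W F n) (i : Fin (n + 1)) :
    (act F n s w : Fin (n + 1) → F) i = (w : Fin (n + 1) → F) (s.symm i) := rfl

/-- the action as a homomorphism on the alternating group -/
def rho : alternatingGroup (Fin (n + 1)) →* Module.End F (W F n) where
  toFun s := act F n s.1
  map_one' := by
    ext w i; rfl
  map_mul' s t := by
    ext w i
    simp only [act_apply, Module.End.mul_apply]
    rfl

/-- matrices -/
noncomputable def mat : alternatingGroup (Fin (n + 1)) →* Matrix (Fin n) (Fin n) F :=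
  ((LinearMap.toMatrixAlgEquiv (finBasisOfFinrankEq F (W F n) (finrank_W F n))).toAlgHom :
    Module.End F (W F n) →* Matrix (Fin n) (Fin n) F).comp (rho F n)

/-- Let n ≥ 5 and F a finite field. Then the projective special linear group PSL_n(F) contains a subgroup isomorphic to the alternating group of degree n + 1. -/
theorem result (n : ℕ) (hn : 5 ≤ n) (F : Type*) [Field F] [Finite F] :
    ∃ f : alternatingGroup (Fin (n + 1)) →* Matrix.ProjectiveSpecialLinearGroup (Fin n) F, Function.Injective f := by
  classical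
  have hs : IsSimpleGroup (alternatingGroup (Fin (n + 1))) :=
    alternatingGroup.isSimpleGroup (by rw [Nat.card_eq_fintype_card, Fintype.card_fin]; omega)
  have hlt : ∀ k < 4, k < n + 1 := by intro k hk; omega
  let i0 : Fin (n + 1) := ⟨0, hlt 0 (by omega)⟩
  let i1 : Fin (n + 1) := ⟨1, hlt 1 (by omega)⟩
  let i2 : Fin (n + 1) := ⟨2, hlt 2 (by omega)⟩
  let i3 : Fin (n + 1) := ⟨3, hlt 3 (by omega)⟩
  have h01 : i0 ≠ i1 := by simp [i0, i1, Fin.ext_iff]
  have h02 : i0 ≠ i2 := by simp [i0, i2, Fin.ext_iff]
  have h03 : i0 ≠ i3 := by simp [i0, i3, Fin.ext_iff]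
  have h12 : i1 ≠ i2 := by simp [i1, i2, Fin.ext_iff]
  have h13 : i1 ≠ i3 := by simp [i1, i3, Fin.ext_iff]
  have h23 : i2 ≠ i3 := by simp [i2, i3, Fin.ext_iff]
  -- two elements
  let a : alternatingGroup (Fin (n + 1)) := ⟨Equiv.swap i0 i1 * Equiv.swap i0 i2, by
    rw [Equiv.Perm.mem_alternatingGroup, map_mul, Equiv.Perm.sign_swap h01,
      Equiv.Perm.sign_swap h02]; rfl⟩
  have hdet : ∀ s, (mat F n s).det = 1 := by
    let D : alternatingGroup (Fin (n + 1)) →* Fˣ := MonoidHom.toHomUnits (Matrix.detMonoidHom.comp (mat F n))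
    have hD : D.ker = ⊤ := by
      rw [eq_top_iff, ← commutator_alternatingGroup_eq_top (α := Fin (n + 1)) (by
        rw [Nat.card_eq_fintype_card, Fintype.card_fin]; omega)]
      exact Abelianization.commutator_subset_ker D
    intro s
    have h1 : s ∈ D.ker := by rw [hD]; trivial
    have h2 : D s = 1 := h1
    have h3 := congrArg Units.val h2
    exact h3
  let S : alternatingGroup (Fin (n + 1)) →* Matrix.SpecialLinearGroup (Fin n) F :=
    { toFun := fun s => ⟨mat F n s, hdet s⟩
      map_one' := by apply Subtype.ext; exact map_one (mat F n)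
      map_mul' := fun s t => by apply Subtype.ext; exact map_mul (mat F n) s t }
  let f : alternatingGroup (Fin (n + 1)) →* Matrix.ProjectiveSpecialLinearGroup (Fin n) F :=
    (QuotientGroup.mk' _).comp S
  refine ⟨f, ?_⟩
  rw [← MonoidHom.ker_eq_bot_iff]
  rcases (MonoidHom.normal_ker f).eq_bot_or_eq_top with h | h
  · exact h
  · exfalso
    have h1 : a ∈ f.ker := by rw [h]; trivial
    have h2 : f a = 1 := h1
    have h3 : S a ∈ Subgroup.center (Matrix.SpecialLinearGroup (Fin n) F) :=
      (QuotientGroup.eq_one_iff _).1 h2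
    rw [Matrix.SpecialLinearGroup.mem_center_iff] at h3
    obtain ⟨c, -, hc⟩ := h3
    have h4 : rho F n a = c • (1 : Module.End F (W F n)) := by
      apply (LinearMap.toMatrixAlgEquiv (finBasisOfFinrankEq F (W F n) (finrank_W F n))).injective
      rw [map_smul, map_one]
      have h5 : mat F n a = Matrix.scalar (Fin n) c := hc.symm
      rw [Matrix.scalar_apply] at h5
      change mat F n a = c • (1 : Matrix (Fin n) (Fin n) F)
      rw [h5, Matrix.smul_one_eq_diagonal]
    let w : W F n := ⟨Pi.single i0 1 - Pi.single i3 1, by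
      rw [LinearMap.mem_ker, map_sub, sm_apply, sm_apply]; simp⟩
    have h6 := congrArg (fun T : Module.End F (W F n) => (T w : Fin (n + 1) → F)) h4
    have h7 := congrFun h6 i3
    have h8 := congrFun h6 i0
    have e3 : a.1.symm i3 = i3 := by
      rw [Equiv.symm_apply_eq]
      simp only [a, Equiv.Perm.mul_apply]
      rw [Equiv.swap_apply_of_ne_of_ne h03.symm h23.symm,
        Equiv.swap_apply_of_ne_of_ne h03.symm h13.symm]
    have e0 : a.1.symm i0 = i1 := by
      rw [Equiv.symm_apply_eq]
      simp only [a, Equiv.Perm.mul_apply]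
      rw [Equiv.swap_apply_of_ne_of_ne h01.symm h12, Equiv.swap_apply_right]
    change (w : Fin (n + 1) → F) (a.1.symm i3) = c * (w : Fin (n + 1) → F) i3 at h7
    change (w : Fin (n + 1) → F) (a.1.symm i0) = c * (w : Fin (n + 1) → F) i0 at h8
    rw [e3] at h7
    rw [e0] at h8
    have w3 : (w : Fin (n + 1) → F) i3 = -1 := by
      simp only [w, Pi.sub_apply, Pi.single_eq_same, Pi.single_eq_of_ne h03.symm, zero_sub]
    have w0 : (w : Fin (n + 1) → F) i0 = 1 := by
      simp only [w, Pi.sub_apply, Pi.single_eq_same, Pi.single_eq_of_ne h03, sub_zero]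
    have w1 : (w : Fin (n + 1) → F) i1 = 0 := by
      simp only [w, Pi.sub_apply, Pi.single_eq_of_ne h01.symm, Pi.single_eq_of_ne h13, sub_zero]
    rw [w3] at h7
    rw [w1, w0, mul_one] at h8
    rw [← h8, zero_mul] at h7
    exact one_ne_zero (neg_eq_zero.1 h7)

end Cfsg.Agent.S4156
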