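import Cfsg.Statements.S4157
import Cfsg.Agent.H25.Kul8

set_option autoImplicit false
open Cfsg

namespace Cfsg.Agent.S4157

/-- Let G be a finite p-group of order p^m that is not cyclic and, when p = 2, not of maximal class (nilpotency class m − 1). Then for every 1 ≤ k < m the number of subgroups of G of order p^k is congruent to 1 + p modulo p². -/
theorem result {G : Type*} [Group G] [Finite G] {p : ℕ} [Fact p.Prime] (m : ℕ)
    (hG : Nat.card G = p ^ m) (hnc : ¬ IsCyclic G) (h2 : p = 2 → Group.nilpotencyClass G ≠ m - 1)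
    (k : ℕ) (hk1 : 1 ≤ k) (hk2 : k < m) :
    Nat.card {H : Subgroup G // Nat.card H = p ^ k} ≡ 1 + p [MOD p ^ 2] := by
  classical
  have hP : IsPGroup p G := IsPGroup.of_card hG
  by_cases hp2 : p = 2
  · subst hp2
    have hbad : ¬ Cfsg.Agent.H25.Kul.Bad G := by
      rintro (h | ⟨n, h⟩)
      · exact hnc h
      · have h1 := h.card
        rw [hG] at h1
        have h3 := Nat.pow_right_injective le_rfl h1
        have h4 := h.nilpotencyClass
        apply h2 rfl
        rw [h4]
        have h5 : m = n + 2 := h3
        omega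
    rcases Nat.lt_or_ge (k + 1) m with hlt | hge
    · exact (Cfsg.Agent.H25.Kul.main_two m G hG k hk1 (by omega)).2 hbad
    · have hmk : m = k + 1 := by omega
      subst hmk
      exact Cfsg.Agent.H25.Kul.cnt_max hP hnc hG
  · exact Cfsg.Agent.H25.Kul.main_odd hp2 m G hG hnc k hk1 hk2

end Cfsg.Agent.S4157
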