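import Cfsg.Statements.S4159
import Cfsg.Agent.H24.CoprimeLift
import Cfsg.Agent.H1.Hall
import Cfsg.Agent.FT

set_option autoImplicit false
set_option linter.all false
open Cfsg

open Subgroup
open scoped Pointwise

namespace Cfsg.Agent.S4159

open Cfsg.Agent

/-- Let G be a finite group such that in every subgroup H of G, any two conjugacy classes of H of size greater than 1 have non-coprime sizes. Then G is solvable. -/
theorem result {G : Type*} [Group G] [Finite G]
    (h : ∀ (H : Subgroup G) (x y : H), 1 < (Subgroup.centralizer ({x} : Set H)).index → 1 < (Subgroup.centralizer ({y} : Set H)).index →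
      ¬ ((Subgroup.centralizer ({x} : Set H)).index).Coprime (Subgroup.centralizer ({y} : Set H)).index) : Group.IsSolvable G := by
  classical
  have hJ : ∀ t y : G, Odd (orderOf y) → t * y * t⁻¹ = y⁻¹ → y = 1 := by
    intro t y hy hty
    by_contra hne
    -- a 2-element inverting `y`
    obtain ⟨a, m, hm, ham⟩ := Nat.exists_eq_two_pow_mul_odd (n := orderOf t) (orderOf_pos t).ne'
    set s := t ^ m with hs
    have hso : orderOf s = 2 ^ a := by
      rw [hs, orderOf_pow_of_dvd hm.pos.ne' (by rw [ham]; exact Dvd.intro_left _ rfl), ham,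
        Nat.mul_div_cancel _ hm.pos]
    have hsy : s * y * s⁻¹ = y⁻¹ := by
      have key : ∀ n : ℕ, (t ^ n * y * (t ^ n)⁻¹ = y ∧ Even n) ∨ (t ^ n * y * (t ^ n)⁻¹ = y⁻¹ ∧ Odd n) := by
        intro n
        induction n with
        | zero => left; simp
        | succ n ih =>
          have e : t ^ (n + 1) * y * (t ^ (n + 1))⁻¹ = t * (t ^ n * y * (t ^ n)⁻¹) * t⁻¹ := by
            rw [pow_succ']; group
          rcases ih with ⟨h1, h2⟩ | ⟨h1, h2⟩
          · right; rw [e, h1]; exact ⟨hty, h2.add_one⟩
          · left; rw [e, h1]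
            refine ⟨?_, h2.add_one⟩
            calc t * y⁻¹ * t⁻¹ = (t * y * t⁻¹)⁻¹ := by group
              _ = y := by rw [hty, inv_inv]
      rcases key m with ⟨_, h2⟩ | ⟨h1, _⟩
      · exact absurd hm (Nat.not_odd_iff_even.mpr h2)
      · exact h1
    have hyy : y⁻¹ ≠ y := by
      intro h
      have h1 : y ^ 2 = 1 := by rw [pow_two]; nth_rewrite 1 [← h]; exact inv_mul_cancel y
      have h2 : orderOf y ∣ 2 := orderOf_dvd_of_pow_eq_one h1
      rcases (Nat.dvd_prime Nat.prime_two).mp h2 with h3 | h3
      · exact hne (orderOf_eq_one_iff.mp h3)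
      · rw [h3] at hy; exact absurd hy (by decide)
    set H := zpowers y ⊔ zpowers s with hH
    have hyH : y ∈ H := Subgroup.mem_sup_left (mem_zpowers y)
    have hsH : s ∈ H := Subgroup.mem_sup_right (mem_zpowers s)
    have hnorm : zpowers s ≤ normalizer ((zpowers y : Subgroup G) : Set G) := by
      rw [Subgroup.zpowers_le, H1.mem_normalizer_iff_conj_smul]
      have h1 : MulAut.conj s • zpowers y = zpowers (s * y * s⁻¹) := by
        ext x
        rw [H1.mem_conj_smul]
        simp only [Subgroup.mem_zpowers_iff]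
        constructor
        · rintro ⟨k, hk⟩; refine ⟨k, ?_⟩; rw [conj_zpow, hk]; group
        · rintro ⟨k, hk⟩; refine ⟨k, ?_⟩; rw [← hk, conj_zpow]; group
      rw [h1, hsy, Subgroup.zpowers_inv]
    have hcop : (orderOf y).Coprime (orderOf s) := by
      rw [hso]
      exact (Nat.Coprime.pow_left a ((Nat.coprime_two_left).mpr hy)).symm
    have hcard : Nat.card H = orderOf y * orderOf s := by
      rw [hH, H1.card_sup_of_coprime hnorm (by rw [Nat.card_zpowers, Nat.card_zpowers]; exact hcop),
        Nat.card_zpowers, Nat.card_zpowers]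
    have hcy : orderOf (⟨y, hyH⟩ : H) = orderOf y := Subgroup.orderOf_mk y hyH
    have hcs : orderOf (⟨s, hsH⟩ : H) = orderOf s := Subgroup.orderOf_mk s hsH
    have h1 : (centralizer ({(⟨y, hyH⟩ : H)} : Set H)).index ∣ orderOf s := by
      have h2 : zpowers (⟨y, hyH⟩ : H) ≤ centralizer ({(⟨y, hyH⟩ : H)} : Set H) := by
        rw [Subgroup.zpowers_le, Subgroup.mem_centralizer_iff]
        rintro _ rfl; rfl
      refine (Subgroup.index_dvd_of_le h2).trans ?_
      have h3 := Subgroup.card_mul_index (zpowers (⟨y, hyH⟩ : H))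
      rw [Nat.card_zpowers, hcy, hcard] at h3
      rw [Nat.eq_of_mul_eq_mul_left (orderOf_pos y) h3]
    have h2 : (centralizer ({(⟨s, hsH⟩ : H)} : Set H)).index ∣ orderOf y := by
      have h2 : zpowers (⟨s, hsH⟩ : H) ≤ centralizer ({(⟨s, hsH⟩ : H)} : Set H) := by
        rw [Subgroup.zpowers_le, Subgroup.mem_centralizer_iff]
        rintro _ rfl; rfl
      refine (Subgroup.index_dvd_of_le h2).trans ?_
      have h3 := Subgroup.card_mul_index (zpowers (⟨s, hsH⟩ : H))
      rw [Nat.card_zpowers, hcs, hcard, mul_comm (orderOf y)] at h3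
      rw [Nat.eq_of_mul_eq_mul_left (orderOf_pos s) h3]
    have hnc : ¬ (s * y = y * s) := by
      intro hc
      apply hyy
      rw [← hsy, hc]; group
    have hgt : ∀ u v : H, (u : G) * v ≠ v * u → 1 < (centralizer ({u} : Set H)).index := by
      intro u v huv
      have h0 : (centralizer ({u} : Set H)).index ≠ 0 := Subgroup.FiniteIndex.index_ne_zero
      have h1 : (centralizer ({u} : Set H)).index ≠ 1 := by
        intro h
        rw [Subgroup.index_eq_one] at h
        have hv : v ∈ centralizer ({u} : Set H) := by rw [h]; trivial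
        exact huv (congrArg Subtype.val (Subgroup.mem_centralizer_iff.mp hv u rfl))
      omega
    refine h H ⟨y, hyH⟩ ⟨s, hsH⟩ (hgt _ ⟨s, hsH⟩ fun hc => hnc hc.symm) (hgt _ ⟨y, hyH⟩ hnc) ?_
    exact (hcop.symm.coprime_dvd_left h1).coprime_dvd_right h2
  obtain ⟨P⟩ : Nonempty (Sylow 2 G) := inferInstance
  have hP := H24.sylow_two_normal_of_no_inversion hJ P
  have h1 : Group.IsSolvable (P : Subgroup G) := by
    haveI := P.isPGroup'.isNilpotent
    infer_instance
  have h2 : Group.IsSolvable (G ⧸ (P : Subgroup G)) := by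
    refine FT.odd_order ?_
    rw [← Subgroup.index_eq_card]
    have := P.not_dvd_index
    exact Nat.not_even_iff_odd.mp fun he => this he.two_dvd
  exact (Group.isSolvable_iff_subgroup_quotient (P : Subgroup G)).mpr ⟨h1, h2⟩

end Cfsg.Agent.S4159
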