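import Cfsg.Statements.S4160
import Cfsg.Agent.H24.ClassSize

set_option autoImplicit false
open Cfsg

namespace Cfsg.Agent.S4160

/-- Let G be a finite group and p ≠ q primes each dividing the size of some conjugacy class of G, such that no conjugacy class size is divisible by pq. Then G has a normal p-complement or a normal q-complement. -/
theorem result {G : Type*} [Group G] [Finite G] (p q : ℕ) (hp : p.Prime) (hq : q.Prime) (hpq : p ≠ q)
    (hp' : ∃ x : G, p ∣ (Subgroup.centralizer ({x} : Set G)).index) (hq' : ∃ x : G, q ∣ (Subgroup.centralizer ({x} : Set G)).index) (h : ∀ x : G, ¬ p * q ∣ (Subgroup.centralizer ({x} : Set G)).index) :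
    Cfsg.HasNormalPComplement p G ∨ Cfsg.HasNormalPComplement q G := by
  classical
  have : Fact p.Prime := ⟨hp⟩
  have : Fact q.Prime := ⟨hq⟩
  obtain ⟨P⟩ : Nonempty (Sylow p G) := inferInstance
  obtain ⟨Q⟩ : Nonempty (Sylow q G) := inferInstance
  have hP := H24.card_not_dvd_mul_relIndex_le P
  have hQ := H24.card_not_dvd_mul_relIndex_le Q
  set a := (Subgroup.centralizer ((P : Subgroup G) : Set G)).relIndex (Subgroup.normalizer ((P : Subgroup G) : Set G)) with ha
  set b := (Subgroup.centralizer ((Q : Subgroup G) : Set G)).relIndex (Subgroup.normalizer ((Q : Subgroup G) : Set G)) with hb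
  have ha0 : a ≠ 0 := H24.relIndex_ne_zero_of_finite' _ _
  have hb0 : b ≠ 0 := H24.relIndex_ne_zero_of_finite' _ _
  by_cases ha1 : a = 1
  · exact Or.inl (H24.hasNormalPComplement_of_relIndex_eq_one P ha1)
  by_cases hb1 : b = 1
  · exact Or.inr (H24.hasNormalPComplement_of_relIndex_eq_one Q hb1)
  exfalso
  set A : Set G := {x : G | ¬ p ∣ (Subgroup.centralizer ({x} : Set G)).index} with hA
  set B : Set G := {x : G | ¬ q ∣ (Subgroup.centralizer ({x} : Set G)).index} with hB
  have hU : A ∪ B = Set.univ := by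
    ext x
    simp only [Set.mem_union, Set.mem_univ, iff_true, hA, hB, Set.mem_ofPred_eq]
    by_contra hcon
    push Not at hcon
    exact h x (Nat.Coprime.mul_dvd_of_dvd_of_dvd ((Nat.coprime_primes hp hq).mpr hpq) hcon.1 hcon.2)
  have h1A : (1 : G) ∈ A ∩ B := by
    simp only [hA, hB, Set.mem_inter_iff, Set.mem_ofPred_eq]
    have : (Subgroup.centralizer ({1} : Set G)) = ⊤ := by
      ext x; simp [Subgroup.mem_centralizer_singleton_iff]
    rw [this, Subgroup.index_top]
    exact ⟨hp.one_lt.ne' ∘ Nat.dvd_one.mp, hq.one_lt.ne' ∘ Nat.dvd_one.mp⟩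
  have hc := Set.ncard_union_add_ncard_inter A B
  have h1 : 1 ≤ (A ∩ B).ncard := by
    rw [Nat.one_le_iff_ne_zero, Ne, Set.ncard_eq_zero]
    intro he
    rw [he] at h1A
    exact h1A
  rw [hU, Set.ncard_univ] at hc
  have hP' : A.ncard * a ≤ Nat.card G := hP
  have hQ' : B.ncard * b ≤ Nat.card G := hQ
  have ha2 : 2 ≤ a := by omega
  have hb2 : 2 ≤ b := by omega
  have h3 : A.ncard * 2 ≤ Nat.card G := (Nat.mul_le_mul_left _ ha2).trans hP'
  have h4 : B.ncard * 2 ≤ Nat.card G := (Nat.mul_le_mul_left _ hb2).trans hQ'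
  omega

end Cfsg.Agent.S4160
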