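import Cfsg.Statements.S4167
import Cfsg.Agent.H24.SqFree5
import Cfsg.Agent.H24.FTUse

set_option autoImplicit false
open Cfsg

namespace Cfsg.Agent.S4167

/-- Let G be a finite group in which no conjugacy class has size divisible by 4. Then G is solvable. -/
theorem result {G : Type*} [Group G] [Finite G]
    (h : ∀ x : G, ¬ 4 ∣ (Subgroup.centralizer ({x} : Set G)).index) : Group.IsSolvable G := by
  haveI : Fact (Nat.Prime 2) := ⟨Nat.prime_two⟩
  apply Cfsg.Agent.H24.solvable_of_hasNormalTwoComplement
  apply Cfsg.Agent.H24.npc_of_sq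
  · exact Nat.coprime_one_right _
  · intro x hx
    exact h x hx

end Cfsg.Agent.S4167
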