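import Cfsg.Statements.S4169
import Cfsg.Agent.H24.MinClass

set_option autoImplicit false
open Cfsg

namespace Cfsg.Agent.S4169

/-- Let P be a finite p-group whose conjugacy classes have exactly two sizes (1 and one other value). Then P has nilpotency class at most 3. -/
theorem result {P : Type*} [Group P] [Finite P] {p : ℕ} [Fact p.Prime] (hP : IsPGroup p P)
    (m : ℕ) (hm : 1 < m) (h : ∀ x : P, (Subgroup.centralizer ({x} : Set P)).index = 1 ∨ (Subgroup.centralizer ({x} : Set P)).index = m) :
    upperCentralSeries P 3 = ⊤ := by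
  obtain ⟨A, hAn, hA, hCA⟩ := Cfsg.Agent.H24.exists_abelian_normal_self_centralizing hP
  have h1 := Cfsg.Agent.H24.upperCentralSeries_closure_min_class A hA hCA m (by
    intro x hx
    rcases h x with h | h
    · omega
    · omega)
  have h2 : Subgroup.closure {x : P | (Subgroup.centralizer ({x} : Set P)).index = 1 ∨
      (Subgroup.centralizer ({x} : Set P)).index = m} = ⊤ := by
    rw [eq_top_iff]
    intro x _
    exact Subgroup.subset_closure (h x)
  rw [h2] at h1
  rw [eq_top_iff]
  intro x _
  show x ∈ Subgroup.upperCentralSeries P 3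
  have hx : (⟨x, trivial⟩ : (⊤ : Subgroup P)) ∈ Subgroup.upperCentralSeries (⊤ : Subgroup P) 3 := by
    rw [h1]; trivial
  rw [Subgroup.mem_upperCentralSeries_succ_iff] at hx ⊢
  intro y
  have hy := hx ⟨y, trivial⟩
  rw [Subgroup.mem_upperCentralSeries_succ_iff] at hy ⊢
  intro z
  have hz := hy ⟨z, trivial⟩
  rw [Subgroup.mem_upperCentralSeries_succ_iff] at hz ⊢
  intro w
  have hw := hz ⟨w, trivial⟩
  rw [Subgroup.upperCentralSeries_zero, Subgroup.mem_bot] at hw ⊢
  exact congrArg Subtype.val hw

end Cfsg.Agent.S4169
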