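import Cfsg.Statements.S4172
import Cfsg.Agent.H1.Chief
import Cfsg.Agent.H1.Gaschutz
import Cfsg.Agent.H2.TateCor
import Cfsg.Agent.H2.Frat
import Cfsg.Agent.H2.Hall
import Cfsg.Agent.H2.Cyc
import Cfsg.Agent.H10.Comp
import Cfsg.Agent.H18.PCore
import Cfsg.Agent.H18.CharP

set_option autoImplicit false
set_option linter.all false
open Cfsg

namespace Cfsg.Agent.S4172

open Subgroup
open scoped Pointwise commutatorElement
open Cfsg.Agent
universe u

theorem exists_gen {K : Type*} [Group K] [Finite K] {p : ℕ} [hp : Fact p.Prime] (hgen : (frattini K).index = p ^ 2)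
    {D : Subgroup K} (hD : ¬ D ≤ frattini K) : ∃ x : K, zpowers x ⊔ D = ⊤ := by
  have h1 : frattini K < D ⊔ frattini K := lt_of_le_of_ne le_sup_right (fun h => hD (h ▸ le_sup_left))
  have h3 := Subgroup.relIndex_mul_index h1.le
  have h2 : (D ⊔ frattini K).index ∣ p ^ 2 := hgen ▸ Subgroup.index_dvd_of_le le_sup_right
  obtain ⟨j, hj, hj2⟩ := (Nat.dvd_prime_pow hp.out).mp h2
  have hj3 : j ≠ 2 := by
    rintro rfl
    rw [hj2, hgen] at h3
    have h4 : (frattini K).relIndex (D ⊔ frattini K) = 1 := by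
      have := pow_pos hp.out.pos 2
      nlinarith
    exact not_le_of_gt h1 (Subgroup.relIndex_eq_one.mp h4)
  have key : ∃ x : K, zpowers x ⊔ (D ⊔ frattini K) = ⊤ := by
    by_cases h0 : (D ⊔ frattini K) = ⊤
    · exact ⟨1, by rw [h0, sup_top_eq]⟩
    · have hj0 : j ≠ 0 := by
        rintro rfl
        rw [pow_zero, Subgroup.index_eq_one] at hj2
        exact h0 hj2
      have h5 : (D ⊔ frattini K).index = p := by rw [hj2, show j = 1 by omega, pow_one]
      obtain ⟨x, hx⟩ : ∃ x, x ∉ D ⊔ frattini K := by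
        by_contra hno
        push Not at hno
        exact h0 (Subgroup.eq_top_iff' _ |>.mpr hno)
      refine ⟨x, ?_⟩
      have hlt : D ⊔ frattini K < zpowers x ⊔ (D ⊔ frattini K) :=
        lt_of_le_of_ne le_sup_right (fun h => hx (by
          rw [h]; exact (le_sup_left : zpowers x ≤ zpowers x ⊔ (D ⊔ frattini K)) (mem_zpowers x)))
      have h6 := (H2.isCoatom_of_index_prime h5).2 _ hlt
      exact h6
  obtain ⟨x, hx⟩ := key
  refine ⟨x, ?_⟩
  rw [← sup_assoc] at hx
  exact H2.eq_top_of_sup_frattini hx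

theorem comm_le {K : Type*} [Group K] {D : Subgroup K} [hD : D.Normal] {x : K} (h : zpowers x ⊔ D = ⊤) :
    commutator K ≤ D := by
  rw [← Subgroup.Normal.quotient_commutative_iff_commutator_le]
  have : IsCyclic (K ⧸ D) := by
    refine ⟨QuotientGroup.mk' D x, fun y => ?_⟩
    obtain ⟨g, rfl⟩ := QuotientGroup.mk'_surjective D y
    have hg : g ∈ zpowers x ⊔ D := h ▸ Subgroup.mem_top g
    obtain ⟨a, ha, d, hd, rfl⟩ := Subgroup.mem_sup_of_normal_right.mp hg
    obtain ⟨k, rfl⟩ := Subgroup.mem_zpowers_iff.mp ha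
    refine Subgroup.mem_zpowers_iff.mpr ⟨k, ?_⟩
    rw [map_mul, map_zpow]
    have : QuotientGroup.mk' D d = 1 := (QuotientGroup.eq_one_iff d).mpr hd
    rw [this, mul_one]
  exact inferInstance

/-- two-generation -/
theorem gen_of {X : Type*} [Group X] [Finite X] {p : ℕ} [hp : Fact p.Prime] (P : Sylow p X)
    (hgen : (frattini ↥(P : Subgroup X)).index = p ^ 2) (N : Subgroup X) [N.Normal]
    (h1 : ¬ N.subgroupOf (P : Subgroup X) ≤ frattini ↥(P : Subgroup X)) :
    (∃ x ∈ (P : Subgroup X), (P : Subgroup X) ≤ zpowers x ⊔ (N ⊓ (P : Subgroup X))) ∧ ⁅(P : Subgroup X), (P : Subgroup X)⁆ ≤ N := by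
  obtain ⟨x, hx⟩ := exists_gen hgen h1
  have h2 := comm_le hx
  constructor
  · refine ⟨x, x.2, fun y hy => ?_⟩
    have hy' : (⟨y, hy⟩ : (P : Subgroup X)) ∈ zpowers x ⊔ N.subgroupOf (P : Subgroup X) := hx ▸ Subgroup.mem_top _
    obtain ⟨a, ha, d, hd, had⟩ := Subgroup.mem_sup_of_normal_right.mp hy'
    have e : y = (a : X) * d := (congrArg Subtype.val had).symm
    rw [e]
    apply Subgroup.mul_mem_sup
    · obtain ⟨k, rfl⟩ := Subgroup.mem_zpowers_iff.mp ha
      exact Subgroup.mem_zpowers_iff.mpr ⟨k, by simp⟩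
    · exact ⟨hd, d.2⟩
  · rw [Subgroup.commutator_le]
    intro a ha b hb
    have h3 : ⁅(⟨a, ha⟩ : (P : Subgroup X)), ⟨b, hb⟩⁆ ∈ commutator ↥(P : Subgroup X) :=
      Subgroup.commutator_mem_commutator (Subgroup.mem_top _) (Subgroup.mem_top _)
    exact h2 h3

theorem pnil_of {X : Type*} [Group X] [Finite X] {p : ℕ} [hp : Fact p.Prime] (P : Sylow p X) (N : Subgroup X) [N.Normal]
    (h : N.subgroupOf (P : Subgroup X) ≤ frattini ↥(P : Subgroup X)) : Cfsg.HasNormalPComplement p N := by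
  apply H2.hasNormalPComplement_of_inf_le_frattini P N
  intro y hy
  exact ⟨⟨y, hy.2⟩, h (Subgroup.mem_subgroupOf.mpr hy.1), rfl⟩

theorem frattini_index_equiv {K K' : Type*} [Group K] [Group K'] (e : K ≃* K') : (frattini K).index = (frattini K').index := by
  have h1 : (frattini K).map e.toMonoidHom = frattini K' := OrderIso.map_radical e.mapSubgroup
  rw [← h1]
  exact (Subgroup.index_map_equiv (frattini K) e).symm

/-- a subnormal `p`-nilpotent subgroup of a group with trivial `O_{p'}` is a `p`-group -/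
theorem isPGroup_of_pnil {G : Type*} [Group G] [Finite G] {p : ℕ} [hp : Fact p.Prime] (hcore : Cfsg.pPrimeCore p G = ⊥)
    {N : Subgroup G} (hN : N.IsSubnormal) {N' : Type*} [Group N'] [Finite N'] (e : N' ≃* N)
    (h : Cfsg.HasNormalPComplement p N') : IsPGroup p N' := by
  obtain ⟨Q, M, hM, hMQ⟩ := h
  have hM2 : (M.map e.toMonoidHom).Normal := hM.map e.toMonoidHom e.surjective
  have h1 : ((M.map e.toMonoidHom).map N.subtype).IsSubnormal := hM2.isSubnormal.trans' hN
  have h2 : (Nat.card M).Coprime p := by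
    have h3 : Nat.card M = (Q : Subgroup N').index := hMQ.index_eq_card.symm
    rw [h3]
    exact (Nat.Prime.coprime_iff_not_dvd hp.out).mpr Q.not_dvd_index |>.symm
  have h3 : (M.map e.toMonoidHom).map N.subtype ≤ Cfsg.pPrimeCore p G := H10.subnormal_pPrime_le_pPrimeCore h1 (by
    rw [H1.card_map_subtype, Nat.card_congr (Subgroup.equivMapOfInjective M e.toMonoidHom e.injective).symm.toEquiv]; exact h2)
  rw [hcore, le_bot_iff, Subgroup.map_eq_bot_iff_of_injective _ N.subtype_injective,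
    Subgroup.map_eq_bot_iff_of_injective _ e.injective] at h3
  subst h3
  have h4 : (Q : Subgroup N') = ⊤ := by
    have := hMQ.sup_eq_top
    rwa [bot_sup_eq] at this
  have h5 := Q.isPGroup'
  rw [h4] at h5
  exact h5.of_equiv Subgroup.topEquiv

theorem normal_facts {G : Type*} [Group G] [Finite G] (p : ℕ) [hp : Fact p.Prime] (P : Sylow p G)
    (hgen : (frattini ↥(P : Subgroup G)).index = p ^ 2) (hcore : Cfsg.pPrimeCore p G = ⊥)
    (hfrat : ((frattini ↥(P : Subgroup G)).map (P : Subgroup G).subtype).normalCore = ⊥) (N : Subgroup G) (hN : N.Normal)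
    (hN1 : N ≠ ⊥) : ¬ N.subgroupOf (P : Subgroup G) ≤ frattini ↥(P : Subgroup G) := by
  intro h
  have hpn := pnil_of P N h
  have hpg := isPGroup_of_pnil hcore hN.isSubnormal (MulEquiv.refl N) hpn
  have hNP : N ≤ (P : Subgroup G) := (H1.le_pCore hN hpg).trans (H1.pCore_le_sylow P)
  have h1 : N ≤ (frattini ↥(P : Subgroup G)).map (P : Subgroup G).subtype := fun y hy => ⟨⟨y, hNP hy⟩, h hy, rfl⟩
  have h2 := Subgroup.normal_le_normalCore.mpr h1
  rw [hfrat, le_bot_iff] at h2
  exact hN1 h2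

/-- the abelian case: `O_p(G)` is minimal normal -/
theorem pCore_eq {G : Type*} [Group G] [Finite G] (p : ℕ) [hp : Fact p.Prime] (P : Sylow p G)
    (hgen : (frattini ↥(P : Subgroup G)).index = p ^ 2) (hcore : Cfsg.pPrimeCore p G = ⊥)
    (hfrat : ((frattini ↥(P : Subgroup G)).map (P : Subgroup G).subtype).normalCore = ⊥) (N : Subgroup G) (hN : N.Normal)
    (hN1 : N ≠ ⊥) (hmin : ∀ M : Subgroup G, M.Normal → M ≠ ⊥ → N ≤ M) (hNV : N ≤ Cfsg.pCore p G) :
    Cfsg.pCore p G = N := by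
  obtain ⟨V, hV⟩ : ∃ V, V = Cfsg.pCore p G := ⟨_, rfl⟩
  have hVn : V.Normal := hV ▸ inferInstance
  have hVP : V ≤ (P : Subgroup G) := hV ▸ H1.pCore_le_sylow P
  rw [← hV] at hNV ⊢
  have hnf := normal_facts p P hgen hcore hfrat
  have hPc : ∀ y ∈ ⁅(P : Subgroup G), (P : Subgroup G)⁆, ∀ hy : y ∈ (P : Subgroup G), (⟨y, hy⟩ : (P : Subgroup G)) ∈ frattini ↥(P : Subgroup G) := by
    intro y hy hyP
    have h1 : ⁅(P : Subgroup G), (P : Subgroup G)⁆ = (commutator ↥(P : Subgroup G)).map (P : Subgroup G).subtype := by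
      rw [commutator_def, Subgroup.map_commutator, ← MonoidHom.range_eq_map, Subgroup.range_subtype]
    rw [h1] at hy
    obtain ⟨z, hz, rfl⟩ := hy
    exact H2.commutator_le_frattini P.isPGroup' hz
  -- V is commutative
  have hVc : ⁅V, V⁆ = ⊥ := by
    by_contra h
    have hn : (⁅V, V⁆ : Subgroup G).Normal := inferInstance
    apply hnf _ hn h
    intro y hy
    exact hPc y (Subgroup.commutator_mono hVP hVP (Subgroup.mem_subgroupOf.mp hy)) y.2
  have hVcomm : ∀ a ∈ V, ∀ b ∈ V, a * b = b * a := by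
    intro a ha b hb
    exact (Subgroup.mem_centralizer_iff.mp (Subgroup.commutator_eq_bot_iff_le_centralizer.mp hVc hb) a ha)
  -- V has exponent p
  have hVexp : ∀ v ∈ V, v ^ p = 1 := by
    have hn : (Subgroup.closure {y : G | ∃ v ∈ V, y = v ^ p}).Normal := by
      refine ⟨fun n hn g => ?_⟩
      induction hn using Subgroup.closure_induction with
      | mem s hs =>
        obtain ⟨v, hv, rfl⟩ := hs
        refine Subgroup.subset_closure ⟨g * v * g⁻¹, hVn.conj_mem v hv g, ?_⟩
        rw [conj_pow]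
      | one => rw [mul_one, mul_inv_cancel]; exact one_mem _
      | mul a b _ _ ha hb =>
        have := mul_mem ha hb
        have e : g * a * g⁻¹ * (g * b * g⁻¹) = g * (a * b) * g⁻¹ := by group
        rwa [e] at this
      | inv a _ ha =>
        have := inv_mem ha
        have e : (g * a * g⁻¹)⁻¹ = g * a⁻¹ * g⁻¹ := by group
        rwa [e] at this
    intro v hv
    by_contra hne
    refine hnf _ hn (fun h => hne ?_) ?_
    · have : v ^ p ∈ Subgroup.closure {y : G | ∃ v ∈ V, y = v ^ p} := Subgroup.subset_closure ⟨v, hv, rfl⟩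
      rwa [h, Subgroup.mem_bot] at this
    · have h1 : Subgroup.closure {y : G | ∃ v ∈ V, y = v ^ p} ≤ (frattini ↥(P : Subgroup G)).map (P : Subgroup G).subtype := by
        rw [Subgroup.closure_le]
        rintro y ⟨w, hw, rfl⟩
        exact ⟨⟨w, hVP hw⟩ ^ p, H2.pow_mem_frattini P.isPGroup' _, rfl⟩
      intro y hy
      obtain ⟨z, hz, hzy⟩ := h1 (Subgroup.mem_subgroupOf.mp hy)
      have : z = y := Subtype.ext hzy
      rw [← this]; exact hz
  by_contra hne
  obtain ⟨v, hvV, hvN⟩ : ∃ v ∈ V, v ∉ N := by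
    by_contra hno
    push Not at hno
    exact hne (le_antisymm hno hNV)
  obtain ⟨⟨x, hxP, hPx⟩, -⟩ := gen_of P hgen N (hnf N hN hN1)
  have hNP := hNV.trans hVP
  have hdec : ∀ y ∈ (P : Subgroup G), ∃ k : ℤ, ∃ n ∈ N, y = x ^ k * n := by
    intro y hy
    obtain ⟨a, ha, n, hn, rfl⟩ := Subgroup.mem_sup_of_normal_right.mp ((hPx.trans (sup_le_sup_left (inf_le_left) _)) hy)
    obtain ⟨k, rfl⟩ := Subgroup.mem_zpowers_iff.mp ha
    exact ⟨k, n, hn, rfl⟩
  obtain ⟨k, n, hn, hvk⟩ := hdec v (hVP hvV)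
  have hcV : x ^ k ∈ V := by
    have : x ^ k = v * n⁻¹ := by rw [hvk]; group
    rw [this]; exact mul_mem hvV (inv_mem (hNV hn))
  have hcN : x ^ k ∉ N := fun h => hvN (by rw [hvk]; exact mul_mem h hn)
  have hc1 : x ^ k ≠ 1 := fun h => hcN (h ▸ one_mem _)
  have hcord : orderOf (x ^ k) = p := orderOf_eq_prime (hVexp _ hcV) hc1
  have hdisj : zpowers x ⊓ N = ⊥ := by
    rw [eq_bot_iff]
    intro w hw
    rw [Subgroup.mem_bot]
    by_contra hw1
    have hword : orderOf w = p := orderOf_eq_prime (hVexp _ (hNV hw.2)) hw1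
    have h1 : zpowers w ≤ zpowers x := zpowers_le.mpr hw.1
    have h2 : zpowers (x ^ k) ≤ zpowers x := zpowers_le.mpr (Subgroup.mem_zpowers_iff.mpr ⟨k, rfl⟩)
    have h3 : Nat.card ((zpowers w).subgroupOf (zpowers x)) = Nat.card ((zpowers (x ^ k)).subgroupOf (zpowers x)) := by
      rw [H1.card_subgroupOf h1, H1.card_subgroupOf h2, Nat.card_zpowers, Nat.card_zpowers, hword, hcord]
    have h4 := H2.eq_of_card_eq_of_isCyclic h3
    have h5 : zpowers w = zpowers (x ^ k) := by
      rw [← Subgroup.map_subgroupOf_eq_of_le h1, h4, Subgroup.map_subgroupOf_eq_of_le h2]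
    apply hcN
    have h6 : x ^ k ∈ zpowers w := h5 ▸ mem_zpowers _
    exact (zpowers_le.mpr hw.2 : zpowers w ≤ N) h6
  haveI := hN
  haveI hNc : IsMulCommutative N := ⟨⟨fun a b => Subtype.ext (hVcomm a (hNV a.2) b (hNV b.2))⟩⟩
  have hcop : (Nat.card N).Coprime (P : Subgroup G).index := by
    obtain ⟨j, hj⟩ := IsPGroup.iff_card.mp (P.isPGroup'.to_le hNP)
    rw [hj]
    exact Nat.Coprime.pow_left j ((Nat.Prime.coprime_iff_not_dvd hp.out).mpr P.not_dvd_index)
  obtain ⟨H, hH⟩ := H1.gaschutz_exists N (P : Subgroup G) (zpowers x) hNP hcop (zpowers_le.mpr hxP) hdisj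
    (le_antisymm (sup_le hNP (zpowers_le.mpr hxP)) (by
      rw [sup_comm]; exact hPx.trans (sup_le_sup_left inf_le_left _)))
  have hsup := hH.sup_eq_top
  have hnorm : (V ⊓ H).Normal := by
    refine ⟨fun u hu g => ?_⟩
    have hg : g ∈ N ⊔ H := hsup ▸ Subgroup.mem_top g
    obtain ⟨m, hm, h, hh, rfl⟩ := Subgroup.mem_sup_of_normal_left.mp hg
    have h1 : h * u * h⁻¹ ∈ V ⊓ H := Subgroup.mem_inf.mpr ⟨hVn.conj_mem _ hu.1 h, H.mul_mem (H.mul_mem hh hu.2) (H.inv_mem hh)⟩
    have h2 : m * h * u * (m * h)⁻¹ = h * u * h⁻¹ := by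
      have h3 := hVcomm m (hNV hm) _ h1.1
      have h4 : m * h * u * (m * h)⁻¹ = m * (h * u * h⁻¹) * m⁻¹ := by group
      rw [h4, h3]; group
    rw [h2]; exact h1
  have hne2 : V ⊓ H ≠ ⊥ := by
    intro hb
    have hg : v ∈ N ⊔ H := hsup ▸ Subgroup.mem_top v
    obtain ⟨m, hm, h, hh, hmh⟩ := Subgroup.mem_sup_of_normal_left.mp hg
    have h1 : h ∈ V ⊓ H := by
      refine Subgroup.mem_inf.mpr ⟨?_, hh⟩
      have : h = m⁻¹ * v := by rw [← hmh]; group
      rw [this]; exact V.mul_mem (V.inv_mem (hNV hm)) hvV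
    rw [hb, Subgroup.mem_bot] at h1
    apply hvN
    rw [← hmh, h1, mul_one]; exact hm
  have h7 := hmin _ hnorm hne2
  have h8 : N ⊓ H = N := inf_eq_left.mpr (h7.trans inf_le_right)
  have h9 : N ⊓ H = ⊥ := disjoint_iff.mp hH.disjoint
  exact hN1 (h8.symm.trans h9)

/-- a perfect group with abelian Sylow `p`-subgroup has no central `p`-subgroup -/
theorem central_inf {K : Type*} [Group K] [Finite K] {p : ℕ} [Fact p.Prime] (hperf : commutator K = ⊤) (Q : Sylow p K)
    (hQ : IsMulCommutative (Q : Subgroup K)) {Z : Subgroup K} (hZ : Z ≤ center K) (hZQ : Z ≤ Q) : Z = ⊥ := by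
  have h1 := H2.commutator_inf_sylow_eq_of_abelian Q hQ
  rw [hperf, top_inf_eq] at h1
  have h2 := (H2.sylow_abelian_decomp Q hQ).2
  rw [← h1] at h2
  rw [eq_bot_iff, ← h2]
  exact le_inf hZQ (le_inf hZQ (hZ.trans (Subgroup.center_le_centralizer _)))

theorem caseA {G : Type*} [Group G] [Finite G] (p : ℕ) [hp : Fact p.Prime] (P : Sylow p G)
    (N : Subgroup G) (hN : N.Normal) (hN1 : N ≠ ⊥) (hNV : N ≤ Cfsg.fittingSubgroup G) (hNP : N ≤ (P : Subgroup G))
    (hmin : ∀ M : Subgroup G, M.Normal → M ≠ ⊥ → N ≤ M) (hNc : ∀ a ∈ N, ∀ b ∈ N, a * b = b * a)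
    {x : G} (hx : (P : Subgroup G) ≤ zpowers x ⊔ (N ⊓ (P : Subgroup G))) : Cfsg.layer G = ⊥ := by
  by_contra hE
  have hEn := H10.layer_normal G
  have hNE : N ≤ Cfsg.layer G := hmin _ hEn hE
  have hcomm : ∀ a ∈ N, ∀ b ∈ Cfsg.layer G, a * b = b * a := fun a ha b hb =>
    Subgroup.mem_centralizer_iff.mp (H10.layer_le_centralizer_fitting hb) a (hNV ha)
  have hdec : ∀ y ∈ (P : Subgroup G), ∃ k : ℤ, ∃ n ∈ N, y = x ^ k * n := by
    intro y hy
    obtain ⟨a, ha, n, hn, rfl⟩ := Subgroup.mem_sup_of_normal_right.mp ((hx.trans (sup_le_sup_left (inf_le_left) _)) hy)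
    obtain ⟨k, rfl⟩ := Subgroup.mem_zpowers_iff.mp ha
    exact ⟨k, n, hn, rfl⟩
  have hPE : ∀ a ∈ (P : Subgroup G), a ∈ Cfsg.layer G → ∀ b ∈ (P : Subgroup G), b ∈ Cfsg.layer G → a * b = b * a := by
    intro a haP haE b hbP hbE
    obtain ⟨k, n, hn, rfl⟩ := hdec a haP
    obtain ⟨l, m, hm, rfl⟩ := hdec b hbP
    have h1 : x ^ k ∈ Cfsg.layer G := by
      have := mul_mem haE (inv_mem (hNE hn))
      rwa [mul_inv_cancel_right] at this
    have h2 : x ^ l ∈ Cfsg.layer G := by
      have := mul_mem hbE (inv_mem (hNE hm))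
      rwa [mul_inv_cancel_right] at this
    calc x^k * n * (x^l * m) = x^k * (n * x^l) * m := by group
      _ = x^k * (x^l * n) * m := by rw [hcomm n hn _ h2]
      _ = (x^k * x^l) * (n * m) := by group
      _ = (x^l * x^k) * (m * n) := by rw [← zpow_add, ← zpow_add, add_comm, hNc n hn m hm]
      _ = x^l * (x^k * m) * n := by group
      _ = x^l * (m * x^k) * n := by rw [hcomm m hm _ h1]
      _ = x^l * m * (x^k * n) := by group
  obtain ⟨Q⟩ : Nonempty (Sylow p (Cfsg.layer G)) := inferInstance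
  obtain ⟨S, hS⟩ := IsPGroup.exists_le_sylow (Q.isPGroup'.map (Cfsg.layer G).subtype)
  obtain ⟨g, hg⟩ := MulAction.exists_smul_eq G P S
  have hmem : ∀ a : Cfsg.layer G, a ∈ (Q : Subgroup (Cfsg.layer G)) → g⁻¹ * a * g ∈ (P : Subgroup G) := by
    intro a ha
    have h1 : (a : G) ∈ (S : Subgroup G) := hS ⟨a, ha, rfl⟩
    rw [← hg, Sylow.coe_subgroup_smul, Subgroup.mem_pointwise_smul_iff_inv_smul_mem] at h1
    have h2 : (MulAut.conj g)⁻¹ • (a : G) = g⁻¹ * a * g := by
      rw [← map_inv, MulAut.smul_def, MulAut.conj_apply, inv_inv]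
    rwa [h2] at h1
  have hEg : ∀ a ∈ Cfsg.layer G, g⁻¹ * a * g ∈ Cfsg.layer G := by
    intro a ha
    have := hEn.conj_mem a ha g⁻¹
    rwa [inv_inv] at this
  have hQ : IsMulCommutative (Q : Subgroup (Cfsg.layer G)) := by
    refine ⟨⟨fun a b => Subtype.ext (Subtype.ext ?_)⟩⟩
    have h1 := hPE _ (hmem a.1 a.2) (hEg _ a.1.2) _ (hmem b.1 b.2) (hEg _ b.1.2)
    have h2 : g⁻¹ * ((a : Cfsg.layer G) * (b : Cfsg.layer G) : G) * g = g⁻¹ * ((b : Cfsg.layer G) * (a : Cfsg.layer G) : G) * g := by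
      calc g⁻¹ * ((a : Cfsg.layer G) * (b : Cfsg.layer G) : G) * g = (g⁻¹ * (a : Cfsg.layer G) * g) * (g⁻¹ * (b : Cfsg.layer G) * g) := by group
        _ = (g⁻¹ * (b : Cfsg.layer G) * g) * (g⁻¹ * (a : Cfsg.layer G) * g) := h1
        _ = _ := by group
    exact mul_left_cancel (mul_right_cancel h2)
  have hperf : commutator (Cfsg.layer G) = ⊤ := by
    have h1 : (commutator ↥(Cfsg.layer G)).map (Cfsg.layer G).subtype = (⊤ : Subgroup (Cfsg.layer G)).map (Cfsg.layer G).subtype := by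
      rw [commutator_def, Subgroup.map_commutator, ← MonoidHom.range_eq_map, Subgroup.range_subtype, H10.layer_perfect]
    exact Subgroup.map_injective (Cfsg.layer G).subtype_injective h1
  have hZn : (N.subgroupOf (Cfsg.layer G)).Normal := inferInstance
  have hZ : N.subgroupOf (Cfsg.layer G) ≤ (Q : Subgroup (Cfsg.layer G)) := by
    refine (H1.le_pCore hZn ?_).trans (H1.pCore_le_sylow Q)
    exact (P.isPGroup'.to_le hNP).of_equiv (Subgroup.subgroupOfEquivOfLe hNE).symm
  have h3 := central_inf hperf Q hQ (Z := N.subgroupOf (Cfsg.layer G)) (by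
    intro z hz
    rw [Subgroup.mem_center_iff]
    intro y
    exact Subtype.ext (hcomm _ (Subgroup.mem_subgroupOf.mp hz) _ y.2).symm) hZ
  rw [Subgroup.subgroupOf_eq_bot] at h3
  exact hN1 (disjoint_self.mp (h3.mono_right hNE))

theorem le_normalizer_of {G : Type*} [Group G] {P A : Subgroup G} (h : ∀ x ∈ P, ∀ a ∈ A, x * a * x⁻¹ ∈ A) :
    P ≤ Subgroup.normalizer (A : Set G) := by
  intro x hx
  rw [Subgroup.mem_normalizer_iff]
  intro a
  refine ⟨h x hx a, fun h' => ?_⟩
  have := h x⁻¹ (inv_mem hx) _ h'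
  have e : x⁻¹ * (x * a * x⁻¹) * x⁻¹⁻¹ = a := by group
  rwa [e] at this

theorem map_conj_map {G : Type*} [Group G] (K : Subgroup G) (x y : G) :
    (K.map (MulAut.conj x).toMonoidHom).map (MulAut.conj y).toMonoidHom = K.map (MulAut.conj (y * x)).toMonoidHom := by
  rw [Subgroup.map_map]
  congr 1
  ext z
  simp [mul_assoc]

theorem trans_aux {G : Type*} [Group G] [Finite G] (p : ℕ) [hp : Fact p.Prime] (P : Sylow p G) (hna : ¬ IsMulCommutative (P : Subgroup G))
    (hgen : (frattini ↥(P : Subgroup G)).index = p ^ 2) (hcore : Cfsg.pPrimeCore p G = ⊥)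
    (hC : Subgroup.centralizer ((Cfsg.layer G : Subgroup G) : Set G) = ⊥)
    (K L : Subgroup G) (hK : Cfsg.IsComponent K) (hL : Cfsg.IsComponent L) :
    ∃ x ∈ (P : Subgroup G), L = K.map (MulAut.conj x).toMonoidHom := by
  by_contra hno
  have hEn := H10.layer_normal G
  have key : ∀ T : Set (Subgroup G), (∀ M ∈ T, Cfsg.IsComponent M) →
      (∀ M ∈ T, ∀ x ∈ (P : Subgroup G), M.map (MulAut.conj x).toMonoidHom ∈ T) → T.Nonempty →
      ⁅(P : Subgroup G), (P : Subgroup G)⁆ ≤ sSup T := by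
    intro T hT1 hT2 hT3
    obtain ⟨A, hA⟩ : ∃ A, A = sSup T := ⟨_, rfl⟩
    rw [← hA]
    have hAE : A ≤ Cfsg.layer G := by
      rw [hA]; exact sSup_le fun M hM => H10.le_layer (hT1 M hM)
    have hEA : Cfsg.layer G ≤ Subgroup.normalizer (A : Set G) := by
      apply le_normalizer_of
      intro g hg
      have h1 : A ≤ A.comap (MulAut.conj g).toMonoidHom := by
        conv_lhs => rw [hA]
        refine sSup_le fun M hM m hm => ?_
        have h2 := (Subgroup.mem_normalizer_iff.mp (H10.layer_le_normalizer_comp (hT1 M hM) hg) m).mp hm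
        have h3 : M ≤ A := hA ▸ le_sSup hM
        exact h3 h2
      exact fun a ha => h1 ha
    have hPA : (P : Subgroup G) ≤ Subgroup.normalizer (A : Set G) := by
      apply le_normalizer_of
      intro g hg
      have h1 : A ≤ A.comap (MulAut.conj g).toMonoidHom := by
        conv_lhs => rw [hA]
        refine sSup_le fun M hM => ?_
        rw [← Subgroup.map_le_iff_le_comap]
        rw [hA]
        exact le_sSup (hT2 M hM g hg)
      exact fun a ha => h1 ha
    obtain ⟨X, hX⟩ : ∃ X, X = Cfsg.layer G ⊔ (P : Subgroup G) := ⟨_, rfl⟩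
    have hPX : (P : Subgroup G) ≤ X := hX ▸ le_sup_right
    have hAX : A ≤ X := hX ▸ hAE.trans le_sup_left
    have hXN : X ≤ Subgroup.normalizer (A : Set G) := hX ▸ sup_le hEA hPA
    haveI hAn : (A.subgroupOf X).Normal := Subgroup.normal_subgroupOf_of_le_normalizer hXN
    have hAs : A.IsSubnormal := by
      refine Subgroup.IsSubnormal.step A (Cfsg.layer G) hAE hEn.isSubnormal ?_
      exact Subgroup.normal_subgroupOf_of_le_normalizer hEA
    obtain ⟨P', hP'⟩ : ∃ P', P' = P.subtype hPX := ⟨_, rfl⟩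
    have hP'c : (P' : Subgroup X) = (P : Subgroup G).subgroupOf X := by rw [hP']; rfl
    have hgen' : (frattini ↥(P' : Subgroup X)).index = p ^ 2 := by
      rw [hP'c, ← hgen]
      exact frattini_index_equiv (Subgroup.subgroupOfEquivOfLe hPX)
    have hnot : ¬ (A.subgroupOf X).subgroupOf (P' : Subgroup X) ≤ frattini ↥(P' : Subgroup X) := by
      intro h
      have h1 := pnil_of P' (A.subgroupOf X) h
      have h2 := isPGroup_of_pnil hcore hAs (Subgroup.subgroupOfEquivOfLe hAX) h1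
      have h3 : IsPGroup p A := h2.of_equiv (Subgroup.subgroupOfEquivOfLe hAX)
      obtain ⟨M, hM⟩ := hT3
      have h4 : IsPGroup p M := h3.to_le (hA ▸ le_sSup hM)
      have h5 : Group.IsNilpotent M := h4.isNilpotent
      exact H10.qs_not_solvable (hT1 M hM).2 inferInstance
    have h6 := (gen_of P' hgen' (A.subgroupOf X) hnot).2
    rw [Subgroup.commutator_le]
    intro a ha b hb
    have h7 : ⁅(⟨a, hPX ha⟩ : X), ⟨b, hPX hb⟩⁆ ∈ ⁅(P' : Subgroup X), (P' : Subgroup X)⁆ :=
      Subgroup.commutator_mem_commutator (by rw [hP'c]; exact ha) (by rw [hP'c]; exact hb)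
    exact h6 h7
  obtain ⟨T1, hT1⟩ : ∃ T1 : Set (Subgroup G), T1 = {M | ∃ x ∈ (P : Subgroup G), M = K.map (MulAut.conj x).toMonoidHom} := ⟨_, rfl⟩
  obtain ⟨T2, hT2⟩ : ∃ T2 : Set (Subgroup G), T2 = {M | Cfsg.IsComponent M ∧ ¬ ∃ x ∈ (P : Subgroup G), M = K.map (MulAut.conj x).toMonoidHom} := ⟨_, rfl⟩
  have hT1c : ∀ M ∈ T1, Cfsg.IsComponent M := by
    intro M hM
    rw [hT1] at hM
    obtain ⟨x, -, rfl⟩ := hM
    exact H10.component_map_equiv (MulAut.conj x) hK
  have hT2c : ∀ M ∈ T2, Cfsg.IsComponent M := by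
    intro M hM
    rw [hT2] at hM
    exact hM.1
  have h1 := key T1 hT1c (by
    intro M hM y hy
    rw [hT1] at hM ⊢
    obtain ⟨x, hx, rfl⟩ := hM
    exact ⟨y * x, mul_mem hy hx, map_conj_map K x y⟩) ⟨K, by
      rw [hT1]
      refine ⟨1, one_mem _, ?_⟩
      ext z
      simp⟩
  have h2 := key T2 hT2c (by
    intro M hM y hy
    rw [hT2] at hM ⊢
    refine ⟨H10.component_map_equiv (MulAut.conj y) hM.1, ?_⟩
    rintro ⟨x, hx, hxM⟩
    apply hM.2
    refine ⟨y⁻¹ * x, mul_mem (inv_mem hy) hx, ?_⟩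
    rw [← map_conj_map, ← hxM, map_conj_map, inv_mul_cancel]
    ext z
    simp) ⟨L, by rw [hT2]; exact ⟨hL, hno⟩⟩
  have hAB : ⁅sSup T1, sSup T2⁆ = ⊥ := by
    apply H10.commutator_sSup_eq_bot
    intro M2 hM2
    rw [Subgroup.commutator_comm]
    apply H10.commutator_sSup_eq_bot
    intro M1 hM1
    refine H10.comp_commutes (hT2c M2 hM2) (hT1c M1 hM1) ?_
    rintro rfl
    rw [hT2] at hM2
    rw [hT1] at hM1
    exact hM2.2 hM1
  have hbot : sSup T1 ⊓ sSup T2 = ⊥ := by
    rw [eq_bot_iff, ← hC, ← Subgroup.commutator_eq_bot_iff_le_centralizer]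
    apply H10.commutator_sSup_eq_bot
    intro M hM
    by_cases hM1 : M ∈ T1
    · rw [eq_bot_iff, ← hAB, Subgroup.commutator_comm]
      exact Subgroup.commutator_mono (le_sSup hM1) inf_le_right
    · have hM2 : M ∈ T2 := by
        rw [hT2]
        rw [hT1] at hM1
        exact ⟨hM, hM1⟩
      rw [eq_bot_iff, ← hAB]
      exact Subgroup.commutator_mono inf_le_left (le_sSup hM2)
  have h3 : ⁅(P : Subgroup G), (P : Subgroup G)⁆ = ⊥ := by
    rw [eq_bot_iff, ← hbot]
    exact le_inf h1 h2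
  apply hna
  exact ⟨⟨fun a b => Subtype.ext
    (Subgroup.mem_centralizer_iff.mp (Subgroup.commutator_eq_bot_iff_le_centralizer.mp h3 b.2) a a.2)⟩⟩

theorem struct {G : Type*} [Group G] [Finite G] (p : ℕ) [hp : Fact p.Prime] (P : Sylow p G) (hna : ¬ IsMulCommutative (P : Subgroup G))
    (hgen : (frattini ↥(P : Subgroup G)).index = p ^ 2) (hcore : Cfsg.pPrimeCore p G = ⊥)
    (hfrat : ((frattini ↥(P : Subgroup G)).map (P : Subgroup G).subtype).normalCore = ⊥) :
    (Cfsg.generalizedFittingSubgroup G ≠ ⊥ ∧ ∀ K : Subgroup G, K.Normal → K ≠ ⊥ → Cfsg.generalizedFittingSubgroup G ≤ K) ∧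
    (∃ x ∈ (P : Subgroup G), (P : Subgroup G) ≤ zpowers x ⊔ (Cfsg.generalizedFittingSubgroup G ⊓ (P : Subgroup G))) ∧
    (¬ IsMulCommutative (Cfsg.generalizedFittingSubgroup G) → Subgroup.centralizer ((Cfsg.layer G : Subgroup G) : Set G) = ⊥) := by
  have hRne : ⁅(P : Subgroup G), (P : Subgroup G)⁆ ≠ ⊥ := by
    intro h
    apply hna
    exact ⟨⟨fun a b => Subtype.ext
      (Subgroup.mem_centralizer_iff.mp (Subgroup.commutator_eq_bot_iff_le_centralizer.mp h b.2) a a.2)⟩⟩
  obtain ⟨N, hNdef⟩ : ∃ N, N = Subgroup.normalClosure ((⁅(P : Subgroup G), (P : Subgroup G)⁆ : Subgroup G) : Set G) := ⟨_, rfl⟩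
  have hN : N.Normal := hNdef ▸ inferInstance
  have hRN : ⁅(P : Subgroup G), (P : Subgroup G)⁆ ≤ N := hNdef ▸ Subgroup.subset_normalClosure
  have hN1 : N ≠ ⊥ := fun h => hRne (le_bot_iff.mp (h ▸ hRN))
  have hnf := normal_facts p P hgen hcore hfrat
  have hmin : ∀ M : Subgroup G, M.Normal → M ≠ ⊥ → N ≤ M := by
    intro M hM hM1
    rw [hNdef]
    exact Subgroup.normalClosure_le_normal (gen_of P hgen M (hnf M hM hM1)).2
  obtain ⟨x, hxP, hPx⟩ := (gen_of P hgen N (hnf N hN hN1)).1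
  obtain ⟨F, hF⟩ : ∃ F, F = Cfsg.generalizedFittingSubgroup G := ⟨_, rfl⟩
  have hFn : F.Normal := hF ▸ H10.genFitting_normal G
  have hF1 : F ≠ ⊥ := by
    intro h
    have h1 := H10.centralizer_genFitting_le (G := G)
    rw [← hF, h] at h1
    have h2 : (⊤ : Subgroup G) ≤ ⊥ := by
      refine le_trans ?_ h1
      intro y _
      rw [Subgroup.mem_centralizer_iff]
      intro z hz
      have : z = 1 := hz
      rw [this, one_mul, mul_one]
    exact hN1 (le_bot_iff.mp (le_top.trans h2))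
  have hNF : N ≤ F := hmin F hFn hF1
  have hFN : F ≤ N ∧ (¬ IsMulCommutative F → Subgroup.centralizer ((Cfsg.layer G : Subgroup G) : Set G) = ⊥) := by
    by_cases hc : ∀ a ∈ N, ∀ b ∈ N, a * b = b * a
    · -- the abelian case
      have hNfit : N ≤ Cfsg.fittingSubgroup G := by
        have hcc : (⁅N, N⁆ : Subgroup G) = ⊥ := by
          rw [Subgroup.commutator_eq_bot_iff_le_centralizer]
          intro b hb
          rw [Subgroup.mem_centralizer_iff]
          exact fun a ha => hc a ha b hb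
        have hnil : Group.IsNilpotent N := H10.isNilpotent_of_class_two (by rw [hcc, Subgroup.commutator_bot_left])
        exact H1.le_fitting hN hnil
      have hfp := H1.fitting_eq_pCore_of_pPrimeCore_eq_bot p hcore
      have hNp : N ≤ Cfsg.pCore p G := hfp ▸ hNfit
      have hpc := pCore_eq p P hgen hcore hfrat N hN hN1 hmin hNp
      have hE := caseA p P N hN hN1 hNfit (hNp.trans (H1.pCore_le_sylow P)) hmin hc hPx
      have hFN : F = N := by
        rw [hF, Cfsg.generalizedFittingSubgroup, hE, bot_sup_eq, hfp, hpc]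
      refine ⟨hFN.le, fun h => absurd ?_ h⟩
      rw [hFN]
      exact ⟨⟨fun a b => Subtype.ext (hc a a.2 b b.2)⟩⟩
    · have hCN : Subgroup.centralizer (N : Set G) = ⊥ := by
        by_contra h
        have h1 : (Subgroup.centralizer (N : Set G)).Normal := inferInstance
        have h2 := hmin _ h1 h
        exact hc fun a ha b hb => Subgroup.mem_centralizer_iff.mp (h2 hb) a ha
      have hfit : Cfsg.fittingSubgroup G = ⊥ := by
        by_contra h
        have h1 : (Cfsg.fittingSubgroup G).Normal := inferInstance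
        have h2 := hmin _ h1 h
        have h3 : Group.IsNilpotent (Cfsg.fittingSubgroup G) := H1.fitting_isNilpotent G
        have h4 : Group.IsNilpotent N := Group.nilpotent_of_mulEquiv (Subgroup.subgroupOfEquivOfLe h2)
        have h5 := H1.commutator_lt_of_nilpotent h4 le_rfl (Subgroup.commutator_le_self N) hN1
        have h6 : (⁅N, N⁆ : Subgroup G) = ⊥ := by
          by_contra h7
          have h8 : (⁅N, N⁆ : Subgroup G).Normal := inferInstance
          exact absurd (hmin _ h8 h7) (not_le_of_gt h5)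
        exact hc fun a ha b hb => (Subgroup.mem_centralizer_iff.mp (Subgroup.commutator_eq_bot_iff_le_centralizer.mp h6 hb) a ha)
      have hlay : Cfsg.layer G ≤ N := by
        apply sSup_le
        intro M hM
        rcases H10.comp_le_or_commutes_normal hM hN with h | h
        · exact h
        · rw [Subgroup.commutator_comm, Subgroup.commutator_eq_bot_iff_le_centralizer, hCN] at h
          exact absurd (le_bot_iff.mp h) (H10.comp_ne_bot hM)
      have hFl : F = Cfsg.layer G := by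
        rw [hF, Cfsg.generalizedFittingSubgroup, hfit, sup_bot_eq]
      refine ⟨hFl ▸ hlay, fun _ => ?_⟩
      have : Cfsg.layer G = N := le_antisymm hlay (hFl ▸ hNF)
      rw [this, hCN]
  have hFN' : F = N := le_antisymm hFN.1 hNF
  rw [← hF]
  refine ⟨⟨hF1, fun K hK hK1 => hFN' ▸ hmin K hK hK1⟩, ⟨x, hxP, hFN'.symm ▸ hPx⟩, hFN.2⟩

/-- Let p be a prime and G a finite group with a non-commutative Sylow p-subgroup P whose Frattini subgroup has index p² in P (P is generated by two elements). Suppose G has no nontrivial normal subgroup of order prime to p and the Frattini subgroup of P contains no nontrivial normal subgroup of G. Then the generalized Fitting subgroup F*(G) is the unique minimal normal subgroup of G, the image of P in G/F*(G) is cyclic, and if F*(G) is not commutative then P permutes the components of G transitively by conjugation. -/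
theorem result {G : Type*} [Group G] [Finite G] (p : ℕ) [Fact p.Prime] (P : Sylow p G) (hna : ¬ IsMulCommutative (P : Subgroup G)) (hgen : (frattini ↥(P : Subgroup G)).index = p ^ 2) (hcore : Cfsg.pPrimeCore p G = ⊥) (hfrat : ((frattini ↥(P : Subgroup G)).map (P : Subgroup G).subtype).normalCore = ⊥) [hFn : (Cfsg.generalizedFittingSubgroup G).Normal] :
    (Cfsg.generalizedFittingSubgroup G ≠ ⊥ ∧ ∀ K : Subgroup G, K.Normal → K ≠ ⊥ → Cfsg.generalizedFittingSubgroup G ≤ K) ∧
      IsCyclic ↥((P : Subgroup G).map (QuotientGroup.mk' (Cfsg.generalizedFittingSubgroup G))) ∧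
      (¬ IsMulCommutative (Cfsg.generalizedFittingSubgroup G) → ∀ K L : Subgroup G, Cfsg.IsComponent K → Cfsg.IsComponent L → ∃ x ∈ (P : Subgroup G), L = K.map (MulAut.conj x).toMonoidHom) := by
  obtain ⟨h1, ⟨x, hxP, hx⟩, h3⟩ := struct p P hna hgen hcore hfrat
  refine ⟨h1, ?_, fun hnc K L hK hL => trans_aux p P hna hgen hcore (h3 hnc) K L hK hL⟩
  have h4 : (P : Subgroup G).map (QuotientGroup.mk' (Cfsg.generalizedFittingSubgroup G)) =
      Subgroup.zpowers (QuotientGroup.mk' (Cfsg.generalizedFittingSubgroup G) x) := by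
    apply le_antisymm
    · rw [Subgroup.map_le_iff_le_comap]
      refine hx.trans (sup_le ?_ ?_)
      · rw [Subgroup.zpowers_le, Subgroup.mem_comap]
        exact Subgroup.mem_zpowers _
      · intro y hy
        rw [Subgroup.mem_comap]
        have : QuotientGroup.mk' (Cfsg.generalizedFittingSubgroup G) y = 1 := (QuotientGroup.eq_one_iff y).mpr hy.1
        rw [this]; exact one_mem _
    · rw [Subgroup.zpowers_le]
      exact Subgroup.mem_map_of_mem _ hxP
  rw [h4]
  infer_instance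

end Cfsg.Agent.S4172
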