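import Cfsg.Statements.S4177
import Mathlib
import Cfsg.Agent.H1.Sylow

set_option autoImplicit false
open Cfsg

namespace Cfsg.Agent.S4177

/-- Let k be a field whose characteristic does not divide the order of the finite group H (for instance a field of characteristic zero), and ρ a k-linear representation of H on V. Let a be a vector whose H-orbit spans V. Then the space of H-fixed vectors has dimension at most 1, and every vector b whose H-orbit has size coprime to the size of the orbit of a is fixed by H. -/
theorem result {k V H : Type*} [Field k] [AddCommGroup V] [Module k V] [Group H] [Finite H]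
    (hchar : ¬ ringChar k ∣ Nat.card H) (ρ : Representation k H V) (a : V)
    (hspan : Submodule.span k {u : V | ∃ h : H, ρ h a = u} = ⊤) :
    Module.finrank k ρ.invariants ≤ 1 ∧
    ∀ b : V, (Nat.card {u : V | ∃ h : H, ρ h a = u}).Coprime (Nat.card {u : V | ∃ h : H, ρ h b = u}) → ∀ h : H, ρ h b = b := by
  classical
  have := Fintype.ofFinite H
  have hcharp : CharP k (ringChar k) := ringChar.charP k
  have hcast : ∀ n : ℕ, n ∣ Nat.card H → (n : k) ≠ 0 := by
    intro n hn h0
    rw [CharP.cast_eq_zero_iff k (ringChar k)] at h0
    exact hchar (h0.trans hn)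
  have hHne : (Nat.card H : k) ≠ 0 := hcast _ dvd_rfl
  -- total sum
  set T : V := ∑ g : H, ρ g a with hT
  have hTfix : ∀ h : H, ρ h T = T := by
    intro h
    rw [hT, map_sum]
    have := Equiv.sum_comp (Equiv.mulLeft h) (fun g => ρ g a)
    rw [← this]
    apply Finset.sum_congr rfl
    intro g _
    show ρ h (ρ g a) = ρ (h * g) a
    rw [map_mul]; rfl
  have hTu : ∀ h : H, ∑ g : H, ρ g (ρ h a) = T := by
    intro h
    rw [hT]
    have := Equiv.sum_comp (Equiv.mulRight h) (fun g => ρ g a)
    rw [← this]
    apply Finset.sum_congr rfl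
    intro g _
    show ρ g (ρ h a) = ρ (g * h) a
    rw [map_mul]; rfl
  constructor
  · -- invariants are spanned by `T`
    apply finrank_le_one (⟨T, hTfix⟩ : ρ.invariants)
    rintro ⟨w, hw⟩
    have hw' : ∀ h : H, ρ h w = w := hw
    have h1 : ∀ v ∈ Submodule.span k {u : V | ∃ h : H, ρ h a = u}, ∃ c : k,
        ∑ g : H, ρ g v = c • T := by
      intro v hv
      induction hv using Submodule.span_induction with
      | mem x hx =>
        obtain ⟨h, rfl⟩ := hx
        exact ⟨1, by rw [hTu, one_smul]⟩
      | zero => exact ⟨0, by simp⟩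
      | add x y _ _ hx hy =>
        obtain ⟨c, hc⟩ := hx
        obtain ⟨d, hd⟩ := hy
        exact ⟨c + d, by simp only [map_add, Finset.sum_add_distrib, hc, hd, add_smul]⟩
      | smul r x _ hx =>
        obtain ⟨c, hc⟩ := hx
        exact ⟨r * c, by simp only [map_smul, ← Finset.smul_sum, hc, mul_smul]⟩
    obtain ⟨c, hc⟩ := h1 w (by rw [hspan]; trivial)
    have h2 : ∑ g : H, ρ g w = (Nat.card H : k) • w := by
      rw [Finset.sum_congr rfl (fun g _ => hw' g), Finset.sum_const, Finset.card_univ,
        Nat.card_eq_fintype_card, Nat.cast_smul_eq_nsmul]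
    refine ⟨(Nat.card H : k)⁻¹ * c, ?_⟩
    apply Subtype.ext
    show ((Nat.card H : k)⁻¹ * c) • T = w
    rw [mul_smul, ← hc, h2, smul_smul, inv_mul_cancel₀ hHne, one_smul]
  · intro b hcop
    -- stabilizers
    let St : V → Subgroup H := fun v =>
      { carrier := {h | ρ h v = v}
        one_mem' := by show ρ 1 v = v; rw [map_one]; rfl
        mul_mem' := by
          intro x y hx hy
          show ρ (x * y) v = v
          rw [map_mul]
          show ρ x (ρ y v) = v
          have hx' : ρ x v = v := hx
          have hy' : ρ y v = v := hy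
          rw [hy', hx']
        inv_mem' := by
          intro x hx
          have hx' : ρ x v = v := hx
          show ρ x⁻¹ v = v
          nth_rewrite 1 [← hx']
          rw [← Module.End.mul_apply, ← map_mul, inv_mul_cancel, map_one]; rfl }
    have hSt : ∀ (v : V) (h : H), h ∈ St v ↔ ρ h v = v := fun v h => Iff.rfl
    have hidx : ∀ v : V, Nat.card {u : V | ∃ h : H, ρ h v = u} = (St v).index := by
      intro v
      symm
      unfold Subgroup.index
      refine Nat.card_congr (Equiv.ofBijective (fun q : H ⧸ St v => (⟨Quotient.liftOn' q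
        (fun h => ρ h v) ?_, ?_⟩ : {u : V | ∃ h : H, ρ h v = u})) ⟨?_, ?_⟩)
      · intro x y hxy
        rw [QuotientGroup.leftRel_apply, hSt] at hxy
        show ρ x v = ρ y v
        rw [map_mul] at hxy
        have h1 : ρ x (ρ x⁻¹ (ρ y v)) = ρ x v := congrArg (ρ x) hxy
        rw [← h1, ← Module.End.mul_apply, ← map_mul, mul_inv_cancel, map_one]; rfl
      · induction q using QuotientGroup.induction_on with
        | H h => exact ⟨h, rfl⟩
      · intro q1 q2
        induction q1 using QuotientGroup.induction_on with
        | H x =>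
          induction q2 using QuotientGroup.induction_on with
          | H y =>
            intro h
            have h' : ρ x v = ρ y v := congrArg Subtype.val h
            rw [QuotientGroup.eq, hSt, map_mul]
            show ρ x⁻¹ (ρ y v) = v
            rw [← h', ← Module.End.mul_apply, ← map_mul, inv_mul_cancel, map_one]; rfl
      · rintro ⟨u, h, rfl⟩
        exact ⟨QuotientGroup.mk h, rfl⟩
    rw [hidx, hidx] at hcop
    have hfac := Cfsg.Agent.H1.factor_of_coprime_index hcop.symm
    -- partial sum over the stabilizer of `b`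
    have hSb : (Nat.card (St b) : k) ≠ 0 := hcast _ (Subgroup.card_subgroup_dvd_card _)
    have hfint : Fintype (St b) := Fintype.ofFinite _
    set w : V := ∑ s : St b, ρ s a with hw
    have hwu : ∀ h : H, ∑ s : St b, ρ s (ρ h a) = w := by
      intro h
      obtain ⟨x, hx, y, hy, rfl⟩ := hfac h
      have h1 : ρ (x * y) a = ρ x a := by
        rw [map_mul]
        show ρ x (ρ y a) = ρ x a
        rw [(hSt a y).1 hy]
      rw [h1, hw]
      have := Equiv.sum_comp (Equiv.mulRight (⟨x, hx⟩ : St b)) (fun s : St b => ρ s a)
      rw [← this]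
      apply Finset.sum_congr rfl
      intro s _
      show ρ s (ρ x a) = ρ ((s : H) * x) a
      rw [map_mul]; rfl
    -- `b` is a multiple of `w`
    have h1 : ∀ v ∈ Submodule.span k {u : V | ∃ h : H, ρ h a = u}, ∃ c : k,
        ∑ s : St b, ρ s v = c • w := by
      intro v hv
      induction hv using Submodule.span_induction with
      | mem x hx =>
        obtain ⟨h, rfl⟩ := hx
        exact ⟨1, by rw [hwu, one_smul]⟩
      | zero => exact ⟨0, by simp⟩
      | add x y _ _ hx hy =>
        obtain ⟨c, hc⟩ := hx
        obtain ⟨d, hd⟩ := hy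
        exact ⟨c + d, by simp only [map_add, Finset.sum_add_distrib, hc, hd, add_smul]⟩
      | smul r x _ hx =>
        obtain ⟨c, hc⟩ := hx
        exact ⟨r * c, by simp only [map_smul, ← Finset.smul_sum, hc, mul_smul]⟩
    obtain ⟨c, hc⟩ := h1 b (by rw [hspan]; trivial)
    have h2 : ∑ s : St b, ρ s b = (Nat.card (St b) : k) • b := by
      rw [Finset.sum_congr rfl (fun (s : St b) _ => (hSt b s).1 s.2), Finset.sum_const,
        Finset.card_univ, Nat.card_eq_fintype_card, Nat.cast_smul_eq_nsmul]
    -- `w` is fixed
    have h3 : (Nat.card H : k) • w = (Nat.card (St b) : k) • T := by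
      have h4 : ∑ s : St b, ρ s T = (Nat.card (St b) : k) • T := by
        rw [Finset.sum_congr rfl (fun (s : St b) _ => hTfix s), Finset.sum_const,
          Finset.card_univ, Nat.card_eq_fintype_card, Nat.cast_smul_eq_nsmul]
      have h5 : ∑ s : St b, ρ s T = ∑ g : H, ∑ s : St b, ρ s (ρ g a) := by
        rw [Finset.sum_comm]
        apply Finset.sum_congr rfl
        intro s _
        rw [hT, map_sum]
      rw [← h4, h5, Finset.sum_congr rfl (fun g _ => hwu g), Finset.sum_const, Finset.card_univ,
        Nat.card_eq_fintype_card, Nat.cast_smul_eq_nsmul]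
    have hwfix : ∀ h : H, ρ h w = w := by
      intro h
      have h4 : (Nat.card H : k) • ρ h w = (Nat.card H : k) • w := by
        rw [← map_smul, h3, map_smul, hTfix]
      have h5 := congrArg (fun v => (Nat.card H : k)⁻¹ • v) h4
      simpa only [smul_smul, inv_mul_cancel₀ hHne, one_smul] using h5
    intro h
    have h4 : (Nat.card (St b) : k) • ρ h b = (Nat.card (St b) : k) • b := by
      rw [← map_smul, ← h2, hc, map_smul, hwfix]
    have h5 := congrArg (fun v => (Nat.card (St b) : k)⁻¹ • v) h4
    simpa only [smul_smul, inv_mul_cancel₀ hSb, one_smul] using h5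

end Cfsg.Agent.S4177
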