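import Cfsg.Statements.S4178
import Mathlib

set_option autoImplicit false
open Cfsg

namespace Cfsg.Agent.S4178

/-- generic bound: an injection of cosets. -/
theorem index_le_of_inj {K : Type*} [Group K] (R S : Subgroup K) (hSR : S ≤ R) {X : Type*} [Finite X]
    (f : K → X) (hf : ∀ a b : K, f a = f b → a⁻¹ * b ∈ S) (hS : ∀ a b : K, a⁻¹ * b ∈ S → f a = f b)
    (x0 : X) (hx0 : ∀ a, f a ≠ x0) : R.index ≤ Nat.card X - 1 := by
  classical
  have h1 : Nat.card {x : X // x ≠ x0} = Nat.card X - 1 := by
    have := Fintype.ofFinite X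
    rw [Nat.card_eq_fintype_card, Nat.card_eq_fintype_card, Fintype.card_subtype_compl,
      Fintype.card_subtype_eq]
  have h2 : S.index ≤ Nat.card {x : X // x ≠ x0} := by
    refine Nat.card_le_card_of_injective
      (fun q : K ⧸ S => Quotient.liftOn' q (fun a => (⟨f a, hx0 a⟩ : {x : X // x ≠ x0})) ?_) ?_
    · intro a b hab
      rw [QuotientGroup.leftRel_apply] at hab
      exact Subtype.ext (hS a b hab)
    · intro q1 q2
      induction q1 using QuotientGroup.induction_on with
      | H a =>
        induction q2 using QuotientGroup.induction_on with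
        | H b =>
          intro h
          rw [QuotientGroup.eq]
          exact hf a b (congrArg Subtype.val h)
  have h3 : S.index ≠ 0 := by
    have : Finite (K ⧸ S) := by
      refine Finite.of_injective
        (fun q : K ⧸ S => Quotient.liftOn' q (fun a => (⟨f a, hx0 a⟩ : {x : X // x ≠ x0})) ?_) ?_
      · intro a b hab
        rw [QuotientGroup.leftRel_apply] at hab
        exact Subtype.ext (hS a b hab)
      · intro q1 q2
        induction q1 using QuotientGroup.induction_on with
        | H a =>
          induction q2 using QuotientGroup.induction_on with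
          | H b =>
            intro h
            rw [QuotientGroup.eq]
            exact hf a b (congrArg Subtype.val h)
    exact Subgroup.index_ne_zero_of_finite
  rw [← h1]
  exact (Nat.le_of_dvd (Nat.pos_of_ne_zero h3) (Subgroup.index_dvd_of_le hSR)).trans h2

/-- Let F be a finite field with q elements, V a non-zero finite-dimensional F-space of dimension d, H a group of invertible linear maps of V, and R the subgroup of H generated by the elements of H that fix some non-zero vector (have eigenvalue 1). Then the index of R in H is at most q^d − 1; and if H leaves invariant some proper non-zero subspace, the index is at most q^(d/2) − 1. -/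
theorem result {F V : Type*} [Field F] [Fintype F] [AddCommGroup V] [Module F V] [FiniteDimensional F V] [Nontrivial V]
    (H : Subgroup (V ≃ₗ[F] V)) :
    (Subgroup.closure {h : ↥H | ∃ v : V, v ≠ 0 ∧ (h : V ≃ₗ[F] V) v = v}).index ≤ Fintype.card F ^ Module.finrank F V - 1 ∧
    ((∃ W : Submodule F V, W ≠ ⊥ ∧ W ≠ ⊤ ∧ ∀ h ∈ H, ∀ w ∈ W, h w ∈ W) →
      ((Subgroup.closure {h : ↥H | ∃ v : V, v ≠ 0 ∧ (h : V ≃ₗ[F] V) v = v}).index : ℝ) ≤ Real.sqrt ((Fintype.card F : ℝ) ^ Module.finrank F V) - 1) := by
  classical
  have : Finite V := Module.finite_of_finite F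
  set R : Subgroup ↥H := Subgroup.closure {h : ↥H | ∃ v : V, v ≠ 0 ∧ (h : V ≃ₗ[F] V) v = v} with hR
  have hcardV : Nat.card V = Fintype.card F ^ Module.finrank F V := by
    rw [Module.natCard_eq_pow_finrank (K := F), Nat.card_eq_fintype_card]
  have hfix : ∀ h : ↥H, (∃ v : V, v ≠ 0 ∧ (h : V ≃ₗ[F] V) v = v) → h ∈ R :=
    fun h hh => Subgroup.subset_closure hh
  -- bound by an orbit of a vector of an invariant subspace
  have hsub : ∀ W : Submodule F V, W ≠ ⊥ → (∀ h ∈ H, ∀ w ∈ W, h w ∈ W) →
      R.index ≤ Nat.card W - 1 := by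
    intro W hW hinv
    obtain ⟨w, hw, hw0⟩ := Submodule.exists_mem_ne_zero_of_ne_bot hW
    let S : Subgroup ↥H :=
      { carrier := {h | (h : V ≃ₗ[F] V) w = w}
        one_mem' := rfl
        mul_mem' := by
          intro a b ha hb
          show (a : V ≃ₗ[F] V) ((b : V ≃ₗ[F] V) w) = w
          have ha' : (a : V ≃ₗ[F] V) w = w := ha
          have hb' : (b : V ≃ₗ[F] V) w = w := hb
          rw [hb', ha']
        inv_mem' := by
          intro a ha
          have ha' : (a : V ≃ₗ[F] V) w = w := ha
          show (a : V ≃ₗ[F] V).symm w = w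
          rw [LinearEquiv.symm_apply_eq]; exact ha'.symm }
    refine index_le_of_inj R S (fun h hh => hfix h ⟨w, hw0, hh⟩)
      (fun h => (⟨(h : V ≃ₗ[F] V) w, hinv h h.2 w hw⟩ : W)) ?_ ?_ 0 ?_
    · intro a b hab
      have hab' : (a : V ≃ₗ[F] V) w = (b : V ≃ₗ[F] V) w := congrArg Subtype.val hab
      show (a : V ≃ₗ[F] V).symm ((b : V ≃ₗ[F] V) w) = w
      rw [← hab', LinearEquiv.symm_apply_apply]
    · intro a b hab
      have hab' : (a : V ≃ₗ[F] V).symm ((b : V ≃ₗ[F] V) w) = w := hab
      apply Subtype.ext
      show (a : V ≃ₗ[F] V) w = (b : V ≃ₗ[F] V) w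
      rw [LinearEquiv.symm_apply_eq] at hab'
      exact hab'.symm
    · intro a h
      apply hw0
      have h' : (a : V ≃ₗ[F] V) w = 0 := congrArg Subtype.val h
      exact (LinearEquiv.map_eq_zero_iff _).1 h'
  constructor
  · have h1 := hsub ⊤ (by exact top_ne_bot) (fun _ _ _ _ => trivial)
    rw [← hcardV]
    have h2 : Nat.card (⊤ : Submodule F V) = Nat.card V := Nat.card_congr (Equiv.Set.univ V)
    rwa [h2] at h1
  · rintro ⟨W, hW0, hW1, hinv⟩
    -- index bounded by `|V / W| - 1`
    have hinv' : ∀ h ∈ H, ∀ v : V, h v ∈ W → v ∈ W := by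
      intro h hh v hv
      have h1 := hinv h⁻¹ (H.inv_mem hh) (h v) hv
      have h2 : h⁻¹ (h v) = v := LinearEquiv.symm_apply_apply h v
      rwa [h2] at h1
    have hquot : R.index ≤ Nat.card (V ⧸ W) - 1 := by
      obtain ⟨v, hv⟩ : ∃ v : V, v ∉ W := by
        by_contra hcon
        push Not at hcon
        exact hW1 (eq_top_iff.2 fun x _ => hcon x)
      let S : Subgroup ↥H :=
        { carrier := {h | (h : V ≃ₗ[F] V) v - v ∈ W}
          one_mem' := by show v - v ∈ W; simp
          mul_mem' := by
            intro a b ha hb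
            show (a : V ≃ₗ[F] V) ((b : V ≃ₗ[F] V) v) - v ∈ W
            have e : (a : V ≃ₗ[F] V) ((b : V ≃ₗ[F] V) v) - v =
                (a : V ≃ₗ[F] V) ((b : V ≃ₗ[F] V) v - v) + ((a : V ≃ₗ[F] V) v - v) := by
              rw [map_sub]; abel
            rw [e]
            exact W.add_mem (hinv a a.2 _ hb) ha
          inv_mem' := by
            intro a ha
            show (a : V ≃ₗ[F] V).symm v - v ∈ W
            apply hinv' a a.2
            rw [map_sub, LinearEquiv.apply_symm_apply, ← neg_sub]
            exact W.neg_mem ha }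
      have hSR : S ≤ R := by
        intro h hh
        apply hfix
        by_contra hcon
        push Not at hcon
        -- `h - 1` injective on `V`, hence bijective on `W`
        let T : W →ₗ[F] W := LinearMap.restrict ((h : V ≃ₗ[F] V).toLinearMap - LinearMap.id) (by
          intro w hw
          exact W.sub_mem (hinv h h.2 w hw) hw)
        have hTinj : Function.Injective T := by
          rw [← LinearMap.ker_eq_bot, LinearMap.ker_eq_bot']
          intro w hw
          by_contra hw0
          have hw' : (h : V ≃ₗ[F] V) (w : V) - (w : V) = 0 := congrArg Subtype.val hw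
          exact hcon w (fun h0 => hw0 (Subtype.ext h0)) (sub_eq_zero.1 hw')
        have hTsurj : Function.Surjective T := LinearMap.injective_iff_surjective.1 hTinj
        obtain ⟨w, hw⟩ := hTsurj ⟨(h : V ≃ₗ[F] V) v - v, hh⟩
        have hw' : (h : V ≃ₗ[F] V) (w : V) - (w : V) = (h : V ≃ₗ[F] V) v - v :=
          congrArg Subtype.val hw
        apply hcon (v - w)
        · intro h0
          apply hv
          rw [sub_eq_zero.1 h0]; exact w.2
        · rw [map_sub]
          have : (h : V ≃ₗ[F] V) v - (h : V ≃ₗ[F] V) (w : V) - (v - w) = 0 := by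
            rw [sub_sub_sub_comm, ← hw']; abel
          exact sub_eq_zero.1 this
      have : Finite (V ⧸ W) := Quotient.finite _
      refine index_le_of_inj R S hSR (fun h => (Submodule.Quotient.mk ((h : V ≃ₗ[F] V) v) : V ⧸ W))
        ?_ ?_ 0 ?_
      · intro a b hab
        rw [Submodule.Quotient.eq] at hab
        show (a : V ≃ₗ[F] V).symm ((b : V ≃ₗ[F] V) v) - v ∈ W
        apply hinv' a a.2
        rw [map_sub, LinearEquiv.apply_symm_apply, ← neg_sub]
        exact W.neg_mem hab
      · intro a b hab
        have hab' : (a : V ≃ₗ[F] V).symm ((b : V ≃ₗ[F] V) v) - v ∈ W := hab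
        rw [Submodule.Quotient.eq]
        have h1 := hinv a a.2 _ hab'
        rw [map_sub, LinearEquiv.apply_symm_apply, ← neg_sub] at h1
        exact (Submodule.neg_mem_iff W).1 h1
      · intro a h
        rw [Submodule.Quotient.mk_eq_zero] at h
        exact hv (hinv' a a.2 v h)
    have hsubW := hsub W hW0 hinv
    have hfinq : Finite (V ⧸ W) := Quotient.finite _
    have hprod : Nat.card V = Nat.card W * Nat.card (V ⧸ W) := by
      exact Submodule.card_eq_card_quotient_mul_card W
    -- conclude
    set a := Nat.card W with ha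
    set b := Nat.card (V ⧸ W) with hb
    have hapos : 0 < a := Nat.card_pos
    have hbpos : 0 < b := Nat.card_pos
    have h3 : (R.index : ℝ) + 1 ≤ a := by
      have : R.index + 1 ≤ a := by omega
      exact_mod_cast this
    have h4 : (R.index : ℝ) + 1 ≤ b := by
      have : R.index + 1 ≤ b := by omega
      exact_mod_cast this
    have h5 : ((Fintype.card F : ℝ) ^ Module.finrank F V) = (a : ℝ) * b := by
      rw [← Nat.cast_mul, ← hprod, hcardV]; push_cast; ring
    rw [h5]
    have h6 : (R.index : ℝ) + 1 ≤ Real.sqrt ((a : ℝ) * b) := by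
      apply Real.le_sqrt_of_sq_le
      have h7 : (0 : ℝ) ≤ (R.index : ℝ) + 1 := by positivity
      nlinarith
    linarith

end Cfsg.Agent.S4178
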