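import Cfsg.Statements.S4184
import Cfsg.Agent.H24.ClassSize2
import Mathlib.Algebra.BigOperators.Associated
import Mathlib.Data.Nat.Factorization.Basic

set_option autoImplicit false
open Cfsg

namespace Cfsg.Agent.S4184

open Subgroup
open scoped Pointwise

/-- Core step: a prime `r` with larger `r`-part in `G` than in `α * β` gives a contradiction. -/
theorem core {G : Type*} [Group G] [Finite G] (α β : ℕ) (hαβ : α.Coprime β)
    (hα0 : α ≠ 0) (hβ0 : β ≠ 0)
    (hor : ∀ x : G, x ≠ 1 → (α ∣ (centralizer ({x} : Set G)).index ∨ β ∣ (centralizer ({x} : Set G)).index))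
    (hnot : ∀ x : G, ¬ (α ∣ (centralizer ({x} : Set G)).index ∧ β ∣ (centralizer ({x} : Set G)).index))
    (hdvd : ∀ x : G, (centralizer ({x} : Set G)).index ∣ α * β)
    (hαG : α ∣ Nat.card G)
    (hexβ : ∃ x : G, β ∣ (centralizer ({x} : Set G)).index)
    (r : ℕ) [Fact r.Prime] (hr : (α * β).factorization r < (Nat.card G).factorization r)
    (z : G) (hz1 : z ≠ 1) (R : Sylow r G) (hzR : z ∈ (R : Subgroup G))
    (hzc : z ∈ centralizer ((R : Subgroup G) : Set G))
    (hzα : α ∣ (centralizer ({z} : Set G)).index) : False := by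
  have hrp : r.Prime := Fact.out
  have hrα : ¬ r ∣ α := fun h =>
    H24.not_dvd_index_of_sylow_centralizes z R hzc (h.trans hzα)
  -- a prime divisor of `α`
  have hα1 : α ≠ 1 := by
    rintro rfl
    obtain ⟨x, hx⟩ := hexβ
    exact hnot x ⟨one_dvd _, hx⟩
  obtain ⟨q, hq, hqα⟩ := Nat.exists_prime_and_dvd hα1
  have : Fact q.Prime := ⟨hq⟩
  have hqr : q ≠ r := by rintro rfl; exact hrα hqα
  obtain ⟨Q⟩ : Nonempty (Sylow q G) := inferInstance
  obtain ⟨y, hyQ, hy1, hyc⟩ := H24.exists_ne_one_mem_sylow_centralizing Q (hqα.trans hαG)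
  have hyq : ¬ q ∣ (centralizer ({y} : Set G)).index := H24.not_dvd_index_of_sylow_centralizes y Q hyc
  have hyα : ¬ α ∣ (centralizer ({y} : Set G)).index := fun h => hyq (hqα.trans h)
  have hyβ : β ∣ (centralizer ({y} : Set G)).index := (hor y hy1).resolve_left hyα
  -- order of y is a power of q
  obtain ⟨k, hk⟩ := (IsPGroup.iff_orderOf.mp Q.isPGroup') ⟨y, hyQ⟩
  have hky : orderOf y = q ^ k := by rw [← hk, Subgroup.orderOf_mk]
  -- Sylow r-subgroup of C(y)
  obtain ⟨S⟩ : Nonempty (Sylow r (centralizer ({y} : Set G))) := inferInstance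
  set R₁ : Subgroup G := (S : Subgroup (centralizer ({y} : Set G))).map (centralizer ({y} : Set G)).subtype with hR₁
  have hR₁p : IsPGroup r R₁ := S.isPGroup'.map _
  have hR₁card : Nat.card R₁ = r ^ (Nat.card (centralizer ({y} : Set G))).factorization r := by
    rw [hR₁, Subgroup.card_map_of_injective (Subgroup.subtype_injective _), S.card_eq_multiplicity]
  have hR₁C : R₁ ≤ centralizer ({y} : Set G) := by
    rw [hR₁]; exact Subgroup.map_subtype_le _
  have hG0 : Nat.card G ≠ 0 := Nat.card_pos.ne'
  -- factorization bookkeeping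
  have hfac : ∀ x : G, (Nat.card G).factorization r =
      ((centralizer ({x} : Set G)).index).factorization r + (Nat.card (centralizer ({x} : Set G))).factorization r := by
    intro x
    rw [H24.card_eq_index_mul_card_centralizer x, Nat.factorization_mul
      Subgroup.index_ne_zero_of_finite Nat.card_pos.ne']
    rfl
  have hαβ0 : α * β ≠ 0 := mul_ne_zero hα0 hβ0
  have hidx : ∀ x : G, ((centralizer ({x} : Set G)).index).factorization r ≤ (α * β).factorization r := by
    intro x
    exact (Nat.factorization_le_iff_dvd Subgroup.index_ne_zero_of_finite hαβ0).mpr (hdvd x) r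
  have hd : (Nat.card G).factorization r - (α * β).factorization r ≤
      (Nat.card (centralizer ({y} : Set G))).factorization r := by
    have h1 := hfac y
    have h2 := hidx y
    omega
  have hR₁ne : R₁ ≠ ⊥ := by
    intro h0
    have h1 : Nat.card R₁ = 1 := by rw [h0]; exact Subgroup.card_bot
    rw [hR₁card, Nat.pow_eq_one] at h1
    rcases h1 with h1 | h1
    · exact hrp.one_lt.ne' h1
    · omega
  -- all nonidentity elements of R₁ are of type β
  have htype : ∀ w ∈ R₁, w ≠ 1 → ¬ α ∣ (centralizer ({w} : Set G)).index := by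
    intro w hw hw1 hwα
    have hcomm : Commute w y := by
      have := hR₁C hw
      rw [mem_centralizer_singleton_iff] at this
      exact this
    obtain ⟨j, hj⟩ := (IsPGroup.iff_orderOf.mp hR₁p) ⟨w, hw⟩
    have hjw : orderOf w = r ^ j := by rw [← hj, Subgroup.orderOf_mk]
    have hcop : (orderOf w).Coprime (orderOf y) := by
      rw [hjw, hky]
      exact Nat.Coprime.pow _ _ ((Nat.coprime_primes hrp hq).mpr (Ne.symm hqr))
    have h1 := H24.index_centralizer_left_dvd_mul hcomm hcop
    have h2 := H24.index_centralizer_right_dvd_mul hcomm hcop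
    exact hnot (w * y) ⟨hwα.trans h1, hyβ.trans h2⟩
  -- choose a Sylow containing R₁ and move z there
  obtain ⟨R₂, hR₂⟩ := hR₁p.exists_le_sylow
  obtain ⟨g, hg⟩ := MulAction.exists_smul_eq G R R₂
  set z₂ := g * z * g⁻¹ with hz₂
  have hz₂α : α ∣ (centralizer ({z₂} : Set G)).index := by
    rw [hz₂, H24.index_centralizer_conj]; exact hzα
  have hmem : ∀ u : G, u ∈ (R₂ : Subgroup G) ↔ g⁻¹ * u * g ∈ (R : Subgroup G) := by
    intro u
    rw [← hg]
    change u ∈ (MulAut.conj g • (R : Subgroup G)) ↔ _
    rw [Subgroup.mem_pointwise_smul_iff_inv_smul_mem]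
    simp [MulAut.smul_def]
  have hz₂R : z₂ ∈ (R₂ : Subgroup G) := by
    rw [hmem, hz₂]
    have : g⁻¹ * (g * z * g⁻¹) * g = z := by group
    rw [this]; exact hzR
  have hz₂c : ∀ u ∈ (R₂ : Subgroup G), u * z₂ = z₂ * u := by
    intro u hu
    rw [hmem] at hu
    have := (mem_centralizer_iff.mp hzc) _ hu
    have h3 : g * (g⁻¹ * u * g * z) * g⁻¹ = g * (z * (g⁻¹ * u * g)) * g⁻¹ := by rw [this]
    rw [hz₂]
    calc u * (g * z * g⁻¹) = g * (g⁻¹ * u * g * z) * g⁻¹ := by group
      _ = _ := h3
      _ = _ := by group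
  obtain ⟨v, hvR, hv1, hvc⟩ := H24.exists_ne_one_mem_center_of_isPGroup R₁ hR₁p hR₁ne
  have hvα := htype v hvR hv1
  have hvβ : β ∣ (centralizer ({v} : Set G)).index := (hor v hv1).resolve_left hvα
  -- r-part of |C(v)|
  have hβr : (α * β).factorization r = β.factorization r := by
    rw [Nat.factorization_mul hα0 hβ0]
    simp [Nat.factorization_eq_zero_of_not_dvd hrα]
  have hvle : (Nat.card (centralizer ({v} : Set G))).factorization r ≤
      (Nat.card (centralizer ({y} : Set G))).factorization r := by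
    have h1 := hfac v
    have h2 : β.factorization r ≤ ((centralizer ({v} : Set G)).index).factorization r :=
      (Nat.factorization_le_iff_dvd hβ0 Subgroup.index_ne_zero_of_finite).mpr hvβ r
    omega
  set T : Subgroup G := R₁ ⊔ Subgroup.zpowers z₂ with hT
  have hTR₂ : T ≤ (R₂ : Subgroup G) := sup_le hR₂ (by rw [Subgroup.zpowers_le]; exact hz₂R)
  have hTp : IsPGroup r T := R₂.isPGroup'.to_le hTR₂
  have hTC : T ≤ centralizer ({v} : Set G) := by
    refine sup_le ?_ ?_
    · intro u hu
      rw [mem_centralizer_singleton_iff]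
      exact hvc u hu
    · rw [Subgroup.zpowers_le, mem_centralizer_singleton_iff]
      exact (hz₂c v (hR₂ hvR)).symm
  obtain ⟨n, hn⟩ := IsPGroup.iff_card.mp hTp
  have hnle : n ≤ (Nat.card (centralizer ({v} : Set G))).factorization r := by
    have h1 : r ^ n ∣ Nat.card (centralizer ({v} : Set G)) := by
      rw [← hn]; exact Subgroup.card_dvd_of_le hTC
    exact (hrp.pow_dvd_iff_le_factorization Nat.card_pos.ne').mp h1
  have hcardle : Nat.card T ≤ Nat.card R₁ := by
    rw [hn, hR₁card]
    exact Nat.pow_le_pow_right hrp.pos (hnle.trans hvle)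
  have hTeq : R₁ = T := Subgroup.eq_of_le_of_card_ge le_sup_left hcardle
  have hz₂R₁ : z₂ ∈ R₁ := by
    rw [hTeq]
    exact (le_sup_right : Subgroup.zpowers z₂ ≤ T) (Subgroup.mem_zpowers z₂)
  have hz₂1 : z₂ ≠ 1 := by
    intro h0
    apply hz1
    have : z = g⁻¹ * z₂ * g := by rw [hz₂]; group
    rw [this, h0]; group
  exact htype z₂ hz₂R₁ hz₂1 hz₂α

/-- Let G and M be finite groups with trivial centres and the same set of conjugacy class sizes, and suppose the prime graph of M is disconnected: the prime divisors of #M split into two non-empty parts such that M has no element of order pq with p in one part and q in the other. Then #G = #M. -/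
theorem result {G M : Type*}
    [Group G] [Finite G] [Group M] [Finite M] (hZG : Subgroup.center G = ⊥) (hZM : Subgroup.center M = ⊥)
    (h : Set.range (fun g : G => (Subgroup.centralizer ({g} : Set G)).index) = Set.range (fun g : M => (Subgroup.centralizer ({g} : Set M)).index))
    (hdisc : ∃ A : Set ℕ, (∃ a ∈ A, a.Prime ∧ a ∣ Nat.card M) ∧ (∃ b ∉ A, b.Prime ∧ b ∣ Nat.card M) ∧
      ∀ a ∈ A, ∀ b ∉ A, a.Prime → b.Prime → a ∣ Nat.card M → b ∣ Nat.card M → ¬ ∃ x : M, orderOf x = a * b) :
    Nat.card G = Nat.card M := by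
  classical
  obtain ⟨A, ⟨a, haA, hap, haM⟩, ⟨b, hbA, hbp, hbM⟩, hno⟩ := hdisc
  -- α = non-A part of |M|, β = A part of |M|
  set m := Nat.card M with hm
  have hm0 : m ≠ 0 := Nat.card_pos.ne'
  set α : ℕ := ∏ p ∈ m.primeFactors.filter (fun p => p ∉ A), p ^ m.factorization p with hα
  set β : ℕ := ∏ p ∈ m.primeFactors.filter (fun p => p ∈ A), p ^ m.factorization p with hβ
  have hprod : α * β = m := by
    rw [hα, hβ, mul_comm, Finset.prod_filter_mul_prod_filter_not]
    exact Nat.prod_factorization_pow_eq_self hm0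
  have hα0 : α ≠ 0 := left_ne_zero_of_mul (hprod ▸ hm0)
  have hβ0 : β ≠ 0 := right_ne_zero_of_mul (hprod ▸ hm0)
  have hcop : α.Coprime β := by
    rw [hα, hβ]
    apply Nat.Coprime.prod_left
    intro p hp
    apply Nat.Coprime.prod_right
    intro q hq
    rw [Finset.mem_filter, Nat.mem_primeFactors] at hp hq
    apply Nat.Coprime.pow
    rw [Nat.coprime_primes hp.1.1 hq.1.1]
    rintro rfl
    exact hp.2 hq.2
  have hαp : ∀ p : ℕ, p.Prime → p ∣ α → p ∉ A ∧ p ∣ m := by
    intro p hp hpα
    rw [hα, hp.prime.dvd_finsetProd_iff] at hpα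
    obtain ⟨q, hq, hpq⟩ := hpα
    rw [Finset.mem_filter, Nat.mem_primeFactors] at hq
    have := (Nat.prime_dvd_prime_iff_eq hp hq.1.1).mp (hp.dvd_of_dvd_pow hpq)
    subst this
    exact ⟨hq.2, hq.1.2.1⟩
  have hβp : ∀ p : ℕ, p.Prime → p ∣ β → p ∈ A ∧ p ∣ m := by
    intro p hp hpα
    rw [hβ, hp.prime.dvd_finsetProd_iff] at hpα
    obtain ⟨q, hq, hpq⟩ := hpα
    rw [Finset.mem_filter, Nat.mem_primeFactors] at hq
    have := (Nat.prime_dvd_prime_iff_eq hp hq.1.1).mp (hp.dvd_of_dvd_pow hpq)
    subst this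
    exact ⟨hq.2, hq.1.2.1⟩
  -- elements of prime order type
  have hMel : ∀ (x : M) (q : ℕ), q.Prime → q ∣ orderOf x →
      (q ∈ A → α ∣ (Subgroup.centralizer ({x} : Set M)).index) ∧
      (q ∉ A → β ∣ (Subgroup.centralizer ({x} : Set M)).index) := by
    intro x q hq hqx
    have hkey : ∀ s : ℕ, s.Prime → s ∣ Nat.card (Subgroup.centralizer ({x} : Set M)) → s ≠ q →
        ∃ g : M, orderOf g = q * s := by
      intro s hs hsd hsq
      have : Fact s.Prime := ⟨hs⟩
      obtain ⟨w, hw⟩ := exists_prime_orderOf_dvd_card' s hsd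
      have hxx : orderOf (x ^ (orderOf x / q)) = q := by
        rw [orderOf_pow_of_dvd (Nat.div_pos (Nat.le_of_dvd (orderOf_pos x) hqx) hq.pos).ne' (Nat.div_dvd_of_dvd hqx)]
        exact Nat.div_div_self hqx (orderOf_pos x).ne'
      have hcw : Commute (x ^ (orderOf x / q)) (w : M) := by
        have h1 := w.2
        rw [Subgroup.mem_centralizer_singleton_iff] at h1
        have h2 : Commute (w : M) x := h1
        exact (h2.pow_right _).symm
      refine ⟨x ^ (orderOf x / q) * (w : M), ?_⟩
      have ho : orderOf (w : M) = s := by rw [← hw]; exact Subgroup.orderOf_coe w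
      rw [hcw.orderOf_mul_eq_mul_orderOf_of_coprime, hxx, ho]
      rw [hxx, ho]
      exact (Nat.coprime_primes hq hs).mpr hsq.symm
    have hcard : m = (Subgroup.centralizer ({x} : Set M)).index * Nat.card (Subgroup.centralizer ({x} : Set M)) :=
      H24.card_eq_index_mul_card_centralizer x
    have hqM : q ∣ m := hqx.trans (orderOf_dvd_natCard x)
    constructor
    · intro hqA
      have hc : α.Coprime (Nat.card (Subgroup.centralizer ({x} : Set M))) := by
        refine Nat.coprime_of_dvd (fun s hs hsα hsC => ?_)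
        obtain ⟨hsA, hsm⟩ := hαp s hs hsα
        have hsq : s ≠ q := by rintro rfl; exact hsA hqA
        exact hno q hqA s hsA hq hs hqM hsm (hkey s hs hsC hsq)
      have h1 : α ∣ (Subgroup.centralizer ({x} : Set M)).index * Nat.card (Subgroup.centralizer ({x} : Set M)) := by
        rw [← hcard, ← hprod]; exact dvd_mul_right _ _
      exact hc.dvd_of_dvd_mul_right h1
    · intro hqA
      have hc : β.Coprime (Nat.card (Subgroup.centralizer ({x} : Set M))) := by
        refine Nat.coprime_of_dvd (fun s hs hsα hsC => ?_)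
        obtain ⟨hsA, hsm⟩ := hβp s hs hsα
        have hsq : s ≠ q := by rintro rfl; exact hqA hsA
        obtain ⟨g, hg⟩ := hkey s hs hsC hsq
        exact hno s hsA q hqA hs hq hsm hqM ⟨g, by rw [hg, mul_comm]⟩
      have h1 : β ∣ (Subgroup.centralizer ({x} : Set M)).index * Nat.card (Subgroup.centralizer ({x} : Set M)) := by
        rw [← hcard, ← hprod]; exact dvd_mul_left _ _
      exact hc.dvd_of_dvd_mul_right h1
  -- facts for M
  have horM : ∀ x : M, x ≠ 1 → (α ∣ (Subgroup.centralizer ({x} : Set M)).index ∨ β ∣ (Subgroup.centralizer ({x} : Set M)).index) := by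
    intro x hx
    have : orderOf x ≠ 1 := by rwa [Ne, orderOf_eq_one_iff]
    obtain ⟨q, hq, hqx⟩ := Nat.exists_prime_and_dvd this
    by_cases hqA : q ∈ A
    · exact Or.inl ((hMel x q hq hqx).1 hqA)
    · exact Or.inr ((hMel x q hq hqx).2 hqA)
  have hα1 : α ≠ 1 := by
    intro h1
    have hbβ : b ∣ β := by
      have : b ∣ α * β := by rw [hprod]; exact hbM
      rwa [h1, one_mul] at this
    exact hbA (hβp b hbp hbβ).1
  have hβ1 : β ≠ 1 := by
    intro h1
    have hbβ : a ∣ α := by
      have : a ∣ α * β := by rw [hprod]; exact haM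
      rwa [h1, mul_one] at this
    exact (hαp a hap hbβ).1 haA
  have hnotM : ∀ x : M, ¬ (α ∣ (Subgroup.centralizer ({x} : Set M)).index ∧ β ∣ (Subgroup.centralizer ({x} : Set M)).index) := by
    rintro x ⟨h1, h2⟩
    have h3 : m ∣ (Subgroup.centralizer ({x} : Set M)).index := by
      rw [← hprod]; exact hcop.mul_dvd_of_dvd_of_dvd h1 h2
    have hcard : m = (Subgroup.centralizer ({x} : Set M)).index * Nat.card (Subgroup.centralizer ({x} : Set M)) :=
      H24.card_eq_index_mul_card_centralizer x
    have hi0 : (Subgroup.centralizer ({x} : Set M)).index ≠ 0 := Subgroup.index_ne_zero_of_finite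
    have h4 : (Subgroup.centralizer ({x} : Set M)).index = m :=
      Nat.dvd_antisymm (by rw [hm]; exact Subgroup.index_dvd_card _) h3
    have h5 : Nat.card (Subgroup.centralizer ({x} : Set M)) = 1 := by
      rw [h4] at hcard
      exact (Nat.eq_of_mul_eq_mul_left (Nat.pos_of_ne_zero hm0) (by rw [mul_one]; exact hcard.symm))
    have h6 : Subgroup.centralizer ({x} : Set M) = ⊥ := Subgroup.card_eq_one.mp h5
    have h7 : x ∈ Subgroup.centralizer ({x} : Set M) := Subgroup.mem_centralizer_singleton_iff.mpr rfl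
    rw [h6, Subgroup.mem_bot] at h7
    subst h7
    have h8 : (Subgroup.centralizer ({1} : Set M)) = ⊤ := by
      ext x; simp [Subgroup.mem_centralizer_singleton_iff]
    rw [h8, Subgroup.index_top] at h1
    exact hα1 (Nat.dvd_one.mp h1)
  have hrange : ∀ x : G, ∃ y : M, (Subgroup.centralizer ({y} : Set M)).index = (Subgroup.centralizer ({x} : Set G)).index := by
    intro x
    have : (Subgroup.centralizer ({x} : Set G)).index ∈ Set.range (fun g : M => (Subgroup.centralizer ({g} : Set M)).index) := by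
      rw [← h]; exact ⟨x, rfl⟩
    exact this
  have hrange' : ∀ x : M, ∃ y : G, (Subgroup.centralizer ({y} : Set G)).index = (Subgroup.centralizer ({x} : Set M)).index := by
    intro x
    have : (Subgroup.centralizer ({x} : Set M)).index ∈ Set.range (fun g : G => (Subgroup.centralizer ({g} : Set G)).index) := by
      rw [h]; exact ⟨x, rfl⟩
    exact this
  have horG : ∀ x : G, x ≠ 1 → (α ∣ (Subgroup.centralizer ({x} : Set G)).index ∨ β ∣ (Subgroup.centralizer ({x} : Set G)).index) := by
    intro x hx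
    obtain ⟨y, hy⟩ := hrange x
    rw [← hy]
    apply horM
    rintro rfl
    have h8 : (Subgroup.centralizer ({1} : Set M)) = ⊤ := by
      ext x; simp [Subgroup.mem_centralizer_singleton_iff]
    rw [h8, Subgroup.index_top] at hy
    have h9 : Subgroup.centralizer ({x} : Set G) = ⊤ := Subgroup.index_eq_one.mp hy.symm
    apply hx
    have h10 : x ∈ Subgroup.center G := by
      rw [Subgroup.mem_center_iff]
      intro g
      have : g ∈ Subgroup.centralizer ({x} : Set G) := by rw [h9]; trivial
      exact Subgroup.mem_centralizer_singleton_iff.mp this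
    rw [hZG] at h10
    exact Subgroup.mem_bot.mp h10
  have hnotG : ∀ x : G, ¬ (α ∣ (Subgroup.centralizer ({x} : Set G)).index ∧ β ∣ (Subgroup.centralizer ({x} : Set G)).index) := by
    intro x
    obtain ⟨y, hy⟩ := hrange x
    rw [← hy]; exact hnotM y
  have hdvdG : ∀ x : G, (Subgroup.centralizer ({x} : Set G)).index ∣ α * β := by
    intro x
    obtain ⟨y, hy⟩ := hrange x
    rw [← hy, hprod, hm]; exact Subgroup.index_dvd_card _
  have hexα : ∃ x : G, α ∣ (Subgroup.centralizer ({x} : Set G)).index := by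
    have : Fact a.Prime := ⟨hap⟩
    obtain ⟨x, hx⟩ := exists_prime_orderOf_dvd_card' a haM
    obtain ⟨y, hy⟩ := hrange' x
    exact ⟨y, by rw [hy]; exact (hMel x a hap (by rw [hx])).1 haA⟩
  have hexβ : ∃ x : G, β ∣ (Subgroup.centralizer ({x} : Set G)).index := by
    have : Fact b.Prime := ⟨hbp⟩
    obtain ⟨x, hx⟩ := exists_prime_orderOf_dvd_card' b hbM
    obtain ⟨y, hy⟩ := hrange' x
    exact ⟨y, by rw [hy]; exact (hMel x b hbp (by rw [hx])).2 hbA⟩
  have hαG : α ∣ Nat.card G := by
    obtain ⟨x, hx⟩ := hexα; exact hx.trans (Subgroup.index_dvd_card _)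
  have hβG : β ∣ Nat.card G := by
    obtain ⟨x, hx⟩ := hexβ; exact hx.trans (Subgroup.index_dvd_card _)
  have hmG : m ∣ Nat.card G := by rw [← hprod]; exact hcop.mul_dvd_of_dvd_of_dvd hαG hβG
  have hGm : Nat.card G ∣ m := by
    rw [← Nat.factorization_le_iff_dvd Nat.card_pos.ne' hm0]
    intro r
    by_contra hlt
    push Not at hlt
    have hrp : r.Prime := by
      by_contra hnp
      rw [Nat.factorization_eq_zero_of_not_prime _ hnp, Nat.factorization_eq_zero_of_not_prime _ hnp] at hlt
      exact lt_irrefl _ hlt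
    have : Fact r.Prime := ⟨hrp⟩
    obtain ⟨R⟩ : Nonempty (Sylow r G) := inferInstance
    have hrG : r ∣ Nat.card G := by
      apply Nat.dvd_of_factorization_pos
      omega
    obtain ⟨z, hzR, hz1, hzc⟩ := H24.exists_ne_one_mem_sylow_centralizing R hrG
    rcases horG z hz1 with hz | hz
    · exact core α β hcop hα0 hβ0 horG hnotG hdvdG hαG hexβ r (by rw [hprod]; exact hlt) z hz1 R hzR hzc hz
    · exact core β α hcop.symm hβ0 hα0 (fun x hx => (horG x hx).symm) (fun x hx => hnotG x hx.symm)
        (fun x => by rw [mul_comm]; exact hdvdG x) hβG hexα r (by rw [mul_comm, hprod]; exact hlt) z hz1 R hzR hzc hz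
  exact Nat.dvd_antisymm hGm hmG

end Cfsg.Agent.S4184
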