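import Cfsg.Statements.S4186
import Mathlib

set_option autoImplicit false
open Cfsg

namespace Cfsg.Agent.S4186

/-- Let T and X be subgroups of a group with T a finite 2-group normalizing X but not centralizing it. Then some element of T inverts some non-identity element of X under conjugation. -/
theorem result {G : Type*} [Group G] (T X : Subgroup G) [Finite ↥T] (hT : IsPGroup 2 ↥T) (hTN : T ≤ Subgroup.normalizer (X : Set G)) (hTC : ¬ T ≤ Subgroup.centralizer (X : Set G)) : ∃ t ∈ T, ∃ x ∈ X, x ≠ 1 ∧ t * x * t⁻¹ = x⁻¹ := by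
  classical
  obtain ⟨s, hsT, hsX⟩ := Set.not_subset.1 hTC
  -- minimal order element not centralizing
  have hex : ∃ n : ℕ, ∃ t ∈ T, t ∉ Subgroup.centralizer (X : Set G) ∧ orderOf t = n :=
    ⟨_, s, hsT, hsX, rfl⟩
  obtain ⟨t, htT, htX, htn⟩ := Nat.find_spec hex
  have hmin : ∀ u ∈ T, orderOf u < orderOf t → u ∈ Subgroup.centralizer (X : Set G) := by
    intro u hu hlt
    by_contra hcon
    rw [htn] at hlt
    exact Nat.find_min hex hlt ⟨u, hu, hcon, rfl⟩
  have ht1 : t ≠ 1 := by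
    rintro rfl
    exact htX (Subgroup.one_mem _)
  -- order of `t` is `2 ^ k`
  obtain ⟨k, hk⟩ : ∃ k : ℕ, orderOf t = 2 ^ k := by
    obtain ⟨k, hk⟩ := (IsPGroup.iff_orderOf.1 hT) ⟨t, htT⟩
    exact ⟨k, by rw [← hk, Subgroup.orderOf_mk]⟩
  have hk0 : k ≠ 0 := by
    rintro rfl
    rw [pow_zero, orderOf_eq_one_iff] at hk
    exact ht1 hk
  have ht2 : t ^ 2 ∈ Subgroup.centralizer (X : Set G) := by
    apply hmin _ (T.pow_mem htT 2)
    obtain ⟨j, rfl⟩ := Nat.exists_eq_succ_of_ne_zero hk0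
    have h5 : (t ^ 2) ^ (2 ^ j) = 1 := by
      rw [← pow_mul, ← pow_succ', ← hk, pow_orderOf_eq_one]
    have h6 : orderOf (t ^ 2) ≤ 2 ^ j := Nat.le_of_dvd (by positivity) (orderOf_dvd_of_pow_eq_one h5)
    have h7 : orderOf t = 2 ^ j * 2 := by rw [hk, Nat.succ_eq_add_one, pow_succ]
    have : 0 < 2 ^ j := by positivity
    omega
  rw [Subgroup.mem_centralizer_iff] at htX
  push Not at htX
  obtain ⟨x, hx, hne⟩ := htX
  have hx' : x ∈ X := hx
  rw [Subgroup.mem_centralizer_iff] at ht2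
  have h7 := ht2 x hx
  have htx : t * x * t⁻¹ ∈ X := (Subgroup.mem_normalizer_iff.1 (hTN htT) x).1 hx'
  refine ⟨t, htT, x⁻¹ * (t * x * t⁻¹), X.mul_mem (X.inv_mem hx') htx, ?_, ?_⟩
  · intro h8
    apply hne
    have h9 : t * x * t⁻¹ = x := by
      calc t * x * t⁻¹ = x * (x⁻¹ * (t * x * t⁻¹)) := by group
        _ = x := by rw [h8, mul_one]
    calc x * t = t * x * t⁻¹ * t := by rw [h9]
      _ = t * x := by group
  · have h9 : t * t * x * t⁻¹ * t⁻¹ = x := by
      have : x * (t * t) = t * t * x := by rw [← pow_two]; exact h7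
      calc t * t * x * t⁻¹ * t⁻¹ = x * (t * t) * t⁻¹ * t⁻¹ := by rw [this]
        _ = x := by group
    calc t * (x⁻¹ * (t * x * t⁻¹)) * t⁻¹ = (t * x * t⁻¹)⁻¹ * (t * t * x * t⁻¹ * t⁻¹) := by group
      _ = (t * x * t⁻¹)⁻¹ * x := by rw [h9]
      _ = (x⁻¹ * (t * x * t⁻¹))⁻¹ := by group

end Cfsg.Agent.S4186
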