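import Cfsg.Statements.S4188
import Cfsg.Agent.H12.SqAct

set_option autoImplicit false
open Cfsg

namespace Cfsg.Agent.S4188


open Subgroup

theorem aux {G : Type*} [Group G] [Finite G] (N P : Subgroup G) (hN : N.Normal) (hNab : IsMulCommutative ↥N) (hNodd : Odd (Nat.card ↥N)) (hP : IsPGroup 2 ↥P) (hdisj : N ⊓ P = ⊥) (hprod : N ⊔ P = ⊤) (hmin : N ≠ ⊥ ∧ ∀ M : Subgroup G, M.Normal → M ≠ ⊥ → N ≤ M) : (frattini ↥P).index ≤ Nat.card ↥N - 1 := by
  obtain ⟨hN0, hmin⟩ := hmin
  letI : CommGroup N := { (inferInstance : Group N) with mul_comm := fun a b => hNab.is_comm.comm a b }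
  have hcomm : ∀ a ∈ N, ∀ b ∈ N, a * b = b * a := fun a ha b hb =>
    congrArg Subtype.val (hNab.is_comm.comm ⟨a, ha⟩ ⟨b, hb⟩)
  -- the centralizer of N in P is trivial
  set K : Subgroup G := P ⊓ centralizer (N : Set G) with hK
  have hKn : K.Normal := by
    rw [← normalizer_eq_top_iff, eq_top_iff, ← hprod]
    refine sup_le ?_ ?_
    · intro n hn
      rw [mem_normalizer_iff]
      intro k
      have key : ∀ m ∈ N, ∀ k ∈ K, m * k * m⁻¹ = k := by
        intro m hm k hk
        have := mem_centralizer_iff.1 (mem_inf.1 hk).2 m hm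
        rw [this, mul_inv_cancel_right]
      constructor
      · intro hk; rw [key n hn k hk]; exact hk
      · intro hk
        have h1 := key n⁻¹ (inv_mem hn) _ hk
        have h2 : n⁻¹ * (n * k * n⁻¹) * n⁻¹⁻¹ = k := by group
        rw [h2] at h1
        rw [h1]; exact hk
    · intro p hp
      rw [mem_normalizer_iff]
      intro k
      have h1 : ∀ p ∈ P, ∀ k ∈ K, p * k * p⁻¹ ∈ K := by
        intro p hp k hk
        exact mem_inf.2 ⟨P.mul_mem (P.mul_mem hp (mem_inf.1 hk).1) (P.inv_mem hp), Normal.conj_mem inferInstance k (mem_inf.1 hk).2 p⟩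
      constructor
      · exact h1 p hp k
      · intro hk
        have h2 := h1 p⁻¹ (inv_mem hp) _ hk
        have h3 : p⁻¹ * (p * k * p⁻¹) * p⁻¹⁻¹ = k := by group
        rwa [h3] at h2
  have hK0 : K = ⊥ := by
    by_contra h
    have h1 := hmin K hKn h
    apply hN0
    rw [eq_bot_iff, ← hdisj]
    exact le_inf le_rfl (h1.trans inf_le_left)
  set f : P →* MulAut N := (MulAut.conjNormal (H := N)).comp P.subtype with hf
  have hinj : Function.Injective f := by
    rw [injective_iff_map_eq_one]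
    intro a ha
    have h1 : (a : G) ∈ K := by
      refine mem_inf.2 ⟨a.2, ?_⟩
      rw [mem_centralizer_iff]
      intro n hn
      have h2 := congrArg (fun t : MulAut N => ((t ⟨n, hn⟩ : N) : G)) ha
      have h3 : (a : G) * n * (a : G)⁻¹ = n := h2
      calc n * (a : G) = ((a : G) * n * (a : G)⁻¹) * a := by rw [h3]
        _ = a * n := by group
    rw [hK0, mem_bot] at h1
    exact Subtype.ext h1
  have e : P ≃* f.range := MonoidHom.ofInjective hinj
  have hPr : IsPGroup 2 f.range := hP.of_equiv e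
  have hb := H12.sqs_bound (Nat.card N) N rfl hNodd f.range hPr
  rw [← H12.sqs_index_congr e] at hb
  have h1 : (frattini P).index ≤ (H12.sqs P).index := by
    haveI : Fact (Nat.Prime 2) := ⟨Nat.prime_two⟩
    refine Nat.le_of_dvd (Nat.pos_of_ne_zero index_ne_zero_of_finite) (index_dvd_of_le ?_)
    rw [H12.sqs, closure_le]
    rintro _ ⟨x, rfl⟩
    rw [← pow_two]
    exact H2.pow_mem_frattini hP x
  have h2 : Nat.card N ≠ 1 := fun h => hN0 (card_eq_one.1 h)
  have h3 : 0 < Nat.card N := Nat.card_pos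
  have h4 : 0 < (H12.sqs P).index := Nat.pos_of_ne_zero index_ne_zero_of_finite
  rcases hb with hb | ⟨hb, hb'⟩ | ⟨hb, -⟩
  · omega
  · omega
  · exact absurd hb h2

/-- Let G be a finite group that is the semidirect product of a normal abelian subgroup N of odd order by a 2-subgroup P, and suppose N is the unique minimal normal subgroup of G. Then the index of the Frattini subgroup of P in P is at most #N − 1. -/
theorem result {G : Type*} [Group G] [Finite G] (N P : Subgroup G) (hN : N.Normal) (hNab : IsMulCommutative ↥N) (hNodd : Odd (Nat.card ↥N)) (hP : IsPGroup 2 ↥P) (hdisj : N ⊓ P = ⊥) (hprod : N ⊔ P = ⊤) (hmin : N ≠ ⊥ ∧ ∀ M : Subgroup G, M.Normal → M ≠ ⊥ → N ≤ M) : (frattini ↥P).index ≤ Nat.card ↥N - 1 := by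
  exact aux N P hN hNab hNodd hP hdisj hprod hmin
end Cfsg.Agent.S4188
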