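import Cfsg.Statements.S4194
import Cfsg.Agent.H13.CamHer2

set_option autoImplicit false
set_option linter.all false
open Cfsg

namespace Cfsg.Agent.S4194

open Cfsg.Agent

/-- A finite group G has commutative Sylow 2-subgroups if and only if every 2-element of G (element of order a power of 2) is 2-central, that is, its centralizer contains a Sylow 2-subgroup of G. -/
theorem result {G : Type*} [Group G] [Finite G] (P : Sylow 2 G) :
    IsMulCommutative (P : Subgroup G) ↔ ∀ x : G, (∃ k : ℕ, orderOf x = 2 ^ k) → (∃ Q : Sylow 2 G, (Q : Subgroup G) ≤ Subgroup.centralizer ({x} : Set G)) := by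
  constructor
  · intro hP x ⟨k, hk⟩
    have h1 : IsPGroup 2 (Subgroup.zpowers x) := by
      apply H28.isPGroup_zpowers_of_pow (n := k)
      rw [← hk, pow_orderOf_eq_one]
    obtain ⟨Q, hQ⟩ := h1.exists_le_sylow
    refine ⟨Q, fun y hy => ?_⟩
    have hx : x ∈ (Q : Subgroup G) := hQ (Subgroup.mem_zpowers x)
    obtain ⟨g, hg⟩ := MulAction.exists_smul_eq G Q P
    have hmem : ∀ y, y ∈ (Q : Subgroup G) → g * y * g⁻¹ ∈ (P : Subgroup G) := by
      intro y hy
      rw [← hg, Sylow.smul_def, Sylow.pointwise_smul_def]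
      exact ⟨y, hy, by simp [MulAut.smul_def]⟩
    have h2 := hP.is_comm.comm (⟨_, hmem x hx⟩ : (P : Subgroup G)) ⟨_, hmem y hy⟩
    have h3 : (g * x * g⁻¹) * (g * y * g⁻¹) = (g * y * g⁻¹) * (g * x * g⁻¹) := congrArg Subtype.val h2
    rw [Subgroup.mem_centralizer_singleton_iff]
    calc y * x = g⁻¹ * ((g * y * g⁻¹) * (g * x * g⁻¹)) * g := by group
      _ = g⁻¹ * ((g * x * g⁻¹) * (g * y * g⁻¹)) * g := by rw [h3]
      _ = x * y := by group
  · intro h
    have := H13.sylow_comm_of_central P (fun x hx => by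
      apply h
      obtain ⟨k, hk⟩ := P.2 ⟨x, hx⟩
      have hk' : x ^ 2 ^ k = 1 := congrArg Subtype.val hk
      obtain ⟨j, -, hj⟩ := (Nat.dvd_prime_pow Nat.prime_two).1 (orderOf_dvd_of_pow_eq_one hk')
      exact ⟨j, hj⟩)
    exact ⟨⟨fun a b => Subtype.ext (this a a.2 b b.2)⟩⟩

end Cfsg.Agent.S4194
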