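import Cfsg.Statements.S4195
import Cfsg.Agent.H25.ClassSize

set_option autoImplicit false
open Cfsg

namespace Cfsg.Agent.S4195

open Cfsg.Agent.H25

theorem result {G : Type*} [Group G] [Finite G] (x : G) (hx : x ≠ 1) (P : Sylow 2 G) (hP : (P : Subgroup G) ≤ Subgroup.centralizer ({x} : Set G)) (hreal : IsConj x x⁻¹) : orderOf x = 2 := by
  classical
  have hodd : ¬ 2 ∣ Nat.card {y : G // IsConj x y} := by
    rw [card_conj_eq_index]
    intro h
    exact P.not_dvd_index (h.trans (Subgroup.index_dvd_of_le hP))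
  let e : Equiv.Perm {y : G // IsConj x y} :=
    { toFun := fun y => ⟨(y : G)⁻¹, by
        have h1 : IsConj x⁻¹ (y : G)⁻¹ := by
          obtain ⟨c, hc⟩ := isConj_iff.1 y.2
          exact isConj_iff.2 ⟨c, by rw [← hc]; group⟩
        exact hreal.trans h1⟩
      invFun := fun y => ⟨(y : G)⁻¹, by
        have h1 : IsConj x⁻¹ (y : G)⁻¹ := by
          obtain ⟨c, hc⟩ := isConj_iff.1 y.2
          exact isConj_iff.2 ⟨c, by rw [← hc]; group⟩
        exact hreal.trans h1⟩
      left_inv := fun y => by simp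
      right_inv := fun y => by simp }
  haveI : Fintype {y : G // IsConj x y} := Fintype.ofFinite _
  rw [Nat.card_eq_fintype_card] at hodd
  have he : e ^ 2 ^ 1 = 1 := by
    ext y
    simp [e, pow_succ]
  obtain ⟨y, hy⟩ := Equiv.Perm.exists_fixed_point_of_prime hodd he
  have hy1 : (y : G)⁻¹ = y := congrArg Subtype.val hy
  obtain ⟨c, hc⟩ := isConj_iff.1 y.2
  have hx2 : x ^ 2 = 1 := by
    have h2 : (y : G) ^ 2 = 1 := by
      rw [pow_two]; nth_rw 1 [← hy1]; simp
    rw [← hc] at h2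
    have h3 : (c * x * c⁻¹) ^ 2 = c * x ^ 2 * c⁻¹ := by simp
    rw [h3] at h2
    have : x ^ 2 = c⁻¹ * (c * x ^ 2 * c⁻¹) * c := by group
    rw [this, h2]; group
  exact orderOf_eq_prime hx2 hx

end Cfsg.Agent.S4195
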