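import Cfsg.Statements.S4196
import Cfsg.Agent.S4195

set_option autoImplicit false
open Cfsg

namespace Cfsg.Agent.S4196

open Cfsg.Agent.H25

theorem result {G : Type*} [Group G] [Finite G] (P : Sylow 2 G) :
    (IsMulCommutative (P : Subgroup G) ∧ ∀ x ∈ (P : Subgroup G), x ^ 2 = 1) ↔
      ∀ x : G, (∃ k : ℕ, orderOf x = 2 ^ k) → (∃ Q : Sylow 2 G, (Q : Subgroup G) ≤ Subgroup.centralizer ({x} : Set G)) ∧ IsConj x x⁻¹ := by
  constructor
  · rintro ⟨hc, h2⟩ x ⟨k, hk⟩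
    have hxp : IsPGroup 2 (Subgroup.zpowers x) := by
      rw [IsPGroup.iff_card]
      exact ⟨k, by rw [Nat.card_zpowers, hk]⟩
    obtain ⟨Q, hQ⟩ := hxp.exists_le_sylow
    have hxQ : x ∈ (Q : Subgroup G) := hQ (Subgroup.mem_zpowers x)
    obtain ⟨g, hg⟩ := MulAction.exists_smul_eq G P Q
    have hmem : ∀ y : G, y ∈ (Q : Subgroup G) → g⁻¹ * y * g ∈ (P : Subgroup G) := by
      intro y hy
      rw [← hg, Sylow.coe_subgroup_smul, Subgroup.mem_pointwise_smul_iff_inv_smul_mem] at hy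
      simpa using hy
    have hx1 := hmem x hxQ
    have hx2 : x ^ 2 = 1 := by
      have h3 := h2 _ hx1
      have h4 : (g⁻¹ * x * g) ^ 2 = g⁻¹ * x ^ 2 * g := by
        have := conj_pow (a := g⁻¹) (b := x) (i := 2)
        simpa using this
      rw [h4] at h3
      calc x ^ 2 = g * (g⁻¹ * x ^ 2 * g) * g⁻¹ := by group
        _ = 1 := by rw [h3]; group
    refine ⟨⟨Q, ?_⟩, ?_⟩
    · intro y hy
      rw [Subgroup.mem_centralizer_singleton_iff]
      have hy1 := hmem y hy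
      have hcomm : (⟨_, hy1⟩ : (P : Subgroup G)) * ⟨_, hx1⟩ = ⟨_, hx1⟩ * ⟨_, hy1⟩ :=
        hc.is_comm.comm _ _
      have h5 : (g⁻¹ * y * g) * (g⁻¹ * x * g) = (g⁻¹ * x * g) * (g⁻¹ * y * g) :=
        congrArg Subtype.val hcomm
      calc y * x = g * ((g⁻¹ * y * g) * (g⁻¹ * x * g)) * g⁻¹ := by group
        _ = g * ((g⁻¹ * x * g) * (g⁻¹ * y * g)) * g⁻¹ := by rw [h5]
        _ = x * y := by group
    · have : x⁻¹ = x := by
        rw [inv_eq_iff_mul_eq_one, ← pow_two, hx2]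
      rw [this]
  · intro h
    have hsq : ∀ x ∈ (P : Subgroup G), x ^ 2 = 1 := by
      intro x hx
      by_cases hx1 : x = 1
      · rw [hx1]; simp
      have hk : ∃ k : ℕ, orderOf x = 2 ^ k := by
        obtain ⟨k, hk⟩ := (IsPGroup.iff_orderOf.1 P.isPGroup') ⟨x, hx⟩
        exact ⟨k, by rw [← hk]; exact (Subgroup.orderOf_mk x hx).symm⟩
      obtain ⟨⟨Q, hQ⟩, hr⟩ := h x hk
      have := Cfsg.Agent.S4195.result x hx1 Q hQ hr
      rw [← this]
      exact pow_orderOf_eq_one x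
    refine ⟨?_, hsq⟩
    constructor
    constructor
    intro a b
    have h1 : ∀ c : (P : Subgroup G), c * c = 1 := by
      intro c
      apply Subtype.ext
      have := hsq c c.2
      rw [pow_two] at this
      exact this
    have h2 : ∀ c : (P : Subgroup G), c⁻¹ = c := fun c => inv_eq_of_mul_eq_one_left (h1 c)
    calc a * b = (a * b)⁻¹ := (h2 _).symm
      _ = b⁻¹ * a⁻¹ := mul_inv_rev _ _
      _ = b * a := by rw [h2, h2]

end Cfsg.Agent.S4196
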