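import Cfsg.Statements.S4198
import Mathlib

set_option autoImplicit false
open Cfsg

namespace Cfsg.Agent.S4198

open Equiv Equiv.Perm

/-! ### The partition bound -/

theorem exists_code (n : ℕ) (P : Nat.Partition (n + 2)) :
    (∃ Q : Nat.Partition (n + 1), P.parts = 1 ::ₘ Q.parts) ∨
    (∃ Q : Nat.Partition n, 1 ∉ Q.parts ∧ P.parts = 2 ::ₘ Q.parts) ∨
    (∃ Q : Nat.Partition n, ∃ s, ∃ R : Multiset ℕ, 3 ≤ s ∧ 1 ∉ R ∧ P.parts = s ::ₘ R ∧
      Q.parts = R + Multiset.replicate (s - 2) 1) := by
  by_cases h1 : 1 ∈ P.parts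
  · left
    obtain ⟨R, hR⟩ := Multiset.exists_cons_of_mem h1
    refine ⟨⟨R, ?_, ?_⟩, hR⟩
    · intro i hi
      exact P.parts_pos (by rw [hR]; exact Multiset.mem_cons_of_mem hi)
    · have := P.parts_sum
      rw [hR, Multiset.sum_cons] at this
      omega
  · right
    by_cases h2 : 2 ∈ P.parts
    · left
      obtain ⟨R, hR⟩ := Multiset.exists_cons_of_mem h2
      refine ⟨⟨R, ?_, ?_⟩, ?_, hR⟩
      · intro i hi
        exact P.parts_pos (by rw [hR]; exact Multiset.mem_cons_of_mem hi)
      · have := P.parts_sum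
        rw [hR, Multiset.sum_cons] at this
        omega
      · intro h
        exact h1 (by rw [hR]; exact Multiset.mem_cons_of_mem h)
    · right
      have hne : P.parts ≠ 0 := by
        intro h
        have := P.parts_sum
        rw [h, Multiset.sum_zero] at this
        omega
      obtain ⟨s, hs⟩ := Multiset.exists_mem_of_ne_zero hne
      obtain ⟨R, hR⟩ := Multiset.exists_cons_of_mem hs
      have hs3 : 3 ≤ s := by
        have h3 := P.parts_pos hs
        have h4 : s ≠ 1 := fun h => h1 (h ▸ hs)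
        have h5 : s ≠ 2 := fun h => h2 (h ▸ hs)
        omega
      refine ⟨⟨R + Multiset.replicate (s - 2) 1, ?_, ?_⟩, s, R, hs3, ?_, hR, rfl⟩
      · intro i hi
        rw [Multiset.mem_add] at hi
        rcases hi with hi | hi
        · exact P.parts_pos (by rw [hR]; exact Multiset.mem_cons_of_mem hi)
        · rw [Multiset.eq_of_mem_replicate hi]; exact one_pos
      · have := P.parts_sum
        rw [hR, Multiset.sum_cons] at this
        rw [Multiset.sum_add, Multiset.sum_replicate, smul_eq_mul, mul_one]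
        omega
      · intro h
        exact h1 (by rw [hR]; exact Multiset.mem_cons_of_mem h)

theorem card_partition_le (n : ℕ) : Fintype.card (Nat.Partition (n + 2)) ≤
    Fintype.card (Nat.Partition (n + 1)) + Fintype.card (Nat.Partition n) := by
  classical
  rw [← Fintype.card_sum]
  let code : Nat.Partition (n + 2) → Nat.Partition (n + 1) ⊕ Nat.Partition n := fun P =>
    if h1 : ∃ Q : Nat.Partition (n + 1), P.parts = 1 ::ₘ Q.parts then Sum.inl h1.choose
    else if h2 : ∃ Q : Nat.Partition n, 1 ∉ Q.parts ∧ P.parts = 2 ::ₘ Q.parts then Sum.inr h2.choose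
    else if h3 : ∃ Q : Nat.Partition n, ∃ s, ∃ R : Multiset ℕ, 3 ≤ s ∧ 1 ∉ R ∧ P.parts = s ::ₘ R ∧
      Q.parts = R + Multiset.replicate (s - 2) 1 then Sum.inr h3.choose
    else Sum.inr (Nat.Partition.indiscrete n)
  apply Fintype.card_le_of_injective code
  have hcode : ∀ P, (∃ Q : Nat.Partition (n + 1), code P = Sum.inl Q ∧ P.parts = 1 ::ₘ Q.parts) ∨
    (∃ Q : Nat.Partition n, code P = Sum.inr Q ∧ 1 ∉ Q.parts ∧ P.parts = 2 ::ₘ Q.parts) ∨
    (∃ Q : Nat.Partition n, code P = Sum.inr Q ∧ ∃ s, ∃ R : Multiset ℕ, 3 ≤ s ∧ 1 ∉ R ∧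
      P.parts = s ::ₘ R ∧ Q.parts = R + Multiset.replicate (s - 2) 1) := by
    intro P
    by_cases h1 : ∃ Q : Nat.Partition (n + 1), P.parts = 1 ::ₘ Q.parts
    · left
      exact ⟨h1.choose, by simp only [code]; rw [dif_pos h1], h1.choose_spec⟩
    by_cases h2 : ∃ Q : Nat.Partition n, 1 ∉ Q.parts ∧ P.parts = 2 ::ₘ Q.parts
    · right; left
      exact ⟨h2.choose, by simp only [code]; rw [dif_neg h1, dif_pos h2], h2.choose_spec⟩
    have h3 := ((exists_code n P).resolve_left h1).resolve_left h2
    right; right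
    exact ⟨h3.choose, by simp only [code]; rw [dif_neg h1, dif_neg h2, dif_pos h3], h3.choose_spec⟩
  intro P P' hPP
  apply Nat.Partition.ext
  rcases hcode P with ⟨Q, h, hQ⟩ | ⟨Q, h, h1, hQ⟩ | ⟨Q, h, s, R, hs, h1, hP, hQ⟩ <;>
  rcases hcode P' with ⟨Q', h', hQ'⟩ | ⟨Q', h', h1', hQ'⟩ | ⟨Q', h', s', R', hs', h1', hP', hQ'⟩
  · rw [h, h', Sum.inl.injEq] at hPP
    rw [hQ, hQ', hPP]
  · rw [h, h'] at hPP; cases hPP
  · rw [h, h'] at hPP; cases hPP
  · rw [h, h'] at hPP; cases hPP
  · rw [h, h', Sum.inr.injEq] at hPP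
    rw [hQ, hQ', hPP]
  · rw [h, h', Sum.inr.injEq] at hPP
    exfalso
    apply h1
    rw [hPP, hQ', Multiset.mem_add]
    right
    rw [Multiset.mem_replicate]
    omega
  · rw [h, h'] at hPP; cases hPP
  · rw [h, h', Sum.inr.injEq] at hPP
    exfalso
    apply h1'
    rw [← hPP, hQ, Multiset.mem_add]
    right
    rw [Multiset.mem_replicate]
    omega
  · rw [h, h', Sum.inr.injEq] at hPP
    rw [hPP] at hQ
    rw [hQ] at hQ'
    have h5 := congrArg (Multiset.count 1) hQ'
    rw [Multiset.count_add, Multiset.count_add, Multiset.count_eq_zero_of_notMem h1,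
      Multiset.count_eq_zero_of_notMem h1', Multiset.count_replicate_self,
      Multiset.count_replicate_self] at h5
    have h6 : s = s' := by omega
    subst h6
    have h7 : R = R' := add_right_cancel hQ'
    rw [hP, hP', h7]

theorem card_partition_le_fib (n : ℕ) : Fintype.card (Nat.Partition n) ≤ Nat.fib (n + 1) := by
  induction n using Nat.strong_induction_on with
  | _ n ih =>
    match n, ih with
    | 0, _ => simp
    | 1, _ => simp
    | m + 2, ih =>
      have h1 := ih m (by omega)
      have h2 := ih (m + 1) (by omega)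
      have h3 := card_partition_le m
      have h4 : Nat.fib (m + 2 + 1) = Nat.fib (m + 1) + Nat.fib (m + 1 + 1) := Nat.fib_add_two
      omega

theorem fib_le (n : ℕ) (hn : 5 ≤ n) : Nat.fib (n + 1) ≤ 2 ^ (n - 2) := by
  induction n, hn using Nat.le_induction with
  | base => decide
  | succ m hm ih =>
    have h1 : Nat.fib (m + 1 + 1) = Nat.fib m + Nat.fib (m + 1) := Nat.fib_add_two
    have h2 : Nat.fib m ≤ Nat.fib (m + 1) := Nat.fib_le_fib_succ
    have h3 : m + 1 - 2 = (m - 2) + 1 := by omega
    rw [h1, h3, pow_succ]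
    omega

theorem card_conjClasses_le (n : ℕ) :
    Nat.card (ConjClasses (Equiv.Perm (Fin n))) ≤ Fintype.card (Nat.Partition n) := by
  classical
  have h1 : Nat.card (ConjClasses (Equiv.Perm (Fin n))) ≤
      Nat.card (Nat.Partition (Fintype.card (Fin n))) := by
    let f : ConjClasses (Equiv.Perm (Fin n)) → Nat.Partition (Fintype.card (Fin n)) := fun c =>
      (Quotient.out c : Equiv.Perm (Fin n)).partition
    apply Nat.card_le_card_of_injective f
    intro a b hab
    have h2 : IsConj (Quotient.out a : Equiv.Perm (Fin n)) (Quotient.out b) :=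
      partition_eq_of_isConj.2 hab
    have h3 := ConjClasses.mk_eq_mk_iff_isConj.2 h2
    have e : ∀ c : ConjClasses (Equiv.Perm (Fin n)), ConjClasses.mk (Quotient.out c) = c :=
      fun c => Quotient.out_eq c
    rwa [e, e] at h3
  rwa [Fintype.card_fin, Nat.card_eq_fintype_card (α := Nat.Partition n)] at h1

/-! ### The alternating group -/

/-- the image of a class of the alternating group -/
noncomputable def F (n : ℕ) (a : ConjClasses (alternatingGroup (Fin n))) : ConjClasses (Perm (Fin n)) :=
  ConjClasses.mk ((Quotient.out a : alternatingGroup (Fin n)) : Perm (Fin n))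

theorem mk_out {G : Type*} [Group G] (a : ConjClasses G) : ConjClasses.mk (Quotient.out a) = a :=
  Quotient.out_eq a

/-- conjugacy by an even permutation -/
theorem eq_of_even {n : ℕ} {a b : ConjClasses (alternatingGroup (Fin n))} (g : Perm (Fin n))
    (hg : g ∈ alternatingGroup (Fin n))
    (h : g * ((Quotient.out a : alternatingGroup (Fin n)) : Perm (Fin n)) * g⁻¹ =
      ((Quotient.out b : alternatingGroup (Fin n)) : Perm (Fin n))) : a = b := by
  rw [← mk_out a, ← mk_out b, ConjClasses.mk_eq_mk_iff_isConj, isConj_iff]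
  exact ⟨⟨g, hg⟩, Subtype.ext h⟩

theorem exists_conj {n : ℕ} {a b : ConjClasses (alternatingGroup (Fin n))} (h : F n a = F n b) :
    ∃ g : Perm (Fin n), g * ((Quotient.out a : alternatingGroup (Fin n)) : Perm (Fin n)) * g⁻¹ =
      ((Quotient.out b : alternatingGroup (Fin n)) : Perm (Fin n)) := by
  rw [F, F, ConjClasses.mk_eq_mk_iff_isConj, isConj_iff] at h
  exact h

/-- fibres have at most two elements -/
theorem fiber_two {n : ℕ} {a b c : ConjClasses (alternatingGroup (Fin n))} (h1 : F n a = F n c)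
    (h2 : F n b = F n c) (hac : a ≠ c) (hbc : b ≠ c) : a = b := by
  obtain ⟨g, hg⟩ := exists_conj h1
  obtain ⟨k, hk⟩ := exists_conj h2
  have hg1 : g ∉ alternatingGroup (Fin n) := fun h => hac (eq_of_even g h hg)
  have hk1 : k ∉ alternatingGroup (Fin n) := fun h => hbc (eq_of_even k h hk)
  apply eq_of_even (k⁻¹ * g)
  · rw [mem_alternatingGroup] at hg1 hk1 ⊢
    rw [Equiv.Perm.sign_mul, Equiv.Perm.sign_inv]
    rcases Int.units_eq_one_or (sign g) with h | h
    · exact absurd h hg1
    rcases Int.units_eq_one_or (sign k) with h' | h'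
    · exact absurd h' hk1
    rw [h, h']; decide
  · rw [← hk] at hg
    calc k⁻¹ * g * ((Quotient.out a : alternatingGroup (Fin n)) : Perm (Fin n)) * (k⁻¹ * g)⁻¹
        = k⁻¹ * (g * ((Quotient.out a : alternatingGroup (Fin n)) : Perm (Fin n)) * g⁻¹) * k := by group
      _ = _ := by rw [hg]; group

/-- nonsplit classes -/
theorem split_of_ne {n : ℕ} {a c : ConjClasses (alternatingGroup (Fin n))} (h1 : F n a = F n c)
    (hac : a ≠ c) : Subgroup.centralizer ({((Quotient.out a : alternatingGroup (Fin n)) : Perm (Fin n))} :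
      Set (Perm (Fin n))) ≤ alternatingGroup (Fin n) := by
  obtain ⟨g, hg⟩ := exists_conj h1
  have hg1 : g ∉ alternatingGroup (Fin n) := fun h => hac (eq_of_even g h hg)
  intro z hz
  by_contra hz1
  apply hac
  rw [Subgroup.mem_centralizer_singleton_iff] at hz
  apply eq_of_even (g * z)
  · rw [mem_alternatingGroup] at hg1 hz1 ⊢
    rw [Equiv.Perm.sign_mul]
    rcases Int.units_eq_one_or (sign g) with h | h
    · exact absurd h hg1
    rcases Int.units_eq_one_or (sign z) with h' | h'
    · exact absurd h' hz1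
    rw [h, h']; decide
  · calc g * z * ((Quotient.out a : alternatingGroup (Fin n)) : Perm (Fin n)) * (g * z)⁻¹
        = g * (z * ((Quotient.out a : alternatingGroup (Fin n)) : Perm (Fin n))) * z⁻¹ * g⁻¹ := by group
      _ = g * ((Quotient.out a : alternatingGroup (Fin n)) : Perm (Fin n)) * g⁻¹ := by rw [hz]; group
      _ = _ := hg

/-- the modified cycle type -/
theorem exists_mod {n : ℕ} (hn : 5 ≤ n) (x : Perm (Fin n)) (hx : x ∈ alternatingGroup (Fin n))
    (hc : Subgroup.centralizer ({x} : Set (Perm (Fin n))) ≤ alternatingGroup (Fin n)) :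
    ∃ (y : Perm (Fin n)) (m : ℕ) (R : Multiset ℕ), 3 ≤ m ∧ (∀ i ∈ R, Odd i) ∧ Odd m ∧
      x.cycleType = m ::ₘ R ∧ y.cycleType = (m - 1) ::ₘ R ∧ sign y = -1 ∧ y.cycleType ≠ {2} := by
  have h1 := OnCycleFactors.odd_of_centralizer_le_alternatingGroup hc
  have h2 := card_le_of_centralizer_le_alternating hc
  rw [Fintype.card_fin] at h2
  have hne : x.cycleType ≠ 0 := by
    intro h
    rw [h, Multiset.sum_zero] at h2
    omega
  obtain ⟨m, hm⟩ := Multiset.exists_mem_of_ne_zero hne
  obtain ⟨R, hR⟩ := Multiset.exists_cons_of_mem hm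
  have hm3 : 3 ≤ m := by
    have h3 := two_le_of_mem_cycleType hm
    have h4 := h1 m hm
    rcases h4 with ⟨k, hk⟩
    omega
  have hsum : x.cycleType.sum ≤ n := by
    have := sum_cycleType_le x
    rwa [Fintype.card_fin] at this
  obtain ⟨y, hy⟩ := (exists_with_cycleType_iff (Fin n) (m := (m - 1) ::ₘ R)).2 (by
    constructor
    · rw [Fintype.card_fin, Multiset.sum_cons]
      rw [hR, Multiset.sum_cons] at hsum
      omega
    · intro a ha
      rw [Multiset.mem_cons] at ha
      rcases ha with rfl | ha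
      · omega
      · exact two_le_of_mem_cycleType (by rw [hR]; exact Multiset.mem_cons_of_mem ha))
  refine ⟨y, m, R, hm3, fun i hi => h1 i (by rw [hR]; exact Multiset.mem_cons_of_mem hi), h1 m hm, hR, hy, ?_, ?_⟩
  · rw [mem_alternatingGroup, sign_of_cycleType, hR] at hx
    rw [sign_of_cycleType, hy]
    rw [Multiset.sum_cons, Multiset.card_cons] at hx ⊢
    have e : m + R.sum + (Multiset.card R + 1) = (m - 1 + R.sum + (Multiset.card R + 1)) + 1 := by omega
    rw [e, pow_succ] at hx
    have := congrArg (· * (-1 : ℤˣ)) hx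
    simpa [mul_assoc] using this
  · intro h
    rw [hy] at h
    have h3 : R = 0 := by
      have := congrArg Multiset.card h
      rw [Multiset.card_cons, Multiset.card_singleton] at this
      exact Multiset.card_eq_zero.1 (by omega)
    rw [h3, Multiset.cons_zero, Multiset.singleton_inj] at h
    rw [hR, h3, Multiset.sum_cons, Multiset.sum_zero] at h2
    omega

theorem card_alt_lt (n : ℕ) (hn : 5 ≤ n) : Nat.card (ConjClasses (alternatingGroup (Fin n))) <
    Nat.card (ConjClasses (Perm (Fin n))) := by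
  classical
  let spec : Perm (Fin n) → Perm (Fin n) → Prop := fun x y =>
    ∃ (m : ℕ) (R : Multiset ℕ), 3 ≤ m ∧ (∀ i ∈ R, Odd i) ∧ Odd m ∧
      x.cycleType = m ::ₘ R ∧ y.cycleType = (m - 1) ::ₘ R ∧ sign y = -1 ∧ y.cycleType ≠ {2}
  let T : Perm (Fin n) → Perm (Fin n) := fun x => if h : ∃ y, spec x y then h.choose else 1
  have hT : ∀ x, (∃ y, spec x y) → spec x (T x) := by
    intro x h
    simp only [T]
    rw [dif_pos h]
    exact h.choose_spec
  let c0 : ConjClasses (Perm (Fin n)) → ConjClasses (alternatingGroup (Fin n)) := fun C =>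
    if h : ∃ a, F n a = C then h.choose else ConjClasses.mk 1
  have hc0 : ∀ a, F n (c0 (F n a)) = F n a := by
    intro a
    have h : ∃ b, F n b = F n a := ⟨a, rfl⟩
    simp only [c0]
    rw [dif_pos h]
    exact h.choose_spec
  let Ψ : ConjClasses (alternatingGroup (Fin n)) → ConjClasses (Perm (Fin n)) := fun a =>
    if a = c0 (F n a) then F n a else ConjClasses.mk (T ((Quotient.out a : alternatingGroup (Fin n)) : Perm (Fin n)))
  have hsp : ∀ a, a ≠ c0 (F n a) → spec ((Quotient.out a : alternatingGroup (Fin n)) : Perm (Fin n))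
      (T ((Quotient.out a : alternatingGroup (Fin n)) : Perm (Fin n))) := by
    intro a ha
    apply hT
    have h1 := split_of_ne (hc0 a).symm ha
    obtain ⟨y, m, R, h⟩ := exists_mod hn _ (Quotient.out a : alternatingGroup (Fin n)).2 h1
    exact ⟨y, m, R, h⟩
  have hcross : ∀ a b, b ≠ c0 (F n b) →
      F n a ≠ ConjClasses.mk (T ((Quotient.out b : alternatingGroup (Fin n)) : Perm (Fin n))) := by
    intro a b hb h
    obtain ⟨m, R, -, -, -, -, -, hs, -⟩ := hsp b hb
    rw [F, ConjClasses.mk_eq_mk_iff_isConj, isConj_iff] at h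
    obtain ⟨g, hg⟩ := h
    rw [← hg, Equiv.Perm.sign_mul, Equiv.Perm.sign_mul, Equiv.Perm.sign_inv,
      mem_alternatingGroup.1 (Quotient.out a : alternatingGroup (Fin n)).2, mul_one,
      Int.units_mul_self] at hs
    exact absurd hs (by decide)
  have hinj : Function.Injective Ψ := by
    intro a b hab
    by_cases ha : a = c0 (F n a) <;> by_cases hb : b = c0 (F n b)
    · simp only [Ψ] at hab
      rw [if_pos ha, if_pos hb] at hab
      rw [ha, hb, hab]
    · simp only [Ψ] at hab
      rw [if_pos ha, if_neg hb] at hab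
      exact absurd hab (hcross a b hb)
    · simp only [Ψ] at hab
      rw [if_neg ha, if_pos hb] at hab
      exact absurd hab.symm (hcross b a ha)
    · simp only [Ψ] at hab
      rw [if_neg ha, if_neg hb] at hab
      obtain ⟨m, R, h3, hR, hm, hx, hy, -, -⟩ := hsp a ha
      obtain ⟨m', R', h3', hR', hm', hx', hy', -, -⟩ := hsp b hb
      rw [ConjClasses.mk_eq_mk_iff_isConj, isConj_iff_cycleType_eq, hy, hy'] at hab
      have hmm : m = m' := by
        have h4 : m - 1 ∈ (m' - 1) ::ₘ R' := hab ▸ Multiset.mem_cons_self _ _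
        rw [Multiset.mem_cons] at h4
        rcases h4 with h4 | h4
        · omega
        · exfalso
          have h5 := hR' _ h4
          obtain ⟨k, hk⟩ := hm
          obtain ⟨l, hl⟩ := h5
          omega
      subst hmm
      rw [Multiset.cons_inj_right] at hab
      subst hab
      have hFF : F n a = F n b := by
        rw [F, F, ConjClasses.mk_eq_mk_iff_isConj, isConj_iff_cycleType_eq, hx, hx']
      exact fiber_two (hc0 a).symm (by rw [← hFF] at *; exact (hc0 a).symm ▸ rfl) ha
        (by rw [hFF]; exact hb)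
  have hnot : ConjClasses.mk (swap (⟨0, by omega⟩ : Fin n) ⟨1, by omega⟩) ∉ Set.range Ψ := by
    rintro ⟨a, ha⟩
    have hne : (⟨0, by omega⟩ : Fin n) ≠ ⟨1, by omega⟩ := by simp
    by_cases h : a = c0 (F n a)
    · simp only [Ψ] at ha
      rw [if_pos h, F, ConjClasses.mk_eq_mk_iff_isConj, isConj_iff] at ha
      obtain ⟨g, hg⟩ := ha
      have hs := sign_swap hne
      rw [← hg, Equiv.Perm.sign_mul, Equiv.Perm.sign_mul, Equiv.Perm.sign_inv,
        mem_alternatingGroup.1 (Quotient.out a : alternatingGroup (Fin n)).2, mul_one,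
        Int.units_mul_self] at hs
      exact absurd hs (by decide)
    · simp only [Ψ] at ha
      obtain ⟨m, R, -, -, -, -, -, -, h2⟩ := hsp a h
      rw [if_neg h, ConjClasses.mk_eq_mk_iff_isConj, isConj_iff_cycleType_eq] at ha
      apply h2
      rw [ha]
      have hsw : (swap (⟨0, by omega⟩ : Fin n) ⟨1, by omega⟩).IsSwap := ⟨_, _, hne, rfl⟩
      have := hsw.isCycle.cycleType
      rw [this, card_support_swap hne]
  haveI := Fintype.ofFinite (ConjClasses (alternatingGroup (Fin n)))
  haveI := Fintype.ofFinite (ConjClasses (Perm (Fin n)))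
  rw [Nat.card_eq_fintype_card, Nat.card_eq_fintype_card]
  exact Fintype.card_lt_of_injective_of_notMem Ψ hinj hnot

/-- For n ≥ 5 the alternating group of degree n has strictly fewer conjugacy classes than the symmetric group of degree n, and the symmetric group of degree n (whose classes correspond to the partitions of n) has at most 2^(n−2) conjugacy classes. -/
theorem result (n : ℕ) (hn : 5 ≤ n) : Nat.card (ConjClasses (alternatingGroup (Fin n))) < Nat.card (ConjClasses (Equiv.Perm (Fin n))) ∧ Nat.card (ConjClasses (Equiv.Perm (Fin n))) ≤ 2 ^ (n - 2) :=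
  ⟨card_alt_lt n hn, (card_conjClasses_le n).trans ((card_partition_le_fib n).trans (fib_le n hn))⟩

end Cfsg.Agent.S4198
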