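import Cfsg.Statements.S4200
import Cfsg.Agent.H25.CommPairs

set_option autoImplicit false
open Cfsg

namespace Cfsg.Agent.S4200

open Cfsg.Agent.H25

theorem exists_of_relIndex_eq {X : Type*} [Group X] [Finite X] (Y C : Subgroup X)
    (h : Y.relIndex C = Y.index) (g : X) : ∃ c ∈ C, c⁻¹ * g ∈ Y := by
  have h1 : MulAction.stabilizer C ((1 : X) : X ⧸ Y) = Y.subgroupOf C := by
    ext c
    rw [MulAction.mem_stabilizer_iff, Subgroup.mem_subgroupOf]
    have : c • ((1 : X) : X ⧸ Y) = (((c : X) * 1 : X) : X ⧸ Y) := rfl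
    rw [this, mul_one, eq_comm, QuotientGroup.eq, inv_one, one_mul]
  have h2 : (MulAction.orbit C ((1 : X) : X ⧸ Y)).ncard = Nat.card (X ⧸ Y) := by
    rw [← MulAction.index_stabilizer, h1, ← Subgroup.index_eq_card]
    exact h
  have h3 : MulAction.orbit C ((1 : X) : X ⧸ Y) = Set.univ := by
    apply Set.eq_of_subset_of_ncard_le (Set.subset_univ _) _ (Set.toFinite _)
    rw [h2, Set.ncard_univ]
  have h4 : ((g : X) : X ⧸ Y) ∈ MulAction.orbit C ((1 : X) : X ⧸ Y) := by rw [h3]; trivial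
  obtain ⟨c, hc⟩ := h4
  refine ⟨c, c.2, ?_⟩
  have h5 : (((c : X) * 1 : X) : X ⧸ Y) = (g : X ⧸ Y) := hc
  rwa [mul_one, QuotientGroup.eq] at h5

/-- Let Y be a subgroup of the finite group X, of index m. Then the numbers of conjugacy classes satisfy k(Y) ≤ m·k(X) and k(X) ≤ m·k(Y), and the second inequality is strict unless Y is normal in X. -/
theorem result {X : Type*} [Group X] [Finite X] (Y : Subgroup X) : Nat.card (ConjClasses Y) ≤ Y.index * Nat.card (ConjClasses X) ∧ Nat.card (ConjClasses X) ≤ Y.index * Nat.card (ConjClasses Y) ∧ (¬ Y.Normal → Nat.card (ConjClasses X) < Y.index * Nat.card (ConjClasses Y)) := by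
  classical
  haveI : Fintype X := Fintype.ofFinite X
  have hX := sum_nc_top (G := X)
  have hY := sum_nc_self Y
  have hcard := Y.card_mul_index
  have hYpos : 0 < Nat.card Y := Nat.card_pos
  have hmpos : 0 < Y.index := Nat.pos_of_ne_zero Subgroup.FiniteIndex.index_ne_zero
  have hXpos : 0 < Nat.card X := Nat.card_pos
  have hle : ∀ x : X, nc Y x ≤ nc ⊤ x := by
    intro x
    rw [nc_top_eq_mul Y x]
    apply Nat.le_mul_of_pos_right
    apply Nat.pos_of_ne_zero
    exact (Subgroup.FiniteIndex.index_ne_zero : (Y.subgroupOf (Subgroup.centralizer ({x} : Set X))).index ≠ 0)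
  have hle2 : ∀ x : X, nc ⊤ x ≤ Y.index * nc Y x := by
    intro x
    rw [nc_top_eq_mul Y x, mul_comm]
    exact Nat.mul_le_mul_right _ (relIndex_le_index _ _)
  have h1 : ∑ x : X, nc ⊤ x ≤ Y.index * ∑ x : X, nc Y x := by
    rw [Finset.mul_sum]
    exact Finset.sum_le_sum fun x _ => hle2 x
  have h2 : ∑ x : X, nc Y x = ∑ y ∈ Finset.univ.filter (· ∈ Y), nc ⊤ y := by
    have := sum_nc_comm (⊤ : Subgroup X) Y
    simpa using this
  have h3 : ∑ y ∈ Finset.univ.filter (· ∈ Y), nc ⊤ y ≤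
      Y.index * ∑ y ∈ Finset.univ.filter (· ∈ Y), nc Y y := by
    rw [Finset.mul_sum]
    exact Finset.sum_le_sum fun x _ => hle2 x
  refine ⟨?_, ?_, ?_⟩
  · have h4 : ∑ y ∈ Finset.univ.filter (· ∈ Y), nc Y y ≤ ∑ x : X, nc ⊤ x :=
      (Finset.sum_le_sum fun x _ => hle x).trans
        (Finset.sum_le_sum_of_subset (Finset.subset_univ _))
    rw [hX, hY, ← hcard] at h4
    apply Nat.le_of_mul_le_mul_right _ hYpos
    calc _ ≤ _ := h4
      _ = _ := by ring
  · have h4 : ∑ x : X, nc ⊤ x ≤ Y.index * (Y.index * ∑ y ∈ Finset.univ.filter (· ∈ Y), nc Y y) :=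
      h1.trans (by rw [h2]; exact Nat.mul_le_mul_left _ h3)
    rw [hX, hY, ← hcard] at h4
    have h5 : 0 < Nat.card Y * Y.index := by positivity
    apply Nat.le_of_mul_le_mul_right _ h5
    calc _ ≤ _ := h4
      _ = _ := by ring
  · intro hnn
    obtain ⟨y, hy, g, hg⟩ : ∃ y ∈ Y, ∃ g : X, g * y * g⁻¹ ∉ Y := by
      by_contra hcon
      push Not at hcon
      exact hnn ⟨fun y hy g => hcon y hy g⟩
    have hlt : nc ⊤ y < Y.index * nc Y y := by
      apply lt_of_le_of_ne (hle2 y)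
      intro heq
      have hncpos : 0 < nc Y y := Nat.card_pos
      rw [nc_top_eq_mul Y y, mul_comm] at heq
      have heq2 := Nat.eq_of_mul_eq_mul_right hncpos heq
      obtain ⟨c, hc, hcg⟩ := exists_of_relIndex_eq Y _ heq2 g⁻¹
      apply hg
      rw [Subgroup.mem_centralizer_singleton_iff] at hc
      -- `g⁻¹ = c * z`, `z ∈ Y`
      have h6 : g * y * g⁻¹ = (c⁻¹ * g⁻¹)⁻¹ * y * (c⁻¹ * g⁻¹) := by
        have h7 : c⁻¹ * y * c = y := by
          rw [mul_assoc, ← hc]; group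
        calc g * y * g⁻¹ = g * (c * (c⁻¹ * y * c) * c⁻¹) * g⁻¹ := by group
          _ = g * (c * y * c⁻¹) * g⁻¹ := by rw [h7]
          _ = _ := by group
      rw [h6]
      exact Y.mul_mem (Y.mul_mem (Y.inv_mem hcg) hy) hcg
    have h3' : ∑ y ∈ Finset.univ.filter (· ∈ Y), nc ⊤ y <
        Y.index * ∑ y ∈ Finset.univ.filter (· ∈ Y), nc Y y := by
      rw [Finset.mul_sum]
      exact Finset.sum_lt_sum (fun x _ => hle2 x) ⟨y, by simpa using hy, hlt⟩
    have h4 : ∑ x : X, nc ⊤ x < Y.index * (Y.index * ∑ y ∈ Finset.univ.filter (· ∈ Y), nc Y y) :=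
      lt_of_le_of_lt h1 (by rw [h2]; exact Nat.mul_lt_mul_of_pos_left h3' hmpos)
    rw [hX, hY, ← hcard] at h4
    apply Nat.lt_of_mul_lt_mul_right (a := Nat.card Y * Y.index)
    calc _ < _ := h4
      _ = _ := by ring

end Cfsg.Agent.S4200
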