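import Cfsg.Statements.S4201
import Cfsg.Agent.H25.CommPairs

set_option autoImplicit false
open Cfsg

namespace Cfsg.Agent.S4201

open Cfsg.Agent.H25

/-- If N is a normal subgroup of the finite group X then k(X) ≤ k(N)·k(X ⧸ N), where k denotes the number of conjugacy classes. -/
theorem result {X : Type*} [Group X] [Finite X] (N : Subgroup X) [N.Normal] : Nat.card (ConjClasses X) ≤ Nat.card (ConjClasses N) * Nat.card (ConjClasses (X ⧸ N)) := by
  classical
  haveI : Fintype X := Fintype.ofFinite X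
  haveI : Fintype (X ⧸ N) := Fintype.ofFinite _
  have hX := sum_nc_top (G := X)
  have hQ := sum_nc_top (G := X ⧸ N)
  have hN := sum_nc_self N
  have hcard := N.card_mul_index
  have hXpos : 0 < Nat.card X := Nat.card_pos
  -- centralizer bound
  have h1 : ∀ x : X, nc (⊤ : Subgroup X) x ≤ nc N x * nc (⊤ : Subgroup (X ⧸ N)) (x : X ⧸ N) := by
    intro x
    rw [nc_top_eq_mul N x]
    apply Nat.mul_le_mul_left
    have h2 : N.relIndex (Subgroup.centralizer ({x} : Set X)) =
        Nat.card ((Subgroup.centralizer ({x} : Set X)).map (QuotientGroup.mk' N)) := by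
      rw [← Subgroup.relIndex_ker, QuotientGroup.ker_mk']
    rw [h2, nc_top_eq]
    apply Subgroup.card_le_of_le
    rintro _ ⟨c, hc, rfl⟩
    rw [SetLike.mem_coe, Subgroup.mem_centralizer_singleton_iff] at hc
    rw [Subgroup.mem_centralizer_singleton_iff]
    exact congrArg (fun z : X => (z : X ⧸ N)) hc
  -- per coset bound
  have h2 : ∀ q : X ⧸ N, ∑ x ∈ Finset.univ.filter (fun x : X => (x : X ⧸ N) = q), nc N x ≤
      ∑ y ∈ Finset.univ.filter (· ∈ N), nc N y := by
    intro q
    simp_rw [nc_eq_sum N]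
    rw [Finset.sum_comm]
    apply Finset.sum_le_sum
    intro y _
    rw [← Finset.card_filter, ← Finset.card_filter]
    by_cases hne : (Finset.filter (fun x => Commute x y)
        (Finset.univ.filter (fun x : X => (x : X ⧸ N) = q))).Nonempty
    · obtain ⟨x0, hx0⟩ := hne
      rw [Finset.mem_filter, Finset.mem_filter] at hx0
      apply Finset.card_le_card_of_injOn (fun x => x0⁻¹ * x)
      · intro x hx
        simp only [Finset.coe_filter, Finset.mem_filter, Finset.mem_univ, true_and,
          Set.mem_setOf_eq] at hx ⊢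
        refine ⟨?_, ?_⟩
        · rw [← QuotientGroup.eq, hx0.1.2, hx.1]
        · exact (Commute.mul_left (hx0.2.inv_left) hx.2).symm
      · intro a _ b _ hab
        exact mul_left_cancel hab
    · rw [Finset.not_nonempty_iff_eq_empty] at hne
      rw [hne]
      exact Nat.zero_le _
  have h3 : ∑ x : X, nc (⊤ : Subgroup X) x ≤
      (∑ y ∈ Finset.univ.filter (· ∈ N), nc N y) * ∑ q : X ⧸ N, nc (⊤ : Subgroup (X ⧸ N)) q := by
    calc ∑ x : X, nc (⊤ : Subgroup X) x ≤ ∑ x : X, nc N x * nc (⊤ : Subgroup (X ⧸ N)) (x : X ⧸ N) :=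
          Finset.sum_le_sum fun x _ => h1 x
      _ = ∑ q : X ⧸ N, ∑ x ∈ Finset.univ.filter (fun x : X => (x : X ⧸ N) = q),
            nc N x * nc (⊤ : Subgroup (X ⧸ N)) (x : X ⧸ N) :=
          (Finset.sum_fiberwise _ _ _).symm
      _ = ∑ q : X ⧸ N, (∑ x ∈ Finset.univ.filter (fun x : X => (x : X ⧸ N) = q), nc N x) *
            nc (⊤ : Subgroup (X ⧸ N)) q := by
          apply Finset.sum_congr rfl
          intro q _
          rw [Finset.sum_mul]
          apply Finset.sum_congr rfl
          intro x hx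
          rw [(Finset.mem_filter.1 hx).2]
      _ ≤ ∑ q : X ⧸ N, (∑ y ∈ Finset.univ.filter (· ∈ N), nc N y) *
            nc (⊤ : Subgroup (X ⧸ N)) q :=
          Finset.sum_le_sum fun q _ => Nat.mul_le_mul_right _ (h2 q)
      _ = _ := by rw [Finset.mul_sum]
  rw [hX, hN, hQ] at h3
  have h4 : Nat.card N * Nat.card (X ⧸ N) = Nat.card X := by
    rw [← Subgroup.index_eq_card]; exact hcard
  apply Nat.le_of_mul_le_mul_right _ hXpos
  calc _ ≤ _ := h3
    _ = _ := by rw [← h4]; ring

end Cfsg.Agent.S4201
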