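import Cfsg.Statements.S4230

set_option autoImplicit false
open Cfsg

namespace Cfsg.Agent.S4230

open Polynomial

/-- Let p be an odd prime, q a natural number not divisible by p, and e the multiplicative order of q modulo p. For a natural number f, p divides the value at q of the f-th cyclotomic polynomial if and only if f = e·p^j for some j ≥ 0. -/
theorem result (p q f : ℕ) (hp : p.Prime) (hp2 : p ≠ 2) (hpq : ¬ p ∣ q) :
    ((p : ℤ) ∣ (Polynomial.cyclotomic f ℤ).eval (q : ℤ)) ↔ ∃ j : ℕ, f = orderOf (q : ZMod p) * p ^ j := by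
  haveI : Fact p.Prime := ⟨hp⟩
  have hq0 : (q : ZMod p) ≠ 0 := by
    rw [Ne, ZMod.natCast_eq_zero_iff]; exact hpq
  have hred : ((p : ℤ) ∣ (Polynomial.cyclotomic f ℤ).eval (q : ℤ)) ↔
      (cyclotomic f (ZMod p)).IsRoot (q : ZMod p) := by
    rw [← ZMod.intCast_zmod_eq_zero_iff_dvd, IsRoot.def]
    have h1 : cyclotomic f (ZMod p) = (cyclotomic f ℤ).map (Int.castRingHom (ZMod p)) := by
      rw [map_cyclotomic]
    have h2 : (q : ZMod p) = Int.castRingHom (ZMod p) (q : ℤ) := by simp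
    rw [h1, h2, eval_map, eval₂_at_apply]
    rfl
  rw [hred]
  set e := orderOf (q : ZMod p) with he
  have hdvd : e ∣ p - 1 := orderOf_dvd_of_pow_eq_one (ZMod.pow_card_sub_one_eq_one hq0)
  have hp1 : 0 < p - 1 := by have := hp.two_le; omega
  have hepos : 0 < e := Nat.pos_of_dvd_of_pos hdvd hp1
  have hep : ¬ p ∣ e := by
    intro h
    have := Nat.le_of_dvd hp1 (h.trans hdvd)
    omega
  constructor
  · intro h
    have hf : f ≠ 0 := by
      rintro rfl
      rw [cyclotomic_zero, IsRoot.def, eval_one] at h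
      exact one_ne_zero h
    obtain ⟨k, m, hm, rfl⟩ := Nat.exists_eq_pow_mul_and_not_dvd hf p hp.ne_one
    haveI : NeZero (m : ZMod p) := ⟨by rw [Ne, ZMod.natCast_eq_zero_iff]; exact hm⟩
    rw [isRoot_cyclotomic_prime_pow_mul_iff_of_charP] at h
    exact ⟨k, by rw [he, ← h.eq_orderOf, mul_comm]⟩
  · rintro ⟨j, rfl⟩
    haveI : NeZero (e : ZMod p) := ⟨by rw [Ne, ZMod.natCast_eq_zero_iff]; exact hep⟩
    rw [mul_comm, isRoot_cyclotomic_prime_pow_mul_iff_of_charP]
    exact IsPrimitiveRoot.orderOf _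

end Cfsg.Agent.S4230
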