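import Cfsg.Statements.S4231
import Cfsg.Agent.H25.AltPQ

set_option autoImplicit false
open Cfsg

namespace Cfsg.Agent.S4231

/-- Let n ≥ 5 and let G be a group of automorphisms of the alternating group of degree n containing all inner automorphisms. If p ≠ q are primes and G has no element of order pq, then every Sylow p-subgroup of G is abelian or every Sylow q-subgroup of G is abelian. -/
theorem result (n : ℕ) (hn : 5 ≤ n) (G : Subgroup (MulAut (alternatingGroup (Fin n))))
    (hG : (MulAut.conj : alternatingGroup (Fin n) →* MulAut (alternatingGroup (Fin n))).range ≤ G)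
    (p q : ℕ) [Fact p.Prime] [Fact q.Prime] (hpq : p ≠ q) (h : ∀ g : G, orderOf g ≠ p * q) :
    (∀ P : Sylow p G, IsMulCommutative (P : Subgroup G)) ∨ (∀ Q : Sylow q G, IsMulCommutative (Q : Subgroup G)) := by
  rcases lt_or_gt_of_ne hpq with hlt | hlt
  · right
    intro Q
    exact H25.AltPQ.main n hn G hG p q Fact.out Fact.out hlt h Q Q.isPGroup'
  · left
    intro P
    exact H25.AltPQ.main n hn G hG q p Fact.out Fact.out hlt (fun g => by rw [mul_comm]; exact h g) P P.isPGroup'

end Cfsg.Agent.S4231
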