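import Cfsg.Statements.S4237
import Cfsg.Agent.H25.Kul5

set_option autoImplicit false
open Cfsg

namespace Cfsg.Agent.S4237

/-- Let G be a finite group, p a prime and a a natural number such that p^(a+1) divides the order of G. Then the number of subgroups of G of order p^a is congruent to 1 or to 1 + p modulo p². -/
theorem result {G : Type*} [Group G] [Finite G] (p a : ℕ) (hp : p.Prime) (hdvd : p ^ (a + 1) ∣ Nat.card G) :
    Nat.card {H : Subgroup G // Nat.card H = p ^ a} ≡ 1 [MOD p ^ 2] ∨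
      Nat.card {H : Subgroup G // Nat.card H = p ^ a} ≡ 1 + p [MOD p ^ 2] := by
  haveI : Fact p.Prime := ⟨hp⟩
  have hda : p ^ a ∣ Nat.card G := (pow_dvd_pow p (Nat.le_succ a)).trans hdvd
  have h1 := Cfsg.Agent.H24.card_subgroups_modEq_one p a hp hda
  rcases Nat.eq_zero_or_pos a with h0 | hpos
  · subst h0
    left
    have : Nat.card {H : Subgroup G // Nat.card H = p ^ 0} = 1 := by
      rw [Nat.card_eq_one_iff_unique]
      refine ⟨⟨fun A B => Subtype.ext ?_⟩, ⟨⟨⊥, by simp⟩⟩⟩
      have hA : A.1 = ⊥ := Subgroup.card_eq_one.1 (by rw [A.2, pow_zero])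
      have hB : B.1 = ⊥ := Subgroup.card_eq_one.1 (by rw [B.2, pow_zero])
      rw [hA, hB]
    rw [this]
  by_cases hp2 : p = 2
  · subst hp2
    set c := Nat.card {H : Subgroup G // Nat.card H = 2 ^ a}
    have h2 : c % 2 = 1 := h1
    have h3 : c % 4 = 1 ∨ c % 4 = 3 := by omega
    rcases h3 with h | h
    · left; exact h
    · right; exact h
  · obtain ⟨P⟩ : Nonempty (Sylow p G) := inferInstance
    have h2 := Cfsg.Agent.H25.Kul.card_modEq_sylow P a hdvd
    rw [Cfsg.Agent.H25.Kul.cnt_eq] at h2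
    obtain ⟨m, hm⟩ := IsPGroup.iff_card.1 P.isPGroup'
    have hPa : p ^ (a + 1) ∣ Nat.card (P : Subgroup G) := by
      rw [P.card_eq_multiplicity]
      exact pow_dvd_pow _ ((hp.pow_dvd_iff_le_factorization Nat.card_pos.ne').1 hdvd)
    have ham : a < m := by
      rw [hm, Nat.pow_dvd_pow_iff_le_right hp.one_lt] at hPa
      omega
    by_cases hc : IsCyclic (P : Subgroup G)
    · left
      rw [Cfsg.Agent.H25.Kul.card_cyclic hm ham.le] at h2
      exact h2
    · right
      exact h2.trans (Cfsg.Agent.H25.Kul.main_odd hp2 m (P : Subgroup G) hm hc a hpos ham)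

end Cfsg.Agent.S4237
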