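import Cfsg.Statements.S4238
import Cfsg.Agent.H25.MinNonPNil

set_option autoImplicit false
open Cfsg

namespace Cfsg.Agent.S4238

open Subgroup

universe u

/-- the section property, with sections described by surjections -/
def Sec (p : ℕ) (G : Type u) [Group G] : Prop :=
  ∀ (K : Type u) [Group K], (∃ (H : Subgroup G) (f : H →* K), Function.Surjective f) →
    pPrimeCore p K = ⊥ → ∃ k : K, orderOf k = Monoid.exponent K

theorem Sec.subgroup {p : ℕ} {G : Type u} [Group G] (h : Sec p G) (S : Subgroup G) : Sec p S := by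
  rintro K _ ⟨H, f, hf⟩ hK
  apply h K _ hK
  let e : H ≃* H.map S.subtype := H.equivMapOfInjective _ S.subtype_injective
  exact ⟨H.map S.subtype, f.comp e.symm.toMonoidHom, hf.comp e.symm.surjective⟩

theorem Sec.quotient {p : ℕ} {G : Type u} [Group G] (h : Sec p G) (N : Subgroup G) [N.Normal] :
    Sec p (G ⧸ N) := by
  rintro K _ ⟨H, f, hf⟩ hK
  apply h K _ hK
  refine ⟨H.comap (QuotientGroup.mk' N), f.comp ((QuotientGroup.mk' N).subgroupComap H), ?_⟩
  exact hf.comp ((QuotientGroup.mk' N).subgroupComap_surjective_of_surjective H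
    (QuotientGroup.mk'_surjective N))

theorem main {p : ℕ} [hp : Fact p.Prime] (n : ℕ) : ∀ (G : Type u) [Group G] [Finite G],
    Nat.card G = n → Sec p G → HasNormalPComplement p G := by
  induction n using Nat.strong_induction_on with
  | _ n ih =>
    intro G _ _ hn hG
    by_contra hno
    have hsub : ∀ H : Subgroup G, H ≠ ⊤ → HasNormalPComplement p H := by
      intro H hH
      refine ih (Nat.card H) ?_ H rfl (hG.subgroup H)
      rw [← hn]
      exact lt_of_le_of_ne (Nat.le_of_dvd Nat.card_pos H.card_subgroup_dvd_card)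
        (fun h => hH (eq_top_of_card_eq H h))
    have hquo : ∀ (N : Subgroup G) [N.Normal], N ≠ ⊥ → HasNormalPComplement p (G ⧸ N) := by
      intro N _ hN
      refine ih (Nat.card (G ⧸ N)) ?_ (G ⧸ N) rfl (hG.quotient N)
      rw [← hn]
      have h1 := N.card_mul_index
      have h2 : 1 < Nat.card N := by
        rw [Finite.one_lt_card_iff_nontrivial, nontrivial_iff_ne_bot]
        exact hN
      rw [← index_eq_card, ← h1]
      exact lt_mul_of_one_lt_left (Nat.pos_of_ne_zero index_ne_zero_of_finite) h2
    have hO : pPrimeCore p G = ⊥ := by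
      rw [eq_bot_iff, pPrimeCore, sSup_le_iff]
      rintro N ⟨hN, hN2⟩
      rw [le_bot_iff]
      by_contra hne
      haveI := hN
      refine hno (H2.HasNormalPComplement.of_quotient_of_coprime N ?_ (hquo N hne))
      intro hd
      exact Nat.not_coprime_of_dvd_of_dvd hp.out.one_lt hd dvd_rfl hN2
    obtain ⟨k, hk⟩ := hG G ⟨⊤, (topEquiv (G := G)).toMonoidHom, (topEquiv (G := G)).surjective⟩ hO
    exact H25.min_pair_exponent hno hsub hquo k hk

theorem exists_exponent {p : ℕ} [hp : Fact p.Prime] {K : Type*} [Group K] [Finite K]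
    (hK : IsPGroup p K) : ∃ k : K, orderOf k = Monoid.exponent K := by
  obtain ⟨n, hn⟩ := IsPGroup.iff_card.1 hK
  have h1 : Monoid.exponent K ∣ p ^ n := hn ▸ Group.exponent_dvd_nat_card
  obtain ⟨m, -, hm⟩ := (Nat.dvd_prime_pow hp.out).1 h1
  rcases Nat.eq_zero_or_pos m with rfl | hm0
  · rw [pow_zero] at hm
    exact ⟨1, by rw [orderOf_one, hm]⟩
  · by_contra hcon
    push Not at hcon
    have h2 : ∀ k : K, k ^ p ^ (m - 1) = 1 := by
      intro k
      apply orderOf_dvd_iff_pow_eq_one.1
      have h3 : orderOf k ∣ p ^ m := hm ▸ Monoid.order_dvd_exponent k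
      obtain ⟨j, hj, hj2⟩ := (Nat.dvd_prime_pow hp.out).1 h3
      have h4 : j ≠ m := by
        rintro rfl
        exact hcon k (hj2.trans hm.symm)
      rw [hj2]
      exact pow_dvd_pow p (by omega)
    have h3 := Monoid.exponent_dvd_of_forall_pow_eq_one h2
    rw [hm, Nat.pow_dvd_pow_iff_le_right hp.out.one_lt] at h3
    omega

/-- Let G be a finite group and p a prime. Then G has a normal p-complement if and only if every section K = H/N of G (N a normal subgroup of a subgroup H) whose largest normal subgroup of order prime to p is trivial contains an element whose order equals the exponent of K. -/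
theorem result {G : Type*} [Group G] [Finite G] (p : ℕ) [Fact p.Prime] :
    Cfsg.HasNormalPComplement p G ↔
      ∀ (H : Subgroup G) (N : Subgroup H) [N.Normal], Cfsg.pPrimeCore p (H ⧸ N) = ⊥ →
        ∃ k : H ⧸ N, orderOf k = Monoid.exponent (H ⧸ N) := by
  constructor
  · intro h H N _ hO
    have h1 := H2.HasNormalPComplement.quotient (H2.HasNormalPComplement.subgroup h H) N
    rw [H2.hasNormalPComplement_iff] at h1
    obtain ⟨M, hM, hpM, k, hk⟩ := h1
    have h2 : M = ⊥ := by
      rw [← le_bot_iff, ← hO]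
      exact le_sSup ⟨hM, Nat.coprime_comm.1 ((Nat.Prime.coprime_iff_not_dvd Fact.out).2 hpM)⟩
    rw [h2, index_bot] at hk
    exact exists_exponent (IsPGroup.of_card hk)
  · intro h
    refine main (Nat.card G) G rfl ?_
    rintro K _ ⟨H, f, hf⟩ hK
    let e := QuotientGroup.quotientKerEquivOfSurjective f hf
    have hcore : pPrimeCore p (H ⧸ f.ker) = ⊥ := by
      rw [eq_bot_iff, pPrimeCore, sSup_le_iff]
      rintro N ⟨hN, hN2⟩
      have h1 : N.map e.toMonoidHom ≤ pPrimeCore p K := by
        apply le_sSup
        refine ⟨hN.map _ e.surjective, ?_⟩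
        rw [← Nat.card_congr (N.equivMapOfInjective e.toMonoidHom e.injective).toEquiv]
        exact hN2
      rw [hK, le_bot_iff] at h1
      rw [(map_eq_bot_iff_of_injective (f := e.toMonoidHom) N e.injective).1 h1]
    obtain ⟨k, hk⟩ := h H f.ker hcore
    refine ⟨e k, ?_⟩
    rw [MulEquiv.orderOf_eq, hk]
    exact Monoid.exponent_eq_of_mulEquiv e

end Cfsg.Agent.S4238
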