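import Cfsg.Statements.S4240
import Cfsg.Agent.H13.MaxInv

set_option autoImplicit false
set_option linter.all false
open Cfsg

open Cfsg.Agent.H13 Subgroup

namespace Cfsg.Agent.S4240

open Cfsg.Agent

/-- Let a finite group A act by automorphisms on a finite group G of order coprime to that of A. Suppose every maximal A-invariant proper subgroup of G is nilpotent while G is not. Then G is solvable, the order of G has the form p^a·q^b for two distinct primes p and q, and G has a normal A-invariant Sylow subgroup for some prime dividing its order. -/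
theorem result {A G : Type*} [Group A] [Group G] [Finite A] [Finite G] [MulDistribMulAction A G]
    (hcop : (Nat.card A).Coprime (Nat.card G))
    (hmax : ∀ H : Subgroup G, H ≠ ⊤ → (∀ a : A, ∀ x ∈ H, a • x ∈ H) →
      (∀ K : Subgroup G, H < K → (∀ a : A, ∀ x ∈ K, a • x ∈ K) → K = ⊤) → Group.IsNilpotent H)
    (hG : ¬ Group.IsNilpotent G) :
    Group.IsSolvable G ∧
      (∃ p q a b : ℕ, p.Prime ∧ q.Prime ∧ p ≠ q ∧ Nat.card G = p ^ a * q ^ b) ∧
      ∃ (p : ℕ) (P : Sylow p G), p.Prime ∧ p ∣ Nat.card G ∧ (P : Subgroup G).Normal ∧ (∀ a : A, ∀ x ∈ (P : Subgroup G), a • x ∈ (P : Subgroup G)) := by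
  haveI : (gS A G).Normal := gS_normal A G
  have hc : (Nat.card (aS A G)).Coprime (Nat.card (gS A G)) := by rw [card_gS, card_aS]; exact hcop
  have hnilA : ∀ H : Subgroup (SP A G), H < gS A G → aS A G ≤ normalizer (H : Set (SP A G)) →
      Group.IsNilpotent H := by
    intro H hH hA
    have h1 := map_comap_iG (A := A) (G := G) hH.le
    have h2 : Group.IsNilpotent (H.comap (iG A G)) := by
      refine nilpotent_of_maximal hmax _ ?_ ?_
      · intro h
        rw [h, map_iG_top] at h1
        exact hH.ne h1.symm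
      · rw [invariant_iff, h1]; exact hA
    have h3 := H1.isNilpotent_map (iG A G) h2
    rwa [h1] at h3
  have hG' : ¬ Group.IsNilpotent (gS A G) := fun h =>
    hG (H1.isNilpotent_of_equiv (MonoidHom.ofInjective (iG_injective A G)).symm h)
  obtain ⟨q, r, hq, hr, hqr, Q, R, hQ, hR, hQn, hQR, hQb⟩ :=
    struct_aux (aS A G) (gS A G) (gS_sup_aS A G) hc hnilA hG'
  haveI : Fact q.Prime := ⟨hq⟩
  haveI : Fact r.Prime := ⟨hr⟩
  obtain ⟨a, ha⟩ := IsPGroup.iff_card.mp hQ.isPGroup
  obtain ⟨b, hb⟩ := IsPGroup.iff_card.mp hR.isPGroup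
  have hcQR : Nat.card G = q ^ a * r ^ b := by
    have h1 := H1.card_sup_of_coprime (H := Q) (K := R) (by rw [Subgroup.normalizer_eq_top]; exact le_top)
      (by rw [ha, hb]; exact Nat.Coprime.pow _ _ ((Nat.coprime_primes hq hr).mpr hqr))
    rw [hQR, card_gS, ha, hb] at h1
    exact h1
  have hsol : Group.IsSolvable (gS A G) := by
    have hcard : Nat.card (gS A G) = q ^ a * r ^ b := by rw [card_gS]; exact hcQR
    haveI : (Q.subgroupOf (gS A G)).Normal := Subgroup.normal_subgroupOf
    have h1 : Group.IsSolvable (Q.subgroupOf (gS A G)) :=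
      H1.isSolvable_subgroupOf hQ.le (by haveI := hQ.isPGroup.isNilpotent; infer_instance)
    have h2 : Group.IsSolvable ((gS A G) ⧸ Q.subgroupOf (gS A G)) := by
      have h3 : Nat.card ((gS A G) ⧸ Q.subgroupOf (gS A G)) = r ^ b := by
        rw [← Subgroup.index_eq_card]
        have h4 := Subgroup.card_mul_index (Q.subgroupOf (gS A G))
        rw [H1.card_subgroupOf hQ.le, hcard, ha] at h4
        exact Nat.eq_of_mul_eq_mul_left (pow_pos hq.pos a) h4
      haveI := (IsPGroup.of_card h3).isNilpotent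
      infer_instance
    exact (Group.isSolvable_iff_subgroup_quotient _).mpr ⟨h1, h2⟩
  refine ⟨H1.isSolvable_of_equiv (MonoidHom.ofInjective (iG_injective A G)).symm hsol,
    ⟨q, r, a, b, hq, hr, hqr, hcQR⟩, q, ?_⟩
  -- the Sylow subgroup
  have hQm := map_comap_iG (A := A) (G := G) hQ.le
  have hQc : Nat.card (Q.comap (iG A G)) = q ^ a := by
    rw [← ha]
    conv_rhs => rw [← hQm]
    exact Nat.card_congr (mapIGEquiv _).toEquiv
  have hQs : ∃ P : Sylow q G, (P : Subgroup G) = Q.comap (iG A G) := by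
    obtain ⟨P, hP⟩ := (IsPGroup.of_card hQc).exists_le_sylow
    refine ⟨P, (Subgroup.eq_of_le_of_card_ge hP ?_).symm⟩
    rw [hQc]
    obtain ⟨c, hc⟩ := IsPGroup.iff_card.mp P.isPGroup'
    have h1 : Nat.card (P : Subgroup G) ∣ q ^ a * r ^ b := by
      rw [← hcQR]; exact Subgroup.card_subgroup_dvd_card _
    rw [hc] at h1 ⊢
    have h2 : q ^ c ∣ q ^ a :=
      Nat.Coprime.dvd_of_dvd_mul_right (Nat.Coprime.pow _ _ ((Nat.coprime_primes hq hr).mpr hqr)) h1
    exact Nat.le_of_dvd (pow_pos hq.pos a) h2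
  obtain ⟨P, hP⟩ := hQs
  refine ⟨P, hq, ?_, ?_, ?_⟩
  · rw [hcQR]
    have ha0 : a ≠ 0 := by
      rintro rfl
      rw [pow_zero] at ha
      exact hQb (Subgroup.card_eq_one.mp ha)
    exact (dvd_pow_self q ha0).mul_right _
  · rw [hP]; infer_instance
  · rw [invariant_iff, hP, hQm, Subgroup.normalizer_eq_top]
    exact le_top

end Cfsg.Agent.S4240
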