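import Cfsg.Statements.S4242
import Cfsg.Agent.H25.MinNonPNil
import Cfsg.Agent.H25.Primary
import Cfsg.Agent.H23.Coprime4

set_option autoImplicit false
open Cfsg

namespace Cfsg.Agent.S4242

open Subgroup
open scoped Pointwise

/-- product of two commuting nilpotent subgroups -/
theorem nilp_of_prod {G : Type*} [Group G] (A B M : Subgroup G)
    (hcomm : ∀ a ∈ A, ∀ b ∈ B, a * b = b * a) (hA : Group.IsNilpotent A) (hB : Group.IsNilpotent B)
    (hAM : A ≤ M) (hBM : B ≤ M) (hM : ∀ m ∈ M, ∃ a ∈ A, ∃ b ∈ B, m = a * b) :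
    Group.IsNilpotent M := by
  let f : A × B →* M :=
    { toFun := fun x => ⟨x.1 * x.2, M.mul_mem (hAM x.1.2) (hBM x.2.2)⟩
      map_one' := by simp
      map_mul' := by
        rintro ⟨a, b⟩ ⟨c, d⟩
        apply Subtype.ext
        show ((a : G) * c) * (b * d) = (a * b) * (c * d)
        have := hcomm c c.2 b b.2
        calc ((a : G) * c) * (b * d) = a * (c * b) * d := by group
          _ = (a * b) * (c * d) := by rw [this]; group }
  refine Group.nilpotent_of_surjective f ?_
  rintro ⟨m, hm⟩
  obtain ⟨a, ha, b, hb, rfl⟩ := hM m hm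
  exact ⟨(⟨a, ha⟩, ⟨b, hb⟩), rfl⟩

theorem forward {G : Type*} [Group G] [Finite G] (p : ℕ) [hp : Fact p.Prime] (hpG : p ∣ Nat.card G)
    (hM : ∀ M : Subgroup G, IsCoatom M → p ∣ Nat.card M → Group.IsNilpotent M) :
      (Group.IsNilpotent G ∨ Cfsg.IsMinimalNonNilpotent G ∨
        ∃ Z K : Subgroup G, Z.Normal ∧ K.Normal ∧ Z ⊓ K = ⊥ ∧ Z ⊔ K = ⊤ ∧ Nat.card Z = p ∧
          Cfsg.IsMinimalNonNilpotent K ∧ ¬ p ∣ Nat.card K) := by
  by_cases hnil : Group.IsNilpotent G
  · exact Or.inl hnil
  right
  by_cases hall : ∀ H : Subgroup G, H ≠ ⊤ → Group.IsNilpotent H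
  · exact Or.inl ⟨hnil, hall⟩
  right
  push Not at hall
  obtain ⟨H, hH, hHn⟩ := hall
  obtain ⟨M, hMc, hHM⟩ := (eq_top_or_exists_le_coatom H).resolve_left hH
  have hMn : ¬ Group.IsNilpotent M := fun h => hHn (H25.nilpotent_mono hHM h)
  have hpM : ¬ p ∣ Nat.card M := fun h => hMn (hM M hMc h)
  have hprop : ∀ L : Subgroup G, L ≠ ⊤ → p ∣ Nat.card L → Group.IsNilpotent L := by
    intro L hL hpL
    obtain ⟨M', hMc', hLM⟩ := (eq_top_or_exists_le_coatom L).resolve_left hL
    exact H25.nilpotent_mono hLM (hM M' hMc' (hpL.trans (card_dvd_of_le hLM)))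
  -- `G` has a normal `p`-complement
  have hcomp : HasNormalPComplement p G := by
    by_contra hno
    obtain ⟨X, g, q, hXn, hX, hq, hqp, -, -, htop, -⟩ := H25.exists_min_pair hno (by
      intro L hL
      by_cases hpL : p ∣ Nat.card L
      · exact H2.HasNormalPComplement.of_isNilpotent (hprop L hL hpL)
      · exact H2.HasNormalPComplement.of_not_dvd hpL)
    apply hMn
    -- `M` embeds in the cyclic group `G / X`
    have hcyc : IsCyclic (G ⧸ X) := by
      refine ⟨QuotientGroup.mk' X g, fun y => ?_⟩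
      obtain ⟨y, rfl⟩ := QuotientGroup.mk'_surjective X y
      have hy : y ∈ X ⊔ zpowers g := by rw [htop]; trivial
      rw [mem_sup_of_normal_left] at hy
      obtain ⟨x, hx, z, ⟨i, rfl⟩, rfl⟩ := hy
      refine ⟨i, ?_⟩
      show (QuotientGroup.mk' X g) ^ i = QuotientGroup.mk' X (x * g ^ i)
      rw [map_mul, map_zpow, (QuotientGroup.eq_one_iff x).2 hx |> (fun h : QuotientGroup.mk' X x = 1 => h), one_mul]
    have hinj : Function.Injective ((QuotientGroup.mk' X).comp M.subtype) := by
      rw [injective_iff_map_eq_one]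
      intro m hm
      have hmX : (m : G) ∈ X := (QuotientGroup.eq_one_iff (m : G)).1 hm
      obtain ⟨j, hj⟩ := hX ⟨m, hmX⟩
      have hj' : (m : G) ^ p ^ j = 1 := congrArg Subtype.val hj
      have h1 : orderOf m ∣ p ^ j := by
        rw [← orderOf_coe]
        exact orderOf_dvd_of_pow_eq_one hj'
      rw [← orderOf_eq_one_iff]
      exact Nat.eq_one_of_dvd_coprimes (Nat.Coprime.pow_right j
        (Nat.coprime_comm.1 ((Nat.Prime.coprime_iff_not_dvd hp.out).2 hpM))) (orderOf_dvd_natCard m) h1
    apply H25.nilpotent_of_comm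
    intro a b
    apply hinj
    rw [map_mul, map_mul]
    exact hcyc.isMulCommutative.is_comm.comm _ _
  rw [H2.hasNormalPComplement_iff] at hcomp
  obtain ⟨K, hK, hpK, k, hk⟩ := hcomp
  have hMK : M = K := by
    have hle : M ≤ K := by
      intro m hm
      rw [← QuotientGroup.eq_one_iff, ← orderOf_eq_one_iff]
      have h1 : orderOf ((m : G) : G ⧸ K) ∣ p ^ k := by
        have := orderOf_dvd_natCard ((m : G) : G ⧸ K)
        rwa [← index_eq_card, hk] at this
      have h2 : orderOf ((m : G) : G ⧸ K) ∣ Nat.card M := by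
        have h3 := orderOf_map_dvd (QuotientGroup.mk' K) m
        have h4 : orderOf m ∣ Nat.card M := by
          have := orderOf_dvd_natCard (⟨m, hm⟩ : M)
          rwa [Subgroup.orderOf_mk] at this
        exact h3.trans h4
      exact Nat.eq_one_of_dvd_coprimes (Nat.Coprime.pow_right k
        (Nat.coprime_comm.1 ((Nat.Prime.coprime_iff_not_dvd hp.out).2 hpM))) h2 h1
    have hKt : K ≠ ⊤ := by
      rintro rfl
      rw [card_top] at hpK
      exact hpK hpG
    by_contra hne
    exact hKt (hMc.2 K (lt_of_le_of_ne hle hne))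
  subst hMK
  -- the index of `M` is `p`
  have hidx : M.index = p := by
    have hpi : p ∣ M.index := by
      have h1 := M.card_mul_index
      exact (hp.out.dvd_mul.1 (h1 ▸ hpG)).resolve_left hpM
    rw [index_eq_card] at hpi
    obtain ⟨x, hx⟩ := exists_prime_orderOf_dvd_card' p hpi
    have h1 : (zpowers x).comap (QuotientGroup.mk' M) = ⊤ := by
      apply hMc.2
      apply lt_of_le_of_ne
      · intro m hm
        rw [mem_comap]
        have : QuotientGroup.mk' M m = 1 := (QuotientGroup.eq_one_iff m).2 hm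
        rw [this]
        exact one_mem _
      · intro h
        obtain ⟨y, rfl⟩ := QuotientGroup.mk'_surjective M x
        have h2 : y ∈ M := by
          rw [h, mem_comap]
          exact mem_zpowers _
        have h3 : QuotientGroup.mk' M y = 1 := (QuotientGroup.eq_one_iff y).2 h2
        rw [h3, orderOf_one] at hx
        exact hp.out.one_lt.ne hx
    have h2 : zpowers x = ⊤ := by
      rw [eq_top_iff]
      intro y _
      obtain ⟨y, rfl⟩ := QuotientGroup.mk'_surjective M y
      have : y ∈ (zpowers x).comap (QuotientGroup.mk' M) := by rw [h1]; trivial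
      exact this
    rw [index_eq_card, ← card_top, ← h2, Nat.card_zpowers, hx]
  have hcardG : Nat.card G = Nat.card M * p := by rw [← hidx, M.card_mul_index]
  obtain ⟨P⟩ := (inferInstance : Nonempty (Sylow p G))
  have hPM : (P : Subgroup G) ⊓ M = ⊥ := by
    rw [← disjoint_iff]
    apply disjoint_of_coprime_natCard
    obtain ⟨n, hn⟩ := IsPGroup.iff_card.1 P.isPGroup'
    rw [hn]
    exact Nat.Coprime.pow_left n ((Nat.Prime.coprime_iff_not_dvd hp.out).2 hpM)
  have hcardP : Nat.card (P : Subgroup G) = p := by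
    have h1 : p ^ 1 ∣ Nat.card (P : Subgroup G) :=
      P.pow_dvd_card_of_pow_dvd_card (by rw [pow_one]; exact hpG)
    rw [pow_one] at h1
    have h2 : Nat.card (P : Subgroup G) ∣ M.index := by
      have h3 : (Nat.card (P : Subgroup G)).Coprime (Nat.card M) := by
        obtain ⟨n, hn⟩ := IsPGroup.iff_card.1 P.isPGroup'
        rw [hn]
        exact Nat.Coprime.pow_left n ((Nat.Prime.coprime_iff_not_dvd hp.out).2 hpM)
      have h4 : Nat.card (P : Subgroup G) ∣ Nat.card M * M.index := by
        rw [M.card_mul_index]; exact card_subgroup_dvd_card _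
      exact h3.dvd_of_dvd_mul_left h4
    rw [hidx] at h2
    exact Nat.dvd_antisymm h2 h1
  have hPMtop : (P : Subgroup G) ⊔ M = ⊤ := by
    by_contra hne
    have h1 : M < (P : Subgroup G) ⊔ M := by
      apply lt_of_le_of_ne le_sup_right
      intro h
      have h2 : (P : Subgroup G) ≤ M := by
        rw [h]; exact le_sup_left
      have h3 : (P : Subgroup G) = ⊥ := by rw [← hPM, inf_eq_left.2 h2]
      rw [h3, card_bot] at hcardP
      exact hp.out.one_lt.ne hcardP
    exact hne (hMc.2 _ h1)
  -- `P` centralizes `M`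
  have hcop : (Nat.card (P : Subgroup G)).Coprime (Nat.card M) := by
    rw [hcardP]
    exact (Nat.Prime.coprime_iff_not_dvd hp.out).2 hpM
  have hPn : (P : Subgroup G) ≤ normalizer (M : Set G) := by
    rw [normalizer_eq_top]; exact le_top
  have hPs : Group.IsSolvable (P : Subgroup G) := by
    haveI := P.isPGroup'.isNilpotent
    infer_instance
  have hcent : M ≤ centralizer ((P : Subgroup G) : Set G) := by
    apply H23.le_of_forall_isSylowOf_le
    intro r hr
    obtain ⟨R, hR, hPR⟩ := H23.exists_invariant_sylow hPn hcop (Or.inl hPs) r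
    refine ⟨R, hR, ?_⟩
    have hne : (P : Subgroup G) ⊔ R ≠ ⊤ := by
      intro h
      apply hMn
      have hMR : M ≤ R := by
        intro m hm
        have hm' : m ∈ (P : Subgroup G) ⊔ R := by rw [h]; trivial
        haveI hRn : R.Normal := by
          rw [← normalizer_eq_top_iff, eq_top_iff, ← h, sup_le_iff]
          exact ⟨hPR, le_normalizer⟩
        rw [mem_sup_of_normal_right] at hm'
        obtain ⟨y, hy, x, hx, rfl⟩ := hm'
        have h1 : y ∈ (P : Subgroup G) ⊓ M := ⟨hy, (M.mul_mem_cancel_right (hR.le hx)).1 hm⟩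
        rw [hPM, mem_bot] at h1
        rw [h1, one_mul]
        exact hx
      exact (hR.isPGroup.to_le hMR).isNilpotent
    have hnilR := hprop _ hne (by
      have h2 := card_dvd_of_le (le_sup_left : (P : Subgroup G) ≤ (P : Subgroup G) ⊔ R)
      rwa [hcardP] at h2)
    have hrp : r ∣ Nat.card M → r ≠ p := by
      rintro h rfl
      exact hpM h
    by_cases hrM : r ∣ Nat.card M
    · have hrp' := hrp hrM
      have hc := H2.HasNormalPComplement.of_isNilpotent (p := r) hnilR
      intro x hx
      rw [mem_centralizer_iff]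
      intro y hy
      have hyS : y ∈ (P : Subgroup G) ⊔ R := (le_sup_left : (P : Subgroup G) ≤ _) hy
      have h2 := H2.mem_centralizer_of_hasNormalPComplement hc (X := R.subgroupOf ((P : Subgroup G) ⊔ R))
        (hR.isPGroup.comap_of_injective _ (subtype_injective _)) (g := ⟨y, hyS⟩) (by
          rw [mem_normalizer_iff]
          intro z
          rw [mem_subgroupOf, mem_subgroupOf]
          exact mem_normalizer_iff.1 (hPR hy) z) (by
          rw [Subgroup.orderOf_mk]
          have h3 : orderOf y ∣ p := by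
            have := orderOf_dvd_natCard (⟨y, hy⟩ : (P : Subgroup G))
            rwa [Subgroup.orderOf_mk, hcardP] at this
          exact Nat.Coprime.coprime_dvd_left h3 ((Nat.coprime_primes hp.out hr.out).2 hrp'.symm))
      rw [mem_centralizer_iff] at h2
      exact (congrArg Subtype.val (h2 ⟨x, (le_sup_right : R ≤ _) hx⟩ hx)).symm
    · -- `R` is trivial
      have hRb : R = ⊥ := by
        obtain ⟨n, hn⟩ := IsPGroup.iff_card.1 hR.isPGroup
        rw [← card_eq_one, hn]
        rcases Nat.eq_zero_or_pos n with rfl | hn0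
        · rfl
        · exfalso
          apply hrM
          exact (dvd_pow_self r hn0.ne').trans (hn ▸ card_dvd_of_le hR.le)
      rw [hRb]
      exact bot_le
  have hPnorm : (P : Subgroup G).Normal := by
    rw [← normalizer_eq_top_iff, eq_top_iff, ← hPMtop, sup_le_iff]
    exact ⟨le_normalizer, hcent.trans (H2.centralizer_le_normalizer _)⟩
  refine ⟨P, M, hPnorm, hK, hPM, hPMtop, hcardP, ⟨hMn, ?_⟩, hpM⟩
  intro L hL
  have hne : (P : Subgroup G) ⊔ L.map M.subtype ≠ ⊤ := by
    intro h
    apply hL
    rw [eq_top_iff]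
    rintro ⟨m, hm⟩ -
    have hm' : m ∈ (P : Subgroup G) ⊔ L.map M.subtype := by rw [h]; trivial
    rw [mem_sup_of_normal_left] at hm'
    obtain ⟨x, hx, y, ⟨l, hl, rfl⟩, hxy⟩ := hm'
    have h1 : x ∈ (P : Subgroup G) ⊓ M := ⟨hx, by
      have : x * (l : G) ∈ M := by
        have h2 : x * (l : G) = m := hxy
        rw [h2]; exact hm
      exact (M.mul_mem_cancel_right l.2).1 this⟩
    rw [hPM, mem_bot] at h1
    rw [h1, one_mul] at hxy
    have : l = ⟨m, hm⟩ := Subtype.ext hxy
    rw [← this]
    exact hl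
  have h1 := hprop _ hne (by
    have h2 := card_dvd_of_le (le_sup_left : (P : Subgroup G) ≤ (P : Subgroup G) ⊔ L.map M.subtype)
    rwa [hcardP] at h2)
  have h2 := H25.nilpotent_mono (le_sup_right : L.map M.subtype ≤ (P : Subgroup G) ⊔ L.map M.subtype) h1
  exact (Group.isNilpotent_congr (L.equivMapOfInjective M.subtype M.subtype_injective)).2 h2

/-- Let G be a finite group and p a prime dividing its order. Every maximal subgroup of G of order divisible by p is nilpotent if and only if G is nilpotent, or G is a minimal non-nilpotent group, or G is the internal direct product of a normal subgroup of order p and a normal minimal non-nilpotent subgroup of order prime to p. -/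
theorem result {G : Type*} [Group G] [Finite G] (p : ℕ) (hp : p.Prime) (hpG : p ∣ Nat.card G) :
    (∀ M : Subgroup G, IsCoatom M → p ∣ Nat.card M → Group.IsNilpotent M) ↔
      (Group.IsNilpotent G ∨ Cfsg.IsMinimalNonNilpotent G ∨
        ∃ Z K : Subgroup G, Z.Normal ∧ K.Normal ∧ Z ⊓ K = ⊥ ∧ Z ⊔ K = ⊤ ∧ Nat.card Z = p ∧
          Cfsg.IsMinimalNonNilpotent K ∧ ¬ p ∣ Nat.card K) := by
  haveI : Fact p.Prime := ⟨hp⟩
  refine ⟨forward p hpG, ?_⟩
  rintro (h | h | ⟨Z, K, hZ, hK, hZK, hZKt, hZc, hKm, hpK⟩) M hM hpM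
  · infer_instance
  · exact h.2 M hM.1
  · have hcomm : ∀ a ∈ Z, ∀ b ∈ K, a * b = b * a := fun a ha b hb =>
      commute_of_normal_of_disjoint Z K hZ hK (disjoint_iff.2 hZK) a b ha hb
    -- `Z ≤ M`
    have hZM : Z ≤ M := by
      obtain ⟨x, hx⟩ := exists_prime_orderOf_dvd_card' p hpM
      have hx' : orderOf (x : G) = p := by rw [orderOf_coe, hx]
      have hidx : Z.index = Nat.card K := by
        have h1 : Z.IsComplement' K := by
          apply isComplement'_of_disjoint_and_mul_eq_univ
          · rw [disjoint_iff]; exact hZK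
          · rw [← normal_mul, hZKt]; rfl
        exact h1.symm.index_eq_card
      have hxZ : (x : G) ∈ Z := by
        rw [← QuotientGroup.eq_one_iff, ← orderOf_eq_one_iff]
        have h1 : orderOf (((x : G)) : G ⧸ Z) ∣ Nat.card K := by
          have := orderOf_dvd_natCard (((x : G)) : G ⧸ Z)
          rwa [← index_eq_card, hidx] at this
        have h2 : orderOf (((x : G)) : G ⧸ Z) ∣ p := by
          have := orderOf_map_dvd (QuotientGroup.mk' Z) (x : G)
          rwa [hx'] at this
        exact Nat.eq_one_of_dvd_coprimes ((Nat.Prime.coprime_iff_not_dvd hp).2 hpK) h2 h1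
      have hzx : zpowers (x : G) = Z := by
        apply eq_of_le_of_card_ge
        · rw [zpowers_le]; exact hxZ
        · rw [hZc, Nat.card_zpowers, hx']
      rw [← hzx, zpowers_le]
      exact x.2
    apply nilp_of_prod Z (M ⊓ K) M (fun a ha b hb => hcomm a ha b hb.2)
    · exact (IsPGroup.of_card (p := p) (n := 1) (by rw [hZc, pow_one])).isNilpotent
    · have hne : (M ⊓ K).subgroupOf K ≠ ⊤ := by
        intro h
        rw [subgroupOf_eq_top] at h
        apply hM.1
        rw [eq_top_iff, ← hZKt, sup_le_iff]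
        exact ⟨hZM, h.trans inf_le_left⟩
      have h1 := hKm.2 _ hne
      exact (Group.isNilpotent_congr (subgroupOfEquivOfLe (inf_le_right : M ⊓ K ≤ K))).1 h1
    · exact hZM
    · exact inf_le_left
    · intro m hm
      have hm' : m ∈ Z ⊔ K := by rw [hZKt]; trivial
      rw [mem_sup_of_normal_left] at hm'
      obtain ⟨x, hx, y, hy, rfl⟩ := hm'
      exact ⟨x, hx, y, ⟨(M.mul_mem_cancel_left (hZM hx)).1 hm, hy⟩, rfl⟩

end Cfsg.Agent.S4242
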