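import Cfsg.Statements.S4244
import Cfsg.Agent.H25.Fitting

set_option autoImplicit false
open Cfsg

namespace Cfsg.Agent.S4244

open Cfsg.Agent.H25

theorem result {G : Type*} [Group G] [Finite G] (H : Subgroup G) (hH : H.IsSubnormal) (K : Subgroup G) :
    (H ⊓ K).relIndex H ∣ K.index := by
  rw [Subgroup.inf_relIndex_left]
  induction hH with
  | top => simp
  | step H L hHL hL hn ih =>
    refine dvd_trans ?_ ih
    have h1 : K.relIndex H = (K.subgroupOf L).relIndex (H.subgroupOf L) := by
      rw [Subgroup.relIndex_subgroupOf hHL]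
    rw [h1]
    exact relIndex_dvd_index_of_normal_right _ _

end Cfsg.Agent.S4244
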