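import Cfsg.Statements.S4245
import Cfsg.Agent.H25.SolvCrit
import Cfsg.Agent.H25.ClassSize
import Cfsg.Agent.S0143

set_option autoImplicit false
open Cfsg

namespace Cfsg.Agent.S4245

open Cfsg.Agent.H25

universe u

theorem burn' {G : Type*} [Group G] [Finite G] [IsSimpleGroup G] (p k : ℕ) (hp : p.Prime) (g : G) (hg : g ≠ 1)
    (hclass : (Subgroup.centralizer ({g} : Set G)).index ∣ p ^ k) : Group.IsSolvable G := by
  obtain ⟨j, -, hj⟩ := (Nat.dvd_prime_pow hp).1 hclass
  haveI : Fact (Nat.card G).Prime := ⟨Cfsg.Agent.S0143.result p j hp g hg hj⟩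
  haveI : IsCyclic G := isCyclic_of_prime_card rfl
  letI := IsCyclic.commGroup (α := G)
  infer_instance

/-- the class of groups -/
def P (G : Type u) [Group G] : Prop :=
  ∃ (p s : ℕ) (A : Subgroup G), p.Prime ∧ A.index ∣ p ^ s ∧ CycBy2 A

theorem solvable_of_pgroup_card {G : Type*} [Group G] [Finite G] {p k : ℕ} (hp : p.Prime)
    (h : Nat.card G ∣ p ^ k) : Group.IsSolvable G := by
  haveI : Fact p.Prime := ⟨hp⟩
  obtain ⟨j, -, hj⟩ := (Nat.dvd_prime_pow hp).1 h
  haveI : Group.IsNilpotent G := (IsPGroup.of_card hj).isNilpotent
  infer_instance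

theorem simple_case (G : Type u) [Group G] [Finite G] [IsSimpleGroup G] (h : P G) :
    Group.IsSolvable G := by
  classical
  obtain ⟨p, s, A, hp, hA, B, hBn, hBc, hq, r, hr⟩ := h
  have hpow : ∀ g : G, Subgroup.centralizer ({g} : Set G) = Subgroup.centralizer ({g} : Set G) :=
    fun _ => rfl
  by_cases hp2 : p = 2
  · subst hp2
    by_cases hBb : B = ⊥
    · apply solvable_of_pgroup_card (p := 2) (k := r + s) Nat.prime_two
      rw [← A.card_mul_index, pow_add]
      apply mul_dvd_mul _ hA
      rw [← hr, ← Subgroup.index_eq_card, hBb, Subgroup.index_bot]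
    · obtain ⟨b, hb, hb1⟩ := (Subgroup.ne_bot_iff_exists_ne_one.1 hBb : ∃ b : B, b ≠ 1) |>.elim
        (fun b hb => (⟨b.1, b.2, fun h => hb (Subtype.ext h)⟩ : ∃ b, b ∈ B ∧ b ≠ 1))
      apply burn' 2 (r + s) Nat.prime_two (b : G) (fun h => hb1 (Subtype.ext h))
      have h1 : B.map A.subtype ≤ Subgroup.centralizer ({(b : G)} : Set G) := by
        rintro _ ⟨c, hc, rfl⟩
        rw [Subgroup.mem_centralizer_singleton_iff]
        letI := IsCyclic.commGroup (α := B)
        have := congrArg (fun x : B => ((x : A) : G)) (mul_comm (⟨c, hc⟩ : B) ⟨b, hb⟩)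
        simpa using this
      refine (Subgroup.index_dvd_of_le h1).trans ?_
      rw [Subgroup.index_map_subtype, pow_add, ← hr, ← Subgroup.index_eq_card]
      exact mul_dvd_mul dvd_rfl hA
  · by_cases heven : 2 ∣ Nat.card B
    · haveI : Fact (Nat.Prime 2) := ⟨Nat.prime_two⟩
      obtain ⟨t, ht⟩ := exists_prime_orderOf_dvd_card' 2 heven
      have ht1 : t ≠ 1 := by
        rintro rfl
        simp at ht
      have htt : t ^ 2 = 1 := ht ▸ pow_orderOf_eq_one t
      apply burn' p s hp ((t : A) : G) (fun h => ht1 (Subtype.ext (Subtype.ext h)))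
      refine (Subgroup.index_dvd_of_le ?_).trans hA
      intro a ha
      rw [Subgroup.mem_centralizer_singleton_iff]
      -- the conjugate of `t`
      let t' : B := ⟨⟨a, ha⟩ * t * ⟨a, ha⟩⁻¹, hBn.conj_mem t t.2 ⟨a, ha⟩⟩
      have ht' : t' ^ 2 = 1 := by
        apply Subtype.ext
        have h2 : (t : A) ^ 2 = 1 := by exact_mod_cast congrArg Subtype.val htt
        show ((⟨a, ha⟩ : A) * t * ⟨a, ha⟩⁻¹) ^ 2 = 1
        rw [conj_pow, h2]; simp
      have ht'1 : t' ≠ 1 := by
        intro h3
        apply ht1
        apply Subtype.ext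
        have h4 : (⟨a, ha⟩ : A) * t * ⟨a, ha⟩⁻¹ = 1 := congrArg Subtype.val h3
        have h5 : (t : A) = 1 := by
          have := congrArg (fun z => (⟨a, ha⟩ : A)⁻¹ * z * ⟨a, ha⟩) h4
          simpa [mul_assoc] using this
        exact h5
      have heq : t' = t := by
        by_contra hne
        haveI : Fintype B := Fintype.ofFinite B
        have h6 := IsCyclic.card_pow_eq_one_le (α := B) (n := 2) (by norm_num)
        have h7 : ({1, t, t'} : Finset B) ⊆ Finset.univ.filter (fun x : B => x ^ 2 = 1) := by
          intro x hx
          simp only [Finset.mem_insert, Finset.mem_singleton] at hx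
          simp only [Finset.mem_filter, Finset.mem_univ, true_and]
          rcases hx with rfl | rfl | rfl
          · simp
          · exact htt
          · exact ht'
        have h8 : ({1, t, t'} : Finset B).card = 3 := by
          rw [Finset.card_eq_three]
          exact ⟨1, t, t', ht1.symm, ht'1.symm, Ne.symm hne, rfl⟩
        have := Finset.card_le_card h7
        omega
      have h9 : (⟨a, ha⟩ : A) * t * ⟨a, ha⟩⁻¹ = t := congrArg Subtype.val heq
      have h10 := congrArg Subtype.val h9
      have h11 : a * ((t : A) : G) * a⁻¹ = ((t : A) : G) := h10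
      exact (mul_inv_eq_iff_eq_mul.1 h11)
    · rcases Nat.eq_zero_or_pos r with hr0 | hr0
      · subst hr0
        rw [pow_zero, ← Subgroup.index_eq_card, Subgroup.index_eq_one] at hr
        subst hr
        by_cases hAb : A = ⊥
        · apply solvable_of_pgroup_card (p := p) (k := s) hp
          rw [hAb, Subgroup.index_bot] at hA
          exact hA
        · obtain ⟨b, hb1⟩ := Subgroup.ne_bot_iff_exists_ne_one.1 hAb
          apply burn' p s hp (b : G) (fun h => hb1 (Subtype.ext h))
          refine (Subgroup.index_dvd_of_le ?_).trans hA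
          intro a ha
          rw [Subgroup.mem_centralizer_singleton_iff]
          letI := IsCyclic.commGroup (α := (⊤ : Subgroup A))
          have := congrArg (fun x : (⊤ : Subgroup A) => ((x : A) : G))
            (mul_comm (⟨⟨a, ha⟩, trivial⟩ : (⊤ : Subgroup A)) ⟨b, trivial⟩)
          simpa using this
      · -- cyclic Sylow 2-subgroup
        haveI : Fact (Nat.Prime 2) := ⟨Nat.prime_two⟩
        let S0 : Sylow 2 A := default
        have hdisj : Disjoint (S0 : Subgroup A) B := by
          rw [disjoint_iff, ← Subgroup.card_eq_one]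
          apply Nat.eq_one_of_dvd_coprimes (a := Nat.card (S0 : Subgroup A)) (b := Nat.card B)
          · obtain ⟨k, hk⟩ := IsPGroup.iff_card.1 S0.isPGroup'
            rw [hk]
            exact Nat.Coprime.pow_left _ ((Nat.prime_two.coprime_iff_not_dvd).2 heven)
          · exact Subgroup.card_dvd_of_le inf_le_left
          · exact Subgroup.card_dvd_of_le inf_le_right
        have hScyc : IsCyclic (S0 : Subgroup A) := by
          let f : (S0 : Subgroup A) →* A ⧸ B := (QuotientGroup.mk' B).comp (S0 : Subgroup A).subtype
          have hf : Function.Injective f := by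
            rw [← MonoidHom.ker_eq_bot_iff, eq_bot_iff]
            intro x hx
            rw [MonoidHom.mem_ker] at hx
            have h1 : (QuotientGroup.mk (x : A) : A ⧸ B) = 1 := hx
            rw [QuotientGroup.eq_one_iff] at h1
            have h2 : (x : A) ∈ (S0 : Subgroup A) ⊓ B := ⟨x.2, h1⟩
            rw [disjoint_iff.1 hdisj, Subgroup.mem_bot] at h2
            exact Subtype.ext h2
          exact isCyclic_of_injective f hf
        set S1 : Subgroup G := (S0 : Subgroup A).map A.subtype with hS1
        have hS1cyc : IsCyclic S1 :=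
          isCyclic_of_surjective (A.subtype.subgroupMap (S0 : Subgroup A))
            (MonoidHom.subgroupMap_surjective _ _)
        have hS1card : Nat.card S1 = Nat.card (S0 : Subgroup A) :=
          Nat.card_congr (Subgroup.equivMapOfInjective _ _ A.subtype_injective).symm.toEquiv
        have hAodd : ¬ 2 ∣ A.index := by
          intro h2
          have h3 := Nat.prime_two.dvd_of_dvd_pow (h2.trans hA)
          exact hp2 ((Nat.prime_dvd_prime_iff_eq Nat.prime_two hp).1 h3).symm
        have hS1syl : Nat.card S1 = 2 ^ (Nat.card G).factorization 2 := by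
          rw [hS1card, S0.card_eq_multiplicity, ← A.card_mul_index,
            Nat.factorization_mul Nat.card_pos.ne' Subgroup.FiniteIndex.index_ne_zero]
          congr 1
          rw [Finsupp.add_apply, Nat.factorization_eq_zero_of_not_dvd hAodd, add_zero]
        let S : Sylow 2 G := Sylow.ofCard S1 hS1syl
        have hSc : IsCyclic S := hS1cyc
        have h2G : 2 ∣ Nat.card G := by
          have h1 : 2 ∣ Nat.card (A ⧸ B) := by rw [hr]; exact dvd_pow_self 2 hr0.ne'
          exact h1.trans ((Subgroup.card_quotient_dvd_card B).trans (Subgroup.card_subgroup_dvd_card A))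
        have hmin : (Nat.card G).minFac = 2 := (Nat.minFac_eq_two_iff _).2 h2G
        have hcomp := IsCyclic.isComplement' hmin hSc
        rcases (MonoidHom.normal_ker (MonoidHom.transferSylow S
          (hSc.normalizer_le_centralizer hmin))).eq_bot_or_eq_top with h1 | h1
        · rw [h1, Subgroup.isComplement'_bot_left] at hcomp
          apply solvable_of_pgroup_card (p := 2) (k := (Nat.card G).factorization 2) Nat.prime_two
          rw [← hS1syl]
          have h3 : (S : Subgroup G) = S1 := rfl
          rw [← h3, hcomp, Subgroup.card_top]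
        · exfalso
          have h3 := hcomp.card_mul
          rw [h1, Subgroup.card_top] at h3
          have h4 : Nat.card (S : Subgroup G) = 1 := by
            have hpos : 0 < Nat.card G := Nat.card_pos
            nlinarith
          have h5 : Nat.card S1 = 1 := h4
          rw [hS1syl] at h5
          have h6 : (Nat.card G).factorization 2 ≠ 0 := by
            intro h7
            have := (Nat.prime_two.dvd_iff_one_le_factorization Nat.card_pos.ne').1 h2G
            omega
          have h8 := Nat.one_lt_two_pow h6
          omega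

/-- Let G be a finite group with a subgroup A of prime-power index. Suppose A has a normal cyclic subgroup B such that A/B is cyclic of order a power of 2. Then G is solvable. -/
theorem result {G : Type*} [Group G] [Finite G] (A : Subgroup G) (p s : ℕ) (hp : p.Prime) (hA : A.index = p ^ s)
    (B : Subgroup A) [B.Normal] (hB : IsCyclic B) (hAB : IsCyclic (A ⧸ B)) (r : ℕ) (hr : Nat.card (A ⧸ B) = 2 ^ r) :
    Group.IsSolvable G := by
  refine solvable_induction P ?_ ?_ simple_case G
    ⟨p, s, A, hp, hA.dvd, B, inferInstance, hB, hAB, r, hr⟩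
  · rintro G _ _ N _ ⟨p, s, A, hp, hA, hC⟩
    refine ⟨p, s, A.subgroupOf N, hp, ?_, ?_⟩
    · exact (relIndex_dvd_index_of_normal_right A N).trans hA
    · let f : A.subgroupOf N →* A :=
        (N.subtype.comp (A.subgroupOf N).subtype).codRestrict A (fun x => x.2)
      have hf : Function.Injective f := by
        intro x y hxy
        have h1 : ((x : N) : G) = ((y : N) : G) := congrArg (fun z : A => (z : G)) hxy
        exact Subtype.ext (Subtype.ext h1)
      exact CycBy2.of_injective f hf hC
  · rintro G _ _ N _ ⟨p, s, A, hp, hA, hC⟩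
    refine ⟨p, s, A.map (QuotientGroup.mk' N), hp, ?_, ?_⟩
    · exact (Subgroup.index_map_dvd A (QuotientGroup.mk'_surjective N)).trans hA
    · exact CycBy2.of_surjective _ (MonoidHom.subgroupMap_surjective (QuotientGroup.mk' N) A) hC

end Cfsg.Agent.S4245
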