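import Cfsg.Prelude
import Cfsg.Agent.H25.FpfOutside
import Cfsg.Agent.H23.Kegel
import Cfsg.Agent.H19.Sylow

namespace Cfsg.Agent.S4249

open Subgroup Cfsg.Agent.H25

/-- Let G be a finite group and p a prime such that G is not a p-group, and suppose the Hughes subgroup H_p(G), generated by all elements g with g^p ≠ 1, is a proper subgroup. Then H_p(G) is nilpotent and has index p in G. -/
theorem result {G : Type*} [Group G] [Finite G] (p : ℕ) (hp : p.Prime) (hG : ¬ IsPGroup p G)
    (hH : Subgroup.closure {g : G | g ^ p ≠ 1} ≠ ⊤) :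
    Group.IsNilpotent (Subgroup.closure {g : G | g ^ p ≠ 1}) ∧ (Subgroup.closure {g : G | g ^ p ≠ 1}).index = p := by
  classical
  haveI : Fact p.Prime := ⟨hp⟩
  set H : Subgroup G := closure {g : G | g ^ p ≠ 1} with hHdef
  have hout : ∀ x, x ∉ H → x ^ p = 1 := by
    intro x hx
    by_contra h
    exact hx (Subgroup.subset_closure h)
  haveI hHn : H.Normal := by
    rw [hHdef]
    apply Subgroup.Normal.mk
    intro n hn g
    induction hn using closure_induction with
    | mem x hx =>
      apply Subgroup.subset_closure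
      show (g * x * g⁻¹) ^ p ≠ 1
      rw [conj_pow]
      intro h
      apply hx
      have : x ^ p = g⁻¹ * (g * x ^ p * g⁻¹) * g := by group
      rw [this, h]; group
    | one => simp
    | mul x y _ _ hx hy =>
      have : g * (x * y) * g⁻¹ = (g * x * g⁻¹) * (g * y * g⁻¹) := by group
      rw [this]; exact mul_mem hx hy
    | inv x _ hx =>
      have : g * x⁻¹ * g⁻¹ = (g * x * g⁻¹)⁻¹ := by group
      rw [this]; exact inv_mem hx
  have hquot : IsPGroup p (G ⧸ H) := by
    intro x
    obtain ⟨x, rfl⟩ := QuotientGroup.mk'_surjective H x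
    refine ⟨1, ?_⟩
    by_cases hx : x ∈ H
    · have : QuotientGroup.mk' H x = 1 := (QuotientGroup.eq_one_iff x).mpr hx
      rw [this, one_pow]
    · rw [pow_one, ← map_pow, hout x hx, map_one]
  suffices hidx : H.index = p from
    ⟨H23.kegel_main p (Nat.card G) G H hHn le_rfl hidx hout, hidx⟩
  obtain ⟨m, hm⟩ := hquot.exists_card_eq
  have hHi : H.index = p ^ m := by rw [← hm]; rfl
  -- a prime q ≠ p dividing |H|
  obtain ⟨q, hq, hqp, hqG⟩ : ∃ q, q.Prime ∧ q ≠ p ∧ q ∣ Nat.card H := by
    by_contra h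
    push Not at h
    apply hG
    have h1 : Nat.card G = p ^ (Nat.card G).primeFactorsList.length := by
      apply Nat.eq_prime_pow_of_unique_prime_dvd Nat.card_pos.ne'
      intro d hd hdG
      by_contra hdp
      rw [← H.card_mul_index, hHi, hd.dvd_mul] at hdG
      rcases hdG with h2 | h2
      · exact h d hd hdp h2
      · exact hdp ((Nat.prime_dvd_prime_iff_eq hd hp).mp (hd.dvd_of_dvd_pow h2))
    exact IsPGroup.of_card h1
  haveI : Fact q.Prime := ⟨hq⟩
  obtain ⟨S⟩ : Nonempty (Sylow q H) := inferInstance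
  set Q : Subgroup G := (S : Subgroup H).map H.subtype with hQdef
  have hQS : H23.IsSylowOf q Q H := ⟨S, rfl⟩
  have hQH : Q ≤ H := map_subtype_le _
  have hcQ : Nat.card Q = Nat.card S := card_map_of_injective H.subtype_injective
  have hQp : IsPGroup q Q := S.isPGroup'.map _
  have hqQ : q ∣ Nat.card Q := by rw [hcQ]; exact S.dvd_card_of_dvd_card hqG
  haveI hQnt : Nontrivial Q := by
    rw [← Finite.one_lt_card_iff_nontrivial]
    exact lt_of_lt_of_le hq.one_lt (Nat.le_of_dvd Nat.card_pos hqQ)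
  have hcopQ : p.Coprime (Nat.card Q) := by
    obtain ⟨k, hk⟩ := hQp.exists_card_eq
    rw [hk]
    exact ((Nat.coprime_primes hp hq).mpr hqp.symm).pow_right k
  set N : Subgroup G := normalizer (Q : Set G) with hN
  obtain ⟨T⟩ : Nonempty (Sylow p N) := inferInstance
  let f : N →* G ⧸ H := (QuotientGroup.mk' H).comp N.subtype
  have hf : Function.Surjective f := by
    intro x
    obtain ⟨x, rfl⟩ := QuotientGroup.mk'_surjective H x
    obtain ⟨n, hn, hx⟩ := H19.frattini_elem (N := H) (R := Q) hQS (g := x) (by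
      rw [normalizer_eq_top]; exact mem_top _)
    refine ⟨⟨n⁻¹ * x, hx⟩, ?_⟩
    show (QuotientGroup.mk' H) (n⁻¹ * x) = _
    rw [map_mul]
    have : QuotientGroup.mk' H n⁻¹ = 1 := (QuotientGroup.eq_one_iff _).mpr (inv_mem hn)
    rw [this, one_mul]
  have hfT : (T : Subgroup N).map f = ⊤ := by
    have h1 := Sylow.coe_mapSurjective hf T
    rw [← h1]
    have h2 := (T.mapSurjective hf).is_maximal' (Q := ⊤) (by
      intro x
      obtain ⟨k, hk⟩ := hquot x.1
      exact ⟨k, Subtype.ext hk⟩) le_top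
    exact h2.symm
  have hfmem : ∀ x : N, x ∈ f.ker ↔ (x : G) ∈ H := by
    intro x
    rw [MonoidHom.mem_ker]
    exact QuotientGroup.eq_one_iff (x : G)
  let φ : N →* MulAut Q := Q.normalizerMonoidHom
  have hφ : ∀ (x : N) (y : Q), ((φ x y : Q) : G) = x * y * (x : G)⁻¹ := fun x y => rfl
  have hfix : ∀ x : N, (x : G) ∉ H → ∀ y : Q, φ x y = y → y = 1 := by
    intro x hx y hy
    have h1 : (x : G) * y = y * x := by
      have h2 := hφ x y
      rw [hy] at h2
      rw [h2, inv_mul_cancel_right]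
      rw [← h2]
    have h2 : (x : G) * y ∉ H := fun h => hx ((H.mul_mem_cancel_right (hQH y.2)).mp h)
    have h3 := hout _ h2
    have h4 : Commute (x : G) y := h1
    rw [h4.mul_pow, hout _ hx, one_mul] at h3
    have h5 : orderOf (y : G) ∣ p := orderOf_dvd_of_pow_eq_one h3
    have h6 : orderOf (y : G) ∣ Nat.card Q := by
      rw [orderOf_coe]; exact orderOf_dvd_natCard y
    have h7 := Nat.eq_one_of_dvd_coprimes hcopQ h5 h6
    exact Subtype.ext (orderOf_eq_one_iff.mp h7)
  set T0 : Subgroup N := (T : Subgroup N) ⊓ f.ker with hT0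
  have hker : (T : Subgroup N) ⊓ φ.ker ≤ T0 := by
    rintro x ⟨hxT, hxφ⟩
    refine ⟨hxT, (hfmem x).mpr ?_⟩
    by_contra hx
    obtain ⟨y, hy⟩ := exists_ne (1 : Q)
    apply hy
    apply hfix x hx y
    rw [MonoidHom.mem_ker.mp hxφ]; rfl
  obtain ⟨hP0, hPc⟩ := card_of_fpf_outside (Q := Q) (p := p) hcopQ ((T : Subgroup N).map φ) (T0.map φ)
    (T.isPGroup'.map _) (map_mono inf_le_left) (by
      intro heq
      obtain ⟨g, hg⟩ : ∃ g : G, g ∉ H := by
        by_contra h1
        push Not at h1
        exact hH ((eq_top_iff' H).mpr h1)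
      have h1 : QuotientGroup.mk' H g ∈ (T : Subgroup N).map f := by rw [hfT]; exact mem_top _
      obtain ⟨x, hxT, hx⟩ := h1
      have h2 : φ x ∈ T0.map φ := by rw [heq]; exact mem_map_of_mem _ hxT
      obtain ⟨x', hx', h3⟩ := h2
      have h4 : x * x'⁻¹ ∈ T0 := hker ⟨Subgroup.mul_mem _ hxT (Subgroup.inv_mem _ hx'.1), by
        show φ (x * x'⁻¹) = 1
        rw [map_mul, map_inv, h3, mul_inv_cancel]⟩
      have h5 : x ∈ T0 := (T0.mul_mem_cancel_right (inv_mem hx')).mp h4
      apply hg
      have h6 : f x = 1 := h5.2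
      rw [h6] at hx
      exact (QuotientGroup.eq_one_iff g).mp hx.symm) (by
      rintro _ ⟨x, hx, rfl⟩
      have h1 : x ∈ normalizer (T0 : Set N) := by
        rw [mem_normalizer_iff]
        intro n
        constructor
        · rintro ⟨h1, h2⟩
          exact ⟨Subgroup.mul_mem _ (Subgroup.mul_mem _ hx h1) (Subgroup.inv_mem _ hx), (inferInstance : f.ker.Normal).conj_mem n h2 x⟩
        · rintro ⟨h1, h2⟩
          constructor
          · have h3 : n = x⁻¹ * (x * n * x⁻¹) * x := by group
            rw [h3]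
            exact Subgroup.mul_mem _ (Subgroup.mul_mem _ (Subgroup.inv_mem _ hx) h1) hx
          · have h3 := (inferInstance : f.ker.Normal).conj_mem _ h2 x⁻¹
            have h4 : x⁻¹ * (x * n * x⁻¹) * x⁻¹⁻¹ = n := by group
            rwa [h4] at h3
      exact le_normalizer_map φ ⟨x, h1, rfl⟩) (by
      rintro _ ⟨x, hx, rfl⟩ hx0
      have h1 : (x : G) ∉ H := fun h => hx0 (mem_map_of_mem _ ⟨hx, (hfmem x).mpr h⟩)
      refine ⟨?_, fun y hy => hfix x h1 y hy⟩
      rw [← map_pow]
      have h2 : x ^ p = 1 := Subtype.ext (by simpa using hout _ h1)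
      rw [h2, map_one])
  have h1 : f.ker.relIndex (T : Subgroup N) = Nat.card (G ⧸ H) := by
    rw [relIndex_ker, hfT, card_top]
  have h2 : φ.ker.relIndex (T : Subgroup N) = p := by
    rw [relIndex_ker, hPc]
  have h3 : (T : Subgroup N) ⊓ φ.ker = T0 := by
    apply le_antisymm hker
    intro x hx
    refine ⟨hx.1, ?_⟩
    have : φ x ∈ T0.map φ := mem_map_of_mem _ hx
    rw [hP0, mem_bot] at this
    exact this
  have h4 : H.index = Nat.card (G ⧸ H) := rfl
  have h5 : f.ker.relIndex (T : Subgroup N) = φ.ker.relIndex (T : Subgroup N) := by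
    rw [← inf_relIndex_left (T : Subgroup N) f.ker, ← inf_relIndex_left (T : Subgroup N) φ.ker, h3]
  rw [h4, ← h1, h5, h2]

end Cfsg.Agent.S4249
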