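import Cfsg.Statements.S4252

set_option autoImplicit false
open Cfsg

namespace Cfsg.Agent.S4252

open scoped Pointwise

theorem mem_conj_stab {G Ω : Type*} [Group G] [MulAction G Ω] (g x : G) (α : Ω) :
    x ∈ MulAut.conj g • MulAction.stabilizer G α ↔ x • (g • α) = g • α := by
  rw [Subgroup.mem_pointwise_smul_iff_inv_smul_mem, ← map_inv, MulAut.smul_def, MulAut.conj_apply,
    inv_inv, MulAction.mem_stabilizer_iff, mul_smul, mul_smul, inv_smul_eq_iff]

/-- Let a finite group G act on a finite set Ω with more than one point, transitively but not regularly, so that no non-identity element of G fixes two distinct points. Then the stabilizer H of any point is a Frobenius complement in G (nontrivial, proper, meeting its other conjugates trivially), and the Frobenius kernel of G with respect to H (the identity together with the elements lying in no conjugate of H) is exactly the set consisting of the identity and the elements fixing no point. -/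
theorem result {G Ω : Type*} [Group G] [Finite G] [Fintype Ω] [MulAction G Ω] (hΩ : 1 < Fintype.card Ω)
    (htrans : ∀ α β : Ω, ∃ g : G, g • α = β) (hnreg : ∃ g : G, g ≠ 1 ∧ ∃ α : Ω, g • α = α)
    (hfix : ∀ g : G, g ≠ 1 → ∀ α β : Ω, g • α = α → g • β = β → α = β) (α : Ω) :
    Cfsg.IsFrobeniusComplement (MulAction.stabilizer G α) ∧
      Cfsg.frobeniusKernel (MulAction.stabilizer G α) = {g : G | g = 1 ∨ ∀ ω : Ω, g • ω ≠ ω} := by
  refine ⟨⟨?_, ?_, ?_⟩, ?_⟩
  · intro hb
    obtain ⟨g, hg, β, hβ⟩ := hnreg
    obtain ⟨h, hh⟩ := htrans α β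
    have h1 : h⁻¹ * g * h ∈ MulAction.stabilizer G α := by
      rw [MulAction.mem_stabilizer_iff, mul_smul, mul_smul, hh, hβ, ← hh, inv_smul_smul]
    rw [hb, Subgroup.mem_bot] at h1
    apply hg
    have : g = h * (h⁻¹ * g * h) * h⁻¹ := by group
    rw [this, h1]
    group
  · intro ht
    obtain ⟨a, b, hab⟩ := Fintype.one_lt_card_iff.1 hΩ
    apply hab
    obtain ⟨g, hg⟩ := htrans α a
    obtain ⟨h, hh⟩ := htrans α b
    have h1 : g ∈ MulAction.stabilizer G α := by rw [ht]; trivial
    have h2 : h ∈ MulAction.stabilizer G α := by rw [ht]; trivial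
    rw [MulAction.mem_stabilizer_iff] at h1 h2
    rw [← hg, ← hh, h1, h2]
  · intro g hg
    rw [eq_bot_iff]
    rintro x ⟨hx1, hx2⟩
    have hx1' : x • α = α := hx1
    have hx2' : x ∈ MulAut.conj g • MulAction.stabilizer G α := hx2
    rw [mem_conj_stab] at hx2'
    rw [Subgroup.mem_bot]
    by_contra hx
    exact hg (hfix x hx α (g • α) hx1' hx2').symm
  · ext x
    constructor
    · rintro (rfl | hx)
      · exact Or.inl rfl
      · right
        intro ω hω
        obtain ⟨g, rfl⟩ := htrans α ω
        exact hx g ((mem_conj_stab g x α).2 hω)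
    · rintro (rfl | hx)
      · exact Or.inl rfl
      · right
        intro g hg
        exact hx _ ((mem_conj_stab g x α).1 hg)

end Cfsg.Agent.S4252
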