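import Cfsg.Statements.S4253

set_option autoImplicit false
open Cfsg
open scoped Pointwise

namespace Cfsg.Agent.S4253

theorem result {G : Type*} [Group G] [Finite G] (H : Subgroup G) (hH : Cfsg.IsFrobeniusComplement H)
    (g : G) (hg : g ≠ 1) (a b : G ⧸ H) (ha : g • a = a) (hb : g • b = b) : a = b := by
  obtain ⟨a, rfl⟩ := QuotientGroup.mk_surjective a
  obtain ⟨b, rfl⟩ := QuotientGroup.mk_surjective b
  by_contra hab
  have h1 : a⁻¹ * b ∉ H := fun h => hab (QuotientGroup.eq.2 h)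
  have ha' : a⁻¹ * g * a ∈ H := by
    have : (QuotientGroup.mk (g * a) : G ⧸ H) = QuotientGroup.mk a := ha
    have h2 := QuotientGroup.eq.1 this.symm
    simpa [mul_assoc] using h2
  have hb' : b⁻¹ * g * b ∈ H := by
    have : (QuotientGroup.mk (g * b) : G ⧸ H) = QuotientGroup.mk b := hb
    have h2 := QuotientGroup.eq.1 this.symm
    simpa [mul_assoc] using h2
  have h3 := hH.2.2 _ h1
  have h4 : a⁻¹ * g * a ∈ H ⊓ (MulAut.conj (a⁻¹ * b) • H) := by
    refine ⟨ha', ?_⟩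
    change _ ∈ (MulAut.conj (a⁻¹ * b) • H)
    rw [Subgroup.mem_pointwise_smul_iff_inv_smul_mem]
    have : (MulAut.conj (a⁻¹ * b))⁻¹ • (a⁻¹ * g * a) = b⁻¹ * g * b := by
      simp [mul_assoc]
    rw [this]
    exact hb'
  rw [h3, Subgroup.mem_bot] at h4
  apply hg
  calc g = a * (a⁻¹ * g * a) * a⁻¹ := by group
    _ = 1 := by rw [h4]; group

end Cfsg.Agent.S4253
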