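import Cfsg.Statements.S4260

set_option autoImplicit false
open Cfsg

namespace Cfsg.Agent.S4260

theorem result {G : Type*} [Group G] [Finite G] (H : Subgroup G) (hHall : (Nat.card H).Coprime H.index)
    (hexp : ∀ x : G, x ^ H.index ∈ H) : H.Normal := by
  constructor
  intro h hh g
  have h1 : orderOf (g * h * g⁻¹) ∣ Nat.card H := by
    have h2 : orderOf (g * h * g⁻¹) = orderOf h := by
      have := orderOf_injective (MulAut.conj g).toMonoidHom (MulAut.conj g).injective h
      simpa using this
    rw [h2]
    exact Subgroup.orderOf_dvd_natCard _ hh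
  have h3 : (g * h * g⁻¹) ∈ Subgroup.zpowers ((g * h * g⁻¹) ^ H.index) := by
    rw [mem_zpowers_pow_iff]
    have := Nat.Coprime.coprime_dvd_left h1 hHall
    exact this.symm
  exact (Subgroup.zpowers_le.2 (hexp _)) h3

end Cfsg.Agent.S4260
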