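import Cfsg.Statements.S4261
import Cfsg.Agent.S0048

set_option autoImplicit false
open Cfsg

namespace Cfsg.Agent.S4261

/-- Let M be a maximal subgroup of a finite solvable group G such that x^[G : M] lies in M for every x in G. Then M is normal in G. -/
theorem result {G : Type*} [Group G] [Finite G] (hG : Group.IsSolvable G) (M : Subgroup G) (hM : IsCoatom M)
    (hexp : ∀ x : G, x ^ M.index ∈ M) : M.Normal := by
  obtain ⟨p, k, hp, hk, hpk⟩ := Cfsg.Agent.S0048.result M hM
  have hp' : p.Prime := hp.nat_prime
  haveI : Fact p.Prime := ⟨hp'⟩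
  have hK : ∀ x : G, x ^ M.index ∈ M.normalCore := by
    intro x g
    have h1 := hexp (g * x * g⁻¹)
    rwa [conj_pow] at h1
  have hq : IsPGroup p (G ⧸ M.normalCore) := by
    intro x
    obtain ⟨y, rfl⟩ := QuotientGroup.mk_surjective x
    refine ⟨k, ?_⟩
    rw [← QuotientGroup.mk_pow, QuotientGroup.eq_one_iff, hpk]
    exact hK y
  haveI : Group.IsNilpotent (G ⧸ M.normalCore) := hq.isNilpotent
  have hle : M.normalCore ≤ M := M.normalCore_le
  have hcm : (M.map (QuotientGroup.mk' M.normalCore)).comap (QuotientGroup.mk' M.normalCore) = M := by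
    rw [QuotientGroup.comap_map_mk']
    exact sup_eq_right.2 hle
  have hMc : IsCoatom (M.map (QuotientGroup.mk' M.normalCore)) := by
    refine ⟨?_, ?_⟩
    · intro htop
      rw [htop, Subgroup.comap_top] at hcm
      exact hM.1 hcm.symm
    · intro L hL
      have h1 : M < L.comap (QuotientGroup.mk' M.normalCore) := by
        have h4 := (Subgroup.comap_lt_comap_of_surjective (QuotientGroup.mk'_surjective M.normalCore)).2 hL
        rwa [hcm] at h4
      have h2 := hM.2 _ h1
      have h3 := congrArg (Subgroup.map (QuotientGroup.mk' M.normalCore)) h2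
      rw [Subgroup.map_comap_eq_self_of_surjective (QuotientGroup.mk'_surjective _),
        Subgroup.map_top_of_surjective _ (QuotientGroup.mk'_surjective _)] at h3
      exact h3
  have hn : (M.map (QuotientGroup.mk' M.normalCore)).Normal :=
    Subgroup.NormalizerCondition.normal_of_coatom _ Group.normalizerCondition_of_isNilpotent hMc
  rw [← hcm]
  exact hn.comap _

end Cfsg.Agent.S4261
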