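import Cfsg.Statements.S4262
import Cfsg.Agent.H25.Primary
import Cfsg.Agent.H25.ClassSize

set_option autoImplicit false
open Cfsg

namespace Cfsg.Agent.S4262

open Cfsg.Agent.H25
open scoped Pointwise

/-- abbreviation -/
abbrev C {G : Type*} [Group G] (x : G) : Subgroup G := Subgroup.centralizer ({x} : Set G)

theorem mem_C {G : Type*} [Group G] {x y : G} : y ∈ C x ↔ y * x = x * y :=
  Subgroup.mem_centralizer_singleton_iff

theorem mem_C_comm {G : Type*} [Group G] {x y : G} : y ∈ C x ↔ x ∈ C y := by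
  rw [mem_C, mem_C, eq_comm]

section

variable {G : Type*} [Group G] [Finite G]
  (h : ∀ g : G, g ∉ Subgroup.center G → IsCoatom (C g))

include h

theorem C_eq_of_le {x y : G} (hx : x ∉ Subgroup.center G) (hy : y ∉ Subgroup.center G)
    (hxy : C x ≤ C y) : C x = C y := by
  rcases eq_or_lt_of_le hxy with h1 | h1
  · exact h1
  · exact absurd ((h x hx).2 _ h1) (h y hy).1

/-- `x` noncentral `p`-element, `y` a commuting `p'`-element: `C(x) ≤ C(y)`. -/
theorem C_le_of_coprime {x y : G} (hx : x ∉ Subgroup.center G) (hxy : y ∈ C x)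
    (hcop : (orderOf x).Coprime (orderOf y)) : C x ≤ C y := by
  have hcomm : Commute x y := (mem_C.1 hxy).symm
  have e1 : (x * y) ^ orderOf y = x ^ orderOf y := by
    rw [hcomm.mul_pow, pow_orderOf_eq_one, mul_one]
  have e2 : (x * y) ^ orderOf x = y ^ orderOf x := by
    rw [hcomm.mul_pow, pow_orderOf_eq_one, one_mul]
  have h1 : C (x * y) ≤ C x := by
    intro g hg
    rw [mem_C_comm] at hg ⊢
    apply mem_of_pow_mem hcop.symm
    rw [← e1]
    exact Subgroup.pow_mem _ hg _
  have h2 : C (x * y) ≤ C y := by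
    intro g hg
    rw [mem_C_comm] at hg ⊢
    apply mem_of_pow_mem hcop
    rw [← e2]
    exact Subgroup.pow_mem _ hg _
  have h3 : x * y ∉ Subgroup.center G := by
    intro hc
    apply hx
    apply mem_of_pow_mem hcop.symm
    rw [← e1]
    exact Subgroup.pow_mem _ hc _
  rw [← C_eq_of_le h h3 hx h1]
  exact h2

/-- Every centralizer of a noncentral element is the centralizer of a noncentral element of prime power
order. -/
theorem exists_primary {x : G} (hx : x ∉ Subgroup.center G) :
    ∃ p : ℕ, p.Prime ∧ ∃ y : G, y ∉ Subgroup.center G ∧ (∃ k : ℕ, orderOf y = p ^ k) ∧ C x = C y := by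
  obtain ⟨p, hp, m, hm, k, hk⟩ := exists_primary_notMem _ hx
  refine ⟨p, hp, x ^ m, hm, ⟨k, hk⟩, C_eq_of_le h hx hm (centralizer_le_pow x m)⟩

theorem central_of_coprime {p : ℕ} [Fact p.Prime] {x : G} (hx : x ∉ Subgroup.center G)
    (hxp : ∃ k : ℕ, orderOf x = p ^ k) (y : C x) (hy : (orderOf y).Coprime p) :
    y ∈ Subgroup.center (C x) := by
  obtain ⟨k, hk⟩ := hxp
  have h1 : C x ≤ C (y : G) := by
    apply C_le_of_coprime h hx y.2
    rw [hk, Subgroup.orderOf_coe]
    exact Nat.Coprime.pow_left _ hy.symm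
  rw [Subgroup.mem_center_iff]
  intro g
  apply Subtype.ext
  exact mem_C.1 (h1 g.2)

theorem C_nilpotent {x : G} (hx : x ∉ Subgroup.center G) : Group.IsNilpotent (C x) := by
  obtain ⟨p, hp, y, hy, hk, hxy⟩ := exists_primary h hx
  haveI : Fact p.Prime := ⟨hp⟩
  rw [hxy]
  exact nilpotent_of_center_quotient_pGroup (p := p) fun z hz => central_of_coprime h hy hk z hz

/-- if `O_q(G)` is not central then `G` is solvable. -/
theorem solvable_of_pCore (q : ℕ) [Fact q.Prime] (hq : ¬ Cfsg.pCore q G ≤ Subgroup.center G) :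
    Group.IsSolvable G := by
  set Q := Cfsg.pCore q G with hQ
  have hQn : Q.Normal := pCore_normal q
  have hQp : IsPGroup q Q := pCore_isPGroup q
  by_cases hcase : ∀ y : G, (orderOf y).Coprime q → Q ≤ C y
  · -- `q'`-elements centralize `Q`
    obtain ⟨w, hwQ, hw⟩ := Set.not_subset.1 hq
    have hDn : (Subgroup.centralizer (Q : Set G)).Normal := inferInstance
    have hDw : Subgroup.centralizer (Q : Set G) ≤ C w := by
      intro g hg
      rw [mem_C]
      exact ((Subgroup.mem_centralizer_iff.1 hg) w hwQ).symm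
    have hDnil : Group.IsNilpotent (Subgroup.centralizer (Q : Set G)) := by
      have h1 := C_nilpotent h hw
      exact nilpotent_mono hDw h1
    have hquot : IsPGroup q (G ⧸ Subgroup.centralizer (Q : Set G)) := by
      intro x
      obtain ⟨y, rfl⟩ := QuotientGroup.mk_surjective x
      refine ⟨(orderOf y).factorization q, ?_⟩
      rw [← QuotientGroup.mk_pow, QuotientGroup.eq_one_iff]
      have h2 : orderOf (y ^ q ^ (orderOf y).factorization q) =
          orderOf y / q ^ (orderOf y).factorization q :=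
        orderOf_pow_of_dvd (pow_ne_zero _ (Fact.out : q.Prime).ne_zero) (Nat.ordProj_dvd _ _)
      have h3 : (orderOf (y ^ q ^ (orderOf y).factorization q)).Coprime q := by
        rw [h2]
        exact (Nat.coprime_ordCompl (Fact.out) (orderOf_pos y).ne').symm
      have h4 := hcase _ h3
      rw [Subgroup.mem_centralizer_iff]
      intro g hg
      exact mem_C.1 (h4 hg)
    exact solvable_of_nilpotent_normal_of_nilpotent_quotient _ hDnil hquot.isNilpotent
  · push Not at hcase
    obtain ⟨y, hy, hyQ⟩ := hcase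
    have hyZ : y ∉ Subgroup.center G := by
      intro hc
      apply hyQ
      intro g _
      rw [mem_C]
      exact (Subgroup.mem_center_iff.1 hc) g
    have htop : C y ⊔ Q = ⊤ := by
      apply (h y hyZ).2
      exact lt_of_le_of_ne le_sup_left (fun heq => hyQ (by rw [heq]; exact le_sup_right))
    have hnil := C_nilpotent h hyZ
    have hsurj : Function.Surjective ((QuotientGroup.mk' Q).comp (C y).subtype) := by
      rw [← MonoidHom.range_eq_top, MonoidHom.range_comp, Subgroup.range_subtype]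
      have h1 : (C y ⊔ Q).map (QuotientGroup.mk' Q) = ⊤ := by
        rw [htop]
        exact Subgroup.map_top_of_surjective _ (QuotientGroup.mk'_surjective Q)
      rw [Subgroup.map_sup] at h1
      have h2 : Q.map (QuotientGroup.mk' Q) = ⊥ := by
        rw [Subgroup.map_eq_bot_iff, QuotientGroup.ker_mk']
      rwa [h2, sup_bot_eq] at h1
    have hquot : Group.IsNilpotent (G ⧸ Q) := Group.nilpotent_of_surjective _ hsurj
    exact solvable_of_nilpotent_normal_of_nilpotent_quotient _ hQp.isNilpotent hquot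

omit h in
/-- In a nilpotent subgroup `M`, a noncentral `q`-element `w ∈ M`, `M` a coatom and `O_q(G)` central:
then a Sylow `q`-subgroup of `M` is one of `G` and its normalizer is `M`. -/
theorem exists_sylow_normalizer {M : Subgroup G} (hM : IsCoatom M) (hnil : Group.IsNilpotent M)
    (q : ℕ) [Fact q.Prime] (hcore : Cfsg.pCore q G ≤ Subgroup.center G) {w : G} (hwM : w ∈ M)
    (hw : w ∉ Subgroup.center G) (hwq : ∃ k : ℕ, orderOf w = q ^ k) :
    ∃ S : Sylow q G, w ∈ (S : Subgroup G) ∧ (S : Subgroup G) ≤ M ∧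
      Subgroup.normalizer ((S : Subgroup G) : Set G) = M := by
  have hwp : IsPGroup q (Subgroup.zpowers w) := by
    rw [IsPGroup.iff_card]
    obtain ⟨k, hk⟩ := hwq
    exact ⟨k, by rw [Nat.card_zpowers, hk]⟩
  have hwp' : IsPGroup q ((Subgroup.zpowers w).subgroupOf M) :=
    hwp.comap_of_injective M.subtype M.subtype_injective
  obtain ⟨Q0, hQ0⟩ := hwp'.exists_le_sylow
  have hQ0n : (Q0 : Subgroup M).Normal := inferInstance
  set R : Subgroup G := (Q0 : Subgroup M).map M.subtype with hR
  have hRM : R ≤ M := Subgroup.map_subtype_le _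
  have hwR : w ∈ R := by
    refine ⟨⟨w, hwM⟩, hQ0 ?_, rfl⟩
    rw [Subgroup.mem_subgroupOf]
    exact Subgroup.mem_zpowers w
  have hRp : IsPGroup q R := Q0.isPGroup'.map _
  have hMN : M ≤ Subgroup.normalizer (R : Set G) := by
    intro g hg
    rw [Subgroup.mem_normalizer_iff]
    have key : ∀ a ∈ M, ∀ y ∈ R, a * y * a⁻¹ ∈ R := by
      rintro a ha _ ⟨z, hz, rfl⟩
      exact ⟨⟨a, ha⟩ * z * ⟨a, ha⟩⁻¹, hQ0n.conj_mem z hz ⟨a, ha⟩, rfl⟩
    intro y
    constructor
    · exact key g hg y
    · intro hy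
      have := key g⁻¹ (M.inv_mem hg) _ hy
      have e : g⁻¹ * (g * y * g⁻¹) * g⁻¹⁻¹ = y := by group
      rwa [e] at this
  have hNR : Subgroup.normalizer (R : Set G) = M := by
    by_contra hne
    have hlt : M < Subgroup.normalizer (R : Set G) := lt_of_le_of_ne hMN (Ne.symm hne)
    have htop := hM.2 _ hlt
    have hRn : R.Normal := Subgroup.normalizer_eq_top_iff.1 htop
    exact hw (hcore (le_pCore hRn hRp hwR))
  obtain ⟨S, hS⟩ := hRp.exists_le_sylow
  have hSR : (S : Subgroup G) = R := by
    by_contra hne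
    have hlt : R < (S : Subgroup G) := lt_of_le_of_ne hS (Ne.symm hne)
    have hSnil : Group.IsNilpotent (S : Subgroup G) := S.isPGroup'.isNilpotent
    have hnc : NormalizerCondition (S : Subgroup G) := Group.normalizerCondition_of_isNilpotent
    have hlt2 : R.subgroupOf (S : Subgroup G) < ⊤ := by
      rw [lt_top_iff_ne_top]
      intro htop
      rw [Subgroup.subgroupOf_eq_top] at htop
      exact absurd (le_antisymm hS htop) hlt.ne
    obtain ⟨s, hs1, hs2⟩ := SetLike.exists_of_lt (hnc _ hlt2)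
    have hsN : (s : G) ∈ Subgroup.normalizer (R : Set G) := by
      rw [Subgroup.mem_normalizer_iff] at hs1 ⊢
      intro y
      constructor
      · intro hy
        have := (hs1 ⟨y, hS hy⟩).1 (by rw [Subgroup.mem_subgroupOf]; exact hy)
        rw [Subgroup.mem_subgroupOf] at this
        exact this
      · intro hy
        have hyS : y ∈ (S : Subgroup G) := by
          have h1 := (S : Subgroup G).mul_mem ((S : Subgroup G).mul_mem
            ((S : Subgroup G).inv_mem s.2) (hS hy)) s.2
          have e : (s : G)⁻¹ * (s * y * (s : G)⁻¹) * s = y := by group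
          rwa [e] at h1
        have := (hs1 ⟨y, hyS⟩).2 (by rw [Subgroup.mem_subgroupOf]; exact hy)
        rw [Subgroup.mem_subgroupOf] at this
        exact this
    rw [hNR] at hsN
    -- `⟨R, s⟩` is a `q`-subgroup of `M`; but `R` is Sylow in `M`
    have hsq : IsPGroup q (Subgroup.zpowers (⟨s, hsN⟩ : M)) := by
      have h1 : IsPGroup q (Subgroup.zpowers (s : G)) :=
        S.isPGroup'.to_le (by rw [Subgroup.zpowers_le]; exact s.2)
      have h2 : (Subgroup.zpowers (⟨s, hsN⟩ : M)).map M.subtype = Subgroup.zpowers (s : G) := by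
        rw [MonoidHom.map_zpowers]; rfl
      have h3 : IsPGroup q ((Subgroup.zpowers (⟨s, hsN⟩ : M)).map M.subtype) := by rwa [h2]
      exact h3.of_equiv (Subgroup.equivMapOfInjective _ _ M.subtype_injective).symm
    obtain ⟨Q1, hQ1⟩ := hsq.exists_le_sylow
    have hQ1n : (Q1 : Subgroup M).Normal := inferInstance
    have heq : Q1 = Q0 := by
      haveI := Sylow.unique_of_normal Q0 hQ0n
      exact Subsingleton.elim _ _
    apply hs2
    rw [Subgroup.mem_subgroupOf]
    refine ⟨⟨s, hsN⟩, ?_, rfl⟩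
    rw [← heq]
    exact hQ1 (Subgroup.mem_zpowers _)
  refine ⟨S, ?_, ?_, ?_⟩
  · rw [hSR]; exact hwR
  · rw [hSR]; exact hRM
  · rw [hSR]; exact hNR

omit h in
/-- Burnside transfer packaged. -/
theorem exists_complement (q : ℕ) [Fact q.Prime] (S : Sylow q G)
    (hS : Subgroup.normalizer ((S : Subgroup G) : Set G) ≤ Subgroup.centralizer ((S : Subgroup G) : Set G)) :
    ∃ K : Subgroup G, K.Normal ∧ ¬ q ∣ Nat.card K ∧ commutator G ≤ K ∧ ∃ k : ℕ, K.index = q ^ k := by
  have hcomp := MonoidHom.ker_transferSylow_isComplement' S hS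
  refine ⟨(MonoidHom.transferSylow S hS).ker, inferInstance,
    MonoidHom.not_dvd_card_ker_transferSylow S hS, ?_, ?_⟩
  · rw [commutator_def, Subgroup.commutator_le]
    intro a _ b _
    rw [MonoidHom.mem_ker, map_commutatorElement, commutatorElement_eq_one_iff_mul_comm]
    apply Subtype.ext
    have h1 : ((MonoidHom.transferSylow S hS a : (S : Subgroup G)) : G) ∈
        Subgroup.centralizer ((S : Subgroup G) : Set G) := hS (Subgroup.le_normalizer (SetLike.coe_mem _))
    exact ((Subgroup.mem_centralizer_iff.1 h1) _ (SetLike.coe_mem (MonoidHom.transferSylow S hS b))).symm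
  · obtain ⟨k, hk⟩ := IsPGroup.iff_card.1 S.isPGroup'
    exact ⟨k, by rw [hcomp.symm.index_eq_card, hk]⟩

omit [Finite G] h in
theorem solvable_of_commutator_le_nilpotent (N : Subgroup G) (hN : Group.IsNilpotent N)
    (hc : commutator G ≤ N) : Group.IsSolvable G := by
  have hNn : N.Normal := Subgroup.Normal.of_commutator_le G hc
  have h1 : Group.IsSolvable (G ⧸ N) := by
    apply Group.isSolvable_of_comm
    intro a b
    have := (Subgroup.Normal.quotient_commutative_iff_commutator_le (N := N)).2 hc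
    exact this.is_comm.comm a b
  rw [Group.isSolvable_iff_subgroup_quotient N]
  exact ⟨inferInstance, h1⟩

omit h in
theorem conj_primary {g y : G} {q k : ℕ} (hy : orderOf y = q ^ k) : orderOf (g * y * g⁻¹) = q ^ k := by
  rw [← hy]
  have := orderOf_injective (MulAut.conj g).toMonoidHom (MulAut.conj g).injective y
  simpa using this

/-- no centralizer is abelian in the nonsolvable case. -/
theorem not_abelian (hns : ¬ Group.IsSolvable G)
    (hcore : ∀ q : ℕ, q.Prime → Cfsg.pCore q G ≤ Subgroup.center G)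
    {x : G} (hx : x ∉ Subgroup.center G) (hab : ∀ a ∈ C x, ∀ b ∈ C x, a * b = b * a) : False := by
  classical
  set M := C x with hM
  have hMc : IsCoatom M := h x hx
  have hMnil : Group.IsNilpotent M := C_nilpotent h hx
  let π : Set ℕ := {q | q.Prime ∧ ∃ w ∈ M, w ∉ Subgroup.center G ∧ ∃ k : ℕ, orderOf w = q ^ k}
  have hsyl : ∀ q ∈ π, ∃ S : Sylow q G, Subgroup.normalizer ((S : Subgroup G) : Set G) = M := by
    rintro q ⟨hq, w, hwM, hw, hwq⟩
    haveI : Fact q.Prime := ⟨hq⟩
    obtain ⟨S, -, -, hS⟩ := exists_sylow_normalizer hMc hMnil q (hcore q hq) hwM hw hwq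
    exact ⟨S, hS⟩
  have hK : ∀ q : π, ∃ K : Subgroup G, K.Normal ∧ ¬ (q : ℕ) ∣ Nat.card K ∧ commutator G ≤ K ∧
      ∃ k : ℕ, K.index = (q : ℕ) ^ k := by
    rintro ⟨q, hq, w, hwM, hw, hwq⟩
    haveI : Fact q.Prime := ⟨hq⟩
    obtain ⟨S, -, hSM, hS⟩ := exists_sylow_normalizer hMc hMnil q (hcore q hq) hwM hw hwq
    apply exists_complement q S
    rw [hS]
    intro a ha
    rw [Subgroup.mem_centralizer_iff]
    intro b hb
    exact hab b (hSM hb) a ha
  choose K hKn hKc hKG hKi using hK
  set L : Subgroup G := ⨅ q : π, K q with hL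
  have hLn : L.Normal := Subgroup.normal_iInf_normal hKn
  have hGL : commutator G ≤ L := le_iInf hKG
  -- `L` is not central
  have hLZ : ¬ L ≤ Subgroup.center G := by
    intro hle
    apply hns
    have hZ : Group.IsNilpotent (Subgroup.center G) := by
      exact nilpotent_of_comm fun a b => Subtype.ext ((Subgroup.mem_center_iff.1 b.2) a)
    exact solvable_of_commutator_le_nilpotent (Subgroup.center G) hZ (hGL.trans hle)
  obtain ⟨y0, hy0L, hy0⟩ := Set.not_subset.1 hLZ
  obtain ⟨r, hr, m, hm, k, hk⟩ := exists_primary_notMem _ hy0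
  set y := y0 ^ m with hy
  have hyL : y ∈ L := L.pow_mem hy0L m
  have hrπ : r ∉ π := by
    intro hrπ
    have h1 : y ∈ K ⟨r, hrπ⟩ := (Subgroup.mem_iInf.1 hyL) _
    have h2 : orderOf y ∣ Nat.card (K ⟨r, hrπ⟩) := Subgroup.orderOf_dvd_natCard _ h1
    have h3 : k ≠ 0 := by
      rintro rfl
      rw [pow_zero, orderOf_eq_one_iff] at hk
      exact hm (hk ▸ Subgroup.one_mem _)
    apply hKc ⟨r, hrπ⟩
    refine dvd_trans ?_ h2
    rw [hk]
    exact dvd_pow_self r h3
  have hM'c : IsCoatom (C y) := h y hm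
  have hM'nil : Group.IsNilpotent (C y) := C_nilpotent h hm
  have hM'le : C y ≤ L ⊔ Subgroup.center G := by
    apply le_of_primary
    intro w hwM' s j hs hws
    by_cases hwZ : w ∈ Subgroup.center G
    · exact (le_sup_right : Subgroup.center G ≤ L ⊔ Subgroup.center G) hwZ
    by_cases hsπ : s ∈ π
    · exfalso
      haveI : Fact s.Prime := ⟨hs⟩
      obtain ⟨S, hS⟩ := hsyl s hsπ
      obtain ⟨S', -, -, hS'⟩ := exists_sylow_normalizer hM'c hM'nil s (hcore s hs) hwM' hwZ ⟨j, hws⟩
      obtain ⟨g, hg⟩ := MulAction.exists_smul_eq G S' S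
      -- `g y g⁻¹ ∈ M`
      have h1 : g * y * g⁻¹ ∈ M := by
        rw [← hS]
        have h2 : y ∈ Subgroup.normalizer ((S' : Subgroup G) : Set G) := by
          rw [hS', mem_C]
        have h3 : y • S' = S' := Sylow.smul_eq_iff_mem_normalizer.2 h2
        refine Sylow.smul_eq_iff_mem_normalizer.1 ?_
        rw [mul_smul, mul_smul, ← hg, inv_smul_smul, h3]
      apply hrπ
      refine ⟨hr, _, h1, ?_, k, conj_primary hk⟩
      intro hc
      apply hm
      have h3 := (inferInstance : (Subgroup.center G).Normal).conj_mem _ hc g⁻¹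
      have e : g⁻¹ * (g * y * g⁻¹) * g⁻¹⁻¹ = y := by group
      rwa [e] at h3
    · apply (le_sup_left : L ≤ L ⊔ Subgroup.center G)
      rw [hL, Subgroup.mem_iInf]
      rintro ⟨q, hq⟩
      have hqs : q ≠ s := fun heq => hsπ (heq ▸ hq)
      have := hKn ⟨q, hq⟩
      obtain ⟨i, hi⟩ := hKi ⟨q, hq⟩
      rw [← QuotientGroup.eq_one_iff, ← orderOf_eq_one_iff]
      apply Nat.eq_one_of_dvd_coprimes (a := q ^ i) (b := s ^ j)
      · exact Nat.Coprime.pow _ _ ((Nat.coprime_primes hq.1 hs).2 hqs)
      · rw [← hi, Subgroup.index_eq_card]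
        exact orderOf_dvd_natCard _
      · rw [← hws]
        exact orderOf_map_dvd (QuotientGroup.mk' (K ⟨q, hq⟩)) w
  have hLtop : L ⊔ Subgroup.center G ≠ ⊤ := by
    intro htop
    obtain ⟨p, hp, x', hx', ⟨k', hk'⟩, hxx'⟩ := exists_primary h hx
    have hpπ : p ∈ π := ⟨hp, x', by rw [hM, hxx', mem_C], hx', k', hk'⟩
    have h1 : x' ∈ L ⊔ Subgroup.center G := by rw [htop]; trivial
    rw [Subgroup.mem_sup_of_normal_left] at h1
    obtain ⟨a, ha, z, hz, hazx⟩ := h1
    have h2 : x' ^ Nat.card L ∈ Subgroup.center G := by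
      have hcomm : Commute a z := (Subgroup.mem_center_iff.1 hz) a
      rw [← hazx, hcomm.mul_pow]
      have h3 : a ^ Nat.card L = 1 := by
        have := pow_card_eq_one' (x := (⟨a, ha⟩ : L))
        exact congrArg Subtype.val this
      rw [h3, one_mul]
      exact Subgroup.pow_mem _ hz _
    apply hx'
    apply mem_of_pow_mem _ h2
    rw [hk']
    apply Nat.Coprime.pow_right
    rw [Nat.coprime_comm, hp.coprime_iff_not_dvd]
    intro hd
    exact hKc ⟨p, hpπ⟩ (hd.trans (Subgroup.card_dvd_of_le (iInf_le _ _)))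
  have hM'eq : C y = L ⊔ Subgroup.center G := by
    by_contra hne
    exact hLtop (hM'c.2 _ (lt_of_le_of_ne hM'le hne))
  apply hns
  apply solvable_of_commutator_le_nilpotent (C y) hM'nil
  rw [hM'eq]
  exact hGL.trans le_sup_left

omit h in
theorem card_center_mul_le {M : Type*} [Group M] [Finite M] {p : ℕ} [Fact p.Prime]
    (hp : ∀ y : M, (orderOf y).Coprime p → y ∈ Subgroup.center M)
    (hna : ¬ ∀ a b : M, a * b = b * a) :
    Nat.card (Subgroup.center M) * p ^ 2 ≤ Nat.card M := by
  have h1 : IsPGroup p (M ⧸ Subgroup.center M) := by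
    intro x
    obtain ⟨y, rfl⟩ := QuotientGroup.mk_surjective x
    refine ⟨(orderOf y).factorization p, ?_⟩
    rw [← QuotientGroup.mk_pow, QuotientGroup.eq_one_iff]
    apply hp
    have h2 : orderOf (y ^ p ^ (orderOf y).factorization p) =
        orderOf y / p ^ (orderOf y).factorization p :=
      orderOf_pow_of_dvd (pow_ne_zero _ (Fact.out : p.Prime).ne_zero) (Nat.ordProj_dvd _ _)
    rw [h2]
    exact (Nat.coprime_ordCompl (Fact.out) (orderOf_pos y).ne').symm
  obtain ⟨k, hk⟩ := IsPGroup.iff_card.1 h1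
  have hk2 : 2 ≤ k := by
    by_contra hlt
    have hcyc : IsCyclic (M ⧸ Subgroup.center M) := by
      apply isCyclic_of_card_dvd_prime (p := p)
      rw [hk]
      calc p ^ k ∣ p ^ 1 := pow_dvd_pow p (by omega)
        _ = p := pow_one p
    apply hna
    have := isMulCommutative_of_isCyclic_quotient_center_self M
    exact fun a b => this.is_comm.comm a b
  rw [← (Subgroup.center M).card_mul_index, Subgroup.index_eq_card, hk]
  exact Nat.mul_le_mul_left _ (Nat.pow_le_pow_right (Fact.out : p.Prime).pos hk2)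

/-- The set `A_p`. -/
def A (G : Type*) [Group G] (p : ℕ) : Set G :=
  {x | ∃ S : Sylow p G, x ∈ (Subgroup.center (Subgroup.normalizer ((S : Subgroup G) : Set G))).map
      (Subgroup.normalizer ((S : Subgroup G) : Set G)).subtype ∧
    Nat.card (Subgroup.center (Subgroup.normalizer ((S : Subgroup G) : Set G))) * p ^ 2 ≤
      Nat.card (Subgroup.normalizer ((S : Subgroup G) : Set G))}

omit h in
theorem card_A_le (p : ℕ) [Fact p.Prime] : (A G p).ncard * p ^ 2 ≤ Nat.card G := by
  classical
  haveI : Fintype (Sylow p G) := Fintype.ofFinite _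
  let Z : Sylow p G → Set G := fun S =>
    if Nat.card (Subgroup.center (Subgroup.normalizer ((S : Subgroup G) : Set G))) * p ^ 2 ≤
      Nat.card (Subgroup.normalizer ((S : Subgroup G) : Set G)) then
      ((Subgroup.center (Subgroup.normalizer ((S : Subgroup G) : Set G))).map
      (Subgroup.normalizer ((S : Subgroup G) : Set G)).subtype : Set G) else ∅
  have hsub : A G p ⊆ ⋃ S : Sylow p G, Z S := by
    rintro x ⟨S, hx, hS⟩
    rw [Set.mem_iUnion]
    refine ⟨S, ?_⟩
    simp only [Z]
    rw [if_pos hS]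
    exact hx
  have h1 : (A G p).ncard ≤ ∑ S : Sylow p G, (Z S).ncard := by
    refine (Set.ncard_le_ncard hsub (Set.toFinite _)).trans ?_
    rw [Set.ncard_eq_toFinset_card _ (Set.toFinite _)]
    calc _ ≤ (Finset.univ.biUnion fun S : Sylow p G => (Set.toFinite (Z S)).toFinset).card := by
          apply Finset.card_le_card
          intro x hx
          simpa using hx
      _ ≤ ∑ S : Sylow p G, (Set.toFinite (Z S)).toFinset.card := Finset.card_biUnion_le
      _ = ∑ S : Sylow p G, (Z S).ncard := by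
          apply Finset.sum_congr rfl
          intro S _
          rw [Set.ncard_eq_toFinset_card _ (Set.toFinite _)]
  have h2 : ∀ S : Sylow p G, (Z S).ncard * p ^ 2 ≤
      Nat.card (Subgroup.normalizer ((S : Subgroup G) : Set G)) := by
    intro S
    simp only [Z]
    split_ifs with hS
    · refine le_trans (le_of_eq ?_) hS
      congr 1
      rw [← Nat.card_coe_set_eq]
      exact Nat.card_congr (Subgroup.equivMapOfInjective _ _
        (Subgroup.normalizer ((S : Subgroup G) : Set G)).subtype_injective).symm.toEquiv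
    · simp
  have h3 : ∀ S : Sylow p G, Nat.card (Subgroup.normalizer ((S : Subgroup G) : Set G)) *
      Nat.card (Sylow p G) = Nat.card G := by
    intro S
    rw [S.card_eq_index_normalizer]
    exact Subgroup.card_mul_index _
  have hpos : 0 < Nat.card (Sylow p G) := Nat.card_pos
  have h4 : (A G p).ncard * p ^ 2 * Nat.card (Sylow p G) ≤ Nat.card G * Nat.card (Sylow p G) := by
    calc (A G p).ncard * p ^ 2 * Nat.card (Sylow p G)
        ≤ (∑ S : Sylow p G, (Z S).ncard) * p ^ 2 * Nat.card (Sylow p G) := by gcongr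
      _ = ∑ S : Sylow p G, (Z S).ncard * p ^ 2 * Nat.card (Sylow p G) := by
          rw [Finset.sum_mul, Finset.sum_mul]
      _ ≤ ∑ S : Sylow p G, Nat.card G := by
          apply Finset.sum_le_sum
          intro S _
          rw [← h3 S]
          exact Nat.mul_le_mul_right _ (h2 S)
      _ = Nat.card G * Nat.card (Sylow p G) := by
          rw [Finset.sum_const, Finset.card_univ, ← Nat.card_eq_fintype_card, smul_eq_mul, mul_comm]
  exact Nat.le_of_mul_le_mul_right h4 hpos

theorem mem_A (hns : ¬ Group.IsSolvable G)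
    (hcore : ∀ q : ℕ, q.Prime → Cfsg.pCore q G ≤ Subgroup.center G)
    {x : G} (hx : x ∉ Subgroup.center G) : ∃ p : ℕ, p.Prime ∧ p ∣ Nat.card G ∧ x ∈ A G p := by
  obtain ⟨p, hp, y, hy, ⟨k, hk⟩, hxy⟩ := exists_primary h hx
  haveI : Fact p.Prime := ⟨hp⟩
  have hxM : x ∈ C y := by rw [← hxy, mem_C]
  have hyM : y ∈ C y := by rw [mem_C]
  obtain ⟨S, hyS, hSM, hS⟩ := exists_sylow_normalizer (h y hy) (C_nilpotent h hy) p (hcore p hp) hyM hy
    ⟨k, hk⟩
  have hk0 : k ≠ 0 := by
    rintro rfl
    rw [pow_zero, orderOf_eq_one_iff] at hk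
    exact hy (hk ▸ Subgroup.one_mem _)
  refine ⟨p, hp, ?_, S, ?_, ?_⟩
  · exact ((dvd_pow_self p hk0).trans (dvd_of_eq hk.symm)).trans (orderOf_dvd_natCard y)
  · rw [hS, ← hxy]
    refine ⟨⟨x, by rw [mem_C]⟩, ?_, rfl⟩
    rw [SetLike.mem_coe, Subgroup.mem_center_iff]
    intro g
    exact Subtype.ext (mem_C.1 g.2)
  · rw [hS]
    apply card_center_mul_le (p := p)
    · intro z hz
      exact central_of_coprime h hy ⟨k, hk⟩ z hz
    · intro hab
      apply not_abelian h hns hcore hy
      intro a ha b hb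
      exact congrArg Subtype.val (hab ⟨a, ha⟩ ⟨b, hb⟩)

omit [Group G] [Finite G] h in
theorem sum_inv_sq (N : ℕ) : ∑ n ∈ Finset.Ico 2 (N + 2), (1 : ℚ) / (n : ℚ) ^ 2 ≤
    2 / 3 - 1 / ((N : ℚ) + 3 / 2) := by
  induction N with
  | zero => norm_num
  | succ N ih =>
    rw [Finset.sum_Ico_succ_top (by omega)]
    have h1 : (1 : ℚ) / ((N + 2 : ℕ) : ℚ) ^ 2 ≤ 1 / ((N : ℚ) + 3 / 2) - 1 / ((N : ℚ) + 5 / 2) := by
      push_cast
      have hN : (0 : ℚ) ≤ N := Nat.cast_nonneg N
      rw [div_sub_div _ _ (by positivity) (by positivity), div_le_div_iff₀ (by positivity) (by positivity)]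
      nlinarith
    have e : ((N + 1 : ℕ) : ℚ) + 3 / 2 = (N : ℚ) + 5 / 2 := by push_cast; ring
    rw [e]
    linarith

omit [Group G] [Finite G] h in
theorem sum_inv_sq_lt (P : Finset ℕ) (hP : ∀ n ∈ P, 2 ≤ n) :
    ∑ n ∈ P, (1 : ℚ) / (n : ℚ) ^ 2 < 2 / 3 := by
  obtain ⟨N, hN⟩ : ∃ N, P ⊆ Finset.Ico 2 (N + 2) := by
    refine ⟨P.sup id + 1, fun n hn => ?_⟩
    rw [Finset.mem_Ico]
    have : n ≤ P.sup id := Finset.le_sup (f := id) hn
    exact ⟨hP n hn, by omega⟩
  calc ∑ n ∈ P, (1 : ℚ) / (n : ℚ) ^ 2 ≤ ∑ n ∈ Finset.Ico 2 (N + 2), (1 : ℚ) / (n : ℚ) ^ 2 :=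
        Finset.sum_le_sum_of_subset_of_nonneg hN (fun _ _ _ => by positivity)
    _ ≤ 2 / 3 - 1 / ((N : ℚ) + 3 / 2) := sum_inv_sq N
    _ < 2 / 3 := by
        have : (0 : ℚ) < 1 / ((N : ℚ) + 3 / 2) := by positivity
        linarith

omit h in
theorem card_center_le (hna : ¬ ∀ a b : G, a * b = b * a) :
    Nat.card (Subgroup.center G) * 4 ≤ Nat.card G := by
  have h1 : 4 ≤ (Subgroup.center G).index := by
    by_contra hlt
    have hcyc : IsCyclic (G ⧸ Subgroup.center G) := by
      rw [Subgroup.index_eq_card] at hlt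
      have hpos : 0 < Nat.card (G ⧸ Subgroup.center G) := Nat.card_pos
      interval_cases hc : Nat.card (G ⧸ Subgroup.center G)
      · haveI : Fact (Nat.Prime 2) := ⟨Nat.prime_two⟩
        exact isCyclic_of_card_dvd_prime (p := 2) (by rw [hc]; norm_num)
      · haveI : Fact (Nat.Prime 2) := ⟨Nat.prime_two⟩
        exact isCyclic_of_card_dvd_prime (p := 2) (by rw [hc])
      · haveI : Fact (Nat.Prime 3) := ⟨Nat.prime_three⟩
        exact isCyclic_of_card_dvd_prime (p := 3) (by rw [hc])
    apply hna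
    have := isMulCommutative_of_isCyclic_quotient_center_self G
    exact fun a b => this.is_comm.comm a b
  rw [← (Subgroup.center G).card_mul_index]
  exact Nat.mul_le_mul_left _ h1

end

/-- Let G be a finite group in which the centralizer of every non-central element is a maximal subgroup of G. Then G is solvable. -/
theorem result {G : Type*} [Group G] [Finite G]
    (h : ∀ g : G, g ∉ Subgroup.center G → IsCoatom (Subgroup.centralizer ({g} : Set G))) :
    Group.IsSolvable G := by
  classical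
  by_contra hns
  have hcore : ∀ q : ℕ, q.Prime → Cfsg.pCore q G ≤ Subgroup.center G := by
    intro q hq
    haveI : Fact q.Prime := ⟨hq⟩
    by_contra hcon
    exact hns (solvable_of_pCore h q hcon)
  have hna : ¬ ∀ a b : G, a * b = b * a := fun hab => hns (Group.isSolvable_of_comm hab)
  have hZ := card_center_le hna
  have hcov : (Set.univ : Set G) ⊆ (Subgroup.center G : Set G) ∪
      ⋃ p ∈ (Nat.card G).primeFactors, A G p := by
    intro x _
    by_cases hx : x ∈ Subgroup.center G
    · exact Or.inl hx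
    · right
      obtain ⟨p, hp, hpd, hxA⟩ := mem_A h hns hcore hx
      rw [Set.mem_iUnion₂]
      exact ⟨p, Nat.mem_primeFactors.2 ⟨hp, hpd, Nat.card_pos.ne'⟩, hxA⟩
  have h1 : Nat.card G ≤ Nat.card (Subgroup.center G) + ∑ p ∈ (Nat.card G).primeFactors, (A G p).ncard := by
    calc Nat.card G = (Set.univ : Set G).ncard := (Set.ncard_univ G).symm
      _ ≤ _ := Set.ncard_le_ncard hcov (Set.toFinite _)
      _ ≤ _ := Set.ncard_union_le _ _
      _ ≤ _ := by
        apply Nat.add_le_add
        · exact le_of_eq (Nat.card_coe_set_eq _).symm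
        · generalize (Nat.card G).primeFactors = P
          induction P using Finset.induction_on with
          | empty => simp
          | insert a s has ih =>
            rw [Finset.sum_insert has, Finset.set_biUnion_insert]
            exact (Set.ncard_union_le _ _).trans (Nat.add_le_add_left ih _)
  have h2 : ∀ p ∈ (Nat.card G).primeFactors, ((A G p).ncard : ℚ) ≤ Nat.card G * (1 / (p : ℚ) ^ 2) := by
    intro p hp
    have hpp := (Nat.mem_primeFactors.1 hp).1
    haveI : Fact p.Prime := ⟨hpp⟩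
    have h3 := card_A_le (G := G) p
    have h4 : (0 : ℚ) < (p : ℚ) ^ 2 := by
      have := hpp.pos
      positivity
    rw [mul_one_div, le_div_iff₀ h4]
    exact_mod_cast h3
  have h3 : (Nat.card G : ℚ) ≤ Nat.card G * (1 / 4) + Nat.card G * (∑ p ∈ (Nat.card G).primeFactors, 1 / (p : ℚ) ^ 2) := by
    calc (Nat.card G : ℚ) ≤ Nat.card (Subgroup.center G) + ∑ p ∈ (Nat.card G).primeFactors, ((A G p).ncard : ℚ) := by
          exact_mod_cast h1
      _ ≤ _ := by
          apply add_le_add
          · have : (Nat.card (Subgroup.center G) : ℚ) * 4 ≤ Nat.card G := by exact_mod_cast hZ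
            linarith
          · rw [Finset.mul_sum]
            exact Finset.sum_le_sum h2
  have h4 := sum_inv_sq_lt (Nat.card G).primeFactors (fun n hn => (Nat.mem_primeFactors.1 hn).1.two_le)
  have h5 : (0 : ℚ) < Nat.card G := by exact_mod_cast Nat.card_pos
  nlinarith

end Cfsg.Agent.S4262
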