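import Cfsg.Statements.S4263
import Cfsg.Agent.H1.Cores

set_option autoImplicit false
open Cfsg

namespace Cfsg.Agent.S4263

open Subgroup

theorem pow_index_mem_of_nilpotent {F : Type*} [Group F] [Finite F] (hF : Group.IsNilpotent F) (x : F) :
    ∀ (n : ℕ) (K : Subgroup F), K.index = n → x ^ K.index ∈ K := by
  intro n
  induction n using Nat.strong_induction_on with
  | _ n ih =>
    intro K hK
    by_cases hKt : K = ⊤
    · subst hKt; simp
    · have hnc : NormalizerCondition F := Cfsg.Agent.H1.isNilpotent_iff_normalizerCondition.1 hF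
      have hlt : K < normalizer (K : Set F) := hnc K (lt_top_iff_ne_top.2 hKt)
      have hle := hlt.le
      have h1 : K.relIndex (normalizer (K : Set F)) * (normalizer (K : Set F)).index = K.index :=
        Subgroup.relIndex_mul_index hle
      have hne : K.relIndex (normalizer (K : Set F)) ≠ 1 := by
        intro h
        rw [Subgroup.relIndex_eq_one] at h
        exact absurd (le_antisymm hle h) hlt.ne
      have hpos : 0 < K.index := Nat.pos_of_ne_zero K.index_ne_zero_of_finite
      have hlt2 : (normalizer (K : Set F)).index < n := by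
        rw [← hK, ← h1]
        have hi : 0 < (normalizer (K : Set F)).index := Nat.pos_of_ne_zero (Subgroup.index_ne_zero_of_finite)
        have hr : 0 < K.relIndex (normalizer (K : Set F)) := by
          rcases Nat.eq_zero_or_pos (K.relIndex (normalizer (K : Set F))) with h | h
          · rw [h] at h1; simp at h1; omega
          · exact h
        have : 2 ≤ K.relIndex (normalizer (K : Set F)) := by omega
        nlinarith
      have h2 := ih _ hlt2 (normalizer (K : Set F)) rfl
      have h3 : (⟨x ^ (normalizer (K : Set F)).index, h2⟩ : normalizer (K : Set F)) ^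
          (K.subgroupOf (normalizer (K : Set F))).index ∈ K.subgroupOf (normalizer (K : Set F)) := by
        haveI : (K.subgroupOf (normalizer (K : Set F))).Normal := Subgroup.normal_in_normalizer
        exact Subgroup.pow_index_mem _ _
      rw [Subgroup.mem_subgroupOf] at h3
      rw [← h1, mul_comm, pow_mul]
      exact h3

theorem result {G : Type*} [Group G] [Finite G] (x : G) :
    x ∈ Cfsg.fittingSubgroup G ↔ ∀ H : Subgroup G, x ^ H.index ∈ H := by
  constructor
  · intro hx H
    set F := Cfsg.fittingSubgroup G with hFdef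
    haveI : F.Normal := Cfsg.Agent.H1.fitting_normal G
    have hnil : Group.IsNilpotent F := Cfsg.Agent.H1.fitting_isNilpotent G
    have h1 := pow_index_mem_of_nilpotent hnil ⟨x, hx⟩ _ (H.subgroupOf F) rfl
    rw [Subgroup.mem_subgroupOf] at h1
    have h2 : x ^ H.relIndex F ∈ H := h1
    have hdvd : H.relIndex F ∣ H.index := by
      have e1 : F.relIndex (H ⊔ F) = F.relIndex H := Subgroup.relIndex_sup_right H F
      have c1 : Nat.card F * F.relIndex (H ⊔ F) = Nat.card ↥(H ⊔ F) := by
        exact Cfsg.Agent.H1.card_mul_relIndex (le_sup_right)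
      have c2 : Nat.card H * H.relIndex (H ⊔ F) = Nat.card ↥(H ⊔ F) := by
        exact Cfsg.Agent.H1.card_mul_relIndex (le_sup_left)
      have c3 : Nat.card ↥(F ⊓ H) * F.relIndex H = Nat.card H := by
        have := Cfsg.Agent.H1.card_mul_relIndex (H := H) (K := F ⊓ H) inf_le_right
        rwa [Subgroup.inf_relIndex_right] at this
      have c4 : Nat.card ↥(F ⊓ H) * H.relIndex F = Nat.card F := by
        have := Cfsg.Agent.H1.card_mul_relIndex (H := F) (K := F ⊓ H) inf_le_left
        rw [inf_comm, Subgroup.inf_relIndex_right] at this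
        rwa [inf_comm]
      have hrel : H.relIndex F = H.relIndex (H ⊔ F) := by
        have hpos : 0 < Nat.card ↥(F ⊓ H) := Nat.card_pos
        have hpos2 : 0 < Nat.card H := Nat.card_pos
        have hpos3 : 0 < F.relIndex H := by
          rcases Nat.eq_zero_or_pos (F.relIndex H) with h | h
          · rw [h] at c3; omega
          · exact h
        apply Nat.eq_of_mul_eq_mul_left hpos2
        rw [c2, ← c1, e1, ← c3, ← c4]
        ring
      rw [hrel]
      exact ⟨(H ⊔ F).index, (Subgroup.relIndex_mul_index le_sup_left).symm⟩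
    obtain ⟨k, hk⟩ := hdvd
    rw [hk, pow_mul]
    exact Subgroup.pow_mem _ h2 k
  · intro h
    set F := Cfsg.fittingSubgroup G with hFdef
    haveI : F.Normal := Cfsg.Agent.H1.fitting_normal G
    by_contra hx
    have hne : orderOf (QuotientGroup.mk x : G ⧸ F) ≠ 1 := by
      rw [Ne, orderOf_eq_one_iff, QuotientGroup.eq_one_iff]; exact hx
    obtain ⟨p, hp, hpd⟩ := Nat.exists_prime_and_dvd hne
    haveI : Fact p.Prime := ⟨hp⟩
    have hn0 : orderOf x ≠ 0 := (orderOf_pos x).ne'
    set b := ordCompl[p] (orderOf x) with hb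
    have hpb : ¬ p ∣ b := Nat.not_dvd_ordCompl hp hn0
    have hmul : p ^ (orderOf x).factorization p * b = orderOf x := Nat.ordProj_mul_ordCompl_eq_self _ _
    have hord : orderOf (x ^ b) = p ^ (orderOf x).factorization p := by
      have hb0 : b ≠ 0 := by rintro h0; rw [h0] at hmul; simp at hmul; omega
      rw [orderOf_pow' x hb0, Nat.gcd_eq_right (Dvd.intro_left _ hmul)]
      apply Nat.div_eq_of_eq_mul_left (Nat.pos_of_ne_zero hb0) hmul.symm
    have hmem : x ^ b ∈ Cfsg.pCore p G := by
      rw [Cfsg.Agent.H1.pCore_eq_iInf_sylow, Subgroup.mem_iInf]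
      intro P
      have h1 : (x ^ b) ^ (P : Subgroup G).index ∈ (P : Subgroup G) := by
        rw [← pow_mul, mul_comm, pow_mul]
        exact Subgroup.pow_mem _ (h P) b
      have hcop : (orderOf (x ^ b)).Coprime (P : Subgroup G).index := by
        rw [hord]
        exact Nat.Coprime.pow_left _ ((Nat.Prime.coprime_iff_not_dvd hp).2 P.not_dvd_index)
      obtain ⟨m, hm⟩ := exists_pow_eq_self_of_coprime hcop.symm
      rw [← hm]
      exact Subgroup.pow_mem _ h1 m
    have hF : x ^ b ∈ F := Cfsg.Agent.H1.pCore_le_fitting p hmem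
    have hdvd : orderOf (QuotientGroup.mk x : G ⧸ F) ∣ b := by
      rw [orderOf_dvd_iff_pow_eq_one, ← QuotientGroup.mk_pow, QuotientGroup.eq_one_iff]
      exact hF
    exact hpb (hpd.trans hdvd)

end Cfsg.Agent.S4263
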