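import Cfsg.Statements.S4264
import Cfsg.Agent.S4200
import Cfsg.Agent.S4201
import Cfsg.Agent.S4198
import Cfsg.Agent.H22.ThreeCycle
import Cfsg.Agent.H7.KGV4

set_option autoImplicit false
open Cfsg

namespace Cfsg.Agent.S4264

open Equiv

/-- number of classes -/
noncomputable abbrev kc (G : Type) [Group G] : ℕ := Nat.card (ConjClasses G)

theorem kc_pos (G : Type) [Group G] [Finite G] : 0 < kc G := Nat.card_pos

theorem kc_le_card (G : Type) [Group G] [Finite G] : kc G ≤ Nat.card G :=
  Nat.card_le_card_of_surjective _ ConjClasses.mk_surjective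

/-- the bound for sets of size `n` -/
def KB (n : ℕ) : Prop := ∀ (Ω : Type) [Finite Ω], Nat.card Ω = n → 0 < n → ∀ (G : Type) [Group G] [Finite G]
  (φ : G →* Perm Ω), Function.Injective φ → kc G ≤ 5 ^ (n - 1)

/-- restriction of an action to an invariant subset -/
def res {Ω G : Type} [Group G] (φ : G →* Perm Ω) (P : Ω → Prop) (h : ∀ g x, P (φ g x) ↔ P x) :
    G →* Perm {x // P x} where
  toFun g := (φ g).subtypePerm (h g)
  map_one' := by ext x; simp
  map_mul' a b := by
    apply Equiv.ext
    intro x
    apply Subtype.ext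
    show φ (a * b) x = φ a (φ b x)
    rw [map_mul]; rfl

theorem res_apply {Ω G : Type} [Group G] (φ : G →* Perm Ω) (P : Ω → Prop) (h : ∀ g x, P (φ g x) ↔ P x)
    (g : G) (x : {x // P x}) : ((res φ P h g x : {x // P x}) : Ω) = φ g x := rfl

theorem QB (n0 : ℕ) (hK : ∀ m < n0, KB m) : ∀ (r : ℕ) (Ω : Type) [Finite Ω] (G : Type) [Group G] [Finite G]
    (φ : G →* Perm Ω), Function.Injective φ → ∀ (f : Ω → Fin r), Function.Surjective f →
    (∀ g x, f (φ g x) = f x) → (∀ i, Nat.card {x // f x = i} < n0) → kc G ≤ 5 ^ (Nat.card Ω - r) := by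
  classical
  intro r
  induction r with
  | zero =>
    intro Ω _ G _ _ φ hφ f _ _ _
    have hsub : Subsingleton G := ⟨fun a b => hφ (by ext x; exact (f x).elim0)⟩
    have : Nat.card G = 1 := Nat.card_unique
    calc kc G ≤ Nat.card G := kc_le_card G
      _ = 1 := this
      _ ≤ _ := Nat.one_le_pow _ _ (by norm_num)
  | succ r ih =>
    intro Ω _ G _ _ φ hφ f hf hinv hsize
    let ψ := res φ (fun x => f x = Fin.last r) (fun g x => by rw [hinv])
    have hinv' : ∀ (g : ψ.ker) x, (¬ f ((φ.comp ψ.ker.subtype) g x) = Fin.last r) ↔ ¬ f x = Fin.last r := by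
      intro g x
      show (¬ f (φ g x) = Fin.last r) ↔ _
      rw [hinv]
    let φ' := res (φ.comp ψ.ker.subtype) (fun x => ¬ f x = Fin.last r) hinv'
    have hφ' : Function.Injective φ' := by
      rw [injective_iff_map_eq_one]
      intro g hg
      apply Subtype.ext
      apply hφ
      show φ g = φ 1
      rw [map_one]
      ext x
      by_cases hx : f x = Fin.last r
      · have h1 : ψ (g : G) = 1 := g.2
        have := congrArg (fun e : Perm {x // f x = Fin.last r} => ((e ⟨x, hx⟩ : _) : Ω)) h1
        exact this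
      · have := congrArg (fun e : Perm {x // ¬ f x = Fin.last r} => ((e ⟨x, hx⟩ : _) : Ω)) hg
        exact this
    let f' : {x // ¬ f x = Fin.last r} → Fin r := fun x => (f x).castPred x.2
    have hf'v : ∀ x, (f' x).castSucc = f x := fun x => Fin.castSucc_castPred _ _
    have hf' : Function.Surjective f' := by
      intro i
      obtain ⟨x, hx⟩ := hf i.castSucc
      have hxl : ¬ f x = Fin.last r := by rw [hx]; exact Fin.castSucc_ne_last i
      refine ⟨⟨x, hxl⟩, ?_⟩
      apply Fin.castSucc_injective
      rw [hf'v, hx]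
    have h1 := ih _ ψ.ker φ' hφ' f' hf' (by
      intro g x
      apply Fin.castSucc_injective
      rw [hf'v, hf'v]
      exact hinv g x) (by
      intro i
      refine lt_of_le_of_lt ?_ (hsize i.castSucc)
      refine Nat.card_le_card_of_injective (fun x => ⟨x.1.1, by rw [← hf'v, x.2]⟩) ?_
      intro x y hxy
      apply Subtype.ext
      apply Subtype.ext
      exact congrArg (fun z : {x // f x = i.castSucc} => (z : Ω)) hxy)
    obtain ⟨x0, hx0⟩ := hf (Fin.last r)
    have hApos : 0 < Nat.card {x // f x = Fin.last r} := by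
      haveI : Nonempty {x // f x = Fin.last r} := ⟨⟨x0, hx0⟩⟩
      exact Nat.card_pos
    have h2 := hK _ (hsize (Fin.last r)) {x // f x = Fin.last r} rfl hApos (G ⧸ ψ.ker)
      (QuotientGroup.kerLift ψ) (QuotientGroup.kerLift_injective ψ)
    have h3 := Cfsg.Agent.S4201.result ψ.ker
    have h4 : Nat.card Ω = Nat.card {x // f x = Fin.last r} + Nat.card {x // ¬ f x = Fin.last r} := by
      rw [← Nat.card_sum]
      exact Nat.card_congr (Equiv.sumCompl _).symm
    have h5 : r ≤ Nat.card {x // ¬ f x = Fin.last r} := by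
      have := Nat.card_le_card_of_surjective f' hf'
      simpa using this
    calc kc G ≤ kc ψ.ker * kc (G ⧸ ψ.ker) := h3
      _ ≤ 5 ^ (Nat.card {x // ¬ f x = Fin.last r} - r) * 5 ^ (Nat.card {x // f x = Fin.last r} - 1) :=
        Nat.mul_le_mul h1 h2
      _ = 5 ^ (Nat.card Ω - (r + 1)) := by
        rw [← pow_add]
        congr 1
        omega

/-- a small base for a primitive group -/
theorem exists_base {Ω : Type} [Fintype Ω] [DecidableEq Ω] (P : Subgroup (Perm Ω))
    (hP : MulAction.IsPreprimitive P Ω) (hA : ¬ alternatingGroup Ω ≤ P) :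
    ∃ Δ : Finset Ω, (∀ g ∈ P, (∀ x ∈ Δ, g x = x) → g = 1) ∧ 2 * Δ.card ≤ Fintype.card Ω := by
  let IsBase : Finset Ω → Prop := fun Δ => ∀ g ∈ P, (∀ x ∈ Δ, g x = x) → g = 1
  have hex : ∃ Δ : Finset Ω, IsBase Δ := ⟨Finset.univ, fun g _ hg => Equiv.ext fun x => hg x (Finset.mem_univ x)⟩
  obtain ⟨Δ, hΔ, hmin⟩ : ∃ Δ : Finset Ω, IsBase Δ ∧ ∀ Δ' : Finset Ω, IsBase Δ' → Δ.card ≤ Δ'.card := by
    classical
    let S : Finset (Finset Ω) := Finset.univ.filter IsBase
    have hS : S.Nonempty := by
      obtain ⟨Δ, hΔ⟩ := hex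
      exact ⟨Δ, by simp [S, hΔ]⟩
    obtain ⟨Δ, hΔ, hm⟩ := S.exists_min_image Finset.card hS
    refine ⟨Δ, by simpa [S] using hΔ, fun Δ' h' => hm Δ' (by simpa [S] using h')⟩
  refine ⟨Δ, hΔ, ?_⟩
  by_contra hcon
  push Not at hcon
  apply hA
  have hc : ¬ IsBase Δᶜ := by
    intro h
    have h1 := hmin _ h
    rw [Finset.card_compl] at h1
    have := Finset.card_le_univ Δ
    omega
  simp only [IsBase] at hc
  push Not at hc
  obtain ⟨h, hhP, hhfix, hh1⟩ := hc
  obtain ⟨d, hd⟩ : ∃ d, h d ≠ d := by
    by_contra hcon2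
    push Not at hcon2
    exact hh1 (Equiv.ext hcon2)
  have hdΔ : d ∈ Δ := by
    by_contra hdn
    exact hd (hhfix d (Finset.mem_compl.2 hdn))
  have hc2 : ¬ IsBase (Δ.erase d) := by
    intro h'
    have h1 := hmin _ h'
    rw [Finset.card_erase_of_mem hdΔ] at h1
    have : 0 < Δ.card := Finset.card_pos.2 ⟨d, hdΔ⟩
    omega
  simp only [IsBase] at hc2
  push Not at hc2
  obtain ⟨g, hgP, hgfix, hg1⟩ := hc2
  have hgd : g d ≠ d := by
    intro h'
    apply hg1
    apply hΔ g hgP
    intro x hx
    by_cases hxd : x = d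
    · rw [hxd]; exact h'
    · exact hgfix x (Finset.mem_erase.2 ⟨hxd, hx⟩)
  apply Cfsg.Agent.H22.alternatingGroup_le_of_supports P hP hgP hhP d hgd hd
  intro x hgx hhx
  by_contra hxd
  have hxΔ : x ∈ Δ := by
    by_contra hdn
    exact hhx (hhfix x (Finset.mem_compl.2 hdn))
  exact hgx (hgfix x (Finset.mem_erase.2 ⟨hxd, hxΔ⟩))

theorem pow_bound (n δ : ℕ) (hδ : 0 < δ) (h : 2 * δ ≤ n) : 2 ^ n * 5 ^ (δ - 1) ≤ 5 ^ (n - 1) := by
  have h1 : 2 ^ n ≤ 5 ^ (n - δ) := by
    have h2 : (2 ^ n) ^ 2 ≤ (5 ^ (n - δ)) ^ 2 := by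
      rw [← pow_mul, ← pow_mul, mul_comm n 2, pow_mul]
      calc (2 ^ 2) ^ n ≤ 5 ^ n := Nat.pow_le_pow_left (by norm_num) n
        _ ≤ 5 ^ ((n - δ) * 2) := Nat.pow_le_pow_right (by norm_num) (by omega)
    exact (Nat.pow_le_pow_iff_left (by norm_num)).mp h2
  calc 2 ^ n * 5 ^ (δ - 1) ≤ 5 ^ (n - δ) * 5 ^ (δ - 1) := Nat.mul_le_mul_right _ h1
    _ = 5 ^ (n - 1) := by rw [← pow_add]; congr 1; omega

open scoped Pointwise in
theorem main (n : ℕ) : KB n := by
  classical
  induction n using Nat.strong_induction_on with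
  | _ n ih =>
  intro Ω _ hcard hn G0 _ _ φ0 hφ0
  haveI : Fintype Ω := Fintype.ofFinite Ω
  have hcard' : Fintype.card Ω = n := by rw [← Nat.card_eq_fintype_card, hcard]
  -- replace by the image
  suffices H : ∀ P : Subgroup (Perm Ω), kc P ≤ 5 ^ (n - 1) by
    have := H φ0.range
    rwa [kc, ← Cfsg.Agent.KGV.card_conjClasses_congr (MonoidHom.ofInjective hφ0)] at this
  intro P
  -- small degree
  by_cases hn5 : n < 5
  · have h1 : kc P ≤ n.factorial := by
      calc kc P ≤ Nat.card P := kc_le_card P
        _ ≤ Nat.card (Perm Ω) := Subgroup.card_le_card_group P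
        _ = n.factorial := by rw [Nat.card_perm, hcard]
    refine h1.trans ?_
    interval_cases n <;> decide
  push Not at hn5
  haveI hne : Nonempty Ω := by
    rw [← Fintype.card_pos_iff, hcard']; exact hn
  by_cases htr : MulAction.IsPretransitive P Ω
  · by_cases hprim : MulAction.IsPreprimitive P Ω
    · by_cases hA : alternatingGroup Ω ≤ P
      · -- P contains the alternating group
        have h1 := (Cfsg.Agent.S4200.result P).1
        have h2 : P.index ≤ 2 := by
          have h3 : (alternatingGroup Ω).index = 2 := by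
            haveI : Nontrivial Ω := by
              rw [← Fintype.one_lt_card_iff_nontrivial]; omega
            exact alternatingGroup.index_eq_two
          have h4 := Subgroup.index_dvd_of_le hA
          rw [h3] at h4
          exact Nat.le_of_dvd (by norm_num) h4
        have h3 : kc (Perm Ω) ≤ 2 ^ (n - 2) := by
          have h4 := (Cfsg.Agent.S4198.result n hn5).2
          have e : Ω ≃ Fin n := Fintype.equivFinOfCardEq hcard'
          rwa [← Cfsg.Agent.KGV.card_conjClasses_congr (A := Perm Ω) (B := Perm (Fin n)) e.permCongrHom] at h4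
        calc kc P ≤ P.index * kc (Perm Ω) := h1
          _ ≤ 2 * 2 ^ (n - 2) := Nat.mul_le_mul h2 h3
          _ = 2 ^ (n - 1) := by rw [← pow_succ']; congr 1; omega
          _ ≤ 5 ^ (n - 1) := Nat.pow_le_pow_left (by norm_num) _
      · obtain ⟨Δ, hΔ, hsize⟩ := exists_base P hprim hA
        rw [hcard'] at hsize
        rcases Nat.eq_zero_or_pos Δ.card with hδ | hδ
        · have hP1 : Nat.card P = 1 := by
            haveI : Subsingleton P := ⟨fun a b => by
              have : ∀ c : P, (c : Perm Ω) = 1 := fun c => hΔ c c.2 (by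
                rw [Finset.card_eq_zero.mp hδ]; simp)
              exact Subtype.ext ((this a).trans (this b).symm)⟩
            exact Nat.card_unique
          calc kc P ≤ Nat.card P := kc_le_card P
            _ = 1 := hP1
            _ ≤ _ := Nat.one_le_pow _ _ (by norm_num)
        · let H : Subgroup P := MulAction.stabilizer P (Δ : Set Ω)
          have hidx : H.index ≤ 2 ^ n := by
            rw [MulAction.index_stabilizer]
            calc (MulAction.orbit P (Δ : Set Ω)).ncard ≤ (Set.univ : Set (Set Ω)).ncard :=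
                  Set.ncard_le_ncard (Set.subset_univ _) (Set.toFinite _)
              _ = 2 ^ n := by rw [Set.ncard_univ, Nat.card_eq_fintype_card, Fintype.card_set, hcard']
          have hinv : ∀ (g : H) (x : Ω), ((P.subtype.comp H.subtype) g x) ∈ Δ ↔ x ∈ Δ := by
            intro g x
            have h1 : (g : P) • (Δ : Set Ω) = Δ := g.2
            have h2 := Set.smul_mem_smul_set_iff (a := (g : P)) (s := (Δ : Set Ω)) (x := x)
            rw [h1] at h2
            exact h2
          let φ := res (P.subtype.comp H.subtype) (fun x => x ∈ Δ) hinv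
          have hφ : Function.Injective φ := by
            rw [injective_iff_map_eq_one]
            intro g hg
            apply Subtype.ext
            apply Subtype.ext
            refine hΔ _ (g : P).2 fun x hx => ?_
            exact congrArg (fun e : Perm {x // x ∈ Δ} => ((e ⟨x, hx⟩ : _) : Ω)) hg
          have hΔc : Nat.card {x // x ∈ Δ} = Δ.card := by simp
          have h1 := ih Δ.card (by omega) {x // x ∈ Δ} hΔc hδ H φ hφ
          calc kc P ≤ H.index * kc H := (Cfsg.Agent.S4200.result H).2.1
            _ ≤ 2 ^ n * 5 ^ (Δ.card - 1) := Nat.mul_le_mul hidx h1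
            _ ≤ 5 ^ (n - 1) := pow_bound n _ hδ hsize
    · -- imprimitive
      obtain ⟨α⟩ := hne
      haveI hnt : Nontrivial Ω := by
        rw [← Fintype.one_lt_card_iff_nontrivial]; omega
      have hst : (MulAction.stabilizer P α).index = n := by
        rw [MulAction.index_stabilizer, MulAction.orbit_eq_univ, Set.ncard_univ, hcard]
      have hnc : ¬ IsCoatom (MulAction.stabilizer P α) := fun h =>
        hprim (MulAction.isCoatom_stabilizer_iff_preprimitive P α |>.mp h)
      have hnt' : MulAction.stabilizer P α ≠ ⊤ := by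
        intro h
        rw [h, Subgroup.index_top] at hst
        omega
      obtain ⟨K, hK1, hK2⟩ : ∃ K, MulAction.stabilizer P α < K ∧ K ≠ ⊤ := by
        by_contra hcon
        push Not at hcon
        exact hnc ⟨hnt', hcon⟩
      have hb1 : K.index ≠ 1 := fun h => hK2 (Subgroup.index_eq_one.mp h)
      have hb0 : K.index ≠ 0 := Subgroup.index_ne_zero_of_finite
      have hbn : K.index < n := by
        have h1 := Subgroup.relIndex_mul_index hK1.le
        rw [hst] at h1
        have h2 : (MulAction.stabilizer P α).relIndex K ≠ 1 := by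
          rw [Ne, Subgroup.relIndex_eq_one]
          exact not_le_of_gt hK1
        have h3 : (MulAction.stabilizer P α).relIndex K ≠ 0 := by
          intro h; rw [h, zero_mul] at h1; omega
        have h4 : 2 ≤ (MulAction.stabilizer P α).relIndex K := by omega
        calc K.index < 2 * K.index := by omega
          _ ≤ (MulAction.stabilizer P α).relIndex K * K.index := Nat.mul_le_mul_right _ h4
          _ = n := h1
      -- the labelling
      have hex : ∀ x : Ω, ∃ g : P, g • α = x := fun x => MulAction.exists_smul_eq P α x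
      let f0 : Ω → P ⧸ K := fun x => QuotientGroup.mk (hex x).choose
      have hf0 : ∀ g : P, f0 (g • α) = QuotientGroup.mk g := by
        intro g
        have h1 := (hex (g • α)).choose_spec
        show QuotientGroup.mk (hex (g • α)).choose = _
        rw [QuotientGroup.eq]
        apply hK1.le
        rw [MulAction.mem_stabilizer_iff, mul_smul, inv_smul_eq_iff]
        exact h1.symm
      have hf0g : ∀ (g : P) x, f0 (g • x) = g • f0 x := by
        intro g x
        obtain ⟨h, rfl⟩ := hex x
        rw [← mul_smul, hf0, hf0]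
        rfl
      have hf0s : Function.Surjective f0 := by
        intro y
        obtain ⟨g, rfl⟩ := QuotientGroup.mk_surjective y
        exact ⟨g • α, hf0 g⟩
      let e : P ⧸ K ≃ Fin K.index := Finite.equivFinOfCardEq rfl
      let ρ := MulAction.toPermHom P (P ⧸ K)
      have hN := QB n ih K.index Ω ρ.ker (P.subtype.comp ρ.ker.subtype) (by
          intro a b hab
          exact Subtype.ext (Subtype.ext hab)) (fun x => e (f0 x)) (e.surjective.comp hf0s) (by
          intro g x
          congr 1
          have h1 : ρ (g : P) = 1 := g.2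
          have h2 : (g : P) • f0 x = f0 x := congrArg (fun t : Perm (P ⧸ K) => t (f0 x)) h1
          rw [← h2, ← hf0g]
          rfl) (by
          intro i
          have : ∃ x, ¬ e (f0 x) = i := by
            by_contra hcon
            push Not at hcon
            have h1 : ∀ j : Fin K.index, j = i := by
              intro j
              obtain ⟨x, hx⟩ := (e.surjective.comp hf0s) j
              rw [← hx]; exact hcon x
            have h2 : Fintype.card (Fin K.index) ≤ 1 := by
              rw [Fintype.card_le_one_iff]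
              intro a b; rw [h1 a, h1 b]
            rw [Fintype.card_fin] at h2
            omega
          obtain ⟨x, hx⟩ := this
          rw [← hcard]
          exact Finite.card_subtype_lt hx)
      have hQ := ih K.index hbn (P ⧸ K) rfl (by omega) (P ⧸ ρ.ker) (QuotientGroup.kerLift ρ)
        (QuotientGroup.kerLift_injective ρ)
      calc kc P ≤ kc ρ.ker * kc (P ⧸ ρ.ker) := Cfsg.Agent.S4201.result ρ.ker
        _ ≤ 5 ^ (Nat.card Ω - K.index) * 5 ^ (K.index - 1) := Nat.mul_le_mul hN hQ
        _ = 5 ^ (n - 1) := by rw [← pow_add, hcard]; congr 1; omega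
  · -- intransitive
    obtain ⟨α⟩ := hne
    have hex : ∃ β : Ω, β ∉ MulAction.orbit P α := by
      by_contra hcon
      push Not at hcon
      apply htr
      refine ⟨fun x y => ?_⟩
      obtain ⟨g, hg⟩ := hcon x
      obtain ⟨h, hh⟩ := hcon y
      refine ⟨h * g⁻¹, ?_⟩
      rw [mul_smul, ← hg, inv_smul_smul]
      exact hh
    obtain ⟨β, hβ⟩ := hex
    let f : Ω → Fin 2 := fun x => if x ∈ MulAction.orbit P α then 0 else 1
    have hfα : f α = 0 := by simp [f]
    have hfβ : f β = 1 := by simp [f, hβ]
    have h1 := QB n ih 2 Ω P P.subtype P.subtype_injective f (by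
      intro i
      fin_cases i
      · exact ⟨α, hfα⟩
      · exact ⟨β, hfβ⟩) (by
      intro g x
      have : (g : P) • x ∈ MulAction.orbit P α ↔ x ∈ MulAction.orbit P α := by
        constructor
        · rintro ⟨h, hh⟩
          refine ⟨(g : P)⁻¹ * h, ?_⟩
          beta_reduce at hh ⊢
          rw [mul_smul, hh, inv_smul_smul]
        · rintro ⟨h, hh⟩
          refine ⟨g * h, ?_⟩
          beta_reduce at hh ⊢
          rw [mul_smul, hh]
      show (if (g : P) • x ∈ MulAction.orbit P α then (0 : Fin 2) else 1) = if x ∈ MulAction.orbit P α then 0 else 1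
      simp only [this]) (by
      intro i
      rw [← hcard]
      fin_cases i
      · exact Finite.card_subtype_lt (x := β) (by rw [hfβ]; decide)
      · exact Finite.card_subtype_lt (x := α) (by rw [hfα]; decide))
    refine h1.trans ?_
    rw [hcard]
    exact Nat.pow_le_pow_right (by norm_num) (by omega)

/-- Let G be a subgroup of the symmetric group of degree d ≥ 1. Then G has at most 5^{d−1} conjugacy classes. -/
theorem result (d : ℕ) (hd : 1 ≤ d) (G : Subgroup (Equiv.Perm (Fin d))) : Nat.card (ConjClasses ↥G) ≤ 5 ^ (d - 1) := by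
  exact main d (Fin d) (by simp) hd G G.subtype G.subtype_injective

end Cfsg.Agent.S4264
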