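import Cfsg.Statements.S4269
import Cfsg.Agent.H1.Coprime

set_option autoImplicit false
open Cfsg

namespace Cfsg.Agent.S4269

open Subgroup
open scoped commutatorElement

theorem mem_map_conj {G : Type*} [Group G] (H : Subgroup G) (g x : G) :
    x ∈ H.map (MulAut.conj g).toMonoidHom ↔ g⁻¹ * x * g ∈ H := by
  constructor
  · rintro ⟨y, hy, rfl⟩
    have : g⁻¹ * ((MulAut.conj g).toMonoidHom y) * g = y := by
      show g⁻¹ * (g * y * g⁻¹) * g = y
      group
    rw [this]; exact hy
  · intro h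
    refine ⟨_, h, ?_⟩
    show g * (g⁻¹ * x * g) * g⁻¹ = x
    group

theorem map_conj_mul {G : Type*} [Group G] (H : Subgroup G) (g k : G) :
    H.map (MulAut.conj (g * k)).toMonoidHom =
      (H.map (MulAut.conj k).toMonoidHom).map (MulAut.conj g).toMonoidHom := by
  ext x
  rw [mem_map_conj, mem_map_conj, mem_map_conj]
  have : (g * k)⁻¹ * x * (g * k) = k⁻¹ * (g⁻¹ * x * g) * k := by group
  rw [this]

theorem mem_normalizer_iff_map {G : Type*} [Group G] (H : Subgroup G) (g : G) :
    g ∈ normalizer (H : Set G) ↔ H.map (MulAut.conj g).toMonoidHom = H := by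
  rw [mem_normalizer_iff]
  constructor
  · intro h
    ext x
    rw [mem_map_conj, h]
    have : g * (g⁻¹ * x * g) * g⁻¹ = x := by group
    rw [this]
  · intro h x
    conv_rhs => rw [← h]
    rw [mem_map_conj]
    have : g⁻¹ * (g * x * g⁻¹) * g = x := by group
    rw [this]

/-- Let G be a finite group, V an abelian normal subgroup and H a subgroup with HV = G. Then H is pronormal in G (H and gHg⁻¹ are conjugate inside the subgroup they generate, for every g) if and only if every H-invariant subgroup U of V satisfies U = N_U(H)·[H, U], that is, U is the join of U ∩ N_G(H) and the commutator subgroup [H, U]. -/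
theorem result {G : Type*} [Group G] [Finite G]
    (V : Subgroup G) [V.Normal] (hV : IsMulCommutative ↥V) (H : Subgroup G) (hHV : H ⊔ V = ⊤) :
    Cfsg.IsPronormal H ↔
      ∀ U : Subgroup G, U ≤ V → (∀ h ∈ H, U.map (MulAut.conj h).toMonoidHom = U) →
        U = (U ⊓ Subgroup.normalizer (H : Set G)) ⊔ ⁅H, U⁆ := by
  have hVc : ∀ x ∈ V, ∀ y ∈ V, x * y = y * x := fun x hx y hy =>
    congrArg Subtype.val (hV.is_comm.comm (⟨x, hx⟩ : V) ⟨y, hy⟩)
  constructor
  · intro hpro U hUV hU
    have hconjU : ∀ h ∈ H, ∀ u ∈ U, h * u * h⁻¹ ∈ U := by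
      intro h hh u hu
      have := hU h hh
      rw [← this]
      exact ⟨u, hu, rfl⟩
    have hCU : ⁅H, U⁆ ≤ U := by
      rw [commutator_le]
      intro h hh u hu
      rw [commutatorElement_def]
      exact U.mul_mem (hconjU h hh u hu) (U.inv_mem hu)
    have hHN : H ≤ normalizer ((⁅H, U⁆ : Subgroup G) : Set G) := by
      intro h hh
      rw [mem_normalizer_iff_map, map_commutator, hU h hh]
      congr 1
      rw [← mem_normalizer_iff_map]
      exact le_normalizer hh
    apply le_antisymm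
    · intro u hu
      obtain ⟨x, hx, hxe⟩ := hpro u
      have hle : H ⊔ H.map (MulAut.conj u).toMonoidHom ≤ ⁅H, U⁆ ⊔ H := by
        rw [sup_le_iff]
        refine ⟨le_sup_right, ?_⟩
        rintro _ ⟨h, hh, rfl⟩
        show u * h * u⁻¹ ∈ _
        have h1 : u * h * u⁻¹ = (⁅h, u⁆)⁻¹ * h := by
          rw [commutatorElement_def]; group
        rw [h1]
        exact mul_mem ((le_sup_left : ⁅H, U⁆ ≤ ⁅H, U⁆ ⊔ H) (inv_mem (commutator_mem_commutator hh hu)))
          ((le_sup_right : H ≤ ⁅H, U⁆ ⊔ H) hh)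
      obtain ⟨c, hc, h, hh, rfl⟩ := (H1.mem_sup_iff_of_le_normalizer hHN).1 (hle hx)
      have h1 : H.map (MulAut.conj (c⁻¹ * u)).toMonoidHom = H := by
        rw [map_conj_mul, hxe, ← map_conj_mul, inv_mul_cancel_left, ← mem_normalizer_iff_map]
        exact le_normalizer hh
      have h2 : c⁻¹ * u ∈ U ⊓ normalizer (H : Set G) :=
        ⟨U.mul_mem (U.inv_mem (hCU hc)) hu, (mem_normalizer_iff_map H _).2 h1⟩
      have h3 : u = c * (c⁻¹ * u) := by group
      rw [h3]
      exact mul_mem ((le_sup_right : ⁅H, U⁆ ≤ _) hc) ((le_sup_left : U ⊓ normalizer (H : Set G) ≤ _) h2)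
    · exact sup_le inf_le_left hCU
  · intro hall g
    have hg : g ∈ H ⊔ V := by rw [hHV]; trivial
    rw [sup_comm, mem_sup_of_normal_left] at hg
    obtain ⟨v, hv, h, hh, rfl⟩ := hg
    have e1 : H.map (MulAut.conj (v * h)).toMonoidHom = H.map (MulAut.conj v).toMonoidHom := by
      rw [map_conj_mul]
      congr 1
      rw [← mem_normalizer_iff_map]
      exact le_normalizer hh
    rw [e1]
    set J := H ⊔ H.map (MulAut.conj v).toMonoidHom with hJ
    have hHJ : H ≤ J := le_sup_left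
    set U0 := J ⊓ V with hU0
    have hcomm : ∀ k ∈ H, ⁅k, v⁆ ∈ U0 := by
      intro k hk
      refine ⟨?_, ?_⟩
      · have h1 : v * k⁻¹ * v⁻¹ ∈ J :=
          (le_sup_right : H.map (MulAut.conj v).toMonoidHom ≤ J) ⟨k⁻¹, H.inv_mem hk, rfl⟩
        have h2 : ⁅k, v⁆ = k * (v * k⁻¹ * v⁻¹) := by rw [commutatorElement_def]; group
        rw [h2]
        exact J.mul_mem (hHJ hk) h1
      · rw [commutatorElement_def]
        exact V.mul_mem (‹V.Normal›.conj_mem v hv k) (V.inv_mem hv)
    have hU0H : ∀ k ∈ H, ∀ y ∈ U0, k * y * k⁻¹ ∈ U0 := fun k hk y hy =>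
      ⟨J.mul_mem (J.mul_mem (hHJ hk) hy.1) (J.inv_mem (hHJ hk)), ‹V.Normal›.conj_mem y hy.2 k⟩
    have hvH : ∀ k ∈ H, k * v * k⁻¹ ∈ U0 ⊔ zpowers v := by
      intro k hk
      have h1 : k * v * k⁻¹ = ⁅k, v⁆ * v := by rw [commutatorElement_def]; group
      rw [h1]
      exact mul_mem ((le_sup_left : U0 ≤ _) (hcomm k hk)) ((le_sup_right : zpowers v ≤ _) (mem_zpowers v))
    have hle : ∀ k ∈ H, (U0 ⊔ zpowers v).map (MulAut.conj k).toMonoidHom ≤ U0 ⊔ zpowers v := by
      intro k hk
      rw [Subgroup.map_sup, sup_le_iff]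
      constructor
      · rintro _ ⟨y, hy, rfl⟩
        exact (le_sup_left : U0 ≤ _) (hU0H k hk y hy)
      · rw [MonoidHom.map_zpowers, zpowers_le]
        exact hvH k hk
    have hinv : ∀ k ∈ H, (U0 ⊔ zpowers v).map (MulAut.conj k).toMonoidHom = U0 ⊔ zpowers v := by
      intro k hk
      apply le_antisymm (hle k hk)
      have h1 := map_mono (f := (MulAut.conj k).toMonoidHom) (hle k⁻¹ (H.inv_mem hk))
      rw [← map_conj_mul, mul_inv_cancel] at h1
      have h2 : (U0 ⊔ zpowers v).map (MulAut.conj (1 : G)).toMonoidHom = U0 ⊔ zpowers v := by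
        ext x
        rw [mem_map_conj]; simp
      rwa [h2] at h1
    have hUV : U0 ⊔ zpowers v ≤ V := sup_le inf_le_right (by rw [zpowers_le]; exact hv)
    have h3 := hall _ hUV hinv
    have hCU0 : ⁅H, U0 ⊔ zpowers v⁆ ≤ U0 := by
      rw [commutator_le]
      intro k hk y hy
      rw [mem_sup_of_normal_left (s := U0) (hs := ?_)] at hy
      · obtain ⟨a, ha, b, ⟨i, rfl⟩, rfl⟩ := hy
        have hav : a ∈ V := ha.2
        have h4 : ⁅k, a * v ^ i⁆ = (k * a * k⁻¹ * a⁻¹) * ⁅k, v ^ i⁆ := by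
          have hbV : k * v ^ i * k⁻¹ ∈ V := ‹V.Normal›.conj_mem _ (V.zpow_mem hv i) k
          have hbV' : (v ^ i)⁻¹ ∈ V := V.inv_mem (V.zpow_mem hv i)
          rw [commutatorElement_def, commutatorElement_def, mul_inv_rev]
          have h5 : k * (a * v ^ i) * k⁻¹ * ((v ^ i)⁻¹ * a⁻¹) =
              (k * a * k⁻¹) * ((k * v ^ i * k⁻¹ * (v ^ i)⁻¹) * a⁻¹) := by group
          rw [h5, hVc _ (V.mul_mem hbV hbV') _ (V.inv_mem hav)]
          group
        have h6 : ∀ j : ℤ, ⁅k, v ^ j⁆ = ⁅k, v⁆ ^ j := by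
          intro j
          have hc1 : Commute (k * v * k⁻¹) v⁻¹ := hVc _ (‹V.Normal›.conj_mem v hv k) _ (V.inv_mem hv)
          rw [commutatorElement_def, commutatorElement_def, hc1.mul_zpow, conj_zpow, inv_zpow]
        rw [h4, h6]
        exact U0.mul_mem (U0.mul_mem (hU0H k hk a ha) (U0.inv_mem ha)) (U0.zpow_mem (hcomm k hk) i)
      · -- `U0` is normal
        constructor
        intro y hy x
        have hx : x ∈ H ⊔ V := by rw [hHV]; trivial
        rw [sup_comm, mem_sup_of_normal_left] at hx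
        obtain ⟨w, hw, k', hk', rfl⟩ := hx
        have h4 := hU0H k' hk' y hy
        have h5 : w * k' * y * (w * k')⁻¹ = w * (k' * y * k'⁻¹) * w⁻¹ := by group
        rw [h5, hVc w hw _ h4.2, mul_inv_cancel_right]
        exact h4
    have hvU : v ∈ U0 ⊔ zpowers v := (le_sup_right : zpowers v ≤ _) (mem_zpowers v)
    rw [h3] at hvU
    have hnorm : ⁅H, U0 ⊔ zpowers v⁆ ≤ normalizer
        (((U0 ⊔ zpowers v) ⊓ normalizer (H : Set G) : Subgroup G) : Set G) := by
      intro c hc
      rw [mem_normalizer_iff]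
      intro y
      have hcV : c ∈ V := (hCU0 hc).2
      constructor
      · intro hy
        rw [hVc c hcV y (hUV hy.1), mul_inv_cancel_right]; exact hy
      · intro hy
        have h4 : y ∈ V := by
          have h5 := hUV hy.1
          have h6 := ‹V.Normal›.conj_mem _ h5 c⁻¹
          have h7 : c⁻¹ * (c * y * c⁻¹) * c⁻¹⁻¹ = y := by group
          rwa [h7] at h6
        rw [hVc c hcV y h4, mul_inv_cancel_right] at hy
        exact hy
    obtain ⟨n, hn, c, hc, hnc⟩ := (H1.mem_sup_iff_of_le_normalizer hnorm).1 hvU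
    refine ⟨c, (hCU0 hc).1, ?_⟩
    have hv2 : v = c * n := by
      rw [← hnc]; exact hVc _ (hUV hn.1) _ (hCU0 hc).2
    have h8 : H.map (MulAut.conj (c * n)).toMonoidHom = H.map (MulAut.conj c).toMonoidHom := by
      rw [map_conj_mul, (mem_normalizer_iff_map H n).1 hn.2]
    rw [← hv2] at h8
    exact h8

end Cfsg.Agent.S4269
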