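import Cfsg.Statements.S4331
import Cfsg.Agent.H23.Subnormal2
import Cfsg.Agent.H25.Primary

set_option autoImplicit false
set_option linter.unusedSectionVars false
open Cfsg

namespace Cfsg.Agent.S4331

open Subgroup

section field

variable (K : Type) [Field K] [Finite K] [CharP K 3] (h9 : ∀ x : K, (x ^ 3) ^ 3 = x)

theorem cube_add (x y : K) : (x + y) ^ 3 = x ^ 3 + y ^ 3 := by
  haveI : Fact (Nat.Prime 3) := ⟨Nat.prime_three⟩
  exact add_pow_char x y 3

theorem cube_neg (x : K) : (-x) ^ 3 = - x ^ 3 := by ring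

theorem cube_sub (x y : K) : (x - y) ^ 3 = x ^ 3 - y ^ 3 := by
  rw [sub_eq_add_neg, cube_add, cube_neg, sub_eq_add_neg]

theorem three_eq_zero : (3 : K) = 0 := by
  have := CharP.cast_eq_zero K 3
  exact_mod_cast this

def frob : Equiv.Perm K where
  toFun x := x ^ 3
  invFun x := x ^ 3
  left_inv := h9
  right_inv := h9

def mulP (u : K) (hu : u ≠ 0) : Equiv.Perm K where
  toFun x := u * x
  invFun x := u⁻¹ * x
  left_inv x := by field_simp
  right_inv x := by field_simp

def addP (b : K) : Equiv.Perm K where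
  toFun x := x + b
  invFun x := x - b
  left_inv x := by ring
  right_inv x := by ring

/-- the group of semilinear affine maps -/
def S : Subgroup (Equiv.Perm K) where
  carrier := {f | ∃ u b : K, u ≠ 0 ∧ ((∀ x, f x = u * x + b) ∨ (∀ x, f x = u * x ^ 3 + b))}
  one_mem' := ⟨1, 0, one_ne_zero, Or.inl fun x => by simp⟩
  mul_mem' := by
    rintro f g ⟨u, b, hu, hf⟩ ⟨v, c, hv, hg⟩
    rcases hf with hf | hf <;> rcases hg with hg | hg
    · refine ⟨u * v, u * c + b, mul_ne_zero hu hv, Or.inl fun x => ?_⟩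
      rw [Equiv.Perm.mul_apply, hf, hg]; ring
    · refine ⟨u * v, u * c + b, mul_ne_zero hu hv, Or.inr fun x => ?_⟩
      rw [Equiv.Perm.mul_apply, hf, hg]; ring
    · refine ⟨u * v ^ 3, u * c ^ 3 + b, mul_ne_zero hu (pow_ne_zero 3 hv), Or.inr fun x => ?_⟩
      rw [Equiv.Perm.mul_apply, hf, hg, cube_add]; ring
    · refine ⟨u * v ^ 3, u * c ^ 3 + b, mul_ne_zero hu (pow_ne_zero 3 hv), Or.inl fun x => ?_⟩
      rw [Equiv.Perm.mul_apply, hf, hg, cube_add, mul_pow, h9]; ring
  inv_mem' := by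
    rintro f ⟨u, b, hu, hf | hf⟩
    · refine ⟨u⁻¹, - (u⁻¹ * b), inv_ne_zero hu, Or.inl fun x => ?_⟩
      rw [Equiv.Perm.inv_eq_iff_eq, hf]
      field_simp
      ring
    · refine ⟨(u⁻¹) ^ 3, - ((u⁻¹) ^ 3 * b ^ 3), pow_ne_zero 3 (inv_ne_zero hu), Or.inr fun x => ?_⟩
      rw [Equiv.Perm.inv_eq_iff_eq, hf, cube_add, mul_pow, h9, cube_neg, mul_pow, h9, h9]
      field_simp
      linear_combination (h9 b)

theorem frob_mem : frob K h9 ∈ S K h9 := ⟨1, 0, one_ne_zero, Or.inr fun x => by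
  show x ^ 3 = _
  ring⟩

theorem mulP_mem (u : K) (hu : u ≠ 0) : mulP K u hu ∈ S K h9 := ⟨u, 0, hu, Or.inl fun x => by
  show u * x = _
  ring⟩

theorem addP_mem (b : K) : addP K b ∈ S K h9 := ⟨1, b, one_ne_zero, Or.inl fun x => by
  show x + b = _
  ring⟩

/-- translations -/
def V : Subgroup (S K h9) where
  carrier := {f | ∃ b : K, ∀ x, (f : Equiv.Perm K) x = x + b}
  one_mem' := ⟨0, fun x => by simp⟩
  mul_mem' := by
    rintro f g ⟨b, hb⟩ ⟨c, hc⟩
    refine ⟨c + b, fun x => ?_⟩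
    show (f : Equiv.Perm K) ((g : Equiv.Perm K) x) = _
    rw [hb, hc]; ring
  inv_mem' := by
    rintro f ⟨b, hb⟩
    refine ⟨-b, fun x => ?_⟩
    show (f : Equiv.Perm K)⁻¹ x = _
    rw [Equiv.Perm.inv_eq_iff_eq, hb]; ring

/-- the stabilizer of zero -/
def H : Subgroup (S K h9) where
  carrier := {f | (f : Equiv.Perm K) 0 = 0}
  one_mem' := rfl
  mul_mem' := by
    intro f g hf hg
    show (f : Equiv.Perm K) ((g : Equiv.Perm K) 0) = 0
    rw [(hg : (g : Equiv.Perm K) 0 = 0), (hf : (f : Equiv.Perm K) 0 = 0)]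
  inv_mem' := by
    intro f hf
    show (f : Equiv.Perm K)⁻¹ 0 = 0
    rw [Equiv.Perm.inv_eq_iff_eq]
    exact (hf : (f : Equiv.Perm K) 0 = 0).symm

instance : (V K h9).Normal where
  conj_mem := by
    rintro n ⟨b, hb⟩ ⟨g, u, c, hu, hg⟩
    have hinv : ∀ y, g (g⁻¹ y) = y := fun y => by simp
    rcases hg with hg | hg
    · refine ⟨u * b, fun x => ?_⟩
      show g ((n : Equiv.Perm K) (g⁻¹ x)) = _
      rw [hb, hg]
      have := hinv x
      rw [hg] at this
      linear_combination this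
    · refine ⟨u * b ^ 3, fun x => ?_⟩
      show g ((n : Equiv.Perm K) (g⁻¹ x)) = _
      rw [hb, hg, cube_add]
      have := hinv x
      rw [hg] at this
      linear_combination this

theorem H_pow (u8 : ∀ u : K, u ≠ 0 → u ^ 8 = 1) : IsPGroup 2 (H K h9) := by
  rintro ⟨⟨f, u, b, hu, hf⟩, hf0⟩
  refine ⟨3, ?_⟩
  have hf0' : f 0 = 0 := hf0
  have hb : b = 0 := by
    rcases hf with hf | hf
    · have := hf 0
      rw [hf0'] at this
      linear_combination -this
    · have := hf 0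
      rw [hf0'] at this
      linear_combination -this
  subst hb
  apply Subtype.ext
  apply Subtype.ext
  show f ^ 8 = 1
  apply Equiv.ext
  intro x
  have e : f ^ 8 = f * f * (f * f) * (f * f * (f * f)) := by
    simp only [pow_succ, pow_zero, one_mul, mul_assoc]
  rw [e]
  show f (f (f (f (f (f (f (f x))))))) = x
  have hu8 := u8 u hu
  rcases hf with hf | hf
  · simp only [hf]
    linear_combination x * hu8
  · have h2 : ∀ x, f (f x) = u ^ 4 * x := by
      intro x
      rw [hf, hf]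
      have := h9 x
      calc u * (u * x ^ 3 + 0) ^ 3 + 0 = u ^ 4 * (x ^ 3) ^ 3 := by ring
        _ = u ^ 4 * x := by rw [this]
    rw [h2, h2, h2, h2]
    calc u ^ 4 * (u ^ 4 * (u ^ 4 * (u ^ 4 * x))) = (u ^ 8) * (u ^ 8) * x := by ring
      _ = x := by rw [hu8]; ring

theorem V_sup_H : V K h9 ⊔ H K h9 = ⊤ := by
  rw [eq_top_iff]
  rintro ⟨f, hf⟩ -
  have e : (⟨f, hf⟩ : S K h9) = ⟨addP K (f 0), addP_mem K h9 _⟩ *
      (⟨addP K (f 0), addP_mem K h9 _⟩⁻¹ * ⟨f, hf⟩) := by group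
  rw [e]
  refine mul_mem_sup ⟨f 0, fun x => rfl⟩ ?_
  show (addP K (f 0))⁻¹ (f 0) = 0
  rw [Equiv.Perm.inv_eq_iff_eq]
  show f 0 = 0 + f 0
  ring

theorem solv (u8 : ∀ u : K, u ≠ 0 → u ^ 8 = 1) : Group.IsSolvable (S K h9) := by
  haveI : Group.IsSolvable (V K h9) := by
    apply Group.isSolvable_of_comm
    rintro ⟨f, b, hb⟩ ⟨g, c, hc⟩
    apply Subtype.ext
    apply Subtype.ext
    apply Equiv.ext
    intro x
    show (f : Equiv.Perm K) ((g : Equiv.Perm K) x) = (g : Equiv.Perm K) ((f : Equiv.Perm K) x)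
    rw [hb, hc, hb, hc]; ring
  haveI : Group.IsSolvable (H K h9) := by
    haveI := (H_pow K h9 u8).isNilpotent
    infer_instance
  haveI : Group.IsSolvable (S K h9 ⧸ V K h9) := by
    apply Group.isSolvable_of_surjective (f := (QuotientGroup.mk' (V K h9)).comp (H K h9).subtype)
    intro q
    obtain ⟨g, rfl⟩ := QuotientGroup.mk'_surjective _ q
    have hg : g ∈ V K h9 ⊔ H K h9 := by rw [V_sup_H]; trivial
    rw [mem_sup_of_normal_left] at hg
    obtain ⟨v, hv, h, hh, rfl⟩ := hg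
    refine ⟨⟨h, hh⟩, ?_⟩
    show QuotientGroup.mk' (V K h9) h = _
    rw [map_mul, QuotientGroup.mk'_apply (V K h9) v, (QuotientGroup.eq_one_iff v).2 hv, one_mul]
  rw [Group.isSolvable_iff_subgroup_quotient (V K h9)]
  exact ⟨inferInstance, inferInstance⟩

theorem exists_rep (c : S K h9) : ∃ g : S K h9, IsConj c g ∧
    (g ∈ H K h9 ∨ Commute (⟨frob K h9, frob_mem K h9⟩ : S K h9) g) := by
  have hfix : ∀ (f : S K h9) (x₀ : K), (f : Equiv.Perm K) x₀ = x₀ → ∃ g : S K h9, IsConj f g ∧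
      (g ∈ H K h9 ∨ Commute (⟨frob K h9, frob_mem K h9⟩ : S K h9) g) := by
    intro f x₀ hx₀
    refine ⟨⟨addP K (-x₀), addP_mem K h9 _⟩ * f * ⟨addP K (-x₀), addP_mem K h9 _⟩⁻¹,
      isConj_iff.2 ⟨_, rfl⟩, Or.inl ?_⟩
    show (addP K (-x₀)) ((f : Equiv.Perm K) ((addP K (-x₀))⁻¹ 0)) = 0
    have h1 : (addP K (-x₀))⁻¹ 0 = x₀ := by
      rw [Equiv.Perm.inv_eq_iff_eq]
      show 0 = x₀ + -x₀
      ring
    rw [h1, hx₀]
    show x₀ + -x₀ = 0
    ring
  obtain ⟨f, u, b, hu, hf | hf⟩ := c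
  · by_cases hu1 : u = 1
    · subst hu1
      by_cases hb : b = 0
      · subst hb
        refine ⟨_, IsConj.refl _, Or.inr ?_⟩
        apply Subtype.ext
        apply Equiv.ext
        intro x
        show (f x) ^ 3 = f (x ^ 3)
        rw [hf, hf]; ring
      · refine ⟨⟨mulP K b⁻¹ (inv_ne_zero hb), mulP_mem K h9 _ _⟩ * ⟨f, _⟩ *
          ⟨mulP K b⁻¹ (inv_ne_zero hb), mulP_mem K h9 _ _⟩⁻¹, isConj_iff.2 ⟨_, rfl⟩, Or.inr ?_⟩
        have h1 : ∀ x, (mulP K b⁻¹ (inv_ne_zero hb)) (f ((mulP K b⁻¹ (inv_ne_zero hb))⁻¹ x)) = x + 1 := by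
          intro x
          have h2 : (mulP K b⁻¹ (inv_ne_zero hb))⁻¹ x = b * x := by
            rw [Equiv.Perm.inv_eq_iff_eq]
            show x = b⁻¹ * (b * x)
            field_simp
          rw [h2, hf]
          show b⁻¹ * (1 * (b * x) + b) = x + 1
          field_simp
        apply Subtype.ext
        apply Equiv.ext
        intro x
        show ((mulP K b⁻¹ (inv_ne_zero hb)) (f ((mulP K b⁻¹ (inv_ne_zero hb))⁻¹ x))) ^ 3 =
          (mulP K b⁻¹ (inv_ne_zero hb)) (f ((mulP K b⁻¹ (inv_ne_zero hb))⁻¹ (x ^ 3)))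
        rw [h1, h1, cube_add]; ring
    · apply hfix _ (b / (1 - u))
      show f _ = _
      rw [hf]
      have : 1 - u ≠ 0 := fun h => hu1 (by linear_combination -h)
      field_simp
      ring
  · by_cases hv : ∃ v : K, v ≠ 0 ∧ u * v ^ 3 = v
    · obtain ⟨v, hv0, huv⟩ := hv
      set b' := v⁻¹ * b with hb'
      set w := -b' with hw
      refine ⟨(⟨addP K (-w), addP_mem K h9 _⟩ * ⟨mulP K v⁻¹ (inv_ne_zero hv0), mulP_mem K h9 _ _⟩) * ⟨f, _⟩ *
          (⟨addP K (-w), addP_mem K h9 _⟩ * ⟨mulP K v⁻¹ (inv_ne_zero hv0), mulP_mem K h9 _ _⟩)⁻¹,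
          isConj_iff.2 ⟨_, rfl⟩, Or.inr ?_⟩
      have h1 : ∀ x, ((addP K (-w)) * (mulP K v⁻¹ (inv_ne_zero hv0)))
          (f (((addP K (-w)) * (mulP K v⁻¹ (inv_ne_zero hv0)))⁻¹ x)) = x ^ 3 + (2 * b' - b' ^ 3) := by
        intro x
        have h2 : ((addP K (-w)) * (mulP K v⁻¹ (inv_ne_zero hv0)))⁻¹ x = v * (x + w) := by
          rw [Equiv.Perm.inv_eq_iff_eq]
          show x = v⁻¹ * (v * (x + w)) + -w
          field_simp
          ring
        rw [h2, hf]
        show v⁻¹ * (u * (v * (x + w)) ^ 3 + b) + - w = _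
        rw [mul_pow, cube_add]
        have h3 : v⁻¹ * (u * (v ^ 3 * (x ^ 3 + w ^ 3)) + b) = (v⁻¹ * (u * v ^ 3)) * (x ^ 3 + w ^ 3) + v⁻¹ * b := by ring
        rw [h3, huv, inv_mul_cancel₀ hv0, ← hb', hw]
        ring
      apply Subtype.ext
      apply Equiv.ext
      intro x
      show (((addP K (-w)) * (mulP K v⁻¹ (inv_ne_zero hv0)))
          (f (((addP K (-w)) * (mulP K v⁻¹ (inv_ne_zero hv0)))⁻¹ x))) ^ 3 =
        ((addP K (-w)) * (mulP K v⁻¹ (inv_ne_zero hv0)))
          (f (((addP K (-w)) * (mulP K v⁻¹ (inv_ne_zero hv0)))⁻¹ (x ^ 3)))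
      rw [h1, h1, cube_add]
      have h4 : (2 * b' - b' ^ 3) ^ 3 = 2 * b' - b' ^ 3 := by
        rw [cube_sub, h9]
        have := three_eq_zero K
        linear_combination (3 * b' ^ 3 - b') * this
      rw [h4]
    · -- a fixed point exists
      push Not at hv
      have hinj : Function.Injective (fun x : K => x - u * x ^ 3) := by
        intro x y hxy
        have hxy' : x - u * x ^ 3 = y - u * y ^ 3 := hxy
        by_contra hne
        apply hv (x - y) (sub_ne_zero.2 hne)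
        rw [cube_sub]
        linear_combination -hxy'
      have hsurj := Finite.surjective_of_injective hinj
      obtain ⟨x₀, hx₀⟩ := hsurj b
      apply hfix _ x₀
      show f x₀ = x₀
      rw [hf]
      linear_combination -hx₀

end field

/-- There is a finite solvable group G with a subgroup A of order 2 such that every conjugacy class of G contains an element g for which A is subnormal in the subgroup generated by A and g, and yet A is not contained in O_2(G). (So the corresponding criteria for odd primes fail at the prime 2, even for solvable groups.) -/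
theorem result :
    ∃ (G : Type) (_ : Group G) (_ : Finite G) (A : Subgroup G), Group.IsSolvable G ∧ Nat.card A = 2 ∧
      (∀ c : G, ∃ g : G, IsConj c g ∧ (A.subgroupOf (A ⊔ Subgroup.zpowers g)).IsSubnormal) ∧
      ¬ A ≤ Cfsg.pCore 2 G := by
  haveI : Fact (Nat.Prime 3) := ⟨Nat.prime_three⟩
  haveI : Fact (Nat.Prime 2) := ⟨Nat.prime_two⟩
  let K := GaloisField 3 2
  haveI : Finite K := inferInstance
  letI := Fintype.ofFinite K
  have hcard : Fintype.card K = 9 := by
    rw [← Nat.card_eq_fintype_card, GaloisField.card 3 2 two_ne_zero]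
    norm_num
  have h9 : ∀ x : K, (x ^ 3) ^ 3 = x := by
    intro x
    rw [← pow_mul]
    have := FiniteField.pow_card x
    rwa [hcard] at this
  have u8 : ∀ u : K, u ≠ 0 → u ^ 8 = 1 := by
    intro u hu
    have := FiniteField.pow_card_sub_one_eq_one u hu
    rwa [hcard] at this
  have hex : ∃ x : K, x ^ 3 ≠ x := by
    by_contra h
    push Not at h
    obtain ⟨g, hg⟩ := IsCyclic.exists_generator (α := Kˣ)
    have h1 := orderOf_eq_card_of_forall_mem_zpowers hg
    haveI : DecidableEq K := Classical.decEq K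
    rw [Nat.card_eq_fintype_card, Fintype.card_units, hcard] at h1
    have h2 : g ^ 2 = 1 := by
      have h3 := h (g : K)
      apply Units.ext
      rw [Units.val_pow_eq_pow_val, Units.val_one]
      have h4 : (g : K) ≠ 0 := g.ne_zero
      apply mul_left_cancel₀ h4
      linear_combination h3
    have h5 := orderOf_dvd_of_pow_eq_one h2
    rw [h1] at h5
    norm_num at h5
  set a : S K h9 := ⟨frob K h9, frob_mem K h9⟩ with ha
  have ha2 : a ^ 2 = 1 := by
    rw [sq]
    apply Subtype.ext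
    apply Equiv.ext
    intro x
    exact h9 x
  have ha1 : a ≠ 1 := by
    intro h
    obtain ⟨x, hx⟩ := hex
    exact hx (congrArg (fun f : S K h9 => (f : Equiv.Perm K) x) h)
  have hao : orderOf a = 2 := orderOf_eq_prime ha2 ha1
  refine ⟨S K h9, inferInstance, inferInstance, zpowers a, solv K h9 u8, by rw [Nat.card_zpowers, hao], ?_, ?_⟩
  · intro c
    obtain ⟨g, hg, h | h⟩ := exists_rep K h9 c
    · refine ⟨g, hg, ?_⟩
      apply H23.isSubnormal_of_isNilpotent
      have haH : a ∈ H K h9 := by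
        show (0 : K) ^ 3 = 0
        ring
      exact ((H_pow K h9 u8).to_le (sup_le (zpowers_le.2 haH) (zpowers_le.2 h))).isNilpotent
    · refine ⟨g, hg, ?_⟩
      apply Normal.isSubnormal
      rw [normal_subgroupOf_iff_le_normalizer le_sup_left]
      refine sup_le le_normalizer ?_
      rw [zpowers_le]
      apply centralizer_le_normalizer
      rw [mem_centralizer_iff]
      rintro y ⟨k, rfl⟩
      exact (h.zpow_left k)
  · intro hle
    have ha' : a ∈ Cfsg.pCore 2 (S K h9) := hle (mem_zpowers a)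
    obtain ⟨x, hx⟩ := hex
    apply hx
    set v : S K h9 := ⟨addP K x, addP_mem K h9 x⟩ with hv
    have hvV : v ∈ V K h9 := ⟨x, fun y => rfl⟩
    haveI hn : (Cfsg.pCore 2 (S K h9)).Normal := H1.pCore_normal 2 _
    have hp : IsPGroup 2 (Cfsg.pCore 2 (S K h9)) := H1.pCore_isPGroup 2 _
    have h1 : a * v * a⁻¹ * v⁻¹ ∈ V K h9 := (V K h9).mul_mem ((inferInstance : (V K h9).Normal).conj_mem v hvV a) ((V K h9).inv_mem hvV)
    have h2 : a * v * a⁻¹ * v⁻¹ ∈ Cfsg.pCore 2 (S K h9) := by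
      have h3 := mul_mem ha' (hn.conj_mem _ (inv_mem ha') v)
      have e : a * (v * a⁻¹ * v⁻¹) = a * v * a⁻¹ * v⁻¹ := by group
      rwa [e] at h3
    have h4 : (a * v * a⁻¹ * v⁻¹) ^ 3 = 1 := by
      obtain ⟨b, hb⟩ := h1
      apply Subtype.ext
      apply Equiv.ext
      intro y
      rw [pow_succ, pow_two]
      show ((a * v * a⁻¹ * v⁻¹ : S K h9) : Equiv.Perm K) (((a * v * a⁻¹ * v⁻¹ : S K h9) : Equiv.Perm K)
        (((a * v * a⁻¹ * v⁻¹ : S K h9) : Equiv.Perm K) y)) = y
      rw [hb, hb, hb]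
      linear_combination b * three_eq_zero K
    have h5 : a * v * a⁻¹ * v⁻¹ = 1 := by
      obtain ⟨k, hk⟩ := hp ⟨_, h2⟩
      have hk' : (a * v * a⁻¹ * v⁻¹) ^ 2 ^ k = 1 := congrArg Subtype.val hk
      rw [← orderOf_eq_one_iff]
      have h6 := Nat.dvd_gcd (orderOf_dvd_of_pow_eq_one h4) (orderOf_dvd_of_pow_eq_one hk')
      have h7 : Nat.gcd 3 (2 ^ k) = 1 := Nat.Coprime.pow_right k (by norm_num)
      rw [h7] at h6
      exact Nat.dvd_one.1 h6
    have h6 : a * v = v * a := by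
      rw [mul_inv_eq_one, mul_inv_eq_iff_eq_mul] at h5
      exact h5
    have h7 := congrArg (fun f : S K h9 => (f : Equiv.Perm K) 0) h6
    have h8 : (0 + x) ^ 3 = (0 : K) ^ 3 + x := h7
    linear_combination h8

end Cfsg.Agent.S4331
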