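import Cfsg.Statements.S4332
import Cfsg.Agent.H1.Cores

set_option autoImplicit false
open Cfsg
open Pointwise

namespace Cfsg.Agent.S4332

open Equiv Equiv.Perm

theorem key (g : Perm (Fin 8)) : ∃ a b d : Fin 8, [a, b, d].Nodup ∧ ((g a = a ∧ g b = b ∧ g d = d) ∨
    (g a = b ∧ g b = d ∧ g d = a) ∨ (∀ x ∈ [a, b, d], g x ∉ [a, b, d])) := by
  by_contra hno
  push Not at hno
  by_cases hF : 2 < (Finset.univ.filter (fun x : Fin 8 => g x = x)).card
  · rw [Finset.two_lt_card] at hF
    obtain ⟨a, ha, b, hb, d, hd, h1, h2, h3⟩ := hF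
    simp only [Finset.mem_filter, Finset.mem_univ, true_and] at ha hb hd
    exact (hno a b d (by simp [h1, h2, h3])).1 ha hb hd
  have hM : 6 ≤ (Finset.univ.filter (fun x : Fin 8 => ¬ g x = x)).card := by
    have := Finset.card_filter_add_card_filter_not (s := (Finset.univ : Finset (Fin 8))) (fun x : Fin 8 => g x = x)
    rw [Finset.card_univ, Fintype.card_fin] at this
    omega
  obtain ⟨x, hx⟩ : (Finset.univ.filter (fun x : Fin 8 => ¬ g x = x)).Nonempty := by
    rw [← Finset.card_pos]; omega
  obtain ⟨y, hy⟩ : ((Finset.univ.filter (fun x : Fin 8 => ¬ g x = x)) \ {x, g x, g⁻¹ x}).Nonempty := by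
    rw [← Finset.card_pos]
    have h1 := Finset.le_card_sdiff {x, g x, g⁻¹ x} (Finset.univ.filter (fun x : Fin 8 => ¬ g x = x))
    have h2 : ({x, g x, g⁻¹ x} : Finset (Fin 8)).card ≤ 3 := Finset.card_le_three
    omega
  simp only [Finset.mem_filter, Finset.mem_univ, true_and, Finset.mem_sdiff, Finset.mem_insert,
    Finset.mem_singleton, not_or] at hx hy
  obtain ⟨hy0, hyx, hygx, hyx'⟩ := hy
  have gg : ∀ z, g (g⁻¹ z) = z := fun z => by simp
  have inj : ∀ {u v}, g u = g v → u = v := fun h => g.injective h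
  have hsub : (Finset.univ.filter (fun x : Fin 8 => ¬ g x = x)) ⊆ [x, g x, g⁻¹ x, y, g y, g⁻¹ y].toFinset := by
    intro w hw
    simp only [Finset.mem_filter, Finset.mem_univ, true_and] at hw
    by_contra hw2
    simp only [List.mem_toFinset, List.mem_cons, List.not_mem_nil, or_false, not_or] at hw2
    obtain ⟨w1, w2, w3, w4, w5, w6⟩ := hw2
    obtain ⟨z, hz1, hz2⟩ := (hno x y w (by
      simp only [List.nodup_cons, List.mem_cons, List.not_mem_nil, or_false, not_or, List.nodup_nil,
        not_false_eq_true, and_true]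
      exact ⟨⟨fun h => hyx h.symm, fun h => w1 h.symm⟩, fun h => w4 h.symm⟩)).2.2
    simp only [List.mem_cons, List.not_mem_nil, or_false] at hz1 hz2
    have k1 : ∀ u v, g u = v → u = g⁻¹ v := fun u v h => by rw [← h]; simp
    rcases hz1 with rfl | rfl | rfl <;> rcases hz2 with h | h | h
    · exact hx h
    · exact hygx h.symm
    · exact w2 h.symm
    · exact hyx' (k1 _ _ h)
    · exact hy0 h
    · exact w5 h.symm
    · exact w3 (k1 _ _ h)
    · exact w6 (k1 _ _ h)
    · exact hw h
  have hnd : [x, g x, g⁻¹ x, y, g y, g⁻¹ y].Nodup := by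
    have h1 : ([x, g x, g⁻¹ x, y, g y, g⁻¹ y].toFinset).card = 6 :=
      le_antisymm (List.toFinset_card_le _) (hM.trans (Finset.card_le_card hsub))
    exact Multiset.coe_nodup.1 (Multiset.toFinset_card_eq_card_iff_nodup
      (m := (([x, g x, g⁻¹ x, y, g y, g⁻¹ y] : List (Fin 8)) : Multiset (Fin 8))) |>.1 h1)
  simp only [List.nodup_cons, List.mem_cons, List.not_mem_nil, or_false, not_or, List.nodup_nil,
    not_false_eq_true, and_true] at hnd
  obtain ⟨⟨n12, n13, n14, n15, n16⟩, ⟨n23, n24, n25, n26⟩, ⟨n34, n35, n36⟩, ⟨n45, n46⟩, n56⟩ := hnd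
  have k1 : ∀ {u v}, g u = v → u = g⁻¹ v := fun {u v} h => by rw [← h]; simp
  have hmem : ∀ w, ¬ g w = w → w = x ∨ w = g x ∨ w = g⁻¹ x ∨ w = y ∨ w = g y ∨ w = g⁻¹ y := by
    intro w hw
    have := hsub (Finset.mem_filter.2 ⟨Finset.mem_univ w, hw⟩)
    simpa only [List.mem_toFinset, List.mem_cons, List.not_mem_nil, or_false] using this
  have hgx : g (g x) = g⁻¹ y := by
    rcases hmem (g (g x)) (fun h => hx (inj (inj h))) with h | h | h | h | h | h
    · exact absurd (k1 h) n23
    · exact absurd (inj h) (fun h' => n12 h'.symm)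
    · exfalso
      refine (hno x (g x) (g (g x)) ?_).2.1 rfl rfl (by rw [h, gg])
      simp only [List.nodup_cons, List.mem_cons, List.not_mem_nil, or_false, not_or, List.nodup_nil,
        not_false_eq_true, and_true]
      refine ⟨⟨n12, ?_⟩, fun h' => n12 (inj h')⟩
      rw [h]; exact n13
    · exact absurd (k1 h) n26
    · exact absurd (inj h) n24
    · exact h
  have hgy : g (g y) = g⁻¹ x := by
    rcases hmem (g (g y)) (fun h => hy0 (inj (inj h))) with h | h | h | h | h | h
    · exact absurd (k1 h) (fun h' => n35 h'.symm)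
    · exact absurd (inj h) (fun h' => n15 h'.symm)
    · exact h
    · exact absurd (k1 h) n56
    · exact absurd (inj h) (fun h' => n45 h'.symm)
    · exfalso
      refine (hno y (g y) (g (g y)) ?_).2.1 rfl rfl (by rw [h, gg])
      simp only [List.nodup_cons, List.mem_cons, List.not_mem_nil, or_false, not_or, List.nodup_nil,
        not_false_eq_true, and_true]
      refine ⟨⟨n45, ?_⟩, fun h' => n45 (inj h')⟩
      rw [h]; exact n46
  obtain ⟨z, hz1, hz2⟩ := (hno x (g⁻¹ y) (g y) (by
    simp only [List.nodup_cons, List.mem_cons, List.not_mem_nil, or_false, not_or, List.nodup_nil,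
      not_false_eq_true, and_true]
    exact ⟨⟨n16, n15⟩, fun h => n56 h.symm⟩)).2.2
  simp only [List.mem_cons, List.not_mem_nil, or_false] at hz1 hz2
  rcases hz1 with rfl | rfl | rfl
  · rcases hz2 with h | h | h
    · exact n12 h.symm
    · exact n26 h
    · exact n25 h
  · rw [gg] at hz2
    rcases hz2 with h | h | h
    · exact n14 h.symm
    · exact n46 h
    · exact n45 h
  · rw [hgy] at hz2
    rcases hz2 with h | h | h
    · exact n13 h.symm
    · exact n36 h
    · exact n35 h

theorem conj_swaps (g : Perm (Fin 8)) (a b d : Fin 8) :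
    g * (swap a b * swap b d) * g⁻¹ = swap (g a) (g b) * swap (g b) (g d) := by
  have h1 : g * swap a b * g⁻¹ = swap (g a) (g b) := (swap_apply_apply g a b).symm
  have h2 : g * swap b d * g⁻¹ = swap (g b) (g d) := (swap_apply_apply g b d).symm
  rw [← h1, ← h2]
  group

theorem exists_three (g : Perm (Fin 8)) : ∃ c : Perm (Fin 8), c.IsThreeCycle ∧ Commute c (g * c * g⁻¹) := by
  obtain ⟨a, b, d, hnd, h⟩ := key g
  have hsupp := support_swap_mul_swap hnd
  refine ⟨swap a b * swap b d, ?_, ?_⟩
  · rw [← card_support_eq_three_iff, hsupp]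
    simp only [List.nodup_cons, List.mem_cons, List.not_mem_nil, or_false, not_or, List.nodup_nil,
      not_false_eq_true, and_true] at hnd
    rw [Finset.card_eq_three]
    exact ⟨a, b, d, hnd.1.1, hnd.1.2, hnd.2, rfl⟩
  · rcases h with ⟨ha, hb, hd⟩ | ⟨ha, hb, hd⟩ | h
    · rw [conj_swaps, ha, hb, hd]
    · rw [conj_swaps, ha, hb, hd]
      simp only [List.nodup_cons, List.mem_cons, List.not_mem_nil, or_false, not_or, List.nodup_nil,
        not_false_eq_true, and_true] at hnd
      obtain ⟨⟨n1, n2⟩, n3⟩ := hnd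
      have : swap a b * swap b d = swap b d * swap d a := by
        apply Equiv.ext
        intro x
        simp only [Perm.mul_apply, swap_apply_def]
        split_ifs <;> simp_all
      rw [← this]
    · apply Perm.Disjoint.commute
      rw [disjoint_iff_disjoint_support, support_conj, hsupp]
      rw [Finset.disjoint_left]
      intro x hx hx2
      rw [Finset.mem_map] at hx2
      obtain ⟨y, hy, rfl⟩ := hx2
      simp only [Finset.mem_insert, Finset.mem_singleton] at hx hy
      apply h y (by simpa using hy)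
      simpa using hx

/-- In the symmetric group of degree 8, let A be the subgroup generated by a 3-cycle. Then every conjugacy class contains an element g for which A is subnormal in the subgroup generated by A and its conjugate by g, although O_3 of the symmetric group of degree 8 is trivial. -/
theorem result
    (σ : Equiv.Perm (Fin 8)) (hσ : σ.IsThreeCycle) :
    (∀ c : Equiv.Perm (Fin 8), ∃ g : Equiv.Perm (Fin 8), IsConj c g ∧
      ((Subgroup.zpowers σ).subgroupOf (Subgroup.zpowers σ ⊔ MulAut.conj g • Subgroup.zpowers σ)).IsSubnormal) ∧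
    Cfsg.pCore 3 (Equiv.Perm (Fin 8)) = ⊥ := by
  constructor
  · intro c
    obtain ⟨s, hs, hcomm⟩ := exists_three c
    have h1 : IsConj s σ := by
      rw [isConj_iff_cycleType_eq]
      rw [IsThreeCycle] at hs hσ
      rw [hs, hσ]
    obtain ⟨τ, hτ⟩ := isConj_iff.1 h1
    refine ⟨τ * c * τ⁻¹, isConj_iff.2 ⟨τ, rfl⟩, ?_⟩
    have h2 : Commute σ ((τ * c * τ⁻¹) * σ * (τ * c * τ⁻¹)⁻¹) := by
      have h3 : (τ * c * τ⁻¹) * σ * (τ * c * τ⁻¹)⁻¹ = τ * (c * s * c⁻¹) * τ⁻¹ := by
        rw [← hτ]; group
      rw [h3, ← hτ]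
      exact hcomm.map (MulAut.conj τ)
    apply Subgroup.Normal.isSubnormal
    rw [Subgroup.normal_subgroupOf_iff_le_normalizer le_sup_left]
    refine sup_le Subgroup.le_normalizer ?_
    have h4 : MulAut.conj (τ * c * τ⁻¹) • Subgroup.zpowers σ =
        Subgroup.zpowers ((τ * c * τ⁻¹) * σ * (τ * c * τ⁻¹)⁻¹) := by
      have h5 : MulAut.conj (τ * c * τ⁻¹) • Subgroup.zpowers σ =
        (Subgroup.zpowers σ).map (MulAut.conj (τ * c * τ⁻¹)).toMonoidHom := rfl
      rw [h5, MonoidHom.map_zpowers]
      rfl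
    rw [h4, Subgroup.zpowers_le]
    apply Subgroup.centralizer_le_normalizer
    rw [Subgroup.mem_centralizer_iff]
    rintro y ⟨k, rfl⟩
    exact (h2.zpow_left k)
  · by_contra hne
    haveI : Fact (Nat.Prime 3) := ⟨Nat.prime_three⟩
    haveI : (Cfsg.pCore 3 (Equiv.Perm (Fin 8))).Normal := H1.pCore_normal 3 _
    haveI : Nontrivial (Cfsg.pCore 3 (Equiv.Perm (Fin 8))) := (Subgroup.nontrivial_iff_ne_bot _).2 hne
    have hle := alternatingGroup_le_of_normal (α := Fin 8) (by simp) this
    have hp : IsPGroup 3 (alternatingGroup (Fin 8)) := (H1.pCore_isPGroup 3 _).to_le hle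
    obtain ⟨n, hn⟩ := IsPGroup.iff_card.1 hp
    have h5 : 2 * Nat.card (alternatingGroup (Fin 8)) = Nat.factorial 8 := by
      have := two_mul_nat_card_alternatingGroup (α := Fin 8)
      rw [this, Nat.card_perm, Nat.card_eq_fintype_card, Fintype.card_fin]
    have h6 : 2 ∣ 3 ^ n := by
      rw [← hn]
      have : Nat.card (alternatingGroup (Fin 8)) = 20160 := by
        have h7 : Nat.factorial 8 = 40320 := by decide
        omega
      rw [this]; norm_num
    have := Nat.prime_two.dvd_of_dvd_pow h6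
    norm_num at this

end Cfsg.Agent.S4332
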