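import Cfsg.Statements.S4334
import Cfsg.Agent.H25.DPi

set_option autoImplicit false
open Cfsg
open scoped Pointwise

namespace Cfsg.Agent.S4334

/-- Let σ and τ be disjoint sets of primes with union π. Suppose a finite group G has a Hall π-subgroup H which is the direct product of a nilpotent σ-subgroup and a τ-subgroup (two elementwise-commuting subgroups generating H), and that the maximal τ-subgroups of G are pairwise conjugate. Then the maximal π-subgroups of G are pairwise conjugate. -/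
theorem result {G : Type*} [Group G] [Finite G]
    (σ τ π : Set ℕ) (hπ : π = σ ∪ τ) (hd : Disjoint σ τ) (H Hs Ht : Subgroup G) (hH : Cfsg.IsPiHall π H)
    (hs : Cfsg.IsPiSubgroup σ Hs) (ht : Cfsg.IsPiSubgroup τ Ht) (hsn : Group.IsNilpotent Hs)
    (hjoin : Hs ⊔ Ht = H) (hcomm : ∀ a ∈ Hs, ∀ b ∈ Ht, a * b = b * a) (hD : Cfsg.IsDPiGroup τ G) :
    Cfsg.IsDPiGroup π G := by
  obtain ⟨hH1, hH2⟩ := hH
  have hcen : Hs ≤ Subgroup.centralizer (Ht : Set G) := by
    intro a ha
    rw [Subgroup.mem_centralizer_iff]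
    intro b hb
    exact (hcomm a ha b hb).symm
  have hcen' : Ht ≤ Subgroup.centralizer (Hs : Set G) := Subgroup.le_centralizer_iff.1 hcen
  have hHsn : Hs ≤ Subgroup.normalizer (Ht : Set G) := hcen.trans (Subgroup.centralizer_le_normalizer _)
  have htH : Ht ≤ H := by rw [← hjoin]; exact le_sup_right
  have hsH : Hs ≤ H := by rw [← hjoin]; exact le_sup_left
  have htidx : ∀ r : ℕ, r.Prime → r ∈ τ → ¬ r ∣ Ht.index := by
    intro r hr hrτ hd1
    rw [← Subgroup.relIndex_mul_index htH] at hd1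
    rcases (Nat.Prime.dvd_mul hr).1 hd1 with h1 | h1
    · have h2 : Ht.relIndex H ∣ Nat.card Hs := by
        rw [← hjoin, sup_comm]; exact H25.DPi.relIndex_sup_dvd hHsn
      exact Set.disjoint_left.1 hd (hs r hr (h1.trans h2)) hrτ
    · exact hH2 r hr (by rw [hπ]; exact Or.inr hrτ) h1
  have hdec : ∀ q ∈ σ, q.Prime → ∃ A B : Subgroup G, H25.DPi.Dec q A B H ∧ Ht ≤ B := by
    intro q hqσ hq
    haveI : Fact q.Prime := ⟨hq⟩
    have hA1 : (Cfsg.pCore q Hs).map Hs.subtype ≤ Hs := Subgroup.map_subtype_le _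
    have hA2 : (Cfsg.pPrimeCore q Hs).map Hs.subtype ≤ Hs := Subgroup.map_subtype_le _
    have hcAB : (Cfsg.pCore q Hs).map Hs.subtype ≤
        Subgroup.centralizer (((Cfsg.pPrimeCore q Hs).map Hs.subtype ⊔ Ht : Subgroup G) : Set G) := by
      rw [Subgroup.le_centralizer_iff]
      apply sup_le
      · rw [Subgroup.le_centralizer_iff]
        rintro _ ⟨a, ha, rfl⟩
        rw [Subgroup.mem_centralizer_iff]
        rintro _ ⟨b, hb, rfl⟩
        exact congrArg Subtype.val (Subgroup.mem_centralizer_iff.1 (H1.pCore_commute_pPrimeCore q ha) b hb)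
      · exact hcen'.trans (Subgroup.centralizer_le hA1)
    have hsup : (Cfsg.pCore q Hs).map Hs.subtype ⊔ ((Cfsg.pPrimeCore q Hs).map Hs.subtype ⊔ Ht) = H := by
      rw [← sup_assoc, ← Subgroup.map_sup, H1.pCore_sup_pPrimeCore_of_nilpotent hsn q, ← MonoidHom.range_eq_map,
        Subgroup.range_subtype, hjoin]
    have hcop : (Nat.card ((Cfsg.pPrimeCore q Hs).map Hs.subtype ⊔ Ht : Subgroup G)).Coprime q := by
      have h1 := H1.card_sup_mul_card_inf_of_le_normalizer (H := Ht) (K := (Cfsg.pPrimeCore q Hs).map Hs.subtype)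
        (hA2.trans hHsn)
      have h2 : Nat.card ((Cfsg.pPrimeCore q Hs).map Hs.subtype ⊔ Ht : Subgroup G) ∣
          Nat.card Ht * Nat.card ((Cfsg.pPrimeCore q Hs).map Hs.subtype) := by
        rw [← h1, sup_comm]; exact Dvd.intro _ rfl
      refine Nat.Coprime.coprime_dvd_left h2 (Nat.Coprime.mul_left ?_ ?_)
      · rw [Nat.coprime_comm, Nat.Prime.coprime_iff_not_dvd hq]
        intro h
        exact Set.disjoint_left.1 hd hqσ (ht q hq h)
      · rw [H1.card_map_subtype]; exact H1.pPrimeCore_coprime q _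
    refine ⟨(Cfsg.pCore q Hs).map Hs.subtype, (Cfsg.pPrimeCore q Hs).map Hs.subtype ⊔ Ht,
      ⟨hsup, hcAB, (H1.pCore_isPGroup q Hs).map _, ?_, hcop⟩, le_sup_right⟩
    intro hd1
    have hAH : (Cfsg.pCore q Hs).map Hs.subtype ≤ H := hA1.trans hsH
    rw [← Subgroup.relIndex_mul_index hAH] at hd1
    rcases (Nat.Prime.dvd_mul hq).1 hd1 with h1 | h1
    · have h2 : ((Cfsg.pCore q Hs).map Hs.subtype).relIndex H ∣
          Nat.card ((Cfsg.pPrimeCore q Hs).map Hs.subtype ⊔ Ht : Subgroup G) := by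
        conv_lhs => rw [← hsup]
        apply H25.DPi.relIndex_sup_dvd
        exact (Subgroup.le_centralizer_iff.1 hcAB).trans (Subgroup.centralizer_le_normalizer _)
      have h3 := Nat.dvd_gcd (h1.trans h2) dvd_rfl
      rw [hcop] at h3
      exact hq.not_dvd_one h3
    · exact hH2 q hq (by rw [hπ]; exact Or.inl hqσ) h1
  have hext : ∀ (ρ : Set ℕ) (K : Subgroup G), Cfsg.IsPiSubgroup ρ K → ∃ M : Subgroup G, K ≤ M ∧ Maximal (Cfsg.IsPiSubgroup ρ) M := by
    intro ρ K hK
    exact (Set.toFinite {M : Subgroup G | Cfsg.IsPiSubgroup ρ M}).exists_le_maximal hK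
  have hHtmax : Maximal (Cfsg.IsPiSubgroup τ) Ht := by
    refine ⟨ht, fun T hT hle => ?_⟩
    rw [← Subgroup.relIndex_eq_one]
    by_contra hne
    obtain ⟨r, hr, hrd⟩ := Nat.exists_prime_and_dvd hne
    have h1 : r ∣ Nat.card T := hrd.trans (Subgroup.relIndex_dvd_card _ _)
    exact htidx r hr (hT r hr h1) (hrd.trans (Subgroup.relIndex_dvd_index_of_le hle))
  have hHt : ∀ K : Subgroup G, Cfsg.IsPiSubgroup τ K → ∃ x : G, K ≤ MulAut.conj x • Ht := by
    intro K hK
    obtain ⟨M, hKM, hM⟩ := hext τ K hK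
    obtain ⟨g, hg⟩ := hD Ht M hHtmax hM
    exact ⟨g, by rw [hg] at hKM; exact hKM⟩
  have hmain := H25.DPi.main hdec hHt htH htidx
  have hHπ : ∀ x : G, Cfsg.IsPiSubgroup π (MulAut.conj x • H) := by
    intro x p hp hpd
    rw [H1.card_conj_smul] at hpd
    exact hH1 p hp hpd
  have hmx : ∀ X : Subgroup G, Maximal (Cfsg.IsPiSubgroup π) X → ∃ x : G, X = MulAut.conj x • H := by
    intro X hX
    obtain ⟨x, hx⟩ := hmain _ X rfl (by rw [← hπ]; exact hX.1)
    exact ⟨x, le_antisymm hx (hX.2 (hHπ x) hx)⟩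
  intro X Y hX hY
  obtain ⟨x, rfl⟩ := hmx X hX
  obtain ⟨y, rfl⟩ := hmx Y hY
  refine ⟨y * x⁻¹, ?_⟩
  show MulAut.conj y • H = MulAut.conj (y * x⁻¹) • (MulAut.conj x • H)
  rw [H1.conj_smul_smul, inv_mul_cancel_right]


end Cfsg.Agent.S4334
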