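import Cfsg.Statements.S4337
import Cfsg.Agent.H25.Transp
import Cfsg.Agent.S0144

set_option autoImplicit false
open Cfsg

namespace Cfsg.Agent.S4337

open Cfsg.Agent.H25

theorem solvable_of_primes_le_three {G : Type*} [Group G] [Finite G]
    (h : ∀ r : ℕ, r.Prime → r ∣ Nat.card G → r = 2 ∨ r = 3) : Group.IsSolvable G := by
  apply Cfsg.Agent.S0144.result 2 3 ((Nat.card G).factorization 2) ((Nat.card G).factorization 3)
    Nat.prime_two Nat.prime_three
  have hsub : (Nat.card G).primeFactors ⊆ {2, 3} := by
    intro r hr
    rw [Finset.mem_insert, Finset.mem_singleton]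
    exact h r (Nat.mem_primeFactors.1 hr).1 (Nat.mem_primeFactors.1 hr).2.1
  have h7 := Nat.prod_factorization_pow_eq_self (n := Nat.card G) Nat.card_pos.ne'
  have h8 : (Nat.card G).factorization.prod (fun p k => p ^ k) =
      ∏ r ∈ ({2, 3} : Finset ℕ), r ^ (Nat.card G).factorization r := by
    apply Finsupp.prod_of_support_subset
    · rw [Nat.support_factorization]; exact hsub
    · intro i _
      exact pow_zero i
  rw [h8, Finset.prod_pair (by norm_num)] at h7
  exact h7.symm

/-- In a finite symmetric group, any three transpositions generate a solvable subgroup. -/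
theorem result (n : ℕ) (a b c : Equiv.Perm (Fin n))
    (ha : a.IsSwap) (hb : b.IsSwap) (hc : c.IsSwap) :
    Group.IsSolvable (Subgroup.closure ({a, b, c} : Set (Equiv.Perm (Fin n)))) := by
  have hr : ({a, b, c} : Set (Equiv.Perm (Fin n))) = Set.range ![a, b, c] := by
    ext x
    simp only [Set.mem_insert_iff, Set.mem_singleton_iff, Set.mem_range]
    constructor
    · rintro (rfl | rfl | rfl)
      · exact ⟨0, rfl⟩
      · exact ⟨1, rfl⟩
      · exact ⟨2, rfl⟩
    · rintro ⟨i, rfl⟩
      fin_cases i <;> simp
  rw [hr]
  apply solvable_of_primes_le_three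
  intro r hr hd
  have h4 := prime_le_of_swaps ![a, b, c] (by
    intro i
    fin_cases i
    · exact ha
    · exact hb
    · exact hc) hr hd
  have := hr.two_le
  interval_cases r
  · left; rfl
  · right; rfl
  · exact absurd hr (by norm_num)

end Cfsg.Agent.S4337
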