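import Cfsg.Statements.S4343
import Cfsg.Agent.H25.SylowNum3

set_option autoImplicit false
open Cfsg

namespace Cfsg.Agent.S4343

open Cfsg.Agent.H25

/-- Let S be a finite non-abelian simple group and p a prime dividing its order. If S has fewer than p² Sylow p-subgroups, then its Sylow p-subgroups have order p. -/
theorem result {S : Type*} [Group S] [Finite S]
    [IsSimpleGroup S] (hS : ¬ IsMulCommutative S) (p : ℕ) [Fact p.Prime] (hp : p ∣ Nat.card S)
    (hn : Nat.card (Sylow p S) < p ^ 2) (P : Sylow p S) : Nat.card P = p := by
  have hnot : ¬ (P : Subgroup S).Normal := by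
    intro hN
    rcases hN.eq_bot_or_eq_top with h | h
    · have h1 := P.dvd_card_of_dvd_card hp
      rw [h, Subgroup.card_bot] at h1
      exact (Fact.out : p.Prime).one_lt.ne' (Nat.dvd_one.1 h1)
    · apply hS
      have h1 : IsPGroup p S := by
        have := P.isPGroup'
        rw [h] at this
        exact this.of_equiv Subgroup.topEquiv
      have h2 : Nontrivial (Subgroup.center S) := h1.center_nontrivial
      rcases (inferInstance : (Subgroup.center S).Normal).eq_bot_or_eq_top with h3 | h3
      · rw [Subgroup.nontrivial_iff_ne_bot] at h2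
        exact absurd h3 h2
      · exact Subgroup.center_eq_top_iff.1 h3
  refine card_sylow_eq_prime_of_le ?_ hn.le ?_ P
  · by_contra hle
    have h1 : Nat.card (Sylow p S) = 1 := by
      have : 0 < Nat.card (Sylow p S) := Nat.card_pos
      omega
    rw [P.card_eq_index_normalizer, Subgroup.index_eq_one] at h1
    exact hnot (Subgroup.normalizer_eq_top_iff.1 h1)
  · intro g hg
    let K : Subgroup S := (MulAction.toPermHom S (Sylow p S)).ker
    have hKmem : ∀ x : S, x ∈ K ↔ ∀ P : Sylow p S, x • P = P := by
      intro x
      rw [MonoidHom.mem_ker, Equiv.ext_iff]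
      rfl
    rcases (inferInstance : K.Normal).eq_bot_or_eq_top with h3 | h3
    · have : g ∈ K := (hKmem g).2 hg
      rw [h3, Subgroup.mem_bot] at this
      exact this
    · exfalso
      apply hnot
      apply Subgroup.normalizer_eq_top_iff.1
      rw [eq_top_iff]
      intro x _
      have : x ∈ K := by rw [h3]; trivial
      exact Sylow.smul_eq_iff_mem_normalizer.1 ((hKmem x).1 this P)

end Cfsg.Agent.S4343
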