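import Cfsg.Statements.S4344
import Cfsg.Agent.H25.SylowNum

set_option autoImplicit false
open Cfsg

namespace Cfsg.Agent.S4344

open Cfsg.Agent.H25

/-- Let S be a finite non-abelian simple group, M a maximal subgroup of S and C a cyclic normal subgroup of M. If a Sylow p-subgroup P of S (for a prime p dividing the order of S) is contained in C, then the number of Sylow p-subgroups of S equals the index of M. -/
theorem result {S : Type*} [Group S] [Finite S]
    [IsSimpleGroup S] (hS : ¬ IsMulCommutative S) (p : ℕ) [Fact p.Prime] (hp : p ∣ Nat.card S)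
    (M : Subgroup S) (hM : IsCoatom M) (C : Subgroup S) (hCM : C ≤ M) (hCn : (C.subgroupOf M).Normal)
    (hC : IsCyclic C) (P : Sylow p S) (hP : (P : Subgroup S) ≤ C) :
    Nat.card (Sylow p S) = M.index := by
  letI := IsCyclic.commGroup (α := C)
  have hcomm : ∀ a ∈ C, ∀ b ∈ C, a * b = b * a := fun a ha b hb =>
    congrArg Subtype.val (mul_comm (⟨a, ha⟩ : C) ⟨b, hb⟩)
  have hnot : ¬ (P : Subgroup S).Normal := by
    intro hN
    rcases hN.eq_bot_or_eq_top with h | h
    · have h1 := P.dvd_card_of_dvd_card hp
      rw [h, Subgroup.card_bot] at h1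
      exact (Fact.out : p.Prime).one_lt.ne' (Nat.dvd_one.1 h1)
    · rw [h] at hP
      exact hM.1 (top_le_iff.1 (hP.trans hCM))
  have hCN : C ≤ Subgroup.normalizer (P : Set S) := by
    refine le_trans ?_ (Subgroup.centralizer_le_normalizer _)
    intro a ha
    rw [Subgroup.mem_centralizer_iff]
    intro b hb
    exact hcomm b (hP hb) a ha
  have hMN : M ≤ Subgroup.normalizer (P : Set S) := by
    intro m hm
    apply Sylow.smul_eq_iff_mem_normalizer.1
    apply eq_of_le_normalizer
    refine le_trans ?_ hCN
    rintro _ ⟨y, hy, rfl⟩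
    have h1 := hCn.conj_mem ⟨y, hCM (hP hy)⟩ (by rw [Subgroup.mem_subgroupOf]; exact hP hy) ⟨m, hm⟩
    rw [Subgroup.mem_subgroupOf] at h1
    exact h1
  have hNM : Subgroup.normalizer (P : Set S) = M := by
    by_contra hne
    have := hM.2 _ (lt_of_le_of_ne hMN (Ne.symm hne))
    exact hnot (Subgroup.normalizer_eq_top_iff.1 this)
  rw [P.card_eq_index_normalizer, hNM]

end Cfsg.Agent.S4344
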