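import Cfsg.Statements.S4345
import Cfsg.Agent.H25.SylowMult2
import Cfsg.Agent.H1.Chief

set_option autoImplicit false
open Cfsg

namespace Cfsg.Agent.S4345

open Subgroup

theorem aux (p : ℕ) [Fact p.Prime] (ℓ : ℕ) (hℓ : ℓ.Prime) (n : ℕ) :
    ∀ (G : Type*) [Group G] [Finite G], Nat.card G = n → Group.IsSolvable G →
      ℓ ^ (Nat.card (Sylow p G)).factorization ℓ ≡ 1 [MOD p] := by
  induction n using Nat.strong_induction_on with
  | _ n ih =>
  intro G _ _ hn hG
  by_cases htr : (⊤ : Subgroup G) = ⊥
  · have hsub : Subsingleton G := by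
      rw [← subsingleton_iff (G := G)]
      exact subsingleton_of_bot_eq_top htr.symm
    have : Nat.card (Sylow p G) = 1 := by
      rw [Nat.card_eq_one_iff_unique]
      refine ⟨⟨fun P Q => ?_⟩, inferInstance⟩
      apply Sylow.ext
      exact Subsingleton.elim _ _
    rw [this]
    simp
    rfl
  · obtain ⟨K, hKn, hK0, -, hmin⟩ := H1.exists_minimal_normal_le (N := (⊤ : Subgroup G)) inferInstance htr
    haveI := hKn
    haveI := hG
    obtain ⟨-, q, hq, hKq, -⟩ := H1.minimal_normal_solvable hKn hK0 hmin inferInstance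
    haveI := Fact.mk hq
    have hlt : Nat.card (G ⧸ K) < n := by
      rw [← hn, ← K.index_eq_card, ← K.card_mul_index]
      have h1 : 1 < Nat.card K := by
        rw [Finite.one_lt_card_iff_nontrivial]
        exact (Subgroup.nontrivial_iff_ne_bot K).2 hK0
      have h2 : 0 < K.index := Nat.pos_of_ne_zero index_ne_zero_of_finite
      nlinarith
    have hI := ih _ hlt (G ⧸ K) rfl inferInstance
    obtain ⟨P⟩ : Nonempty (Sylow p G) := inferInstance
    by_cases hpq : p ∣ Nat.card K
    · -- `K` lies in all Sylow subgroups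
      have hqp : p = q := by
        obtain ⟨m, hm⟩ := IsPGroup.iff_card.1 hKq
        rw [hm] at hpq
        exact (Nat.prime_dvd_prime_iff_eq (Fact.out : p.Prime) hq).1 ((Fact.out : p.Prime).dvd_of_dvd_pow hpq)
      subst hqp
      rw [← H9.Syl.card_sylow_quotient K]
      · exact hI
      · intro R
        refine le_trans ?_ le_normalizer
        exact hKq.le_sylow_of_normal R
    · rw [H25.card_sylow_eq_quotient_mul K P, Nat.factorization_mul Nat.card_pos.ne' Nat.card_pos.ne',
        Finsupp.add_apply, pow_add]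
      exact (hI.mul (H25.sylow_part_modEq K hpq P ℓ hℓ))

/-- Let G be a finite solvable group and p, ℓ primes. Then the largest power of ℓ dividing the number of Sylow p-subgroups of G is congruent to 1 modulo p. -/
theorem result {G : Type*} [Group G] [Finite G]
    (hG : Group.IsSolvable G) (p ℓ : ℕ) [Fact p.Prime] (hℓ : ℓ.Prime) :
    ℓ ^ (Nat.card (Sylow p G)).factorization ℓ ≡ 1 [MOD p] :=
  aux p ℓ hℓ _ G rfl hG

end Cfsg.Agent.S4345
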