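import Cfsg.Statements.S4346
import Cfsg.Agent.H29.SylH

set_option autoImplicit false
open Cfsg

namespace Cfsg.Agent.S4346

set_option linter.style.haveILetI false
open Cfsg.Agent.H29
open scoped Pointwise

theorem map_inj {G : Type*} [Group G] [Finite G] {P P' : Sylow 3 G}
    (h : (P : Subgroup G).map (QuotientGroup.mk' (MulAction.toPermHom G (Sylow 3 G)).ker) =
      (P' : Subgroup G).map (QuotientGroup.mk' (MulAction.toPermHom G (Sylow 3 G)).ker)) : P = P' := by
  haveI : Fact (Nat.Prime 3) := ⟨Nat.prime_three⟩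
  rw [← syl_le_iff, ← pfix P.2]
  intro y hy
  have h1 : QuotientGroup.mk' (MulAction.toPermHom G (Sylow 3 G)).ker y ∈
      (P' : Subgroup G).map (QuotientGroup.mk' (MulAction.toPermHom G (Sylow 3 G)).ker) := by
    rw [← h]; exact Subgroup.mem_map_of_mem _ hy
  obtain ⟨x, hx, hxy⟩ := h1
  have h2 : x⁻¹ * y ∈ (MulAction.toPermHom G (Sylow 3 G)).ker := QuotientGroup.eq.1 hxy
  have h3 : (x⁻¹ * y) • P' = P' := DFunLike.congr_fun (MonoidHom.mem_ker.1 h2) P'
  have h4 : x • P' = P' := (pfix P'.2).2 le_rfl x hx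
  have h5 : y = x * (x⁻¹ * y) := by group
  rw [h5, mul_smul, h3, h4]

theorem map_smul' {G G' : Type*} [Group G] [Finite G] [Group G'] [Finite G'] [Fact (Nat.Prime 3)] {f : G →* G'} (hf : Function.Surjective f)
    (g : G) (P : Sylow 3 G) : (g • P).mapSurjective hf = f g • P.mapSurjective hf := by
  apply Sylow.ext
  ext z
  constructor
  · rintro ⟨w, hw, rfl⟩
    refine mem_smul_syl.2 ?_
    refine ⟨g⁻¹ * w * g, mem_smul_syl.1 hw, ?_⟩
    rw [map_mul, map_mul, map_inv]
  · intro hz
    obtain ⟨w, hw, hwz⟩ := mem_smul_syl.1 hz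
    refine ⟨g * w * g⁻¹, mem_smul_syl.2 ?_, ?_⟩
    · have : g⁻¹ * (g * w * g⁻¹) * g = w := by group
      rw [this]; exact hw
    · rw [map_mul, map_mul, map_inv, hwz]; group

/-- No finite group has exactly 22 Sylow 3-subgroups. -/
theorem result {G : Type*} [Group G] [Finite G] : Nat.card (Sylow 3 G) ≠ 22 := by
  intro hn
  haveI : Fact (Nat.Prime 3) := ⟨Nat.prime_three⟩
  let K := (MulAction.toPermHom G (Sylow 3 G)).ker
  let f : G →* G ⧸ K := QuotientGroup.mk' K
  have hf : Function.Surjective f := QuotientGroup.mk'_surjective K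
  let F : Sylow 3 G → Sylow 3 (G ⧸ K) := fun P => P.mapSurjective hf
  have hinj : Function.Injective F := by
    intro P P' h
    exact map_inj (congrArg (fun S : Sylow 3 (G ⧸ K) => (S : Subgroup (G ⧸ K))) h)
  have hsurj : Function.Surjective F := Sylow.mapSurjective_surjective hf 3
  have hn' : Nat.card (Sylow 3 (G ⧸ K)) = 22 := by
    rw [← hn]
    exact (Nat.card_congr (Equiv.ofBijective _ ⟨hinj, hsurj⟩)).symm
  refine no_faithful hn' ?_
  intro q hq
  obtain ⟨g, rfl⟩ := hf q
  have hg : g ∈ K := by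
    rw [MonoidHom.mem_ker]
    ext1 P
    show g • P = P
    apply hinj
    show (g • P).mapSurjective hf = P.mapSurjective hf
    rw [map_smul' hf]
    exact hq _
  exact (QuotientGroup.eq_one_iff g).2 hg

end Cfsg.Agent.S4346
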