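import Cfsg.Statements.S4354
import Cfsg.Agent.H4.PCent

set_option autoImplicit false
open Cfsg

namespace Cfsg.Agent.S4354

open Subgroup in
theorem comm_of_all {H : Type*} [Group H] {p : ℕ} (h : ¬ ∃ P : Sylow p H, ¬ IsMulCommutative P)
    (P : Sylow p H) {a b : H} (ha : a ∈ P) (hb : b ∈ P) : a * b = b * a := by
  have h1 : IsMulCommutative P := by
    by_contra hc; exact h ⟨P, hc⟩
  have h2 := h1.is_comm.comm (⟨a, ha⟩ : P) ⟨b, hb⟩
  exact congrArg Subtype.val h2

/-- Let G be a finite group and p a prime such that the Sylow p-subgroups of G are non-abelian while every element of p-power order has conjugacy class size prime to p, and suppose no nontrivial proper normal subgroup N of G has this property and no quotient G/N by such an N has it. Then G is simple. -/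
theorem result {G : Type*} [Group G] [Finite G]
    (p : ℕ) [Fact p.Prime] (h : ((∃ P : Sylow p G, ¬ IsMulCommutative P) ∧ ∀ x : G, (∃ k : ℕ, orderOf x = p ^ k) → ¬ p ∣ (Subgroup.centralizer ({x} : Set G)).index))
    (hmin : ∀ (N : Subgroup G) [N.Normal], N ≠ ⊥ → N ≠ ⊤ →
      ¬ ((∃ P : Sylow p N, ¬ IsMulCommutative P) ∧ ∀ x : N, (∃ k : ℕ, orderOf x = p ^ k) → ¬ p ∣ (Subgroup.centralizer ({x} : Set N)).index) ∧
      ¬ ((∃ P : Sylow p (G ⧸ N), ¬ IsMulCommutative P) ∧ ∀ x : (G ⧸ N), (∃ k : ℕ, orderOf x = p ^ k) → ¬ p ∣ (Subgroup.centralizer ({x} : Set (G ⧸ N))).index)) :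
    IsSimpleGroup G := by
  obtain ⟨⟨P, hP⟩, hc⟩ := h
  have hpc : H4.PC p G := hc
  have key : ∀ (N : Subgroup G) [N.Normal], N = ⊥ ∨ N = ⊤ := by
    intro N _
    by_contra hcon
    push Not at hcon
    obtain ⟨h1, h2⟩ := hmin N hcon.1 hcon.2
    have hN : ¬ ∃ P : Sylow p N, ¬ IsMulCommutative P := fun h => h1 ⟨h, hpc.normal N⟩
    have hQ : ¬ ∃ P : Sylow p (G ⧸ N), ¬ IsMulCommutative P := fun h => h2 ⟨h, hpc.quotient N⟩
    apply hP
    have hNn : (⊤ : Subgroup G) ≤ Subgroup.normalizer (N : Set G) := by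
      rw [Subgroup.normalizer_eq_top]
    have hcomm := hpc.sylow_comm N ?_ ?_ P
    · exact ⟨⟨fun a b => Subtype.ext (hcomm a a.2 b b.2)⟩⟩
    · intro S a ha b hb
      obtain ⟨Q, hQ⟩ := ((H14.Sylow.isSylIn_top S).inf_of_normalizes le_top hNn).exists_sylow
      rw [← hQ] at ha hb
      obtain ⟨a', ha', rfl⟩ := ha
      obtain ⟨b', hb', rfl⟩ := hb
      have := comm_of_all hN Q ha' hb'
      show (a' : G) * b' = b' * a'
      exact congrArg Subtype.val this
    · intro S a ha b hb
      have h3 : QuotientGroup.mk' N (a⁻¹ * b⁻¹ * a * b) = 1 := by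
        have ha' : QuotientGroup.mk' N a ∈ S.mapSurjective (QuotientGroup.mk'_surjective N) :=
          ⟨a, ha, rfl⟩
        have hb' : QuotientGroup.mk' N b ∈ S.mapSurjective (QuotientGroup.mk'_surjective N) :=
          ⟨b, hb, rfl⟩
        have h4 := comm_of_all hQ _ ha' hb'
        rw [map_mul, map_mul, map_mul, mul_assoc, h4, map_inv, map_inv]
        group
      exact (QuotientGroup.eq_one_iff _).1 h3
  have hnt : Nontrivial G := by
    by_contra hcon
    rw [not_nontrivial_iff_subsingleton] at hcon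
    exact hP ⟨⟨fun a b => Subsingleton.elim _ _⟩⟩
  exact { exists_pair_ne := hnt.exists_pair_ne
          eq_bot_or_eq_top_of_normal := fun N hN => by
            haveI := hN
            exact key N }

end Cfsg.Agent.S4354
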