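import Cfsg.Statements.S4355
import Cfsg.Agent.H13.CamHer2

set_option autoImplicit false
set_option linter.all false
open Cfsg

namespace Cfsg.Agent.S4355

open Cfsg.Agent

/-- If every element of 2-power order of a finite group has a conjugacy class of odd size, then the Sylow 2-subgroups of the group are abelian. -/
theorem result {G : Type*} [Group G] [Finite G]
    (h : ∀ x : G, (∃ k : ℕ, orderOf x = 2 ^ k) → ¬ 2 ∣ (Subgroup.centralizer ({x} : Set G)).index) (P : Sylow 2 G) :
    IsMulCommutative P := by
  have := H13.sylow_comm_of_central P (fun x hx => by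
    have h2 : ∃ k : ℕ, orderOf x = 2 ^ k := by
      obtain ⟨k, hk⟩ := P.2 ⟨x, hx⟩
      have hk' : x ^ 2 ^ k = 1 := congrArg Subtype.val hk
      obtain ⟨j, -, hj⟩ := (Nat.dvd_prime_pow Nat.prime_two).1 (orderOf_dvd_of_pow_eq_one hk')
      exact ⟨j, hj⟩
    have h3 := h x h2
    set C := Subgroup.centralizer ({x} : Set G) with hC
    obtain ⟨R⟩ : Nonempty (Sylow 2 C) := inferInstance
    have hR2 : ¬ 2 ∣ ((R : Subgroup C).map C.subtype).index := by
      have h4 : ((R : Subgroup C).map C.subtype).index = (R : Subgroup C).index * C.index := by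
        have h5 : (R : Subgroup C) = ((R : Subgroup C).map C.subtype).subgroupOf C := by
          rw [Subgroup.subgroupOf, Subgroup.comap_map_eq_self_of_injective C.subtype_injective]
        conv_rhs => rw [h5]
        exact (Subgroup.relIndex_mul_index (Subgroup.map_subtype_le _)).symm
      rw [h4, Nat.Prime.dvd_mul Nat.prime_two]
      rintro (h5 | h5)
      · exact R.not_dvd_index h5
      · exact h3 h5
    have hRp : IsPGroup 2 ((R : Subgroup C).map C.subtype) := R.2.map _
    refine ⟨hRp.toSylow hR2, ?_⟩
    rintro _ ⟨y, -, rfl⟩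
    exact y.2)
  exact ⟨⟨fun a b => Subtype.ext (this a a.2 b b.2)⟩⟩

end Cfsg.Agent.S4355
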