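import Cfsg.Statements.S4364
import Cfsg.Agent.H24.Kazarin2
import Cfsg.Agent.H24.RegClass
import Cfsg.Agent.H1.Chief
import Cfsg.Agent.H1.SysNorm

set_option autoImplicit false
open Cfsg

namespace Cfsg.Agent.S4364

open Subgroup

/-- In a nilpotent subgroup `F` of a group with trivial `p`-core, normal, there is no `p`-part. -/
theorem not_dvd_card_nilpotent {G : Type*} [Group G] [Finite G] {p : ℕ} [Fact p.Prime]
    (hO : pCore p G = ⊥) (F : Subgroup G) [F.Normal] (hF : Group.IsNilpotent F) :
    ¬ p ∣ Nat.card F := by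
  intro hdvd
  obtain ⟨P⟩ : Nonempty (Sylow p F) := inferInstance
  have hPn : (P : Subgroup F).Normal := (Sylow.normal_of_normalizerCondition (Group.normalizerCondition_of_isNilpotent) P)
  haveI : (P : Subgroup F).Characteristic := P.characteristic_of_normal hPn
  have hN : ((P : Subgroup F).map F.subtype).Normal := inferInstance
  have hle := H1.le_pCore hN (P.isPGroup'.map F.subtype)
  rw [hO, le_bot_iff, (Subgroup.map_eq_bot_iff_of_injective _ F.subtype_injective)] at hle
  have h1 := P.dvd_card_of_dvd_card hdvd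
  rw [hle, Subgroup.card_bot] at h1
  exact (Fact.out : p.Prime).one_lt.ne' (Nat.dvd_one.1 h1)

theorem comm_of_core_trivial {G : Type*} [Group G] [Finite G] (p : ℕ) [Fact p.Prime]
    (hO : pCore p G = ⊥) (x : G) (hx : ∃ a : ℕ, (centralizer ({x} : Set G)).index = p ^ a)
    (y z : G) (hy : y ∈ normalClosure ({x} : Set G)) (hz : z ∈ normalClosure ({x} : Set G)) :
    y * z = z * y := by
  obtain ⟨a, ha⟩ := hx
  set N := normalClosure ({x} : Set G) with hN
  have hsol : Group.IsSolvable N := H24.kazarin Fact.out a x ha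
  -- `O_p(N) = 1`
  have hON : pCore p N = ⊥ := by
    haveI : (pCore p N).Characteristic := inferInstance
    have h1 : ((pCore p N).map N.subtype).Normal := inferInstance
    have hle := H1.le_pCore h1 ((H1.pCore_isPGroup p N).map N.subtype)
    rwa [hO, le_bot_iff, (Subgroup.map_eq_bot_iff_of_injective _ N.subtype_injective)] at hle
  have hFp : ¬ p ∣ Nat.card (fittingSubgroup N) :=
    not_dvd_card_nilpotent hON _ (H1.fitting_isNilpotent N)
  set F := (fittingSubgroup N).map N.subtype with hF
  haveI hFn : F.Normal := inferInstance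
  have hFcard : Nat.card F = Nat.card (fittingSubgroup N) :=
    Subgroup.card_map_of_injective N.subtype_injective
  -- `x` centralizes `F`
  have h1 : (centralizer ({x} : Set G)).relIndex F ∣ p ^ a := by
    rw [← ha]; exact H1.relIndex_dvd_index_of_normal_right _ F
  have h2 : (centralizer ({x} : Set G)).relIndex F ∣ Nat.card F := Subgroup.relIndex_dvd_card _ _
  have h3 : (centralizer ({x} : Set G)).relIndex F = 1 := by
    have hcop : Nat.Coprime (p ^ a) (Nat.card F) := by
      rw [hFcard]
      exact Nat.Coprime.pow_left a (((Fact.out : p.Prime).coprime_iff_not_dvd).2 hFp)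
    exact Nat.eq_one_of_dvd_coprimes hcop h1 h2
  rw [Subgroup.relIndex_eq_one] at h3
  have h4 : x ∈ centralizer (F : Set G) := by
    rw [mem_centralizer_iff]
    intro f hf
    have := mem_centralizer_singleton_iff.1 (h3 hf)
    exact this
  have h5 : N ≤ centralizer (F : Set G) := normalClosure_le_normal (by simpa using h4)
  -- so the Fitting subgroup of `N` is central in `N`
  have h6 : centralizer ((fittingSubgroup N : Subgroup N) : Set N) = ⊤ := by
    rw [eq_top_iff]
    intro n _
    rw [mem_centralizer_iff]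
    intro f hf
    apply Subtype.ext
    exact mem_centralizer_iff.1 (h5 n.2) _ ⟨f, hf, rfl⟩
  have h7 : fittingSubgroup N = ⊤ := by
    have := H1.centralizer_fitting_le hsol
    rw [h6, top_le_iff] at this
    exact this
  rw [h7] at h6
  have h8 : (⟨y, hy⟩ : N) ∈ centralizer ((⊤ : Subgroup N) : Set N) := by rw [h6]; trivial
  have h9 := mem_centralizer_iff.1 h8 ⟨z, hz⟩ trivial
  exact (congrArg Subtype.val h9).symm

/-- Let G be a finite group, p a prime and x an element whose conjugacy class has p-power size. Then for any two conjugates y and z of x, the commutator y z y⁻¹ z⁻¹ lies in O_p(G), the largest normal p-subgroup of G. -/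
theorem result {G : Type*} [Group G] [Finite G] (p : ℕ) [Fact p.Prime]
    (x : G) (hx : ∃ a : ℕ, (Subgroup.centralizer ({x} : Set G)).index = p ^ a) (g h : G) :
    (g * x * g⁻¹) * (h * x * h⁻¹) * (g * x * g⁻¹)⁻¹ * (h * x * h⁻¹)⁻¹ ∈ Cfsg.pCore p G := by
  obtain ⟨a, ha⟩ := hx
  have hd := H24.index_centralizer_quotient_dvd (pCore p G) x
  rw [ha] at hd
  obtain ⟨b, -, hb⟩ := (Nat.dvd_prime_pow Fact.out).1 hd
  have key := comm_of_core_trivial p (H1.pCore_quotient_eq_bot p) (x : G ⧸ pCore p G) ⟨b, hb⟩
    ((g * x * g⁻¹ : G) : G ⧸ pCore p G) ((h * x * h⁻¹ : G) : G ⧸ pCore p G)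
    (by
      have := (inferInstance : (normalClosure ({(x : G ⧸ pCore p G)} :
        Set (G ⧸ pCore p G))).Normal).conj_mem (x : G ⧸ pCore p G)
        (subset_normalClosure (Set.mem_singleton _)) (g : G ⧸ pCore p G)
      exact this)
    (by
      have := (inferInstance : (normalClosure ({(x : G ⧸ pCore p G)} :
        Set (G ⧸ pCore p G))).Normal).conj_mem (x : G ⧸ pCore p G)
        (subset_normalClosure (Set.mem_singleton _)) (h : G ⧸ pCore p G)
      exact this)
  rw [← QuotientGroup.eq_one_iff]
  have h2 : (((g * x * g⁻¹) * (h * x * h⁻¹) * (g * x * g⁻¹)⁻¹ * (h * x * h⁻¹)⁻¹ : G) :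
      G ⧸ pCore p G) = ((g * x * g⁻¹ : G) : G ⧸ pCore p G) * ((h * x * h⁻¹ : G) : G ⧸ pCore p G) *
      ((g * x * g⁻¹ : G) : G ⧸ pCore p G)⁻¹ * ((h * x * h⁻¹ : G) : G ⧸ pCore p G)⁻¹ := rfl
  rw [h2, key]
  group

end Cfsg.Agent.S4364
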