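import Cfsg.Statements.S4365
import Mathlib
import Cfsg.Agent.H25.CommPairs

set_option autoImplicit false
open Cfsg

namespace Cfsg.Agent.S4365

open Subgroup

/-! ### An identity for two commuting endomorphisms of order dividing `p` -/

section ring

variable {R : Type*} [Ring R] {p : ℕ} [hp : Fact p.Prime]

theorem sum_zmod_pow (S : R) (i : ZMod p) (hi : i ≠ 0) :
    ∑ j : ZMod p, S ^ (i * j).val = ∑ j : ZMod p, S ^ j.val :=
  Equiv.sum_comp (Equiv.mulLeft₀ i hi) (fun j : ZMod p => S ^ j.val)

theorem pow_val_mul (S : R) (hS : S ^ p = 1) (i j : ZMod p) :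
    S ^ (i * j).val = (S ^ i.val) ^ j.val := by
  rw [ZMod.val_mul, ← pow_mul]
  conv_rhs => rw [← Nat.mod_add_div (i.val * j.val) p, pow_add, pow_mul, hS, one_pow, mul_one]

theorem norm_identity (S T : R) (hS : S ^ p = 1) (hST : Commute S T) :
    (p : R) = (∑ j : ZMod p, S ^ j.val) + (∑ j : ZMod p, ∑ i : ZMod p, (S ^ j.val * T) ^ i.val)
      - (∑ i : ZMod p, T ^ i.val) * (∑ j : ZMod p, S ^ j.val) := by
  have h1 : (∑ j : ZMod p, ∑ i : ZMod p, (S ^ j.val * T) ^ i.val) =
      ∑ i : ZMod p, T ^ i.val * ∑ j : ZMod p, S ^ (i * j).val := by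
    rw [Finset.sum_comm]
    refine Finset.sum_congr rfl fun i _ => ?_
    rw [Finset.mul_sum]
    refine Finset.sum_congr rfl fun j _ => ?_
    rw [(hST.pow_left j.val).mul_pow, mul_comm i j, pow_val_mul S hS]
    exact ((hST.pow_left j.val).pow_pow _ _).eq
  have h2 : (∑ i : ZMod p, T ^ i.val * ∑ j : ZMod p, S ^ (i * j).val) =
      (p : R) + ∑ i ∈ (Finset.univ : Finset (ZMod p)).erase 0,
        T ^ i.val * ∑ j : ZMod p, S ^ j.val := by
    rw [← Finset.add_sum_erase _ _ (Finset.mem_univ (0 : ZMod p))]
    congr 1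
    · simp [ZMod.card]
    · refine Finset.sum_congr rfl fun i hi => ?_
      rw [sum_zmod_pow S i (Finset.ne_of_mem_erase hi)]
  have h3 : (∑ i : ZMod p, T ^ i.val) * (∑ j : ZMod p, S ^ j.val) =
      (∑ j : ZMod p, S ^ j.val) + ∑ i ∈ (Finset.univ : Finset (ZMod p)).erase 0,
        T ^ i.val * ∑ j : ZMod p, S ^ j.val := by
    rw [← Finset.add_sum_erase _ _ (Finset.mem_univ (0 : ZMod p)), add_mul, Finset.sum_mul]
    simp
  rw [h1, h2, h3]; abel

end ring

section main

variable {P : Type*} [Group P] [Finite P] {p : ℕ} [hp : Fact p.Prime]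

omit [Finite P] in
theorem cent_mul_central (u z : P) (hz : z ∈ center P) :
    centralizer ({u * z} : Set P) = centralizer ({u} : Set P) := by
  ext g
  rw [mem_centralizer_singleton_iff, mem_centralizer_singleton_iff]
  have h1 := mem_center_iff.1 hz g
  constructor
  · intro h
    have : g * u * z = u * g * z := by
      calc g * u * z = g * (u * z) := by group
        _ = (u * z) * g := h.symm ▸ rfl
        _ = u * (z * g) := by group
        _ = u * (g * z) := by rw [h1]
        _ = u * g * z := by group
    exact mul_right_cancel this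
  · intro h
    calc g * (u * z) = (g * u) * z := by group
      _ = (u * g) * z := by rw [h]
      _ = u * (g * z) := by group
      _ = u * (z * g) := by rw [h1]
      _ = (u * z) * g := by group

omit [Finite P] in
theorem cent_eq {a : ℕ}
    (hcs : {k : ℕ | ∃ x : P, (Subgroup.centralizer ({x} : Set P)).index = k} = {1, p ^ a})
    {u v : P} (hu : u ∉ center P) (hv : v ∉ center P)
    (hle : centralizer ({u} : Set P) ≤ centralizer ({v} : Set P)) :
    centralizer ({u} : Set P) = centralizer ({v} : Set P) := by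
  have key : ∀ w : P, w ∉ center P → (centralizer ({w} : Set P)).index = p ^ a := by
    intro w hw
    have h1 : (centralizer ({w} : Set P)).index ∈ ({1, p ^ a} : Set ℕ) := by
      rw [← hcs]; exact ⟨w, rfl⟩
    rcases h1 with h1 | h1
    · exfalso
      apply hw
      rw [Subgroup.index_eq_one] at h1
      rw [mem_center_iff]
      intro g
      have : g ∈ centralizer ({w} : Set P) := by rw [h1]; trivial
      exact mem_centralizer_singleton_iff.1 this
    · exact h1
  apply le_antisymm hle
  have h2 := Subgroup.relIndex_mul_index hle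
  rw [key u hu, key v hv] at h2
  have h3 : (centralizer ({u} : Set P)).relIndex (centralizer ({v} : Set P)) = 1 := by
    have hpos : 0 < p ^ a := pow_pos hp.out.pos a
    exact Nat.eq_of_mul_eq_mul_right hpos (by rw [h2, one_mul])
  exact Subgroup.relIndex_eq_one.1 h3

omit [Finite P] in
theorem cent_le_pow (u : P) (k : ℕ) :
    centralizer ({u} : Set P) ≤ centralizer ({u ^ k} : Set P) := by
  intro g hg
  rw [mem_centralizer_singleton_iff] at hg ⊢
  exact (Commute.pow_right (show Commute g u from hg) k).eq

theorem cent_pow {a : ℕ}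
    (hcs : {k : ℕ | ∃ x : P, (Subgroup.centralizer ({x} : Set P)).index = k} = {1, p ^ a})
    {u : P} {k : ℕ} (hu : u ^ k ∉ center P) :
    centralizer ({u} : Set P) = centralizer ({u ^ k} : Set P) :=
  cent_eq hcs (fun h => hu (pow_mem h k)) hu (cent_le_pow u k)

theorem claimA1 {a : ℕ}
    (hcs : {k : ℕ | ∃ x : P, (Subgroup.centralizer ({x} : Set P)).index = k} = {1, p ^ a})
    {x y : P} (hx : x ^ p ∉ center P) (hy : y ∉ center P) (hyp : y ^ p ∈ center P)
    (hxy : Commute (x : P ⧸ center P) (y : P ⧸ center P)) :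
    centralizer ({y} : Set P) = centralizer ({x} : Set P) := by
  have h1 : ((x * y) ^ p : P) = x ^ p * ((x ^ p)⁻¹ * (x * y) ^ p) := by group
  have h2 : (x ^ p)⁻¹ * (x * y) ^ p ∈ center P := by
    rw [← QuotientGroup.eq]
    have h3 := hxy.mul_pow p
    have h4 : ((y ^ p : P) : P ⧸ center P) = 1 := (QuotientGroup.eq_one_iff _).2 hyp
    have h5 : (((x * y) ^ p : P) : P ⧸ center P) = (x : P ⧸ center P) ^ p * (y : P ⧸ center P) ^ p := by
      rw [← h3]; rfl
    rw [h5]
    have h6 : (y : P ⧸ center P) ^ p = 1 := h4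
    rw [h6, mul_one]; rfl
  have h3 : centralizer ({(x * y) ^ p} : Set P) = centralizer ({x ^ p} : Set P) := by
    rw [h1]; exact cent_mul_central _ _ h2
  have h4 : (x * y) ^ p ∉ center P := by
    intro h
    apply hx
    have := mul_mem h (inv_mem h2)
    have h5 : (x * y) ^ p * ((x ^ p)⁻¹ * (x * y) ^ p)⁻¹ = x ^ p := by group
    rwa [h5] at this
  have h5 : centralizer ({x * y} : Set P) = centralizer ({x} : Set P) := by
    rw [cent_pow hcs h4, h3, ← cent_pow hcs hx]
  have hxn : x ∉ center P := fun h => hx (pow_mem h p)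
  symm
  apply cent_eq hcs hxn hy
  intro c hc
  have h6 : c ∈ centralizer ({x * y} : Set P) := by rw [h5]; exact hc
  rw [mem_centralizer_singleton_iff] at hc h6 ⊢
  have : x * (c * y) = x * (y * c) := by
    calc x * (c * y) = (x * c) * y := by group
      _ = (c * x) * y := by rw [hc]
      _ = c * (x * y) := by group
      _ = (x * y) * c := h6
      _ = x * (y * c) := by group
  exact mul_left_cancel this

theorem claimA {a : ℕ} (hP : IsPGroup p P)
    (hcs : {k : ℕ | ∃ x : P, (Subgroup.centralizer ({x} : Set P)).index = k} = {1, p ^ a})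
    {x y : P} (hx : x ^ p ∉ center P) (hy : y ∉ center P)
    (hxy : Commute (x : P ⧸ center P) (y : P ⧸ center P)) :
    centralizer ({y} : Set P) = centralizer ({x} : Set P) := by
  classical
  have hex : ∃ k : ℕ, y ^ p ^ k ∈ center P := by
    obtain ⟨k, hk⟩ := hP y
    exact ⟨k, by rw [hk]; exact one_mem _⟩
  obtain ⟨k, hk⟩ : ∃ k, Nat.find hex = k := ⟨_, rfl⟩
  have h1 := Nat.find_spec hex
  rw [hk] at h1
  cases k with
  | zero => rw [pow_zero, pow_one] at h1; exact absurd h1 hy
  | succ k =>
    have h2 : y ^ p ^ k ∉ center P := Nat.find_min hex (by omega)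
    have h3 : (y ^ p ^ k) ^ p ∈ center P := by rw [← pow_mul, ← pow_succ]; exact h1
    have h4 : Commute (x : P ⧸ center P) ((y ^ p ^ k : P) : P ⧸ center P) :=
      hxy.pow_right _
    rw [cent_pow hcs h2]
    exact claimA1 hcs hx h2 h3 h4

theorem sum_zmod_eq_range {M : Type*} [AddCommMonoid M] (F : ℕ → M) :
    ∑ i : ZMod p, F i.val = ∑ i ∈ Finset.range p, F i := by
  refine Finset.sum_nbij' (fun i : ZMod p => i.val) (fun n => (n : ZMod p)) ?_ ?_ ?_ ?_ ?_
  · intro i _; exact Finset.mem_range.2 (ZMod.val_lt i)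
  · intro n _; exact Finset.mem_univ _
  · intro i _; exact ZMod.natCast_zmod_val i
  · intro n hn; exact ZMod.val_cast_of_lt (Finset.mem_range.1 hn)
  · intro i _; rfl

end main

theorem sum_end_apply {M ι : Type*} [AddCommGroup M] (s : Finset ι) (f : ι → AddMonoid.End M)
    (m : M) : (∑ i ∈ s, f i) m = ∑ i ∈ s, f i m := by
  classical
  induction s using Finset.induction_on with
  | empty => simp
  | insert a s ha ih =>
    rw [Finset.sum_insert ha, Finset.sum_insert ha, ← ih]; rfl

section act

variable {P : Type*} [Group P] (A : Subgroup P) [A.Normal]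

/-- the commutative group structure on a commutative subgroup. -/
abbrev cg (A : Subgroup P) [hA : IsMulCommutative A] : CommGroup A :=
  { (inferInstance : Group A) with mul_comm := hA.is_comm.comm }

variable [IsMulCommutative A]

attribute [local instance] cg

/-- conjugation as an endomorphism of the additive group of `A`. -/
noncomputable def E (u : P) : AddMonoid.End (Additive A) :=
  MonoidHom.toAdditive (MulAut.conjNormal u : MulAut A).toMonoidHom

theorem E_apply (u : P) (a : Additive A) :
    ((E A u a).toMul : P) = u * (a.toMul : P) * u⁻¹ := by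
  show (((MulAut.conjNormal u : MulAut A) a.toMul : A) : P) = _
  rw [MulAut.conjNormal_apply]

theorem add_ext {a b : Additive A} (h : (a.toMul : P) = (b.toMul : P)) : a = b :=
  Additive.toMul.injective (Subtype.ext h)

theorem E_mul (u v : P) : E A (u * v) = E A u * E A v := by
  refine AddMonoidHom.ext fun a => add_ext A ?_
  show ((E A (u * v) a).toMul : P) = ((E A u (E A v a)).toMul : P)
  rw [E_apply, E_apply, E_apply]; group

theorem E_of_mem {u : P} (hu : ∀ a ∈ A, u * a = a * u) : E A u = 1 := by
  refine AddMonoidHom.ext fun a => add_ext A ?_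
  show ((E A u a).toMul : P) = (a.toMul : P)
  rw [E_apply, hu _ (a.toMul).2]; simp

theorem E_one : E A 1 = 1 := E_of_mem A (by simp)

theorem E_pow (u : P) (n : ℕ) : E A (u ^ n) = E A u ^ n := by
  induction n with
  | zero => rw [pow_zero, pow_zero, E_one]
  | succ n ih => rw [pow_succ, E_mul, ih, pow_succ]

theorem norm_apply (x : A) (u : P) (n : ℕ) :
    (((∑ i ∈ Finset.range n, (E A u ^ i) (Additive.ofMul x)).toMul : A) : P) * u ^ n =
      ((x : P) * u) ^ n := by
  induction n with
  | zero => simp
  | succ n ih =>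
    rw [Finset.sum_range_succ, toMul_add, Subgroup.coe_mul, pow_succ ((x : P) * u), ← ih,
      ← E_pow, E_apply, pow_succ]
    simp only [toMul_ofMul]
    group

variable [Finite P] {p : ℕ} [hp : Fact p.Prime]

/-- The central elements of `A`. -/
def ZA : AddSubgroup (Additive A) where
  carrier := {a | (a.toMul : P) ∈ center P}
  zero_mem' := by simp
  add_mem' := by
    intro a b ha hb
    show ((a + b).toMul : P) ∈ center P
    rw [toMul_add]; exact mul_mem ha hb
  neg_mem' := by
    intro a ha
    show ((-a).toMul : P) ∈ center P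
    rw [toMul_neg]; exact inv_mem ha

theorem key {x : A} {g h : P} (hZ : ∀ u : P, u ∉ A → u ^ p ∈ center P) (hx : (x : P) ∈ A)
    (hg : g ∉ A) (hgh : ∀ j : ℕ, g ^ j * h ∉ A) (hcomm : E A (g * h) = E A (h * g)) :
    (x : P) ^ p ∈ center P := by
  have hZx : ∀ u : P, u ∉ A → ∑ i : ZMod p, (E A u ^ i.val) (Additive.ofMul x) ∈ ZA A := by
    intro u hu
    rw [sum_zmod_eq_range (fun i => (E A u ^ i) (Additive.ofMul x))]
    have h1 := norm_apply A x u p
    have h2 : (x : P) * u ∉ A := fun h => hu ((Subgroup.mul_mem_cancel_left A hx).1 h)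
    show ((_ : A) : P) ∈ center P
    have h3 := mul_mem (hZ _ h2) (inv_mem (hZ u hu))
    rw [← h1, mul_inv_cancel_right] at h3
    exact h3
  have hS : E A g ^ p = 1 := by
    rw [← E_pow]
    exact E_of_mem A fun a _ => (mem_center_iff.1 (hZ g hg) a).symm
  have hST : Commute (E A g) (E A h) := by
    show E A g * E A h = E A h * E A g
    rw [← E_mul, ← E_mul, hcomm]
  have hid := norm_identity (p := p) (E A g) (E A h) hS hST
  have h1 := congrArg (fun f : AddMonoid.End (Additive A) => f (Additive.ofMul x)) hid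
  have h2 : ((p : AddMonoid.End (Additive A)) (Additive.ofMul x)) = p • Additive.ofMul x := by
    simp
  replace h1 := h2.symm.trans h1
  have h3 : p • Additive.ofMul x ∈ ZA A := by
    rw [h1]
    have e1 : ((∑ j : ZMod p, E A g ^ j.val : AddMonoid.End (Additive A))) (Additive.ofMul x)
        ∈ ZA A := by
      rw [sum_end_apply]
      exact hZx g hg
    have e2 : ((∑ j : ZMod p, ∑ i : ZMod p, (E A g ^ j.val * E A h) ^ i.val :
        AddMonoid.End (Additive A))) (Additive.ofMul x) ∈ ZA A := by
      have e3 : ((∑ j : ZMod p, ∑ i : ZMod p, (E A g ^ j.val * E A h) ^ i.val :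
        AddMonoid.End (Additive A))) (Additive.ofMul x) =
        ∑ j : ZMod p, ∑ i : ZMod p, (E A (g ^ j.val * h) ^ i.val) (Additive.ofMul x) := by
        simp only [E_mul, E_pow, sum_end_apply]
      rw [e3]
      exact sum_mem fun j _ => hZx _ (hgh _)
    have e4 : ((∑ i : ZMod p, E A h ^ i.val) * (∑ j : ZMod p, E A g ^ j.val) :
        AddMonoid.End (Additive A)) (Additive.ofMul x) ∈ ZA A := by
      show ((∑ i : ZMod p, E A h ^ i.val : AddMonoid.End (Additive A)))
        ((∑ j : ZMod p, E A g ^ j.val : AddMonoid.End (Additive A)) (Additive.ofMul x)) ∈ ZA A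
      set w := (∑ j : ZMod p, E A g ^ j.val : AddMonoid.End (Additive A)) (Additive.ofMul x)
        with hw
      have e5 : (∑ i : ZMod p, E A h ^ i.val : AddMonoid.End (Additive A)) w =
          ∑ i : ZMod p, (E A (h ^ i.val)) w := by
        simp only [E_pow, sum_end_apply]
      rw [e5]
      refine sum_mem fun i _ => ?_
      show ((E A (h ^ i.val) w).toMul : P) ∈ center P
      rw [E_apply]
      exact (inferInstance : (center P).Normal).conj_mem _ e1 _
    exact AddSubgroup.sub_mem _ (AddSubgroup.add_mem _ e1 e2) e4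
  exact h3

end act

/-- Let P be a finite p-group whose conjugacy class sizes are exactly 1 and pᵃ for some a ≥ 1. Then every element of P has its p-th power in the center of P (P/Z(P) has exponent p). -/
theorem result {P : Type*} [Group P] [Finite P] (p : ℕ) [Fact p.Prime]
    (hP : IsPGroup p P) (a : ℕ) (ha : 1 ≤ a)
    (hcs : {k : ℕ | ∃ x : P, (Subgroup.centralizer ({x} : Set P)).index = k} = {1, p ^ a}) (x : P) :
    x ^ p ∈ Subgroup.center P := by
  by_contra hx
  have hxn : x ∉ center P := fun h => hx (pow_mem h p)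
  -- an element of the second center
  haveI : Nontrivial (P ⧸ center P) := by
    refine ⟨(x : P ⧸ center P), 1, ?_⟩
    rw [Ne, QuotientGroup.eq_one_iff]; exact hxn
  haveI := (hP.to_quotient (center P)).center_nontrivial
  obtain ⟨⟨q, hq⟩, hq1⟩ := exists_ne (1 : center (P ⧸ center P))
  obtain ⟨y, rfl⟩ := QuotientGroup.mk_surjective q
  have hyn : y ∉ center P := by
    intro h
    apply hq1
    apply Subtype.ext
    exact (QuotientGroup.eq_one_iff y).2 h
  have hyc : ∀ g : P, Commute (g : P ⧸ center P) (y : P ⧸ center P) := fun g =>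
    mem_center_iff.1 hq (g : P ⧸ center P)
  set A := centralizer ({y} : Set P) with hA
  have hAx : ∀ w : P, w ^ p ∉ center P → centralizer ({w} : Set P) = A := fun w hw =>
    (claimA hP hcs hw hyn (hyc w)).symm
  have hself : ∀ w : P, w ∈ centralizer ({w} : Set P) := fun w =>
    mem_centralizer_singleton_iff.2 rfl
  -- conjugates of `y`
  have hconj : ∀ g : P, ∃ z ∈ center P, g * y * g⁻¹ = y * z := by
    intro g
    refine ⟨y⁻¹ * (g * y * g⁻¹), ?_, by group⟩
    rw [← QuotientGroup.eq]
    have h := (hyc g).eq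
    show (y : P ⧸ center P) = (g : P ⧸ center P) * (y : P ⧸ center P) * (g : P ⧸ center P)⁻¹
    rw [h]; group
  haveI hAn : A.Normal := by
    constructor
    intro c hc g
    obtain ⟨z, hz, hgz⟩ := hconj g⁻¹
    rw [hA, mem_centralizer_singleton_iff] at hc ⊢
    have h1 : c ∈ centralizer ({g⁻¹ * y * g⁻¹⁻¹} : Set P) := by
      rw [hgz, cent_mul_central y z hz, mem_centralizer_singleton_iff]; exact hc
    rw [mem_centralizer_singleton_iff, inv_inv] at h1
    calc g * c * g⁻¹ * y = g * (c * (g⁻¹ * y * g)) * g⁻¹ := by group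
      _ = g * ((g⁻¹ * y * g) * c) * g⁻¹ := by rw [h1]
      _ = y * (g * c * g⁻¹) := by group
  have hxA : x ∈ A := by rw [← hAx x hx]; exact hself x
  -- every noncentral element of `A` has centralizer `A`
  have hAc : ∀ b ∈ A, b ∉ center P → centralizer ({b} : Set P) = A := by
    intro b hb hbn
    rw [← hAx x hx] at hb ⊢
    rw [mem_centralizer_singleton_iff] at hb
    refine claimA hP hcs hx hbn ?_
    show (x : P ⧸ center P) * (b : P ⧸ center P) = (b : P ⧸ center P) * (x : P ⧸ center P)
    rw [← QuotientGroup.mk_mul, ← QuotientGroup.mk_mul, hb]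
  have hAcomm : ∀ b ∈ A, ∀ c ∈ A, b * c = c * b := by
    intro b hb c hc
    by_cases hbn : b ∈ center P
    · exact (mem_center_iff.1 hbn c).symm
    · rw [← hAc b hb hbn, mem_centralizer_singleton_iff] at hc
      exact hc.symm
  haveI : IsMulCommutative A := ⟨⟨fun b c => Subtype.ext (hAcomm _ b.2 _ c.2)⟩⟩
  have hZ : ∀ u : P, u ∉ A → u ^ p ∈ center P := by
    intro u hu
    by_contra h
    exact hu (by rw [← hAx u h]; exact hself u)
  -- `P / A` is commutative
  have hcommA : ∀ g h : P, (h * g)⁻¹ * (g * h) ∈ A := by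
    intro g h
    obtain ⟨z, hz, hgz⟩ := hconj g
    obtain ⟨t, ht, hht⟩ := hconj h
    have e1 : (g * h) * y * (g * h)⁻¹ = y * z * t := by
      calc (g * h) * y * (g * h)⁻¹ = g * (h * y * h⁻¹) * g⁻¹ := by group
        _ = g * (y * t) * g⁻¹ := by rw [hht]
        _ = g * y * (t * g⁻¹) := by group
        _ = g * y * (g⁻¹ * t) := by rw [mem_center_iff.1 ht g⁻¹]
        _ = (g * y * g⁻¹) * t := by group
        _ = y * z * t := by rw [hgz]
    have e2 : (h * g) * y * (h * g)⁻¹ = y * z * t := by
      calc (h * g) * y * (h * g)⁻¹ = h * (g * y * g⁻¹) * h⁻¹ := by group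
        _ = h * (y * z) * h⁻¹ := by rw [hgz]
        _ = h * y * (z * h⁻¹) := by group
        _ = h * y * (h⁻¹ * z) := by rw [mem_center_iff.1 hz h⁻¹]
        _ = (h * y * h⁻¹) * z := by group
        _ = y * t * z := by rw [hht]
        _ = y * (t * z) := by group
        _ = y * (z * t) := by rw [mem_center_iff.1 hz t]
        _ = y * z * t := by group
    rw [hA, mem_centralizer_singleton_iff]
    have e3 : (g * h) * y * (g * h)⁻¹ = (h * g) * y * (h * g)⁻¹ := by rw [e1, e2]
    calc (h * g)⁻¹ * (g * h) * y = (h * g)⁻¹ * ((g * h) * y * (g * h)⁻¹) * (g * h) := by group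
      _ = (h * g)⁻¹ * ((h * g) * y * (h * g)⁻¹) * (g * h) := by rw [e3]
      _ = y * ((h * g)⁻¹ * (g * h)) := by group
  by_cases hcase : ∃ g h : P, g ∉ A ∧ ∀ j : ℕ, g ^ j * h ∉ A
  · obtain ⟨g, h, hg, hgh⟩ := hcase
    refine hx (key (x := ⟨x, hxA⟩) A hZ hxA hg hgh ?_)
    have e1 : g * h = (h * g) * ((h * g)⁻¹ * (g * h)) := by group
    rw [e1, E_mul, E_of_mem A (fun b hb => hAcomm _ (hcommA g h) b hb), mul_one]
  · push Not at hcase
    -- `P = ⟨g⟩ A` for any `g ∉ A`
    have hAtop : ∃ g : P, g ∉ A := by
      by_contra hcon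
      push Not at hcon
      apply hyn
      rw [mem_center_iff]
      intro g
      exact mem_centralizer_singleton_iff.1 (hcon g)
    obtain ⟨g, hg⟩ := hAtop
    have hidx : ∀ w : P, w ∉ center P → (centralizer ({w} : Set P)).index = p ^ a := by
      intro w hw
      have h1 : (centralizer ({w} : Set P)).index ∈ ({1, p ^ a} : Set ℕ) := by
        rw [← hcs]; exact ⟨w, rfl⟩
      rcases h1 with h1 | h1
      · exfalso
        apply hw
        rw [Subgroup.index_eq_one] at h1
        rw [mem_center_iff]
        intro g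
        have : g ∈ centralizer ({w} : Set P) := by rw [h1]; trivial
        exact mem_centralizer_singleton_iff.1 this
      · exact h1
    -- the index of `A` is at most `p`
    have hle : A.index ≤ p := by
      have hsurj : Function.Surjective (fun j : Fin p => ((g ^ (j : ℕ) : P) : P ⧸ A)) := by
        intro q
        obtain ⟨h, rfl⟩ := QuotientGroup.mk_surjective q
        obtain ⟨j, hj⟩ := hcase g h⁻¹ hg
        have hgp : g ^ p ∈ A := by
          have h2 : center P ≤ A := by
            intro z hz
            rw [hA, mem_centralizer_singleton_iff]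
            exact (mem_center_iff.1 hz y).symm
          exact h2 (hZ g hg)
        refine ⟨⟨j % p, Nat.mod_lt _ (Fact.out : p.Prime).pos⟩, ?_⟩
        simp only
        have e1 : ((g ^ j : P) : P ⧸ A) = (h : P ⧸ A) := by
          have h3 : ((g ^ j * h⁻¹ : P) : P ⧸ A) = 1 := (QuotientGroup.eq_one_iff _).2 hj
          rw [QuotientGroup.mk_mul, QuotientGroup.mk_inv, mul_inv_eq_one] at h3
          exact h3
        rw [← e1]
        conv_rhs => rw [← Nat.mod_add_div j p, pow_add, pow_mul]
        rw [QuotientGroup.mk_mul, QuotientGroup.mk_pow (N := A) (g ^ p)]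
        have h4 : ((g ^ p : P) : P ⧸ A) = 1 := (QuotientGroup.eq_one_iff _).2 hgp
        rw [h4, one_pow, mul_one]
      have := Nat.card_le_card_of_surjective _ hsurj
      rw [Nat.card_fin] at this
      rw [Subgroup.index_eq_card]; exact this
    have hgn : g ∉ center P := fun h => hg (by
      rw [hA, mem_centralizer_singleton_iff]; exact (mem_center_iff.1 h y).symm)
    have h1 : (centralizer ({g} : Set P)).relIndex A ≤ p := by
      have e1 : (centralizer ({g} : Set P)).relIndex A ≤ (centralizer ({g} : Set P)).index :=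
        Cfsg.Agent.H25.relIndex_le_index _ _
      rw [hidx g hgn] at e1
      rw [← hidx y hyn] at e1
      exact e1.trans hle
    have h2 : (centralizer ({g} : Set P)).subgroupOf A = (center P).subgroupOf A := by
      ext b
      rw [mem_subgroupOf, mem_subgroupOf]
      constructor
      · intro hb
        by_contra hbn
        apply hg
        rw [← hAc b b.2 hbn, mem_centralizer_singleton_iff]
        rw [mem_centralizer_singleton_iff] at hb
        exact hb.symm
      · intro hb
        rw [mem_centralizer_singleton_iff]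
        exact (mem_center_iff.1 hb g).symm
    rw [relIndex, h2] at h1
    obtain ⟨n, hn⟩ := (hP.to_subgroup A).index ((center P).subgroupOf A)
    have h3 : ((center P).subgroupOf A).index ∣ p := by
      rw [hn] at h1 ⊢
      have : n ≤ 1 := by
        by_contra hcon
        have : p ^ 2 ≤ p ^ n := Nat.pow_le_pow_right (Fact.out : p.Prime).pos (by omega)
        have h2p := (Fact.out : p.Prime).two_le
        nlinarith
      calc p ^ n ∣ p ^ 1 := pow_dvd_pow p this
        _ = p := pow_one p
    obtain ⟨m, hm⟩ := h3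
    have h4 := Subgroup.pow_index_mem ((center P).subgroupOf A) (⟨x, hxA⟩ : A)
    apply hx
    have h5 := pow_mem h4 m
    rw [← pow_mul, ← hm, mem_subgroupOf] at h5
    exact h5

end Cfsg.Agent.S4365
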