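import Cfsg.Statements.S4370
import Cfsg.Agent.H25.QuatCent
import Cfsg.Agent.H2.Hall
import Cfsg.Agent.H2.Cyc
import Cfsg.Agent.H23.Nilp
import Cfsg.Agent.H23.RankOne
import Cfsg.Agent.H25.Primary

set_option autoImplicit false
open Cfsg

namespace Cfsg.Agent.S4370

open Subgroup

/-- internal direct products -/
theorem prodEquiv {G : Type*} [Group G] (A B : Subgroup G) [A.Normal] [B.Normal] (h1 : A ⊓ B = ⊥)
    (h2 : A ⊔ B = ⊤) : Nonempty (A × B ≃* G) := by
  have hc : ∀ (a : A) (b : B), Commute (A.subtype a) (B.subtype b) := fun a b =>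
    commute_of_normal_of_disjoint A B inferInstance inferInstance (disjoint_iff.2 h1) _ _ a.2 b.2
  refine ⟨MulEquiv.ofBijective (MonoidHom.noncommCoprod A.subtype B.subtype hc) ⟨?_, ?_⟩⟩
  · rw [injective_iff_map_eq_one]
    rintro ⟨a, b⟩ h
    have h3 : (a : G) * (b : G) = 1 := h
    have h4 : (a : G) = (b : G)⁻¹ := eq_inv_of_mul_eq_one_left h3
    have h5 : (a : G) ∈ A ⊓ B := ⟨a.2, by rw [h4]; exact B.inv_mem b.2⟩
    rw [h1, mem_bot] at h5
    rw [h5, one_mul] at h3
    exact Prod.ext (Subtype.ext h5) (Subtype.ext h3)
  · intro g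
    have hg : g ∈ A ⊔ B := by rw [h2]; trivial
    rw [mem_sup_of_normal_right] at hg
    obtain ⟨a, ha, b, hb, rfl⟩ := hg
    exact ⟨(⟨a, ha⟩, ⟨b, hb⟩), rfl⟩

theorem zpow_mem_of_isCyclic {G : Type*} [Group G] [Finite G] {H : Subgroup G} (hH : IsCyclic H) {x y : G}
    (hx : x ∈ H) (hy : y ∈ H) (h : orderOf x = orderOf y) : y ∈ zpowers x := by
  have h1 := H2.zpowers_eq_of_orderOf_eq (G := H) (x := ⟨x, hx⟩) (y := ⟨y, hy⟩)
    (by rw [← Subgroup.orderOf_coe, ← Subgroup.orderOf_coe]; exact h)
  have h2 : (⟨y, hy⟩ : H) ∈ zpowers (⟨x, hx⟩ : H) := by rw [h1]; exact mem_zpowers _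
  obtain ⟨k, hk⟩ := h2
  exact ⟨k, congrArg Subtype.val hk⟩

/-- Let G be a finite non-abelian nilpotent group. Then the centralizer of every non-central element of G is cyclic if and only if G is isomorphic to the direct product of a generalized quaternion group and a cyclic group of odd order. -/
theorem result {G : Type*} [Group G] [Finite G] (hG : Group.IsNilpotent G)
    (hna : ¬ IsMulCommutative G) :
    (∀ x : G, x ∉ Subgroup.center G → IsCyclic (Subgroup.centralizer ({x} : Set G))) ↔
      ∃ (k m : ℕ), 1 ≤ k ∧ Odd m ∧ Nonempty (G ≃* QuaternionGroup (2 ^ k) × Multiplicative (ZMod m)) := by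
  have hex : ∃ g : G, g ∉ center G := by
    by_contra h
    push Not at h
    exact hna ⟨⟨fun a b => (mem_center_iff.1 (h b) a)⟩⟩
  constructor
  · intro h
    -- unique subgroups of prime order
    have hZ : IsCyclic (center G) := by
      obtain ⟨g, hg⟩ := hex
      haveI := h g hg
      haveI : IsCyclic ((center G).subgroupOf (centralizer ({g} : Set G))) := inferInstance
      have hle : center G ≤ centralizer ({g} : Set G) := center_le_centralizer _
      exact isCyclic_of_surjective _ (subgroupOfEquivOfLe hle).surjective
    have hcen : ∀ (p : ℕ) [Fact p.Prime] (P : Sylow p G) (x : P), x ∈ center P → (x : G) ∈ center G := by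
      intro p _ P x hx
      rw [mem_center_iff]
      intro g
      have h1 : (⊤ : Subgroup G) ≤ centralizer ({(x : G)} : Set G) := by
        apply H25.le_of_primary
        intro z _ q k hq hzo
        haveI := Fact.mk hq
        rw [mem_centralizer_singleton_iff]
        have hzq : IsPGroup q (zpowers z) := IsPGroup.of_card (n := k) (by rw [Nat.card_zpowers, hzo])
        by_cases hqp : q = p
        · subst hqp
          have hPn : (P : Subgroup G).Normal := H1.isNilpotent_iff_sylow_normal.mp hG q inferInstance P
          obtain ⟨Q, hQ⟩ := hzq.exists_le_sylow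
          have hQP : Q = P := by
            obtain ⟨g, rfl⟩ := MulAction.exists_smul_eq G P Q
            exact Sylow.smul_eq_of_normal
          have hzP : z ∈ (P : Subgroup G) := hQP ▸ hQ (mem_zpowers z)
          exact congrArg Subtype.val (mem_center_iff.1 hx ⟨z, hzP⟩)
        · exact (H23.commute_of_isNilpotent hG hqp hzq (P.isPGroup'.to_le (zpowers_le.2 x.2)))
      exact (mem_centralizer_singleton_iff.1 (h1 (mem_top g)))
    have huniq : ∀ (p : ℕ) [Fact p.Prime] (x y : G), orderOf x = p → orderOf y = p → y ∈ zpowers x := by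
      intro p hp x y hx hy
      have hxp : IsPGroup p (zpowers x) := IsPGroup.of_card (n := 1) (by rw [Nat.card_zpowers, hx, pow_one])
      obtain ⟨P, hP⟩ := hxp.exists_le_sylow
      haveI : Nontrivial P := by
        refine ⟨⟨⟨x, hP (mem_zpowers x)⟩, 1, ?_⟩⟩
        intro h1
        have : x = 1 := congrArg Subtype.val h1
        rw [this, orderOf_one] at hx
        exact hp.out.one_lt.ne hx
      haveI : Nontrivial (center P) := P.isPGroup'.center_nontrivial
      have hdvd : p ∣ Nat.card (center P) := by
        have hc : IsPGroup p (center P) := P.isPGroup'.to_subgroup _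
        obtain ⟨n, hn⟩ := hc.nontrivial_iff_card.1 inferInstance
        rw [hn.2]
        exact dvd_pow_self p hn.1.ne'
      obtain ⟨z, hz⟩ := exists_prime_orderOf_dvd_card' p hdvd
      have hzc : ((z : P) : G) ∈ center G := hcen p P z z.2
      have hzo : orderOf ((z : P) : G) = p := by
        rw [Subgroup.orderOf_coe, Subgroup.orderOf_coe, hz]
      have hall : ∀ w : G, orderOf w = p → w ∈ zpowers ((z : P) : G) := by
        intro w hw
        by_cases hwc : w ∈ center G
        · exact zpow_mem_of_isCyclic hZ hzc hwc (by rw [hzo, hw])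
        · exact zpow_mem_of_isCyclic (h w hwc) (center_le_centralizer _ hzc)
            (mem_centralizer_singleton_iff.2 rfl) (by rw [hzo, hw])
      have hc : IsCyclic (zpowers ((z : P) : G)) := inferInstance
      exact zpow_mem_of_isCyclic hc (hall x hx) (hall y hy) (by rw [hx, hy])
    have hsyl : ∀ (p : ℕ) [Fact p.Prime] (P : Sylow p G),
        IsCyclic P ∨ (p = 2 ∧ ∃ n, 1 ≤ n ∧ Nonempty (P ≃* QuaternionGroup (2 ^ n))) := by
      intro p _ P
      apply H23.cyclic_or_quaternion P.isPGroup'
      intro x y hx hy
      have := huniq p (x : G) (y : G) (by rw [Subgroup.orderOf_coe]; exact hx)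
        (by rw [Subgroup.orderOf_coe]; exact hy)
      obtain ⟨k, hk⟩ := this
      exact ⟨k, Subtype.ext hk⟩
    haveI : Fact (Nat.Prime 2) := ⟨Nat.prime_two⟩
    obtain ⟨P, C, hC, hcompl⟩ := H2.HasNormalPComplement.of_isNilpotent (p := 2) hG
    have hPn : (P : Subgroup G).Normal := H1.isNilpotent_iff_sylow_normal.mp hG 2 inferInstance P
    obtain ⟨e⟩ := prodEquiv (P : Subgroup G) C (by rw [inf_comm]; exact hcompl.disjoint.eq_bot)
      (by rw [sup_comm]; exact hcompl.sup_eq_top)
    have hCodd : ¬ 2 ∣ Nat.card C := by rw [← hcompl.index_eq_card]; exact P.not_dvd_index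
    have hZC : IsZGroup C := by
      refine ⟨?_⟩
      intro p hp Q
      haveI := Fact.mk hp
      obtain ⟨R, hR⟩ := (Q.isPGroup'.map C.subtype).exists_le_sylow
      rcases hsyl p R with hc | ⟨rfl, -⟩
      · haveI := hc
        haveI : IsCyclic ((((Q : Subgroup C).map C.subtype)).subgroupOf (R : Subgroup G)) := inferInstance
        haveI : IsCyclic ((Q : Subgroup C).map C.subtype) :=
          isCyclic_of_surjective _ (subgroupOfEquivOfLe hR).surjective
        exact isCyclic_of_surjective _
          ((Q : Subgroup C).equivMapOfInjective C.subtype C.subtype_injective).symm.surjective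
      · have : Subsingleton Q := by
          obtain ⟨n, hn⟩ := IsPGroup.iff_card.1 Q.isPGroup'
          rcases Nat.eq_zero_or_pos n with h0 | h0
          · rw [h0, pow_zero] at hn
            exact (Nat.card_eq_one_iff_unique.1 hn).1
          · exfalso
            apply hCodd
            have := (Q : Subgroup C).card_subgroup_dvd_card
            rw [hn] at this
            exact (dvd_pow_self 2 h0.ne').trans this
        infer_instance
    haveI := hG
    haveI : IsCyclic C := inferInstance
    rcases hsyl 2 P with hc | ⟨-, n, hn, ⟨e'⟩⟩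
    · exfalso
      apply hna
      haveI := hc
      letI : CommGroup P := IsCyclic.commGroup
      letI : CommGroup C := IsCyclic.commGroup
      refine ⟨⟨fun a b => ?_⟩⟩
      apply e.symm.injective
      rw [map_mul, map_mul]
      apply Prod.ext
      · exact mul_comm (e.symm a).1 (e.symm b).1
      · exact mul_comm (e.symm a).2 (e.symm b).2
    · refine ⟨n, Nat.card C, hn, Nat.not_even_iff_odd.1 (fun h => hCodd h.two_dvd), ?_⟩
      exact ⟨e.symm.trans (MulEquiv.prodCongr e' (zmodCyclicMulEquiv (G := C) inferInstance).symm)⟩
  · rintro ⟨k, m, hk, hm, ⟨e⟩⟩ x hx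
    haveI : NeZero (2 ^ k) := ⟨by positivity⟩
    haveI : NeZero m := ⟨by rintro rfl; simp at hm⟩
    rcases hec : e x with ⟨q, c⟩
    have hq : q ∉ center (QuaternionGroup (2 ^ k)) := by
      intro hq
      apply hx
      rw [mem_center_iff]
      intro g
      apply e.injective
      rw [map_mul, map_mul, hec]
      apply Prod.ext
      · exact mem_center_iff.1 hq _
      · exact mul_comm _ _
    haveI h1 := H25.quat_centralizer_cyclic q hq
    let f : centralizer ({x} : Set G) →* centralizer ({q} : Set (QuaternionGroup (2 ^ k))) × Multiplicative (ZMod m) :=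
      { toFun := fun y => (⟨(e (y : G)).1, by
            rw [mem_centralizer_singleton_iff]
            have h2 := mem_centralizer_singleton_iff.1 y.2
            have h3 := congrArg e h2
            rw [map_mul, map_mul, hec] at h3
            exact congrArg Prod.fst h3⟩, (e (y : G)).2)
        map_one' := by
          apply Prod.ext
          · apply Subtype.ext
            show (e 1).1 = 1
            rw [map_one]; rfl
          · show (e 1).2 = 1
            rw [map_one]; rfl
        map_mul' := by
          intro y z
          apply Prod.ext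
          · apply Subtype.ext
            show (e ((y : G) * z)).1 = (e y).1 * (e z).1
            rw [map_mul]; rfl
          · show (e ((y : G) * z)).2 = (e y).2 * (e z).2
            rw [map_mul]; rfl }
    have hf : Function.Injective f := by
      intro y z hyz
      apply Subtype.ext
      apply e.injective
      apply Prod.ext
      · exact congrArg (fun w => ((w.1 : centralizer ({q} : Set (QuaternionGroup (2 ^ k)))) : QuaternionGroup (2 ^ k))) hyz
      · exact congrArg (fun w => w.2) hyz
    haveI : IsCyclic (centralizer ({q} : Set (QuaternionGroup (2 ^ k))) × Multiplicative (ZMod m)) := by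
      rw [Group.isCyclic_prod_iff]
      refine ⟨h1, inferInstance, ?_⟩
      have h4 : Nat.card (centralizer ({q} : Set (QuaternionGroup (2 ^ k)))) ∣ 2 ^ (k + 2) := by
        have := (centralizer ({q} : Set (QuaternionGroup (2 ^ k)))).card_subgroup_dvd_card
        rw [Nat.card_eq_fintype_card (α := QuaternionGroup (2 ^ k)), QuaternionGroup.card] at this
        rwa [pow_add, mul_comm (2 ^ k)]
      have h5 : Nat.card (Multiplicative (ZMod m)) = m := by
        rw [Nat.card_congr Multiplicative.toAdd, Nat.card_zmod]
      rw [h5]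
      apply Nat.Coprime.coprime_dvd_left h4
      apply Nat.Coprime.pow_left
      exact hm.coprime_two_left
    exact isCyclic_of_injective f hf

end Cfsg.Agent.S4370
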