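import Cfsg.Statements.S4376
import Cfsg.Agent.H25.OrdType4
import Cfsg.Agent.H25.OrdType5

set_option autoImplicit false
open Cfsg

namespace Cfsg.Agent.S4376

open Cfsg.Agent.H25.OT

theorem solv_prod {X Y : Type} [Group X] [Group Y] (hX : Group.IsSolvable X)
    (hY : Group.IsSolvable Y) : Group.IsSolvable (X × Y) := inferInstance

theorem solv_pi {X : Type} [Group X] (hX : Group.IsSolvable X) (k : ℕ) :
    Group.IsSolvable (Fin k → X) := by
  obtain ⟨n, hn⟩ := (Group.isSolvable_def X).1 hX
  rw [Group.isSolvable_def]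
  refine ⟨n, ?_⟩
  rw [eq_bot_iff]
  intro f hf
  rw [Subgroup.mem_bot]
  funext i
  have h1 := map_derivedSeries_le_derivedSeries (Pi.evalMonoidHom (fun _ : Fin k => X) i) n
  have h2 := h1 (Subgroup.mem_map_of_mem _ hf)
  rw [hn] at h2
  exact h2

theorem solv_comm {X : Type} [CommGroup X] : Group.IsSolvable X := inferInstance

theorem solv_T6 : Group.IsSolvable T6 := by
  haveI : Fact (Nat.Prime 2) := ⟨Nat.prime_two⟩
  have h : IsPGroup 2 T6 := by
    rw [IsPGroup.iff_card]
    exact ⟨6, by rw [Nat.card_congr T6.equivProd]; simp [Nat.card_prod]⟩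
  haveI := h.isNilpotent
  infer_instance

theorem solv_D4 : Group.IsSolvable (DihedralGroup 4) := by
  haveI : Fact (Nat.Prime 2) := ⟨Nat.prime_two⟩
  have h : IsPGroup 2 (DihedralGroup 4) := by
    rw [IsPGroup.iff_card]
    exact ⟨3, by rw [DihedralGroup.nat_card]; norm_num⟩
  haveI := h.isNilpotent
  infer_instance

/-- The solvable group. -/
abbrev GG : Type := Cy 7 × (Fin 3 → G168b) × (Fin 2 → G98) × (Fin 3 → G1344) × (Fin 3 → AGL8) ×
  (Fin 3 → G168c)

/-- The nonsolvable group. -/
abbrev HH : Type := (Fin 3 → P7) × (Fin 3 → Cy 3) × (Fin 4 → F21) × (Fin 3 → D56) ×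
  (Fin 2 → G294) × (Fin 3 → G448) × (Fin 9 → Cy 2)

/-- There are finite groups G and H having the same number of elements of each order (the same order type) with G solvable and H not solvable. -/
theorem result :
    ∃ (G : Type) (_ : Group G) (_ : Finite G) (H : Type) (_ : Group H) (_ : Finite H),
      Group.IsSolvable G ∧ ¬ Group.IsSolvable H ∧ ∀ n : ℕ, Nat.card {g : G // orderOf g = n} = Nat.card {h : H // orderOf h = n} := by
  refine ⟨GG, inferInstance, inferInstance, HH, inferInstance, inferInstance, ?_, ?_, ?_⟩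
  · refine solv_prod solv_comm (solv_prod (solv_pi (Sv.isSolvable (solv_prod solv_comm solv_D4)) 3)
      (solv_prod (solv_pi (Sv.isSolvable (Sv.isSolvable solv_comm)) 2)
      (solv_prod (solv_pi (Sv.isSolvable (solv_prod solv_comm solv_T6)) 3)
      (solv_prod (solv_pi (Sv.isSolvable (Sv.isSolvable solv_comm)) 3)
      (solv_pi (Sv.isSolvable (Sv.isSolvable solv_D4)) 3)))))
  · intro hs
    apply not_isSolvable_P7
    let f : HH →* P7 := (Pi.evalMonoidHom (fun _ : Fin 3 => P7) 0).comp (MonoidHom.fst _ _)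
    have hf : Function.Surjective f := fun q => ⟨(fun _ => q, 1), rfl⟩
    exact Group.isSolvable_of_surjective hf
  · have hG : Tab GG _ := tab_C7.prod ((tab_G168b.pi 3).prod ((tab_G98.pi 2).prod
      ((tab_G1344.pi 3).prod ((tab_AGL8.pi 3).prod (tab_G168c.pi 3)))))
    have hH : Tab HH _ := (tab_P7.pi 3).prod ((tab_C3.pi 3).prod ((tab_F21.pi 4).prod
      ((tab_D56.pi 3).prod ((tab_G294.pi 2).prod ((tab_G448.pi 3).prod (tab_C2.pi 9))))))
    refine card_order_eq_of_tab hG hH ?_
    decide +kernel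

end Cfsg.Agent.S4376
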