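import Cfsg.Statements.S4377

set_option autoImplicit false
open Cfsg

namespace Cfsg.Agent.S4377

theorem sum_eq {G : Type*} [Group G] [Finite G] (n : ℕ) (hn : n ≠ 0) :
    ∑ m ∈ n.divisors, Nat.card {g : G // orderOf g = m} = Nat.card {g : G // g ^ n = 1} := by
  classical
  haveI : Fintype G := Fintype.ofFinite G
  have h2 : Nat.card {g : G // g ^ n = 1} = (Finset.univ.filter (fun g : G => g ^ n = 1)).card := by
    rw [Nat.card_eq_fintype_card, Fintype.card_subtype]
  have h3 : ∀ m, Nat.card {g : G // orderOf g = m} = (Finset.univ.filter (fun g : G => orderOf g = m)).card := by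
    intro m
    rw [Nat.card_eq_fintype_card, Fintype.card_subtype]
  rw [h2]
  simp_rw [h3]
  rw [← Finset.card_biUnion]
  · congr 1
    ext g
    simp only [Finset.mem_biUnion, Nat.mem_divisors, Finset.mem_filter, Finset.mem_univ, true_and]
    constructor
    · rintro ⟨m, ⟨hm, -⟩, hg⟩
      rw [← orderOf_dvd_iff_pow_eq_one, hg]; exact hm
    · intro hg
      exact ⟨orderOf g, ⟨orderOf_dvd_of_pow_eq_one hg, hn⟩, rfl⟩
  · intro a _ b _ hab
    change Disjoint _ _
    rw [Finset.disjoint_left]
    intro g hga hgb
    simp only [Finset.mem_filter, Finset.mem_univ, true_and] at hga hgb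
    exact hab (hga.symm.trans hgb)

theorem zero_case {G H : Type*} [Group G] [Finite G] [Group H] [Finite H]
    (h : ∀ n : ℕ, n ≠ 0 → Nat.card {g : G // g ^ n = 1} = Nat.card {h : H // h ^ n = 1}) :
    Nat.card {g : G // g ^ 0 = 1} = Nat.card {h : H // h ^ 0 = 1} := by
  have h1 := h (Nat.card G * Nat.card H) (mul_ne_zero Nat.card_pos.ne' Nat.card_pos.ne')
  have e1 : ∀ g : G, g ^ (Nat.card G * Nat.card H) = 1 := fun g => by rw [pow_mul, pow_card_eq_one', one_pow]
  have e2 : ∀ g : H, g ^ (Nat.card G * Nat.card H) = 1 := fun g => by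
    rw [mul_comm, pow_mul, pow_card_eq_one', one_pow]
  simpa [e1, e2] using h1

theorem result {G H : Type*} [Group G] [Finite G] [Group H] [Finite H] :
    (∀ n : ℕ, Nat.card {g : G // orderOf g = n} = Nat.card {h : H // orderOf h = n}) ↔
      ∀ n : ℕ, Nat.card {g : G // g ^ n = 1} = Nat.card {h : H // h ^ n = 1} := by
  constructor
  · intro h
    have h1 : ∀ n : ℕ, n ≠ 0 → Nat.card {g : G // g ^ n = 1} = Nat.card {h : H // h ^ n = 1} := by
      intro n hn
      rw [← sum_eq n hn, ← sum_eq n hn]
      exact Finset.sum_congr rfl fun m _ => h m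
    intro n
    by_cases hn : n = 0
    · subst hn; exact zero_case h1
    · exact h1 n hn
  · intro h n
    induction n using Nat.strong_induction_on with
    | _ n ih =>
      by_cases hn : n = 0
      · subst hn
        have e1 : IsEmpty {g : G // orderOf g = 0} := ⟨fun g => (orderOf_pos g.1).ne' g.2⟩
        have e2 : IsEmpty {g : H // orderOf g = 0} := ⟨fun g => (orderOf_pos g.1).ne' g.2⟩
        rw [Nat.card_of_isEmpty, Nat.card_of_isEmpty]
      · have h1 := h n
        rw [← sum_eq n hn, ← sum_eq n hn, ← Nat.insert_self_properDivisors hn,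
          Finset.sum_insert Nat.self_notMem_properDivisors,
          Finset.sum_insert Nat.self_notMem_properDivisors] at h1
        have h2 : ∑ m ∈ n.properDivisors, Nat.card {g : G // orderOf g = m} =
            ∑ m ∈ n.properDivisors, Nat.card {g : H // orderOf g = m} :=
          Finset.sum_congr rfl fun m hm => ih m (Nat.mem_properDivisors.1 hm).2
        omega

end Cfsg.Agent.S4377
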