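import Cfsg.Statements.S4378
import Cfsg.Agent.H25.MaxTower

set_option autoImplicit false
open Cfsg

namespace Cfsg.Agent.S4378

/-- Let G be a finite solvable group in which every maximal subgroup either has a normal 2-complement or has prime index. Then G has a chain of normal subgroups 1 ≤ A ≤ B ≤ C ≤ G in which A and C/B have odd order and B/A and G/C are 2-groups (so the 2-length of G is at most 2). -/
theorem result {G : Type*} [Group G] [Finite G]
    (hG : Group.IsSolvable G)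
    (hmax : ∀ M : Subgroup G, IsCoatom M → (∃ K : Subgroup ↥M, K.Normal ∧ ¬ 2 ∣ Nat.card K ∧ ∃ k : ℕ, K.index = 2 ^ k) ∨ (M.index).Prime) :
    ∃ A B C : Subgroup G, A.Normal ∧ B.Normal ∧ C.Normal ∧ A ≤ B ∧ B ≤ C ∧ Odd (Nat.card A) ∧
      (∃ k : ℕ, A.relIndex B = 2 ^ k) ∧ Odd (B.relIndex C) ∧ ∃ k : ℕ, C.index = 2 ^ k := by
  by_cases hall : ∀ M : Subgroup G, IsCoatom M → M.index.Prime
  · obtain ⟨N, hN, h1, h2⟩ := H25.exists_tower _ rfl hall 3
    refine ⟨N, N, N, hN, hN, hN, le_rfl, le_rfl, ?_, ⟨0, ?_⟩, ?_, ?_⟩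
    · rw [← Nat.not_even_iff_odd, even_iff_two_dvd]
      intro h
      have := h1 2 Nat.prime_two h
      omega
    · rw [Subgroup.relIndex_self, pow_zero]
    · rw [Subgroup.relIndex_self]; exact odd_one
    · refine ⟨_, Nat.eq_prime_pow_of_unique_prime_dvd Subgroup.index_ne_zero_of_finite ?_⟩
      intro d hd hdN
      have h3 := h2 d hd hdN
      have := hd.two_le
      omega
  · push Not at hall
    obtain ⟨M, hM, hMi⟩ := hall
    haveI : Fact (Nat.Prime 2) := ⟨Nat.prime_two⟩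
    obtain ⟨A, B, C, hA, hB, hC, hAB, hBC, h1, h2, h3, h4⟩ :=
      H25.chain_of_coatom 2 (H23.isPSolvable_of_isSolvable hG) M hM ((hmax M hM).resolve_right hMi)
    refine ⟨A, B, C, hA, hB, hC, hAB, hBC, ?_, h2, ?_, h4⟩
    · rw [← Nat.not_even_iff_odd, even_iff_two_dvd]; exact h1
    · rw [← Nat.not_even_iff_odd, even_iff_two_dvd]; exact h3

end Cfsg.Agent.S4378
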