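import Cfsg.Statements.S4379
import Cfsg.Agent.H25.MaxTower
import Cfsg.Agent.H25.ClassGraph

set_option autoImplicit false
open Cfsg

namespace Cfsg.Agent.S4379

/-- Let p be an odd prime and G a finite p-solvable group in which every maximal subgroup either has a normal p-complement or has prime index. Then G has a chain of normal subgroups 1 ≤ A ≤ B ≤ C ≤ D ≤ G in which A, C/B and G/D have order prime to p and B/A and D/C are p-groups (so the p-length of G is at most 2). -/
theorem result {G : Type*} [Group G] [Finite G]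
    (p : ℕ) [Fact p.Prime] (hp : p ≠ 2) (hG : Cfsg.IsPSolvable p G)
    (hmax : ∀ M : Subgroup G, IsCoatom M → (∃ K : Subgroup ↥M, K.Normal ∧ ¬ p ∣ Nat.card K ∧ ∃ k : ℕ, K.index = p ^ k) ∨ (M.index).Prime) :
    ∃ A B C D : Subgroup G, A.Normal ∧ B.Normal ∧ C.Normal ∧ D.Normal ∧ A ≤ B ∧ B ≤ C ∧ C ≤ D ∧ ¬ p ∣ Nat.card A ∧
      (∃ k : ℕ, A.relIndex B = p ^ k) ∧ ¬ p ∣ B.relIndex C ∧ (∃ k : ℕ, C.relIndex D = p ^ k) ∧ ¬ p ∣ D.index := by
  have hpp : p.Prime := Fact.out
  by_cases hall : ∀ M : Subgroup G, IsCoatom M → M.index.Prime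
  · obtain ⟨A, hA, h1, h2⟩ := H25.exists_tower _ rfl hall (p + 1)
    obtain ⟨B, hB, h3, h4⟩ := H25.exists_tower _ rfl hall p
    have hAB : A ≤ B := by
      intro a ha
      have h5 : Nat.Coprime (Nat.card A) B.index := by
        refine Nat.Coprime.symm (Nat.Coprime.symm (Nat.coprime_of_dvd ?_))
        intro r hr h6 h7
        have := h1 r hr h6
        have := h4 r hr h7
        omega
      have h6 : orderOf (a : G ⧸ B) ∣ B.index := by
        rw [Subgroup.index_eq_card]; exact orderOf_dvd_natCard _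
      have h7 : orderOf (a : G ⧸ B) ∣ Nat.card A := by
        have h8 : orderOf (a : G ⧸ B) ∣ orderOf a := orderOf_map_dvd (QuotientGroup.mk' B) a
        have h9 : orderOf (⟨a, ha⟩ : A) ∣ Nat.card A := orderOf_dvd_natCard _
        rw [Subgroup.orderOf_mk] at h9
        exact h8.trans h9
      have h8 := Nat.eq_one_of_dvd_coprimes h5 h7 h6
      rwa [orderOf_eq_one_iff, QuotientGroup.eq_one_iff] at h8
    refine ⟨A, B, ⊤, ⊤, hA, hB, inferInstance, inferInstance, hAB, le_top, le_rfl, ?_, ?_, ?_, ⟨0, ?_⟩, ?_⟩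
    · intro h
      have := h1 p hpp h
      omega
    · refine ⟨_, Nat.eq_prime_pow_of_unique_prime_dvd ?_ ?_⟩
      · exact (H25.relIndex_pos A B).ne'
      · intro d hd hdN
        have h5 := h2 d hd (hdN.trans (Subgroup.relIndex_dvd_index_of_le hAB))
        have h6 := h3 d hd (hdN.trans (Subgroup.relIndex_dvd_card A B))
        omega
    · rw [Subgroup.relIndex_top_right]
      intro h
      have := h4 p hpp h
      omega
    · rw [Subgroup.relIndex_self, pow_zero]
    · rw [Subgroup.index_top]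
      exact fun h => hpp.one_lt.ne' (Nat.dvd_one.1 h)
  · push Not at hall
    obtain ⟨M, hM, hMi⟩ := hall
    obtain ⟨A, B, C, hA, hB, hC, hAB, hBC, h1, h2, h3, h4⟩ :=
      H25.chain_of_coatom p hG M hM ((hmax M hM).resolve_right hMi)
    refine ⟨A, B, C, ⊤, hA, hB, hC, inferInstance, hAB, hBC, le_top, h1, h2, h3, ?_, ?_⟩
    · rw [Subgroup.relIndex_top_right]; exact h4
    · rw [Subgroup.index_top]
      exact fun h => hpp.one_lt.ne' (Nat.dvd_one.1 h)

end Cfsg.Agent.S4379
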