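import Cfsg.Statements.S4381
import Cfsg.Agent.H25.MaxInvC

set_option autoImplicit false
open Pointwise
open Cfsg

namespace Cfsg.Agent.S4381

/-- Let the finite group A act by automorphisms on the finite group G with the orders of A and G coprime, and assume that A or G is solvable. Call a proper A-invariant subgroup of G maximal A-invariant when no A-invariant subgroup lies strictly between it and G. Then all maximal A-invariant subgroups of G are conjugate under elements of the fixed-point subgroup C_G(A) if and only if G is a p-group for some prime p and A leaves invariant no subgroup strictly between the Frattini subgroup of G and G. In that case, if G is nontrivial, the Frattini subgroup is the only maximal A-invariant subgroup (a trivial G has none). -/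
theorem result {A G : Type*} [Group A] [Finite A]
    [Group G] [Finite G] [MulDistribMulAction A G] (hcop : (Nat.card A).Coprime (Nat.card G)) (hsol : Group.IsSolvable A ∨ Group.IsSolvable G) :
    ((∀ M N : Subgroup G, (M ≠ ⊤ ∧ (∀ a : A, ∀ x ∈ M, a • x ∈ M) ∧ ∀ L : Subgroup G, M < L → (∀ a : A, ∀ x ∈ L, a • x ∈ L) → L = ⊤) → (N ≠ ⊤ ∧ (∀ a : A, ∀ x ∈ N, a • x ∈ N) ∧ ∀ L : Subgroup G, N < L → (∀ a : A, ∀ x ∈ L, a • x ∈ L) → L = ⊤) →
        ∃ c : G, (∀ a : A, a • c = c) ∧ N = MulAut.conj c • M) ↔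
      ((∃ p : ℕ, p.Prime ∧ IsPGroup p G) ∧ ∀ L : Subgroup G, frattini G < L → (∀ a : A, ∀ x ∈ L, a • x ∈ L) → L = ⊤)) ∧
    (((∃ p : ℕ, p.Prime ∧ IsPGroup p G) ∧ ∀ L : Subgroup G, frattini G < L → (∀ a : A, ∀ x ∈ L, a • x ∈ L) → L = ⊤) →
      ∀ M : Subgroup G, (M ≠ ⊤ ∧ (∀ a : A, ∀ x ∈ M, a • x ∈ M) ∧ ∀ L : Subgroup G, M < L → (∀ a : A, ∀ x ∈ L, a • x ∈ L) → L = ⊤) ↔ (M = frattini G ∧ M ≠ ⊤)) := by
  -- the Frattini subgroup is the only candidate
  have huniq : ((∃ p : ℕ, p.Prime ∧ IsPGroup p G) ∧ ∀ L : Subgroup G, frattini G < L → (∀ a : A, ∀ x ∈ L, a • x ∈ L) → L = ⊤) →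
      ∀ M : Subgroup G, (M ≠ ⊤ ∧ (∀ a : A, ∀ x ∈ M, a • x ∈ M) ∧ ∀ L : Subgroup G, M < L → (∀ a : A, ∀ x ∈ L, a • x ∈ L) → L = ⊤) ↔ (M = frattini G ∧ M ≠ ⊤) := by
    rintro ⟨-, hL⟩ M
    constructor
    · rintro ⟨h1, h2, h3⟩
      have h4 := H25.MaxInvC.frattini_le_of_maximal h1 h2 h3
      refine ⟨?_, h1⟩
      rcases eq_or_lt_of_le h4 with h5 | h5
      · exact h5.symm
      · exact absurd (hL M h5 h2) h1
    · rintro ⟨rfl, h1⟩
      exact ⟨h1, fun a x hx => H25.MaxInvC.frattini_inv a hx, fun L h2 h3 => hL L h2 h3⟩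
  refine ⟨⟨?_, ?_⟩, huniq⟩
  · intro hconj
    by_cases htriv : Subsingleton G
    · refine ⟨⟨2, Nat.prime_two, ?_⟩, ?_⟩
      · intro x
        exact ⟨0, Subsingleton.elim _ _⟩
      · intro L hL _
        exact Subsingleton.elim _ _
    rw [not_subsingleton_iff_nontrivial] at htriv
    have hbot : (⊥ : Subgroup G) ≠ ⊤ := bot_ne_top
    obtain ⟨M, -, hM1, hM2, hM3⟩ := H25.MaxInvC.exists_maximal (A := A) (⊥ : Subgroup G) hbot (by
      intro a x hx
      rw [Subgroup.mem_bot] at hx ⊢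
      rw [hx, smul_one])
    have hpg : ∃ p : ℕ, p.Prime ∧ IsPGroup p G := by
      by_contra hno
      push Not at hno
      apply hM1
      rw [← Subgroup.index_eq_one]
      by_contra hi
      obtain ⟨r, hr, hri⟩ := Nat.exists_prime_and_dvd hi
      haveI : Fact r.Prime := ⟨hr⟩
      obtain ⟨P, hP⟩ := H25.MaxInvC.exists_inv_sylow (A := A) hcop hsol r
      have hPt : (P : Subgroup G) ≠ ⊤ := by
        intro h
        apply hno r hr
        have h1 : IsPGroup r (P : Subgroup G) := P.isPGroup'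
        rw [h] at h1
        exact h1.of_equiv Subgroup.topEquiv
      obtain ⟨N, hPN, hN1, hN2, hN3⟩ := H25.MaxInvC.exists_maximal (A := A) _ hPt hP
      obtain ⟨c, -, hc⟩ := hconj M N ⟨hM1, hM2, hM3⟩ ⟨hN1, hN2, hN3⟩
      have h1 : N.index = M.index := by
        rw [hc]
        exact Subgroup.index_map_equiv M (MulAut.conj c)
      have h2 : N.index ∣ (P : Subgroup G).index := Subgroup.index_dvd_of_le hPN
      rw [h1] at h2
      exact P.not_dvd_index (hri.trans h2)
    refine ⟨hpg, ?_⟩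
    obtain ⟨p, hp, hG⟩ := hpg
    haveI : Fact p.Prime := ⟨hp⟩
    have hFM := H25.MaxInvC.frattini_le_of_maximal hM1 hM2 hM3
    have hMn : M.Normal := by
      have h1 : commutator G ≤ M := (H2.commutator_le_frattini hG).trans hFM
      refine ⟨fun x hx g => ?_⟩
      exact H25.MaxInvC.conj_mem_of_comm_le h1 hx g
    have hall : ∀ N : Subgroup G, (N ≠ ⊤ ∧ (∀ a : A, ∀ x ∈ N, a • x ∈ N) ∧ ∀ L : Subgroup G, N < L → (∀ a : A, ∀ x ∈ L, a • x ∈ L) → L = ⊤) → N = M := by
      intro N hN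
      obtain ⟨c, -, hc⟩ := hconj M N ⟨hM1, hM2, hM3⟩ hN
      rw [hc]
      exact Subgroup.Normal.conj_smul_eq_self c M
    intro L hL hLi
    by_contra hLt
    obtain ⟨K, hK, hKi, hLK⟩ := H25.MaxInvC.exists_compl hcop hG hL hLi
    obtain ⟨N1, h1, h2⟩ := H25.MaxInvC.exists_maximal (A := A) L hLt hLi
    obtain ⟨N2, h3, h4⟩ := H25.MaxInvC.exists_maximal (A := A) K hK hKi
    rw [hall N1 h2] at h1
    rw [hall N2 h4] at h3
    apply hM1
    rw [eq_top_iff, ← hLK]
    exact sup_le h1 h3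
  · intro h M N hM hN
    have h1 := ((huniq h M).1 hM).1
    have h2 := ((huniq h N).1 hN).1
    refine ⟨1, fun a => smul_one a, ?_⟩
    rw [h1, h2, map_one, one_smul]

end Cfsg.Agent.S4381
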