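import Cfsg.Statements.S4387
import Cfsg.Agent.H22.MinNormal

set_option autoImplicit false
open Cfsg

namespace Cfsg.Agent.S4387

open scoped Pointwise

/-- Let G be a non-trivial finite group in which any two maximal subgroups are conjugate. Then G is cyclic of prime-power order. -/
theorem result {G : Type*} [Group G] [Finite G] [Nontrivial G]
    (h : ∀ M N : Subgroup G, IsCoatom M → IsCoatom N → ∃ g : G, N = MulAut.conj g • M) :
    IsCyclic G ∧ IsPrimePow (Nat.card G) := by
  obtain ⟨M, hM, -⟩ := (eq_top_or_exists_le_coatom (⊥ : Subgroup G)).resolve_left bot_ne_top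
  obtain ⟨g, hg⟩ := Cfsg.Agent.H22.exists_notMem_conj M hM.1
  have hcyc : IsCyclic G := by
    rw [isCyclic_iff_exists_zpowers_eq_top]
    refine ⟨g, ?_⟩
    by_contra hne
    obtain ⟨N, hN, hgN⟩ := (eq_top_or_exists_le_coatom (Subgroup.zpowers g)).resolve_left hne
    obtain ⟨x, hx⟩ := h M N hM hN
    rw [Subgroup.zpowers_le, hx, Subgroup.mem_pointwise_smul_iff_inv_smul_mem] at hgN
    apply hg x
    simpa [MulAut.smul_def] using hgN
  refine ⟨hcyc, ?_⟩
  letI : CommGroup G := IsCyclic.commGroup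
  -- unique maximal subgroup
  have huniq : ∀ N : Subgroup G, IsCoatom N → N = M := by
    intro N hN
    obtain ⟨x, hx⟩ := h M N hM hN
    rw [hx]
    ext y
    rw [Subgroup.mem_pointwise_smul_iff_inv_smul_mem]
    simp [MulAut.smul_def]
  have hcard1 : 1 < Nat.card G := Finite.one_lt_card
  have hpow : ∀ p : ℕ, p.Prime → p ∣ Nat.card G → ∀ x : G, x ^ p ∈ M := by
    intro p hp hpd x
    haveI : Fact p.Prime := ⟨hp⟩
    obtain ⟨z, hz⟩ := exists_prime_orderOf_dvd_card' p hpd
    have hne : (powMonoidHom p : G →* G).range ≠ ⊤ := by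
      intro htop
      rw [MonoidHom.range_eq_top, ← Finite.injective_iff_surjective] at htop
      have h1 : (powMonoidHom p : G →* G) z = (powMonoidHom p : G →* G) 1 := by
        rw [powMonoidHom_apply, powMonoidHom_apply, ← hz, pow_orderOf_eq_one, one_pow]
      have h2 := htop h1
      rw [h2, orderOf_one] at hz
      exact hp.one_lt.ne hz
    obtain ⟨N, hN, hle⟩ := (eq_top_or_exists_le_coatom (powMonoidHom p : G →* G).range).resolve_left hne
    rw [huniq N hN] at hle
    exact hle ⟨x, rfl⟩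
  rw [isPrimePow_iff_unique_prime_dvd]
  obtain ⟨p, hp, hpd⟩ := Nat.exists_prime_and_dvd hcard1.ne'
  refine ⟨p, ⟨hp, hpd⟩, ?_⟩
  rintro q ⟨hq, hqd⟩
  by_contra hqp
  apply hM.1
  rw [eq_top_iff]
  intro x _
  have hcop : Nat.Coprime p q := (Nat.coprime_primes hp hq).2 (Ne.symm hqp)
  have hbez := Nat.gcd_eq_gcd_ab p q
  rw [hcop.gcd_eq_one] at hbez
  have hx : x = (x ^ p) ^ (Nat.gcdA p q) * (x ^ q) ^ (Nat.gcdB p q) := by
    rw [← zpow_natCast x p, ← zpow_natCast x q, ← zpow_mul, ← zpow_mul, ← zpow_add, ← hbez]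
    simp
  rw [hx]
  exact M.mul_mem (M.zpow_mem (hpow p hp hpd x) _) (M.zpow_mem (hpow q hq hqd x) _)

end Cfsg.Agent.S4387
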