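import Cfsg.Statements.S4396
import Cfsg.Agent.H10.Fm5

set_option autoImplicit false
open Cfsg Pointwise

namespace Cfsg.Agent.S4396

/-- Let the finite group A act faithfully and linearly on a finite-dimensional vector space V over a field k, and suppose A is a Frobenius group with nilpotent kernel F (every Frobenius kernel is nilpotent) and complement H such that F fixes no nonzero vector. Then V is free as a module for H: there is a subspace W with V the direct sum of the translates hW, h ∈ H. (No assumption on the characteristic of k.) -/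
theorem result {k V A : Type*} [Field k] [AddCommGroup V] [Module k V] [FiniteDimensional k V] [Group A] [Finite A] [DecidableEq A]
    (ρ : Representation k A V) (hρ : Function.Injective ρ)
    (Fk Hc : Subgroup A) [Fk.Normal] (hHc : Cfsg.IsFrobeniusComplement Hc) (hker : Cfsg.frobeniusKernel Hc = (Fk : Set A)) (hnil : Group.IsNilpotent ↥Fk)
    (hCF : ∀ v : V, (∀ f ∈ Fk, ρ f v = v) → v = 0) :
    ∃ W : Submodule k V, DirectSum.IsInternal (fun h : ↥Hc => W.map (ρ (h : A))) := by
  let φ : Hc →* MulAut Fk := (MulAut.conjNormal (H := Fk)).comp Hc.subtype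
  have hφv : ∀ (h : Hc) (f : Fk), ((φ h f : Fk) : A) = (h : A) * f * (h : A)⁻¹ := fun h f => rfl
  have hφ : ∀ h, h ≠ 1 → ∀ f, φ h f = f → f = 1 := by
    intro h hh f hf
    have h1 : (h : A) * f * (h : A)⁻¹ = f := by
      rw [← hφv, hf]
    have h2 : (f : A) ∈ Hc := by
      by_contra h3
      have h4 := hHc.2.2 f h3
      have h5 : (h : A) ∈ Hc ⊓ MulAut.conj (f : A) • Hc := by
        refine Subgroup.mem_inf.2 ⟨h.2, ?_⟩
        rw [Subgroup.mem_pointwise_smul_iff_inv_smul_mem, ← map_inv, MulAut.smul_def, MulAut.conj_apply,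
          inv_inv]
        have h6 : (f : A)⁻¹ * h * f = h := by
          calc (f : A)⁻¹ * h * f = (f : A)⁻¹ * (h * f * (h : A)⁻¹) * h := by group
            _ = (f : A)⁻¹ * f * h := by rw [h1]
            _ = h := by group
        rw [h6]; exact h.2
      rw [h4] at h5
      exact hh (Subtype.ext (Subgroup.mem_bot.1 h5))
    have h3 : (f : A) ∈ frobeniusKernel Hc := by rw [hker]; exact f.2
    rcases h3 with h3 | h3
    · exact Subtype.ext h3
    · exfalso
      apply h3 1
      rw [map_one, one_smul]; exact h2
  obtain ⟨W, hW1, hW2⟩ := Cfsg.Agent.H10.Fm.main' φ hφ hnil (MonoidHom.comp ρ Fk.subtype)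
    (MonoidHom.comp ρ Hc.subtype) (fun h f => by
      change ρ h * ρ f = ρ (φ h f : Fk) * ρ h
      rw [hφv, ← map_mul, ← map_mul, inv_mul_cancel_right]) (fun v hv => hCF v (fun f hf => hv ⟨f, hf⟩))
  refine ⟨W, Cfsg.Agent.H10.Fm.internal _ hW1 (Module.finrank k W) (fun h => Submodule.finrank_map_le _ _) hW2⟩

end Cfsg.Agent.S4396
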