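import Cfsg.Statements.S4398
import Cfsg.Agent.H25.Rank2
import Cfsg.Agent.H23.CycSelf2

set_option autoImplicit false
open Cfsg

namespace Cfsg.Agent.S4398

open Subgroup H23

/-- Let S be a finite 2-group of sectional 2-rank at most 2 that contains a subgroup isomorphic to the dihedral group of order 8 or to the quaternion group of order 8. Then S is dihedral of order at least 8, semidihedral of order at least 16 (order 2^(k+4) with an element a of order 2^(k+3) and an involution b with b a b⁻¹ = a^(2^(k+2)−1)), or generalized quaternion of order at least 8. -/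
theorem result {S : Type*} [Group S] [Finite S] (h2 : IsPGroup 2 S) (hr : Cfsg.SectionalPRankLE 2 2 S)
    (hsub : ∃ H : Subgroup S, Nonempty (↥H ≃* DihedralGroup 4) ∨ Nonempty (↥H ≃* QuaternionGroup 2)) :
    ((∃ k : ℕ, Nonempty (S ≃* DihedralGroup (2 ^ (k + 2)))) ∨
      (∃ k : ℕ, Nat.card S = 2 ^ (k + 4) ∧ ∃ a b : S, orderOf a = 2 ^ (k + 3) ∧ orderOf b = 2 ∧ b * a * b⁻¹ = a ^ (2 ^ (k + 2) - 1)) ∨
      (∃ k : ℕ, Nonempty (S ≃* QuaternionGroup (2 ^ (k + 1))))) := by
  obtain ⟨H, hH⟩ := hsub
  have hcard : Nat.card H = 8 := by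
    rcases hH with ⟨⟨e⟩⟩ | ⟨⟨e⟩⟩
    · rw [Nat.card_congr e.toEquiv, DihedralGroup.nat_card]
    · rw [Nat.card_congr e.toEquiv, Nat.card_eq_fintype_card, QuaternionGroup.card]
  have hna : ¬ IsMulCommutative H := by
    intro h
    rcases hH with ⟨⟨e⟩⟩ | ⟨⟨e⟩⟩
    · have h1 : ∀ a b : DihedralGroup 4, a * b = b * a := by
        intro a b
        have := h.is_comm.comm (e.symm a) (e.symm b)
        have h2 := congrArg e this
        simpa using h2
      exact absurd (h1 (DihedralGroup.r 1) (DihedralGroup.sr 0)) (by decide)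
    · have h1 : ∀ a b : QuaternionGroup 2, a * b = b * a := by
        intro a b
        have := h.is_comm.comm (e.symm a) (e.symm b)
        have h2 := congrArg e this
        simpa using h2
      exact absurd (h1 (QuaternionGroup.a 1) (QuaternionGroup.xa 0)) (by decide)
  obtain ⟨n, hn⟩ := H25.dqs_of_nonabelian_eight h2 H hcard hna (H25.centralizer_le_of_sectionalRank h2 hr H hcard hna)
  have hcardS := hn.card
  obtain ⟨hn1, u, x, hu, hi, hx, h' | h' | h'⟩ := hn
  · left
    refine ⟨n - 1, ?_⟩
    have : n - 1 + 2 = n + 1 := by omega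
    rw [this]
    refine H22.nonempty_mulEquiv_dihedralGroup (2 ^ (n + 1)) u x h'.2 ?_ hu hx (closure_pair_eq_top hi hx)
    have h1 : x⁻¹ = x := inv_eq_of_mul_eq_one_left h'.2
    have := h'.1
    rwa [h1] at this
  · right; right
    refine ⟨n - 1, ?_⟩
    have : n - 1 + 1 = n := by omega
    rw [this]
    exact nonempty_mulEquiv_quaternionGroup (2 ^ n) u x (by rw [hu, pow_succ']) h'.2 h'.1 hx (closure_pair_eq_top hi hx)
  · right; left
    refine ⟨n - 2, ?_, u, x, ?_, ?_, ?_⟩
    · rw [hcardS]; congr 1; omega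
    · rw [hu]; congr 1; omega
    · refine orderOf_eq_prime ?_ ?_
      · rw [sq]; exact h'.2.2
      · rintro rfl; exact hx (one_mem _)
    · rw [h'.2.1]; congr 3; omega

end Cfsg.Agent.S4398
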