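import Cfsg.Statements.S4399
import Cfsg.Agent.H23.MaxClass2
import Cfsg.Agent.H23.CycSelf2

set_option autoImplicit false
open Cfsg

namespace Cfsg.Agent.S4399

open Subgroup H23

/-- Let S be a finite 2-group whose commutator quotient S/[S,S] is a Klein four-group (order 4 and exponent 2). Then S itself has order 4, or S is dihedral of order at least 8, semidihedral of order at least 16 (order 2^(k+4) with an element a of order 2^(k+3) and an involution b with b a b⁻¹ = a^(2^(k+2)−1)), or generalized quaternion of order at least 8. -/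
theorem result {S : Type*} [Group S] [Finite S] (h2 : IsPGroup 2 S) (hab : Nat.card (Abelianization S) = 4)
    (hexp : ∀ x : Abelianization S, x ^ 2 = 1) :
    Nat.card S = 4 ∨
    ((∃ k : ℕ, Nonempty (S ≃* DihedralGroup (2 ^ (k + 2)))) ∨
      (∃ k : ℕ, Nat.card S = 2 ^ (k + 4) ∧ ∃ a b : S, orderOf a = 2 ^ (k + 3) ∧ orderOf b = 2 ∧ b * a * b⁻¹ = a ^ (2 ^ (k + 2) - 1)) ∨
      (∃ k : ℕ, Nonempty (S ≃* QuaternionGroup (2 ^ (k + 1))))) := by
  haveI : Fact (Nat.Prime 2) := ⟨Nat.prime_two⟩
  have hidx : (_root_.commutator S).index = 4 := hab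
  by_cases h8 : 8 ≤ Nat.card S
  · right
    obtain ⟨n, hn⟩ := taussky _ S rfl h2 h8 hidx
    have hcard := hn.card
    obtain ⟨hn1, u, x, hu, hi, hx, h' | h' | h'⟩ := hn
    · left
      refine ⟨n - 1, ?_⟩
      have : n - 1 + 2 = n + 1 := by omega
      rw [this]
      refine H22.nonempty_mulEquiv_dihedralGroup (2 ^ (n + 1)) u x h'.2 ?_ hu hx (closure_pair_eq_top hi hx)
      have h1 : x⁻¹ = x := inv_eq_of_mul_eq_one_left h'.2
      have := h'.1
      rwa [h1] at this
    · right; right
      refine ⟨n - 1, ?_⟩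
      have : n - 1 + 1 = n := by omega
      rw [this]
      exact nonempty_mulEquiv_quaternionGroup (2 ^ n) u x (by rw [hu, pow_succ']) h'.2 h'.1 hx (closure_pair_eq_top hi hx)
    · right; left
      refine ⟨n - 2, ?_, u, x, ?_, ?_, ?_⟩
      · rw [hcard]; congr 1; omega
      · rw [hu]; congr 1; omega
      · refine orderOf_eq_prime ?_ ?_
        · rw [sq]; exact h'.2.2
        · rintro rfl; exact hx (one_mem _)
      · rw [h'.2.1]; congr 3; omega
  · left
    obtain ⟨k, hk⟩ := IsPGroup.iff_card.1 h2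
    have h4 : 4 ∣ Nat.card S := by rw [← hidx]; exact index_dvd_card _
    have := Nat.le_of_dvd Nat.card_pos h4
    interval_cases h : Nat.card S <;> omega

end Cfsg.Agent.S4399
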