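import Cfsg.Statements.S4405
import Cfsg.Agent.H18.Xt5
import Cfsg.Agent.H3.BurnsidePQ
import Cfsg.Agent.H1.Chief

set_option autoImplicit false
open Cfsg
open Cfsg.Agent.H18

namespace Cfsg.Agent.S4405

/-- Let G be a finite group of order 320 = 64·5 whose largest normal 2-subgroup H = O₂(G) equals the Fitting subgroup F(G) and is extraspecial of order 32 containing no elementary abelian subgroup of order 8 (so H is the central product of a quaternion group and a dihedral group of order 8). If T is an involution of G outside H whose centralizer in H contains an elementary abelian subgroup of order 4, then C_H(T) itself is elementary abelian of order 4. -/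
theorem result {G : Type*} [Group G] [Finite G]
    (hG : Nat.card G = 320) (hHF : Cfsg.pCore 2 G = Cfsg.fittingSubgroup G)
    (hex : Cfsg.IsExtraspecial 2 ↥(Cfsg.pCore 2 G)) (h32 : Nat.card ↥(Cfsg.pCore 2 G) = 32)
    (hminus : ∀ A : Subgroup G, A ≤ Cfsg.pCore 2 G → Cfsg.IsElementaryAbelian 2 A → Nat.card ↥A ≤ 4)
    (T : G) (hT : orderOf T = 2) (hTH : T ∉ Cfsg.pCore 2 G)
    (V : Subgroup G) (hV : V ≤ Cfsg.pCore 2 G ⊓ Subgroup.centralizer ({T} : Set G)) (hV4 : Nat.card ↥V = 4) (hVe : Cfsg.IsElementaryAbelian 2 V) :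
    Nat.card ↥(Cfsg.pCore 2 G ⊓ Subgroup.centralizer ({T} : Set G)) = 4 ∧
      Cfsg.IsElementaryAbelian 2 (Cfsg.pCore 2 G ⊓ Subgroup.centralizer ({T} : Set G)) := by
  classical
  haveI : Fact (Nat.Prime 2) := ⟨Nat.prime_two⟩
  haveI : Fact (Nat.Prime 5) := ⟨by norm_num⟩
  set H := Cfsg.pCore 2 G with hH
  haveI hHn : H.Normal := H1.pCore_normal 2 G
  obtain ⟨z, hxs⟩ := H29.xs_top hex
  have h := Xt.of_xs hxs
  have hE8 : NoE8 z := by
    apply noE8_of h
    intro A hA
    have h1 := hminus (A.map H.subtype) (Subgroup.map_subtype_le A) (by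
      refine ⟨⟨⟨?_⟩⟩, ?_⟩
      · rintro ⟨_, a, ha, rfl⟩ ⟨_, b, hb, rfl⟩
        apply Subtype.ext
        have := congrArg Subtype.val (hA.1.1.1 (⟨a, ha⟩ : A) ⟨b, hb⟩)
        exact congrArg H.subtype this
      · rintro _ ⟨a, ha, rfl⟩
        rw [← map_pow, hA.2 a ha, map_one])
    rwa [Subgroup.card_map_of_injective H.subtype_injective] at h1
  obtain ⟨x, hx⟩ := h.exists_fam h32 hE8
  obtain ⟨φ, hφ⟩ := hx.exists_hom h
  have hkc := hx.ker_card h h32 φ hφ
  set ψ : G →* Equiv.Perm (Fin 5) := φ.comp MulAut.conjNormal with hψ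
  have hψv : ∀ g i, (MulAut.conjNormal g : MulAut H) (x i) = x (ψ g i) ∨
      (MulAut.conjNormal g : MulAut H) (x i) = z * x (ψ g i) := fun g i => hφ _ i
  have hHker : H ≤ ψ.ker := by
    intro g hg
    rw [MonoidHom.mem_ker]
    apply Equiv.ext
    intro i
    refine hx.uniq h (hψv g i) ?_
    have h2 : (MulAut.conjNormal g : MulAut H) = MulAut.conj ⟨g, hg⟩ :=
      MulAut.conjNormal_val (h := (⟨g, hg⟩ : H))
    rw [h2, MulAut.conj_apply]
    rcases h.comm ⟨g, hg⟩ (x i) with h1 | h1
    · left; rw [h1]; simp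
    · right; rw [h1]; simp [mul_assoc]
  -- solvability and the centralizer of `H`
  have hsol : Group.IsSolvable G := H3.burnside_paqb 2 5 Nat.prime_two (by norm_num) _ G rfl (by
    intro r hr hdvd
    rw [hG] at hdvd
    have h1 : (320 : ℕ) = 2 ^ 6 * 5 := by norm_num
    rw [h1] at hdvd
    rcases hr.dvd_mul.1 hdvd with h2 | h2
    · left; exact (Nat.prime_dvd_prime_iff_eq hr Nat.prime_two).1 (hr.dvd_of_dvd_pow h2)
    · right; exact (Nat.prime_dvd_prime_iff_eq hr (by norm_num)).1 h2)
  have hCH : Subgroup.centralizer (H : Set G) ≤ H := by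
    have := H1.centralizer_fitting_le hsol
    rw [← hHF] at this
    exact this
  -- the kernel of the action
  have hker2 : ∀ α : MulAut H, φ α = 1 → α * α = 1 := by
    intro α hα
    have h2 : MonoidHom.eqLocus (α * α : MulAut H).toMonoidHom (1 : MulAut H).toMonoidHom = ⊤ := by
      have h1 : ∀ i, (α * α : MulAut H) (x i) = x i := by
        intro i
        have h3 := hφ α i
        rw [hα] at h3
        change α (x i) = x i ∨ α (x i) = z * x i at h3
        rw [MulAut.mul_apply]
        rcases h3 with h3 | h3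
        · rw [h3, h3]
        · rw [h3, map_mul, h.aut_z, h3, h.zz]
      exact hx.gen h h32 _ (h.aut_z (α * α)) (i := 0) (j := 1) (k := 2) (l := 3) (by decide)
        (by decide) (by decide) (by decide) (by decide) (by decide) (h1 0) (h1 1) (h1 2) (h1 3)
    apply MulEquiv.ext
    intro g
    have : g ∈ MonoidHom.eqLocus (α * α : MulAut H).toMonoidHom (1 : MulAut H).toMonoidHom := by
      rw [h2]; trivial
    exact this
  have hno5 : ¬ 5 ∣ Nat.card ψ.ker := by
    intro h5
    obtain ⟨⟨g, hg⟩, hg5⟩ := exists_prime_orderOf_dvd_card' 5 h5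
    have hg5' : orderOf g = 5 := by rw [← hg5]; exact (Subgroup.orderOf_coe (⟨g, hg⟩ : ψ.ker))
    have hg5p : g ^ 5 = 1 := by rw [← hg5']; exact pow_orderOf_eq_one g
    have h1 := hker2 (MulAut.conjNormal g) hg
    have h2 : (MulAut.conjNormal g : MulAut H) ^ 5 = 1 := by
      rw [← map_pow, hg5p, map_one]
    have h3 : (MulAut.conjNormal g : MulAut H) = 1 := by
      have h4 : (MulAut.conjNormal g : MulAut H) ^ 5 =
          ((MulAut.conjNormal g : MulAut H) * MulAut.conjNormal g) *
            ((MulAut.conjNormal g : MulAut H) * MulAut.conjNormal g) * MulAut.conjNormal g := by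
        simp only [pow_succ, pow_zero, one_mul, mul_assoc]
      rw [h2, h1, one_mul, one_mul] at h4
      exact h4.symm
    have h4 : g ∈ Subgroup.centralizer (H : Set G) := by
      rw [Subgroup.mem_centralizer_iff]
      intro y hy
      have h5 := congrArg (fun α : MulAut H => ((α ⟨y, hy⟩ : H) : G)) h3
      simp only [MulAut.conjNormal_apply, MulAut.one_apply] at h5
      exact (mul_inv_eq_iff_eq_mul.1 h5).symm
    have h5 := Subgroup.orderOf_dvd_natCard H (hCH h4)
    rw [hg5', h32] at h5
    norm_num at h5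
  have hKH : ψ.ker ≤ H := by
    rw [hH]
    apply H1.le_pCore inferInstance
    have h1 : Nat.card ψ.ker ∣ 2 ^ 6 := by
      have h2 := Subgroup.card_subgroup_dvd_card ψ.ker
      rw [hG] at h2
      have h3 : (320 : ℕ) = 2 ^ 6 * 5 := by norm_num
      rw [h3] at h2
      exact Nat.Coprime.dvd_of_dvd_mul_right
        ((Nat.Prime.coprime_iff_not_dvd (by norm_num)).2 hno5).symm h2
    obtain ⟨k, _, hk⟩ := (Nat.dvd_prime_pow Nat.prime_two).1 h1
    exact IsPGroup.of_card hk
  -- an element of order five
  obtain ⟨g, hg5⟩ := exists_prime_orderOf_dvd_card' (G := G) 5 (by rw [hG]; norm_num)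
  have hσ1 : ψ g ≠ 1 := by
    intro h1
    have h2 : g ∈ H := hKH h1
    have h5 := Subgroup.orderOf_dvd_natCard H h2
    rw [hg5, h32] at h5
    norm_num at h5
  have hσ : orderOf (ψ g) = 5 := by
    apply orderOf_eq_prime _ hσ1
    have hg5p : g ^ 5 = 1 := by rw [← hg5]; exact pow_orderOf_eq_one g
    rw [← map_pow, hg5p, map_one]
  set M := H ⊔ Subgroup.zpowers g with hM
  have hMc : Nat.card M = 160 := by
    have h1 : Nat.card M ≤ 5 * Nat.card H := card_sup_zpowers_le H g 5 (by norm_num)
      (by rw [Subgroup.normalizer_eq_top_iff.2 hHn]; trivial)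
      (by rw [← hg5, pow_orderOf_eq_one]; exact one_mem _)
    have h2 : Nat.card H ∣ Nat.card M := Subgroup.card_dvd_of_le le_sup_left
    have h3 : orderOf g ∣ Nat.card M :=
      Subgroup.orderOf_dvd_natCard M (Subgroup.mem_sup_right (Subgroup.mem_zpowers g))
    rw [h32] at h1 h2
    rw [hg5] at h3
    have h4 : 32 * 5 ∣ Nat.card M := Nat.Coprime.mul_dvd_of_dvd_of_dvd (by norm_num) h2 h3
    have := Nat.card_pos (α := M)
    obtain ⟨k, hk⟩ := h4
    have : k ≤ 1 := by omega
    have : k ≠ 0 := by rintro rfl; omega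
    omega
  have hMn : M.Normal := by
    apply Subgroup.normal_of_index_eq_two
    have := Subgroup.card_mul_index M
    rw [hMc, hG] at this
    omega
  obtain ⟨k, hk⟩ : ∃ k : ℤ, ψ T * ψ g * (ψ T)⁻¹ = ψ g ^ k := by
    have h1 : T * g * T⁻¹ ∈ M :=
      hMn.conj_mem g (Subgroup.mem_sup_right (Subgroup.mem_zpowers g)) T
    obtain ⟨y, hy, w, ⟨k, rfl⟩, hyw⟩ := Subgroup.mem_sup_of_normal_left.1 h1
    refine ⟨k, ?_⟩
    rw [← map_mul, ← map_inv, ← map_mul, ← hyw, map_mul, map_zpow]
    have : ψ y = 1 := hHker hy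
    rw [this, one_mul]
  have hτ1 : ψ T ≠ 1 := fun h1 => hTH (hKH h1)
  have huniq : ∀ {i j : Fin 5}, ψ T i = i → ψ T j = j → i = j := fun hi hj =>
    perm_fix_one hσ hτ1 k hk hi hj
  set α : MulAut H := MulAut.conjNormal T with hα
  have hTT : T * T = 1 := by rw [← pow_two, ← hT, pow_orderOf_eq_one]
  have hαα : ∀ c, α (α c) = c := by
    intro c
    rw [← MulAut.mul_apply, hα, ← map_mul, hTT, map_one, MulAut.one_apply]
  have hfix : ∀ c : H, (c : G) ∈ Subgroup.centralizer ({T} : Set G) → α c = c := by
    intro c hc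
    rw [Subgroup.mem_centralizer_singleton_iff] at hc
    apply Subtype.ext
    rw [hα, MulAut.conjNormal_apply, ← hc]
    group
  -- the subgroup V
  have hVH : V ≤ H := fun v hv => (Subgroup.mem_inf.1 (hV hv)).1
  have hVT : ∀ v ∈ V, v ∈ Subgroup.centralizer ({T} : Set G) := fun v hv =>
    (Subgroup.mem_inf.1 (hV hv)).2
  have hVcomm : ∀ a ∈ V, ∀ b ∈ V, a * b = b * a := by
    intro a ha b hb
    exact congrArg Subtype.val (hVe.1.1.1 (⟨a, ha⟩ : V) ⟨b, hb⟩)
  -- noncentral involutions of V
  have hnon : ∀ v (hv : v ∈ V), v ≠ 1 → v ≠ z → ∃ i, ψ T i = i ∧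
      ((⟨v, hVH hv⟩ : H) = x i ∨ (⟨v, hVH hv⟩ : H) = z * x i) := by
    intro v hv hv1 hvz
    have hsq : (⟨v, hVH hv⟩ : H) * ⟨v, hVH hv⟩ = 1 := by
      apply Subtype.ext
      have := hVe.2 v hv
      rw [pow_two] at this
      exact this
    obtain ⟨i, hi⟩ := hx.all' h hsq (fun h1 => hv1 (congrArg Subtype.val h1))
      (fun h1 => hvz (congrArg Subtype.val h1))
    refine ⟨i, ?_, hi⟩
    have h1 := hfix ⟨v, hVH hv⟩ (hVT v hv)
    have h2 := hψv T i
    rw [← hα] at h2
    apply Eq.symm
    apply hx.uniq h (g := (⟨v, hVH hv⟩ : H)) hi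
    rcases hi with hi | hi <;> rcases h2 with h2 | h2
    · left; rw [← h2, ← hi, h1]
    · right; rw [← h2, ← hi, h1]
    · right; rw [← h2, ← h1, hi, map_mul, h.aut_z]
    · left; rw [← h.zz (x ((ψ T) i)), ← h2, ← h1, hi, map_mul, h.aut_z]
  obtain ⟨v, hv, hv1, hvz⟩ : ∃ v ∈ V, v ≠ 1 ∧ v ≠ (z : G) := by
    by_contra hcon
    push Not at hcon
    have h1 : Nat.card V ≤ Nat.card ({1, (z : G)} : Set G) := by
      refine Nat.card_mono (Set.toFinite _) ?_
      intro v hv
      by_cases h2 : v = 1
      · left; exact h2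
      · right; exact hcon v hv h2
    have h2 : Nat.card ({1, (z : G)} : Set G) ≤ 2 := by
      rw [Nat.card_coe_set_eq]; exact Set.ncard_insert_le _ _ |>.trans (by simp)
    omega
  obtain ⟨i, hTi, hi⟩ := hnon v hv hv1 hvz
  have hzV : (z : G) ∈ V := by
    by_contra hzV
    -- another element of V
    have h1 : ∀ w ∈ V, w = 1 ∨ w = v ∨ w = z * v := by
      intro w hw
      by_cases hw1 : w = 1
      · exact Or.inl hw1
      · right
        obtain ⟨j, hTj, hj⟩ := hnon w hw hw1 (fun h2 => hzV (h2 ▸ hw))
        have hij := huniq hTi hTj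
        subst hij
        rcases hi with hi | hi <;> rcases hj with hj | hj
        · left; exact congrArg Subtype.val (hj.trans hi.symm)
        · right
          have : (⟨w, hVH hw⟩ : H) = z * ⟨v, hVH hv⟩ := by rw [hj, hi]
          exact congrArg Subtype.val this
        · right
          have : (⟨w, hVH hw⟩ : H) = z * ⟨v, hVH hv⟩ := by rw [hj, hi, h.zz]
          exact congrArg Subtype.val this
        · left; exact congrArg Subtype.val (hj.trans hi.symm)
    have h2 : Nat.card V ≤ Nat.card ({1, v, z * v} : Set G) := by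
      refine Nat.card_mono (Set.toFinite _) ?_
      intro w hw
      exact h1 w hw
    have h3 : Nat.card ({1, v, z * v} : Set G) ≤ 3 := by
      rw [Nat.card_coe_set_eq]
      calc _ ≤ ({v, z * v} : Set G).ncard + 1 := Set.ncard_insert_le _ _
        _ ≤ ({z * v} : Set G).ncard + 1 + 1 := by
          have := Set.ncard_insert_le v ({z * v} : Set G); omega
        _ = 3 := by simp
    omega
  -- the centralizer
  have hle : H ⊓ Subgroup.centralizer ({T} : Set G) ≤ V := by
    intro c hc
    obtain ⟨hcH, hcT⟩ := Subgroup.mem_inf.1 hc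
    have hαc := hfix ⟨c, hcH⟩ hcT
    rcases h.sq ⟨c, hcH⟩ with hcc | hcc
    · rcases hx.all _ hcc with h1 | h1 | ⟨j, hj⟩
      · have : c = 1 := congrArg Subtype.val h1
        rw [this]; exact one_mem _
      · have : c = z := congrArg Subtype.val h1
        rw [this]; exact hzV
      · have hTj : ψ T j = j := by
          have h2 := hψv T j
          rw [← hα] at h2
          apply Eq.symm
          apply hx.uniq h (g := (⟨c, hcH⟩ : H)) hj
          rcases hj with hj | hj <;> rcases h2 with h2 | h2
          · left; rw [← h2, ← hj, hαc]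
          · right; rw [← h2, ← hj, hαc]
          · right; rw [← h2, ← hαc, hj, map_mul, h.aut_z]
          · left; rw [← h.zz (x ((ψ T) j)), ← h2, ← hαc, hj, map_mul, h.aut_z]
        have hij := huniq hTi hTj
        subst hij
        have hzv : (z : G) * v ∈ V := V.mul_mem hzV hv
        rcases hi with hi | hi <;> rcases hj with hj | hj
        · have : c = v := congrArg Subtype.val (hj.trans hi.symm)
          rw [this]; exact hv
        · have : (⟨c, hcH⟩ : H) = z * ⟨v, hVH hv⟩ := by rw [hj, hi]
          have : c = z * v := congrArg Subtype.val this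
          rw [this]; exact hzv
        · have : (⟨c, hcH⟩ : H) = z * ⟨v, hVH hv⟩ := by rw [hj, hi, h.zz]
          have : c = z * v := congrArg Subtype.val this
          rw [this]; exact hzv
        · have : c = v := congrArg Subtype.val (hj.trans hi.symm)
          rw [this]; exact hv
    · exfalso
      obtain ⟨a, b, hab, hcab⟩ := hx.order_four h h32 hcc
      -- the permutation preserves the pair
      have hp : α (x b * x a) = x b * x a := by
        rcases hcab with h1 | h1
        · rw [← h1]; exact hαc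
        · rw [h1, map_mul, h.aut_z] at hαc
          exact mul_left_cancel hαc
      have hτa := hψv T a
      have hτb := hψv T b
      rw [← hα] at hτa hτb
      have hne : ψ T b ≠ ψ T a := fun h1 => hab ((ψ T).injective h1).symm
      have hpq : x b * x a = x (ψ T b) * x (ψ T a) ∨ x b * x a = z * (x (ψ T b) * x (ψ T a)) := by
        rw [← hp, map_mul]
        rcases hτa with h1 | h1 <;> rcases hτb with h2 | h2
        · left; rw [h1, h2]
        · right; rw [h1, h2, mul_assoc]
        · right; rw [h1, h2, ← mul_assoc, h.z_comm, mul_assoc]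
        · left
          rw [h1, h2, ← mul_assoc, mul_assoc z, h.z_comm (x _), ← mul_assoc z z, h.z_sq, one_mul]
      have hcomm : ∀ w : H, w * (x b * x a) = (x b * x a) * w →
          w * (x (ψ T b) * x (ψ T a)) = (x (ψ T b) * x (ψ T a)) * w := by
        intro w hw
        rcases hpq with h1 | h1
        · rw [← h1]; exact hw
        · have h2 : x (ψ T b) * x (ψ T a) = z * (x b * x a) := by rw [h1, h.zz]
          rw [h2]
          exact h.comm_mul_cc (h.z_comm w) hw
      have e1 : ψ T a = a ∨ ψ T a = b := by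
        by_contra hcon
        push Not at hcon
        have h1 := hcomm (x (ψ T a)) (h.comm_mul_nn (hx.anti _ _ hcon.2) (hx.anti _ _ hcon.1))
        have h2 : x (ψ T a) * (x (ψ T b) * x (ψ T a)) =
          z * ((x (ψ T b) * x (ψ T a)) * x (ψ T a)) :=
            h.comm_mul_nc (hx.anti _ _ hne.symm) rfl
        rw [h1] at h2
        exact h.ne_z_mul _ h2.symm
      have e2 : ψ T b = a ∨ ψ T b = b := by
        by_contra hcon
        push Not at hcon
        have h1 := hcomm (x (ψ T b)) (h.comm_mul_nn (hx.anti _ _ hcon.2) (hx.anti _ _ hcon.1))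
        have h2 : x (ψ T b) * (x (ψ T b) * x (ψ T a)) =
          z * ((x (ψ T b) * x (ψ T a)) * x (ψ T b)) :=
            h.comm_mul_cn rfl (hx.anti _ _ hne)
        rw [h1] at h2
        exact h.ne_z_mul _ h2.symm
      rcases e1 with e1 | e1
      · rcases e2 with e2 | e2
        · exact hne (e2.trans e1.symm)
        · exact hab (huniq e1 e2)
      · rcases e2 with e2 | e2
        · -- the swap
          rw [e1] at hτa
          have hb' : α (x b) * α (x a) = x a * x b := by
            rcases hτa with h1 | h1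
            · have h2 : α (x b) = x a := by rw [← h1, hαα]
              rw [h1, h2]
            · have h2 : α (x b) = z * x a := by
                have h3 : x b = z * α (x a) := by rw [h1, h.zz]
                rw [h3, map_mul, h.aut_z, hαα]
              rw [h1, h2, ← mul_assoc, mul_assoc z, h.z_comm (x a), ← mul_assoc z z, h.z_sq, one_mul]
          rw [← map_mul, hp] at hb'
          have h3 := hx.anti a b hab
          rw [hb'] at h3
          exact h.ne_z_mul _ h3.symm
        · exact hne (e2.trans e1.symm)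
  have heq : H ⊓ Subgroup.centralizer ({T} : Set G) = V := le_antisymm hle hV
  rw [heq]
  exact ⟨hV4, hVe⟩

end Cfsg.Agent.S4405
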