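import Cfsg.Statements.S4406

set_option autoImplicit false
open Cfsg

namespace Cfsg.Agent.S4406

abbrev A := alternatingGroup (Fin 4)

/-- the first orientation -/
abbrev D1 (s u v : A) : Prop := s * u * s⁻¹ = v ∧ s * v * s⁻¹ = u * v

/-- the second orientation -/
abbrev D2 (s u v : A) : Prop := s * u * s⁻¹ = u * v ∧ s * v * s⁻¹ = u

/-- hypotheses -/
def Hy (s u v : A) : Prop := (s ≠ 1 ∧ s ^ 3 = 1) ∧ (u ≠ 1 ∧ u ^ 2 = 1) ∧ (v ≠ 1 ∧ v ^ 2 = 1) ∧ u ≠ v

instance (s u v : A) : Decidable (Hy s u v) := by unfold Hy; infer_instance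

/-- conclusion -/
def Co (s u v : A) : Prop := (D1 s u v ∧ D2 s⁻¹ u v) ∨ (D2 s u v ∧ D1 s⁻¹ u v)

instance (s u v : A) : Decidable (Co s u v) := by unfold Co; infer_instance

theorem orient_aux : ∀ s u v : A, Hy s u v → Co s u v := by
  decide +kernel

theorem orient (s : A) (h1 : s ≠ 1) (h2 : s ^ 3 = 1) (u : A) (h3 : u ≠ 1) (h4 : u ^ 2 = 1) (v : A)
    (h5 : v ≠ 1) (h6 : v ^ 2 = 1) (h7 : u ≠ v) :
    (D1 s u v ∧ D2 s⁻¹ u v) ∨ (D2 s u v ∧ D1 s⁻¹ u v) :=
  orient_aux s u v ⟨⟨h1, h2⟩, ⟨h3, h4⟩, ⟨h5, h6⟩, h7⟩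

theorem sq_of : ∀ x : A, x ^ 4 = 1 → x ^ 2 = 1 := by
  decide +kernel

theorem cardA : Nat.card A = 12 := by
  rw [Nat.card_eq_fintype_card]
  decide +kernel

theorem card_le_three (T : Subgroup A) (hT : IsPGroup 3 T) : Nat.card T ∣ 3 := by
  obtain ⟨n, hn⟩ := IsPGroup.iff_card.1 hT
  have h1 : Nat.card T ∣ 12 := cardA ▸ T.card_subgroup_dvd_card
  have h2 : (Nat.card T).Coprime 4 := by
    rw [hn]; exact Nat.Coprime.pow_left n (by norm_num)
  exact h2.dvd_of_dvd_mul_left (show Nat.card T ∣ 4 * 3 from h1)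

/-- In the direct product P = A₄ × A₄, let X be the Sylow 2-subgroup, X₁ and X₂ its intersections with the two direct factors, Q a Sylow 3-subgroup and Q₁, Q₂ its intersections with the two factors. Then every subgroup B of X of order 4 either meets X₁ or X₂ nontrivially, or is normalized by one of the two subgroups of Q of order 3 other than Q₁ and Q₂. -/
theorem result
    (X : Sylow 2 (↥(alternatingGroup (Fin 4)) × ↥(alternatingGroup (Fin 4))))
    (Q : Sylow 3 (↥(alternatingGroup (Fin 4)) × ↥(alternatingGroup (Fin 4))))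
    (B : Subgroup (↥(alternatingGroup (Fin 4)) × ↥(alternatingGroup (Fin 4)))) (hBX : B ≤ (X : Subgroup _)) (hB4 : Nat.card ↥B = 4) :
    B ⊓ ((X : Subgroup _) ⊓ Subgroup.prod ⊤ ⊥) ≠ ⊥ ∨ B ⊓ ((X : Subgroup _) ⊓ Subgroup.prod ⊥ ⊤) ≠ ⊥ ∨
      ∃ R : Subgroup (↥(alternatingGroup (Fin 4)) × ↥(alternatingGroup (Fin 4))), R ≤ (Q : Subgroup _) ∧ Nat.card ↥R = 3 ∧
        R ≠ (Q : Subgroup _) ⊓ Subgroup.prod ⊤ ⊥ ∧ R ≠ (Q : Subgroup _) ⊓ Subgroup.prod ⊥ ⊤ ∧ R ≤ Subgroup.normalizer (B : Set _) := by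
  by_cases hB1 : ∃ b ∈ B, b ≠ 1 ∧ b.2 = 1
  · left
    obtain ⟨b, hb, hb1, hb2⟩ := hB1
    intro h
    have : b ∈ B ⊓ ((X : Subgroup _) ⊓ Subgroup.prod ⊤ ⊥) := ⟨hb, hBX hb, ⟨trivial, hb2⟩⟩
    rw [h] at this
    exact hb1 this
  by_cases hB2 : ∃ b ∈ B, b ≠ 1 ∧ b.1 = 1
  · right; left
    obtain ⟨b, hb, hb1, hb2⟩ := hB2
    intro h
    have : b ∈ B ⊓ ((X : Subgroup _) ⊓ Subgroup.prod ⊥ ⊤) := ⟨hb, hBX hb, ⟨hb2, trivial⟩⟩
    rw [h] at this
    exact hb1 this
  right; right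
  push Not at hB1 hB2
  -- elements of `X` have square one
  have hsq : ∀ b ∈ B, b.1 ^ 2 = 1 ∧ b.2 ^ 2 = 1 := by
    intro b hb
    obtain ⟨k, hk⟩ := X.isPGroup' ⟨b, hBX hb⟩
    have hk' : b ^ 2 ^ k = 1 := congrArg Subtype.val hk
    have key : ∀ a : A, a ^ 2 ^ k = 1 → a ^ 2 = 1 := by
      intro a ha
      apply sq_of
      apply orderOf_dvd_iff_pow_eq_one.1
      have h1 : orderOf a ∣ 12 := cardA ▸ orderOf_dvd_natCard a
      have h2 : (orderOf a).Coprime 3 :=
        Nat.Coprime.coprime_dvd_left (orderOf_dvd_of_pow_eq_one ha) (Nat.Coprime.pow_left k (by norm_num))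
      exact h2.dvd_of_dvd_mul_right (show orderOf a ∣ 4 * 3 from h1)
    exact ⟨key _ (congrArg Prod.fst hk'), key _ (congrArg Prod.snd hk')⟩
  have hsq' : ∀ b ∈ B, b * b = 1 := by
    intro b hb
    rw [← sq]
    exact Prod.ext (hsq b hb).1 (hsq b hb).2
  -- two generators of `B`
  obtain ⟨b, hb, hb1⟩ : ∃ b ∈ B, b ≠ 1 := by
    by_contra h
    push Not at h
    have : B = ⊥ := by
      rw [eq_bot_iff]
      exact h
    rw [this, Subgroup.card_bot] at hB4
    omega
  obtain ⟨c, hc, hc1, hcb⟩ : ∃ c ∈ B, c ≠ 1 ∧ c ≠ b := by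
    by_contra h
    push Not at h
    have h1 : (B : Set (A × A)) ⊆ {1, b} := by
      intro c hc
      by_cases hc1 : c = 1
      · exact Or.inl hc1
      · exact Or.inr (h c hc hc1)
    have h2 := Set.ncard_le_ncard h1 (Set.toFinite _)
    have h3 : (B : Set (A × A)).ncard = 4 := hB4
    have h4 := Set.ncard_insert_le (1 : A × A) {b}
    rw [Set.ncard_singleton] at h4
    omega
  have hBset : ∀ z ∈ B, z = 1 ∨ z = b ∨ z = c ∨ z = b * c := by
    have h1 : ({1, b, c, b * c} : Set (A × A)) ⊆ (B : Set (A × A)) := by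
      rintro z (rfl | rfl | rfl | rfl)
      · exact B.one_mem
      · exact hb
      · exact hc
      · exact B.mul_mem hb hc
    have h2 : ({1, b, c, b * c} : Set (A × A)).ncard = 4 := by
      rw [Set.ncard_insert_of_notMem, Set.ncard_insert_of_notMem, Set.ncard_insert_of_notMem,
        Set.ncard_singleton]
      · intro h
        have h' : c = b * c := h
        exact hb1 (mul_eq_right.1 h'.symm)
      · rintro (h | h)
        · exact hcb h.symm
        · have h' : b = b * c := h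
          exact hc1 (mul_eq_left.1 h'.symm)
      · rintro (h | h | h)
        · exact hb1 h.symm
        · exact hc1 h.symm
        · have h' : (1 : A × A) = b * c := h
          apply hcb
          have h3 := hsq' b hb
          exact mul_left_cancel (h'.symm.trans h3.symm)
    have h3 := Set.eq_of_subset_of_ncard_le h1 (by
      rw [h2]; exact le_of_eq hB4) (Set.toFinite _)
    intro z hz
    have : z ∈ ({1, b, c, b * c} : Set (A × A)) := by rw [h3]; exact hz
    exact this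
  -- the Sylow 3-subgroup
  have hQprod : (Q : Subgroup (A × A)) = ((Q : Subgroup (A × A)).map (MonoidHom.fst A A)).prod
      ((Q : Subgroup (A × A)).map (MonoidHom.snd A A)) := by
    symm
    apply Q.is_maximal'
    · rintro ⟨⟨x, y⟩, hx, hy⟩
      have hp1 : IsPGroup 3 ((Q : Subgroup (A × A)).map (MonoidHom.fst A A)) := Q.isPGroup'.map _
      have hp2 : IsPGroup 3 ((Q : Subgroup (A × A)).map (MonoidHom.snd A A)) := Q.isPGroup'.map _
      obtain ⟨m, hm⟩ := hp1 ⟨x, hx⟩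
      obtain ⟨n, hn⟩ := hp2 ⟨y, hy⟩
      have hm' : x ^ 3 ^ m = 1 := congrArg Subtype.val hm
      have hn' : y ^ 3 ^ n = 1 := congrArg Subtype.val hn
      refine ⟨m + n, Subtype.ext (Prod.ext ?_ ?_)⟩
      · show x ^ 3 ^ (m + n) = 1
        rw [pow_add, pow_mul, hm', one_pow]
      · show y ^ 3 ^ (m + n) = 1
        rw [pow_add, mul_comm, pow_mul, hn', one_pow]
    · intro z hz
      exact ⟨⟨z, hz, rfl⟩, ⟨z, hz, rfl⟩⟩
  have h9 : 9 ∣ Nat.card ((Q : Subgroup (A × A))) := by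
    have h1 : Nat.card (A × A) = 144 := by rw [Nat.card_prod, cardA]
    exact Q.pow_dvd_card_of_pow_dvd_card (n := 2) (by rw [h1]; norm_num)
  have hcardQ : Nat.card (Q : Subgroup (A × A)) = Nat.card ((Q : Subgroup (A × A)).map (MonoidHom.fst A A)) *
      Nat.card ((Q : Subgroup (A × A)).map (MonoidHom.snd A A)) := by
    conv_lhs => rw [hQprod]
    rw [Nat.card_congr (Subgroup.prodEquiv _ _).toEquiv, Nat.card_prod]
  have hd1 := card_le_three _ (Q.isPGroup'.map (MonoidHom.fst A A))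
  have hd2 := card_le_three _ (Q.isPGroup'.map (MonoidHom.snd A A))
  have hc1' : Nat.card ((Q : Subgroup (A × A)).map (MonoidHom.fst A A)) = 3 ∧
      Nat.card ((Q : Subgroup (A × A)).map (MonoidHom.snd A A)) = 3 := by
    rcases (Nat.dvd_prime Nat.prime_three).1 hd1 with h1 | h1 <;>
      rcases (Nat.dvd_prime Nat.prime_three).1 hd2 with h2 | h2 <;>
      rw [hcardQ, h1, h2] at h9 <;> first | exact ⟨h1, h2⟩ | (exfalso; revert h9; norm_num)
  have hex : ∀ T : Subgroup A, Nat.card T = 3 → ∃ s ∈ T, s ≠ 1 ∧ s ^ 3 = 1 := by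
    intro T hT
    haveI : Fact (Nat.Prime 3) := ⟨Nat.prime_three⟩
    obtain ⟨s, hs⟩ := exists_prime_orderOf_dvd_card' (G := T) 3 (by rw [hT])
    refine ⟨s, s.2, ?_, ?_⟩
    · intro h
      have : s = 1 := Subtype.ext h
      rw [this, orderOf_one] at hs
      omega
    · have := pow_orderOf_eq_one s
      rw [hs] at this
      exact congrArg Subtype.val this
  obtain ⟨s, hs, hs1, hs3⟩ := hex _ hc1'.1
  obtain ⟨t, ht, ht1, ht3⟩ := hex _ hc1'.2
  -- the components
  have hbc : b * c ∈ B := B.mul_mem hb hc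
  have hne1 : b.1 ≠ c.1 := by
    intro h
    apply hB2 (b * c) hbc
    · intro h'
      apply hcb
      exact mul_left_cancel (h'.trans (hsq' b hb).symm)
    · show b.1 * c.1 = 1
      rw [← h, ← sq]
      exact (hsq b hb).1
  have hne2 : b.2 ≠ c.2 := by
    intro h
    apply hB1 (b * c) hbc
    · intro h'
      apply hcb
      exact mul_left_cancel (h'.trans (hsq' b hb).symm)
    · show b.2 * c.2 = 1
      rw [← h, ← sq]
      exact (hsq b hb).2
  have o1 := orient s hs1 hs3 b.1 (hB2 b hb hb1) (hsq b hb).1 c.1 (hB2 c hc hc1) (hsq c hc).1 hne1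
  have o2 := orient t ht1 ht3 b.2 (hB1 b hb hb1) (hsq b hb).2 c.2 (hB1 c hc hc1) (hsq c hc).2 hne2
  -- reduce to finding `r`
  have main : ∀ t' : A, t' ∈ (Q : Subgroup (A × A)).map (MonoidHom.snd A A) → t' ≠ 1 → t' ^ 3 = 1 →
      (s, t') * b * (s, t')⁻¹ ∈ B → (s, t') * c * (s, t')⁻¹ ∈ B →
      ∃ R : Subgroup (A × A), R ≤ (Q : Subgroup _) ∧ Nat.card ↥R = 3 ∧
        R ≠ (Q : Subgroup _) ⊓ Subgroup.prod ⊤ ⊥ ∧ R ≠ (Q : Subgroup _) ⊓ Subgroup.prod ⊥ ⊤ ∧
        R ≤ Subgroup.normalizer (B : Set _) := by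
    intro t' ht' ht1' ht3' hrb hrc
    have hrQ : (s, t') ∈ (Q : Subgroup (A × A)) := by
      rw [hQprod]; exact ⟨hs, ht'⟩
    have hr3 : orderOf (s, t') = 3 := by
      haveI : Fact (Nat.Prime 3) := ⟨Nat.prime_three⟩
      apply orderOf_eq_prime
      · exact Prod.ext hs3 ht3'
      · intro h
        exact hs1 (congrArg Prod.fst h)
    refine ⟨Subgroup.zpowers (s, t'), ?_, ?_, ?_, ?_, ?_⟩
    · rw [Subgroup.zpowers_le]; exact hrQ
    · rw [Nat.card_zpowers, hr3]
    · intro h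
      have h1 : (s, t') ∈ Subgroup.zpowers (s, t') := Subgroup.mem_zpowers _
      rw [h] at h1
      exact ht1' h1.2.2
    · intro h
      have h1 : (s, t') ∈ Subgroup.zpowers (s, t') := Subgroup.mem_zpowers _
      rw [h] at h1
      exact hs1 h1.2.1
    · rw [Subgroup.zpowers_le]
      have hmap : ∀ z ∈ B, (s, t') * z * (s, t')⁻¹ ∈ B := by
        intro z hz
        rcases hBset z hz with rfl | rfl | rfl | rfl
        · rw [mul_one, mul_inv_cancel]; exact B.one_mem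
        · exact hrb
        · exact hrc
        · have : (s, t') * (b * c) * (s, t')⁻¹ = ((s, t') * b * (s, t')⁻¹) * ((s, t') * c * (s, t')⁻¹) := by
            group
          rw [this]
          exact B.mul_mem hrb hrc
      have heq : B.map (MulAut.conj (s, t')).toMonoidHom = B := by
        apply Subgroup.eq_of_le_of_card_ge
        · rintro _ ⟨z, hz, rfl⟩
          exact hmap z hz
        · rw [Nat.card_congr (B.equivMapOfInjective (MulAut.conj (s, t')).toMonoidHom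
            (MulAut.conj (s, t')).injective).toEquiv]
      rw [Subgroup.mem_normalizer_iff]
      intro z
      constructor
      · exact hmap z
      · intro hz
        rw [← heq] at hz
        obtain ⟨w, hw, hwz⟩ := hz
        have : w = z := (MulAut.conj (s, t')).injective hwz
        exact this ▸ hw
  have ht3' : t⁻¹ ^ 3 = 1 := by rw [inv_pow, ht3, inv_one]
  have ht1' : t⁻¹ ≠ 1 := by rwa [Ne, inv_eq_one]
  rcases o1 with ⟨o1, -⟩ | ⟨o1, -⟩ <;> rcases o2 with ⟨o2, o2'⟩ | ⟨o2, o2'⟩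
  · exact main t ht ht1 ht3 (by rw [show (s, t) * b * (s, t)⁻¹ = c from Prod.ext o1.1 o2.1]; exact hc)
      (by rw [show (s, t) * c * (s, t)⁻¹ = b * c from Prod.ext o1.2 o2.2]; exact hbc)
  · exact main t⁻¹ (inv_mem ht) ht1' ht3' (by rw [show (s, t⁻¹) * b * (s, t⁻¹)⁻¹ = c from Prod.ext o1.1 o2'.1]; exact hc)
      (by rw [show (s, t⁻¹) * c * (s, t⁻¹)⁻¹ = b * c from Prod.ext o1.2 o2'.2]; exact hbc)
  · exact main t⁻¹ (inv_mem ht) ht1' ht3' (by rw [show (s, t⁻¹) * b * (s, t⁻¹)⁻¹ = b * c from Prod.ext o1.1 o2'.1]; exact hbc)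
      (by rw [show (s, t⁻¹) * c * (s, t⁻¹)⁻¹ = b from Prod.ext o1.2 o2'.2]; exact hb)
  · exact main t ht ht1 ht3 (by rw [show (s, t) * b * (s, t)⁻¹ = b * c from Prod.ext o1.1 o2.1]; exact hbc)
      (by rw [show (s, t) * c * (s, t)⁻¹ = b from Prod.ext o1.2 o2.2]; exact hb)

end Cfsg.Agent.S4406
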