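import Cfsg.Statements.S4407
import Cfsg.Agent.H18.Sq407
import Cfsg.Agent.H1.Cyc

set_option autoImplicit false
open Cfsg
open Subgroup Cfsg.Agent.H18
open scoped commutatorElement
set_option maxHeartbeats 1000000

namespace Cfsg.Agent.S4407

open DihedralGroup in
theorem dih_list : ∀ d : DihedralGroup 4, d = 1 ∨ d = r 2 ∨ d = sr 0 ∨ d = sr 0 * r 2 ∨ d = sr 1 ∨
    d = sr 1 * r 2 ∨ d = sr 0 * sr 1 ∨ d = sr 0 * sr 1 * r 2 := by decide

/-- Let S be a finite group with a normal elementary abelian subgroup A of order 9 that is self-centralizing (C_S(A) = A), and a dihedral subgroup X of order 8 with S = AX. Let M be a finite-dimensional module for S over the field with two elements that is faithful and irreducible. Then M has 16 elements, and X contains exactly one subgroup B of order 4 and exponent 2 whose fixed points on M form a subspace with exactly 2 elements (equivalently, M is free of rank one over the group algebra of B). -/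
theorem result {S : Type*} [Group S] [Finite S]
    (A : Subgroup S) [A.Normal] (hA : Cfsg.IsElementaryAbelian 3 A) (hA9 : Nat.card ↥A = 9)
    (hAC : Subgroup.centralizer (A : Set S) = A) (X : Subgroup S) (hX : Nonempty (↥X ≃* DihedralGroup 4)) (hAX : A ⊔ X = ⊤)
    {M : Type*} [AddCommGroup M] [Module (ZMod 2) M] [Finite M] (ρ : Representation (ZMod 2) S M)
    (hfaith : Function.Injective ρ)
    (hirr : ∀ N : Submodule (ZMod 2) M, (∀ s : S, ∀ m ∈ N, ρ s m ∈ N) → N = ⊥ ∨ N = ⊤) (hM : Nontrivial M) :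
    Nat.card M = 16 ∧
      ∃! B : Subgroup S, B ≤ X ∧ Nat.card ↥B = 4 ∧ (∀ b ∈ B, b ^ 2 = 1) ∧
        Nat.card {m : M // ∀ b ∈ B, ρ b m = m} = 2 := by
  classical
  haveI : Fact (Nat.Prime 3) := ⟨by norm_num⟩
  obtain ⟨e⟩ := hX
  set φ : DihedralGroup 4 →* S := X.subtype.comp e.symm.toMonoidHom with hφ
  have φinj : Function.Injective φ := by
    intro x y h
    exact e.symm.injective (Subtype.ext h)
  have φX : ∀ d, φ d ∈ X := fun d => (e.symm d).2
  obtain ⟨t, ht⟩ : ∃ t, t = φ (DihedralGroup.sr 0) := ⟨_, rfl⟩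
  obtain ⟨s, hs⟩ : ∃ s, s = φ (DihedralGroup.sr 1) := ⟨_, rfl⟩
  obtain ⟨z, hz⟩ : ∃ z, z = φ (DihedralGroup.r 2) := ⟨_, rfl⟩
  have htt : t * t = 1 := by rw [ht, ← map_mul, ← map_one φ]; congr 1
  have hss : s * s = 1 := by rw [hs, ← map_mul, ← map_one φ]; congr 1
  have hzz : z * z = 1 := by rw [hz, ← map_mul, ← map_one φ]; congr 1
  have hst : s * t = t * s * z := by rw [hs, ht, hz, ← map_mul, ← map_mul, ← map_mul]; congr 1
  have hzt : z * t = t * z := by rw [hz, ht, ← map_mul, ← map_mul]; congr 1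
  have hzs : z * s = s * z := by rw [hz, hs, ← map_mul, ← map_mul]; congr 1
  have hz1 : z ≠ 1 := by
    intro h
    rw [hz, ← map_one φ] at h
    exact absurd (φinj h) (by decide)
  have ht1 : t ≠ 1 := by
    intro h
    rw [ht, ← map_one φ] at h
    exact absurd (φinj h) (by decide)
  have hts : t * s = s * t * z := by
    rw [hst, mul_assoc (t * s), hzz, mul_one]
  have hXl : ∀ x ∈ X, x = 1 ∨ x = z ∨ x = t ∨ x = t * z ∨ x = s ∨ x = s * z ∨ x = t * s ∨ x = t * s * z := by
    intro x hx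
    have h1 : x = φ (e ⟨x, hx⟩) := by
      rw [hφ]; simp
    rw [h1, ht, hs, hz, ← map_mul, ← map_mul, ← map_mul, ← map_mul, ← map_one φ]
    rcases dih_list (e ⟨x, hx⟩) with h | h | h | h | h | h | h | h
    · left; rw [h]
    · right; left; rw [h]
    · right; right; left; rw [h]
    · right; right; right; left; rw [h]
    · right; right; right; right; left; rw [h]
    · right; right; right; right; right; left; rw [h]
    · right; right; right; right; right; right; left; rw [h]
    · right; right; right; right; right; right; right; rw [h]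
  have htX : t ∈ X := ht ▸ φX _
  have hsX : s ∈ X := hs ▸ φX _
  have hzX : z ∈ X := hz ▸ φX _
  have hAc : ∀ x ∈ A, ∀ y ∈ A, x * y = y * x := fun x hx y hy =>
    congrArg Subtype.val (hA.1.is_comm.comm (⟨x, hx⟩ : A) ⟨y, hy⟩)
  have hA3 : ∀ x ∈ A, x * x * x = 1 := by
    intro x hx
    have := hA.2 x hx
    rw [pow_succ, sq] at this
    exact this
  have hcj : ∀ (g x : S), x ∈ A → g * x * g⁻¹ ∈ A := fun g x hx => Subgroup.Normal.conj_mem inferInstance x hx g
  have inv2 : ∀ x : S, x * x = 1 → x⁻¹ = x := fun x hx => inv_eq_of_mul_eq_one_left hx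
  have e1 : ∀ x ∈ A, x * x = 1 → x = 1 := by
    intro x hx h
    have := hA3 x hx
    rwa [h, one_mul] at this
  -- involutions of S are nontrivial on A
  have hnc : ∀ x : S, x * x = 1 → x ≠ 1 → ∃ a ∈ A, x * a * x⁻¹ ≠ a := by
    intro x hx hx1
    by_contra hcon
    push Not at hcon
    apply hx1
    apply e1 x _ hx
    rw [← hAC, mem_centralizer_iff]
    intro a ha
    have h := hcon a ha
    exact (mul_inv_eq_iff_eq_mul.1 h).symm
  -- z inverts A
  have hzinv : ∀ a ∈ A, z * a * z⁻¹ = a⁻¹ := by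
    let C : Subgroup S := A ⊓ centralizer {z}
    have hC : ∀ x, x ∈ C ↔ x ∈ A ∧ z * x = x * z := by
      intro x
      rw [mem_inf, mem_centralizer_singleton_iff]
      constructor
      · rintro ⟨h1, h2⟩; exact ⟨h1, h2.symm⟩
      · rintro ⟨h1, h2⟩; exact ⟨h1, h2.symm⟩
    let I : Subgroup S :=
      { carrier := {x | x ∈ A ∧ z * x * z⁻¹ = x⁻¹}
        mul_mem' := by
          rintro x y ⟨h1, h2⟩ ⟨h3, h4⟩
          refine ⟨A.mul_mem h1 h3, ?_⟩
          have : z * (x * y) * z⁻¹ = (z * x * z⁻¹) * (z * y * z⁻¹) := by group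
          rw [this, h2, h4, ← mul_inv_rev, hAc x h1 y h3]
        one_mem' := ⟨one_mem _, by group⟩
        inv_mem' := by
          rintro x ⟨h1, h2⟩
          refine ⟨A.inv_mem h1, ?_⟩
          have : z * x⁻¹ * z⁻¹ = (z * x * z⁻¹)⁻¹ := by group
          rw [this, h2] }
    have hI : ∀ x, x ∈ I ↔ x ∈ A ∧ z * x * z⁻¹ = x⁻¹ := fun x => Iff.rfl
    have h3 : ∀ H : Subgroup S, H ≤ A → H ≠ ⊥ → 3 ≤ Nat.card H := by
      intro H hH hb
      obtain ⟨x, hx, hx1⟩ : ∃ x ∈ H, x ≠ 1 := by
        by_contra hcon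
        push Not at hcon
        exact hb (by rw [eq_bot_iff]; intro x hx; rw [mem_bot]; exact hcon x hx)
      have ho : orderOf x = 3 := orderOf_eq_prime (hA.2 x (hH hx)) hx1
      rw [← ho, ← Nat.card_zpowers]
      exact card_le_of_le (zpowers_le.2 hx)
    have hprod : Nat.card C * Nat.card I ≤ 9 := by
      let f : C × I → A := fun x => ⟨x.1 * x.2, A.mul_mem ((hC _).1 x.1.2).1 ((hI _).1 x.2.2).1⟩
      have hf : Function.Injective f := by
        rintro ⟨⟨c, hc⟩, ⟨i, hi⟩⟩ ⟨⟨c', hc'⟩, ⟨i', hi'⟩⟩ h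
        have h' : c * i = c' * i' := congrArg Subtype.val h
        have h1 : c'⁻¹ * c = i' * i⁻¹ := by
          rw [inv_mul_eq_iff_eq_mul, ← mul_assoc, ← h', mul_inv_cancel_right]
        have h2 : c'⁻¹ * c ∈ C := C.mul_mem (C.inv_mem hc') hc
        have h4 : c'⁻¹ * c ∈ I := by rw [h1]; exact I.mul_mem hi' (I.inv_mem hi)
        have h5 := ((hC _).1 h2).2
        have h6 := ((hI _).1 h4).2
        rw [h5, mul_inv_cancel_right] at h6
        have h7 : (c'⁻¹ * c) * (c'⁻¹ * c) = 1 := by
          nth_rewrite 1 [h6]; exact inv_mul_cancel _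
        have h8 := e1 _ ((hC _).1 h2).1 h7
        have h9 : c = c' := (inv_mul_eq_one.1 h8).symm
        subst h9
        have h10 := mul_left_cancel h'
        subst h10
        rfl
      have := Nat.card_le_card_of_injective f hf
      rw [Nat.card_prod, hA9] at this
      exact this
    have hIb : I ≠ ⊥ := by
      obtain ⟨a, ha, hza⟩ := hnc z hzz hz1
      intro h
      apply hza
      have h1 : a⁻¹ * (z * a * z⁻¹) ∈ I := by
        rw [hI]
        refine ⟨A.mul_mem (A.inv_mem ha) (hcj z a ha), ?_⟩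
        rw [inv2 z hzz]
        calc z * (a⁻¹ * (z * a * z)) * z = (z * a⁻¹ * z) * a * (z * z) := by simp only [mul_assoc]
          _ = (z⁻¹ * a⁻¹ * z⁻¹) * a := by rw [hzz, mul_one, inv2 z hzz]
          _ = (a⁻¹ * (z * a * z))⁻¹ := by group
      rw [h, mem_bot] at h1
      exact (inv_mul_eq_one.1 h1).symm
    have hnorm : ∀ H : Subgroup S, H ≤ A → (∀ x ∈ X, ∀ y ∈ H, x * y * x⁻¹ ∈ H) → H.Normal := by
      intro H hHA hHX
      refine ⟨fun y hy g => ?_⟩
      have hg : g ∈ A ⊔ X := by rw [hAX]; trivial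
      rw [mem_sup_of_normal_left] at hg
      obtain ⟨a, ha, x, hx, rfl⟩ := hg
      have h1 := hHX x hx y hy
      have h2 : a * x * y * (a * x)⁻¹ = a * (x * y * x⁻¹) * a⁻¹ := by group
      rw [h2, hAc a ha _ (hHA h1), mul_inv_cancel_right]
      exact h1
    have hXz : ∀ x ∈ X, x * z = z * x := by
      intro x hx
      have czt : Commute z t := hzt
      have czs : Commute z s := hzs
      have czz : Commute z z := Commute.refl z
      rcases hXl x hx with rfl | rfl | rfl | rfl | rfl | rfl | rfl | rfl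
      · rw [one_mul, mul_one]
      · rfl
      · exact czt.symm.eq
      · exact (czt.mul_right czz).symm.eq
      · exact czs.symm.eq
      · exact (czs.mul_right czz).symm.eq
      · exact (czt.mul_right czs).symm.eq
      · exact ((czt.mul_right czs).mul_right czz).symm.eq
    have hIn : I.Normal := by
      apply hnorm I (fun x hx => ((hI x).1 hx).1)
      intro x hx y hy
      rw [hI] at hy ⊢
      refine ⟨hcj x y hy.1, ?_⟩
      have : z * (x * y * x⁻¹) * z⁻¹ = x * (z * y * z⁻¹) * x⁻¹ := by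
        have h1 := hXz x hx
        have h2 : x⁻¹ * z⁻¹ = z⁻¹ * x⁻¹ := by rw [← mul_inv_rev, ← mul_inv_rev, h1]
        calc z * (x * y * x⁻¹) * z⁻¹ = (z * x) * y * (x⁻¹ * z⁻¹) := by group
          _ = (x * z) * y * (z⁻¹ * x⁻¹) := by rw [h1, h2]
          _ = _ := by group
      rw [this, hy.2]; group
    have hCbot : C = ⊥ := by
      by_contra hCb
      have c1 := h3 C (fun x hx => ((hC x).1 hx).1) hCb
      have c2 := h3 I (fun x hx => ((hI x).1 hx).1) hIb
      have c3 : Nat.card I = 3 := by nlinarith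
      haveI : IsCyclic I := isCyclic_of_prime_card c3
      have h4 := H1.commutator_le_centralizer_of_cyclic hIn this
      have h5 : z ∈ _root_.commutator S := by
        have h6 : z = ⁅s⁻¹, t⁻¹⁆ := by
          rw [commutatorElement_def, inv_inv, inv_inv]
          have : s⁻¹ * t⁻¹ = (t * s)⁻¹ := by group
          rw [this, mul_assoc, hst]; group
        rw [h6]
        rw [_root_.commutator_def]
        exact commutator_mem_commutator (mem_top _) (mem_top _)
      have h7 := h4 h5
      apply hIb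
      rw [eq_bot_iff]
      intro x hx
      rw [mem_centralizer_iff] at h7
      have h8 := h7 x hx
      have h9 := (hI x).1 hx
      rw [← h8, mul_inv_cancel_right] at h9
      rw [mem_bot]
      apply e1 x h9.1
      nth_rewrite 1 [h9.2]; exact inv_mul_cancel _
    intro a ha
    have h1 : a * (z * a * z⁻¹) ∈ C := by
      rw [hC]
      have h2 := hcj z a ha
      refine ⟨A.mul_mem ha h2, ?_⟩
      rw [inv2 z hzz] at h2 ⊢
      calc z * (a * (z * a * z)) = (z * a * z) * a * z := by simp only [mul_assoc]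
        _ = (a * (z * a * z)) * z := by rw [hAc _ h2 _ ha]
    rw [hCbot, mem_bot] at h1
    exact eq_inv_of_mul_eq_one_right h1
  obtain ⟨a₀, ha₀, hta₀⟩ := hnc t htt ht1
  obtain ⟨b, hbdef⟩ : ∃ b, b = a₀⁻¹ * (t * a₀ * t⁻¹) := ⟨_, rfl⟩
  have hbA : b ∈ A := by rw [hbdef]; exact A.mul_mem (A.inv_mem ha₀) (hcj t a₀ ha₀)
  have hb1 : b ≠ 1 := by
    intro h
    rw [hbdef] at h
    exact hta₀ (inv_mul_eq_one.1 h).symm
  have htbinv : t * b * t⁻¹ = b⁻¹ := by
    rw [hbdef, inv2 t htt]
    calc t * (a₀⁻¹ * (t * a₀ * t)) * t = (t * a₀⁻¹ * t) * a₀ * (t * t) := by simp only [mul_assoc]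
      _ = (t⁻¹ * a₀⁻¹ * t⁻¹) * a₀ := by rw [htt, mul_one, inv2 t htt]
      _ = (a₀⁻¹ * (t * a₀ * t))⁻¹ := by group
  have hinvA : ∀ x ∈ A, x⁻¹ = x * x := fun x hx => inv_eq_of_mul_eq_one_left (hA3 x hx)
  obtain ⟨a, hadef⟩ : ∃ a, a = s * b * s⁻¹ := ⟨_, rfl⟩
  have haA : a ∈ A := by rw [hadef]; exact hcj s b hbA
  have htb : t * b = b * b * t := by
    rw [← hinvA b hbA, ← htbinv]; group
  have hzb : z * b = b * b * z := by
    rw [← hinvA b hbA, ← hzinv b hbA]; group
  have hza : z * a = a * a * z := by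
    rw [← hinvA a haA, ← hzinv a haA]; group
  have hsb : s * b = a * s := by rw [hadef]; group
  have hsa : s * a = b * s := by
    rw [hadef]
    calc s * (s * b * s⁻¹) = (s * s) * b * s⁻¹ := by group
      _ = b * s := by rw [hss, one_mul, inv2 s hss]
  have hbb : b * b * b = 1 := hA3 b hbA
  have haa : a * a * a = 1 := hA3 a haA
  have hab : a * b = b * a := hAc a haA b hbA
  have hta : t * a = a * t := by
    have h1 : t * a * s = a * t * s := by
      calc t * a * s = t * (a * s) := mul_assoc _ _ _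
        _ = t * (s * b) := by rw [hsb]
        _ = (t * s) * b := (mul_assoc _ _ _).symm
        _ = s * t * z * b := by rw [hts]
        _ = s * t * (z * b) := by simp only [mul_assoc]
        _ = s * t * (b * b * z) := by rw [hzb]
        _ = s * (t * b) * b * z := by simp only [mul_assoc]
        _ = s * (b * b * t) * b * z := by rw [htb]
        _ = s * b * b * (t * b) * z := by simp only [mul_assoc]
        _ = s * b * b * (b * b * t) * z := by rw [htb]
        _ = s * ((b * b * b) * b) * t * z := by simp only [mul_assoc]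
        _ = (s * b) * t * z := by rw [hbb, one_mul]
        _ = (a * s) * t * z := by rw [hsb]
        _ = a * (s * t * z) := by simp only [mul_assoc]
        _ = a * (t * s) := by rw [hts]
        _ = a * t * s := (mul_assoc _ _ _).symm
    exact mul_right_cancel h1
  have ha1 : a ≠ 1 := by
    intro h
    rw [h, one_mul] at hsb
    exact hb1 (mul_eq_left.1 hsb)
  -- every element of A is a ^ i * b ^ j
  have hind : ∀ i j : ℤ, a ^ i * b ^ j = 1 → a ^ i = 1 ∧ b ^ j = 1 := by
    intro i j h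
    have h1 : t * (a ^ i * b ^ j) * t⁻¹ = 1 := by rw [h]; group
    have h2 : t * (a ^ i * b ^ j) * t⁻¹ = (t * a * t⁻¹) ^ i * (t * b * t⁻¹) ^ j := by
      rw [conj_zpow, conj_zpow]; group
    rw [h2, htbinv, hta, mul_inv_cancel_right, inv_zpow] at h1
    have h3 : b ^ j = (b ^ j)⁻¹ := by
      have h4 : b ^ j = (a ^ i)⁻¹ := eq_inv_of_mul_eq_one_right h
      have h5 : (b ^ j)⁻¹ = (a ^ i)⁻¹ := eq_inv_of_mul_eq_one_right h1
      rw [h5]; exact h4
    have h4 : b ^ j = 1 := by
      apply e1 _ (A.zpow_mem hbA j)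
      nth_rewrite 1 [h3]; exact inv_mul_cancel _
    rw [h4, mul_one] at h
    exact ⟨h, h4⟩
  have hoa : orderOf a = 3 := orderOf_eq_prime (hA.2 a haA) ha1
  have hob : orderOf b = 3 := orderOf_eq_prime (hA.2 b hbA) hb1
  have hAl : ∀ x ∈ A, ∃ i j : ℕ, x = a ^ i * b ^ j := by
    let f : Fin 3 × Fin 3 → A := fun x => ⟨a ^ (x.1 : ℕ) * b ^ (x.2 : ℕ),
      A.mul_mem (A.pow_mem haA _) (A.pow_mem hbA _)⟩
    have hf : Function.Injective f := by
      rintro ⟨i, j⟩ ⟨i', j'⟩ h
      have h' : a ^ (i : ℕ) * b ^ (j : ℕ) = a ^ (i' : ℕ) * b ^ (j' : ℕ) := congrArg Subtype.val h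
      have h1 : a ^ ((i : ℤ) - i') * b ^ ((j : ℤ) - j') = 1 := by
        have q1 : a ^ ((i : ℤ) - i') = (a ^ (i' : ℕ))⁻¹ * a ^ (i : ℕ) := by
          rw [sub_eq_neg_add, zpow_add, zpow_neg, zpow_natCast, zpow_natCast]
        have q2 : b ^ ((j : ℤ) - j') = b ^ (j : ℕ) * (b ^ (j' : ℕ))⁻¹ := by
          rw [zpow_sub, zpow_natCast, zpow_natCast]
        rw [q1, q2]
        calc (a ^ (i' : ℕ))⁻¹ * a ^ (i : ℕ) * (b ^ (j : ℕ) * (b ^ (j' : ℕ))⁻¹)
            = (a ^ (i' : ℕ))⁻¹ * (a ^ (i : ℕ) * b ^ (j : ℕ)) * (b ^ (j' : ℕ))⁻¹ := by group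
          _ = 1 := by rw [h']; group
      obtain ⟨h2, h3⟩ := hind _ _ h1
      have h4 := orderOf_dvd_iff_zpow_eq_one.2 h2
      have h5 := orderOf_dvd_iff_zpow_eq_one.2 h3
      rw [hoa] at h4
      rw [hob] at h5
      have hi := i.2
      have hj := j.2
      have hi' := i'.2
      have hj' := j'.2
      have h6 : (i : ℕ) = i' := by omega
      have h7 : (j : ℕ) = j' := by omega
      rw [Fin.ext h6, Fin.ext h7]
    have hfb : Function.Bijective f := by
      rw [Nat.bijective_iff_injective_and_card]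
      exact ⟨hf, by rw [hA9]; simp⟩
    intro x hx
    obtain ⟨⟨i, j⟩, hij⟩ := hfb.2 ⟨x, hx⟩
    exact ⟨i, j, (congrArg Subtype.val hij).symm⟩
  -- rewriting rules
  have ra : ∀ x, a * (a * (a * x)) = x := fun x => by rw [← mul_assoc, ← mul_assoc, haa, one_mul]
  have rb : ∀ x, b * (b * (b * x)) = x := fun x => by rw [← mul_assoc, ← mul_assoc, hbb, one_mul]
  have rba : ∀ x, b * (a * x) = a * (b * x) := fun x => by rw [← mul_assoc, ← hab, mul_assoc]
  have rta : ∀ x, t * (a * x) = a * (t * x) := fun x => by rw [← mul_assoc, hta, mul_assoc]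
  have rtb : ∀ x, t * (b * x) = b * (b * (t * x)) := fun x => by rw [← mul_assoc, htb]; simp only [mul_assoc]
  have rsa : ∀ x, s * (a * x) = b * (s * x) := fun x => by rw [← mul_assoc, hsa, mul_assoc]
  have rsb : ∀ x, s * (b * x) = a * (s * x) := fun x => by rw [← mul_assoc, hsb, mul_assoc]
  have rza : ∀ x, z * (a * x) = a * (a * (z * x)) := fun x => by rw [← mul_assoc, hza]; simp only [mul_assoc]
  have rzb : ∀ x, z * (b * x) = b * (b * (z * x)) := fun x => by rw [← mul_assoc, hzb]; simp only [mul_assoc]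
  have htb' : t * b = b * (b * t) := by rw [htb, mul_assoc]
  have hza' : z * a = a * (a * z) := by rw [hza, mul_assoc]
  have hzb' : z * b = b * (b * z) := by rw [hzb, mul_assoc]
  have haa' : a * (a * a) = 1 := by rw [← mul_assoc, haa]
  have hbb' : b * (b * b) = 1 := by rw [← mul_assoc, hbb]
  have mu : ∀ (g h : S) (v : M), ρ g (ρ h v) = ρ (g * h) v := by
    intro g h v
    rw [map_mul]; rfl
  by_cases hPa : ∃ m : M, m ≠ 0 ∧ ρ a m = m
  · exact core407 A X ρ hfaith hirr hAX t s z a b htt hss hzz hst hzt hzs hab hbb hta htb hsb hsa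
      hza hzb ha1 hz1 hXl htX hsX hzX hAl haA hbA hPa
  have hninj : ∀ (g : S) (v : M), ρ g v = 0 → v = 0 := by
    intro g v h
    have : ρ g⁻¹ (ρ g v) = v := by rw [mu, inv_mul_cancel, map_one]; rfl
    rw [← this, h, map_zero]
  have hPb : ∀ m : M, ρ b m = m → m = 0 := by
    intro m hm
    by_contra hm0
    apply hPa
    refine ⟨ρ s m, fun h => hm0 (hninj s m h), ?_⟩
    rw [mu, ← hsb, ← mu, hm]
  have hP : ∃ m : M, m ≠ 0 ∧ ρ (a * b) m = m := by
    by_contra hcon
    push Not at hcon hPa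
    have h2 : ∀ m : M, ρ (a * b * b) m = m → m = 0 := by
      intro m hm
      by_contra hm0
      apply hcon (ρ t m) (fun h => hm0 (hninj t m h))
      have h3 : a * b * t = t * (a * b * b) := by
        simp only [mul_assoc, hta, htb', rta, rtb, rb, hbb']
      rw [mu, h3, ← mu, hm]
    obtain ⟨m₀, hm₀⟩ := exists_ne (0 : M)
    apply hm₀
    refine eq_zero_of_fpf (p := 3) (by decide) (A := ρ a) (B := ρ b) ?_ ?_ ?_ ?_ ?_ m₀
    · show ρ a * ρ b = ρ b * ρ a
      rw [← map_mul, ← map_mul, hab]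
    · rw [← map_pow, hA.2 a haA, map_one]
    · rw [← map_pow, hA.2 b hbA, map_one]
    · intro j hj hj3 v hv
      rw [← map_pow] at hv
      interval_cases j
      · rw [pow_one] at hv; exact hPb v hv
      · apply hPb
        have h3 : ρ (b ^ 2) (ρ (b ^ 2) v) = v := by rw [hv, hv]
        rw [mu, ← pow_add, show 2 + 2 = 3 + 1 from rfl, pow_add, hA.2 b hbA, one_mul, pow_one] at h3
        exact h3
    · intro i v hv
      rw [← map_pow, ← map_mul] at hv
      have h3 : b ^ i = b ^ (i % 3) := by rw [← hob, pow_mod_orderOf]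
      rw [h3] at hv
      have h4 : i % 3 < 3 := Nat.mod_lt _ (by norm_num)
      by_contra hv0
      interval_cases h5 : i % 3
      · rw [pow_zero, mul_one] at hv; exact hPa v hv0 hv
      · rw [pow_one] at hv; exact hcon v hv0 hv
      · rw [sq, ← mul_assoc] at hv; exact hv0 (h2 v hv)
  refine core407 A X ρ hfaith hirr hAX s t z (a * b) (a * b * b) hss htt hzz hts hzs hzt ?_ ?_ ?_ ?_ ?_ ?_
      ?_ ?_ ?_ hz1 ?_ hsX htX hzX ?_ (A.mul_mem haA hbA) (A.mul_mem (A.mul_mem haA hbA) hbA) hP
  · simp only [mul_assoc, hab.symm, rba]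
  · simp only [mul_assoc, mul_one, one_mul, hab.symm, rba, ra, rb, haa', hbb']
  · simp only [mul_assoc, mul_one, one_mul, hab.symm, rba, ra, rb, haa', hbb', hsa, hsb, rsa, rsb]
  · simp only [mul_assoc, mul_one, one_mul, hab.symm, rba, ra, rb, haa', hbb', hsa, hsb, rsa, rsb]
  · simp only [mul_assoc, mul_one, one_mul, hab.symm, rba, ra, rb, haa', hbb', hta, htb', rta, rtb]
  · simp only [mul_assoc, mul_one, one_mul, hab.symm, rba, ra, rb, haa', hbb', hta, htb', rta, rtb]
  · simp only [mul_assoc, mul_one, one_mul, hab.symm, rba, ra, rb, haa', hbb', hza', hzb', rza, rzb]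
  · simp only [mul_assoc, mul_one, one_mul, hab.symm, rba, ra, rb, haa', hbb', hza', hzb', rza, rzb]
  · intro h
    have := (hind 1 1 (by rw [zpow_one, zpow_one]; exact h)).1
    rw [zpow_one] at this
    exact ha1 this
  · intro x hx
    rcases hXl x hx with h | h | h | h | h | h | h | h
    · exact Or.inl h
    · exact Or.inr (Or.inl h)
    · exact Or.inr (Or.inr (Or.inr (Or.inr (Or.inl h))))
    · exact Or.inr (Or.inr (Or.inr (Or.inr (Or.inr (Or.inl h)))))
    · exact Or.inr (Or.inr (Or.inl h))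
    · exact Or.inr (Or.inr (Or.inr (Or.inl h)))
    · right; right; right; right; right; right; right
      rw [h, hts]
    · right; right; right; right; right; right; left
      rw [h, hst]
  · intro x hx
    obtain ⟨i, j, rfl⟩ := hAl x hx
    have c0 : Commute (a * b) (a * b * b) := hAc _ (A.mul_mem haA hbA) _ (A.mul_mem (A.mul_mem haA hbA) hbA)
    have h1 : a = (a * b) ^ 2 * (a * b * b) ^ 2 := by
      simp only [sq, mul_assoc, hab.symm, rba, ra, rb, haa', hbb', mul_one]
    have h2 : b = (a * b) ^ 2 * (a * b * b) := by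
      simp only [sq, mul_assoc, hab.symm, rba, ra, rb, haa', hbb', mul_one]
    refine ⟨2 * i + 2 * j, 2 * i + j, ?_⟩
    have h3 : a ^ i = (a * b) ^ (2 * i) * (a * b * b) ^ (2 * i) := by
      conv_lhs => rw [h1]
      rw [((c0.pow_left 2).pow_right 2).mul_pow, ← pow_mul, ← pow_mul]
    have h4 : b ^ j = (a * b) ^ (2 * j) * (a * b * b) ^ j := by
      conv_lhs => rw [h2]
      rw [(c0.pow_left 2).mul_pow, ← pow_mul]
    rw [h3, h4, pow_add (a * b), pow_add (a * b * b)]
    have c1 : Commute ((a * b * b) ^ (2 * i)) ((a * b) ^ (2 * j)) := (c0.symm.pow_left _).pow_right _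
    calc (a * b) ^ (2 * i) * (a * b * b) ^ (2 * i) * ((a * b) ^ (2 * j) * (a * b * b) ^ j)
        = (a * b) ^ (2 * i) * ((a * b * b) ^ (2 * i) * (a * b) ^ (2 * j)) * (a * b * b) ^ j := by
          simp only [mul_assoc]
      _ = (a * b) ^ (2 * i) * ((a * b) ^ (2 * j) * (a * b * b) ^ (2 * i)) * (a * b * b) ^ j := by
          rw [c1.eq]
      _ = _ := by simp only [mul_assoc]

end Cfsg.Agent.S4407
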