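import Cfsg.Statements.S4408
import Cfsg.Agent.H25.ElemFit

set_option autoImplicit false
open Cfsg

namespace Cfsg.Agent.S4408

/-- Let S be a finite solvable group whose Fitting subgroup F(S) has odd order, and let I be an elementary abelian 2-subgroup of S of order 2ⁿ with n ≥ 1. Then F(S) contains subgroups A₁, …, Aₙ of prime order, each normalized by I, pairwise commuting and generating a subgroup A of order |A₁|⋯|Aₙ| (their internal direct product), such that no non-identity element of I centralizes A. -/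
theorem result {S : Type*} [Group S] [Finite S]
    [Group.IsSolvable S] (hF : Odd (Nat.card ↥(Cfsg.fittingSubgroup S)))
    (I : Subgroup S) (hI : Cfsg.IsElementaryAbelian 2 I) (n : ℕ) (hn : 1 ≤ n) (hIn : Nat.card ↥I = 2 ^ n) :
    ∃ f : Fin n → Subgroup S, (∀ i, (Nat.card ↥(f i)).Prime) ∧ (∀ i, f i ≤ Cfsg.fittingSubgroup S) ∧
      (∀ i, I ≤ Subgroup.normalizer ((f i) : Set S)) ∧ (∀ i j, i ≠ j → ∀ a ∈ f i, ∀ b ∈ f j, a * b = b * a) ∧
      Nat.card ↥(⨆ i, f i) = ∏ i, Nat.card ↥(f i) ∧ I ⊓ Subgroup.centralizer ((⨆ i, f i : Subgroup S) : Set S) = ⊥ := by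
  have hX : ∀ t ∈ I, t * t = 1 := fun t ht => by rw [← sq]; exact hI.2 t ht
  obtain ⟨A, hAF, hAc, hXA, hfaith⟩ := H25.exists_abelian_faithful (G := S) inferInstance hF I hX
  have hodd : ∀ f ∈ A, f * f = 1 → f = 1 := by
    intro f hf h
    have h1 : orderOf (⟨f, hAF hf⟩ : fittingSubgroup S) ∣ 2 := orderOf_dvd_of_pow_eq_one (by rw [sq]; exact Subtype.ext h)
    have h2 : orderOf (⟨f, hAF hf⟩ : fittingSubgroup S) ∣ Nat.card (fittingSubgroup S) := orderOf_dvd_natCard _
    have h3 := Nat.dvd_gcd h1 h2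
    rw [Nat.Coprime.gcd_eq_one (Nat.coprime_two_left.2 hF)] at h3
    have := orderOf_eq_one_iff.1 (Nat.dvd_one.1 h3)
    exact congrArg Subtype.val this
  obtain ⟨f, hf1, hf2, hf3, hf4, hf5⟩ := H25.exists_family A hodd hAc I hX hXA hfaith n hIn n le_rfl
  refine ⟨f, hf1, fun i => (hf2 i).trans hAF, ?_, ?_, hf4, ?_⟩
  · intro i t ht
    rw [Subgroup.mem_normalizer_iff]
    intro a
    refine ⟨hf3 i t ht a, fun h => ?_⟩
    have := hf3 i t⁻¹ (inv_mem ht) _ h
    have e : t⁻¹ * (t * a * t⁻¹) * t⁻¹⁻¹ = a := by group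
    rwa [e] at this
  · intro i j _ a ha b hb
    exact hAc a (hf2 i ha) b (hf2 j hb)
  · rw [Nat.sub_self, pow_zero] at hf5
    exact Subgroup.card_eq_one.1 hf5

end Cfsg.Agent.S4408
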