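import Cfsg.Statements.S4410
import Cfsg.Agent.H25.Transv

set_option autoImplicit false
open Cfsg

namespace Cfsg.Agent.S4410

open Subgroup

theorem two_zero : (2 : ZMod 2) = 0 := by decide

theorem zmod2 : ∀ c : ZMod 2, c = 0 ∨ c = 1 := by decide

theorem fact_dvd_of_le {d : ℕ} (hd : d ≤ 3) : (∏ i : Fin d, (2 ^ d - 2 ^ (i : ℕ))) ∣ 168 := by
  interval_cases d <;> decide

theorem fact_dvd_of_le' {d : ℕ} (hd : d ≤ 2) : (∏ i : Fin d, (2 ^ d - 2 ^ (i : ℕ))) ∣ 6 := by
  interval_cases d <;> decide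

/-- Let V be a finite-dimensional vector space over the field with two elements and S a solvable group of linear automorphisms of V with O₂(S) = 1. If P ∈ S has order 4 and (P − 1)³ = 0 on V, then the image of (P − 1)² has at least 4 elements; equivalently, in the decomposition of V into indecomposable modules for the cyclic group generated by P, at least two summands have dimension 3. -/
theorem result
    {V : Type*} [AddCommGroup V] [Module (ZMod 2) V] [Finite V]
    (S : Subgroup (V ≃ₗ[ZMod 2] V)) (hS : Group.IsSolvable ↥S) (hO2 : Cfsg.pCore 2 ↥S = ⊥)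
    (P : V ≃ₗ[ZMod 2] V) (hPS : P ∈ S) (hP4 : orderOf P = 4)
    (hcub : ((P : V →ₗ[ZMod 2] V) - LinearMap.id) ^ 3 = 0) :
    4 ≤ Nat.card ↥(LinearMap.range (((P : V →ₗ[ZMod 2] V) - LinearMap.id) ^ 2)) := by
  classical
  haveI : Finite (V ≃ₗ[ZMod 2] V) := Finite.of_injective (fun f => (f : V → V)) DFunLike.coe_injective
  haveI : Module.Finite (ZMod 2) V := Module.Finite.of_finite
  haveI : Fact (Nat.Prime 2) := ⟨Nat.prime_two⟩
  haveI : Fact (Nat.Prime 3) := ⟨Nat.prime_three⟩
  by_contra hlt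
  push Not at hlt
  have hchar : ∀ x : V, x + x = 0 := fun x => by
    have : (2 : ZMod 2) • x = 0 := by
      rw [two_zero, zero_smul]
    rwa [two_smul] at this
  have hneg : ∀ x : V, -x = x := fun x => neg_eq_of_add_eq_zero_left (hchar x)
  set N : V →ₗ[ZMod 2] V := (P : V →ₗ[ZMod 2] V) - LinearMap.id with hN
  have hNv : ∀ v, N v = P v - v := fun v => rfl
  -- t = P^2
  set t : V ≃ₗ[ZMod 2] V := P * P with ht
  have htv : ∀ v, t v - v = (N ^ 2) v := by
    intro v
    have h1 : (N ^ 2) v = N (N v) := by rw [sq]; rfl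
    rw [h1, hNv, hNv, map_sub]
    show P (P v) - v = P (P v) - P v - (P v - v)
    have h2 := hchar (P v)
    have h3 := hchar v
    have : P (P v) - P v - (P v - v) = P (P v) - (P v + P v) + (v + v) - v := by abel
    rw [this, h2, h3]; simp
  have ht2 : t * t = 1 := by
    have : t * t = P ^ 4 := by rw [ht, ← sq, ← sq, ← pow_mul]
    rw [this, ← hP4, pow_orderOf_eq_one]
  have ht1 : t ≠ 1 := by
    intro h
    have : orderOf P ∣ 2 := orderOf_dvd_of_pow_eq_one (by rw [sq]; exact h)
    rw [hP4] at this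
    norm_num at this
  have hti : t⁻¹ = t := inv_eq_of_mul_eq_one_left ht2
  -- range of N^2
  have hcardpow : ∀ U : Submodule (ZMod 2) V, Nat.card U = 2 ^ Module.finrank (ZMod 2) U := by
    intro U
    have := Module.natCard_eq_pow_finrank (K := ZMod 2) (V := U)
    rwa [Nat.card_zmod] at this
  obtain ⟨w, hw⟩ : ∃ w : V, LinearMap.range (N ^ 2) = Submodule.span (ZMod 2) {w} := by
    have h1 : Module.finrank (ZMod 2) (LinearMap.range (N ^ 2)) ≤ 1 := by
      by_contra h
      push Not at h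
      have h2 := hcardpow (LinearMap.range (N ^ 2))
      have h3 := Nat.pow_le_pow_right (n := 2) (by norm_num) (show 2 ≤ Module.finrank (ZMod 2) (LinearMap.range (N ^ 2)) by omega)
      rw [← h2] at h3
      omega
    obtain ⟨v, hv⟩ := finrank_le_one_iff.1 h1
    refine ⟨v, ?_⟩
    apply le_antisymm
    · intro x hx
      obtain ⟨c, hc⟩ := hv ⟨x, hx⟩
      rw [Submodule.mem_span_singleton]
      exact ⟨c, congrArg Subtype.val hc⟩
    · rw [Submodule.span_singleton_le_iff_mem]
      exact v.2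
  have htw : ∀ v, t v - v ∈ Submodule.span (ZMod 2) {w} := by
    intro v
    rw [htv, ← hw]
    exact ⟨v, rfl⟩
  have hspan : ∀ x ∈ Submodule.span (ZMod 2) ({w} : Set V), x = 0 ∨ x = w := by
    intro x hx
    obtain ⟨c, rfl⟩ := Submodule.mem_span_singleton.1 hx
    rcases zmod2 c with rfl | rfl
    · left; exact zero_smul _ _
    · right; exact one_smul _ _
  have hw0 : w ≠ 0 := by
    rintro rfl
    apply ht1
    apply LinearEquiv.ext
    intro v
    have := htw v
    rcases hspan _ this with h | h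
    · exact sub_eq_zero.1 h
    · exact sub_eq_zero.1 h
  have hPw : P w = w := by
    have h1 : w ∈ LinearMap.range (N ^ 2) := by rw [hw]; exact Submodule.mem_span_singleton_self w
    obtain ⟨v, hv⟩ := h1
    have h2 : P w ∈ LinearMap.range (N ^ 2) := by
      refine ⟨P v, ?_⟩
      rw [← hv, ← htv, ← htv, map_sub]
      rfl
    rw [hw] at h2
    rcases hspan _ h2 with h | h
    · exact absurd ((LinearEquiv.map_eq_zero_iff P).1 h) hw0
    · exact h
  -- Fitting subgroup
  set F := fittingSubgroup S with hF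
  haveI hFn : F.Normal := H1.fitting_normal S
  have hFnil : Group.IsNilpotent F := H1.fitting_isNilpotent S
  have hFodd : Odd (Nat.card F) := by
    rw [← Nat.not_even_iff_odd, even_iff_two_dvd]
    intro h2
    -- Sylow 2 of F is normal in S
    obtain ⟨Q⟩ := (inferInstance : Nonempty (Sylow 2 F))
    haveI := hFnil
    haveI hQn : (Q : Subgroup F).Normal := ((H1.isNilpotent_iff_sylow_normal.1 hFnil) 2 ⟨Nat.prime_two⟩ Q)
    haveI : (Q : Subgroup F).Characteristic := Q.characteristic_of_normal hQn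
    have h3 : (Q : Subgroup F).map F.subtype ≤ pCore 2 S := by
      apply H1.le_pCore
      · exact ConjAct.normal_of_characteristic_of_normal
      · exact Q.isPGroup'.map _
    rw [hO2, le_bot_iff] at h3
    have h4 : (Q : Subgroup F) = ⊥ := (map_eq_bot_iff_of_injective _ F.subtype_injective).1 h3
    have h5 := Q.not_dvd_index
    rw [h4, index_bot] at h5
    exact h5 h2
  set ts : S := ⟨t, mul_mem hPS hPS⟩ with hts
  set Ps : S := ⟨P, hPS⟩ with hPs
  have htsne : ¬ ts ∈ centralizer (F : Set S) := by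
    intro h
    have h1 := H1.centralizer_fitting_le hS h
    have h2 : orderOf (⟨ts, h1⟩ : F) ∣ 2 := orderOf_dvd_of_pow_eq_one (by rw [sq]; exact Subtype.ext (Subtype.ext ht2))
    have h3 : orderOf (⟨ts, h1⟩ : F) ∣ Nat.card F := orderOf_dvd_natCard _
    have h4 := Nat.dvd_gcd h2 h3
    rw [Nat.Coprime.gcd_eq_one (Nat.coprime_two_left.2 hFodd)] at h4
    have h5 := orderOf_eq_one_iff.1 (Nat.dvd_one.1 h4)
    exact ht1 (congrArg (fun x : F => ((x : S) : V ≃ₗ[ZMod 2] V)) h5)
  obtain ⟨f, hfF, hft⟩ : ∃ f ∈ F, ts * f ≠ f * ts := by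
    by_contra h
    push Not at h
    apply htsne
    rw [mem_centralizer_iff]
    intro f hf
    exact (h f hf).symm
  -- the inverted element
  set y : S := f⁻¹ * (ts * f * ts⁻¹) with hy
  have hyF : y ∈ F := mul_mem (inv_mem hfF) (hFn.conj_mem f hfF ts)
  have hts2 : ts * ts = 1 := Subtype.ext ht2
  have htsi : ts⁻¹ = ts := inv_eq_of_mul_eq_one_left hts2
  have hy1 : y ≠ 1 := by
    intro h
    apply hft
    rw [hy, inv_mul_eq_one, eq_mul_inv_iff_mul_eq] at h
    exact h.symm
  have htsy : ts * y * ts⁻¹ = y⁻¹ := by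
    rw [hy]
    calc ts * (f⁻¹ * (ts * f * ts⁻¹)) * ts⁻¹ = (ts * f⁻¹ * ts⁻¹) * ((ts * ts) * f * (ts * ts)⁻¹) := by group
      _ = (ts * f⁻¹ * ts⁻¹) * f := by rw [hts2]; group
      _ = _ := by group
  -- displacement of y
  set fV : V ≃ₗ[ZMod 2] V := (f : V ≃ₗ[ZMod 2] V) with hfV
  set w' : V := fV⁻¹ w with hw'
  have hyv : ∀ v : V, (y : V ≃ₗ[ZMod 2] V) v - v ∈ Submodule.span (ZMod 2) {w, w'} := by
    intro v
    have h1 : (y : V ≃ₗ[ZMod 2] V) v = fV⁻¹ (t (fV (t v))) := by
      have : (y : V ≃ₗ[ZMod 2] V) = fV⁻¹ * (t * fV * t) := by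
        rw [hy, htsi]; rfl
      rw [this]; rfl
    rw [h1]
    have h2 : fV⁻¹ (t (fV (t v))) - v = fV⁻¹ (t (fV (t v)) - fV (t v)) + (t v - v) := by
      rw [map_sub]
      have : fV⁻¹ (fV (t v)) = t v := fV.symm_apply_apply _
      rw [this]; abel
    rw [h2]
    apply Submodule.add_mem
    · have h3 := htw (fV (t v))
      rcases hspan _ h3 with h | h
      · rw [h, map_zero]; exact Submodule.zero_mem _
      · rw [h]; exact Submodule.subset_span (by simp [hw'])
    · exact Submodule.span_mono (by simp) (htw v)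
  set z : S := Ps * y * Ps⁻¹ with hz
  have hzF : z ∈ F := hFn.conj_mem y hyF Ps
  have hzv : ∀ v : V, (z : V ≃ₗ[ZMod 2] V) v - v ∈ Submodule.span (ZMod 2) {w, P w'} := by
    intro v
    have h1 : (z : V ≃ₗ[ZMod 2] V) v = P ((y : V ≃ₗ[ZMod 2] V) (P⁻¹ v)) := rfl
    have h2 : (z : V ≃ₗ[ZMod 2] V) v - v = P ((y : V ≃ₗ[ZMod 2] V) (P⁻¹ v) - P⁻¹ v) := by
      rw [h1, map_sub]
      have : P (P⁻¹ v) = v := P.apply_symm_apply v
      rw [this]
    rw [h2]
    have h3 := hyv (P⁻¹ v)
    have h4 : (Submodule.span (ZMod 2) {w, w'}).map (P : V →ₗ[ZMod 2] V) = Submodule.span (ZMod 2) {w, P w'} := by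
      rw [Submodule.map_span, Set.image_pair]
      show Submodule.span (ZMod 2) {P w, P w'} = _
      rw [hPw]
    rw [← h4]
    exact ⟨_, h3, rfl⟩
  -- F as subgroup of GL(V)
  let FV : Subgroup (V ≃ₗ[ZMod 2] V) := F.map S.subtype
  have hFVodd : Odd (Nat.card FV) := by
    rw [Nat.card_congr (equivMapOfInjective F S.subtype S.subtype_injective).symm.toEquiv]
    exact hFodd
  have hFVmem : ∀ g ∈ F, ((g : S) : V ≃ₗ[ZMod 2] V) ∈ FV := fun g hg => ⟨g, hg, rfl⟩
  have hoddle : ∀ D : Subgroup (V ≃ₗ[ZMod 2] V), D ≤ FV → Odd (Nat.card D) := fun D hD =>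
    hFVodd.of_dvd_nat (card_dvd_of_le hD)
  -- order of y is three
  have hclos : ∀ (U : Submodule (ZMod 2) V) (s : Set (V ≃ₗ[ZMod 2] V)), (∀ g ∈ s, ∀ v, g v - v ∈ U) →
      ∀ g ∈ closure s, ∀ v, g v - v ∈ U := by
    intro U s hs g hg
    induction hg using closure_induction with
    | mem x hx => exact hs x hx
    | one => intro v; show v - v ∈ U; rw [sub_self]; exact U.zero_mem
    | mul a b _ _ iha ihb =>
      intro v
      have : (a * b) v - v = (a (b v) - b v) + (b v - v) := by
        show a (b v) - v = _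
        abel
      rw [this]
      exact U.add_mem (iha _) (ihb _)
    | inv a _ iha =>
      intro v
      have h1 := iha (a⁻¹ v)
      have h2 : a (a⁻¹ v) = v := a.apply_symm_apply v
      rw [h2] at h1
      have := U.neg_mem h1
      rwa [neg_sub] at this
  have hfin2 : ∀ a b : V, Module.finrank (ZMod 2) (Submodule.span (ZMod 2) ({a, b} : Set V)) ≤ 2 := by
    intro a b
    have h1 := finrank_span_finset_le_card (R := ZMod 2) ({a, b} : Finset V)
    rw [Finset.coe_pair] at h1
    exact h1.trans Finset.card_le_two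
  have hfin3 : ∀ a b c : V, Module.finrank (ZMod 2) (Submodule.span (ZMod 2) ({a, b, c} : Set V)) ≤ 3 := by
    intro a b c
    have h1 := finrank_span_finset_le_card (R := ZMod 2) ({a, b, c} : Finset V)
    have h2 : (({a, b, c} : Finset V) : Set V) = {a, b, c} := by push_cast; rfl
    rw [h2] at h1
    exact h1.trans Finset.card_le_three
  have hyo : orderOf y = 3 := by
    have h1 : Nat.card (zpowers (y : V ≃ₗ[ZMod 2] V)) ∣ 6 := by
      refine (H25.card_dvd_of_unipotent _ (hoddle _ (zpowers_le.2 (hFVmem y hyF))) (Submodule.span (ZMod 2) {w, w'}) ?_).trans ?_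
      · intro g hg
        rw [zpowers_eq_closure] at hg
        exact hclos _ _ (by intro g hg; rw [Set.mem_singleton_iff] at hg; rw [hg]; exact hyv) g hg
      · rw [H25.card_units_end]
        exact fact_dvd_of_le' (hfin2 _ _)
    rw [Nat.card_zpowers, Subgroup.orderOf_coe] at h1
    have h2 : Odd (orderOf y) := by
      have : orderOf (⟨y, hyF⟩ : F) ∣ Nat.card F := orderOf_dvd_natCard _
      rw [Subgroup.orderOf_mk] at this
      exact hFodd.of_dvd_nat this
    have h3 : orderOf y ≠ 1 := fun h => hy1 (orderOf_eq_one_iff.1 h)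
    have h4 : orderOf y ∈ Nat.divisors 6 := Nat.mem_divisors.2 ⟨h1, by norm_num⟩
    have h5 : Nat.divisors 6 = {1, 2, 3, 6} := by decide
    rw [h5] at h4
    simp only [Finset.mem_insert, Finset.mem_singleton] at h4
    rcases h4 with h | h | h | h
    · exact absurd h h3
    · rw [h] at h2; exact absurd h2 (by decide)
    · exact h
    · rw [h] at h2; exact absurd h2 (by decide)
  have hzo : orderOf z = 3 := by
    rw [hz, ← hyo]
    exact orderOf_injective (MulAut.conj Ps).toMonoidHom (MulAut.conj Ps).injective y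
  -- the group generated by y and z is a 3-group
  obtain ⟨Q⟩ := (inferInstance : Nonempty (Sylow 3 F))
  haveI hQn : (Q : Subgroup F).Normal := ((H1.isNilpotent_iff_sylow_normal.1 hFnil) 3 ⟨Nat.prime_three⟩ Q)
  have hmemQ : ∀ (g : S) (hg : g ∈ F), orderOf g = 3 → (⟨g, hg⟩ : F) ∈ (Q : Subgroup F) := by
    intro g hg hgo
    have h1 : IsPGroup 3 (zpowers (⟨g, hg⟩ : F)) := IsPGroup.of_card (n := 1) (by rw [Nat.card_zpowers, Subgroup.orderOf_mk, hgo, pow_one])
    obtain ⟨R, hR⟩ := h1.exists_le_sylow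
    haveI := Q.unique_of_normal hQn
    rw [Subsingleton.elim Q R]
    exact hR (mem_zpowers _)
  let D : Subgroup (V ≃ₗ[ZMod 2] V) := closure {(y : V ≃ₗ[ZMod 2] V), (z : V ≃ₗ[ZMod 2] V)}
  let QV : Subgroup (V ≃ₗ[ZMod 2] V) := ((Q : Subgroup F).map F.subtype).map S.subtype
  have hQV : IsPGroup 3 QV := (Q.isPGroup'.map _).map _
  have hDQ : D ≤ QV := by
    show Subgroup.closure _ ≤ QV
    rw [closure_le]
    rintro g (rfl | rfl)
    · exact ⟨y, ⟨⟨y, hyF⟩, hmemQ y hyF hyo, rfl⟩, rfl⟩
    · exact ⟨z, ⟨⟨z, hzF⟩, hmemQ z hzF hzo, rfl⟩, rfl⟩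
  have hD3 : IsPGroup 3 D := hQV.to_le hDQ
  have hDF : D ≤ FV := by
    show Subgroup.closure _ ≤ FV
    rw [closure_le]
    rintro g (rfl | rfl)
    · exact hFVmem y hyF
    · exact hFVmem z hzF
  have hDcard : Nat.card D ∣ 168 := by
    refine (H25.card_dvd_of_unipotent D (hoddle D hDF) (Submodule.span (ZMod 2) {w, w', P w'}) ?_).trans ?_
    · apply hclos
      rintro g (rfl | rfl)
      · intro v; exact Submodule.span_mono (by
          rintro x (rfl | rfl)
          · simp
          · simp) (hyv v)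
      · intro v; exact Submodule.span_mono (by
          rintro x (rfl | rfl)
          · simp
          · simp) (hzv v)
    · rw [H25.card_units_end]
      exact fact_dvd_of_le (hfin3 _ _ _)
  have hDle : Nat.card D ∣ 3 := by
    obtain ⟨k, hk⟩ := IsPGroup.iff_card.1 hD3
    rw [hk] at hDcard ⊢
    have hk1 : k ≤ 1 := by
      by_contra h
      have h9 : 3 ^ 2 ∣ 168 := (pow_dvd_pow 3 (by omega)).trans hDcard
      norm_num at h9
    interval_cases k <;> norm_num
  have hyD : zpowers (y : V ≃ₗ[ZMod 2] V) = D := by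
    apply eq_of_le_of_card_ge
    · rw [zpowers_le]; exact subset_closure (by simp)
    · rw [Nat.card_zpowers, Subgroup.orderOf_coe, hyo]
      exact Nat.le_of_dvd (by norm_num) hDle
  have hzy : (z : V ≃ₗ[ZMod 2] V) ∈ zpowers (y : V ≃ₗ[ZMod 2] V) := by
    rw [hyD]; exact subset_closure (by simp)
  obtain ⟨i, hi⟩ := hzy
  have hi' : z = y ^ i := by
    apply Subtype.ext
    rw [← hi]; push_cast; rfl
  -- P² y P⁻² = y^(i²)
  have e1 : ts * y * ts⁻¹ = y ^ (i * i) := by
    have h1 : ts = Ps * Ps := rfl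
    have h2 : ts * y * ts⁻¹ = Ps * (Ps * y * Ps⁻¹) * Ps⁻¹ := by rw [h1]; group
    rw [h2, ← hz, hi', ← conj_zpow, ← hz, hi', ← zpow_mul]
  rw [htsy] at e1
  have e2 : y ^ (i * i + 1) = 1 := by
    rw [zpow_add, zpow_one, ← e1, inv_mul_cancel]
  have e3 : ((3 : ℕ) : ℤ) ∣ i * i + 1 := by
    rw [← hyo]; exact orderOf_dvd_iff_zpow_eq_one.2 e2
  have e4 : (i * i + 1) % 3 = 0 := Int.emod_eq_zero_of_dvd e3
  have h5 : i % 3 = 0 ∨ i % 3 = 1 ∨ i % 3 = 2 := by omega
  rcases h5 with h | h | h
  · rw [Int.add_emod, Int.mul_emod, h] at e4; norm_num at e4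
  · rw [Int.add_emod, Int.mul_emod, h] at e4; norm_num at e4
  · rw [Int.add_emod, Int.mul_emod, h] at e4; norm_num at e4

end Cfsg.Agent.S4410
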