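import Cfsg.Statements.S4411
import Cfsg.Agent.H18.QAct5

set_option autoImplicit false
open Cfsg
open Subgroup Cfsg.Agent.H18.QA
set_option maxHeartbeats 1000000

namespace Cfsg.Agent.S4411

theorem aux {G : Type*} [Group G] [Finite G]
    (p q : ℕ) [hp : Fact p.Prime] [hq' : Fact q.Prime] (hpq : p ≠ q) (h23 : ¬ ((p = 2 ∧ q = 3) ∨ (p = 3 ∧ q = 2)))
    (hsol : ∀ H : Subgroup G, IsPGroup p ↥H →
      Cfsg.IsPSolvable p (↥(Subgroup.normalizer (H : Set G)) ⧸ (Subgroup.centralizer (H : Set G)).subgroupOf (Subgroup.normalizer (H : Set G))))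
    (H : Subgroup G) (hH : IsPGroup p ↥H) (hq : QD q H)
    (hmax : ∀ H' : Subgroup G, IsPGroup p H' → QD q H' →
      (Nat.card (normalizer (H' : Set G))).factorization p ≤ (Nat.card (normalizer (H : Set G))).factorization p)
    (Gp : Sylow p G) :
    ∃ K : Subgroup G, K ≤ (Gp : Subgroup G) ∧ (Gp : Subgroup G) ≤ Subgroup.normalizer (K : Set G) ∧ QD q K := by
  obtain ⟨P₀⟩ : Nonempty (Sylow p (normalizer (H : Set G))) := inferInstance
  obtain ⟨H₁, hH₁, hP, hy, hu⟩ := enlarge hH hq (normalizer (H : Set G)) rfl P₀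
  have hv1 : (Nat.card (normalizer (H : Set G))).factorization p ≤
      (Nat.card (normalizer (H₁ : Set G))).factorization p := by
    rw [← hp.out.pow_dvd_iff_le_factorization Nat.card_pos.ne', ← P₀.card_eq_multiplicity,
      ← Cfsg.Agent.H1.card_map_subtype (P₀ : Subgroup (normalizer (H : Set G)))]
    exact Subgroup.card_dvd_of_le hP
  obtain ⟨P, K, hPp, hKP, hKq, hnorm, hcard⟩ := final hpq h23 hsol hH₁ (normalizer (H₁ : Set G)) rfl hy hu
  have hKp : IsPGroup p K := hPp.to_le hKP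
  obtain ⟨S, hS⟩ := hPp.exists_le_sylow
  have hPS : P = (S : Subgroup G) := by
    by_contra hne
    have hlt : P < (S : Subgroup G) := lt_of_le_of_ne hS hne
    haveI : Group.IsNilpotent ↥(S : Subgroup G) := S.2.isNilpotent
    have h1 := Cfsg.Agent.H1.lt_normalizer_inf_of_nilpotent inferInstance hlt
    set U := normalizer (P : Set G) ⊓ (S : Subgroup G) with hU
    have hUp : IsPGroup p U := S.2.to_le inf_le_right
    obtain ⟨m, hm⟩ := IsPGroup.iff_card.1 hUp
    have h2 : Nat.card P < Nat.card U := by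
      by_contra hcon
      push Not at hcon
      exact h1.ne (Subgroup.eq_of_le_of_card_ge h1.le hcon)
    rw [hcard, hm] at h2
    have h3 := (Nat.pow_lt_pow_iff_right hp.out.one_lt).1 h2
    have h4 : m ≤ (Nat.card (normalizer (K : Set G))).factorization p := by
      rw [← hp.out.pow_dvd_iff_le_factorization Nat.card_pos.ne', ← hm]
      exact Subgroup.card_dvd_of_le ((inf_le_left).trans hnorm)
    have h5 := hmax K hKp hKq
    omega
  obtain ⟨g, hg⟩ := MulAction.exists_smul_eq G S Gp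
  have hGp : (Gp : Subgroup G) = P.map (MulAut.conj g).toMonoidHom := by
    rw [← hg, hPS]; rfl
  refine ⟨K.map (MulAut.conj g).toMonoidHom, ?_, ?_, qd_conj hKq g⟩
  · rw [hGp]; exact Subgroup.map_mono hKP
  · rw [hGp]
    rintro _ ⟨x, hx, rfl⟩
    have h1 : x ∈ normalizer (K : Set G) := hnorm (le_normalizer hx)
    rw [mem_normalizer_iff]
    intro w
    constructor
    · rintro ⟨k, hk, rfl⟩
      refine ⟨x * k * x⁻¹, (mem_normalizer_iff.1 h1 k).1 hk, ?_⟩
      show g * (x * k * x⁻¹) * g⁻¹ = g * x * g⁻¹ * (g * k * g⁻¹) * (g * x * g⁻¹)⁻¹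
      group
    · rintro ⟨k, hk, hk2⟩
      have hk3 : g * k * g⁻¹ = g * x * g⁻¹ * w * (g * x * g⁻¹)⁻¹ := hk2
      refine ⟨x⁻¹ * k * x, ?_, ?_⟩
      · have := (mem_normalizer_iff.1 (inv_mem h1) k).1 hk
        rwa [inv_inv] at this
      · show g * (x⁻¹ * k * x) * g⁻¹ = w
        have : k = g⁻¹ * (g * x * g⁻¹ * w * (g * x * g⁻¹)⁻¹) * g := by rw [← hk3]; group
        rw [this]; group

/-- Let p and q be distinct primes with {p, q} ≠ {2, 3}, and let G be a finite group such that for every p-subgroup H of G the automizer N_G(H)/C_G(H) is p-solvable. If q divides the order of N_G(H)/C_G(H) for some p-subgroup H, then a Sylow p-subgroup of G has a normal subgroup K (normal in the Sylow subgroup) such that q divides the order of N_G(K)/C_G(K). -/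
theorem result {G : Type*} [Group G] [Finite G]
    (p q : ℕ) [Fact p.Prime] [Fact q.Prime] (hpq : p ≠ q) (h23 : ¬ ((p = 2 ∧ q = 3) ∨ (p = 3 ∧ q = 2)))
    (hsol : ∀ H : Subgroup G, IsPGroup p ↥H →
      Cfsg.IsPSolvable p (↥(Subgroup.normalizer (H : Set G)) ⧸ (Subgroup.centralizer (H : Set G)).subgroupOf (Subgroup.normalizer (H : Set G))))
    (H : Subgroup G) (hH : IsPGroup p ↥H)
    (hq : q ∣ ((Subgroup.centralizer (H : Set G)).subgroupOf (Subgroup.normalizer (H : Set G))).index)
    (Gp : Sylow p G) :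
    ∃ K : Subgroup G, K ≤ (Gp : Subgroup G) ∧ (Gp : Subgroup G) ≤ Subgroup.normalizer (K : Set G) ∧
      q ∣ ((Subgroup.centralizer (K : Set G)).subgroupOf (Subgroup.normalizer (K : Set G))).index := by
  classical
  -- choose `H` with `|N(H)|_p` maximal
  have hfin : ({B : Subgroup G | IsPGroup p B ∧ QD q B}).Finite := Set.toFinite _
  obtain ⟨A, hA1, hA2⟩ := Set.Finite.exists_maximalFor
    (fun B : Subgroup G => (Nat.card (normalizer (B : Set G))).factorization p) _ hfin ⟨H, hH, hq⟩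
  obtain ⟨K, h1, h2, h3⟩ := aux p q hpq h23 hsol A hA1.1 hA1.2 (by
    intro H' hH' hqH'
    by_contra hlt
    push Not at hlt
    exact absurd (hA2 (j := H') ⟨hH', hqH'⟩ hlt.le) (not_le.2 hlt)) Gp
  exact ⟨K, h1, h2, h3⟩

end Cfsg.Agent.S4411
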