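import Cfsg.Statements.S4412
import Cfsg.Agent.H18.Brd1

set_option autoImplicit false
open Cfsg
open Subgroup Cfsg.Agent.H18
set_option maxHeartbeats 1000000

namespace Cfsg.Agent.S4412

/-- Let p be an odd prime, P a finite p-group and I an elementary abelian subgroup of order 8 of Aut(P). Call T ∈ I, T ≠ 1, broad when its fixed-point subgroup C_P(T) is not cyclic. Suppose I has a proper subgroup I₀ containing no broad element such that the product of any two broad elements lies in I₀. Then P is abelian of rank exactly 3 (generated by three elements but not by two), there are exactly three broad elements and they generate I, and I₀ is exactly the set of products of two broad elements. -/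
theorem result
    {P : Type*} [Group P] [Finite P] (p : ℕ) (hp : p.Prime) (hp2 : p ≠ 2) (hP : IsPGroup p P)
    (I : Subgroup (MulAut P)) (hI : Cfsg.IsElementaryAbelian 2 I) (hI8 : Nat.card ↥I = 8)
    (I₀ : Subgroup (MulAut P)) (hI₀ : I₀ < I)
    (hdisj : ∀ T ∈ I₀, T ≠ 1 → ∃ g : P, ∀ x : P, (T x = x ↔ x ∈ Subgroup.zpowers g))
    (hprod : ∀ T ∈ I, ∀ T' ∈ I, T ≠ 1 → T' ≠ 1 → (¬ ∃ g : P, ∀ x : P, (T x = x ↔ x ∈ Subgroup.zpowers g)) →
      (¬ ∃ g : P, ∀ x : P, (T' x = x ↔ x ∈ Subgroup.zpowers g)) → T * T' ∈ I₀) :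
    IsMulCommutative P ∧ (∃ a b c : P, Subgroup.closure {a, b, c} = ⊤) ∧ (¬ ∃ a b : P, Subgroup.closure {a, b} = ⊤) ∧
      Nat.card {T : MulAut P // T ∈ I ∧ T ≠ 1 ∧ ¬ ∃ g : P, ∀ x : P, (T x = x ↔ x ∈ Subgroup.zpowers g)} = 3 ∧
      Subgroup.closure {T : MulAut P | T ∈ I ∧ T ≠ 1 ∧ ¬ ∃ g : P, ∀ x : P, (T x = x ↔ x ∈ Subgroup.zpowers g)} = I ∧
      (I₀ : Set (MulAut P)) = {S : MulAut P | ∃ T T' : MulAut P, T ∈ I ∧ T' ∈ I ∧ T ≠ 1 ∧ T' ≠ 1 ∧
        (¬ ∃ g : P, ∀ x : P, (T x = x ↔ x ∈ Subgroup.zpowers g)) ∧ (¬ ∃ g : P, ∀ x : P, (T' x = x ↔ x ∈ Subgroup.zpowers g)) ∧ S = T * T'} := by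
  classical
  haveI : Fact p.Prime := ⟨hp⟩
  have hsq : ∀ T ∈ I, ∀ x, T (T x) = x := by
    intro T hT x
    have := DFunLike.congr_fun (hI.2 T hT) x
    rw [sq, MulAut.mul_apply] at this
    exact this
  have hmm : ∀ T ∈ I, T * T = 1 := fun T hT => by rw [← sq]; exact hI.2 T hT
  have hcm : ∀ S ∈ I, ∀ T ∈ I, S * T = T * S := fun S hS T hT =>
    congrArg Subtype.val (hI.1.is_comm.comm (⟨S, hS⟩ : I) ⟨T, hT⟩)
  -- choose the three hyperplanes
  obtain ⟨T₁, hT₁, hT₁1⟩ : ∃ T ∈ I, T ≠ 1 := by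
    by_contra hcon
    push Not at hcon
    have : I = ⊥ := by rw [eq_bot_iff]; intro T hT; rw [mem_bot]; exact hcon T hT
    rw [this] at hI8
    simp at hI8
  obtain ⟨U₁, h₁, hTU₁⟩ := exists_hy hp2 hP I hI hT₁ hT₁1
  have hcard : ∀ U V : Subgroup (MulAut P), Hy I U → (∃ T ∈ V, T ∉ U) → V ≤ I →
      Nat.card V ≤ 2 * Nat.card (V ⊓ U : Subgroup (MulAut P)) := by
    intro U V hU ⟨T, hTV, hTU⟩ hVI
    have hfin : Finite (MulAut P) := inferInstance
    let f : V → Bool × (V ⊓ U : Subgroup (MulAut P)) := fun S =>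
      if h : (S : MulAut P) ∈ U then (true, ⟨S, mem_inf.2 ⟨S.2, h⟩⟩)
      else (false, ⟨S * T, mem_inf.2 ⟨V.mul_mem S.2 hTV, (hU.mem_mul (hVI S.2) (hVI hTV)).2 ⟨fun h' => absurd h' h, fun h' => absurd h' hTU⟩⟩⟩)
    have hf : Function.Injective f := by
      intro S S' h
      simp only [f] at h
      split_ifs at h with h1 h2
      · simp only [Prod.mk.injEq, true_and, Subtype.mk.injEq] at h
        exact Subtype.ext h
      · simp at h
      · simp at h
      · simp only [Prod.mk.injEq, true_and, Subtype.mk.injEq] at h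
        exact Subtype.ext (mul_right_cancel h)
    have := Nat.card_le_card_of_injective f hf
    rw [Nat.card_prod] at this
    simpa using this
  have c1 : 4 ≤ Nat.card (I ⊓ U₁ : Subgroup (MulAut P)) := by
    have := hcard U₁ I h₁ h₁.ne le_rfl
    omega
  have hex : ∀ V : Subgroup (MulAut P), 1 < Nat.card V → ∃ T ∈ V, T ≠ 1 := by
    intro V hV
    by_contra hcon
    push Not at hcon
    have : V = ⊥ := by rw [eq_bot_iff]; intro T hT; rw [mem_bot]; exact hcon T hT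
    rw [this] at hV
    simp at hV
  obtain ⟨T₂, hT₂, hT₂1⟩ := hex _ (by omega : 1 < Nat.card (I ⊓ U₁ : Subgroup (MulAut P)))
  obtain ⟨U₂, h₂, hTU₂⟩ := exists_hy hp2 hP I hI (mem_inf.1 hT₂).1 hT₂1
  have c2 : 2 ≤ Nat.card (I ⊓ U₁ ⊓ U₂ : Subgroup (MulAut P)) := by
    have := hcard U₂ (I ⊓ U₁) h₂ ⟨T₂, hT₂, hTU₂⟩ inf_le_left
    omega
  obtain ⟨e₃, he₃, he₃1⟩ := hex _ (by omega : 1 < Nat.card (I ⊓ U₁ ⊓ U₂ : Subgroup (MulAut P)))
  obtain ⟨⟨he₃I, he₃₁⟩, he₃₂⟩ : (e₃ ∈ I ∧ e₃ ∈ U₁) ∧ e₃ ∈ U₂ :=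
    ⟨mem_inf.1 (mem_inf.1 he₃).1, (mem_inf.1 he₃).2⟩
  obtain ⟨U₃, h₃, he₃₃⟩ := exists_hy hp2 hP I hI he₃I he₃1
  obtain ⟨hT₂I, hT₂₁⟩ := mem_inf.1 hT₂
  obtain ⟨e₂, he₂I, he₂₁, he₂₂, he₂₃⟩ : ∃ e ∈ I, e ∈ U₁ ∧ e ∉ U₂ ∧ e ∈ U₃ := by
    by_cases h : T₂ ∈ U₃
    · exact ⟨T₂, hT₂I, hT₂₁, hTU₂, h⟩
    · refine ⟨T₂ * e₃, I.mul_mem hT₂I he₃I, ?_, ?_, ?_⟩
      · rw [h₁.mem_mul hT₂I he₃I]; tauto
      · rw [h₂.mem_mul hT₂I he₃I]; tauto
      · rw [h₃.mem_mul hT₂I he₃I]; tauto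
  obtain ⟨e₁, he₁I, he₁₁, he₁₂, he₁₃⟩ : ∃ e ∈ I, e ∉ U₁ ∧ e ∈ U₂ ∧ e ∈ U₃ := by
    obtain ⟨S, hS, hS₁, hS₂⟩ : ∃ S ∈ I, S ∉ U₁ ∧ S ∈ U₂ := by
      by_cases h : T₁ ∈ U₂
      · exact ⟨T₁, hT₁, hTU₁, h⟩
      · refine ⟨T₁ * e₂, I.mul_mem hT₁ he₂I, ?_, ?_⟩
        · rw [h₁.mem_mul hT₁ he₂I]; tauto
        · rw [h₂.mem_mul hT₁ he₂I]; tauto
    by_cases h : S ∈ U₃
    · exact ⟨S, hS, hS₁, hS₂, h⟩
    · refine ⟨S * e₃, I.mul_mem hS he₃I, ?_, ?_, ?_⟩
      · rw [h₁.mem_mul hS he₃I]; tauto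
      · rw [h₂.mem_mul hS he₃I]; tauto
      · rw [h₃.mem_mul hS he₃I]; tauto
  have hne1 : ∀ (U : Subgroup (MulAut P)) (T : MulAut P), T ∉ U → T ≠ 1 := by
    rintro U T hT rfl; exact hT (one_mem U)
  have b₃ := h₁.broad hp2 hP hI h₂ he₃₁ he₃₂ he₂₁ he₂₂
  have b₂ := h₁.broad hp2 hP hI h₃ he₂₁ he₂₃ he₃₁ he₃₃
  have b₁ := h₂.broad hp2 hP hI h₃ he₁₂ he₁₃ he₃₂ he₃₃
  have n₁ := hne1 _ _ he₁₁
  have n₂ := hne1 _ _ he₂₂
  have n₃ := hne1 _ _ he₃₃
  -- the products
  have ha0 := hprod e₂ he₂I e₃ he₃I n₂ n₃ b₂ b₃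
  have hb0 := hprod e₁ he₁I e₃ he₃I n₁ n₃ b₁ b₃
  have hc0 := hprod e₁ he₁I e₂ he₂I n₁ n₂ b₁ b₂
  set a := e₂ * e₃ with ha
  set b := e₁ * e₃ with hb
  set c := e₁ * e₂ with hc
  have haI : a ∈ I := I.mul_mem he₂I he₃I
  have hbI : b ∈ I := I.mul_mem he₁I he₃I
  have hcI : c ∈ I := I.mul_mem he₁I he₂I
  set t := c * e₃ with ht
  have htI : t ∈ I := I.mul_mem hcI he₃I
  have a1 : a ∈ U₁ := by rw [ha, h₁.mem_mul he₂I he₃I]; tauto
  have a2 : a ∉ U₂ := by rw [ha, h₂.mem_mul he₂I he₃I]; tauto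
  have a3 : a ∉ U₃ := by rw [ha, h₃.mem_mul he₂I he₃I]; tauto
  have b1 : b ∉ U₁ := by rw [hb, h₁.mem_mul he₁I he₃I]; tauto
  have b2 : b ∈ U₂ := by rw [hb, h₂.mem_mul he₁I he₃I]; tauto
  have b3 : b ∉ U₃ := by rw [hb, h₃.mem_mul he₁I he₃I]; tauto
  have c1' : c ∉ U₁ := by rw [hc, h₁.mem_mul he₁I he₂I]; tauto
  have c2' : c ∉ U₂ := by rw [hc, h₂.mem_mul he₁I he₂I]; tauto
  have c3' : c ∈ U₃ := by rw [hc, h₃.mem_mul he₁I he₂I]; tauto
  have t1 : t ∉ U₁ := by rw [ht, h₁.mem_mul hcI he₃I]; tauto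
  have t2 : t ∉ U₂ := by rw [ht, h₂.mem_mul hcI he₃I]; tauto
  have t3 : t ∉ U₃ := by rw [ht, h₃.mem_mul hcI he₃I]; tauto
  obtain ⟨ga, hga⟩ := hdisj a ha0 (hne1 _ _ a2)
  obtain ⟨gb, hgb⟩ := hdisj b hb0 (hne1 _ _ b1)
  obtain ⟨gc, hgc⟩ := hdisj c hc0 (hne1 _ _ c1')
  have inva : ∀ S ∈ I, S ∉ U₁ → ∀ y, a y = y → S y = y⁻¹ := fun S hS hS1 y hy =>
    h₁.inverts hp2 hP hI a1 hga hS hS1 hy
  have invb : ∀ S ∈ I, S ∉ U₂ → ∀ y, b y = y → S y = y⁻¹ := fun S hS hS1 y hy =>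
    h₂.inverts hp2 hP hI b2 hgb hS hS1 hy
  have invc : ∀ S ∈ I, S ∉ U₃ → ∀ y, c y = y → S y = y⁻¹ := fun S hS hS1 y hy =>
    h₃.inverts hp2 hP hI c3' hgc hS hS1 hy
  have habc : ∀ y, a (b y) = c y := by
    intro y
    have : a * b = c := by
      rw [ha, hb, hc]
      calc e₂ * e₃ * (e₁ * e₃) = e₂ * (e₃ * (e₁ * e₃)) := by group
        _ = e₂ * (e₃ * (e₃ * e₁)) := by rw [hcm e₁ he₁I e₃ he₃I]
        _ = e₂ * ((e₃ * e₃) * e₁) := by group
        _ = e₂ * e₁ := by rw [hmm e₃ he₃I, one_mul]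
        _ = e₁ * e₂ := hcm _ he₂I _ he₁I
    rw [← this]; rfl
  -- t is fixed point free
  have tfpf : ∀ y, t y = y → y = 1 := by
    let H : Subgroup P :=
      { carrier := {y | t y = y}
        mul_mem' := by
          intro x y hx hy
          show t (x * y) = x * y
          rw [map_mul, show t x = x from hx, show t y = y from hy]
        one_mem' := map_one t
        inv_mem' := by
          intro x hx
          show t x⁻¹ = x⁻¹
          rw [map_inv, show t x = x from hx] }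
    have hmem : ∀ S ∈ I, ∀ y ∈ H, S y ∈ H := by
      intro S hS y hy
      show t (S y) = S y
      have h1 : t (S y) = S (t y) := DFunLike.congr_fun (hcm t htI S hS) y
      rw [h1]
      exact congrArg S hy
    have hfix : ∀ S ∈ I, (∀ y ∈ H, S y = y → y = 1) → ∀ y ∈ H, S y = y⁻¹ := by
      intro S hS hfp y hy
      let φ : H →* H := (S.toMonoidHom.comp H.subtype).codRestrict H (fun y => hmem S hS y y.2)
      have hφ : MonoidHom.FixedPointFree φ := by
        intro z hz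
        have := congrArg Subtype.val hz
        exact Subtype.ext (hfp z z.2 this)
      have hφ2 : Function.Involutive φ := by
        intro z
        apply Subtype.ext
        exact hsq S hS z
      have := congrFun (MonoidHom.FixedPointFree.coe_eq_inv_of_involutive hφ hφ2) ⟨y, hy⟩
      exact congrArg Subtype.val this
    have hA := hfix a haI (fun y hy h => by
      have := inva t htI t1 y h
      rw [show t y = y from hy] at this
      exact eq_one_of_inv_eq hp2 hP this)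
    have hB := hfix b hbI (fun y hy h => by
      have := invb t htI t2 y h
      rw [show t y = y from hy] at this
      exact eq_one_of_inv_eq hp2 hP this)
    intro y hy
    have h1 : c y = y := by
      rw [← habc, hB y hy, map_inv, hA y hy, inv_inv]
    have := invc t htI t3 y h1
    rw [hy] at this
    exact eq_one_of_inv_eq hp2 hP this
  have tinv : ∀ y, t y = y⁻¹ := by
    have hφ : MonoidHom.FixedPointFree t.toMonoidHom := fun y hy => tfpf y hy
    intro y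
    exact congrFun (MonoidHom.FixedPointFree.coe_eq_inv_of_involutive hφ (fun y => hsq t htI y)) y
  have hcommP : ∀ x y : P, x * y = y * x := by
    intro x y
    have h1 := map_mul t x⁻¹ y⁻¹
    rw [tinv, tinv, tinv, inv_inv, inv_inv, mul_inv_rev, inv_inv, inv_inv] at h1
    exact h1.symm
  have hcomm : IsMulCommutative P := ⟨⟨hcommP⟩⟩
  letI : CommGroup P := { (inferInstance : Group P) with mul_comm := hcommP }
  -- every x is a product
  have hgen : Subgroup.closure ({ga, gb, gc} : Set P) = ⊤ := by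
    rw [eq_top_iff]
    intro x _
    have z1 : zpowers ga ≤ Subgroup.closure ({ga, gb, gc} : Set P) := by
      rw [zpowers_le]; exact subset_closure (by simp)
    have z2 : zpowers gb ≤ Subgroup.closure ({ga, gb, gc} : Set P) := by
      rw [zpowers_le]; exact subset_closure (by simp)
    have z3 : zpowers gc ≤ Subgroup.closure ({ga, gb, gc} : Set P) := by
      rw [zpowers_le]; exact subset_closure (by simp)
    have y1 : x * a x ∈ zpowers ga := by
      rw [← hga, map_mul, hsq a haI, mul_comm]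
    have y2 : x * b x ∈ zpowers gb := by
      rw [← hgb, map_mul, hsq b hbI, mul_comm]
    have y3 : x * c x ∈ zpowers gc := by
      rw [← hgc, map_mul, hsq c hcI, mul_comm]
    have hba : ∀ y, b (a y) = c y := by
      intro y
      rw [← habc]
      exact DFunLike.congr_fun (hcm b hbI a haI) y
    have hac : ∀ y, a (c y) = b y := by
      intro y; rw [← habc, hsq a haI]
    have hbc : ∀ y, b (c y) = a y := by
      intro y; rw [← hba, hsq b hbI]
    have y4 : x * a x * b x * c x = 1 := by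
      have w1 : a (x * a x * b x * c x) = x * a x * b x * c x := by
        rw [map_mul, map_mul, map_mul, hsq a haI, habc, hac]
        rw [mul_comm (a x) x, mul_assoc, mul_assoc, mul_comm (c x) (b x), ← mul_assoc, ← mul_assoc]
      have w2 : b (x * a x * b x * c x) = x * a x * b x * c x := by
        rw [map_mul, map_mul, map_mul, hsq b hbI, hba, hbc]
        calc b x * c x * x * a x = x * a x * (b x * c x) := by
              rw [mul_assoc (b x * c x), mul_comm]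
          _ = _ := by rw [← mul_assoc]
      have w3 := inva b hbI b1 _ w1
      rw [w2] at w3
      exact eq_one_of_inv_eq hp2 hP w3
    have y5 : (x * a x) * (x * b x) * (x * c x) = x ^ 2 := by
      calc (x * a x) * (x * b x) * (x * c x) = x ^ 2 * (x * a x * b x * c x) := by
            rw [sq]
            calc (x * a x) * (x * b x) * (x * c x) = x * (a x * x) * b x * (x * c x) := by group
              _ = x * (x * a x) * b x * (x * c x) := by rw [mul_comm (a x) x]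
              _ = x * x * (a x * (b x * x)) * c x := by group
              _ = x * x * (a x * (x * b x)) * c x := by rw [mul_comm (b x) x]
              _ = x * x * ((a x * x) * b x) * c x := by group
              _ = x * x * ((x * a x) * b x) * c x := by rw [mul_comm (a x) x]
              _ = _ := by group
        _ = x ^ 2 := by rw [y4, mul_one]
    have y6 : x ^ 2 ∈ Subgroup.closure ({ga, gb, gc} : Set P) := by
      rw [← y5]
      exact mul_mem (mul_mem (z1 y1) (z2 y2)) (z3 y3)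
    obtain ⟨n, hn⟩ := hP x
    have hodd : Odd (p ^ n) := (hp.odd_of_ne_two hp2).pow
    obtain ⟨m, hm⟩ := hodd
    have y7 : x = (x ^ 2) ^ (m + 1) := by
      rw [← pow_mul, show 2 * (m + 1) = p ^ n + 1 by omega, pow_succ, hn, one_mul]
    rw [y7]
    exact pow_mem y6 _
  -- not two-generated
  have hsub : ∀ (U : Subgroup (MulAut P)) (a' g : MulAut P) (g : P), Hy I U → a' ∈ U →
      (∀ x : P, (a' x = x ↔ x ∈ Subgroup.zpowers g)) → ∃ h ∈ zpowers g, orderOf h = p := by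
    intro U a' _ g hU haU hg
    have h1 : g ≠ 1 := by
      rintro rfl
      obtain ⟨x, hx, hx'⟩ := hU.ex
      have h2 : x ∈ zpowers (1 : P) := (hg x).1 (hx a' haU)
      rw [mem_zpowers_iff] at h2
      obtain ⟨k, hk⟩ := h2
      rw [one_zpow] at hk
      obtain ⟨S, hS, hSU⟩ := hU.ne
      apply hx' S hS hSU
      rw [← hk, map_one]
    have h2 : p ∣ orderOf g := by
      obtain ⟨n, hn⟩ := (IsPGroup.iff_orderOf.1 hP) g
      rw [hn]
      refine dvd_pow_self p ?_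
      rintro rfl
      rw [pow_zero, orderOf_eq_one_iff] at hn
      exact h1 hn
    obtain ⟨k, hk⟩ := h2
    refine ⟨g ^ k, pow_mem (mem_zpowers g) k, ?_⟩
    have h3 : 0 < orderOf g := orderOf_pos g
    have h4 : k ≠ 0 := by rintro rfl; omega
    rw [orderOf_pow_of_dvd h4 ⟨p, by rw [hk]; ring⟩, hk]
    exact Nat.mul_div_cancel _ (Nat.pos_of_ne_zero h4)
  obtain ⟨k₁, hk₁, ok₁⟩ := hsub U₁ a 1 ga h₁ a1 hga
  obtain ⟨k₂, hk₂, ok₂⟩ := hsub U₂ b 1 gb h₂ b2 hgb
  obtain ⟨k₃, hk₃, ok₃⟩ := hsub U₃ c 1 gc h₃ c3' hgc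
  have f1 : a k₁ = k₁ := (hga _).2 hk₁
  have f2 : b k₂ = k₂ := (hgb _).2 hk₂
  have f3 : c k₃ = k₃ := (hgc _).2 hk₃
  have g1 : b k₁ = k₁⁻¹ ∧ c k₁ = k₁⁻¹ := ⟨inva b hbI b1 _ f1, inva c hcI c1' _ f1⟩
  have g2 : a k₂ = k₂⁻¹ ∧ c k₂ = k₂⁻¹ := ⟨invb a haI a2 _ f2, invb c hcI c2' _ f2⟩
  have g3 : a k₃ = k₃⁻¹ ∧ b k₃ = k₃⁻¹ := ⟨invc a haI a3 _ f3, invc b hbI b3 _ f3⟩
  have hind : ∀ i j k : ℤ, k₁ ^ i * k₂ ^ j * k₃ ^ k = 1 →
      (p : ℤ) ∣ i ∧ (p : ℤ) ∣ j ∧ (p : ℤ) ∣ k := by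
    intro i j k h
    have q1 : k₁ ^ i = 1 := by
      have := congrArg a h
      rw [map_mul, map_mul, map_zpow, map_zpow, map_zpow, f1, g2.1, g3.1, map_one] at this
      have h5 : (k₁ ^ i)⁻¹ = k₁ ^ i := by
        have h6 : k₁ ^ i = (k₂ ^ j * k₃ ^ k)⁻¹ := by
          rw [mul_assoc] at h
          exact eq_inv_of_mul_eq_one_left h
        have h7 : k₁ ^ i = k₂ ^ j * k₃ ^ k := by
          rw [inv_zpow, inv_zpow, mul_assoc, ← mul_inv] at this
          exact mul_inv_eq_one.1 this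
        rw [← h7] at h6; exact h6.symm
      exact eq_one_of_inv_eq hp2 hP h5.symm
    have q2 : k₂ ^ j = 1 := by
      rw [q1, one_mul] at h
      have h5 : k₂ ^ j = (k₃ ^ k)⁻¹ := eq_inv_of_mul_eq_one_left h
      have := congrArg b h5
      rw [map_zpow, map_inv, map_zpow, f2, g3.2, inv_zpow, inv_inv] at this
      rw [← this] at h5
      exact eq_one_of_inv_eq hp2 hP h5
    have q3 : k₃ ^ k = 1 := by
      rw [q1, q2, one_mul, one_mul] at h; exact h
    refine ⟨?_, ?_, ?_⟩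
    · rw [← ok₁]; exact orderOf_dvd_iff_zpow_eq_one.2 q1
    · rw [← ok₂]; exact orderOf_dvd_iff_zpow_eq_one.2 q2
    · rw [← ok₃]; exact orderOf_dvd_iff_zpow_eq_one.2 q3
  have hnot2 : ¬ ∃ a b : P, Subgroup.closure ({a, b} : Set P) = ⊤ := by
    rintro ⟨u, v, huv⟩
    let f : P →* P := powMonoidHom p
    have hker : p ^ 3 ≤ Nat.card f.ker := by
      let F : Fin p × Fin p × Fin p → f.ker := fun q =>
        ⟨k₁ ^ (q.1 : ℕ) * k₂ ^ (q.2.1 : ℕ) * k₃ ^ (q.2.2 : ℕ), by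
          rw [MonoidHom.mem_ker]
          show (k₁ ^ (q.1 : ℕ) * k₂ ^ (q.2.1 : ℕ) * k₃ ^ (q.2.2 : ℕ)) ^ p = 1
          rw [mul_pow, mul_pow, ← pow_mul, ← pow_mul, ← pow_mul, mul_comm (q.1 : ℕ) p,
            mul_comm (q.2.1 : ℕ) p, mul_comm (q.2.2 : ℕ) p, pow_mul, pow_mul, pow_mul]
          have o1 : k₁ ^ p = 1 := by rw [← ok₁]; exact pow_orderOf_eq_one _
          have o2 : k₂ ^ p = 1 := by rw [← ok₂]; exact pow_orderOf_eq_one _
          have o3 : k₃ ^ p = 1 := by rw [← ok₃]; exact pow_orderOf_eq_one _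
          rw [o1, o2, o3]; simp⟩
      have hF : Function.Injective F := by
        rintro ⟨x1, x2, x3⟩ ⟨y1, y2, y3⟩ h
        have h' := congrArg Subtype.val h
        simp only [F] at h'
        have h4 : k₁ ^ ((x1 : ℤ) - y1) * k₂ ^ ((x2 : ℤ) - y2) * k₃ ^ ((x3 : ℤ) - y3) = 1 := by
          rw [zpow_sub, zpow_sub, zpow_sub]
          simp only [zpow_natCast]
          have : k₁ ^ (x1 : ℕ) * (k₁ ^ (y1 : ℕ))⁻¹ * (k₂ ^ (x2 : ℕ) * (k₂ ^ (y2 : ℕ))⁻¹) *
              (k₃ ^ (x3 : ℕ) * (k₃ ^ (y3 : ℕ))⁻¹) =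
              (k₁ ^ (x1 : ℕ) * k₂ ^ (x2 : ℕ) * k₃ ^ (x3 : ℕ)) *
              (k₁ ^ (y1 : ℕ) * k₂ ^ (y2 : ℕ) * k₃ ^ (y3 : ℕ))⁻¹ := by
            rw [mul_inv, mul_inv, mul_mul_mul_comm (k₁ ^ (x1 : ℕ) * k₂ ^ (x2 : ℕ)) (k₃ ^ (x3 : ℕ)),
              mul_mul_mul_comm (k₁ ^ (x1 : ℕ)) (k₂ ^ (x2 : ℕ))]
          rw [this, h', mul_inv_cancel]
        obtain ⟨r1, r2, r3⟩ := hind _ _ _ h4
        have key : ∀ x y : Fin p, (p : ℤ) ∣ (x : ℤ) - y → x = y := by
          intro x y hxy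
          have hx := x.2
          have hy := y.2
          have : ((x : ℕ) : ℤ) - (y : ℕ) = 0 := by
            apply Int.eq_zero_of_abs_lt_dvd hxy
            rw [abs_lt]; constructor <;> omega
          apply Fin.ext; omega
        rw [key _ _ r1, key _ _ r2, key _ _ r3]
      have := Nat.card_le_card_of_injective F hF
      have hc3 : Nat.card (Fin p × Fin p × Fin p) = p * (p * p) := by
        rw [Nat.card_prod, Nat.card_prod, Nat.card_fin]
      rw [hc3] at this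
      calc p ^ 3 = p * (p * p) := by ring
        _ ≤ _ := this
    have hrange : Nat.card (P ⧸ f.range) ≤ p ^ 2 := by
      let F : Fin p × Fin p → P ⧸ f.range := fun q =>
        ((u ^ (q.1 : ℕ) * v ^ (q.2 : ℕ) : P) : P ⧸ f.range)
      have hF : Function.Surjective F := by
        intro z
        obtain ⟨x, rfl⟩ := QuotientGroup.mk_surjective z
        have hx : x ∈ Subgroup.closure ({u, v} : Set P) := by rw [huv]; trivial
        rw [mem_closure_pair] at hx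
        obtain ⟨m, n, hmn⟩ := hx
        have hpp : (0 : ℤ) < p := by exact_mod_cast hp.pos
        have hm0 := Int.emod_nonneg m hpp.ne'
        have hm1 := Int.emod_lt_of_pos m hpp
        have hn0 := Int.emod_nonneg n hpp.ne'
        have hn1 := Int.emod_lt_of_pos n hpp
        refine ⟨(⟨(m % p).toNat, by omega⟩, ⟨(n % p).toNat, by omega⟩), ?_⟩
        simp only [F]
        rw [QuotientGroup.eq]
        refine ⟨u ^ (m / p) * v ^ (n / p), ?_⟩
        show (u ^ (m / p) * v ^ (n / p)) ^ p = _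
        rw [← hmn]
        have e1 : u ^ (m % p).toNat = u ^ (m % (p : ℤ)) := by
          rw [← zpow_natCast, Int.toNat_of_nonneg hm0]
        have e2 : v ^ (n % p).toNat = v ^ (n % (p : ℤ)) := by
          rw [← zpow_natCast, Int.toNat_of_nonneg hn0]
        rw [e1, e2, mul_pow, ← zpow_natCast (u ^ (m / (p : ℤ))) p,
          ← zpow_natCast (v ^ (n / (p : ℤ))) p, ← zpow_mul, ← zpow_mul]
        have d1 : u ^ m = u ^ (m % (p : ℤ)) * u ^ (m / (p : ℤ) * (p : ℤ)) := by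
          rw [← zpow_add]; congr 1; rw [mul_comm]; exact (Int.emod_add_mul_ediv m p).symm
        have d2 : v ^ n = v ^ (n % (p : ℤ)) * v ^ (n / (p : ℤ) * (p : ℤ)) := by
          rw [← zpow_add]; congr 1; rw [mul_comm]; exact (Int.emod_add_mul_ediv n p).symm
        rw [d1, d2]
        rw [mul_inv]
        have : (u ^ (m % (p : ℤ)))⁻¹ * (v ^ (n % (p : ℤ)))⁻¹ *
            (u ^ (m % (p : ℤ)) * u ^ (m / (p : ℤ) * (p : ℤ)) *
              (v ^ (n % (p : ℤ)) * v ^ (n / (p : ℤ) * (p : ℤ)))) =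
            ((u ^ (m % (p : ℤ)))⁻¹ * u ^ (m % (p : ℤ))) *
            ((v ^ (n % (p : ℤ)))⁻¹ * v ^ (n % (p : ℤ))) *
            (u ^ (m / (p : ℤ) * (p : ℤ)) * v ^ (n / (p : ℤ) * (p : ℤ))) := by
          rw [mul_mul_mul_comm (u ^ (m % (p : ℤ))), ← mul_assoc,
            mul_mul_mul_comm (u ^ (m % (p : ℤ)))⁻¹]
        rw [this]; simp
      have := Nat.card_le_card_of_surjective F hF
      have hc3 : Nat.card (Fin p × Fin p) = p * p := by
        rw [Nat.card_prod, Nat.card_fin]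
      rw [hc3] at this
      calc _ ≤ p * p := this
        _ = p ^ 2 := by ring
    have h1 : Nat.card f.ker * f.ker.index = Nat.card P := card_mul_index _
    have h2 : Nat.card f.range * f.range.index = Nat.card P := card_mul_index _
    have h3 : f.ker.index = Nat.card f.range := index_ker f
    have h4 : 0 < Nat.card f.range := Nat.card_pos
    have h5 : Nat.card f.ker = f.range.index := by
      rw [h3] at h1
      rw [← h2, mul_comm] at h1
      exact Nat.eq_of_mul_eq_mul_left h4 h1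
    have h6 : f.range.index = Nat.card (P ⧸ f.range) := rfl
    have h7 : p ^ 3 ≤ p ^ 2 := by
      calc p ^ 3 ≤ Nat.card f.ker := hker
        _ = Nat.card (P ⧸ f.range) := by rw [h5, h6]
        _ ≤ p ^ 2 := hrange
    have h8 := (Nat.pow_le_pow_iff_right hp.one_lt).1 h7
    omega
  -- elements of I
  have hinj : ∀ S ∈ I, ∀ S' ∈ I, (S ∈ U₁ ↔ S' ∈ U₁) → (S ∈ U₂ ↔ S' ∈ U₂) → (S ∈ U₃ ↔ S' ∈ U₃) →
      S = S' := by
    let F : I → Bool × Bool × Bool := fun S =>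
      (decide ((S : MulAut P) ∈ U₁), decide ((S : MulAut P) ∈ U₂), decide ((S : MulAut P) ∈ U₃))
    have hF : Function.Surjective F := by
      rintro ⟨x1, x2, x3⟩
      cases x1 <;> cases x2 <;> cases x3
      · exact ⟨⟨t, htI⟩, by simp [F, t1, t2, t3]⟩
      · exact ⟨⟨c, hcI⟩, by simp [F, c1', c2', c3']⟩
      · exact ⟨⟨b, hbI⟩, by simp [F, b1, b2, b3]⟩
      · exact ⟨⟨e₁, he₁I⟩, by simp [F, he₁₁, he₁₂, he₁₃]⟩
      · exact ⟨⟨a, haI⟩, by simp [F, a1, a2, a3]⟩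
      · exact ⟨⟨e₂, he₂I⟩, by simp [F, he₂₁, he₂₂, he₂₃]⟩
      · exact ⟨⟨e₃, he₃I⟩, by simp [F, he₃₁, he₃₂, he₃₃]⟩
      · exact ⟨⟨1, one_mem I⟩, by simp [F, one_mem]⟩
    have hFb : Function.Bijective F := by
      rw [Nat.bijective_iff_surjective_and_card]
      exact ⟨hF, by rw [hI8]; simp⟩
    intro S hS S' hS' q1 q2 q3
    have := @hFb.1 ⟨S, hS⟩ ⟨S', hS'⟩ (by simp [F, q1, q2, q3])
    exact congrArg Subtype.val this
  have hall : ∀ S ∈ I, S = 1 ∨ S = e₁ ∨ S = e₂ ∨ S = e₃ ∨ S = a ∨ S = b ∨ S = c ∨ S = t := by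
    intro S hS
    by_cases q1 : S ∈ U₁ <;> by_cases q2 : S ∈ U₂ <;> by_cases q3 : S ∈ U₃
    · left; exact hinj S hS 1 (one_mem _) (by simp [q1, one_mem]) (by simp [q2, one_mem]) (by simp [q3, one_mem])
    · right; right; right; left; exact hinj S hS e₃ he₃I (by tauto) (by tauto) (by tauto)
    · right; right; left; exact hinj S hS e₂ he₂I (by tauto) (by tauto) (by tauto)
    · right; right; right; right; left; exact hinj S hS a haI (by tauto) (by tauto) (by tauto)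
    · right; left; exact hinj S hS e₁ he₁I (by tauto) (by tauto) (by tauto)
    · right; right; right; right; right; left; exact hinj S hS b hbI (by tauto) (by tauto) (by tauto)
    · right; right; right; right; right; right; left
      exact hinj S hS c hcI (by tauto) (by tauto) (by tauto)
    · right; right; right; right; right; right; right
      exact hinj S hS t htI (by tauto) (by tauto) (by tauto)
  have tn : ∃ g : P, ∀ x : P, (t x = x ↔ x ∈ Subgroup.zpowers g) := by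
    refine ⟨1, fun x => ⟨fun h => ?_, fun h => ?_⟩⟩
    · rw [tfpf x h]; exact one_mem _
    · obtain ⟨k, hk⟩ := mem_zpowers_iff.1 h
      rw [← hk, one_zpow, map_one]
  have hbr : ∀ T : MulAut P, (T ∈ I ∧ T ≠ 1 ∧ ¬ ∃ g : P, ∀ x : P, (T x = x ↔ x ∈ Subgroup.zpowers g)) ↔
      T ∈ ({e₁, e₂, e₃} : Set (MulAut P)) := by
    intro T
    constructor
    · rintro ⟨q1, q2, q3⟩
      rcases hall T q1 with rfl | rfl | rfl | rfl | h | h | h | h
      · exact absurd rfl q2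
      · simp
      · simp
      · simp
      · exact absurd ⟨ga, by rw [h]; exact hga⟩ q3
      · exact absurd ⟨gb, by rw [h]; exact hgb⟩ q3
      · exact absurd ⟨gc, by rw [h]; exact hgc⟩ q3
      · exact absurd (by rw [h]; exact tn) q3
    · rintro (rfl | rfl | rfl)
      · exact ⟨he₁I, n₁, b₁⟩
      · exact ⟨he₂I, n₂, b₂⟩
      · exact ⟨he₃I, n₃, b₃⟩
  have d12 : e₁ ≠ e₂ := by intro h; rw [h] at he₁₁; exact he₁₁ he₂₁
  have d13 : e₁ ≠ e₃ := by intro h; rw [h] at he₁₁; exact he₁₁ he₃₁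
  have d23 : e₂ ≠ e₃ := by intro h; rw [h] at he₂₂; exact he₂₂ he₃₂
  refine ⟨hcomm, ⟨ga, gb, gc, hgen⟩, hnot2, ?_, ?_, ?_⟩
  · have : {T : MulAut P | T ∈ I ∧ T ≠ 1 ∧ ¬ ∃ g : P, ∀ x : P, (T x = x ↔ x ∈ Subgroup.zpowers g)} =
        ({e₁, e₂, e₃} : Set (MulAut P)) := Set.ext hbr
    show Nat.card ↥{T : MulAut P | T ∈ I ∧ T ≠ 1 ∧ ¬ ∃ g : P, ∀ x : P, (T x = x ↔ x ∈ Subgroup.zpowers g)} = 3
    rw [this, Nat.card_coe_set_eq]
    rw [Set.ncard_eq_three]
    exact ⟨e₁, e₂, e₃, d12, d13, d23, rfl⟩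
  · have : {T : MulAut P | T ∈ I ∧ T ≠ 1 ∧ ¬ ∃ g : P, ∀ x : P, (T x = x ↔ x ∈ Subgroup.zpowers g)} =
        ({e₁, e₂, e₃} : Set (MulAut P)) := Set.ext hbr
    rw [this]
    apply le_antisymm
    · rw [closure_le]
      rintro T (rfl | rfl | rfl)
      · exact he₁I
      · exact he₂I
      · exact he₃I
    · intro T hT
      have m1 : e₁ ∈ Subgroup.closure ({e₁, e₂, e₃} : Set (MulAut P)) := subset_closure (by simp)
      have m2 : e₂ ∈ Subgroup.closure ({e₁, e₂, e₃} : Set (MulAut P)) := subset_closure (by simp)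
      have m3 : e₃ ∈ Subgroup.closure ({e₁, e₂, e₃} : Set (MulAut P)) := subset_closure (by simp)
      rcases hall T hT with rfl | rfl | rfl | rfl | h | h | h | h
      · exact one_mem _
      · exact m1
      · exact m2
      · exact m3
      · rw [h]; exact mul_mem m2 m3
      · rw [h]; exact mul_mem m1 m3
      · rw [h]; exact mul_mem m1 m2
      · rw [h]; exact mul_mem (mul_mem m1 m2) m3
  · ext S
    constructor
    · intro hS
      have hS0 : S ∈ I₀ := hS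
      rcases hall S (hI₀.le hS0) with h | h | h | h | h | h | h | h
      · exact ⟨e₁, e₁, he₁I, he₁I, n₁, n₁, b₁, b₁, by rw [h, hmm e₁ he₁I]⟩
      · exact absurd (hdisj S hS0 (by rw [h]; exact n₁)) (by rw [h]; exact b₁)
      · exact absurd (hdisj S hS0 (by rw [h]; exact n₂)) (by rw [h]; exact b₂)
      · exact absurd (hdisj S hS0 (by rw [h]; exact n₃)) (by rw [h]; exact b₃)
      · exact ⟨e₂, e₃, he₂I, he₃I, n₂, n₃, b₂, b₃, h⟩
      · exact ⟨e₁, e₃, he₁I, he₃I, n₁, n₃, b₁, b₃, h⟩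
      · exact ⟨e₁, e₂, he₁I, he₂I, n₁, n₂, b₁, b₂, h⟩
      · exfalso
        have h1 : e₃ ∈ I₀ := by
          have h2 : c⁻¹ * S ∈ I₀ := I₀.mul_mem (I₀.inv_mem hc0) hS0
          rw [h, ht] at h2
          rwa [inv_mul_cancel_left] at h2
        exact b₃ (hdisj e₃ h1 n₃)
    · rintro ⟨T, T', hT, hT', q1, q2, q3, q4, rfl⟩
      exact hprod T hT T' hT' q1 q2 q3 q4

end Cfsg.Agent.S4412
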