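import Cfsg.Statements.S4413
import Cfsg.Agent.H18.Xt4

set_option autoImplicit false
open Cfsg
open Cfsg.Agent.H18

namespace Cfsg.Agent.S4413

/-- Let P be an extraspecial 2-group of order 32 with no elementary abelian subgroup of order 8 (the central product of a dihedral and a quaternion group of order 8). Then the inner automorphism group of P has order 16 and the outer automorphism group Aut(P)/Inn(P) is isomorphic to the symmetric group of degree 5; in particular Aut(P) has order 1920. -/
theorem result {P : Type*} [Group P] [Finite P]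
    (hex : Cfsg.IsExtraspecial 2 P) (h32 : Nat.card P = 32)
    (hminus : ∀ A : Subgroup P, Cfsg.IsElementaryAbelian 2 A → Nat.card ↥A ≤ 4)
    [(MulAut.conj : P →* MulAut P).range.Normal] :
    Nat.card ↥(MulAut.conj : P →* MulAut P).range = 16 ∧ Nat.card (MulAut P) = 1920 ∧
      Nonempty ((MulAut P ⧸ (MulAut.conj : P →* MulAut P).range) ≃* Equiv.Perm (Fin 5)) := by
  obtain ⟨z, hxs⟩ := H29.xs_top hex
  have h := Xt.of_xs hxs
  obtain ⟨x, hx⟩ := h.exists_fam h32 (noE8_of h hminus)
  obtain ⟨φ, hφ⟩ := hx.exists_hom h
  have hkc := hx.ker_card h h32 φ hφ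
  -- inner automorphisms
  have hker : (MulAut.conj : P →* MulAut P).ker = Subgroup.center P := by
    ext g
    rw [MonoidHom.mem_ker, Subgroup.mem_center_iff]
    constructor
    · intro h1 y
      have := congrArg (fun α : MulAut P => α y) h1
      simp only [MulAut.conj_apply, MulAut.one_apply] at this
      exact (mul_inv_eq_iff_eq_mul.1 this).symm
    · intro h1
      apply MulEquiv.ext
      intro y
      rw [MulAut.conj_apply, ← h1 y]
      simp
  have hinn : Nat.card ↥(MulAut.conj : P →* MulAut P).range = 16 := by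
    have h1 := Subgroup.card_eq_card_quotient_mul_card_subgroup (MulAut.conj : P →* MulAut P).ker
    rw [Nat.card_congr (QuotientGroup.quotientKerEquivRange (MulAut.conj : P →* MulAut P)).toEquiv,
      h32, hker, hex.2] at h1
    omega
  have hle : (MulAut.conj : P →* MulAut P).range ≤ φ.ker := by
    rintro _ ⟨g, rfl⟩
    rw [MonoidHom.mem_ker]
    apply Equiv.ext
    intro i
    refine hx.uniq h (hφ _ i) ?_
    rw [MulAut.conj_apply]
    rcases h.comm g (x i) with h1 | h1
    · left; rw [h1]; simp
    · right; rw [h1]; simp [mul_assoc]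
  have heq : (MulAut.conj : P →* MulAut P).range = φ.ker :=
    Subgroup.eq_of_le_of_card_ge hle (by rw [hinn]; exact hkc)
  have hsurj : Function.Surjective φ := by
    intro π
    obtain ⟨α, hα⟩ := hx.exists_aut h h32 π
    exact ⟨α, Equiv.ext fun i => hx.uniq h (hφ α i) (hα i)⟩
  let e : (MulAut P ⧸ (MulAut.conj : P →* MulAut P).range) ≃* Equiv.Perm (Fin 5) :=
    (QuotientGroup.quotientMulEquivOfEq heq).trans (QuotientGroup.quotientKerEquivOfSurjective φ hsurj)
  refine ⟨hinn, ?_, ⟨e⟩⟩
  rw [Subgroup.card_eq_card_quotient_mul_card_subgroup (MulAut.conj : P →* MulAut P).range, hinn,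
    Nat.card_congr e.toEquiv, Nat.card_perm, Nat.card_fin]
  rfl

end Cfsg.Agent.S4413
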