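import Cfsg.Statements.S4414
import Cfsg.Agent.H18.Wt4
import Cfsg.Agent.H23.RankOne2

set_option autoImplicit false
open Cfsg
open Subgroup Cfsg.Agent.H18.Wt TensorProduct Pointwise
set_option maxHeartbeats 1000000

namespace Cfsg.Agent.S4414

theorem odd_cast {K : Type*} [Field K] [CharP K 2] {n : ℕ} (h : Odd n) : (n : K) = 1 := by
  obtain ⟨k, rfl⟩ := h
  push_cast
  rw [CharTwo.two_eq_zero, zero_mul, zero_add]

/-- Let S be a finite solvable group whose order is divisible only by the primes 2, p, q (p, q distinct odd primes), with a Sylow system S₂, S_p, S_q (pairwise permutable Sylow subgroups) such that: S_p is a minimal normal subgroup of S of order p or p²; S_q has order q and [S_p, S_q] = S_p; and O₂(S) = 1. Let E be an irreducible module for S over the field with two elements on which S_p acts faithfully, and E₀ the subspace of fixed points of S₂. Then either E₀ has at least 8 elements, or E₀ has exactly 4 elements and S_q does not leave E₀ invariant. -/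
theorem result {S : Type*} [Group S] [Finite S]
    [Group.IsSolvable S] (p q : ℕ) (hp : p.Prime) (hq : q.Prime) (hp2 : p ≠ 2) (hq2 : q ≠ 2) (hpq : p ≠ q)
    (hπ : ∀ r : ℕ, r.Prime → r ∣ Nat.card S → r = 2 ∨ r = p ∨ r = q)
    (S₂ : Sylow 2 S) (Sp : Sylow p S) (Sq : Sylow q S)
    (h2q : Nat.card ↥((S₂ : Subgroup S) ⊔ (Sq : Subgroup S)) = Nat.card ↥S₂ * Nat.card ↥Sq)
    (h2p : Nat.card ↥((S₂ : Subgroup S) ⊔ (Sp : Subgroup S)) = Nat.card ↥S₂ * Nat.card ↥Sp)
    (hpq' : Nat.card ↥((Sp : Subgroup S) ⊔ (Sq : Subgroup S)) = Nat.card ↥Sp * Nat.card ↥Sq)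
    (hSpN : (Sp : Subgroup S).Normal) (hSpmin : ∀ N : Subgroup S, N.Normal → N ≤ (Sp : Subgroup S) → N = ⊥ ∨ N = (Sp : Subgroup S))
    (hSpcard : Nat.card ↥Sp = p ∨ Nat.card ↥Sp = p ^ 2)
    (hSq : Nat.card ↥Sq = q) (hcomm : ⁅(Sp : Subgroup S), (Sq : Subgroup S)⁆ = (Sp : Subgroup S))
    (hO2 : Cfsg.pCore 2 S = ⊥)
    {E : Type*} [AddCommGroup E] [Module (ZMod 2) E] [Finite E] (ρ : Representation (ZMod 2) S E) (hE : Nontrivial E)
    (hirr : ∀ N : Submodule (ZMod 2) E, (∀ s : S, ∀ m ∈ N, ρ s m ∈ N) → N = ⊥ ∨ N = ⊤)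
    (hfaith : ∀ x ∈ (Sp : Subgroup S), ρ x = 1 → x = 1) :
    8 ≤ Nat.card {v : E // ∀ s ∈ (S₂ : Subgroup S), ρ s v = v} ∨
      (Nat.card {v : E // ∀ s ∈ (S₂ : Subgroup S), ρ s v = v} = 4 ∧
        ∃ x ∈ (Sq : Subgroup S), ∃ v : E, (∀ s ∈ (S₂ : Subgroup S), ρ s v = v) ∧ ¬ ∀ s ∈ (S₂ : Subgroup S), ρ s (ρ x v) = ρ x v) := by
  classical
  haveI : Fact p.Prime := ⟨hp⟩
  haveI : Fact q.Prime := ⟨hq⟩
  set A : Subgroup S := (Sp : Subgroup S) with hA
  haveI : A.Normal := hSpN
  have hSpcard' : Nat.card A = p ∨ Nat.card A = p ^ 2 := hSpcard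
  have hc : ∀ a b : A, a * b = b * a := by
    have h1 : IsPGroup p A := Sp.2
    rcases hSpcard' with h | h
    · haveI : IsCyclic A := isCyclic_of_prime_card h
      letI := IsCyclic.commGroup (α := A)
      exact fun a b => mul_comm a b
    · letI := IsPGroup.commGroupOfCardEqPrimeSq h
      exact fun a b => mul_comm a b
  have hodd : Odd (Nat.card A) := by
    have hpo : Odd p := hp.odd_of_ne_two hp2
    rcases hSpcard' with h | h
    · rw [h]; exact hpo
    · rw [h]; exact hpo.pow
  have hexp : Odd (Monoid.exponent A) := by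
    rw [Nat.odd_iff, ← Nat.not_even_iff, even_iff_two_dvd]
    intro h
    have h1 : 2 ∣ Nat.card A := h.trans Group.exponent_dvd_nat_card
    rw [Nat.odd_iff] at hodd
    omega
  obtain ⟨m, hm0, hK⟩ := exists_field (Monoid.exponent A) hexp
  set K := GaloisField 2 m with hKdef
  haveI : Finite K := by
    apply Nat.finite_of_card_ne_zero
    rw [hKdef, GaloisField.card 2 m hm0]
    exact (Nat.two_pow_pos m).ne'
  have hoddK : (Nat.card A : K) = 1 := odd_cast hodd
  haveI : Finite (K ⊗[ZMod 2] E) := by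
    haveI : Module.Finite (ZMod 2) K := Module.Finite.of_finite
    haveI : Finite (Module.Free.ChooseBasisIndex (ZMod 2) K) := Module.Finite.finite_basis (Module.Free.chooseBasis (ZMod 2) K)
    haveI : Finite (Module.Free.ChooseBasisIndex (ZMod 2) K →₀ E) := Finite.of_equiv _ Finsupp.equivFunOnFinite.symm
    exact Finite.of_equiv _ (TensorProduct.equivFinsuppOfBasisLeft (N := E) (Module.Free.chooseBasis (ZMod 2) K)).symm.toEquiv
  let b := Module.Free.chooseBasis (ZMod 2) K
  let φ := TensorProduct.equivFinsuppOfBasisLeft (N := E) b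
  -- `A` has no fixed points on `E`
  have hA1 : A ≠ ⊥ := by
    intro h
    have h1 : Nat.card A = 1 := by rw [h, Subgroup.card_bot]
    rcases hSpcard' with h2 | h2
    · rw [h1] at h2; exact hp.one_lt.ne h2
    · rw [h1] at h2; exact (Nat.one_lt_pow two_ne_zero hp.one_lt).ne h2
  have hfixE : ∀ v : E, (∀ a : A, ρ (a : S) v = v) → v = 0 := by
    let N : Submodule (ZMod 2) E :=
      { carrier := {v | ∀ a : A, ρ (a : S) v = v}
        add_mem' := fun {v w} hv hw a => by rw [map_add, hv a, hw a]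
        zero_mem' := fun a => map_zero _
        smul_mem' := fun c v hv a => by rw [map_smul, hv a] }
    have hN : N = ⊥ ∨ N = ⊤ := by
      apply hirr
      intro s v hv a
      have h1 : s⁻¹ * (a : S) * s ∈ A := by
        have := hSpN.conj_mem (a : S) a.2 s⁻¹
        rwa [inv_inv] at this
      have h2 : ρ (s⁻¹ * (a : S) * s) v = v := hv ⟨_, h1⟩
      have h3 : ρ (a : S) (ρ s v) = ρ s (ρ (s⁻¹ * (a : S) * s) v) := by
        rw [← Module.End.mul_apply, ← Module.End.mul_apply, ← map_mul, ← map_mul]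
        congr 2; group
      rw [h3, h2]
    rcases hN with hN | hN
    · intro v hv
      have : v ∈ N := hv
      rw [hN, Submodule.mem_bot] at this
      exact this
    · exfalso
      apply hA1
      rw [eq_bot_iff]
      intro x hx
      rw [Subgroup.mem_bot]
      apply hfaith x hx
      apply LinearMap.ext
      intro v
      have : v ∈ N := by rw [hN]; exact Submodule.mem_top
      exact this ⟨x, hx⟩
  have hfixV : ∀ v : K ⊗[ZMod 2] E, (∀ a : A, bc K ρ (a : S) v = v) → v = 0 := by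
    intro v hv
    apply φ.injective
    rw [map_zero]
    ext i
    apply hfixE
    intro a
    have := bc_coord K ρ b (a : S) v i
    rw [hv a] at this
    exact this.symm
  have hVne : ∃ v : K ⊗[ZMod 2] E, v ≠ 0 := by
    obtain ⟨x, hx⟩ := exists_ne (0 : E)
    have : Nonempty (Module.Free.ChooseBasisIndex (ZMod 2) K) := by
      by_contra h
      rw [not_nonempty_iff] at h
      have h1 : (1 : K) = 0 := b.repr.injective (Subsingleton.elim _ _)
      exact one_ne_zero h1
    obtain ⟨i⟩ := this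
    refine ⟨φ.symm (Finsupp.single i x), ?_⟩
    intro h
    have h1 : Finsupp.single i x = 0 := by
      have h2 := congrArg φ h
      rwa [LinearEquiv.apply_symm_apply, map_zero] at h2
    exact hx (Finsupp.single_eq_zero.1 h1)
  letI := actX A K
  have hQfix : ∀ l : A →* Kˣ, (∀ g ∈ (Sq : Subgroup S), g • l = l) → l = 1 := by
    intro l hl
    have h1 : ⁅A, (Sq : Subgroup S)⁆ ≤ l.ker.map A.subtype := by
      rw [Subgroup.commutator_le]
      intro a ha g hg
      have h2 : l ((MulAut.conjNormal g : A ≃* A) ⟨a, ha⟩) = l ⟨a, ha⟩ := by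
        have h3 := smul_conj A (K := K) g l ⟨a, ha⟩
        rw [hl g hg] at h3
        exact h3
      refine ⟨⟨a, ha⟩ * ((MulAut.conjNormal g : A ≃* A) ⟨a, ha⟩)⁻¹, ?_, ?_⟩
      · show l _ = 1
        rw [map_mul, map_inv, h2, mul_inv_cancel]
      · show a * (((MulAut.conjNormal g : A ≃* A) ⟨a, ha⟩ : A) : S)⁻¹ = _
        rw [MulAut.conjNormal_apply, commutatorElement_def]; group
    rw [hcomm] at h1
    ext a
    obtain ⟨c, hc1, hc2⟩ := h1 a.2
    have h2 : c = a := Subtype.ext hc2
    have h3 : l a = 1 := by rw [← h2]; exact hc1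
    rw [h3]; rfl
  obtain ⟨hge, htwo⟩ := main_abs A (bc K ρ) hc hoddK (T := (S₂ : Subgroup S)) (Q := (Sq : Subgroup S)) S₂.2 hq2
    hSq hVne hfixV hQfix
  have hcard := card_fixed K ρ (S₂ : Subgroup S)
  rcases Nat.lt_or_ge 2 (Module.finrank K (Cfix (bc K ρ) (S₂ : Subgroup S))) with h | h
  · left
    rw [hcard]
    calc 8 = 2 ^ 3 := by norm_num
      _ ≤ _ := Nat.pow_le_pow_right (by norm_num) h
  · right
    have hd : Module.finrank K (Cfix (bc K ρ) (S₂ : Subgroup S)) = 2 := le_antisymm h hge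
    refine ⟨by rw [hcard, hd]; norm_num, ?_⟩
    obtain ⟨x, hx, v, hv, hxv⟩ := htwo hd
    by_contra hcon
    push Not at hcon
    apply hxv
    intro s hs
    apply φ.injective
    ext i
    have h1 : ∀ s ∈ (S₂ : Subgroup S), ρ s (φ v i) = φ v i := by
      intro s hs
      have := bc_coord K ρ b s v i
      rw [hv s hs] at this
      exact this.symm
    have h2 := hcon x hx (φ v i) h1 s hs
    have h3 : φ (bc K ρ x v) i = ρ x (φ v i) := bc_coord K ρ b x v i
    have h4 : φ (bc K ρ s (bc K ρ x v)) i = ρ s (φ (bc K ρ x v) i) := bc_coord K ρ b s (bc K ρ x v) i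
    rw [h4, h3]
    exact h2

end Cfsg.Agent.S4414
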