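import Cfsg.Statements.S4417
import Cfsg.Agent.H18.DLen1

set_option autoImplicit false
open Cfsg
open Subgroup Cfsg.Agent.H18

namespace Cfsg.Agent.S4417

/-- Let F be a field with q elements, p a prime not dividing q, and e the multiplicative order of q modulo p; assume e ≤ n. Then every p-subgroup of GL_n(F) has derived length at most ⌊log₂(n/e)⌋ + 1: that term of its derived series is trivial (n/e is the integer quotient). -/
theorem result {F : Type*} [Field F] [Fintype F] (q : ℕ) (hF : Fintype.card F = q) (p : ℕ) [Fact p.Prime] (hpq : ¬ p ∣ q) (n e : ℕ) (he : e = orderOf (q : ZMod p)) (hen : e ≤ n) (P : Subgroup (GL (Fin n) F)) (hP : IsPGroup p P) : derivedSeries ↥P (Nat.log 2 (n / e) + 1) = ⊥ := by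
  classical
  have hp := (Fact.out : p.Prime)
  have hpF : (p : F) ≠ 0 := by
    intro h
    obtain ⟨r, hr⟩ := CharP.exists F
    obtain ⟨m, hrp, hm⟩ := FiniteField.card F r
    rw [CharP.cast_eq_zero_iff F r] at h
    have h1 : r = p := (Nat.prime_dvd_prime_iff_eq hrp hp).1 h
    apply hpq
    rw [← hF, hm, h1]
    exact dvd_pow_self p m.ne_zero
  let ρ : Representation F P (Fin n → F) :=
    (Units.coeHom (Module.End F (Fin n → F))).comp
      ((Matrix.GeneralLinearGroup.toLin (n := Fin n) (R := F)).toMonoidHom.comp P.subtype)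
  have hinj : Function.Injective ρ := by
    intro x y h
    apply Subtype.ext
    apply (Matrix.GeneralLinearGroup.toLin (n := Fin n) (R := F)).injective
    exact Units.ext h
  have he0 : 0 < e := by
    rw [he, orderOf_pos_iff]
    have h1 : IsUnit (q : ZMod p) := (ZMod.isUnit_iff_coprime q p).2
      ((Nat.Prime.coprime_iff_not_dvd hp).2 hpq).symm
    obtain ⟨u, hu⟩ := h1
    rw [← hu]
    have : IsOfFinOrder u := isOfFinOrder_of_finite u
    exact (Units.isOfFinOrder_val).2 this
  have hn : Module.finrank F (Fin n → F) < orderOf (q : ZMod p) * 2 ^ (Nat.log 2 (n / e) + 1) := by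
    rw [Module.finrank_fin_fun, ← he]
    have h1 := Nat.lt_pow_succ_log_self (b := 2) (by norm_num) (n / e)
    rw [Nat.div_lt_iff_lt_mul he0] at h1
    rw [mul_comm]; exact h1
  rw [eq_bot_iff]
  intro g hg
  rw [mem_bot]
  apply hinj
  rw [map_one]
  exact dl_main hF hpF hpq _ (Fin n → F) P ρ hP hn g hg

end Cfsg.Agent.S4417
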