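import Cfsg.Statements.S4420

set_option autoImplicit false
open Cfsg

namespace Cfsg.Agent.S4420

theorem comm_of_sq {H : Type*} [Group H] (h : ∀ x : H, x ^ 2 = 1) (x y : H) : x * y = y * x := by
  have h1 : ∀ z : H, z⁻¹ = z := fun z => inv_eq_of_mul_eq_one_left (by rw [← sq, h])
  have h2 := h1 (x * y)
  rw [mul_inv_rev, h1, h1] at h2
  exact h2.symm

/-- Structure of groups in which every element outside some proper subgroup has square 1. Let H be a finite group with a proper subgroup A such that every element outside A has square 1. Then H has an abelian normal subgroup B of index 2 such that every element outside B is an involution inverting every element of B; and if H is not an elementary abelian 2-group, B is the only abelian normal subgroup of index 2 with this property. -/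
theorem result {H : Type*} [Group H] [Finite H] (A : Subgroup H) (hA : A ≠ ⊤) (hD : ∀ x : H, x ∉ A → x ^ 2 = 1) :
    ∃ B : Subgroup H, B.Normal ∧ IsMulCommutative ↥B ∧ B.index = 2 ∧
      (∀ x : H, x ∉ B → x ^ 2 = 1 ∧ ∀ b ∈ B, x * b * x⁻¹ = b⁻¹) ∧
      (¬ (IsMulCommutative H ∧ ∀ x : H, x ^ 2 = 1) →
        ∀ B' : Subgroup H, B'.Normal → IsMulCommutative ↥B' → B'.index = 2 →
          (∀ x : H, x ∉ B' → x ^ 2 = 1 ∧ ∀ b ∈ B', x * b * x⁻¹ = b⁻¹) → B' = B) := by
  have hinv : ∀ x : H, x ∉ A → ∀ a ∈ A, x * a * x⁻¹ = a⁻¹ := by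
    intro x hx a ha
    have h1 : x * a ∉ A := fun h => hx ((A.mul_mem_cancel_right ha).1 h)
    have h2 := hD _ h1
    have h3 := hD _ hx
    have h4 : x⁻¹ = x := inv_eq_of_mul_eq_one_left (by rw [← sq, h3])
    rw [h4]
    rw [sq] at h2
    rw [eq_inv_iff_mul_eq_one, mul_assoc (x * a) x a]
    exact h2
  -- uniqueness
  have huniq : ∀ B : Subgroup H, IsMulCommutative ↥B → B.index = 2 →
      (∀ x : H, x ∉ B → x ^ 2 = 1 ∧ ∀ b ∈ B, x * b * x⁻¹ = b⁻¹) →
      (¬ (IsMulCommutative H ∧ ∀ x : H, x ^ 2 = 1) →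
        ∀ B' : Subgroup H, B'.Normal → IsMulCommutative ↥B' → B'.index = 2 →
          (∀ x : H, x ∉ B' → x ^ 2 = 1 ∧ ∀ b ∈ B', x * b * x⁻¹ = b⁻¹) → B' = B) := by
    intro B hBc hBi hBx hne B' _ hBc' hBi' hBx'
    by_contra hBB
    -- all elements of `B` have square one
    have key : ∀ (B B' : Subgroup H), IsMulCommutative ↥B' → B.index = 2 → B'.index = 2 →
        (∀ x : H, x ∉ B → x ^ 2 = 1 ∧ ∀ b ∈ B, x * b * x⁻¹ = b⁻¹) →
        (∀ x : H, x ∉ B' → x ^ 2 = 1 ∧ ∀ b ∈ B', x * b * x⁻¹ = b⁻¹) → B' ≠ B → ∀ x : H, x ^ 2 = 1 := by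
      intro B B' hBc' hBi hBi' hBx hBx' hne x
      by_cases hxB : x ∈ B
      · by_cases hxB' : x ∈ B'
        · -- some `y ∈ B' \ B`
          have : ∃ y ∈ B', y ∉ B := by
            by_contra h
            push Not at h
            apply hne
            apply Subgroup.eq_of_le_of_card_ge h
            have h1 := B.card_mul_index
            have h2 := B'.card_mul_index
            rw [hBi] at h1
            rw [hBi'] at h2
            omega
          obtain ⟨y, hyB', hyB⟩ := this
          have h1 := (hBx y hyB).2 x hxB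
          have h2 : y * x = x * y :=
            congrArg Subtype.val (hBc'.is_comm.comm (⟨y, hyB'⟩ : B') ⟨x, hxB'⟩)
          rw [h2, mul_inv_cancel_right] at h1
          rw [sq]
          nth_rewrite 1 [h1]
          exact inv_mul_cancel x
        · exact (hBx' x hxB').1
      · exact (hBx x hxB).1
    apply hne
    have h1 := key B B' hBc' hBi hBi' hBx hBx' hBB
    exact ⟨⟨⟨comm_of_sq h1⟩⟩, h1⟩
  by_cases hall : ∀ x : H, x ^ 2 = 1
  · -- elementary abelian
    have hcomm := comm_of_sq hall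
    have hidx : ∃ B : Subgroup H, B.index = 2 := by
      obtain ⟨x, hx⟩ : ∃ x, x ∉ A := by
        by_contra h
        push Not at h
        exact hA ((Subgroup.eq_top_iff' A).2 h)
      have hp : IsPGroup 2 H := fun g => ⟨1, by rw [pow_one]; exact hall g⟩
      have hnt : Nontrivial H := ⟨x, 1, fun h => hx (h ▸ A.one_mem)⟩
      obtain ⟨n, hn⟩ := IsPGroup.iff_card.1 hp
      have hn0 : n ≠ 0 := by
        rintro rfl
        rw [pow_zero] at hn
        exact (Finite.one_lt_card_iff_nontrivial.2 hnt).ne' hn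
      obtain ⟨m, rfl⟩ := Nat.exists_eq_succ_of_ne_zero hn0
      obtain ⟨B, hB⟩ := Sylow.exists_subgroup_card_pow_prime (G := H) 2 (n := m)
        (by rw [hn]; exact pow_dvd_pow 2 (Nat.le_succ m))
      refine ⟨B, ?_⟩
      have h1 := B.card_mul_index
      rw [hB, hn, pow_succ] at h1
      exact Nat.eq_of_mul_eq_mul_left (by positivity) h1
    obtain ⟨B, hB⟩ := hidx
    have hinv1 : ∀ z : H, z⁻¹ = z := fun z => inv_eq_of_mul_eq_one_left (by rw [← sq, hall])
    refine ⟨B, ⟨fun n hn g => ?_⟩, ⟨⟨fun a b => Subtype.ext (hcomm a b)⟩⟩, hB, fun x _ => ⟨hall x, fun b _ => ?_⟩,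
      fun h => absurd ⟨⟨⟨hcomm⟩⟩, hall⟩ h⟩
    · rw [hcomm g n, mul_inv_cancel_right]; exact hn
    · rw [hcomm x b, mul_inv_cancel_right, hinv1]
  · -- `A` has index two
    have hAc : ∀ a ∈ A, ∀ b ∈ A, a * b = b * a := by
      obtain ⟨x, hx⟩ : ∃ x, x ∉ A := by
        by_contra h
        push Not at h
        exact hA ((Subgroup.eq_top_iff' A).2 h)
      intro a ha b hb
      have h1 := hinv x hx (a * b) (A.mul_mem ha hb)
      have h2 : x * (a * b) * x⁻¹ = (x * a * x⁻¹) * (x * b * x⁻¹) := by group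
      rw [h2, hinv x hx a ha, hinv x hx b hb, ← mul_inv_rev] at h1
      exact (inv_injective h1).symm
    have hAi : A.index = 2 := by
      rw [Subgroup.index_eq_two_iff_exists_notMem_and]
      obtain ⟨x, hx⟩ : ∃ x, x ∉ A := by
        by_contra h
        push Not at h
        exact hA ((Subgroup.eq_top_iff' A).2 h)
      refine ⟨x, hx, ?_⟩
      by_contra hcon
      push Not at hcon
      obtain ⟨b, hb1, hb2⟩ := hcon
      apply hall
      have hA2 : ∀ a ∈ A, a ^ 2 = 1 := by
        intro a ha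
        have h1 := hinv _ hb1 a ha
        have h2 : (b * x) * a * (b * x)⁻¹ = b * (x * a * x⁻¹) * b⁻¹ := by group
        rw [h2, hinv x hx a ha, hinv b hb2 _ (A.inv_mem ha), inv_inv] at h1
        rw [sq]
        nth_rewrite 1 [h1]
        exact inv_mul_cancel a
      intro z
      by_cases hz : z ∈ A
      · exact hA2 z hz
      · exact hD z hz
    have hAn : A.Normal := Subgroup.normal_of_index_eq_two hAi
    have hAcc : IsMulCommutative A := ⟨⟨fun a b => Subtype.ext (hAc a a.2 b b.2)⟩⟩
    exact ⟨A, hAn, hAcc, hAi, fun x hx => ⟨hD x hx, hinv x hx⟩,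
      huniq A hAcc hAi (fun x hx => ⟨hD x hx, hinv x hx⟩)⟩

end Cfsg.Agent.S4420
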