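import Cfsg.Statements.S4550
import Cfsg.Agent.H27.PowCnt
import Cfsg.Agent.H11.Misc1

set_option autoImplicit false
open Cfsg

namespace Cfsg.Agent.S4550

open Cfsg.Agent.H27


/-- Let G be a finite group of even order and M a maximal ideal of the algebraic integers containing 2. Let k be a natural number with g ^ k = g ^ 3 for every 2-element g and g ^ k = g for every element g of odd order (such k exist); an irreducible character χ is unchanged by g ↦ g ^ k exactly when it is fixed by the field automorphism that cubes the 2-power roots of unity and fixes the roots of unity of odd order. Then the number of members χ of the principal 2-block of odd degree with χ (g ^ k) = χ g for all g is even. -/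
theorem result {G : Type*} [Group G] [Finite G] (M : Ideal Cfsg.AlgInt) (hM : Cfsg.IsPModular 2 M) (hev : Even (Nat.card G)) (k : ℕ) (hk₁ : ∀ g : G, (∃ j : ℕ, orderOf g = 2 ^ j) → g ^ k = g ^ 3) (hk₂ : ∀ g : G, Odd (orderOf g) → g ^ k = g) : Even (Nat.card {χ : Cfsg.IrrCharacter G // χ ∈ Cfsg.principalBlock M G ∧ Odd (Cfsg.charDegree (χ : G → ℂ)) ∧ ∀ g : G, (χ : G → ℂ) (g ^ k) = (χ : G → ℂ) g}) := by
  classical
  haveI := Fintype.ofFinite G
  haveI := Fintype.ofFinite (Cfsg.IrrCharacter G)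
  haveI : Fact (Nat.Prime 2) := ⟨Nat.prime_two⟩
  haveI := Cfsg.Agent.H11.pmod_isPrime hM
  obtain ⟨x, hx⟩ := exists_prime_orderOf_dvd_card' (G := G) 2 hev.two_dvd
  have hkodd : Odd k := by
    have h1 := hk₁ x ⟨1, by rw [hx, pow_one]⟩
    have h2 : k ≡ 3 [MOD 2] := by
      rw [← hx]; exact pow_eq_pow_iff_modEq.mp h1
    rw [Nat.odd_iff]
    exact h2
  have hcop : k.Coprime (Nat.card G) := by
    rw [Nat.Coprime, Nat.eq_one_iff_not_exists_prime_dvd]
    intro q hq hd
    have hd1 : q ∣ k := hd.trans (Nat.gcd_dvd_left _ _)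
    have hd2 : q ∣ Nat.card G := hd.trans (Nat.gcd_dvd_right _ _)
    have hq2 : q ≠ 2 := by
      rintro rfl
      exact (Nat.not_even_iff_odd.mpr hkodd) (even_iff_two_dvd.mpr hd1)
    haveI : Fact q.Prime := ⟨hq⟩
    obtain ⟨y, hy⟩ := exists_prime_orderOf_dvd_card' (G := G) q hd2
    have h1 := hk₂ y (by rw [hy]; exact hq.odd_of_ne_two hq2)
    have h2 : y ^ k = 1 := by
      rw [← orderOf_dvd_iff_pow_eq_one, hy]; exact hd1
    rw [h2] at h1
    rw [← h1, orderOf_one] at hy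
    exact hq.one_lt.ne hy
  obtain ⟨e, he⟩ := exists_order_two_exp hkodd hk₂
  let S : Set (Cfsg.IrrCharacter G) := {χ | χ ∈ Cfsg.principalBlock M G ∧ Odd (Cfsg.charDegree (χ : G → ℂ))}
  have hS : ∀ χ ∈ S, galI k hcop χ ∈ S := by
    rintro χ ⟨h1, h2⟩
    refine ⟨?_, ?_⟩
    · rw [pb_iff] at h1 ⊢
      exact h1.pow hcop
    · have : Cfsg.charDegree ((galI k hcop χ : Cfsg.IrrCharacter G) : G → ℂ) = Cfsg.charDegree (χ : G → ℂ) := by
        unfold Cfsg.charDegree galI
        simp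
      rw [this]; exact h2
  have hmod := card_fixed_modEq (p := 2) hcop he S hS
  have hfix : Nat.card {χ : Cfsg.IrrCharacter G // χ ∈ S ∧ ∀ g : G, (χ : G → ℂ) (g ^ k) = (χ : G → ℂ) g} =
      Nat.card {χ : Cfsg.IrrCharacter G // χ ∈ Cfsg.principalBlock M G ∧ Odd (Cfsg.charDegree (χ : G → ℂ)) ∧ ∀ g : G, (χ : G → ℂ) (g ^ k) = (χ : G → ℂ) g} := by
    apply Nat.card_congr
    refine Equiv.subtypeEquivRight fun χ => ?_
    constructor
    · rintro ⟨⟨h1, h2⟩, h3⟩; exact ⟨h1, h2, h3⟩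
    · rintro ⟨h1, h2, h3⟩; exact ⟨⟨h1, h2⟩, h3⟩
  rw [← hfix]
  have hSeven : Nat.card S ≡ 0 [MOD 2] := by
    have h1 := Cfsg.Agent.H11.weak_block_orthogonality hM (B := Cfsg.principalBlock M G) isPBlock_principal 1 x
      (by rw [orderOf_one]; norm_num) (by rw [hx])
    rw [Cfsg.Agent.H11.finsum_mem_irr] at h1
    have hex : ∀ χ : Cfsg.IrrCharacter G, ∃ m : ℤ, (χ : G → ℂ) x = m ∧
        (Cfsg.charDegree (χ : G → ℂ) : ℤ) * m ≡ (if Odd (Cfsg.charDegree (χ : G → ℂ)) then 1 else 0) [ZMOD 2] := by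
      intro χ
      obtain ⟨m, hm, hmod⟩ := Cfsg.Agent.H11.char_involution (Cfsg.Agent.H3.irr_isChar χ.2) hx
      refine ⟨m, hm, ?_⟩
      have hli := Cfsg.Agent.H11.li_char_mul_sub hM (Cfsg.Agent.H3.irr_isChar χ.2) (Commute.one_right x) ⟨1, by rw [hx, pow_one]⟩
      rw [mul_one, hm, (Cfsg.Agent.H11.charDegree_spec χ.2).1] at hli
      have h3 : Cfsg.MemLocalIdeal M (((m - (Cfsg.charDegree (χ : G → ℂ) : ℤ) : ℤ)) : ℂ) := by
        push_cast; exact hli
      rw [Cfsg.Agent.H11.li_intCast_iff hM] at h3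
      have h4 : (2 : ℤ) ∣ m - Cfsg.charDegree (χ : G → ℂ) := by exact_mod_cast h3
      split_ifs with hodd
      · obtain ⟨c, hc⟩ := h4
        obtain ⟨r, hr⟩ := hodd
        have hm' : m = 2 * c + Cfsg.charDegree (χ : G → ℂ) := by linarith
        rw [hm', hr, Int.modEq_iff_dvd]
        push_cast
        exact ⟨-(2 * r * c + c + 2 * r * r + 2 * r), by ring⟩
      · rw [Nat.not_odd_iff_even] at hodd
        obtain ⟨r, hr⟩ := hodd
        rw [hr, Int.modEq_iff_dvd]
        push_cast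
        exact ⟨-(r * m), by ring⟩
    choose m hm hmm using hex
    have h2 : (∑ χ : Cfsg.IrrCharacter G with χ ∈ Cfsg.principalBlock M G, (Cfsg.charDegree (χ : G → ℂ) : ℤ) * m χ) = 0 := by
      have h3 : ((∑ χ : Cfsg.IrrCharacter G with χ ∈ Cfsg.principalBlock M G, (Cfsg.charDegree (χ : G → ℂ) : ℤ) * m χ : ℤ) : ℂ) = ((0 : ℤ) : ℂ) := by
        push_cast
        rw [← h1]
        refine Finset.sum_congr rfl fun χ _ => ?_
        rw [hm χ, (Cfsg.Agent.H11.charDegree_spec χ.2).1]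
        simp
      exact_mod_cast h3
    have h3 : (∑ χ : Cfsg.IrrCharacter G with χ ∈ Cfsg.principalBlock M G, (Cfsg.charDegree (χ : G → ℂ) : ℤ) * m χ) ≡
        ∑ χ : Cfsg.IrrCharacter G with χ ∈ Cfsg.principalBlock M G, (if Odd (Cfsg.charDegree (χ : G → ℂ)) then (1 : ℤ) else 0) [ZMOD 2] :=
      Int.ModEq.sum fun χ _ => hmm χ
    rw [h2, Finset.sum_boole, Finset.filter_filter] at h3
    have h4 : (Finset.univ.filter (fun χ : Cfsg.IrrCharacter G => χ ∈ Cfsg.principalBlock M G ∧ Odd (Cfsg.charDegree (χ : G → ℂ)))).card = Nat.card S := by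
      rw [Nat.card_eq_fintype_card, Fintype.card_subtype]
      rfl
    rw [h4] at h3
    have h5 := h3.symm
    rw [Int.ModEq] at h5
    rw [Nat.ModEq]
    omega
  have h6 := hmod.symm.trans hSeven
  rw [Nat.even_iff]
  exact h6

end Cfsg.Agent.S4550
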