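import Cfsg.Statements.S4551
import Cfsg.Agent.H27.AD4

set_option autoImplicit false
open Cfsg

namespace Cfsg.Agent.S4551

open Cfsg.Agent.H27


/-- Let N be a normal subgroup of the finite group G of index prime to p, P a Sylow p-subgroup of G with G = N·C_G(P), and M a maximal ideal of the algebraic integers containing p. Then restriction to N is a bijection from the principal p-block of G onto the principal p-block of N: every member of the principal block of G restricts to a member of the principal block of N, and every member of the principal block of N is the restriction of exactly one member of the principal block of G. -/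
theorem result {G : Type*} [Group G] [Finite G] (p : ℕ) [Fact p.Prime] (M : Ideal Cfsg.AlgInt) (hM : Cfsg.IsPModular p M) (N : Subgroup G) [N.Normal] (hidx : ¬ p ∣ N.index) (P : Sylow p G) (hsup : N ⊔ Subgroup.centralizer ((P : Subgroup G) : Set G) = ⊤) : (∀ χ ∈ Cfsg.principalBlock M G, ∃ θ ∈ Cfsg.principalBlock M ↥N, ∀ n : N, (χ : G → ℂ) n = (θ : N → ℂ) n) ∧ ∀ θ ∈ Cfsg.principalBlock M ↥N, ∃! χ : Cfsg.IrrCharacter G, χ ∈ Cfsg.principalBlock M G ∧ ∀ n : N, (χ : G → ℂ) n = (θ : N → ℂ) n := by
  have h := ad_of p N hidx P hsup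
  have hr := Fintype.ofFinite N
  constructor
  · intro χ hχ
    have h1 := h.restrict hM ((pb_iff χ).mp hχ)
    exact ⟨⟨fun n : N => (χ : G → ℂ) n, h1.1⟩, (pb_iff _).mpr h1, fun n => rfl⟩
  · intro θ hθ
    obtain ⟨χ, hχ, hχN⟩ := h.extend hM ((pb_iff θ).mp hθ)
    refine ⟨⟨χ, hχ.1⟩, ⟨(pb_iff _).mpr hχ, hχN⟩, ?_⟩
    rintro ψ ⟨hψ, hψN⟩
    apply Subtype.ext
    refine h.unique_ext hM hχ ((pb_iff ψ).mp hψ) ?_ (fun n => ?_)
    · have : (fun n : N => χ n) = (θ : N → ℂ) := funext hχN
      rw [this]; exact θ.2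
    · rw [hψN n]; exact (hχN n).symm

end Cfsg.Agent.S4551
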