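import Cfsg.Statements.S4553
import Cfsg.Agent.S4455
import Cfsg.Agent.S0964
import Cfsg.Agent.S0966
import Cfsg.Agent.H11.Osima
import Cfsg.Agent.H27.DefZero
import Cfsg.Agent.H27.GlCan
import Cfsg.Agent.H3.Gallagher2

set_option autoImplicit false
open Cfsg

namespace Cfsg.Agent.S4553

open Subgroup Cfsg.Agent.H3

universe u

/-- `p`-torsion of the dual of a cyclic `p`-group -/
theorem card_tors (Q : Type u) [Group Q] [Finite Q] (hcyc : IsCyclic Q) {p : ℕ}
    (hpQ : p ∣ Nat.card Q) : Nat.card {l : Q →* ℂˣ // ∀ q, (l q) ^ p = 1} = p := by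
  letI : CommGroup Q := { (inferInstance : Group Q) with
    mul_comm := fun a b => (IsCyclic.commutative (α := Q)).is_comm.comm a b }
  haveI : NeZero ((Monoid.exponent Q : ℕ) : ℂ) :=
    ⟨by exact_mod_cast (Monoid.exponent_ne_zero_of_finite (G := Q))⟩
  obtain ⟨e⟩ := CommGroup.monoidHom_mulEquiv_of_hasEnoughRootsOfUnity Q ℂ
  have h1 : Nat.card {l : Q →* ℂˣ // ∀ q, (l q) ^ p = 1} =
      Nat.card (powMonoidHom p : Q →* Q).ker := by
    refine Nat.card_congr (e.toEquiv.subtypeEquiv fun l => ?_)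
    rw [MonoidHom.mem_ker]
    show (∀ q, (l q) ^ p = 1) ↔ (e l) ^ p = 1
    rw [← map_pow, EmbeddingLike.map_eq_one_iff]
    constructor
    · intro h; ext q; simp [h q]
    · intro h q
      have := DFunLike.congr_fun h q
      simpa using this
  rw [h1, IsCyclic.card_powMonoidHom_ker, Nat.gcd_eq_right hpQ]

/-- `k` is prime to the group order -/
theorem coprime_of {G : Type u} [Group G] [Finite G] {p : ℕ} [Fact p.Prime] {k : ℕ}
    (hk₁ : ∀ g : G, (∃ j : ℕ, orderOf g = p ^ j) → g ^ k = g ^ (1 + p))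
    (hk₂ : ∀ g : G, Nat.Coprime (orderOf g) p → g ^ k = g) : k.Coprime (Nat.card G) := by
  by_contra hcon
  obtain ⟨q, hq, hqk, hqG⟩ := Nat.Prime.not_coprime_iff_dvd.1 hcon
  haveI : Fact q.Prime := ⟨hq⟩
  obtain ⟨x, hx⟩ := exists_prime_orderOf_dvd_card' q hqG
  have hx1 : x ≠ 1 := by
    intro h
    rw [h, orderOf_one] at hx
    exact hq.one_lt.ne hx
  have hxk : x ^ k = 1 := by
    apply orderOf_dvd_iff_pow_eq_one.1
    rw [hx]; exact hqk
  by_cases hqp : q = p
  · have h1 := hk₁ x ⟨1, by rw [hx, hqp, pow_one]⟩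
    have h2 : x ^ p = 1 := by
      rw [← hqp, ← hx]; exact pow_orderOf_eq_one x
    rw [hxk, pow_add, pow_one, h2, mul_one] at h1
    exact hx1 h1.symm
  · have h1 := hk₂ x (by
      rw [hx]; exact (Nat.coprime_primes hq Fact.out).2 hqp)
    rw [hxk] at h1
    exact hx1 h1.symm

section blocks

variable {G : Type u} [Group G] [Fintype G] {p : ℕ} [Fact p.Prime] {M : Ideal AlgInt}
  {N : Subgroup G} [hN : N.Normal] [Fintype N]

theorem restrict_mem (hM : IsPModular p M) {χ : IrrCharacter G} (hχ : χ ∈ principalBlock M G)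
    {θ : IrrCharacter N} (hθ : ∀ n : N, (χ : G → ℂ) n = (θ : N → ℂ) n) :
    θ ∈ principalBlock M N := by
  haveI : M.IsPrime := hM.2.1.isPrime
  have h0 : (fun n : N => (χ : G → ℂ) n) = (θ : N → ℂ) := funext hθ
  have hself := Cfsg.Agent.H11.mem_blockOf_self (M := M) θ
  obtain ⟨g, θ', hθ', h1⟩ := S0964.result p M hM N (principalBlock M G)
    ⟨Cfsg.Agent.H27.oneIrr G, rfl⟩ (blockOf M (θ : N → ℂ)) ⟨θ, rfl⟩ χ hχ θ hself (by
      rw [h0, classInner_self_of_irr θ.2]; exact one_ne_zero)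
    (Cfsg.Agent.H27.oneIrr G) (Cfsg.Agent.H11.mem_blockOf_self (Cfsg.Agent.H27.oneIrr G))
    (Cfsg.Agent.H27.oneIrr N) (by
      have : (fun n : N => ((Cfsg.Agent.H27.oneIrr G : IrrCharacter G) : G → ℂ) n) =
        ((Cfsg.Agent.H27.oneIrr N : IrrCharacter N) : N → ℂ) := rfl
      rw [this, classInner_self_of_irr (Cfsg.Agent.H27.oneIrr N).2]; exact one_ne_zero)
  have h2 : θ' = Cfsg.Agent.H27.oneIrr N := by
    apply Subtype.ext
    funext n
    have h3 := h1 ⟨g⁻¹ * n * g⁻¹⁻¹, hN.conj_mem n n.2 g⁻¹⟩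
    have h4 : (⟨g * (g⁻¹ * n * g⁻¹⁻¹) * g⁻¹, hN.conj_mem _ (hN.conj_mem n n.2 g⁻¹) g⟩ : N) = n := by
      apply Subtype.ext
      show g * (g⁻¹ * n * g⁻¹⁻¹) * g⁻¹ = n
      group
    have h5 : (θ' : N → ℂ) n = 1 := by
      rw [← h4]; exact h3.symm
    rw [h5]; rfl
  rw [h2] at hθ'
  exact Cfsg.Agent.H11.sameBlock_symm hθ'

theorem extend_mem (hM : IsPModular p M) (hidx : ∃ k : ℕ, N.index = p ^ k) {χ : IrrCharacter G}
    {θ : IrrCharacter N} (hθ : ∀ n : N, (χ : G → ℂ) n = (θ : N → ℂ) n)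
    (hmem : θ ∈ principalBlock M N) : χ ∈ principalBlock M G := by
  haveI : M.IsPrime := hM.2.1.isPrime
  have h0 : (fun n : N => (χ : G → ℂ) n) = (θ : N → ℂ) := funext hθ
  have hex := S0966.result p M hM N hidx (principalBlock M N) ⟨Cfsg.Agent.H27.oneIrr N, rfl⟩
  have h1 : principalBlock M G = blockOf M (χ : G → ℂ) := by
    apply hex.unique
    · refine ⟨⟨Cfsg.Agent.H27.oneIrr G, rfl⟩, Cfsg.Agent.H27.oneIrr G,
        Cfsg.Agent.H11.mem_blockOf_self (Cfsg.Agent.H27.oneIrr G), Cfsg.Agent.H27.oneIrr N,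
        Cfsg.Agent.H11.mem_blockOf_self (Cfsg.Agent.H27.oneIrr N), ?_⟩
      have : (fun n : N => ((Cfsg.Agent.H27.oneIrr G : IrrCharacter G) : G → ℂ) n) =
        ((Cfsg.Agent.H27.oneIrr N : IrrCharacter N) : N → ℂ) := rfl
      rw [this, classInner_self_of_irr (Cfsg.Agent.H27.oneIrr N).2]; exact one_ne_zero
    · refine ⟨⟨χ, rfl⟩, χ, Cfsg.Agent.H11.mem_blockOf_self χ, θ, hmem, ?_⟩
      rw [h0, classInner_self_of_irr θ.2]; exact one_ne_zero
  rw [h1]
  exact Cfsg.Agent.H11.mem_blockOf_self χ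

end blocks

theorem main {G : Type u} [Group G] [Fintype G] (p : ℕ) [Fact p.Prime] (M : Ideal AlgInt)
    (hM : IsPModular p M) (P : Sylow p G) (N : Subgroup G) [hN : N.Normal] [Fintype N]
    (hNres : N = pResidual p G) (hcyc : IsCyclic (G ⧸ N)) (hnt : N ≠ ⊤) (k : ℕ)
    (hk₁ : ∀ g : G, (∃ j : ℕ, orderOf g = p ^ j) → g ^ k = g ^ (1 + p))
    (hk₂ : ∀ g : G, Nat.Coprime (orderOf g) p → g ^ k = g) :
    Nat.card {χ : IrrCharacter G // χ ∈ principalBlock M G ∧ ¬ p ∣ charDegree (χ : G → ℂ) ∧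
      ∀ g : G, (χ : G → ℂ) (g ^ k) = (χ : G → ℂ) g} =
    p * Nat.card {θ : IrrCharacter N // θ ∈ principalBlock M N ∧ ¬ p ∣ charDegree (θ : N → ℂ) ∧
      (∀ x ∈ (P : Subgroup G), ∀ n : N, (θ : N → ℂ) ⟨x * n * x⁻¹, hN.conj_mem n n.2 x⟩ =
        (θ : N → ℂ) n) ∧ ∀ n : N, (θ : N → ℂ) (n ^ k) = (θ : N → ℂ) n} := by
  classical
  have hp : p.Prime := Fact.out
  have hkG := coprime_of hk₁ hk₂
  obtain ⟨j, hj⟩ : ∃ j : ℕ, N.index = p ^ j := by
    subst hNres
    obtain ⟨k, hk⟩ := IsPGroup.iff_card.mp (H18.isPGroup_quotient_pResidual (p := p) (G := G))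
    exact ⟨k, by rw [Subgroup.index, hk]⟩
  have hj0 : j ≠ 0 := by
    rintro rfl
    apply hnt
    rw [pow_zero] at hj
    exact Subgroup.index_eq_one.1 hj
  have hpQ : p ∣ Nat.card (G ⧸ N) := by
    rw [← Subgroup.index, hj]
    exact dvd_pow_self p hj0
  have hsup : (P : Subgroup G) ⊔ N = ⊤ := by
    subst hNres
    exact H18.sylow_sup_pResidual P
  have hQk : ∀ q : G ⧸ N, q ^ k = q ^ (1 + p) := by
    intro q
    obtain ⟨g, rfl⟩ := QuotientGroup.mk_surjective q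
    have hg : g ∈ (P : Subgroup G) ⊔ N := by rw [hsup]; trivial
    obtain ⟨y, hy, z, hz, rfl⟩ := Subgroup.mem_sup_of_normal_right.1 hg
    have h1 : ((y * z : G) : G ⧸ N) = (y : G ⧸ N) := by
      rw [QuotientGroup.eq]
      have : (y * z)⁻¹ * y = z⁻¹ := by group
      rw [this]; exact inv_mem hz
    rw [h1]
    obtain ⟨i, hi⟩ := (IsPGroup.iff_orderOf.1 P.isPGroup') ⟨y, hy⟩
    have h2 := hk₁ y ⟨i, by rw [← hi, Subgroup.orderOf_mk]⟩
    rw [← QuotientGroup.mk_pow, ← QuotientGroup.mk_pow, h2]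
  have hlk : ∀ (l : (G ⧸ N) →* ℂˣ) (q : G ⧸ N), l q ^ k = l q ^ (1 + p) := by
    intro l q
    rw [← map_pow, hQk, map_pow]
  -- invariant extensions
  have hc : ∀ θ : {θ : IrrCharacter N // θ ∈ principalBlock M N ∧ ¬ p ∣ charDegree (θ : N → ℂ) ∧
      (∀ x ∈ (P : Subgroup G), ∀ n : N, (θ : N → ℂ) ⟨x * n * x⁻¹, hN.conj_mem n n.2 x⟩ =
        (θ : N → ℂ) n) ∧ ∀ n : N, (θ : N → ℂ) (n ^ k) = (θ : N → ℂ) n},
      ∃ χ : IrrCharacter G, (∀ n : N, (χ : G → ℂ) n = (θ.1 : N → ℂ) n) ∧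
        ∀ g : G, (χ : G → ℂ) (g ^ k) = (χ : G → ℂ) g := by
    rintro ⟨θ, h1, h2, h3, h4⟩
    have hinv : ∀ (g : G) (n : N), (θ : N → ℂ) ⟨g * n * g⁻¹, hN.conj_mem (n : G) n.2 g⟩ =
        (θ : N → ℂ) n := by
      have h5 : (P : Subgroup G) ≤ inertia hN (θ : N → ℂ) := by
        intro x hx
        rw [mem_inertia']
        exact h3 x hx
      have h8 : (P : Subgroup G) ⊔ N ≤ inertia hN (θ : N → ℂ) :=
        sup_le h5 (le_inertia hN (irr_classFun θ.2))
      intro g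
      have h9 : g ∈ inertia hN (θ : N → ℂ) := h8 (by rw [hsup]; exact mem_top g)
      rw [mem_inertia'] at h9
      exact h9
    have hdN : ¬ p ∣ detOrder (θ : N → ℂ) := by
      subst hNres
      obtain ⟨μ, hμ⟩ := exists_hf_det (irr_isChar θ.2)
      rw [Cfsg.detOrder, hμ, orderOf_hf]
      exact S4455.not_dvd_order μ
    obtain ⟨χ, ⟨hχ, hχθ, hdet⟩, huniq⟩ := S0867.result N (θ : N → ℂ) θ.2 hinv
      (charDegree (θ : N → ℂ)) (H27.charDegree_cast (irr_isChar θ.2)).symm (by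
        rw [hj]
        apply Nat.Coprime.pow_left
        rw [Nat.Prime.coprime_iff_not_dvd hp, hp.dvd_mul, not_or]
        exact ⟨hdN, h2⟩)
    refine ⟨⟨χ, hχ⟩, hχθ, fun g => ?_⟩
    have h5 := huniq (fun g => χ (g ^ k)) (H27.isIrr_pow_coprime hχ hkG) (fun n => by
      have := hχθ (n ^ k)
      rw [Subgroup.coe_pow] at this
      rw [this, h4]) (by
      rw [H27.detOrder_pow_coprime (irr_isChar hχ) hkG, hdet, hj]
      apply Nat.Coprime.pow_left
      rw [Nat.Prime.coprime_iff_not_dvd hp]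
      exact hdN)
    exact congrFun h5 g
  choose c hc1 hc2 using hc
  have hcard := card_tors (G ⧸ N) hcyc hpQ
  have hdeg : ∀ {χ : G → ℂ} {θ : N → ℂ}, (∀ n : N, χ n = θ n) → charDegree χ = charDegree θ := by
    intro χ θ h
    rw [charDegree, charDegree, ← h 1, Subgroup.coe_one]
  -- the bijection
  let f : {θ : IrrCharacter N // θ ∈ principalBlock M N ∧ ¬ p ∣ charDegree (θ : N → ℂ) ∧
      (∀ x ∈ (P : Subgroup G), ∀ n : N, (θ : N → ℂ) ⟨x * n * x⁻¹, hN.conj_mem n n.2 x⟩ =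
        (θ : N → ℂ) n) ∧ ∀ n : N, (θ : N → ℂ) (n ^ k) = (θ : N → ℂ) n} ×
      {l : (G ⧸ N) →* ℂˣ // ∀ q, (l q) ^ p = 1} → IrrCharacter G := fun x =>
    ⟨fun g => ((x.2.1.comp (QuotientGroup.mk' N)) g : ℂ) * (c x.1 : G → ℂ) g,
      isIrr_mul_hom (c x.1).2 _⟩
  have hf : ∀ x (g : G), (f x : G → ℂ) g = (x.2.1 (g : G ⧸ N) : ℂ) * (c x.1 : G → ℂ) g :=
    fun x g => rfl
  have hfN : ∀ x (n : N), (f x : G → ℂ) n = (x.1.1 : N → ℂ) n := by
    intro x n
    rw [hf, (QuotientGroup.eq_one_iff (n : G)).2 n.2, map_one, Units.val_one, one_mul, hc1]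
  have hinj : Function.Injective f := by
    intro x y hxy
    have h1 : x.1 = y.1 := by
      apply Subtype.ext
      apply Subtype.ext
      funext n
      rw [← hfN x n, ← hfN y n, hxy]
    have h2 : x.2 = y.2 := by
      obtain ⟨g1, -, -, -⟩ := gallagher_one hN (c x.1).2 (by
        have : (fun n : N => (c x.1 : G → ℂ) n) = (x.1.1 : N → ℂ) := funext (hc1 x.1)
        rw [this]; exact x.1.1.2)
      have hk0 : ∀ l : (G ⧸ N) →* ℂˣ, ∀ n : N,
          (fun g : G => ((l.comp (QuotientGroup.mk' N)) g : ℂ)) n =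
          (fun g : G => ((l.comp (QuotientGroup.mk' N)) g : ℂ)) 1 := by
        intro l n
        show ((l ((n : G) : G ⧸ N) : ℂˣ) : ℂ) = ((l.comp (QuotientGroup.mk' N)) 1 : ℂˣ)
        rw [(QuotientGroup.eq_one_iff (n : G)).2 n.2, map_one, map_one]
      have h3 : (fun g : G => ((x.2.1.comp (QuotientGroup.mk' N)) g : ℂ)) * (c x.1 : G → ℂ) =
          (fun g : G => ((y.2.1.comp (QuotientGroup.mk' N)) g : ℂ)) * (c x.1 : G → ℂ) := by
        funext g
        have e1 : (f x : G → ℂ) g = ((x.2.1.comp (QuotientGroup.mk' N)) g : ℂ) *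
          (c x.1 : G → ℂ) g := rfl
        have e2 : (f y : G → ℂ) g = ((y.2.1.comp (QuotientGroup.mk' N)) g : ℂ) *
          (c y.1 : G → ℂ) g := rfl
        have h6 : (f x : G → ℂ) g = (f y : G → ℂ) g := by rw [hxy]
        rw [e1, e2, ← h1] at h6
        exact h6
      rcases g1 _ _ (isIrr_of_hom (x.2.1.comp (QuotientGroup.mk' N)))
        (isIrr_of_hom (y.2.1.comp (QuotientGroup.mk' N))) (hk0 _) (hk0 _) with h4 | h4
      · apply Subtype.ext
        apply MonoidHom.ext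
        intro q
        obtain ⟨g, rfl⟩ := QuotientGroup.mk_surjective q
        exact Units.ext (congrFun h4 g)
      · exfalso
        rw [← h3] at h4
        have h5 := classInner_self_of_irr (isIrr_mul_hom (c x.1).2
          (x.2.1.comp (QuotientGroup.mk' N)))
        have h6 : (fun g : G => ((x.2.1.comp (QuotientGroup.mk' N)) g : ℂ)) * (c x.1 : G → ℂ) =
          fun g : G => ((x.2.1.comp (QuotientGroup.mk' N)) g : ℂ) * (c x.1 : G → ℂ) g := rfl
        rw [h6, h5] at h4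
        exact one_ne_zero h4
    exact Prod.ext h1 h2
  have hrange : Set.range f = {χ : IrrCharacter G | χ ∈ principalBlock M G ∧
      ¬ p ∣ charDegree (χ : G → ℂ) ∧ ∀ g : G, (χ : G → ℂ) (g ^ k) = (χ : G → ℂ) g} := by
    ext χ
    constructor
    · rintro ⟨x, rfl⟩
      refine ⟨extend_mem hM ⟨j, hj⟩ (hfN x) x.1.2.1, ?_, ?_⟩
      · rw [hdeg (hfN x)]; exact x.1.2.2.1
      · intro g
        rw [hf, hf, hc2, QuotientGroup.mk_pow, map_pow, hlk, pow_add, x.2.2, pow_one, mul_one]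
    · rintro ⟨h1, h2, h3⟩
      have hirr := S4455.restrict_irr N hj χ h2
      let θ : IrrCharacter N := ⟨fun n : N => (χ : G → ℂ) n, hirr⟩
      have hθ : ∀ n : N, (χ : G → ℂ) n = (θ : N → ℂ) n := fun n => rfl
      let θ' : {θ : IrrCharacter N // θ ∈ principalBlock M N ∧ ¬ p ∣ charDegree (θ : N → ℂ) ∧
        (∀ x ∈ (P : Subgroup G), ∀ n : N, (θ : N → ℂ) ⟨x * n * x⁻¹, hN.conj_mem n n.2 x⟩ =
          (θ : N → ℂ) n) ∧ ∀ n : N, (θ : N → ℂ) (n ^ k) = (θ : N → ℂ) n} :=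
        ⟨θ, restrict_mem hM h1 hθ, by rw [← hdeg hθ]; exact h2, fun x _ n =>
          irr_classFun χ.2 _ _, fun n => by
            show (χ : G → ℂ) ((n ^ k : N) : G) = (χ : G → ℂ) n
            rw [Subgroup.coe_pow, h3]⟩
      have hcN : (fun n : N => (c θ' : G → ℂ) n) = (θ : N → ℂ) := funext (hc1 θ')
      obtain ⟨g1, g2, g3, -⟩ := gallagher_one hN (c θ').2 (by rw [hcN]; exact θ.2)
      obtain ⟨β, hβ, hβN, hβχ⟩ := g3 χ χ.2 (by
        rw [hcN]
        show classInner (θ : N → ℂ) (θ : N → ℂ) ≠ 0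
        rw [classInner_self_of_irr θ.2]; exact one_ne_zero)
      obtain ⟨ψ, hψ, hψβ⟩ := H27.exists_quotient_irr (N := N) hβ (fun n hn => hβN ⟨n, hn⟩)
      haveI : IsMulCommutative (G ⧸ N) := IsCyclic.commutative
      obtain ⟨μ, hμ⟩ := H27.exists_hom_of_one (irr_isChar hψ) (irr_degree_one_of_comm hψ)
      have hβμ : ∀ g : G, β g = (μ (g : G ⧸ N) : ℂ) := fun g => by rw [hψβ, hμ]
      -- invariance
      have hβk : (fun g : G => β (g ^ k)) = β := by
        have e1 : (fun g : G => β (g ^ k)) * (c θ' : G → ℂ) = β * (c θ' : G → ℂ) := by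
          funext g
          show β (g ^ k) * (c θ' : G → ℂ) g = β g * (c θ' : G → ℂ) g
          have h4 : (χ : G → ℂ) (g ^ k) = β (g ^ k) * (c θ' : G → ℂ) (g ^ k) := congrFun hβχ _
          have h5 : (χ : G → ℂ) g = β g * (c θ' : G → ℂ) g := congrFun hβχ _
          rw [hc2] at h4
          rw [← h4, ← h5, h3]
        rcases g1 _ _ (H27.isIrr_pow_coprime hβ hkG) hβ (fun n => by
            show β ((n : G) ^ k) = β (1 ^ k)
            rw [one_pow, ← Subgroup.coe_pow]; exact hβN _) hβN with h4 | h4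
        · exact h4
        · exfalso
          rw [e1, classInner_self_of_irr (g2 β hβ hβN)] at h4
          exact one_ne_zero h4
      have hμp : ∀ q, μ q ^ p = 1 := by
        intro q
        obtain ⟨g, rfl⟩ := QuotientGroup.mk_surjective q
        have h4 : β (g ^ k) = β g := congrFun hβk g
        rw [hβμ, hβμ, QuotientGroup.mk_pow, map_pow, hlk] at h4
        have h5 : μ (g : G ⧸ N) ^ (1 + p) = μ (g : G ⧸ N) := Units.ext h4
        rw [pow_add, pow_one] at h5
        exact mul_eq_left.1 h5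
      refine ⟨⟨θ', ⟨μ, hμp⟩⟩, ?_⟩
      apply Subtype.ext
      funext g
      rw [hf]
      show (μ (g : G ⧸ N) : ℂ) * (c θ' : G → ℂ) g = (χ : G → ℂ) g
      rw [← hβμ]
      exact (congrFun hβχ g).symm
  have h1 := Nat.card_congr (Equiv.ofInjective f hinj)
  rw [Nat.card_prod, hcard, mul_comm] at h1
  rw [h1, hrange]
  rfl

/-- Let G be a finite group, p a prime, P a Sylow p-subgroup, N the p-residual of G (the subgroup generated by the elements of order prime to p, the smallest normal subgroup with G/N a p-group), and M a maximal ideal of the algebraic integers containing p; suppose G/N is cyclic and nontrivial. Let k be a natural number with g ^ k = g ^ (1 + p) for every p-element g and g ^ k = g for every element g of order prime to p (so that χ (g ^ k) is the image of χ g under the field automorphism that raises p-power roots of unity to the power 1 + p and fixes the roots of unity of order prime to p). Then the number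 of members χ of the principal block of G of degree prime to p with χ (g ^ k) = χ g for all g equals p times the number of members θ of the principal block of N of degree prime to p that are invariant under conjugation by P and satisfy θ (n ^ k) = θ n for all n. -/
theorem result {G : Type*} [Group G] [Finite G] (p : ℕ) [Fact p.Prime] (M : Ideal Cfsg.AlgInt) (hM : Cfsg.IsPModular p M) (P : Sylow p G) (N : Subgroup G) [hN : N.Normal] (hNres : N = Cfsg.pResidual p G) (hcyc : IsCyclic (G ⧸ N)) (hnt : N ≠ ⊤) (k : ℕ) (hk₁ : ∀ g : G, (∃ j : ℕ, orderOf g = p ^ j) → g ^ k = g ^ (1 + p)) (hk₂ : ∀ g : G, Nat.Coprime (orderOf g) p → g ^ k = g) : Nat.card {χ : Cfsg.IrrCharacter G // χ ∈ Cfsg.principalBlock M G ∧ ¬ p ∣ Cfsg.charDegree (χ : G → ℂ) ∧ ∀ g : G, (χ : G → ℂ) (g ^ k) = (χ : G → ℂ) g} = p * Nat.card {θ : Cfsg.IrrCharacter ↥N // θ ∈ Cfsg.principalBlock M ↥N ∧ ¬ p ∣ Cfsg.charDegree (θ : ↥N → ℂ) ∧ (∀ x ∈ (P : Subgroup G), ∀ n : ↥N, (θ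 : ↥N → ℂ) ⟨x * n * x⁻¹, hN.conj_mem n n.2 x⟩ = (θ : ↥N → ℂ) n) ∧ ∀ n : ↥N, (θ : ↥N → ℂ) (n ^ k) = (θ : ↥N → ℂ) n} := by
  haveI := Fintype.ofFinite G
  haveI := Fintype.ofFinite N
  exact main p M hM P N hNres hcyc hnt k hk₁ hk₂

end Cfsg.Agent.S4553
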