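import Cfsg.Statements.S4558
import Cfsg.Agent.H27.AD5
import Cfsg.Agent.H27.PMod

set_option autoImplicit false
open Cfsg

namespace Cfsg.Agent.S4558

open Cfsg.Agent.H27


/-- Let χ be a character of the finite group G and g an element of p-power order for the prime p. If χ g = 0, then p divides the degree of χ. -/
theorem result {G : Type*} [Group G] [Finite G] (p : ℕ) [Fact p.Prime] (χ : G → ℂ) (hχ : Cfsg.IsCharacter G χ) (g : G) (hg : ∃ j : ℕ, orderOf g = p ^ j) (h0 : χ g = 0) : p ∣ Cfsg.charDegree χ := by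
  haveI := Fintype.ofFinite G
  obtain ⟨M, hM⟩ := exists_isPModular (Fact.out : p.Prime)
  haveI := Cfsg.Agent.H11.pmod_isPrime hM
  obtain ⟨n, hn⟩ := Cfsg.Agent.H3.char_one_eq_nat hχ
  have h1 := Cfsg.Agent.H11.li_char_mul_sub hM hχ (Commute.one_right g) hg
  rw [mul_one, h0, zero_sub, hn] at h1
  have h2 := Cfsg.Agent.H11.li_neg h1
  rw [neg_neg, Cfsg.Agent.H11.li_natCast_iff hM] at h2
  have h3 : Cfsg.charDegree χ = n := by
    unfold Cfsg.charDegree
    rw [hn]
    simp
  rw [h3]; exact h2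

end Cfsg.Agent.S4558
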