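import Cfsg.Statements.S4560
import Cfsg.Agent.H10.Mom6

set_option autoImplicit false
open Cfsg

namespace Cfsg.Agent.S4560

open Cfsg.Agent.H10.Mom

theorem elt (n : ℕ) (m : Multiset ℕ) (hs : m.sum ≤ n) (h2 : ∀ a ∈ m, 2 ≤ a)
    (hev : Even (m.sum + Multiset.card m)) (D : ℕ) (hD : ∀ a ∈ m, a ∣ D) :
    ∃ x : alternatingGroup (Fin n), orderOf x ∣ D ∧ (x : Equiv.Perm (Fin n)).cycleType = m ∧
      fx (Fin n) x = n - m.sum ∧ (2 ∉ m → tw (Fin n) x = 0) := by
  classical
  obtain ⟨g, hg⟩ := (Equiv.Perm.exists_with_cycleType_iff (Fin n) (m := m)).2 ⟨by simpa using hs, h2⟩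
  have hsg : Equiv.Perm.sign g = 1 := by
    rw [Equiv.Perm.sign_of_cycleType, hg, hev.neg_one_pow]
  refine ⟨⟨g, by rwa [Equiv.Perm.mem_alternatingGroup]⟩, ?_, hg, ?_, ?_⟩
  · rw [Subgroup.orderOf_mk, ← Equiv.Perm.lcm_cycleType, hg]
    exact Multiset.lcm_dvd.2 hD
  · have h1 := Equiv.Perm.card_fixedPoints g
    rw [hg, Fintype.card_fin] at h1
    rw [← h1, fx, ← Nat.card_eq_fintype_card]
    rfl
  · intro h
    have : IsEmpty (Ts (Fin n) (⟨g, by rwa [Equiv.Perm.mem_alternatingGroup]⟩ : alternatingGroup (Fin n))) := by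
      refine ⟨fun a => h ?_⟩
      obtain ⟨a, ha1, ha2⟩ := a
      have ha1' : g a ≠ a := ha1
      have ha2' : g (g a) = a := ha2
      rw [← hg, Equiv.Perm.cycleType_def]
      have hc : g.cycleOf a ∈ g.cycleFactorsFinset := by
        rw [Equiv.Perm.cycleOf_mem_cycleFactorsFinset_iff, Equiv.Perm.mem_support]
        exact ha1'
      have hcyc : (g.cycleOf a).IsCycle := Equiv.Perm.isCycle_cycleOf g ha1'
      have ho : orderOf (g.cycleOf a) = 2 := by
        apply orderOf_eq_prime
        · rw [hcyc.pow_eq_one_iff' (x := a) (by rw [Equiv.Perm.cycleOf_apply_self]; exact ha1'),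
            ]
          rw [Equiv.Perm.cycleOf_pow_apply_self, pow_two, Equiv.Perm.mul_apply, ha2']
        · exact hcyc.ne_one
      have hcard : (g.cycleOf a).support.card = 2 := by rw [← hcyc.orderOf, ho]
      rw [Multiset.mem_map]
      exact ⟨g.cycleOf a, hc, hcard⟩
    exact Nat.card_of_isEmpty

/-- `k` cycles of length `b`, or `k - 2` and one of length `2 b` -/
theorem ms (b k : ℕ) (hb : Even b) (hk : 2 ≤ k) : ∃ m : Multiset ℕ, m.sum = k * b ∧
    Even (m.sum + Multiset.card m) ∧ ∀ a ∈ m, a = b ∨ a = 2 * b := by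
  rcases Nat.even_or_odd k with h | h
  · refine ⟨Multiset.replicate k b, by simp, ?_, ?_⟩
    · rw [Multiset.sum_replicate, Multiset.card_replicate, smul_eq_mul]
      exact (h.mul_right b).add h
    · intro a ha; left; exact Multiset.eq_of_mem_replicate ha
  · obtain ⟨j, hj⟩ := h
    have hj1 : k - 2 = 2 * j - 1 := by omega
    refine ⟨Multiset.replicate (k - 2) b + {2 * b}, ?_, ?_, ?_⟩
    · rw [Multiset.sum_add, Multiset.sum_replicate, Multiset.sum_singleton, smul_eq_mul, ← add_mul]
      congr 1; omega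
    · rw [Multiset.sum_add, Multiset.sum_replicate, Multiset.sum_singleton, smul_eq_mul, ← add_mul,
        Multiset.card_add, Multiset.card_replicate, Multiset.card_singleton]
      refine (hb.mul_left _).add ?_
      exact ⟨j, by omega⟩
    · intro a ha
      rcases Multiset.mem_add.1 ha with h | h
      · left; exact Multiset.eq_of_mem_replicate h
      · right; exact Multiset.mem_singleton.1 h

theorem h4P (n : ℕ) (hn : 7 ≤ n) : MulAction.IsMultiplyPretransitive (Equiv.Perm (Fin n)) (Fin n) 4 :=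
  Equiv.Perm.isMultiplyPretransitive _ _

theorem h4A (n : ℕ) (hn : 7 ≤ n) : MulAction.IsMultiplyPretransitive (alternatingGroup (Fin n)) (Fin n) 4 := by
  haveI := alternatingGroup.isMultiplyPretransitive (Fin n)
  exact MulAction.isMultiplyPretransitive_of_le (n := Nat.card (Fin n) - 2) (by simp; omega) (by simp)

theorem pack (n : ℕ) (hn : 7 ≤ n) (x : alternatingGroup (Fin n))
    (h : n1 (Fin n) x = 0 ∨ n2 (Fin n) x = 0 ∨ n3 (Fin n) x = 0) :
    ∃ χ : Cfsg.IrrCharacter (alternatingGroup (Fin n)), (χ : alternatingGroup (Fin n) → ℂ) x = 0 ∧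
      ∃ ψ : Cfsg.IrrCharacter (Equiv.Perm (Fin n)), ∀ x : alternatingGroup (Fin n),
        (ψ : Equiv.Perm (Fin n) → ℂ) x = (χ : alternatingGroup (Fin n) → ℂ) x := by
  have hX : 4 ≤ Nat.card (Fin n) := by simp; omega
  rcases h with h | h | h
  · refine ⟨⟨_, irr1 (h4A n hn) hX⟩, ?_, ⟨_, irr1 (h4P n hn) hX⟩, fun y => rfl⟩
    simp [c1, h]
  · refine ⟨⟨_, irr2 (h4A n hn) hX⟩, ?_, ⟨_, irr2 (h4P n hn) hX⟩, fun y => rfl⟩
    simp [c2, h]
  · refine ⟨⟨_, irr3 (h4A n hn) hX⟩, ?_, ⟨_, irr3 (h4P n hn) hX⟩, fun y => rfl⟩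
    simp [c3, h]

/-- For n ≥ 7 the alternating group on n letters has an irreducible character that vanishes at some 2-element and is the restriction of an irreducible character of the symmetric group, and an irreducible character that vanishes at some element of order 3 and is the restriction of an irreducible character of the symmetric group. -/
theorem result (n : ℕ) (hn : 7 ≤ n) : (∃ χ : Cfsg.IrrCharacter (alternatingGroup (Fin n)), (∃ x : alternatingGroup (Fin n), (∃ j : ℕ, orderOf x = 2 ^ j) ∧ (χ : alternatingGroup (Fin n) → ℂ) x = 0) ∧ ∃ ψ : Cfsg.IrrCharacter (Equiv.Perm (Fin n)), ∀ x : alternatingGroup (Fin n), (ψ : Equiv.Perm (Fin n) → ℂ) x = (χ : alternatingGroup (Fin n) → ℂ) x) ∧ (∃ χ : Cfsg.IrrCharacter (alternatingGroup (Fin n)), (∃ y : alternatingGroup (Fin n), orderOf y = 3 ∧ (χ : alternatingGroup (Fin n) → ℂ) y = 0) ∧ ∃ ψ : Cfsg.IrrCharacter (Equiv.Perm (Fin n)), ∀ x : alternatingGroup (Fin n), (ψ : Equiv.Perm (Fin n) → ℂ) x = (χ : alternatingGroup (Fin n) → ℂ)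 x) := by
  constructor
  · obtain ⟨x, ⟨j, hj⟩, hx⟩ : ∃ x : alternatingGroup (Fin n), (∃ j : ℕ, orderOf x = 2 ^ j) ∧
        (n1 (Fin n) x = 0 ∨ n2 (Fin n) x = 0 ∨ n3 (Fin n) x = 0) := by
      rcases Nat.even_or_odd n with he | ho
      · obtain ⟨m, hm, hev, ha⟩ := ms 4 (n / 4) (by decide) (by
          obtain ⟨r, hr⟩ := he; omega)
        obtain ⟨x, hx1, -, hx3, hx4⟩ := elt n m (by rw [hm]; omega) (fun a h => by
          rcases ha a h with h | h <;> omega) hev 8 (fun a h => by
          rcases ha a h with h | h <;> subst h <;> decide)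
        refine ⟨x, ?_, ?_⟩
        · obtain ⟨j, -, hj⟩ := (Nat.dvd_prime_pow Nat.prime_two (m := 3)).1 (by simpa using hx1)
          exact ⟨j, hj⟩
        · have h0 := hx4 (fun h => by rcases ha 2 h with h | h <;> omega)
          rw [hm] at hx3
          right
          rcases (show n - n / 4 * 4 = 0 ∨ n - n / 4 * 4 = 2 by obtain ⟨r, hr⟩ := he; omega) with h | h
          · left
            rw [n2, hx3, h0, h]; simp
          · right
            rw [n3, hx3, h0, h]; norm_num
      · obtain ⟨r, hr⟩ := ho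
        obtain ⟨m, hm, hev, ha⟩ := ms 2 r (by decide) (by omega)
        obtain ⟨x, hx1, -, hx3, hx4⟩ := elt n m (by rw [hm]; omega) (fun a h => by
          rcases ha a h with h | h <;> omega) hev 4 (fun a h => by
          rcases ha a h with h | h <;> subst h <;> decide)
        refine ⟨x, ?_, ?_⟩
        · obtain ⟨j, -, hj⟩ := (Nat.dvd_prime_pow Nat.prime_two (m := 2)).1 (by simpa using hx1)
          exact ⟨j, hj⟩
        · left
          rw [hm] at hx3
          rw [n1, hx3, show n - r * 2 = 1 by omega]; simp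
    obtain ⟨χ, h1, h2⟩ := pack n hn x hx
    exact ⟨χ, ⟨x, ⟨j, hj⟩, h1⟩, h2⟩
  · obtain ⟨x, hj, hx⟩ : ∃ x : alternatingGroup (Fin n), orderOf x = 3 ∧
        (n1 (Fin n) x = 0 ∨ n2 (Fin n) x = 0 ∨ n3 (Fin n) x = 0) := by
      obtain ⟨x, hx1, hx2, hx3, hx4⟩ := elt n (Multiset.replicate (n / 3) 3) (by
          rw [Multiset.sum_replicate, smul_eq_mul]; omega) (fun a h => by
          rw [Multiset.eq_of_mem_replicate h]; omega) (by
          rw [Multiset.sum_replicate, smul_eq_mul, Multiset.card_replicate]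
          exact ⟨n / 3 * 2, by ring⟩) 3 (fun a h => by rw [Multiset.eq_of_mem_replicate h])
      refine ⟨x, ?_, ?_⟩
      · rcases (Nat.dvd_prime Nat.prime_three).1 hx1 with h | h
        · exfalso
          rw [orderOf_eq_one_iff] at h
          rw [h, OneMemClass.coe_one, Equiv.Perm.cycleType_one] at hx2
          have := congrArg Multiset.card hx2
          rw [Multiset.card_replicate, Multiset.card_zero] at this
          omega
        · exact h
      · have h0 := hx4 (fun h => by have := Multiset.eq_of_mem_replicate h; omega)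
        rw [Multiset.sum_replicate, smul_eq_mul] at hx3
        rcases (show n - n / 3 * 3 = 0 ∨ n - n / 3 * 3 = 1 ∨ n - n / 3 * 3 = 2 by omega) with h | h | h
        · right; left
          rw [n2, hx3, h0, h]; simp
        · left
          rw [n1, hx3, h]; simp
        · right; right
          rw [n3, hx3, h0, h]; norm_num
    obtain ⟨χ, h1, h2⟩ := pack n hn x hx
    exact ⟨χ, ⟨x, hj, h1⟩, h2⟩

end Cfsg.Agent.S4560
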