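import Cfsg.Statements.S4561
import Cfsg.Agent.H20.CT2

set_option autoImplicit false
universe u
open Cfsg


namespace Cfsg.Agent.S4561


open Cfsg.Agent.H3 Cfsg.Agent.H20.CT

theorem sqf (s : Finset ℕ) (hs : ∀ q ∈ s, q.Prime) : Squarefree (∏ q ∈ s, q) := by
  classical
  induction s using Finset.induction_on with
  | empty => simp
  | insert a s ha ih =>
    rw [Finset.prod_insert ha, Nat.squarefree_mul_iff]
    refine ⟨?_, (hs a (by simp)).squarefree, ih fun q hq => hs q (by simp [hq])⟩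
    rw [Nat.Prime.coprime_iff_not_dvd (hs a (by simp))]
    intro h
    obtain ⟨q, hq, hd⟩ := (Prime.dvd_finsetProd_iff (hs a (by simp)).prime _).mp h
    have := (Nat.prime_dvd_prime_iff_eq (hs a (by simp)) (hs q (by simp [hq]))).mp hd
    exact ha (this ▸ hq)

theorem dvd_rad {n q : ℕ} (hn : n ≠ 0) (hq : q.Prime) : q ∣ rad n ↔ q ∣ n := by
  unfold rad
  rw [Prime.dvd_finsetProd_iff hq.prime]
  constructor
  · rintro ⟨r, hr, hd⟩
    exact hd.trans (Nat.dvd_of_mem_primeFactors hr)
  · intro h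
    exact ⟨q, Nat.mem_primeFactors.mpr ⟨hq, h, hn⟩, dvd_rfl⟩

/-- For every finite solvable group G there is a finite group H with a faithful irreducible character χ whose degree squared equals the index of the centre Z(H) (so χ is fully ramified over the centre), such that G is isomorphic to a subgroup of H/Z(H), the primes dividing the orders of H, of Z(H) and of G are the same, and the order of Z(H) is squarefree. -/
theorem result {G : Type u} [Group G] [Finite G] (hsolv : Group.IsSolvable G) : ∃ (H : Type u) (_ : Group H) (_ : Finite H) (χ : Cfsg.IrrCharacter H), (∀ h : H, (χ : H → ℂ) h = (χ : H → ℂ) 1 → h = 1) ∧ (Cfsg.charDegree (χ : H → ℂ)) ^ 2 = (Subgroup.center H).index ∧ (∃ f : G →* H ⧸ Subgroup.center H, Function.Injective f) ∧ (∀ p : ℕ, p.Prime → ((p ∣ Nat.card H ↔ p ∣ Nat.card G) ∧ (p ∣ Nat.card (Subgroup.center H) ↔ p ∣ Nat.card G))) ∧ Squarefree (Nat.card (Subgroup.center H)) := by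
  classical
  obtain ⟨X, _, _, Z, ω, φ, hct, hran, hidx, hφ1, hφ2⟩ := main _ G hsolv rfl
  have hZn := hct.normal
  let D : Subgroup X := ω.ker.map Z.subtype
  have hD : ∀ (z : X) (hz : z ∈ Z), z ∈ D ↔ ω ⟨z, hz⟩ = 1 := by
    intro z hz
    constructor
    · rintro ⟨w, hw, hwz⟩
      have : w = ⟨z, hz⟩ := Subtype.ext hwz
      rw [← this]; exact hw
    · intro h
      exact ⟨⟨z, hz⟩, h, rfl⟩
  have hDZ : ∀ z ∈ D, z ∈ Z := by
    rintro _ ⟨w, _, rfl⟩; exact w.2
  haveI hDn : D.Normal := by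
    constructor
    intro z hz g
    have h1 := hDZ z hz
    rw [hD _ (hZn.conj_mem z h1 g), hct.inv g z h1]
    exact (hD z h1).mp hz
  let H := X ⧸ D
  haveI : Finite H := inferInstance
  haveI := Fintype.ofFinite H
  let mk : X →* H := QuotientGroup.mk' D
  have hmk : ∀ x, mk x = 1 ↔ x ∈ D := fun x => QuotientGroup.eq_one_iff x
  have hsurj : Function.Surjective mk := QuotientGroup.mk'_surjective D
  have hc1 : ∀ z ∈ Z, mk z ∈ Subgroup.center H := by
    intro z hz
    rw [Subgroup.mem_center_iff]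
    intro x
    obtain ⟨g, rfl⟩ := hsurj x
    have h1 : mk (z⁻¹ * (g * z * g⁻¹)) = 1 := by
      have h2 := hZn.conj_mem z hz g
      rw [hmk, hD _ (Z.mul_mem (Z.inv_mem hz) h2)]
      have h3 : (⟨z⁻¹ * (g * z * g⁻¹), Z.mul_mem (Z.inv_mem hz) h2⟩ : Z) =
        ⟨z, hz⟩⁻¹ * ⟨g * z * g⁻¹, h2⟩ := rfl
      rw [h3, map_mul, map_inv, hct.inv g z hz h2, inv_mul_cancel]
    rw [map_mul, map_inv, inv_mul_eq_one, map_mul, map_mul, map_inv] at h1
    rw [eq_comm, mul_inv_eq_iff_eq_mul] at h1
    exact h1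
  have hc2 : ∀ x, mk x ∈ Subgroup.center H → x ∈ Z := by
    intro x hx
    by_contra hxZ
    obtain ⟨y, z, hz, hxy, hω⟩ := hct.star x hxZ
    apply hω
    rw [← hD z hz, ← hmk]
    have h1 := congrArg mk hxy
    rw [map_mul, map_mul, map_mul, ← Subgroup.mem_center_iff.mp hx (mk y)] at h1
    exact (left_eq_mul.mp h1)
  let π : Z →* Subgroup.center H :=
    (mk.comp Z.subtype).codRestrict (Subgroup.center H) (fun z => hc1 z z.2)
  have hπ : Function.Surjective π := by
    rintro ⟨c, hc⟩
    obtain ⟨x, rfl⟩ := hsurj c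
    exact ⟨⟨x, hc2 x hc⟩, rfl⟩
  have hker : ∀ z : Z, π z = 1 ↔ ω z = 1 := by
    intro z
    rw [← hD z z.2, ← hmk]
    constructor
    · intro h; exact congrArg Subtype.val h
    · intro h; exact Subtype.ext h
  let ω' : Subgroup.center H →* ℂˣ := MonoidHom.liftOfRightInverse π (Function.surjInv hπ)
    (Function.rightInverse_surjInv hπ) ⟨ω, fun z hz => (hker z).mp hz⟩
  have hω' : ∀ z, ω' (π z) = ω z := fun z =>
    MonoidHom.liftOfRightInverse_comp_apply π (Function.surjInv hπ)
      (Function.rightInverse_surjInv hπ) ⟨ω, fun z hz => (hker z).mp hz⟩ z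
  have hinj : Function.Injective ω' := by
    rw [injective_iff_map_eq_one]
    intro c hc
    obtain ⟨z, rfl⟩ := hπ c
    rw [hω'] at hc
    exact (hker z).mpr hc
  have hrange : ω'.range = ω.range := by
    ext u
    constructor
    · rintro ⟨c, rfl⟩
      obtain ⟨z, rfl⟩ := hπ c
      exact ⟨z, (hω' z).symm⟩
    · rintro ⟨z, rfl⟩
      exact ⟨π z, hω' z⟩
  have hG0 : Nat.card G ≠ 0 := Nat.card_pos.ne'
  have hrad : rad (Nat.card G) ≠ 0 := by
    unfold rad
    exact Finset.prod_ne_zero_iff.mpr fun q hq => (Nat.prime_of_mem_primeFactors hq).ne_zero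
  haveI : NeZero (rad (Nat.card G)) := ⟨hrad⟩
  have hcard : Nat.card (Subgroup.center H) = rad (Nat.card G) := by
    rw [Nat.card_congr (MonoidHom.ofInjective hinj).toEquiv, hrange, hran, Complex.card_rootsOfUnity]
  have hindex : (Subgroup.center H).index = Z.index := by
    have h1 : (Subgroup.center H).comap mk = Z := by
      ext x
      exact ⟨hc2 x, hc1 x⟩
    rw [← h1, Subgroup.index_comap_of_surjective _ hsurj]
  obtain ⟨χ, hχ1, hχ2⟩ := exists_char ω' hinj (by
    intro x hx
    obtain ⟨g, rfl⟩ := hsurj x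
    obtain ⟨y, z, hz, hxy, hω⟩ := hct.star g (fun h => hx (hc1 g h))
    refine ⟨mk y, mk z, hc1 z hz, ?_, ?_⟩
    · intro h
      exact hω ((hD z hz).mp ((hmk z).mp h))
    · rw [← map_mul, hxy, map_mul, map_mul])
  refine ⟨H, inferInstance, inferInstance, χ, hχ1, hχ2, ?_, ?_, ?_⟩
  · refine ⟨MonoidHom.mk' (fun g => QuotientGroup.mk' (Subgroup.center H) (mk (φ g))) ?_, ?_⟩
    · intro g h
      rw [← map_mul, ← map_mul]
      apply QuotientGroup.eq.mpr
      rw [← map_inv, ← map_mul]
      exact hc1 _ (hφ1 g h)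
    · rw [injective_iff_map_eq_one]
      intro g hg
      apply hφ2
      apply hc2
      exact (QuotientGroup.eq_one_iff _).mp hg
  · intro q hq
    have h1 : q ∣ Nat.card (Subgroup.center H) ↔ q ∣ Nat.card G := by
      rw [hcard]; exact dvd_rad hG0 hq
    refine ⟨⟨?_, ?_⟩, h1⟩
    · intro h
      rw [← Subgroup.index_mul_card (Subgroup.center H)] at h
      rcases hq.dvd_mul.mp h with h2 | h2
      · rw [hindex] at h2
        exact hidx q hq h2
      · exact h1.mp h2
    · intro h
      exact (h1.mpr h).trans (Subgroup.card_subgroup_dvd_card _)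
  · rw [hcard]
    exact sqf _ fun q hq => Nat.prime_of_mem_primeFactors hq


end Cfsg.Agent.S4561
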