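import Cfsg.Statements.S4566
import Cfsg.Agent.H27.AD5

set_option autoImplicit false
open Cfsg

namespace Cfsg.Agent.S4566

open Cfsg.Agent.H27


/-- Let N be a central subgroup of the finite group G, ψ a faithful irreducible (hence degree-one) character of N, and χ an irreducible character of G whose restriction to N contains ψ. If g ∈ G and some x ∈ G has commutator x⁻¹ g⁻¹ x g in N but different from 1, then χ g = 0. -/
theorem result {G : Type*} [Group G] [Fintype G] (N : Subgroup G) [Fintype N] (hN : N ≤ Subgroup.center G) (ψ : Cfsg.IrrCharacter ↥N) (hfaith : ∀ n : ↥N, (ψ : ↥N → ℂ) n = (ψ : ↥N → ℂ) 1 → n = 1) (χ : Cfsg.IrrCharacter G) (hover : Cfsg.classInner (fun n : ↥N => (χ : G → ℂ) n) (ψ : ↥N → ℂ) ≠ 0) (g x : G) (hcomm : x⁻¹ * g⁻¹ * x * g ∈ N) (hne : x⁻¹ * g⁻¹ * x * g ≠ 1) : (χ : G → ℂ) g = 0 := by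
  classical
  haveI hNn : N.Normal := Cfsg.Agent.H3.normal_of_le_center hN
  set z := x⁻¹ * g⁻¹ * x * g with hz
  have hzc := hN hcomm
  have h1 : (χ : G → ℂ) (z * g⁻¹) = (χ : G → ℂ) g⁻¹ := by
    have e : z * g⁻¹ = x⁻¹ * g⁻¹ * x⁻¹⁻¹ := by rw [hz]; group
    rw [e]
    exact Cfsg.Agent.H3.irr_classFun χ.2 g⁻¹ x⁻¹
  have h2 := Cfsg.Agent.H3.irr_central_mul χ.2 hzc g⁻¹
  rw [h1] at h2
  have h3 := Cfsg.Agent.H3.clifford_invariant hNn χ.2 ψ.2 (fun y => by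
    funext n
    rw [Cfsg.Agent.H3.cj_apply]
    refine congrArg (ψ : N → ℂ) (Subtype.ext ?_)
    show y * n * y⁻¹ = n
    have := Subgroup.mem_center_iff.mp (hN n.2) y
    rw [this]; group) hover
  have h4 : (χ : G → ℂ) z = Cfsg.classInner (fun n : ↥N => (χ : G → ℂ) n) (ψ : ↥N → ℂ) * (ψ : N → ℂ) ⟨z, hcomm⟩ :=
    congrFun h3 ⟨z, hcomm⟩
  have h5 : (χ : G → ℂ) 1 = Cfsg.classInner (fun n : ↥N => (χ : G → ℂ) n) (ψ : ↥N → ℂ) * (ψ : N → ℂ) 1 :=
    congrFun h3 1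
  have h6 : (ψ : N → ℂ) ⟨z, hcomm⟩ ≠ (ψ : N → ℂ) 1 := fun h => hne (by
    have := hfaith _ h
    exact congrArg Subtype.val this)
  have h7 : (χ : G → ℂ) g⁻¹ = 0 := by
    have h8 : (χ : G → ℂ) g⁻¹ * ((χ : G → ℂ) 1 - (χ : G → ℂ) z) = 0 := by linear_combination h2
    rcases mul_eq_zero.mp h8 with h | h
    · exact h
    · exfalso
      rw [h4, h5, ← mul_sub] at h
      rcases mul_eq_zero.mp h with h | h
      · exact hover h
      · exact h6 (sub_eq_zero.mp h).symm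
  have h8 := Cfsg.Agent.H3.char_inv (Cfsg.Agent.H3.irr_isChar χ.2) g
  rw [h7] at h8
  have h9 := congrArg (starRingEnd ℂ) h8
  simpa using h9.symm

end Cfsg.Agent.S4566
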