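import Cfsg.Statements.S4567
import Cfsg.Agent.H3.Clifford
import Cfsg.Agent.H3.BrauerC
import Cfsg.Agent.H3.Inflate
import Cfsg.Agent.H27.Util

set_option autoImplicit false
open Cfsg

namespace Cfsg.Agent.S4567

open Cfsg.Agent.H3

local notation "conj" => starRingEnd ℂ

theorem card_cent_conj {Q : Type*} [Group Q] [Finite Q] {a b : Q} (h : IsConj a b) :
    Nat.card (Subgroup.centralizer ({a} : Set Q)) = Nat.card (Subgroup.centralizer ({b} : Set Q)) := by
  have h1 := card_isConj_mul_card_centralizer a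
  have h2 := card_isConj_mul_card_centralizer b
  have h3 : Nat.card {x : Q // IsConj a x} = Nat.card {x : Q // IsConj b x} :=
    Nat.card_congr (Equiv.subtypeEquivRight fun x => ⟨fun hx => h.symm.trans hx, fun hx => h.trans hx⟩)
  rw [← h2, h3] at h1
  refine Nat.eq_of_mul_eq_mul_left ?_ h1
  haveI : Nonempty {x : Q // IsConj b x} := ⟨⟨b, IsConj.refl b⟩⟩
  exact Nat.card_pos

theorem sum_class {Q : Type*} [Group Q] [Fintype Q] [Fintype (ConjClasses Q)] (f : ConjClasses Q → ℕ) :
    ∑ q : Q, f (ConjClasses.mk q) * Nat.card (Subgroup.centralizer ({q} : Set Q)) =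
      Nat.card Q * ∑ C : ConjClasses Q, f C := by
  classical
  rw [← Finset.sum_fiberwise (s := (Finset.univ : Finset Q)) (g := fun q => ConjClasses.mk q),
    Finset.mul_sum]
  refine Finset.sum_congr rfl fun C _ => ?_
  obtain ⟨q0, rfl⟩ := ConjClasses.mk_surjective C
  have h1 : ∀ q ∈ (Finset.univ : Finset Q).filter (fun q => ConjClasses.mk q = ConjClasses.mk q0),
      f (ConjClasses.mk q) * Nat.card (Subgroup.centralizer ({q} : Set Q)) =
      f (ConjClasses.mk q0) * Nat.card (Subgroup.centralizer ({q0} : Set Q)) := by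
    intro q hq
    rw [Finset.mem_filter] at hq
    rw [hq.2, card_cent_conj (ConjClasses.mk_eq_mk_iff_isConj.mp hq.2)]
  rw [Finset.sum_congr rfl h1, Finset.sum_const, smul_eq_mul]
  have h2 : ((Finset.univ : Finset Q).filter (fun q => ConjClasses.mk q = ConjClasses.mk q0)).card =
      Nat.card {x : Q // IsConj q0 x} := by
    rw [Nat.card_eq_fintype_card, Fintype.card_subtype]
    congr 1
    ext q
    simp only [Finset.mem_filter, Finset.mem_univ, true_and, ConjClasses.mk_eq_mk_iff_isConj]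
    exact ⟨fun h => h.symm, fun h => h.symm⟩
  rw [h2]
  have h3 := card_isConj_mul_card_centralizer q0
  rw [← h3]
  ring

theorem sum_comp_mk {A : Type*} [Group A] [Fintype A] (N : Subgroup A) [N.Normal] [Fintype (A ⧸ N)]
    (F : A ⧸ N → ℕ) :
    ∑ a : A, F (a : A ⧸ N) = Nat.card N * ∑ b : A ⧸ N, F b := by
  classical
  rw [Finset.mul_sum, ← Finset.sum_fiberwise (s := Finset.univ) (g := fun a : A => (a : A ⧸ N))]
  refine Finset.sum_congr rfl fun b _ => ?_
  rw [Finset.sum_congr rfl (g := fun _ => F b)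
    (fun a ha => by rw [(Finset.mem_filter.mp ha).2]), Finset.sum_const, smul_eq_mul]
  congr 1
  have h1 := MonoidHom.card_fiber_eq_of_mem_range (QuotientGroup.mk' N) (x := b) (y := 1)
    (QuotientGroup.mk'_surjective N b) (QuotientGroup.mk'_surjective N 1)
  have h2 : (Finset.univ.filter fun a : A => (a : A ⧸ N) = b).card =
    (Finset.univ.filter fun a : A => QuotientGroup.mk' N a = 1).card := h1
  rw [h2]
  rw [Nat.card_eq_fintype_card, ← Fintype.card_coe]
  refine Fintype.card_congr (Equiv.subtypeEquivRight fun a => ?_)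
  simp


/-- Let N be a central subgroup of the finite group G and ψ a faithful irreducible (hence degree-one) character of N. Call a coset g N special when every x ∈ G whose commutator x⁻¹ g⁻¹ x g lies in N actually commutes with g (this depends only on the coset). Then the number of irreducible characters of G whose restriction to N contains ψ equals the number of conjugacy classes of G/N consisting of special cosets. -/
theorem result {G : Type*} [Group G] [Fintype G] (N : Subgroup G) [N.Normal] [Fintype N] (hN : N ≤ Subgroup.center G) (ψ : Cfsg.IrrCharacter ↥N) (hfaith : ∀ n : ↥N, (ψ : ↥N → ℂ) n = (ψ : ↥N → ℂ) 1 → n = 1) : Nat.card {χ : Cfsg.IrrCharacter G // Cfsg.classInner (fun n : ↥N => (χ : G → ℂ) n) (ψ : ↥N → ℂ) ≠ 0} = Nat.card {C : ConjClasses (G ⧸ N) // ∃ g : G, ConjClasses.mk (g : G ⧸ N) = C ∧ ∀ x : G, x⁻¹ * g⁻¹ * x * g ∈ N → x * g = g * x} := by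
  classical
  haveI := Fintype.ofFinite (IrrCharacter G)
  haveI : Fintype (G ⧸ N) := Fintype.ofFinite _
  haveI : Fintype (ConjClasses (G ⧸ N)) := Fintype.ofFinite _
  have hNn : N.Normal := inferInstance
  -- `N` is abelian
  have hψ1 : (ψ : N → ℂ) 1 = 1 := by
    haveI : IsMulCommutative N := ⟨⟨fun a b => Subtype.ext (Subgroup.mem_center_iff.mp (hN b.2) a)⟩⟩
    exact irr_degree_one_of_comm ψ.2
  have hcjt : ∀ x : G, cj hNn x (ψ : N → ℂ) = (ψ : N → ℂ) := by
    intro x
    funext n
    rw [cj_apply]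
    refine congrArg (ψ : N → ℂ) (Subtype.ext ?_)
    show x * (n : G) * x⁻¹ = n
    rw [Subgroup.mem_center_iff.mp (hN n.2) x, mul_inv_cancel_right]
  set c : IrrCharacter G → ℂ := fun χ =>
    classInner (fun n : N => (χ : G → ℂ) n) (ψ : N → ℂ) / (χ : G → ℂ) 1 with hc
  have hχ1 : ∀ χ : IrrCharacter G, (χ : G → ℂ) 1 ≠ 0 := fun χ => irr_one_ne_zero χ.2
  have hc1 : ∀ χ : IrrCharacter G, c χ =
      if classInner (fun n : N => (χ : G → ℂ) n) (ψ : N → ℂ) ≠ 0 then 1 else 0 := by
    intro χ
    split_ifs with h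
    · have h1 := clifford_invariant hNn χ.2 ψ.2 hcjt h
      have h2 := congrFun h1 1
      simp only [Pi.smul_apply, smul_eq_mul, hψ1, mul_one] at h2
      show classInner (fun n : N => (χ : G → ℂ) n) (ψ : N → ℂ) / (χ : G → ℂ) 1 = 1
      rw [← h2]
      exact div_self (hχ1 χ)
    · push Not at h
      show classInner (fun n : N => (χ : G → ℂ) n) (ψ : N → ℂ) / (χ : G → ℂ) 1 = 0
      rw [h, zero_div]
  have hNc : (Nat.card N : ℂ) ≠ 0 := card_ne_zeroC
  have hcw : ∀ (χ : IrrCharacter G) (g : G), (Nat.card N : ℂ) * c χ * (χ : G → ℂ) g =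
      ∑ n : N, (χ : G → ℂ) ((n : G) * g) * conj ((ψ : N → ℂ) n) := by
    intro χ g
    have h1 : ∀ n : N, (χ : G → ℂ) ((n : G) * g) =
        (χ : G → ℂ) n * (χ : G → ℂ) g / (χ : G → ℂ) 1 := by
      intro n
      rw [eq_div_iff (hχ1 χ)]
      exact irr_central_mul χ.2 (hN n.2) g
    simp only [h1]
    have h2 : (Nat.card N : ℂ) * c χ = (∑ n : N, (χ : G → ℂ) n * conj ((ψ : N → ℂ) n)) / (χ : G → ℂ) 1 := by
      show (Nat.card N : ℂ) * (classInner (fun n : N => (χ : G → ℂ) n) (ψ : N → ℂ) / (χ : G → ℂ) 1) = _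
      unfold classInner
      field_simp
    rw [h2, Finset.sum_div, Finset.sum_mul]
    refine Finset.sum_congr rfl fun n _ => ?_
    ring
  -- special elements
  let sp : G → Prop := fun g => ∀ x : G, x⁻¹ * g⁻¹ * x * g ∈ N → x * g = g * x
  have hconj : ∀ (g : G) (n : N), IsConj ((n : G) * g) g → ∃ x : G, x⁻¹ * g⁻¹ * x * g = (n : G)⁻¹ := by
    intro g n h
    rw [isConj_iff] at h
    obtain ⟨x, hx⟩ := h
    have hn : ∀ y : G, y * (n : G) = (n : G) * y := fun y => Subgroup.mem_center_iff.mp (hN n.2) y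
    refine ⟨x, ?_⟩
    have h1 : x * ((n : G) * g) * x⁻¹ = (n : G) * (x * g * x⁻¹) := by
      rw [← mul_assoc, hn x]; group
    rw [h1] at hx
    have h2 : x * g = (n : G)⁻¹ * g * x := by
      rw [mul_assoc, eq_inv_mul_iff_mul_eq]
      calc (n : G) * (x * g) = ((n : G) * (x * g * x⁻¹)) * x := by group
        _ = g * x := by rw [hx]
    have hn' : ∀ y : G, y * (n : G)⁻¹ = (n : G)⁻¹ * y := fun y =>
      Subgroup.mem_center_iff.mp (inv_mem (hN n.2)) y
    calc x⁻¹ * g⁻¹ * x * g = x⁻¹ * g⁻¹ * (x * g) := by group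
      _ = x⁻¹ * g⁻¹ * ((n : G)⁻¹ * (g * x)) := by rw [h2]; group
      _ = (n : G)⁻¹ * (x⁻¹ * g⁻¹ * (g * x)) := by
          rw [← mul_assoc, hn' (x⁻¹ * g⁻¹), mul_assoc]
      _ = (n : G)⁻¹ := by group
  have hconj' : ∀ (g : G) (n : N) (x : G), x⁻¹ * g⁻¹ * x * g = (n : G)⁻¹ → IsConj ((n : G) * g) g := by
    intro g n x h
    rw [isConj_iff]
    refine ⟨x, ?_⟩
    have hn : ∀ y : G, y * (n : G) = (n : G) * y := fun y => Subgroup.mem_center_iff.mp (hN n.2) y
    have hn' : ∀ y : G, y * (n : G)⁻¹ = (n : G)⁻¹ * y := fun y =>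
      Subgroup.mem_center_iff.mp (inv_mem (hN n.2)) y
    have h2 : x * g = (n : G)⁻¹ * (g * x) := by
      calc x * g = g * x * (x⁻¹ * g⁻¹ * x * g) := by group
        _ = g * x * (n : G)⁻¹ := by rw [h]
        _ = _ := hn' _
    calc x * ((n : G) * g) * x⁻¹ = (n : G) * (x * g) * x⁻¹ := by
          rw [← mul_assoc, hn x]; group
      _ = g := by rw [h2]; group
  have hsum : ∀ g : G, ∑ n : N, (if IsConj ((n : G) * g) g then conj ((ψ : N → ℂ) n) else 0) =
      if sp g then 1 else 0 := by
    intro g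
    split_ifs with hs
    · rw [Finset.sum_eq_single (1 : N)]
      · rw [if_pos (by simp only [OneMemClass.coe_one, one_mul]; exact IsConj.refl g), hψ1, map_one]
      · intro n _ hn1
        rw [if_neg]
        intro hcn
        obtain ⟨x, hx⟩ := hconj g n hcn
        have h1 : x * g = g * x := hs x (by rw [hx]; exact inv_mem n.2)
        have h2 : x⁻¹ * g⁻¹ * x * g = 1 := by
          calc x⁻¹ * g⁻¹ * x * g = x⁻¹ * g⁻¹ * (x * g) := by group
            _ = x⁻¹ * g⁻¹ * (g * x) := by rw [h1]
            _ = 1 := by group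
        rw [h2] at hx
        exact hn1 (Subtype.ext (inv_eq_one.mp hx.symm))
      · intro h; exact absurd (Finset.mem_univ _) h
    · obtain ⟨x, hx⟩ : ∃ x : G, ¬ (x⁻¹ * g⁻¹ * x * g ∈ N → x * g = g * x) := by
        by_contra hcon
        push Not at hcon
        exact hs hcon
      push Not at hx
      obtain ⟨hxN, hxg⟩ := hx
      set m : N := ⟨x⁻¹ * g⁻¹ * x * g, hxN⟩⁻¹ with hm
      have hmg : IsConj ((m : G) * g) g := by
        apply hconj' g m x
        rw [hm, Subgroup.coe_inv, inv_inv]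
      have hm1 : m ≠ 1 := by
        intro h
        rw [hm, inv_eq_one] at h
        have h1 : x⁻¹ * g⁻¹ * x * g = 1 := congrArg Subtype.val h
        apply hxg
        calc x * g = g * x * (x⁻¹ * g⁻¹ * x * g) := by group
          _ = g * x := by rw [h1, mul_one]
      have hψm : (ψ : N → ℂ) m ≠ 1 := fun h => hm1 (hfaith m (by rw [h, hψ1]))
      have hψmul : ∀ a b : N, (ψ : N → ℂ) (a * b) = (ψ : N → ℂ) a * (ψ : N → ℂ) b := by
        intro a b
        have h1 := irr_central_mul ψ.2 (z := a) (by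
          rw [Subgroup.mem_center_iff]
          intro y
          exact Subtype.ext (Subgroup.mem_center_iff.mp (hN a.2) y)) b
        rwa [hψ1, mul_one] at h1
      have hm' : ∀ y : G, y * (m : G) = (m : G) * y := fun y => Subgroup.mem_center_iff.mp (hN m.2) y
      have h1 : ∑ n : N, (if IsConj ((n : G) * g) g then conj ((ψ : N → ℂ) n) else 0) =
          conj ((ψ : N → ℂ) m) *
            ∑ n : N, (if IsConj ((n : G) * g) g then conj ((ψ : N → ℂ) n) else 0) := by
        rw [Finset.mul_sum, ← Equiv.sum_comp (Equiv.mulLeft m)]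
        refine Finset.sum_congr rfl fun n _ => ?_
        have h2 : IsConj (((Equiv.mulLeft m n : N) : G) * g) g ↔ IsConj ((n : G) * g) g := by
          have h3 : ((Equiv.mulLeft m n : N) : G) * g = (n : G) * ((m : G) * g) := by
            show ((m * n : N) : G) * g = _
            rw [Subgroup.coe_mul, ← mul_assoc, hm' n]
          rw [h3]
          have h4 : IsConj ((n : G) * ((m : G) * g)) ((n : G) * g) := by
            rw [isConj_iff] at hmg ⊢
            obtain ⟨y, hy⟩ := hmg
            refine ⟨y, ?_⟩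
            have hn' : ∀ y : G, y * (n : G) = (n : G) * y :=
              fun y => Subgroup.mem_center_iff.mp (hN n.2) y
            calc y * ((n : G) * ((m : G) * g)) * y⁻¹ = (y * (n : G)) * ((m : G) * g) * y⁻¹ := by group
              _ = (n : G) * (y * ((m : G) * g) * y⁻¹) := by rw [hn' y]; group
              _ = _ := by rw [hy]
          exact ⟨fun h => h4.symm.trans h, fun h => h4.trans h⟩
        by_cases h5 : IsConj ((n : G) * g) g
        · rw [if_pos (h2.mpr h5), if_pos h5]
          show conj ((ψ : N → ℂ) (m * n)) = _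
          rw [hψmul, map_mul]
        · rw [if_neg (fun h => h5 (h2.mp h)), if_neg h5, mul_zero]
      have h2 : (1 - conj ((ψ : N → ℂ) m)) *
          ∑ n : N, (if IsConj ((n : G) * g) g then conj ((ψ : N → ℂ) n) else 0) = 0 := by
        rw [sub_mul, one_mul, ← h1, sub_self]
      rcases mul_eq_zero.mp h2 with h3 | h3
      · exfalso
        apply hψm
        have : conj ((ψ : N → ℂ) m) = 1 := (sub_eq_zero.mp h3).symm
        have h4 := congrArg conj this
        rwa [Complex.conj_conj, map_one] at h4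
      · exact h3
  have hcent : ∀ (g : G) (n : N), Subgroup.centralizer ({(n : G) * g} : Set G) =
      Subgroup.centralizer ({g} : Set G) := by
    intro g n
    ext y
    rw [Subgroup.mem_centralizer_singleton_iff, Subgroup.mem_centralizer_singleton_iff]
    have hn' : ∀ y : G, y * (n : G) = (n : G) * y := fun y => Subgroup.mem_center_iff.mp (hN n.2) y
    rw [← mul_assoc, hn' y, mul_assoc, mul_assoc]
    exact ⟨fun h => mul_left_cancel h, fun h => by rw [h]⟩
  have hw : ∀ g : G, (Nat.card N : ℂ) * ∑ χ : IrrCharacter G, c χ * ((χ : G → ℂ) g * conj ((χ : G → ℂ) g)) =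
      if sp g then (Nat.card (Subgroup.centralizer ({g} : Set G)) : ℂ) else 0 := by
    intro g
    have h1 : (Nat.card N : ℂ) * ∑ χ : IrrCharacter G, c χ * ((χ : G → ℂ) g * conj ((χ : G → ℂ) g)) =
        ∑ n : N, conj ((ψ : N → ℂ) n) *
          ∑ χ : IrrCharacter G, (χ : G → ℂ) ((n : G) * g) * conj ((χ : G → ℂ) g) := by
      rw [Finset.mul_sum]
      have : ∀ χ : IrrCharacter G, (Nat.card N : ℂ) * (c χ * ((χ : G → ℂ) g * conj ((χ : G → ℂ) g))) =
          ∑ n : N, (χ : G → ℂ) ((n : G) * g) * conj ((ψ : N → ℂ) n) * conj ((χ : G → ℂ) g) := by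
        intro χ
        rw [← Finset.sum_mul, ← hcw χ g]
        ring
      rw [Finset.sum_congr rfl fun χ _ => this χ, Finset.sum_comm]
      refine Finset.sum_congr rfl fun n _ => ?_
      rw [Finset.mul_sum]
      exact Finset.sum_congr rfl fun χ _ => by ring
    rw [h1]
    have h2 : ∀ n : N, conj ((ψ : N → ℂ) n) *
        ∑ χ : IrrCharacter G, (χ : G → ℂ) ((n : G) * g) * conj ((χ : G → ℂ) g) =
        (if IsConj ((n : G) * g) g then conj ((ψ : N → ℂ) n) else 0) *
          (Nat.card (Subgroup.centralizer ({g} : Set G)) : ℂ) := by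
      intro n
      rw [column_orth]
      split_ifs with h
      · rw [hcent]
      · rw [mul_zero, zero_mul]
    rw [Finset.sum_congr rfl fun n _ => h2 n, ← Finset.sum_mul, hsum g]
    split_ifs <;> simp
  -- total count
  have htot : (Nat.card N * (Nat.card G * Nat.card {χ : IrrCharacter G //
      classInner (fun n : N => (χ : G → ℂ) n) (ψ : N → ℂ) ≠ 0}) : ℕ) =
      ∑ g : G, if sp g then Nat.card (Subgroup.centralizer ({g} : Set G)) else 0 := by
    have h1 : ((Nat.card N * (Nat.card G * Nat.card {χ : IrrCharacter G //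
      classInner (fun n : N => (χ : G → ℂ) n) (ψ : N → ℂ) ≠ 0}) : ℕ) : ℂ) =
      ((∑ g : G, if sp g then Nat.card (Subgroup.centralizer ({g} : Set G)) else 0 : ℕ) : ℂ) := by
      push_cast
      have e1 : ∑ g : G, (if sp g then (Nat.card (Subgroup.centralizer ({g} : Set G)) : ℂ) else 0) =
          ∑ g : G, (Nat.card N : ℂ) *
            ∑ χ : IrrCharacter G, c χ * ((χ : G → ℂ) g * conj ((χ : G → ℂ) g)) :=
        Finset.sum_congr rfl fun g _ => (hw g).symm
      rw [e1, ← Finset.mul_sum, Finset.sum_comm]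
      congr 1
      have e2 : ∀ χ : IrrCharacter G, ∑ g : G, c χ * ((χ : G → ℂ) g * conj ((χ : G → ℂ) g)) =
          if classInner (fun n : N => (χ : G → ℂ) n) (ψ : N → ℂ) ≠ 0 then (Nat.card G : ℂ) else 0 := by
        intro χ
        rw [← Finset.mul_sum, hc1 χ]
        have e3 : ∑ g : G, (χ : G → ℂ) g * conj ((χ : G → ℂ) g) = (Nat.card G : ℂ) := by
          have := classInner_self_of_irr χ.2
          unfold classInner at this
          have h4 : (Nat.card G : ℂ) ≠ 0 := card_ne_zeroC
          field_simp at this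
          exact this
        rw [e3]
        split_ifs <;> simp
      rw [Finset.sum_congr rfl fun χ _ => e2 χ, ← Finset.sum_filter, Finset.sum_const, nsmul_eq_mul,
        Nat.card_eq_fintype_card (α := {χ : IrrCharacter G //
          classInner (fun n : N => (χ : G → ℂ) n) (ψ : N → ℂ) ≠ 0}), Fintype.card_subtype]
      ring
    exact_mod_cast h1
  -- the other side
  let spQ : ConjClasses (G ⧸ N) → Prop := fun C => ∃ g : G, ConjClasses.mk (g : G ⧸ N) = C ∧ sp g
  have hspN : ∀ (g : G) (n : N), sp g → sp (g * n) := by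
    intro g n h x hx
    have hn : ∀ y : G, y * (n : G) = (n : G) * y := fun y => Subgroup.mem_center_iff.mp (hN n.2) y
    have hn' : ∀ y : G, y * (n : G)⁻¹ = (n : G)⁻¹ * y := fun y =>
      Subgroup.mem_center_iff.mp (inv_mem (hN n.2)) y
    have h1 : x⁻¹ * (g * n)⁻¹ * x * (g * n) = x⁻¹ * g⁻¹ * x * g := by
      rw [mul_inv_rev]
      calc x⁻¹ * ((n : G)⁻¹ * g⁻¹) * x * (g * n) = (x⁻¹ * (n : G)⁻¹) * (g⁻¹ * x * g) * n := by group
        _ = (n : G)⁻¹ * (x⁻¹ * (g⁻¹ * x * g) * n) := by rw [hn' x⁻¹]; group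
        _ = (n : G)⁻¹ * ((n : G) * (x⁻¹ * (g⁻¹ * x * g))) := by rw [hn]
        _ = _ := by group
    rw [h1] at hx
    have h2 := h x hx
    calc x * (g * n) = (x * g) * n := by group
      _ = g * (x * n) := by rw [h2]; group
      _ = g * n * x := by rw [hn x]; group
  have hspc : ∀ (g y : G), sp g → sp (y * g * y⁻¹) := by
    intro g y h x hx
    have h1 : (y⁻¹ * x * y)⁻¹ * g⁻¹ * (y⁻¹ * x * y) * g =
        y⁻¹ * (x⁻¹ * (y * g * y⁻¹)⁻¹ * x * (y * g * y⁻¹)) * y := by group
    have h2 := h (y⁻¹ * x * y) (by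
      rw [h1]
      have := hNn.conj_mem _ hx y⁻¹
      rwa [inv_inv] at this)
    calc x * (y * g * y⁻¹) = y * ((y⁻¹ * x * y) * g) * y⁻¹ := by group
      _ = y * (g * (y⁻¹ * x * y)) * y⁻¹ := by rw [h2]
      _ = _ := by group
  have hspQ : ∀ g : G, spQ (ConjClasses.mk (g : G ⧸ N)) ↔ sp g := by
    intro g
    constructor
    · rintro ⟨h, hh, hs⟩
      rw [ConjClasses.mk_eq_mk_iff_isConj, isConj_iff] at hh
      obtain ⟨q, hq⟩ := hh
      obtain ⟨y, rfl⟩ := QuotientGroup.mk_surjective q
      have h1 : ((y * h * y⁻¹ : G) : G ⧸ N) = g := by rw [← hq]; rfl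
      rw [QuotientGroup.eq] at h1
      have h2 : g = (y * h * y⁻¹) * (⟨_, h1⟩ : N) := by
        show g = (y * h * y⁻¹) * ((y * h * y⁻¹)⁻¹ * g)
        group
      rw [h2]
      exact hspN _ _ (hspc _ _ hs)
    · intro h
      exact ⟨g, rfl, h⟩
  have hcentQ : ∀ g : G, sp g → Nat.card (Subgroup.centralizer ({g} : Set G)) =
      Nat.card N * Nat.card (Subgroup.centralizer ({(g : G ⧸ N)} : Set (G ⧸ N))) := by
    intro g hs
    have h1 : Subgroup.centralizer ({g} : Set G) =
        (Subgroup.centralizer ({(g : G ⧸ N)} : Set (G ⧸ N))).comap (QuotientGroup.mk' N) := by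
      ext x
      rw [Subgroup.mem_comap, Subgroup.mem_centralizer_singleton_iff,
        Subgroup.mem_centralizer_singleton_iff]
      constructor
      · intro h
        rw [QuotientGroup.mk'_apply, ← QuotientGroup.mk_mul, h, QuotientGroup.mk_mul]
      · intro h
        rw [QuotientGroup.mk'_apply, ← QuotientGroup.mk_mul, ← QuotientGroup.mk_mul,
          eq_comm, QuotientGroup.eq] at h
        have h3 : x⁻¹ * g⁻¹ * x * g ∈ N := by
          have : (g * x)⁻¹ * (x * g) = x⁻¹ * g⁻¹ * x * g := by group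
          rwa [this] at h
        exact hs x h3
    rw [h1]
    rw [card_comap_surjective _ (QuotientGroup.mk'_surjective N), QuotientGroup.ker_mk']
  have hR : ∑ g : G, (if sp g then Nat.card (Subgroup.centralizer ({g} : Set G)) else 0) =
      Nat.card N * (Nat.card N * (Nat.card (G ⧸ N) * Nat.card {C : ConjClasses (G ⧸ N) // spQ C})) := by
    have h1 : ∀ g : G, (if sp g then Nat.card (Subgroup.centralizer ({g} : Set G)) else 0) =
        (fun q : G ⧸ N => Nat.card N * ((if spQ (ConjClasses.mk q) then 1 else 0) *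
          Nat.card (Subgroup.centralizer ({q} : Set (G ⧸ N))))) (g : G ⧸ N) := by
      intro g
      show _ = Nat.card N * ((if spQ (ConjClasses.mk (g : G ⧸ N)) then 1 else 0) * _)
      by_cases hs : sp g
      · rw [if_pos hs, if_pos ((hspQ g).mpr hs), one_mul, hcentQ g hs]
      · rw [if_neg hs, if_neg (fun h => hs ((hspQ g).mp h)), zero_mul, mul_zero]
    rw [Finset.sum_congr rfl fun g _ => h1 g, sum_comp_mk N (fun q : G ⧸ N => Nat.card N *
      ((if spQ (ConjClasses.mk q) then 1 else 0) *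
          Nat.card (Subgroup.centralizer ({q} : Set (G ⧸ N))))), ← Finset.mul_sum,
      sum_class (fun C => if spQ C then 1 else 0), Finset.sum_boole, Nat.card_eq_fintype_card
        (α := {C : ConjClasses (G ⧸ N) // spQ C}), Fintype.card_subtype]
    simp
  rw [hR] at htot
  have hN0 : 0 < Nat.card N := Nat.card_pos
  have h5 := Nat.eq_of_mul_eq_mul_left hN0 htot
  rw [← mul_assoc (Nat.card N), mul_comm (Nat.card N), ← Subgroup.card_eq_card_quotient_mul_card_subgroup] at h5
  exact Nat.eq_of_mul_eq_mul_left Nat.card_pos h5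

end Cfsg.Agent.S4567
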