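import Cfsg.Statements.S4574
import Cfsg.Agent.H27.Galois
import Cfsg.Agent.H27.Util

set_option autoImplicit false
open Cfsg

namespace Cfsg.Agent.S4574

open Cfsg.Agent.H27 Cfsg.Agent.H3


/-- Let χ be an irreducible character of the finite group G, of degree d, and let Z(χ) be the set of elements g with |χ g| = d (the centre of χ). Then χ vanishes on at least (d ^ 2 - 1) · |Z(χ)| elements of G, with equality when every value |χ g| is 0, 1 or d. -/
theorem result {G : Type*} [Group G] [Fintype G] [DecidableEq G] (χ : G → ℂ) (hχ : Cfsg.IsIrrCharacter G χ) : (Cfsg.charDegree χ ^ 2 - 1) * (Finset.univ.filter (fun g : G => ‖χ g‖ = (Cfsg.charDegree χ : ℝ))).card ≤ (Finset.univ.filter (fun g : G => χ g = 0)).card ∧ ((∀ g : G, ‖χ g‖ = 0 ∨ ‖χ g‖ = 1 ∨ ‖χ g‖ = (Cfsg.charDegree χ : ℝ)) → (Cfsg.charDegree χ ^ 2 - 1) * (Finset.univ.filter (fun g : G => ‖χ g‖ = (Cfsg.charDegree χ : ℝ))).card = (Finset.univ.filter (fun g : G => χ g = 0)).card) := by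
  have hc : IsCharacter G χ := irr_isChar hχ
  have hd0 := charDegree_pos hχ
  set d := charDegree χ with hd
  have hdpos : 1 ≤ d := hd0
  -- the sum of squares
  have hcard : Fintype.card G = Nat.card G := Nat.card_eq_fintype_card.symm
  have hsum : ∑ g : G, ‖χ g‖ ^ 2 = (Nat.card G : ℝ) := by
    have h1 := classInner_self_of_irr hχ
    rw [classInner, inv_mul_eq_iff_eq_mul₀ card_ne_zeroC, mul_one] at h1
    have h2 : ((∑ g : G, ‖χ g‖ ^ 2 : ℝ) : ℂ) = (Nat.card G : ℂ) := by
      rw [← h1]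
      push_cast
      exact Finset.sum_congr rfl fun g _ => by rw [← Complex.mul_conj']
    exact_mod_cast h2
  set Z := Finset.univ.filter (fun g : G => ‖χ g‖ = (d : ℝ)) with hZ
  set O := Finset.univ.filter (fun g : G => χ g = 0) with hO
  set D := Finset.univ.filter (fun g : G => χ g ≠ 0 ∧ ‖χ g‖ ≠ (d : ℝ)) with hDdef
  have hdR : (1 : ℝ) ≤ (d : ℝ) := by exact_mod_cast hdpos
  have hdisj1 : Disjoint Z O := by
    rw [Finset.disjoint_left]
    intro g h1 h2
    rw [hZ, Finset.mem_filter] at h1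
    rw [hO, Finset.mem_filter] at h2
    rw [h2.2, norm_zero] at h1
    linarith [h1.2]
  have hdisj2 : Disjoint (Z ∪ O) D := by
    rw [Finset.disjoint_left]
    intro g h1 h2
    rw [hDdef, Finset.mem_filter] at h2
    rw [Finset.mem_union, hZ, hO, Finset.mem_filter, Finset.mem_filter] at h1
    rcases h1 with h1 | h1
    · exact h2.2.2 h1.2
    · exact h2.2.1 h1.2
  have hun : (Z ∪ O) ∪ D = Finset.univ := by
    ext g
    simp only [hZ, hO, hDdef, Finset.mem_union, Finset.mem_filter, Finset.mem_univ, true_and,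
      iff_true]
    tauto
  have hct : (Z.card : ℝ) + O.card + D.card = Nat.card G := by
    rw [← hcard, ← Finset.card_univ, ← hun, Finset.card_union_of_disjoint hdisj2,
      Finset.card_union_of_disjoint hdisj1]
    push_cast
    ring
  have hs2 : ((d : ℝ) ^ 2) * Z.card + ∑ g ∈ D, ‖χ g‖ ^ 2 = Nat.card G := by
    rw [← hsum, ← hun, Finset.sum_union hdisj2, Finset.sum_union hdisj1]
    have h1 : ∑ x ∈ O, ‖χ x‖ ^ 2 = 0 := Finset.sum_eq_zero fun x hx => by
      rw [hO, Finset.mem_filter] at hx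
      rw [hx.2, norm_zero]; ring
    have h2 : ∑ x ∈ Z, ‖χ x‖ ^ 2 = ((d : ℝ) ^ 2) * Z.card := by
      have h0 : ∀ x ∈ Z, ‖χ x‖ ^ 2 = (d : ℝ) ^ 2 := fun x hx => by
        rw [hZ, Finset.mem_filter] at hx
        rw [hx.2]
      rw [Finset.sum_congr rfl h0, Finset.sum_const, nsmul_eq_mul]
      ring
    rw [h1, h2]
    ring
  have hcastsub : (((d ^ 2 - 1 : ℕ)) : ℝ) = (d : ℝ) ^ 2 - 1 := by
    rw [Nat.cast_sub (Nat.one_le_pow _ _ hdpos)]
    push_cast
    ring
  constructor
  · have h3 : (D.card : ℝ) ≤ ∑ x ∈ D, ‖χ x‖ ^ 2 := by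
      refine burnside_norm_sum hc D ?_ ?_
      · intro x hx m hm
        rw [hDdef, Finset.mem_filter] at hx ⊢
        refine ⟨Finset.mem_univ _, ?_, ?_⟩
        · exact fun h => hx.2.1 ((char_pow_coprime_ne_zero hc hm).mp h)
        · intro h
          apply hx.2.2
          have hn : Nat.card G ≠ 0 := Nat.card_pos.ne'
          obtain ⟨σ, hσ⟩ := exists_ringEquiv_pow hn hm
          have e1 := char_galois_apply hc (σ : ℂ →+* ℂ) hn hσ (pow_card_eq_one' (x := x))
          have e2 := char_galois_apply hc (σ : ℂ →+* ℂ) hn hσ (pow_card_eq_one' (x := x⁻¹))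
          have e3 : χ (x ^ m) * χ ((x ^ m)⁻¹) = (d : ℂ) ^ 2 := by
            rw [char_inv hc, Complex.mul_conj', h]; push_cast; rfl
          have e4 : σ (χ x * χ x⁻¹) = σ ((d : ℂ) ^ 2) := by
            rw [map_mul]
            have : σ ((d : ℂ) ^ 2) = (d : ℂ) ^ 2 := by
              rw [map_pow, map_natCast]
            rw [this, ← e3, ← inv_pow]
            exact congrArg₂ (· * ·) e1 e2
          have e5 := σ.injective e4
          rw [char_inv hc, Complex.mul_conj'] at e5
          have e6 : ‖χ x‖ ^ 2 = (d : ℝ) ^ 2 := by exact_mod_cast e5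
          exact (pow_left_inj₀ (norm_nonneg _) (by linarith) two_ne_zero).mp e6
      · intro x hx
        rw [hDdef, Finset.mem_filter] at hx
        exact hx.2.1
    have h4 : (((d ^ 2 - 1) * Z.card : ℕ) : ℝ) ≤ (O.card : ℝ) := by
      rw [Nat.cast_mul, hcastsub]
      nlinarith
    exact_mod_cast h4
  · intro hall
    have h3 : ∑ x ∈ D, ‖χ x‖ ^ 2 = (D.card : ℝ) := by
      have h0 : ∀ x ∈ D, ‖χ x‖ ^ 2 = 1 := fun x hx => by
        rw [hDdef, Finset.mem_filter] at hx
        have h5 : ‖χ x‖ = 1 := by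
          rcases hall x with h | h | h
          · exact absurd (norm_eq_zero.mp h) hx.2.1
          · exact h
          · exact absurd h hx.2.2
        rw [h5, one_pow]
      rw [Finset.sum_congr rfl h0, Finset.sum_const, nsmul_eq_mul, mul_one]
    have h4 : (((d ^ 2 - 1) * Z.card : ℕ) : ℝ) = (O.card : ℝ) := by
      rw [Nat.cast_mul, hcastsub]
      rw [h3] at hs2
      linarith
    exact_mod_cast h4

end Cfsg.Agent.S4574
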