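import Cfsg.Statements.S4582
import Cfsg.Agent.H27.Focal

set_option autoImplicit false
open Cfsg

namespace Cfsg.Agent.S4582

/-- Let N be a normal subgroup of the finite group G, P a Sylow 2-subgroup of G and Q = P ∩ N. Suppose that P/QP' and Q/Q' are elementary abelian (every square of an element of P lies in the subgroup generated by Q and the derived subgroup of P, and every square of an element of Q lies in the derived subgroup of Q), and that the commutator factor group N/N' has odd order. Then P/P' is elementary abelian. -/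
theorem result {G : Type*} [Group G] [Finite G] (N : Subgroup G) [N.Normal] (P : Sylow 2 G)
    (hP : ∀ x ∈ (P : Subgroup G), x ^ 2 ∈ ((P : Subgroup G) ⊓ N) ⊔ ⁅(P : Subgroup G), (P : Subgroup G)⁆)
    (hQ : ∀ x ∈ (P : Subgroup G) ⊓ N, x ^ 2 ∈ ⁅(P : Subgroup G) ⊓ N, (P : Subgroup G) ⊓ N⁆)
    (hodd : Odd (Nat.card (Abelianization N))) :
    ∀ x ∈ (P : Subgroup G), x ^ 2 ∈ ⁅(P : Subgroup G), (P : Subgroup G)⁆ := by
  classical
  set H : Subgroup G := N ⊔ (P : Subgroup G) with hH
  have hNH : N ≤ H := le_sup_left
  have hPH : (P : Subgroup G) ≤ H := le_sup_right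
  set N' := N.subgroupOf H with hN'
  set P' := (P : Subgroup G).subgroupOf H with hP'
  have hmN : N'.map H.subtype = N := Subgroup.map_subgroupOf_eq_of_le hNH
  have hmP : P'.map H.subtype = (P : Subgroup G) := Subgroup.map_subgroupOf_eq_of_le hPH
  have hinj : Function.Injective H.subtype := Subgroup.subtype_injective H
  have hmPN : (P' ⊓ N').map H.subtype = (P : Subgroup G) ⊓ N := by
    rw [Subgroup.map_inf _ _ _ hinj, hmN, hmP]
  have hmemof : ∀ (K : Subgroup H) (x : H), (x : G) ∈ K.map H.subtype → x ∈ K := by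
    intro K x hx
    obtain ⟨y, hy, hyx⟩ := hx
    have : y = x := Subtype.ext hyx
    rwa [← this]
  have hmain := Cfsg.Agent.H27.sq_mem_commutator (X := H) N' P' (by
      apply Subgroup.map_injective hinj
      rw [Subgroup.map_sup, hmN, hmP, ← MonoidHom.range_eq_map, Subgroup.range_subtype]) (by
      have h1 : ¬ 2 ∣ (P : Subgroup G).index := P.not_dvd_index
      have h2 : P'.index ∣ (P : Subgroup G).index := Subgroup.relIndex_dvd_index_of_le hPH
      rw [← Nat.not_even_iff_odd]
      intro he
      exact h1 (he.two_dvd.trans h2)) (by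
      exact P.2.of_injective ((Subgroup.subgroupOfEquivOfLe hPH).toMonoidHom)
        (Subgroup.subgroupOfEquivOfLe hPH).injective) (by
      intro x hx
      apply hmemof
      rw [Subgroup.map_sup, hmPN, Subgroup.map_commutator, hmP]
      have := hP (x : G) (Subgroup.mem_subgroupOf.mp hx)
      exact this) (by
      intro x hx
      apply hmemof
      rw [Subgroup.map_commutator, hmPN]
      have := hQ (x : G) ⟨Subgroup.mem_subgroupOf.mp hx.1, Subgroup.mem_subgroupOf.mp hx.2⟩
      exact this) (by
      have h1 : Nat.card (Abelianization N') = Nat.card (Abelianization N) :=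
        Nat.card_congr (MulEquiv.abelianizationCongr (Subgroup.subgroupOfEquivOfLe hNH)).toEquiv
      rw [h1]; exact hodd)
  intro x hx
  have h1 := hmain ⟨x, hPH hx⟩ (Subgroup.mem_subgroupOf.mpr hx)
  have h2 : ((⟨x, hPH hx⟩ ^ 2 : H) : G) ∈ (⁅P', P'⁆).map H.subtype := ⟨_, h1, rfl⟩
  rw [Subgroup.map_commutator, hmP] at h2
  exact h2

end Cfsg.Agent.S4582
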