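import Cfsg.Statements.S4585
import Cfsg.Agent.H27.PGrp

set_option autoImplicit false
open Cfsg

namespace Cfsg.Agent.S4585

open Cfsg.Agent.H27


/-- Let p be a prime and P a group of order p^4. Then P' has index p^2 in P if and only if P has maximal nilpotency class, that is, nilpotency class exactly 3. -/
theorem result {P : Type*} [Group P] [Finite P] (p : ℕ) [Fact p.Prime] (hP : Nat.card P = p ^ 4) :
    (commutator P).index = p ^ 2 ↔ Group.nilpotencyClass P = 3 := by
  have hp : p.Prime := Fact.out
  haveI hn : Group.IsNilpotent P := (IsPGroup.of_card hP).isNilpotent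
  refine ⟨fun h => class_three_of_index p hP h, fun h => ?_⟩
  have h2 : (⊤ : Subgroup P).lowerCentralSeries 2 ≠ ⊥ := by
    intro h3
    have := Subgroup.lowerCentralSeries_eq_bot_iff_nilpotencyClass_le.mp h3
    omega
  have hna : ¬ IsMulCommutative P := by
    intro hc
    have h3 : Group.nilpotencyClass P ≤ 1 := by
      letI : CommGroup P := { (inferInstance : Group P) with mul_comm := fun a b => hc.is_comm.comm a b }
      exact CommGroup.nilpotencyClass_le_one (G := P)
    omega
  exact Cfsg.Agent.H23.index_commutator_of_lcs (n := 2) hP hna h2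

end Cfsg.Agent.S4585
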