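import Cfsg.Statements.S4591
import Cfsg.Agent.H20.PKer
import Cfsg.Agent.S0081
import Cfsg.Agent.H2.Basic
import Cfsg.Agent.H2.Frat
import Cfsg.Agent.H1.Cores
import Cfsg.Agent.H27.Kernel

set_option autoImplicit false
open Cfsg


namespace Cfsg.Agent.S4591


set_option linter.style.haveILetI false

open Subgroup H3 H27 in
/-- Let G be a finite group, p a prime and P a Sylow p-subgroup, and let N be the largest normal subgroup of G in which P has trivial centralizer (N is normal with C_N(P) = 1 and contains every normal subgroup with that property). Then the intersection of the kernels of the irreducible characters of G of degree prime to p is the normal core in G of the subgroup N·P' (P' the derived subgroup of P). In particular, when G has no nontrivial normal subgroup of order prime to p, that intersection is the normal core of P'. -/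
theorem result {G : Type*} [Group G] [Finite G] (p : ℕ) [Fact p.Prime] (P : Sylow p G) (N : Subgroup G) [N.Normal]
    (hN : N ⊓ Subgroup.centralizer ((P : Subgroup G) : Set G) = ⊥)
    (hmax : ∀ L : Subgroup G, L.Normal → L ⊓ Subgroup.centralizer ((P : Subgroup G) : Set G) = ⊥ → L ≤ N) :
    {g : G | ∀ χ : Cfsg.IrrCharacter G, ¬ p ∣ Cfsg.charDegree (χ : G → ℂ) → (χ : G → ℂ) g = (χ : G → ℂ) 1} =
      ((N ⊔ ⁅(P : Subgroup G), (P : Subgroup G)⁆).normalCore : Set G) := by
  classical
  haveI := Fintype.ofFinite G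
  haveI := Fintype.ofFinite (P : Subgroup G)
  have hp : p.Prime := Fact.out
  have hcomP : ⁅(P : Subgroup G), (P : Subgroup G)⁆ ≤ (P : Subgroup G) := by
    rw [← Subgroup.map_subtype_commutator]
    rintro _ ⟨y, _, rfl⟩
    exact y.2
  apply Set.Subset.antisymm
  · -- the kernel
    set K : Subgroup G := ⨅ χ : {χ : IrrCharacter G // ¬ p ∣ charDegree (χ : G → ℂ)}, charKer (irr_isChar χ.1.2) with hK
    have hKmem : ∀ g : G, g ∈ K ↔ ∀ χ : IrrCharacter G, ¬ p ∣ charDegree (χ : G → ℂ) →
        (χ : G → ℂ) g = (χ : G → ℂ) 1 := by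
      intro g
      rw [hK, mem_iInf]
      constructor
      · intro h χ hχ
        exact (mem_charKer _).1 (h ⟨χ, hχ⟩)
      · intro h χ
        exact (mem_charKer _).2 (h χ.1 χ.2)
    haveI hKn : K.Normal := by
      rw [hK]
      apply Subgroup.normal_iInf_normal
      intro χ
      exact charKer_normal _
    have hKP : K ⊓ (P : Subgroup G) ≤ ⁅(P : Subgroup G), (P : Subgroup G)⁆ := by
      rintro x ⟨hxK, hxP⟩
      rw [← Subgroup.map_subtype_commutator]
      refine ⟨⟨x, hxP⟩, ?_, rfl⟩
      by_contra hx
      have h1 : (Abelianization.of (⟨x, hxP⟩ : (P : Subgroup G))) ≠ 1 := by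
        intro h
        apply hx
        have : (⟨x, hxP⟩ : (P : Subgroup G)) ∈ (Abelianization.of (G := (P : Subgroup G))).ker := h
        rwa [Abelianization.ker_of] at this
      obtain ⟨φ, hφ⟩ := CommGroup.exists_apply_ne_one_of_hasEnoughRootsOfUnity (Abelianization (P : Subgroup G)) ℂ h1
      apply hφ
      set μ : (P : Subgroup G) →* ℂˣ := φ.comp (Abelianization.of (G := (P : Subgroup G))) with hμ
      have hμ1 : ¬ p ∣ charDegree (fun g => (μ g : ℂ)) := by
        have h2 : (charDegree (fun g => (μ g : ℂ)) : ℂ) = 1 := by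
          rw [charDegree_cast (irr_isChar (isIrr_of_hom μ))]; simp
        have h3 : charDegree (fun g => (μ g : ℂ)) = 1 := by exact_mod_cast h2
        rw [h3]; exact hp.one_lt.ne' ∘ Nat.dvd_one.1
      obtain ⟨χ, hχd, hχ⟩ := H20.PKer.exists_over (p := p) (P : Subgroup G) P.not_dvd_index (isIrr_of_hom μ) hμ1
      have h4 := H20.PKer.eq_deg_of_constituent (x := (⟨x, hxP⟩ : (P : Subgroup G)))
        (isChar_restrict _ (irr_isChar χ.2)) (isIrr_of_hom μ) hχ ((hKmem x).1 hxK χ hχd)
      simp only [map_one, Units.val_one] at h4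
      exact Units.ext h4
    -- Tate
    obtain ⟨S, L, hLn, hLS⟩ := S0081.result (p := p) P K (hKP.trans (by
      rw [← Subgroup.map_subtype_commutator]
      exact Subgroup.map_mono (H2.commutator_le_frattini P.2)))
    set Q : Subgroup G := (pPrimeCore p K).map K.subtype with hQ
    haveI hQn : Q.Normal := by
      rw [hQ]; infer_instance
    have hQK : Q ≤ K := by
      rintro _ ⟨y, _, rfl⟩
      exact y.2
    have hQcard : (Nat.card Q).Coprime p := by
      rw [hQ, Subgroup.card_map_of_injective K.subtype_injective]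
      exact H1.pPrimeCore_coprime p K
    have hQP : Disjoint Q (P : Subgroup G) := by
      obtain ⟨n, hn⟩ := IsPGroup.iff_card.1 P.2
      apply disjoint_iff.2
      apply Subgroup.inf_eq_bot_of_coprime
      rw [hn]
      exact Nat.Coprime.pow_right _ hQcard
    have hQN : Q ≤ N := by
      apply hmax Q hQn
      apply H20.PKer.fpf_of_le_ker P hQP
      intro χ hχ q hq
      exact (hKmem q).1 (hQK hq) χ hχ
    have hLQ : L ≤ pPrimeCore p K := by
      apply H1.le_pPrimeCore hLn
      have h1 := hLS.index_eq_card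
      have h2 : (S : Subgroup K).index = Nat.card L := hLS.index_eq_card
      rw [← h2]
      exact ((Nat.Prime.coprime_iff_not_dvd hp).2 S.not_dvd_index).symm
    have hKle : K ≤ Q ⊔ (K ⊓ (P : Subgroup G)) := by
      have hle : Q ⊔ (K ⊓ (P : Subgroup G)) ≤ K := sup_le hQK inf_le_left
      rw [← Subgroup.relIndex_eq_one]
      have d1 : (Q ⊔ (K ⊓ (P : Subgroup G))).relIndex K ∣ Q.relIndex K :=
        Subgroup.relIndex_dvd_of_le_left K le_sup_left
      have d2 : (Q ⊔ (K ⊓ (P : Subgroup G))).relIndex K ∣ (K ⊓ (P : Subgroup G)).relIndex K :=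
        Subgroup.relIndex_dvd_of_le_left K le_sup_right
      have e1 : Q.relIndex K = (pPrimeCore p K).index := by
        show ((Q.comap K.subtype)).index = _
        rw [hQ, Subgroup.comap_map_eq_self_of_injective K.subtype_injective]
      have e2 : (pPrimeCore p K).index ∣ L.index := Subgroup.index_dvd_of_le hLQ
      have e3 : L.index = Nat.card (S : Subgroup K) := hLS.symm.index_eq_card
      obtain ⟨n, hn⟩ := IsPGroup.iff_card.1 S.2
      have e4 : (Q ⊔ (K ⊓ (P : Subgroup G))).relIndex K ∣ p ^ n := by
        rw [← hn, ← e3]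
        exact (d1.trans (e1 ▸ dvd_rfl)).trans e2
      obtain ⟨k, _, hk⟩ := (Nat.dvd_prime_pow hp).1 e4
      rcases Nat.eq_zero_or_pos k with h | h
      · rw [hk, h, pow_zero]
      · exfalso
        have e5 : p ∣ (K ⊓ (P : Subgroup G)).relIndex K := (hk ▸ dvd_pow_self p h.ne').trans d2
        rw [inf_comm, Subgroup.inf_relIndex_right] at e5
        exact H2.not_dvd_relIndex_of_normal P K e5
    have hKfin : K ≤ (N ⊔ ⁅(P : Subgroup G), (P : Subgroup G)⁆).normalCore := by
      apply Subgroup.normal_le_normalCore.2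
      exact hKle.trans (sup_le_sup hQN hKP)
    intro g hg
    exact hKfin ((hKmem g).2 hg)
  · intro g hg χ hχ
    have hχN := H20.PKer.le_ker_of_fpf P.2 hN χ.2 hχ
    obtain ⟨ψ, hψ, hψe⟩ := exists_quotient_irr χ.2 hχN
    have hψd : ¬ p ∣ charDegree ψ := by
      have h1 : (charDegree ψ : ℂ) = charDegree (χ : G → ℂ) := by
        rw [charDegree_cast (irr_isChar hψ), charDegree_cast (irr_isChar χ.2), hψe 1]; rfl
      have h2 : charDegree ψ = charDegree (χ : G → ℂ) := by exact_mod_cast h1
      rwa [h2]
    set π := QuotientGroup.mk' N with hπ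
    have hsurj : Function.Surjective π := QuotientGroup.mk'_surjective N
    haveI hMn : (((N ⊔ ⁅(P : Subgroup G), (P : Subgroup G)⁆).normalCore).map π).Normal :=
      (Subgroup.normalCore_normal _).map π hsurj
    have hle : ((N ⊔ ⁅(P : Subgroup G), (P : Subgroup G)⁆).normalCore).map π
        ≤ ⁅(P : Subgroup G).map π, (P : Subgroup G).map π⁆ := by
      rw [← Subgroup.map_commutator]
      calc _ ≤ (N ⊔ ⁅(P : Subgroup G), (P : Subgroup G)⁆).map π := Subgroup.map_mono (Subgroup.normalCore_le _)
        _ = ⊥ ⊔ (⁅(P : Subgroup G), (P : Subgroup G)⁆).map π := by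
            rw [Subgroup.map_sup, hπ, QuotientGroup.map_mk'_self]
        _ ≤ _ := by rw [bot_sup_eq]
    have h3 := H20.PKer.le_ker_of_le_commutator (P.2.map π) hle hψ hψd (π g) (Subgroup.mem_map_of_mem π hg)
    rw [hψe g, hψe 1]
    exact h3


end Cfsg.Agent.S4591
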