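import Cfsg.Statements.S4593
import Cfsg.Agent.H20.AbCentral

set_option autoImplicit false
open Cfsg


namespace Cfsg.Agent.S4593


set_option linter.style.haveILetI false

/-- Let G be a finite group with trivial centre and no nontrivial normal subgroup of odd order, whose Sylow 2-subgroups are abelian, and let P be a Sylow 2-subgroup. Every automorphism of G of 2-power order that fixes P elementwise is inner. -/
theorem result {G : Type*} [Group G] [Finite G] (hZ : Subgroup.center G = ⊥) (hcore : Cfsg.pPrimeCore 2 G = ⊥) (P : Sylow 2 G) (hab : IsMulCommutative (P : Subgroup G))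
    (α : MulAut G) (h2 : ∃ j : ℕ, orderOf α = 2 ^ j) (hfix : ∀ x ∈ (P : Subgroup G), α x = x) :
    ∃ g : G, ∀ x : G, α x = g * x * g⁻¹ := by
  haveI : Fact (Nat.Prime 2) := ⟨Nat.prime_two⟩
  classical
  haveI : Finite (MulAut G) := inferInstance
  -- the ambient group
  set I : Subgroup (MulAut G) := (MulAut.conj : G →* MulAut G).range with hI
  have hinj : Function.Injective (MulAut.conj : G →* MulAut G) := by
    rw [injective_iff_map_eq_one]
    intro x hx
    have h1 : x ∈ Subgroup.center G := by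
      rw [Subgroup.mem_center_iff]
      intro g
      have := DFunLike.congr_fun hx g
      rw [MulAut.conj_apply, MulAut.one_apply, mul_inv_eq_iff_eq_mul] at this
      exact this.symm
    rw [hZ] at h1
    exact Subgroup.mem_bot.1 h1
  have hconj : ∀ (φ : MulAut G) (x : G), φ * MulAut.conj x * φ⁻¹ = MulAut.conj (φ x) := by
    intro φ x
    ext y
    simp [MulAut.conj_apply, MulAut.mul_apply]
  set A : Subgroup (MulAut G) := I ⊔ Subgroup.zpowers α with hA
  have hIA : I ≤ A := le_sup_left
  have hαA : α ∈ A := (le_sup_right : Subgroup.zpowers α ≤ A) (Subgroup.mem_zpowers α)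
  set ψ : G →* A := (MulAut.conj : G →* MulAut G).codRestrict A (fun x => hIA ⟨x, rfl⟩) with hψ
  have hψc : ∀ x, ((ψ x : A) : MulAut G) = MulAut.conj x := fun x => rfl
  have hψinj : Function.Injective ψ := by
    intro x y hxy
    exact hinj (congrArg Subtype.val hxy)
  have hψconj : ∀ (φ : A) (x : G), φ * ψ x * φ⁻¹ = ψ ((φ : MulAut G) x) := by
    intro φ x
    exact Subtype.ext (hconj φ x)
  set N : Subgroup A := ψ.range with hN
  haveI hNn : N.Normal := by
    constructor
    rintro _ ⟨x, rfl⟩ φ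
    exact ⟨_, (hψconj φ x).symm⟩
  obtain ⟨j, hj⟩ := h2
  have hαj : α ^ 2 ^ j = 1 := by rw [← hj]; exact pow_orderOf_eq_one α
  set a : A := ⟨α, hαA⟩ with ha
  have haj : a ^ 2 ^ j = 1 := Subtype.ext hαj
  have hgen : N ⊔ Subgroup.zpowers a = ⊤ := by
    apply Subgroup.map_injective A.subtype_injective
    rw [Subgroup.map_sup, MonoidHom.map_zpowers, hN, MonoidHom.map_range, ← MonoidHom.range_eq_map,
      Subgroup.range_subtype]
    exact hA.symm
  have hO : oddCore A = ⊥ := by
    haveI hMn : (oddCore A).Normal := H1.pPrimeCore_normal 2 A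
    have hMN : oddCore A ≤ N := by
      intro m hm
      have hmo : Odd (orderOf m) := by
        have h1 : orderOf (⟨m, hm⟩ : oddCore A) ∣ Nat.card (oddCore A) := orderOf_dvd_natCard _
        rw [Subgroup.orderOf_mk] at h1
        exact Odd.of_dvd_nat (H4.oddCore_odd A) h1
      have h2 : (QuotientGroup.mk' N m) ^ 2 ^ j = 1 := by
        have h3 : m ∈ N ⊔ Subgroup.zpowers a := by rw [hgen]; exact Subgroup.mem_top m
        obtain ⟨n, hn, y, hy, rfl⟩ := Subgroup.mem_sup_of_normal_left.1 h3
        obtain ⟨k, rfl⟩ := Subgroup.mem_zpowers_iff.1 hy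
        have h4 : QuotientGroup.mk' N n = 1 := (QuotientGroup.eq_one_iff n).2 hn
        rw [map_mul, h4, one_mul, map_zpow, ← zpow_natCast, ← zpow_mul, mul_comm, zpow_mul, zpow_natCast,
          ← map_pow, haj, map_one, one_zpow]
      have h5 : orderOf (QuotientGroup.mk' N m) ∣ 2 ^ j := orderOf_dvd_of_pow_eq_one h2
      have h6 : orderOf (QuotientGroup.mk' N m) ∣ orderOf m := orderOf_map_dvd _ m
      have h7 : orderOf (QuotientGroup.mk' N m) = 1 := by
        have h8 : Nat.Coprime (2 ^ j) (orderOf m) := Nat.Coprime.pow_left _ (Nat.coprime_two_left.2 hmo)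
        exact Nat.eq_one_of_dvd_coprimes h8 h5 h6
      exact (QuotientGroup.eq_one_iff m).1 (orderOf_eq_one_iff.1 h7)
    have h1 : (oddCore A).comap ψ ≤ pPrimeCore 2 G := by
      apply le_sSup
      refine ⟨inferInstance, ?_⟩
      have h3 : Nat.card ((oddCore A).comap ψ) = Nat.card (oddCore A) := by
        rw [← Subgroup.card_map_of_injective hψinj, Subgroup.map_comap_eq, inf_eq_right.2 hMN]
      rw [h3]
      exact (Nat.coprime_two_left.2 (H4.oddCore_odd A)).symm
    rw [hcore] at h1
    rw [← le_bot_iff]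
    intro m hm
    obtain ⟨x, rfl⟩ := hMN hm
    have h2 : x ∈ (⊥ : Subgroup G) := h1 hm
    rw [Subgroup.mem_bot.1 h2, map_one]
    exact Subgroup.mem_bot.2 rfl
  obtain ⟨z, hz, hzc⟩ := H20.AbFix.exists_central (A := A) (N := N) hO (P := (P : Subgroup G).map ψ)
    (by rintro _ ⟨x, _, rfl⟩; exact ⟨x, rfl⟩) (P.2.map ψ)
    (by
      rw [hN, MonoidHom.range_eq_map, Subgroup.relIndex_map_map_of_injective _ _ hψinj, Subgroup.relIndex_top_right,
        ← Nat.not_even_iff_odd, even_iff_two_dvd]
      exact P.not_dvd_index)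
    (by
      rintro _ ⟨x, hx, rfl⟩ _ ⟨y, hy, rfl⟩
      rw [← map_mul, ← map_mul]
      have := hab.1.1 ⟨x, hx⟩ ⟨y, hy⟩
      have h3 : x * y = y * x := congrArg Subtype.val this
      rw [h3])
    ⟨j, haj⟩
    (by
      rintro _ ⟨x, hx, rfl⟩
      have h3 := hψconj a x
      have h4 : ((a : A) : MulAut G) x = x := hfix x hx
      rw [h4, mul_inv_eq_iff_eq_mul] at h3
      exact h3) hgen
  obtain ⟨z, _, rfl⟩ := hz
  have hβ : (α * MulAut.conj z : MulAut G) = 1 := by
    ext x
    have h1 := hzc (ψ x)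
    have h2 : (a * ψ z) * ψ x * (a * ψ z)⁻¹ = ψ x := by
      rw [mul_inv_eq_iff_eq_mul] at h1 ⊢
      exact h1.symm
    rw [hψconj] at h2
    exact hψinj h2
  refine ⟨z⁻¹, fun x => ?_⟩
  have h3 : α = (MulAut.conj z)⁻¹ := mul_eq_one_iff_eq_inv.1 hβ
  rw [h3, ← map_inv, MulAut.conj_apply]


end Cfsg.Agent.S4593
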