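import Cfsg.Statements.S4602
import Cfsg.Agent.H1.Coprime
import Cfsg.Agent.H23.PSolvable
import Cfsg.Agent.H24.Decomp
import Cfsg.Agent.H2.OddSolv

set_option autoImplicit false
set_option linter.style.haveILetI false
set_option linter.unusedVariables false
set_option linter.unusedSectionVars false
open Cfsg

namespace Cfsg.Agent.S4602

open Cfsg.Agent
open Subgroup
open scoped Pointwise

theorem core_case {G : Type*} [Group G] [Finite G] {p q : ℕ} [Fact p.Prime] [Fact q.Prime]
    (hpq : p ≠ q) (h : ¬ q ∣ (Cfsg.pPrimeCore p G).index) :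
    ∃ (P : Sylow p G) (Q : Sylow q G),
      (P : Subgroup G) ≤ Subgroup.normalizer ((Q : Subgroup G) : Set G) := by
  obtain ⟨P⟩ : Nonempty (Sylow p G) := inferInstance
  have hP : (P : Subgroup G) ≤ normalizer ((Cfsg.pPrimeCore p G : Subgroup G) : Set G) := by
    rw [normalizer_eq_top]; exact le_top
  have hcop : (Nat.card (P : Subgroup G)).Coprime (Nat.card (Cfsg.pPrimeCore p G)) := by
    obtain ⟨n, hn⟩ := IsPGroup.iff_card.1 P.2
    have e : Nat.card (P : Subgroup G) = p ^ n := hn
    rw [e]
    exact ((H1.pPrimeCore_coprime p G).symm).pow_left n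
  have hsolv : Group.IsSolvable (P : Subgroup G) := by
    haveI := P.2.isNilpotent
    infer_instance
  obtain ⟨Q0, hQ0⟩ := H1.exists_invariant_sylow (P : Subgroup G) (Cfsg.pPrimeCore p G) hP hcop
    (Or.inl hsolv) q
  have h1 : IsPGroup q ((Q0 : Subgroup (Cfsg.pPrimeCore p G)).map (Cfsg.pPrimeCore p G).subtype) :=
    Q0.2.map _
  have h2 : ¬ q ∣ ((Q0 : Subgroup (Cfsg.pPrimeCore p G)).map (Cfsg.pPrimeCore p G).subtype).index := by
    rw [index_map_subtype]
    intro hd
    rcases (Nat.Prime.dvd_mul Fact.out).1 hd with h3 | h3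
    · exact Q0.not_dvd_index h3
    · exact h h3
  exact ⟨P, h1.toSylow h2, hQ0⟩

/-- Let G be a finite p-solvable group and q a prime different from p. Some Sylow p-subgroup of G normalizes some Sylow q-subgroup of G if and only if q does not divide the order of G/O_{p'}(G), the quotient by the largest normal subgroup of order prime to p. -/
theorem result {G : Type*} [Group G] [Finite G] (p q : ℕ) [Fact p.Prime] [Fact q.Prime] (hpq : p ≠ q) (hsolv : Cfsg.IsPSolvable p G) :
    (∃ (P : Sylow p G) (Q : Sylow q G), (P : Subgroup G) ≤ Subgroup.normalizer ((Q : Subgroup G) : Set G)) ↔ ¬ q ∣ (Cfsg.pPrimeCore p G).index := by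
  constructor
  · rintro ⟨P, Q, hPQ⟩ hd
    have hsurj := QuotientGroup.mk'_surjective (Cfsg.pPrimeCore p G)
    have hC := H2.charP_quotient_of_solvable hsolv
    set f := QuotientGroup.mk' (Cfsg.pPrimeCore p G) with hf
    set U := Cfsg.pCore p (G ⧸ Cfsg.pPrimeCore p G) with hU
    have hUP : U ≤ (P : Subgroup G).map f := by
      have := H1.pCore_le_sylow (P.mapSurjective hsurj)
      rwa [Sylow.coe_mapSurjective] at this
    have hQp : IsPGroup q ((Q : Subgroup G).map f) := Q.2.map _
    have hUp : IsPGroup p U := (P.mapSurjective hsurj).2.to_le (H1.pCore_le_sylow _)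
    have hdisj : U ⊓ (Q : Subgroup G).map f = ⊥ :=
      (IsPGroup.disjoint_of_ne p q hpq _ _ hUp hQp).eq_bot
    have hPn : (P : Subgroup G).map f ≤ normalizer (((Q : Subgroup G).map f : Subgroup _) : Set _) := by
      refine (Subgroup.map_mono hPQ).trans ?_
      exact Subgroup.le_normalizer_map f
    haveI : U.Normal := H1.pCore_normal p _
    have hcen : (Q : Subgroup G).map f ≤ centralizer (U : Set _) := by
      intro y hy
      rw [mem_centralizer_iff]
      intro u hu
      have h1 : u * y * u⁻¹ * y⁻¹ ∈ U ⊓ (Q : Subgroup G).map f := by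
        constructor
        · have : u * y * u⁻¹ * y⁻¹ = u * (y * u⁻¹ * y⁻¹) := by group
          rw [this]
          exact U.mul_mem hu (Subgroup.Normal.conj_mem ‹_› _ (U.inv_mem hu) y)
        · refine Subgroup.mul_mem _ ?_ (Subgroup.inv_mem _ hy)
          exact (mem_normalizer_iff.1 (hPn (hUP hu)) y).1 hy
      rw [hdisj, Subgroup.mem_bot] at h1
      have h2 : u * y = y * u := by
        have h3 : u * y * u⁻¹ = y := by
          rw [← mul_inv_eq_one]; exact h1
        calc u * y = (u * y * u⁻¹) * u := by group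
          _ = y * u := by rw [h3]
      exact h2
    have hQbot : (Q : Subgroup G).map f = ⊥ := by
      rw [eq_bot_iff, ← hdisj]
      exact le_inf (hcen.trans hC) le_rfl
    have hQ2 : (Q.mapSurjective hsurj).toSubgroup = ⊥ := by
      rw [Sylow.coe_mapSurjective]; exact hQbot
    have h3 := (Q.mapSurjective hsurj).not_dvd_index
    rw [hQ2, index_bot] at h3
    exact h3 hd
  · exact core_case hpq

end Cfsg.Agent.S4602
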