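import Cfsg.Statements.S4601
import Cfsg.Agent.H1.Coprime
import Cfsg.Agent.H1.Hall
import Cfsg.Agent.H23.PSolvable
import Cfsg.Agent.H24.Decomp
import Cfsg.Agent.H2.OddSolv
import Cfsg.Agent.H2.PCon
import Cfsg.Agent.S4602

set_option autoImplicit false
set_option linter.style.haveILetI false
set_option linter.unusedVariables false
set_option linter.unusedSectionVars false
open Cfsg

namespace Cfsg.Agent.S4601

open Cfsg.Agent
open Subgroup
open scoped Pointwise

universe u

/-- Sylow subgroups of `G` inside `L` are conjugate in `L` -/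
theorem conj_in {G : Type*} [Group G] [Finite G] {q : ℕ} [Fact q.Prime] {L : Subgroup G}
    (Q Q' : Sylow q G) (h : (Q : Subgroup G) ≤ L) (h' : (Q' : Subgroup G) ≤ L) :
    ∃ l ∈ L, MulAut.conj l • (Q : Subgroup G) = (Q' : Subgroup G) := by
  obtain ⟨l, hl⟩ := MulAction.exists_smul_eq L (Q.subtype h) (Q'.subtype h')
  refine ⟨l, l.2, ?_⟩
  have h1 : ((l • Q.subtype h : Sylow q L) : Subgroup L).map L.subtype =
      ((Q'.subtype h' : Sylow q L) : Subgroup L).map L.subtype := by rw [hl]
  have h2 : ((l • Q.subtype h : Sylow q L) : Subgroup L) =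
      MulAut.conj l • ((Q.subtype h : Sylow q L) : Subgroup L) := rfl
  rw [h2, H1.map_subtype_smul, Sylow.coe_subtype, Sylow.coe_subtype, subgroupOf_map_subtype,
    subgroupOf_map_subtype, inf_of_le_left h, inf_of_le_left h'] at h1
  exact h1

/-- index formula -/
theorem not_dvd_index_of {G : Type*} [Group G] [Finite G] {p : ℕ} [Fact p.Prime]
    {N L T : Subgroup G} (hNL : N ≤ normalizer (L : Set G)) (hT : L ⊔ N = T)
    (h1 : ¬ p ∣ T.index) (h2 : ¬ p ∣ (L ⊓ N).relIndex L) : ¬ p ∣ N.index := by
  have hle : N ≤ T := by rw [← hT]; exact le_sup_right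
  have h3 := H1.card_sup_mul_card_inf_of_le_normalizer hNL
  rw [hT] at h3
  have h4 := H1.card_mul_relIndex hle
  have h5 := H1.card_mul_relIndex (inf_le_left : L ⊓ N ≤ L)
  have h6 : N.relIndex T = (L ⊓ N).relIndex L := by
    have hpos1 := Nat.card_pos (α := N)
    have hpos2 := Nat.card_pos (α := (L ⊓ N : Subgroup G))
    have : (Nat.card N * Nat.card (L ⊓ N : Subgroup G)) * N.relIndex T =
        (Nat.card N * Nat.card (L ⊓ N : Subgroup G)) * (L ⊓ N).relIndex L := by
      calc (Nat.card N * Nat.card (L ⊓ N : Subgroup G)) * N.relIndex T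
          = (Nat.card N * N.relIndex T) * Nat.card (L ⊓ N : Subgroup G) := by ring
        _ = Nat.card T * Nat.card (L ⊓ N : Subgroup G) := by rw [h4]
        _ = Nat.card L * Nat.card N := h3
        _ = (Nat.card (L ⊓ N : Subgroup G) * (L ⊓ N).relIndex L) * Nat.card N := by rw [h5]
        _ = _ := by ring
    exact Nat.eq_of_mul_eq_mul_left (Nat.mul_pos hpos1 hpos2) this
  rw [← relIndex_mul_index hle, h6]
  intro hd
  rcases (Nat.Prime.dvd_mul Fact.out).1 hd with h | h
  · exact h2 h
  · exact h1 h

theorem qcase {p q : ℕ} [hp : Fact p.Prime] [hq : Fact q.Prime] (hpq : p ≠ q) :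
    ∀ (n : ℕ) (G : Type u) [Group G] [Finite G], Nat.card G ≤ n → Cfsg.IsPSolvable q G →
    (∀ y : G, (∃ k : ℕ, orderOf y = q ^ k) → ¬ p ∣ (centralizer ({y} : Set G)).index) →
    ∀ Q : Sylow q G, ¬ p ∣ (normalizer ((Q : Subgroup G) : Set G)).index := by
  intro n
  induction n with
  | zero =>
    intro G _ _ hn
    have := Nat.card_pos (α := G)
    omega
  | succ n ih =>
    intro G _ _ hn hsol hcl Q
    by_cases hQb : (Q : Subgroup G) = ⊥
    · rw [hQb, normalizer_eq_top, index_top]
      exact hp.out.one_lt.not_ge ∘ fun h => Nat.le_of_dvd one_pos h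
    have hnt : Nontrivial G := by
      by_contra h
      rw [not_nontrivial_iff_subsingleton] at h
      exact hQb (Subsingleton.elim _ _)
    -- a nontrivial normal subgroup which is a q-group or q'-group
    obtain ⟨M, hMn, hM1, hMq⟩ : ∃ M : Subgroup G, M.Normal ∧ M ≠ ⊥ ∧
        (IsPGroup q M ∨ (Nat.card M).Coprime q) := by
      rcases H23.pCore_ne_bot_or hsol with h | h
      · exact ⟨_, H1.pCore_normal q G, h, Or.inl (H1.pCore_isPGroup q G)⟩
      · exact ⟨_, H1.pPrimeCore_normal q G, h, Or.inr (H1.pPrimeCore_coprime q G)⟩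
    haveI := hMn
    have hsurj := QuotientGroup.mk'_surjective M
    set f := QuotientGroup.mk' M with hf
    have hker : f.ker = M := QuotientGroup.ker_mk' M
    have hcardlt : Nat.card (G ⧸ M) ≤ n := by
      have h1 := Subgroup.card_eq_card_quotient_mul_card_subgroup M
      have h2 : 1 < Nat.card M := M.one_lt_card_iff_ne_bot.2 hM1
      have h3 := Nat.card_pos (α := G ⧸ M)
      nlinarith
    have hcl' : ∀ y : G ⧸ M, (∃ k : ℕ, orderOf y = q ^ k) →
        ¬ p ∣ (centralizer ({y} : Set (G ⧸ M))).index := by
      rintro y ⟨k, hk⟩ hd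
      obtain ⟨x, hx⟩ := hsurj y
      -- the q-part of x
      obtain ⟨w, hw1, hw2⟩ : ∃ w : G, (∃ k : ℕ, orderOf w = q ^ k) ∧ f w = y := by
        have hyq : y ∈ (Sylow.mapSurjective hsurj Q : Subgroup (G ⧸ M)) ∨ True := Or.inr trivial
        have hpy : IsPGroup q (zpowers y) := by
          rw [IsPGroup.iff_card]; exact ⟨k, by rw [Nat.card_zpowers]; exact hk⟩
        obtain ⟨R, hR⟩ := hpy.exists_le_sylow
        obtain ⟨R', hR'⟩ := Sylow.mapSurjective_surjective hsurj q R
        have hyR : y ∈ (R : Subgroup (G ⧸ M)) := hR (mem_zpowers y)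
        rw [← hR', Sylow.coe_mapSurjective] at hyR
        obtain ⟨w, hwR, hw⟩ := hyR
        refine ⟨w, ?_, hw⟩
        obtain ⟨m, hm⟩ := (IsPGroup.iff_orderOf.1 R'.2) ⟨w, hwR⟩
        exact ⟨m, by rw [← hm, Subgroup.orderOf_mk]⟩
      refine hcl w hw1 (hd.trans ?_)
      have h1 : centralizer ({w} : Set G) ≤ (centralizer ({y} : Set (G ⧸ M))).comap f := by
        intro g hg
        rw [mem_comap, mem_centralizer_singleton_iff, ← hw2, ← map_mul, ← map_mul,
          mem_centralizer_singleton_iff.1 hg]
      have h2 := index_dvd_of_le h1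
      rwa [index_comap_of_surjective _ hsurj] at h2
    have hIH := ih (G ⧸ M) hcardlt (H23.isPSolvable_quotient M hsol) hcl' (Q.mapSurjective hsurj)
    -- T
    set L := M ⊔ (Q : Subgroup G) with hL
    have hLT : normalizer (L : Set G) =
        (normalizer (((Q.mapSurjective hsurj : Sylow q _) : Subgroup (G ⧸ M)) : Set _)).comap f := by
      rw [comap_normalizer_eq_of_surjective _ hsurj, Sylow.coe_mapSurjective, comap_map_eq, hker,
        sup_comm]
    have hTidx : ¬ p ∣ (normalizer (L : Set G)).index := by
      rw [hLT, index_comap_of_surjective _ hsurj]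
      exact hIH
    have hQL : (Q : Subgroup G) ≤ L := le_sup_right
    rcases hMq with hMq | hMq
    · -- M is a q-group
      have h1 : M ≤ (Q : Subgroup G) := (H1.le_pCore hMn hMq).trans (H1.pCore_le_sylow Q)
      have h2 : L = (Q : Subgroup G) := sup_eq_right.2 h1
      rw [h2] at hTidx
      exact hTidx
    · -- M is a q'-group
      have hQN : (Q : Subgroup G) ≤ normalizer (M : Set G) := by
        rw [normalizer_eq_top]; exact le_top
      have hcop : (Nat.card (Q : Subgroup G)).Coprime (Nat.card M) := by
        obtain ⟨m, hm⟩ := IsPGroup.iff_card.1 Q.2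
        have e : Nat.card (Q : Subgroup G) = q ^ m := hm
        rw [e]; exact hMq.symm.pow_left m
      have hsolv : Group.IsSolvable (Q : Subgroup G) := by
        haveI := Q.2.isNilpotent
        infer_instance
      obtain ⟨S, hS⟩ := H1.exists_invariant_sylow (Q : Subgroup G) M hQN hcop (Or.inl hsolv) p
      -- S is centralized by Q
      have hSc : (S : Subgroup M).map M.subtype ≤ normalizer ((Q : Subgroup G) : Set G) := by
        have key : ∀ y ∈ (Q : Subgroup G), ∀ s ∈ (S : Subgroup M).map M.subtype,
            s * y = y * s := by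
          intro y hy
          obtain ⟨k, hk⟩ := (IsPGroup.iff_orderOf.1 Q.2) ⟨y, hy⟩
          rw [Subgroup.orderOf_mk] at hk
          obtain ⟨P1, hP1, -⟩ := H24.exists_sylow_le_of_not_dvd_index (centralizer ({y} : Set G))
            (hcl y ⟨k, hk⟩) ⊥ (IsPGroup.of_bot) bot_le
          -- P1 ∩ M Sylow in M
          have hidx : ¬ p ∣ ((P1 : Subgroup G).subgroupOf M).index := by
            have h1 : ((P1 : Subgroup G).subgroupOf M).index = (P1 : Subgroup G).relIndex M := rfl
            rw [h1, ← H2.relIndex_sup_eq_relIndex_of_normal]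
            intro hd
            exact P1.not_dvd_index (hd.trans (relIndex_dvd_index_of_le le_sup_left))
          have hpg : IsPGroup p ((P1 : Subgroup G).subgroupOf M) :=
            P1.2.comap_of_injective M.subtype M.subtype_injective
          set S1 : Sylow p M := hpg.toSylow hidx with hS1
          have hS1m : (S1 : Subgroup M).map M.subtype = (P1 : Subgroup G) ⊓ M := by
            show ((P1 : Subgroup G).subgroupOf M).map M.subtype = _
            rw [subgroupOf_map_subtype]
          have hyS1 : zpowers y ≤ normalizer ((S1 : Subgroup M).map M.subtype : Set G) := by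
            rw [zpowers_le, hS1m]
            refine (centralizer_le_normalizer _) ?_
            rw [mem_centralizer_iff]
            intro g hg
            exact mem_centralizer_singleton_iff.1 (hP1 hg.1)
          have hyN : zpowers y ≤ normalizer (M : Set G) := by
            rw [normalizer_eq_top]; exact le_top
          have hycop : (Nat.card (zpowers y)).Coprime (Nat.card M) := by
            rw [Nat.card_zpowers, hk]; exact hMq.symm.pow_left k
          have hyS : zpowers y ≤ normalizer ((S : Subgroup M).map M.subtype : Set G) :=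
            (by rw [zpowers_le]; exact hy : zpowers y ≤ (Q : Subgroup G)).trans hS
          obtain ⟨c, hc, hcS⟩ := H1.invariant_sylow_conj (zpowers y) M hyN hycop
            (Or.inl inferInstance) p S1 S hyS1 hyS
          intro s hs
          have h3 : (S : Subgroup M).map M.subtype =
              MulAut.conj (c : G) • ((P1 : Subgroup G) ⊓ M) := by
            rw [← hS1m, ← H1.map_subtype_smul, ← hcS]; rfl
          rw [h3] at hs
          obtain ⟨t, ht, rfl⟩ := hs
          have hty : t * y = y * t := mem_centralizer_singleton_iff.1 (hP1 ht.1)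
          have hcy : y * (c : G) = c * y := mem_centralizer_iff.1 hc y (mem_zpowers y)
          have hcy' : y * (c : G)⁻¹ = (c : G)⁻¹ * y := by
            rw [mul_inv_eq_iff_eq_mul, mul_assoc, hcy, inv_mul_cancel_left]
          show (MulAut.conj (c : G)) t * y = y * (MulAut.conj (c : G)) t
          rw [MulAut.conj_apply]
          calc (c : G) * t * (c : G)⁻¹ * y = c * t * ((c : G)⁻¹ * y) := by group
            _ = c * (t * y) * (c : G)⁻¹ := by rw [← hcy']; group
            _ = (c * y) * t * (c : G)⁻¹ := by rw [hty]; group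
            _ = y * (c * t * (c : G)⁻¹) := by rw [← hcy]; group
        intro s hs
        refine (centralizer_le_normalizer _) ?_
        rw [mem_centralizer_iff]
        intro y hy
        exact (key y hy s hs).symm
      set N := normalizer ((Q : Subgroup G) : Set G) with hN
      have hNL : N ≤ normalizer (L : Set G) := by
        intro g hg
        rw [hL, H1.mem_normalizer_iff_conj_smul, Subgroup.smul_sup,
          H1.mem_normalizer_iff_conj_smul.1 hg, Subgroup.Normal.conj_smul_eq_self]
      refine not_dvd_index_of (L := L) (T := normalizer (L : Set G)) hNL ?_ hTidx ?_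
      · refine le_antisymm (sup_le le_normalizer hNL) ?_
        intro t ht
        have h1 : ((t • Q : Sylow q G) : Subgroup G) ≤ L := by
          have h2 : MulAut.conj t • (Q : Subgroup G) ≤ MulAut.conj t • L :=
            H1.conj_smul_le_conj_smul_iff.mpr hQL
          rwa [H1.mem_normalizer_iff_conj_smul.mp ht] at h2
        obtain ⟨l, hl, hlQ⟩ := conj_in Q (t • Q) hQL h1
        have h3 : l⁻¹ * t ∈ N := by
          rw [hN, H1.mem_normalizer_iff_conj_smul, map_mul, mul_smul]
          have h4 : MulAut.conj t • (Q : Subgroup G) = MulAut.conj l • (Q : Subgroup G) := hlQ.symm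
          rw [h4, ← mul_smul, ← map_mul, inv_mul_cancel, map_one, one_smul]
        have h5 : t = l * (l⁻¹ * t) := by group
        rw [h5]
        exact mul_mem_sup hl h3
      · -- p does not divide the relative index
        have hSL : (S : Subgroup M).map M.subtype ≤ L ⊓ N :=
          le_inf ((map_subtype_le _).trans le_sup_left) hSc
        intro hd
        have h1 : (L ⊓ N).relIndex L ∣ ((S : Subgroup M).map M.subtype).relIndex L :=
          relIndex_dvd_of_le_left L hSL
        have h2 := relIndex_mul_relIndex ((S : Subgroup M).map M.subtype) M L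
          (map_subtype_le _) le_sup_left
        have h3 : ((S : Subgroup M).map M.subtype).relIndex M = (S : Subgroup M).index := by
          show (((S : Subgroup M).map M.subtype).subgroupOf M).index = _
          congr 1
          exact comap_map_eq_self_of_injective M.subtype_injective _
        have h4 : M.relIndex L = M.relIndex (Q : Subgroup G) := by
          rw [hL, relIndex_sup_left]
        rw [h3, h4] at h2
        have h5 : p ∣ (S : Subgroup M).index * M.relIndex (Q : Subgroup G) := by
          rw [h2]; exact hd.trans h1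
        rcases (Nat.Prime.dvd_mul hp.out).1 h5 with h6 | h6
        · exact S.not_dvd_index h6
        · have h7 := h6.trans (relIndex_dvd_card M (Q : Subgroup G))
          obtain ⟨m, hm⟩ := IsPGroup.iff_card.1 Q.2
          have e : Nat.card (Q : Subgroup G) = q ^ m := hm
          rw [e] at h7
          exact hpq ((Nat.prime_dvd_prime_iff_eq hp.out hq.out).1 (hp.out.dvd_of_dvd_pow h7))

/-- Let p and q be primes and G a finite group that is p-solvable or q-solvable, in which no q-element has conjugacy class size divisible by p. Then some Sylow p-subgroup of G normalizes some Sylow q-subgroup of G. -/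
theorem result {G : Type*} [Group G] [Finite G] (p q : ℕ) [Fact p.Prime] [Fact q.Prime] (hsolv : Cfsg.IsPSolvable p G ∨ Cfsg.IsPSolvable q G)
    (h : ∀ y : G, (∃ k : ℕ, orderOf y = q ^ k) → ¬ p ∣ (Subgroup.centralizer ({y} : Set G)).index) :
    ∃ (P : Sylow p G) (Q : Sylow q G), (P : Subgroup G) ≤ Subgroup.normalizer ((Q : Subgroup G) : Set G) := by
  by_cases hpq : p = q
  · subst hpq
    obtain ⟨P⟩ : Nonempty (Sylow p G) := inferInstance
    exact ⟨P, P, le_normalizer⟩
  rcases hsolv with hs | hs
  · refine S4602.core_case hpq ?_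
    -- every q-element is in the p'-core
    intro hd
    have hsurj := QuotientGroup.mk'_surjective (Cfsg.pPrimeCore p G)
    have hC := H2.charP_quotient_of_solvable hs
    set f := QuotientGroup.mk' (Cfsg.pPrimeCore p G) with hf
    set U := Cfsg.pCore p (G ⧸ Cfsg.pPrimeCore p G) with hU
    obtain ⟨Q⟩ : Nonempty (Sylow q G) := inferInstance
    have hQbot : (Q : Subgroup G).map f = ⊥ := by
      rw [eq_bot_iff]
      rintro _ ⟨y, hy, rfl⟩
      obtain ⟨k, hk⟩ := (IsPGroup.iff_orderOf.1 Q.2) ⟨y, hy⟩
      rw [Subgroup.orderOf_mk] at hk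
      obtain ⟨P1, hP1, -⟩ := H24.exists_sylow_le_of_not_dvd_index (centralizer ({y} : Set G))
        (h y ⟨k, hk⟩) ⊥ (IsPGroup.of_bot) bot_le
      have hUP : U ≤ (P1 : Subgroup G).map f := by
        have := H1.pCore_le_sylow (P1.mapSurjective hsurj)
        rwa [Sylow.coe_mapSurjective] at this
      have h1 : f y ∈ centralizer (U : Set _) := by
        rw [mem_centralizer_iff]
        intro u hu
        obtain ⟨x, hx, rfl⟩ := hUP hu
        rw [← map_mul, ← map_mul, mem_centralizer_singleton_iff.1 (hP1 hx)]
      have h2 : f y ∈ U := hC h1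
      have hUp : IsPGroup p U := (P1.mapSurjective hsurj).2.to_le (H1.pCore_le_sylow _)
      obtain ⟨m, hm⟩ := (IsPGroup.iff_orderOf.1 hUp) ⟨f y, h2⟩
      rw [Subgroup.orderOf_mk] at hm
      have h3 : orderOf (f y) ∣ q ^ k := by rw [← hk]; exact orderOf_map_dvd f y
      rw [hm] at h3
      have h4 : p ^ m = 1 := by
        have hc : Nat.Coprime (p ^ m) (q ^ k) :=
          ((Nat.coprime_primes Fact.out Fact.out).2 hpq).pow m k
        exact Nat.Coprime.eq_one_of_dvd hc h3
      rw [h4, orderOf_eq_one_iff] at hm
      rw [hm]; exact Subgroup.mem_bot.2 rfl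
    have hQ2 : (Q.mapSurjective hsurj).toSubgroup = ⊥ := by
      rw [Sylow.coe_mapSurjective]; exact hQbot
    have h3 := (Q.mapSurjective hsurj).not_dvd_index
    rw [hQ2, index_bot] at h3
    exact h3 hd
  · obtain ⟨Q⟩ : Nonempty (Sylow q G) := inferInstance
    have h1 := qcase hpq _ G le_rfl hs h Q
    obtain ⟨P, hP, -⟩ := H24.exists_sylow_le_of_not_dvd_index _ h1 ⊥ (IsPGroup.of_bot) bot_le
    exact ⟨P, Q, hP⟩

end Cfsg.Agent.S4601
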