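import Cfsg.Statements.S4607
import Cfsg.Agent.H27.Md10
import Cfsg.Agent.S4733
import Cfsg.Agent.H26.Nil3

set_option autoImplicit false
open Cfsg

namespace Cfsg.Agent.S4607

open Module Cfsg.Agent.H11 Cfsg.Agent.H26 Cfsg.Agent.H27.Md

/-- Let G be a finite group, p a prime, M a maximal ideal of the algebraic integers containing p, and B a p-block of G with defect group D. Then B contains exactly two irreducible characters if and only if D has order 2. -/
theorem result {G : Type*} [Group G] [Finite G] (p : ℕ) [Fact p.Prime] (M : Ideal Cfsg.AlgInt) (hM : Cfsg.IsPModular p M) (B : Set (Cfsg.IrrCharacter G)) (hB : Cfsg.IsPBlock M B) (D : Subgroup G) (hD : Cfsg.IsDefectGroup p M B D) : Nat.card B = 2 ↔ Nat.card D = 2 := by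

  classical
  haveI := Fintype.ofFinite G
  have hpr : M.IsPrime := hM.2.1.isPrime
  have : CharP (KF M) p := charP_KF hM
  have hp : p.Prime := Fact.out
  have hcard := card_defect hM hB hD
  obtain ⟨hle, h1, h2⟩ := S4733.result p M hM B hB
  constructor
  · intro hk
    have hd0 : blockDefect p B ≠ 0 := by
      intro h
      have := (h1.mp h).1
      omega
    have hl : blockRank p B = 1 := by
      have h3 := blockRank_pos hM hB
      have h4 : Nat.card B ≠ blockRank p B := fun h => hd0 (h2.mpr h)
      omega
    obtain ⟨s, m, ε, N, T, hs, hε, heε, ⟨mu⟩, hNA, hεN, hdec, hm, hmul, hdvd, -⟩ :=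
      exists_data hM hB D hD hl
    have h5 := corner_le_two mu hs EG_comm (coeffOne (M := M) (G := G)) coeffOne_comm coeffOne_nondeg
      hε hNA hεN hdec hm hmul (by rw [finrank_zR hB, hk])
    have h6 : 0 < finrank (KF M) (crn (KF M) ε ε) := by
      rw [finrank_corner (K := KF M) ⟨hε, hε⟩ hNA hεN hdec]
      omega
    have h7 := Nat.le_of_dvd h6 hdvd
    have h8 : Nat.card D ≠ 1 := by
      rw [hcard]
      intro h
      exact hd0 ((Nat.pow_eq_one.mp h).resolve_left hp.one_lt.ne')
    have h9 : 0 < Nat.card D := Nat.card_pos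
    omega
  · intro hD2
    have hnil : IsNilpotentBlock p M B := by
      rw [isNilpotentBlock_iff]
      refine ⟨hB, ?_⟩
      have hDD := (isDefectGroup_iff_EG hB).mp hD
      obtain ⟨e, he⟩ := hDD.exists_inB (isBlk_EG hB)
      have hmax := he.maxB_of_isDef hDD
      have hab : ∀ x ∈ D, ∀ y ∈ D, x * y = y * x := by
        haveI : Fact (Nat.Prime 2) := ⟨Nat.prime_two⟩
        haveI := isCyclic_of_prime_card hD2
        intro x hx y hy
        obtain ⟨g, hg⟩ := IsCyclic.exists_generator (α := D)
        obtain ⟨i, hi⟩ := Subgroup.mem_zpowers_iff.mp (hg ⟨x, hx⟩)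
        obtain ⟨j, hj⟩ := Subgroup.mem_zpowers_iff.mp (hg ⟨y, hy⟩)
        have h := (Commute.refl g).zpow_zpow i j
        rw [hi, hj] at h
        exact congrArg Subtype.val h.eq
      rw [hmax.isNil_iff_abelian hab]
      intro g hg
      rw [Subgroup.mem_centralizer_iff]
      intro x hx
      have h3 : g * x * g⁻¹ ∈ D := (Subgroup.mem_normalizer_iff.mp hg.1 x).mp hx
      by_cases hx1 : x = 1
      · rw [hx1, one_mul, mul_one]
      · have h4 : g * x * g⁻¹ ≠ 1 := by
          intro h
          apply hx1
          rw [mul_inv_eq_one] at h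
          exact mul_left_cancel (h.trans (mul_one g).symm)
        have h5 : ∀ y ∈ D, y ≠ 1 → y = x := by
          intro y hy hy1
          have h6 := Nat.card_eq_two_iff.mp hD2
          obtain ⟨a, b, hab', huniv⟩ := h6
          have h7 : ∀ z : D, z = a ∨ z = b := by
            intro z
            have : z ∈ ({a, b} : Set D) := by rw [huniv]; trivial
            simpa using this
          have e1 := h7 1
          have e2 := h7 ⟨x, hx⟩
          have e3 := h7 ⟨y, hy⟩
          have n1 : (⟨x, hx⟩ : D) ≠ 1 := fun h => hx1 (congrArg Subtype.val h)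
          have n2 : (⟨y, hy⟩ : D) ≠ 1 := fun h => hy1 (congrArg Subtype.val h)
          have : (⟨y, hy⟩ : D) = ⟨x, hx⟩ := by
            rcases e1 with e1 | e1 <;> rcases e2 with e2 | e2 <;> rcases e3 with e3 | e3 <;>
              simp_all
          exact congrArg Subtype.val this
        have h6 := h5 _ h3 h4
        calc x * g = g * x * g⁻¹ * g := by rw [h6]
          _ = g * x := by group
    have hab : ∀ x ∈ D, ∀ y ∈ D, x * y = y * x := by
      haveI : Fact (Nat.Prime 2) := ⟨Nat.prime_two⟩
      haveI := isCyclic_of_prime_card hD2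
      intro x hx y hy
      obtain ⟨g, hg⟩ := IsCyclic.exists_generator (α := D)
      obtain ⟨i, hi⟩ := Subgroup.mem_zpowers_iff.mp (hg ⟨x, hx⟩)
      obtain ⟨j, hj⟩ := Subgroup.mem_zpowers_iff.mp (hg ⟨y, hy⟩)
      have h := (Commute.refl g).zpow_zpow i j
      rw [hi, hj] at h
      exact congrArg Subtype.val h.eq
    rw [(nilpotent_abelian p M hM hnil hD hab).1, hD2]

end Cfsg.Agent.S4607
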