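import Cfsg.Statements.S4611
import Cfsg.Agent.H7.PrinSolv

set_option autoImplicit false
open Cfsg

namespace Cfsg.Agent.S4611

/-- Let G be a finite solvable group and π a nonempty set of primes, each dividing the order of G; fix for each p in π a maximal ideal M p of the algebraic integers containing p. Then the only irreducible character lying in the principal p-block for every p in π is the principal character if and only if G is generated by the subgroups O_{p'}(G), p in π (the largest normal subgroups of order prime to p). -/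
theorem result {G : Type*} [Group G] [Finite G] [Group.IsSolvable G] (π : Set ℕ) (hπ : ∀ p ∈ π, p.Prime ∧ p ∣ Nat.card G) (hne : π.Nonempty) (M : ℕ → Ideal Cfsg.AlgInt) (hM : ∀ p ∈ π, Cfsg.IsPModular p (M p)) :
    (∀ χ : Cfsg.IrrCharacter G, (∀ p ∈ π, χ ∈ Cfsg.principalBlock (M p) G) → (χ : G → ℂ) = fun _ => 1) ↔
      ⨆ p ∈ π, Cfsg.pPrimeCore p G = ⊤ := by
  classical
  have hmem : ∀ χ : IrrCharacter G, (∀ p ∈ π, χ ∈ principalBlock (M p) G) ↔
      ∀ g ∈ ⨆ p ∈ π, pPrimeCore p G, (χ : G → ℂ) g = (χ : G → ℂ) 1 := by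
    intro χ
    have h1 : (∀ g ∈ ⨆ p ∈ π, pPrimeCore p G, (χ : G → ℂ) g = (χ : G → ℂ) 1) ↔
        ⨆ p ∈ π, pPrimeCore p G ≤ H27.charKer (H3.irr_isChar χ.2) := Iff.rfl
    rw [h1, iSup₂_le_iff]
    refine forall₂_congr fun p hp => ?_
    haveI : Fact p.Prime := ⟨(hπ p hp).1⟩
    exact H7.PrinSolv.mem_principal_iff (hM p hp)
      (H23.isPSolvable_of_isSolvable (by assumption)) χ
  set L := ⨆ p ∈ π, pPrimeCore p G with hL
  haveI hLn : L.Normal := by
    rw [hL]
    exact Subgroup.biSup_normal π (fun p => pPrimeCore p G) fun p _ => inferInstance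
  constructor
  · intro h
    by_contra hne
    haveI : Nontrivial (G ⧸ L) := QuotientGroup.nontrivial_iff.2 hne
    obtain ⟨χ, hχ⟩ := H7.PrinSolv.exists_ne_one (G := G ⧸ L)
    apply hχ
    have h1 := h (H27.irrQuotEquiv L χ).1 ((hmem _).2 (H27.irrQuotEquiv L χ).2)
    funext x
    obtain ⟨g, rfl⟩ := QuotientGroup.mk_surjective x
    rw [← H27.irrQuotEquiv_apply L χ g]
    exact congrFun h1 g
  · intro h χ hχ
    funext g
    exact H27.irr_ker_top χ.2 (fun g => (hmem χ).1 hχ g (by rw [h]; trivial)) g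

end Cfsg.Agent.S4611
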