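import Cfsg.Statements.S4620
import Cfsg.Agent.H10.SubnIn
import Cfsg.Agent.H10.TW2

set_option autoImplicit false
open scoped Pointwise
open Cfsg

namespace Cfsg.Agent.S4620

open Subgroup Cfsg.Agent.H10

/-- two Sylow subgroups of a TI type meeting non-trivially coincide -/
theorem syl_eq {H : Type*} [Group H] [Finite H] {p : ℕ} [Fact p.Prime] (P : Sylow p H)
    (hTI : ∀ g : H, g ∉ Subgroup.normalizer ((P : Subgroup H) : Set H) →
      (P : Subgroup H) ⊓ (MulAut.conj g • (P : Subgroup H)) = ⊥)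
    (Q R : Sylow p H) (h : (Q : Subgroup H) ⊓ (R : Subgroup H) ≠ ⊥) : Q = R := by
  obtain ⟨a, rfl⟩ := MulAction.exists_smul_eq H P Q
  obtain ⟨b, rfl⟩ := MulAction.exists_smul_eq H P R
  by_cases hab : a⁻¹ * b ∈ Subgroup.normalizer ((P : Subgroup H) : Set H)
  · have hab' : (a⁻¹ * b) • P = P := Sylow.smul_eq_iff_mem_normalizer.2 hab
    conv_lhs => rw [← hab']
    rw [smul_smul, mul_inv_cancel_left]
  · exfalso
    apply h
    have h1 := hTI _ hab
    rw [Sylow.coe_subgroup_smul, Sylow.coe_subgroup_smul]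
    have h2 : (MulAut.conj b • (P : Subgroup H)) =
        MulAut.conj a • (MulAut.conj (a⁻¹ * b) • (P : Subgroup H)) := by
      rw [smul_smul, ← map_mul, mul_inv_cancel_left]
    rw [h2, ← Subgroup.smul_inf, h1, Subgroup.smul_bot]

theorem not_dvd_cent {H : Type*} [Group H] [Finite H] {p : ℕ} [hp : Fact p.Prime]
    (hS : ∀ Q R : Sylow p H, (Q : Subgroup H) ⊓ (R : Subgroup H) ≠ ⊥ → Q = R) {M : Subgroup H}
    (hM : ∀ T : Subgroup H, T ≤ M → M ≤ Subgroup.normalizer (T : Set H) → IsPGroup p T → T = ⊥)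
    (hpM : p ∣ Nat.card M) : ¬ p ∣ Nat.card (Subgroup.centralizer (M : Set H)) := by
  intro hpC
  obtain ⟨x, hx⟩ := exists_prime_orderOf_dvd_card' p hpC
  obtain ⟨T⟩ := (inferInstance : Nonempty (Sylow p M))
  have hx1 : (x : H) ≠ 1 := by
    intro h
    have : x = 1 := Subtype.ext h
    rw [this, orderOf_one] at hx
    exact hp.out.one_lt.ne hx
  set T0 : Subgroup H := (T : Subgroup M).map M.subtype with hT0
  have hT0M : T0 ≤ M := Subgroup.map_subtype_le _
  have hT0p : IsPGroup p T0 := T.isPGroup'.map _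
  have hxo : IsPGroup p (Subgroup.zpowers (x : H)) := by
    apply IsPGroup.of_card (n := 1)
    rw [Nat.card_zpowers, Subgroup.orderOf_coe, hx, pow_one]
  have hnorm : Subgroup.zpowers (x : H) ≤ Subgroup.normalizer (T0 : Set H) := by
    rw [Subgroup.zpowers_le]
    refine (Subgroup.centralizer_le_normalizer (T0 : Set H)) ?_
    exact Subgroup.centralizer_le (fun y hy => hT0M hy) x.2
  have hsup := IsPGroup.to_sup_of_normal_right' hxo hT0p hnorm
  obtain ⟨S, hSle⟩ := hsup.exists_le_sylow
  have hxS : (x : H) ∈ (S : Subgroup H) :=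
    hSle ((le_sup_left : Subgroup.zpowers (x : H) ≤ _) (Subgroup.mem_zpowers _))
  have hTS : T0 ≤ (S : Subgroup H) := le_sup_right.trans hSle
  have hMS : M ≤ Subgroup.normalizer ((S : Subgroup H) : Set H) := by
    intro m hm
    refine Sylow.smul_eq_iff_mem_normalizer.1 ?_
    symm
    apply hS
    intro h0
    have hxm : (x : H) ∈ (S : Subgroup H) ⊓ ((m • S : Sylow p H) : Subgroup H) := by
      refine Subgroup.mem_inf.2 ⟨hxS, ?_⟩
      rw [Sylow.coe_subgroup_smul]
      refine ⟨x, hxS, ?_⟩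
      have h1 := Subgroup.mem_centralizer_iff.mp x.2 m hm
      change m * (x : H) * m⁻¹ = x
      rw [h1]; group
    rw [h0, Subgroup.mem_bot] at hxm
    exact hx1 hxm
  have h1 := hM ((S : Subgroup H) ⊓ M) inf_le_right
    (by
      intro m hm
      rw [Subgroup.mem_normalizer_iff]
      intro y
      have e1 := (Subgroup.mem_normalizer_iff.mp (hMS hm)) y
      constructor
      · intro hy
        obtain ⟨hy1, hy2⟩ := Subgroup.mem_inf.1 hy
        exact Subgroup.mem_inf.2 ⟨e1.1 hy1, M.mul_mem (M.mul_mem hm hy2) (M.inv_mem hm)⟩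
      · intro hy
        obtain ⟨hy1, hy2⟩ := Subgroup.mem_inf.1 hy
        refine Subgroup.mem_inf.2 ⟨e1.2 hy1, ?_⟩
        have := M.mul_mem (M.mul_mem (M.inv_mem hm) hy2) hm
        have e : m⁻¹ * (m * y * m⁻¹) * m = y := by group
        rwa [e] at this)
    (S.isPGroup'.to_le inf_le_left)
  have h2 : T0 = ⊥ := by
    rw [eq_bot_iff, ← h1]
    exact le_inf hTS hT0M
  have h3 : (T : Subgroup M) = ⊥ := by
    rw [hT0] at h2
    exact (Subgroup.map_eq_bot_iff_of_injective _ M.subtype_injective).mp h2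
  have h4 := T.card_eq_multiplicity
  rw [h3, Subgroup.card_bot] at h4
  have h5 : (Nat.card M).factorization p ≠ 0 := by
    have := (hp.out.dvd_iff_one_le_factorization Nat.card_pos.ne').mp hpM
    omega
  have h6 := Nat.one_lt_pow h5 hp.out.one_lt
  omega

/-- Let H be a finite group with no nontrivial normal p-subgroup and no nontrivial normal subgroup of order prime to p, whose Sylow p-subgroup P is nontrivial and a trivial-intersection set (P meets its conjugates by elements outside N_H(P) trivially). Then H has a unique minimal normal subgroup N; N is non-abelian simple with trivial centralizer in H (so H embeds in Aut(N)), and a Sylow p-subgroup of N is again a nontrivial trivial-intersection set in N. -/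
theorem result {H : Type*} [Group H] [Finite H] (p : ℕ) [Fact p.Prime] (hOp : Cfsg.pCore p H = ⊥) (hOp' : Cfsg.pPrimeCore p H = ⊥) (P : Sylow p H) (hP1 : (P : Subgroup H) ≠ ⊥)
    (hTI : ∀ g : H, g ∉ Subgroup.normalizer ((P : Subgroup H) : Set H) → (P : Subgroup H) ⊓ (MulAut.conj g • (P : Subgroup H)) = ⊥) :
    ∃ N : Subgroup H, N.Normal ∧ N ≠ ⊥ ∧ (∀ K : Subgroup H, K.Normal → K ≠ ⊥ → N ≤ K) ∧
      IsSimpleGroup N ∧ ¬ IsMulCommutative N ∧ Subgroup.centralizer (N : Set H) = ⊥ ∧
      ∀ Q : Sylow p N, (Q : Subgroup N) ≠ ⊥ ∧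
        ∀ n : N, n ∉ Subgroup.normalizer ((Q : Subgroup N) : Set N) → (Q : Subgroup N) ⊓ (MulAut.conj n • (Q : Subgroup N)) = ⊥ := by
  classical
  have hp : p.Prime := Fact.out
  have hS := syl_eq P hTI
  -- subnormal p- or p'-subgroups are trivial
  have hsp : ∀ T : Subgroup H, T.IsSubnormal → IsPGroup p T → T = ⊥ := fun T hT hTp =>
    le_bot_iff.mp (hOp ▸ subnormal_pGroup_le_pCore hT hTp)
  have hsp' : ∀ T : Subgroup H, T.IsSubnormal → ¬ p ∣ Nat.card T → T = ⊥ := fun T hT hTp =>
    le_bot_iff.mp (hOp' ▸ subnormal_pPrime_le_pPrimeCore hT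
      ((Nat.Prime.coprime_iff_not_dvd hp).mpr hTp).symm)
  -- the main lemma for a subnormal subgroup
  have hmain : ∀ M : Subgroup H, M.IsSubnormal → M ≠ ⊥ →
      ¬ p ∣ Nat.card (Subgroup.centralizer (M : Set H)) := by
    intro M hM hM1
    apply not_dvd_cent hS
    · intro T hTM hTn hTp
      exact hsp T (subnIn_top.1 ((subnIn_of_normal hTM hTn).trans (subnIn_top.2 hM))) hTp
    · by_contra h
      exact hM1 (hsp' M hM h)
  have hH1 : (⊤ : Subgroup H) ≠ ⊥ := fun h => hP1 (le_bot_iff.mp (h ▸ le_top))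
  obtain ⟨N, ⟨hNn, hN1⟩, hNmin⟩ := (Set.toFinite {K : Subgroup H | K.Normal ∧ K ≠ ⊥}).exists_minimal
    ⟨⊤, inferInstance, hH1⟩
  have hNsub : N.IsSubnormal := hNn.isSubnormal
  have hCN : Subgroup.centralizer (N : Set H) = ⊥ := by
    apply hsp' _ _ (hmain N hNsub hN1)
    have : (Subgroup.centralizer (N : Set H)).Normal := inferInstance
    exact this.isSubnormal
  have huniq : ∀ K : Subgroup H, K.Normal → K ≠ ⊥ → N ≤ K := by
    intro K hK hK1
    have h1 : N ⊓ K ≠ ⊥ := by
      intro h0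
      apply hK1
      rw [eq_bot_iff, ← hCN]
      intro k hk
      rw [Subgroup.mem_centralizer_iff]
      intro n hn
      have := Subgroup.commute_of_normal_of_disjoint N K hNn hK (disjoint_iff.2 h0) n k hn hk
      exact this
    have h2 := hNmin (y := N ⊓ K) ⟨inferInstance, h1⟩ inf_le_left
    exact le_trans h2 inf_le_right
  have hcomm : ¬ IsMulCommutative N := by
    intro hc
    apply hN1
    rw [eq_bot_iff, ← hCN]
    exact Subgroup.le_centralizer_iff_isMulCommutative.mpr hc
  have hsimple : IsSimpleGroup N := by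
    -- take a minimal nontrivial M, M normal in N
    obtain ⟨M, ⟨hMN, hNM, hM1⟩, hMmin⟩ := (Set.toFinite {K : Subgroup H | K ≤ N ∧
      N ≤ Subgroup.normalizer (K : Set H) ∧ K ≠ ⊥}).exists_minimal
      ⟨N, le_rfl, Subgroup.le_normalizer, hN1⟩
    have hMsub : M.IsSubnormal :=
      subnIn_top.1 ((subnIn_of_normal hMN hNM).trans (subnIn_top.2 hNsub))
    have hCM : N ⊓ Subgroup.centralizer (M : Set H) = ⊥ := by
      apply hsp'
      · apply subnIn_top.1
        refine SubnIn.trans (subnIn_of_normal inf_le_left ?_) (subnIn_top.2 hNsub)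
        apply le_normalizer_of_conj_mem
        intro n hn y hy
        obtain ⟨hy1, hy2⟩ := Subgroup.mem_inf.1 hy
        refine Subgroup.mem_inf.2 ⟨N.mul_mem (N.mul_mem hn hy1) (N.inv_mem hn), ?_⟩
        rw [Subgroup.mem_centralizer_iff] at hy2 ⊢
        intro m hm
        have h1 : n⁻¹ * m * n ∈ M := by
          have := (Subgroup.mem_normalizer_iff.mp (hNM (N.inv_mem hn)) m).1 hm
          simpa using this
        have h2 := hy2 _ h1
        calc m * (n * y * n⁻¹) = n * ((n⁻¹ * m * n) * y) * n⁻¹ := by group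
          _ = n * (y * (n⁻¹ * m * n)) * n⁻¹ := by rw [h2]
          _ = n * y * n⁻¹ * m := by group
      · intro hd
        exact hmain M hMsub hM1 (hd.trans (Subgroup.card_dvd_of_le inf_le_right))
    have hMg : ∀ g : H, ∀ m ∈ M, g * m * g⁻¹ ∈ M := by
      intro g
      set M' : Subgroup H := M.map (MulAut.conj g).toMonoidHom with hM'
      have hM'N : M' ≤ N := by
        rintro _ ⟨m, hm, rfl⟩
        exact hNn.conj_mem _ (hMN hm) g
      have hNM' : N ≤ Subgroup.normalizer (M' : Set H) := by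
        apply le_normalizer_of_conj_mem
        rintro n hn _ ⟨m, hm, rfl⟩
        have h1 : g⁻¹ * n * g ∈ N := by simpa using hNn.conj_mem n hn g⁻¹
        have h2 := (Subgroup.mem_normalizer_iff.mp (hNM h1) m).1 hm
        refine ⟨_, h2, ?_⟩
        change g * _ * g⁻¹ = n * (g * m * g⁻¹) * n⁻¹
        group
      have hM'1 : M' ≠ ⊥ := by
        intro h
        exact hM1 ((Subgroup.map_eq_bot_iff_of_injective _ (MulAut.conj g).injective).mp h)
      have h1 : M ⊓ M' ≠ ⊥ := by
        intro h0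
        apply hM'1
        rw [eq_bot_iff, ← hCM]
        intro y hy
        refine Subgroup.mem_inf.2 ⟨hM'N hy, ?_⟩
        rw [Subgroup.mem_centralizer_iff]
        intro m hm
        have e1 : y * m * y⁻¹ ∈ M := (Subgroup.mem_normalizer_iff.mp (hNM (hM'N hy)) m).1 hm
        have e2 : m * y * m⁻¹ ∈ M' := (Subgroup.mem_normalizer_iff.mp (hNM' (hMN hm)) y).1 hy
        have e3 : m * y * m⁻¹ * y⁻¹ ∈ M ⊓ M' := by
          refine Subgroup.mem_inf.2 ⟨?_, M'.mul_mem e2 (M'.inv_mem hy)⟩
          have : m * y * m⁻¹ * y⁻¹ = m * (y * m * y⁻¹)⁻¹ := by group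
          rw [this]
          exact M.mul_mem hm (M.inv_mem e1)
        rw [h0, Subgroup.mem_bot] at e3
        calc m * y = (m * y * m⁻¹ * y⁻¹) * (y * m) := by group
          _ = y * m := by rw [e3, one_mul]
      have h2 : M ≤ M' := le_trans (hMmin (y := M ⊓ M') ⟨inf_le_left.trans hMN,
        le_normalizer_inf hNM hNM', h1⟩ inf_le_left) inf_le_right
      have h3 : M = M' := by
        apply Subgroup.eq_of_le_of_card_ge h2
        rw [hM', card_map_equiv]
      intro m hm
      rw [h3]
      exact ⟨m, hm, rfl⟩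
    have hMn : M.Normal := ⟨fun m hm g => hMg g m hm⟩
    have hMeq : N ≤ M := huniq M hMn hM1
    have : Nontrivial N := (Subgroup.nontrivial_iff_ne_bot N).2 hN1
    refine ⟨fun K hK => ?_⟩
    by_cases hK1 : K = ⊥
    · exact Or.inl hK1
    · right
      have h1 : K.map N.subtype ≠ ⊥ := fun h =>
        hK1 ((Subgroup.map_eq_bot_iff_of_injective _ N.subtype_injective).mp h)
      have h2 : N ≤ Subgroup.normalizer ((K.map N.subtype : Subgroup H) : Set H) := by
        apply le_normalizer_of_conj_mem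
        rintro n hn _ ⟨k, hk, rfl⟩
        exact ⟨⟨n, hn⟩ * k * ⟨n, hn⟩⁻¹, hK.conj_mem k hk ⟨n, hn⟩, rfl⟩
      have h3 : M ≤ K.map N.subtype := hMmin (y := K.map N.subtype)
        ⟨Subgroup.map_subtype_le _, h2, h1⟩ ((Subgroup.map_subtype_le _).trans hMeq)
      rw [eq_top_iff]
      intro x _
      obtain ⟨k, hk, hkx⟩ := h3 (hMeq x.2)
      have : k = x := Subtype.ext hkx
      rwa [← this]
  refine ⟨N, hNn, hN1, huniq, hsimple, hcomm, hCN, ?_⟩
  have hpN : p ∣ Nat.card N := by
    by_contra h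
    exact hN1 (hsp' N hNsub h)
  intro Q
  refine ⟨?_, ?_⟩
  · intro h3
    have h4 := Q.card_eq_multiplicity
    rw [h3, Subgroup.card_bot] at h4
    have h5 : (Nat.card N).factorization p ≠ 0 := by
      have := (hp.dvd_iff_one_le_factorization Nat.card_pos.ne').mp hpN
      omega
    have h6 := Nat.one_lt_pow h5 hp.one_lt
    omega
  · intro n hn
    by_contra h0
    apply hn
    obtain ⟨S, hQS⟩ := Q.exists_comap_subtype_eq
    have h1 : S = (n : H) • S := by
      apply hS
      intro h2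
      apply h0
      rw [eq_bot_iff]
      rintro y hy
      obtain ⟨hy1, hy2⟩ := Subgroup.mem_inf.1 hy
      have h3 : (y : H) ∈ (S : Subgroup H) := by
        rw [← hQS] at hy1
        exact hy1
      have h4 : (y : H) ∈ (((n : H) • S : Sylow p H) : Subgroup H) := by
        rw [Sylow.coe_subgroup_smul]
        obtain ⟨w, hw, hwy⟩ := hy2
        have hw' : (w : H) ∈ (S : Subgroup H) := by
          have : w ∈ (Q : Subgroup N) := hw
          rw [← hQS] at this
          exact this
        refine ⟨w, hw', ?_⟩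
        rw [← hwy]
        rfl
      have h5 : (y : H) ∈ (S : Subgroup H) ⊓ (((n : H) • S : Sylow p H) : Subgroup H) :=
        Subgroup.mem_inf.2 ⟨h3, h4⟩
      rw [h2, Subgroup.mem_bot] at h5
      exact Subgroup.mem_bot.2 (Subtype.ext h5)
    have h6 : (n : H) ∈ Subgroup.normalizer ((S : Subgroup H) : Set H) :=
      Sylow.smul_eq_iff_mem_normalizer.1 h1.symm
    rw [Subgroup.mem_normalizer_iff] at h6 ⊢
    intro y
    rw [← hQS]
    exact h6 (y : H)

end Cfsg.Agent.S4620
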