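import Cfsg.Statements.S4741
import Cfsg.Agent.H27.DefZero
import Cfsg.Agent.H27.CauchyBinet
import Cfsg.Agent.H27.Util

set_option autoImplicit false
open Cfsg

namespace Cfsg.Agent.S4741

open Cfsg.Agent.H3 Cfsg.Agent.H11 Cfsg.Agent.H27
open scoped ComplexConjugate

theorem key {G : Type*} [Group G] [Fintype G] (p : ℕ) [Fact p.Prime] (P : Sylow p G)
    [Fintype (IrrCharacter G)] (m : IrrCharacter G → ℕ)
    (hexp : indFun (P : Subgroup G) (fun _ => 1) = ∑ ψ : IrrCharacter G, (m ψ : ℂ) • (ψ : G → ℂ))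
    (x y : G) (hsep : ∀ g : G, IsConj x g → ∀ k : ℕ, 0 < k → orderOf (g * y⁻¹) ≠ p ^ k) [Decidable (IsConj x y)] :
    ∑ χ : IrrCharacter G, centralChar (χ : G → ℂ) x * ((m χ : ℂ) * conj ((χ : G → ℂ) y))
      = if IsConj x y then ((P : Subgroup G).index : ℂ) else 0 := by
  classical
  have h1 : ∀ χ : IrrCharacter G, centralChar (χ : G → ℂ) x * ((m χ : ℂ) * conj ((χ : G → ℂ) y))
      = ∑ g ∈ cl x, (m χ : ℂ) * (χ : G → ℂ) (g * y⁻¹) := by
    intro χ
    rw [← Finset.mul_sum, centralChar_mul_apply χ.2, char_inv (irr_isChar χ.2)]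
    ring
  simp only [h1]
  rw [Finset.sum_comm]
  have h2 : ∀ g : G, ∑ χ : IrrCharacter G, (m χ : ℂ) * (χ : G → ℂ) (g * y⁻¹)
      = indFun (P : Subgroup G) (fun _ => 1) (g * y⁻¹) := by
    intro g
    rw [hexp]
    simp
  simp only [h2]
  have h3 : ∀ g ∈ cl x, indFun (P : Subgroup G) (fun _ => (1 : ℂ)) (g * y⁻¹)
      = if g = y then ((P : Subgroup G).index : ℂ) else 0 := by
    intro g hg
    rw [mem_cl] at hg
    split_ifs with h4
    · rw [h4, mul_inv_cancel, indFun_one_apply, mul_one]
    · unfold indFun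
      rw [Finset.sum_eq_zero, mul_zero]
      intro c _
      apply extendByZero_not_mem
      intro h5
      obtain ⟨k, hk⟩ := (IsPGroup.iff_orderOf.mp P.isPGroup') ⟨_, h5⟩
      rw [Subgroup.orderOf_mk] at hk
      have h6 := Cfsg.Agent.H11.orderOf_conj (g * y⁻¹) c⁻¹
      rw [inv_inv] at h6
      rw [h6] at hk
      rcases Nat.eq_zero_or_pos k with h7 | h7
      · rw [h7, pow_zero, orderOf_eq_one_iff, mul_inv_eq_one] at hk
        exact h4 hk
      · exact hsep g hg k h7 hk
  rw [Finset.sum_congr rfl h3, Finset.sum_ite_eq']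
  simp only [mem_cl]

theorem det_char_eq {G : Type*} [Group G] [Fintype G] {r : ℕ} (x : Fin r → G)
    (χ : Fin r → IrrCharacter G) :
    Matrix.det (Matrix.of fun i j : Fin r => (χ i : G → ℂ) (x j))
      = (((∏ i, charDegree (χ i : G → ℂ) : ℕ) : ℂ) / ((∏ j, (C1 (x j)).index : ℕ) : ℂ))
        * Matrix.det (Matrix.of fun i j : Fin r => centralChar (χ i : G → ℂ) (x j)) := by
  have h1 : (Matrix.of fun i j : Fin r => (χ i : G → ℂ) (x j))
      = Matrix.of fun i j => (charDegree (χ i : G → ℂ) : ℂ) *
        (Matrix.of (fun i j => ((C1 (x j)).index : ℂ)⁻¹ *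
          (Matrix.of fun i j : Fin r => centralChar (χ i : G → ℂ) (x j)) i j) : Matrix (Fin r) (Fin r) ℂ) i j := by
    ext i j
    simp only [Matrix.of_apply]
    unfold centralChar
    rw [charDegree_cast (irr_isChar (χ i).2)]
    have h1 := irr_one_ne_zero (χ i).2
    have h2 : ((C1 (x j)).index : ℂ) ≠ 0 := by exact_mod_cast Subgroup.index_ne_zero_of_finite
    field_simp
  rw [h1, Matrix.det_mul_column, Matrix.det_mul_row]
  push_cast
  rw [Finset.prod_inv_distrib]
  ring

theorem li_det_col {M : Ideal AlgInt} [hM : M.IsPrime] {r : ℕ} (N : Matrix (Fin r) (Fin r) ℂ)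
    (hN : ∀ i j, MemLocalRing M (N i j)) (k : Fin r) (h : ∀ i, MemLocalIdeal M (N i k)) :
    MemLocalIdeal M N.det := by
  rw [Matrix.det_apply']
  apply li_sum
  intro σ _
  apply li_mul_left (lr_intCast M _)
  rw [li_prod_iff _ _ (fun i _ => hN _ _)]
  exact ⟨k, Finset.mem_univ _, h _⟩

theorem fact_prod {r : ℕ} (p : ℕ) (f : Fin r → ℕ) (hf : ∀ i, f i ≠ 0) :
    (∏ i, f i).factorization p = ∑ i, (f i).factorization p := by
  rw [Nat.factorization_prod (fun i _ => hf i), Finsupp.finsetSum_apply]


/-- Let p be a prime, M a maximal ideal of the algebraic integers containing p, and D a subgroup of the finite group G. Let x₁, …, x_r be pairwise non-conjugate elements of G such that D is a Sylow p-subgroup of the centralizer of each xᵢ, and such that for any conjugates g of some xᵢ and h of some xⱼ the element g h⁻¹ is never a non-identity p-element. Then there are r distinct p-blocks B₁, …, B_r of G, each having D as a defect group, such that for every choice of characters χᵢ ∈ Bᵢ of height zero the determinant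 of the r × r matrix (χᵢ(xⱼ)) does not lie in the local ideal at M. -/
theorem result {G : Type*} [Group G] [Finite G] (p : ℕ) [Fact p.Prime] (M : Ideal Cfsg.AlgInt) (hM : Cfsg.IsPModular p M) (D : Subgroup G) {r : ℕ} (x : Fin r → G) (hx : ∀ i j : Fin r, IsConj (x i) (x j) → i = j) (hD : ∀ i : Fin r, ∃ S : Sylow p ↥(Subgroup.centralizer ({x i} : Set G)), (S : Subgroup ↥(Subgroup.centralizer ({x i} : Set G))).map (Subgroup.centralizer ({x i} : Set G)).subtype = D) (hsep : ∀ i j : Fin r, ∀ g h : G, IsConj (x i) g → IsConj (x j) h → ∀ k : ℕ, 0 < k → orderOf (g * h⁻¹) ≠ p ^ k) : ∃ B : Fin r → Set (Cfsg.IrrCharacter G), Function.Injective B ∧ (∀ i : Fin r, Cfsg.IsPBlock M (B i) ∧ Cfsg.IsDefectGroup p M (B i) D) ∧ ∀ χ : Fin r → Cfsg.IrrCharacter G, (∀ i : Fin r, χ i ∈ B i ∧ Cfsg.blockHeight p (B i) (χ i : G → ℂ) = 0) → ¬ Cfsg.MemLocalIdeal M (Matrix.det (Matrix.of fun i j : Fin r => (χ i : G → ℂ) (x j))) := by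
  classical
  have := Fintype.ofFinite G
  have := Fintype.ofFinite (IrrCharacter G)
  have hpr := hM.2.1.isPrime
  have hpp := hM.1
  let P : Sylow p G := default
  obtain ⟨m, hm, hexp⟩ := char_expand (isChar_ind (P : Subgroup G) (isChar_one (G := (P : Subgroup G))))
  have hDs : ∀ i, Cfsg.Agent.L.SylIn p D (C1 (x i)) := by
    intro i
    obtain ⟨S, hS⟩ := hD i
    rw [← hS]
    exact Cfsg.Agent.L.sylIn_of_sylow S
  let A : Matrix (Fin r) (IrrCharacter G) ℂ := fun i χ => centralChar (χ : G → ℂ) (x i)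
  let C : Matrix (IrrCharacter G) (Fin r) ℂ := fun χ j => (m χ : ℂ) * conj ((χ : G → ℂ) (x j))
  have hconjlr : ∀ (χ : IrrCharacter G) (g : G), MemLocalRing M (conj ((χ : G → ℂ) g)) := by
    intro χ g
    rw [conj_char (irr_isChar χ.2)]
    exact lr_char χ.2 _
  have hAlr : ∀ i j, MemLocalRing M (A i j) := fun i j => lr_centralChar j.2 _
  have hClr : ∀ i j, MemLocalRing M (C i j) := fun i j => lr_mul (lr_natCast M _) (hconjlr _ _)
  have hAC : A * C = Matrix.diagonal (fun _ => ((P : Subgroup G).index : ℂ)) := by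
    ext i j
    rw [Matrix.mul_apply, Matrix.diagonal_apply]
    have h1 := key p P m hexp (x i) (x j) (fun g hg k hk => hsep i j g (x j) hg (IsConj.refl _) k hk)
    simp only [A, C]
    rw [h1]
    by_cases hij : i = j
    · rw [if_pos hij, if_pos (by rw [hij])]
    · rw [if_neg hij, if_neg (fun h => hij (hx i j h))]
  have hdetAC : ¬ MemLocalIdeal M (A * C).det := by
    rw [hAC, Matrix.det_diagonal, Finset.prod_const, ← Nat.cast_pow, li_natCast_iff hM]
    exact fun h => P.not_dvd_index (hpp.dvd_of_dvd_pow h)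
  obtain ⟨e, he, hdA, hdC⟩ := exists_minors A C hAlr hClr hdetAC
  have hdAt : ¬ MemLocalIdeal M (Matrix.det (Matrix.of fun i j : Fin r => centralChar (e i : G → ℂ) (x j))) := by
    rw [← Matrix.det_transpose]
    exact hdA
  -- the class sizes
  set a := (Nat.card G).factorization p with ha
  set d := (Nat.card D).factorization p with hd
  have hcd : ∀ j, (C1 (x j)).index.factorization p = a - d ∧ d ≤ a := by
    intro j
    have h1 := fact_index (p := p) (x j)
    have h2 := sylIn_card hpp (hDs j)
    have h3 : d = (Nat.card (C1 (x j))).factorization p := by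
      rw [hd, h2, Nat.factorization_pow, Finsupp.smul_apply, hpp.factorization_self, smul_eq_mul, mul_one]
    omega
  have hcardD : ∀ _ : Fin r, Nat.card D = p ^ d := by
    intro j
    have h2 := sylIn_card hpp (hDs j)
    rw [hd, h2, Nat.factorization_pow, Finsupp.smul_apply, hpp.factorization_self, smul_eq_mul, mul_one]
  have h1 : ∀ k, ∃ i, ¬ MemLocalIdeal M (centralChar (e k : G → ℂ) (x i)) := by
    intro k
    by_contra hcon
    push Not at hcon
    exact hdA (li_det_col _ (fun i j => hAlr _ _) k hcon)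
  -- distinct blocks
  have hinj : Function.Injective (fun k => blockOf M (e k : G → ℂ)) := by
    intro k l hkl
    by_contra hne
    apply hdA
    have hsame : SameBlock M (e k : G → ℂ) (e l : G → ℂ) := by
      have h2 : e l ∈ blockOf M (e l : G → ℂ) := mem_blockOf_self _
      have h3 : blockOf M (e k : G → ℂ) = blockOf M (e l : G → ℂ) := hkl
      rw [← h3] at h2
      exact h2
    let N' : Matrix (Fin r) (Fin r) ℂ := fun i j => A i (e (if j = k then l else j))
    have h2 : N'.det = 0 := by
      apply Matrix.det_zero_of_column_eq hne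
      intro i
      show A i (e (if k = k then l else k)) = A i (e (if l = k then l else l))
      rw [if_pos rfl]
      split_ifs <;> rfl
    have h3 := li_det_sub (M := M) (A.submatrix id e) N' (fun i j => hAlr _ _) (fun i j => hAlr _ _) (by
      intro i j
      simp only [N', Matrix.submatrix_apply, id_eq]
      split_ifs with h4
      · rw [h4]; exact hsame (x i)
      · rw [sub_self]; exact li_zero M)
    rw [h2, sub_zero] at h3
    exact h3
  -- defect groups
  have hdef : ∀ k, ∃ E : Subgroup G, ∃ g : G, ∃ i : Fin r, IsDefectGroup p M (blockOf M (e k : G → ℂ)) E ∧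
      E ≤ C1 (g * x i * g⁻¹) := by
    intro k
    obtain ⟨E, hE⟩ := exists_isDefectGroup hM (isPBlock_blockOf (M := M) (e k))
    obtain ⟨i, hi⟩ := h1 k
    obtain ⟨y, hy, hEy⟩ := exists_conj_centralizes hM (isPBlock_blockOf (M := M) (e k)) hE (mem_blockOf_self _) hi
    obtain ⟨g, rfl⟩ := isConj_iff.mp hy
    exact ⟨E, g, i, hE, hEy⟩
  choose E g i hE hEg using hdef
  have hEle : ∀ k, blockDefect p (blockOf M (e k : G → ℂ)) ≤ d := by
    intro k
    have h2 := (hDs (i k)).cj (g k)
    rw [cj_C1] at h2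
    have h3 := h2.card_le (Cfsg.Agent.H11.IsDefectGroup.isPGroup hM (hE k)) (hEg k)
    rw [Cfsg.Agent.L.card_cj, hcardD k, card_defect hM (isPBlock_blockOf (M := M) (e k)) (hE k)] at h3
    exact (Nat.pow_le_pow_iff_right hpp.one_lt).mp h3
  have hdegge : ∀ k, a - d ≤ (charDegree (e k : G → ℂ)).factorization p := by
    intro k
    have h2 := hEle k
    unfold blockDefect at h2
    rw [← ha] at h2
    have h3 := sInf_le_fact (p := p) (mem_blockOf_self (M := M) (e k))
    have h4 := (hcd k).2
    omega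
  -- valuations
  have hprod0 : (∏ j, (C1 (x j)).index) ≠ 0 :=
    Finset.prod_ne_zero_iff.mpr (fun j _ => Subgroup.index_ne_zero_of_finite)
  have hprod1 : ∀ χ : Fin r → IrrCharacter G, (∏ j, charDegree (χ j : G → ℂ)) ≠ 0 := fun χ =>
    Finset.prod_ne_zero_iff.mpr (fun j _ => (charDegree_pos (χ j).2).ne')
  have hdeg : ∀ k, (charDegree (e k : G → ℂ)).factorization p = a - d := by
    intro k
    refine le_antisymm ?_ (hdegge k)
    by_contra hlt
    rw [not_le] at hlt
    apply hdC
    have h2 : C.submatrix e id = Matrix.of fun i j => (m (e i) : ℂ) *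
        ((Matrix.of fun i j : Fin r => (e i : G → ℂ) (x j)).map conj) i j := by
      ext i j; rfl
    rw [h2, Matrix.det_mul_column]
    apply li_mul_left (lr_prod _ _ fun _ _ => lr_natCast M _)
    have h3 : ((Matrix.of fun i j : Fin r => (e i : G → ℂ) (x j)).map conj).det
        = conj ((Matrix.of fun i j : Fin r => (e i : G → ℂ) (x j)).det) := by
      rw [RingHom.map_det]; rfl
    rw [h3, det_char_eq, map_mul, map_div₀, Complex.conj_natCast, Complex.conj_natCast]
    apply li_mul_right
    · rw [li_natDiv_iff hM (hprod1 e) hprod0, fact_prod p _ (fun i => Subgroup.index_ne_zero_of_finite),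
        fact_prod p _ (fun i => (charDegree_pos (e i).2).ne')]
      simp only [(hcd _).1]
      apply Finset.sum_lt_sum (fun i _ => hdegge i)
      exact ⟨k, Finset.mem_univ _, hlt⟩
    · rw [RingHom.map_det]
      apply lr_det
      intro i j
      apply lr_int
      exact (Cfsg.Agent.H27.centralChar_isIntegral (e i).2 (x j)).map (conj : ℂ →+* ℂ).toIntAlgHom
  have hsInf : ∀ k, sInf ((fun χ : IrrCharacter G => (charDegree (χ : G → ℂ)).factorization p) ''
      (blockOf M (e k : G → ℂ))) = a - d := by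
    intro k
    have h2 := hEle k
    unfold blockDefect at h2
    rw [← ha] at h2
    have h3 := sInf_le_fact (p := p) (mem_blockOf_self (M := M) (e k))
    rw [hdeg k] at h3
    have h4 := (hcd k).2
    omega
  refine ⟨fun k => blockOf M (e k : G → ℂ), hinj, fun k => ⟨isPBlock_blockOf _, ?_⟩, ?_⟩
  · have h2 := (hDs (i k)).cj (g k)
    rw [cj_C1] at h2
    have h3 : Nat.card (Cfsg.Agent.L.cj (g k) D) ≤ Nat.card (E k) := by
      rw [Cfsg.Agent.L.card_cj, hcardD k, card_defect hM (isPBlock_blockOf (M := M) (e k)) (hE k)]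
      apply Nat.pow_le_pow_right hpp.pos
      unfold blockDefect
      rw [hsInf k, ← ha]
      have h4 := (hcd k).2
      omega
    have h4 := h2.of_card_le (Cfsg.Agent.H11.IsDefectGroup.isPGroup hM (hE k)) (hEg k) h3
    obtain ⟨y, _, hy⟩ := h4.exists_conj_eq h2
    have h5 := Cfsg.Agent.H11.IsDefectGroup.cj hM (hE k) ((g k)⁻¹ * y)
    rw [← Cfsg.Agent.L.cj_cj, hy, Cfsg.Agent.L.cj_inv_cj] at h5
    exact h5
  · intro χ hχ
    rw [det_char_eq]
    have hdegχ : ∀ i, (charDegree (χ i : G → ℂ)).factorization p = a - d := by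
      intro i
      have h2 := (hχ i).2
      unfold blockHeight at h2
      rw [hsInf i] at h2
      have h3 := sInf_le_fact (p := p) (hχ i).1
      rw [hsInf i] at h3
      omega
    have h4 : (∏ i, charDegree (χ i : G → ℂ)).factorization p = (∏ j, (C1 (x j)).index).factorization p := by
      rw [fact_prod p _ (fun i => Subgroup.index_ne_zero_of_finite),
        fact_prod p _ (fun i => (charDegree_pos (χ i).2).ne')]
      simp only [(hcd _).1, hdegχ]
    have hlr := lr_det (M := M) (Matrix.of fun i j : Fin r => centralChar (χ i : G → ℂ) (x j))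
      (fun i j => lr_centralChar (χ i).2 _)
    rw [li_mul_iff (lr_natDiv hM (hprod1 χ) hprod0 h4.ge) hlr]
    rintro (h5 | h5)
    · exact not_li_natDiv hM (hprod1 χ) hprod0 h4.le h5
    · apply hdAt
      have h6 := li_det_sub (M := M) (Matrix.of fun i j : Fin r => centralChar (e i : G → ℂ) (x j))
        (Matrix.of fun i j : Fin r => centralChar (χ i : G → ℂ) (x j))
        (fun i j => lr_centralChar (e i).2 _)
        (fun i j => lr_centralChar (χ i).2 _) (fun i j => (hχ i).1 (x j))
      rw [li_congr h6]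
      exact h5

end Cfsg.Agent.S4741
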