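import Cfsg.Statements.S4742
import Cfsg.Agent.H27.Invert

set_option autoImplicit false
open Cfsg

namespace Cfsg.Agent.S4742

/-- Let p ≠ q be primes dividing the order of the finite group G, and suppose the centralizer of every non-identity p-element of G has order prime to q. Then either G has an irreducible character of p-defect zero, or for every non-identity q-element z of G there are conjugates g, h of z such that g h⁻¹ is a non-identity p-element. -/
theorem result {G : Type*} [Group G] [Finite G] (p q : ℕ) [Fact p.Prime] [Fact q.Prime] (hppq : p ≠ q) (hpG : p ∣ Nat.card G) (hqG : q ∣ Nat.card G) (hC : ∀ g : G, g ≠ 1 → (∃ k : ℕ, orderOf g = p ^ k) → ¬ q ∣ Nat.card ↥(Subgroup.centralizer ({g} : Set G))) : (∃ χ : Cfsg.IrrCharacter G, (Cfsg.charDegree (χ : G → ℂ)).factorization p = (Nat.card G).factorization p) ∨ ∀ z : G, z ≠ 1 → (∃ k : ℕ, orderOf z = q ^ k) → ∃ g h : G, IsConj z g ∧ IsConj z h ∧ g * h⁻¹ ≠ 1 ∧ ∃ k : ℕ, orderOf (g * h⁻¹) = p ^ k := by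
  classical
  have := Fintype.ofFinite G
  have hp : p.Prime := Fact.out
  have hq : q.Prime := Fact.out
  by_cases hdz : ∃ χ : Cfsg.IrrCharacter G, (Cfsg.charDegree (χ : G → ℂ)).factorization p = (Nat.card G).factorization p
  · exact Or.inl hdz
  right
  push Not at hdz
  intro z hz1 hzq
  have hz : ¬ p ∣ Nat.card (Subgroup.centralizer ({z} : Set G)) := by
    intro h
    obtain ⟨x, hx⟩ := exists_prime_orderOf_dvd_card' p h
    have hx' : orderOf (x : G) = p := by rw [← hx, Subgroup.orderOf_coe]
    have h1 : (x : G) * z = z * x := H27.mem_centralizer_singleton_comm.mp x.2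
    have hx1 : (x : G) ≠ 1 := by
      intro h2
      rw [h2, orderOf_one] at hx'
      exact hp.one_lt.ne hx'
    apply hC (x : G) hx1 ⟨1, by rw [hx', pow_one]⟩
    have h2 : z ∈ Subgroup.centralizer ({(x : G)} : Set G) := H27.mem_centralizer_singleton_comm.mpr h1.symm
    have h3 : orderOf (⟨z, h2⟩ : Subgroup.centralizer ({(x : G)} : Set G)) ∣
        Nat.card (Subgroup.centralizer ({(x : G)} : Set G)) := orderOf_dvd_natCard _
    rw [Subgroup.orderOf_mk] at h3
    obtain ⟨k, hk⟩ := hzq
    rcases Nat.eq_zero_or_pos k with h0 | h0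
    · rw [h0, pow_zero, orderOf_eq_one_iff] at hk
      exact absurd hk hz1
    · rw [hk] at h3
      exact (dvd_pow_self q h0.ne').trans h3
  obtain ⟨g, h, hg, hh, hne, hmem⟩ := H27.exists_pair_of_no_dz hdz z hz (default : Sylow p G)
  exact ⟨g, h, hg, hh, hne, H27.exists_orderOf_eq (default : Sylow p G).isPGroup' hmem⟩

end Cfsg.Agent.S4742
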