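import Cfsg.Statements.S4744
import Cfsg.Agent.H27.Invert

set_option autoImplicit false
open Cfsg

namespace Cfsg.Agent.S4744

open scoped Pointwise

/-- Let p be an odd prime and G a finite group of even order divisible by p in which the centralizer of every non-identity p-element has odd order. Then either G has an irreducible character of p-defect zero, or the normalizer of every Sylow p-subgroup P of G has even order and P is abelian. -/
theorem result {G : Type*} [Group G] [Finite G] (p : ℕ) [Fact p.Prime] (hp2 : p ≠ 2) (hpG : p ∣ Nat.card G) (h2G : 2 ∣ Nat.card G) (hC : ∀ g : G, g ≠ 1 → (∃ k : ℕ, orderOf g = p ^ k) → Odd (Nat.card ↥(Subgroup.centralizer ({g} : Set G)))) : (∃ χ : Cfsg.IrrCharacter G, (Cfsg.charDegree (χ : G → ℂ)).factorization p = (Nat.card G).factorization p) ∨ ∀ P : Sylow p G, Even (Nat.card ↥(Subgroup.normalizer ((P : Subgroup G) : Set G))) ∧ IsMulCommutative ↥(P : Subgroup G) := by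
  classical
  have := Fintype.ofFinite G
  by_cases hdz : ∃ χ : Cfsg.IrrCharacter G, (Cfsg.charDegree (χ : G → ℂ)).factorization p = (Nat.card G).factorization p
  · exact Or.inl hdz
  right
  push Not at hdz
  obtain ⟨t, ht⟩ := exists_prime_orderOf_dvd_card' 2 h2G
  obtain ⟨P, hP⟩ := H27.exists_sylow_inverted hC hpG hdz ht
  intro Q
  obtain ⟨g, hg⟩ := MulAction.exists_smul_eq G P Q
  have hmem : ∀ x : G, x ∈ (Q : Subgroup G) → ∃ y ∈ (P : Subgroup G), g * y * g⁻¹ = x := by
    intro x hx
    rw [← hg] at hx
    have hx' : x ∈ (MulAut.conj g • (P : Subgroup G)) := hx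
    rw [Subgroup.mem_pointwise_smul_iff_inv_smul_mem] at hx'
    refine ⟨_, hx', ?_⟩
    simp [MulAut.smul_def, mul_assoc]
  have hmem' : ∀ y ∈ (P : Subgroup G), g * y * g⁻¹ ∈ (Q : Subgroup G) := by
    intro y hy
    rw [← hg]
    change g * y * g⁻¹ ∈ (MulAut.conj g • (P : Subgroup G))
    rw [Subgroup.mem_pointwise_smul_iff_inv_smul_mem]
    simpa [MulAut.smul_def, mul_assoc] using hy
  set s := g * t * g⁻¹ with hs
  have hinv : ∀ x ∈ (Q : Subgroup G), s * x * s⁻¹ = x⁻¹ := by
    intro x hx
    obtain ⟨y, hy, rfl⟩ := hmem x hx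
    rw [hs]
    calc g * t * g⁻¹ * (g * y * g⁻¹) * (g * t * g⁻¹)⁻¹ = g * (t * y * t⁻¹) * g⁻¹ := by group
      _ = (g * y * g⁻¹)⁻¹ := by rw [hP y hy]; group
  constructor
  · have hso : orderOf s = 2 := by
      rw [← ht]
      have : s = MulAut.conj g t := by rw [MulAut.conj_apply]
      rw [this]
      exact orderOf_injective (MulAut.conj g).toMonoidHom (MulAut.conj g).injective t
    have hss : s * s = 1 := H27.orderOf_two_mul_self hso
    have hs' : s⁻¹ = s := inv_eq_of_mul_eq_one_left hss
    have hsn : s ∈ Subgroup.normalizer ((Q : Subgroup G) : Set G) := by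
      rw [Subgroup.mem_normalizer_iff]
      intro x
      constructor
      · intro hx
        rw [hinv x hx]; exact (Q : Subgroup G).inv_mem hx
      · intro hx
        have h1 := hinv _ hx
        have h2 : s * (s * x * s⁻¹) * s⁻¹ = x := by
          rw [hs']
          calc s * (s * x * s) * s = (s * s) * x * (s * s) := by group
            _ = x := by rw [hss]; group
        rw [h2] at h1
        rw [h1]
        exact (Q : Subgroup G).inv_mem hx
    have h1 : orderOf (⟨s, hsn⟩ : Subgroup.normalizer ((Q : Subgroup G) : Set G)) ∣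
        Nat.card (Subgroup.normalizer ((Q : Subgroup G) : Set G)) := orderOf_dvd_natCard _
    rw [Subgroup.orderOf_mk, hso] at h1
    exact even_iff_two_dvd.mpr h1
  · refine ⟨⟨fun a b => ?_⟩⟩
    apply Subtype.ext
    exact H27.comm_of_invert hinv a a.2 b b.2

end Cfsg.Agent.S4744
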