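import Cfsg.Statements.S4745
import Cfsg.Agent.H27.TrP3
import Cfsg.Agent.FT

set_option autoImplicit false
open Cfsg

namespace Cfsg.Agent.S4745

/-- Let p be an odd prime and G a finite group of even order divisible by p in which the centralizer of every non-identity p-element has odd order, and suppose G acts faithfully and transitively on a set with p ^ r elements, r ≥ 1. Then either G has an irreducible character of p-defect zero, or G is p-solvable and has an irreducible character of 2-defect zero. -/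
theorem result {G Ω : Type*} [Group G] [Finite G] [MulAction G Ω] [FaithfulSMul G Ω] [Fintype Ω] (htr : MulAction.IsPretransitive G Ω) (p : ℕ) [Fact p.Prime] (hp2 : p ≠ 2) (hpG : p ∣ Nat.card G) (h2G : 2 ∣ Nat.card G) (hC : ∀ g : G, g ≠ 1 → (∃ k : ℕ, orderOf g = p ^ k) → Odd (Nat.card ↥(Subgroup.centralizer ({g} : Set G)))) (r : ℕ) (hr : 1 ≤ r) (hΩ : Fintype.card Ω = p ^ r) : (∃ χ : Cfsg.IrrCharacter G, (Cfsg.charDegree (χ : G → ℂ)).factorization p = (Nat.card G).factorization p) ∨ (Cfsg.IsPSolvable p G ∧ ∃ χ : Cfsg.IrrCharacter G, (Cfsg.charDegree (χ : G → ℂ)).factorization 2 = (Nat.card G).factorization 2) := by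
  classical
  have := Fintype.ofFinite G
  by_cases hdz : ∃ χ : Cfsg.IrrCharacter G, (Cfsg.charDegree (χ : G → ℂ)).factorization p = (Nat.card G).factorization p
  · exact Or.inl hdz
  right
  push Not at hdz
  obtain ⟨t, ht⟩ := exists_prime_orderOf_dvd_card' 2 h2G
  have hTP : H27.TP G Ω p := ⟨hp2, hC, fun t ht => H27.exists_sylow_inverted hC hpG hdz ht,
    ⟨t, ht⟩, ⟨r, hr, by rw [Nat.card_eq_fintype_card, hΩ]⟩⟩
  have hFT : ∀ K : Subgroup G, Odd (Nat.card K) → Group.IsSolvable K := fun K hK => FT.odd_order hK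
  obtain ⟨P⟩ : Nonempty (Sylow p G) := inferInstance
  obtain ⟨h1, h2⟩ := hTP.normal hFT hdz P
  exact ⟨H27.isPSolvable_of_normal P h1, H27.exists_two_dz hp2 P h1 hpG h2 (hTP.comm P)⟩

end Cfsg.Agent.S4745
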