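import Cfsg.Statements.S4746
import Cfsg.Agent.H27.OddDeg
import Cfsg.Agent.H27.Invert

set_option autoImplicit false
open Cfsg

namespace Cfsg.Agent.S4746

/-- Let p be an odd prime and G a finite group of even order divisible by p in which the centralizer of every non-identity p-element has odd order. Then G has an irreducible character of p-defect zero or an irreducible character of even degree. -/
theorem result {G : Type*} [Group G] [Finite G] (p : ℕ) [Fact p.Prime] (hp2 : p ≠ 2) (hpG : p ∣ Nat.card G) (h2G : 2 ∣ Nat.card G) (hC : ∀ g : G, g ≠ 1 → (∃ k : ℕ, orderOf g = p ^ k) → Odd (Nat.card ↥(Subgroup.centralizer ({g} : Set G)))) : (∃ χ : Cfsg.IrrCharacter G, (Cfsg.charDegree (χ : G → ℂ)).factorization p = (Nat.card G).factorization p) ∨ ∃ χ : Cfsg.IrrCharacter G, Even (Cfsg.charDegree (χ : G → ℂ)) := by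
  classical
  have := Fintype.ofFinite G
  by_cases hdz : ∃ χ : Cfsg.IrrCharacter G, (Cfsg.charDegree (χ : G → ℂ)).factorization p = (Nat.card G).factorization p
  · exact Or.inl hdz
  right
  push Not at hdz
  obtain ⟨t, ht⟩ := exists_prime_orderOf_dvd_card' 2 h2G
  obtain ⟨P, hP⟩ := H27.exists_sylow_inverted hC hpG hdz ht
  have hPne : 1 < Nat.card (P : Subgroup G) := by
    obtain ⟨x, hx⟩ := exists_prime_orderOf_dvd_card' p
      (((Fact.out : p.Prime).dvd_iff_one_le_factorization Nat.card_pos.ne').mpr (by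
        rw [P.card_eq_multiplicity, Nat.Prime.factorization_pow (Fact.out), Finsupp.single_eq_same]
        exact ((Fact.out : p.Prime).dvd_iff_one_le_factorization Nat.card_pos.ne').mp hpG) :
        p ∣ Nat.card (P : Subgroup G))
    have h1 := orderOf_le_card (x := x)
    rw [hx] at h1
    exact lt_of_lt_of_le (Fact.out : p.Prime).one_lt h1
  obtain ⟨x, hx1⟩ : ∃ x : (P : Subgroup G), x ≠ 1 := by
    have : Nontrivial (P : Subgroup G) := Finite.one_lt_card_iff_nontrivial.mp hPne
    exact exists_ne 1
  have hxne : (x : G) ≠ 1 := fun h => hx1 (Subtype.ext h)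
  refine H27.exists_even_degree hxne (isConj_iff.mpr ⟨t, hP x x.2⟩) (hC x hxne ?_)
  obtain ⟨k, hk⟩ := IsPGroup.iff_orderOf.mp P.isPGroup' x
  exact ⟨k, by rw [Subgroup.orderOf_coe]; exact hk⟩

end Cfsg.Agent.S4746
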