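import Cfsg.Statements.S4748
import Cfsg.Agent.H27.TISolv3

set_option autoImplicit false
open scoped Pointwise
open Cfsg

namespace Cfsg.Agent.S4748

open Cfsg.Agent Cfsg.Agent.H27 Subgroup

/-- Let G be a finite p-solvable group whose Sylow p-subgroup P meets each conjugate g P g⁻¹ with g outside N_G(P) trivially, and let χ be a faithful character of G (χ g = χ 1 only for g = 1) whose degree d satisfies d² ≤ |P|. Then P is normal in G. -/
theorem result {G : Type*} [Group G] [Finite G] (p : ℕ) [Fact p.Prime] (hsolv : Cfsg.IsPSolvable p G) (P : Sylow p G) (hTI : ∀ g : G, g ∉ Subgroup.normalizer ((P : Subgroup G) : Set G) → (P : Subgroup G) ⊓ (MulAut.conj g • (P : Subgroup G)) = ⊥) (χ : G → ℂ) (hχ : Cfsg.IsCharacter G χ) (hfaith : ∀ g : G, χ g = χ 1 → g = 1) (hdeg : Cfsg.charDegree χ ^ 2 ≤ Nat.card ↥(P : Subgroup G)) : (P : Subgroup G).Normal := by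
  classical
  by_contra hPn
  have hex : ∃ g : G, g ∉ normalizer ((P : Subgroup G) : Set G) := by
    by_contra hcon
    push Not at hcon
    exact hPn (normalizer_eq_top_iff.mp (eq_top_iff.mpr fun g _ => hcon g))
  obtain ⟨g, hg⟩ := hex
  -- no nontrivial normal `p`-subgroup
  have hnop : ∀ N : Subgroup G, N.Normal → IsPGroup p N → N = ⊥ := by
    intro N hN hNp
    have h1 : N ≤ (P : Subgroup G) := (H1.le_pCore hN hNp).trans (H1.pCore_le_sylow P)
    rw [eq_bot_iff, ← hTI g hg]
    refine le_inf h1 ?_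
    intro x hx
    rw [Subgroup.mem_pointwise_smul_iff_inv_smul_mem]
    apply h1
    have h2 := hN.conj_mem x hx g⁻¹
    rw [← map_inv, MulAut.smul_def, MulAut.conj_apply]
    exact h2
  set K : Subgroup G := pPrimeCore p G with hK
  have hKn : K.Normal := inferInstance
  have hKcop : (Nat.card K).Coprime p := H1.pPrimeCore_coprime p G
  have hPp : IsPGroup p (P : Subgroup G) := P.isPGroup'
  have hcop : (Nat.card (P : Subgroup G)).Coprime (Nat.card K) := by
    obtain ⟨n, hn⟩ := IsPGroup.iff_card.mp hPp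
    rw [hn]
    exact (Nat.Coprime.pow_right n hKcop).symm
  have hPK : (P : Subgroup G) ≤ normalizer (K : Set G) := by
    rw [normalizer_eq_top_iff.mpr hKn]; exact le_top
  -- `P` does not centralize `K`
  have hne : ¬ (P : Subgroup G) ≤ centralizer (K : Set G) := by
    intro hcen
    have hnt : Nontrivial (G ⧸ K) := by
      rw [← not_subsingleton_iff_nontrivial]
      intro hs
      have hKt : K = ⊤ := by
        rw [← index_eq_one]
        exact Nat.card_eq_one_iff_unique.mpr ⟨hs, inferInstance⟩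
      apply hPn
      have h2 : (P : Subgroup G) = ⊥ := by
        apply Subgroup.card_eq_one.mp
        have h3 : Nat.card (P : Subgroup G) ∣ Nat.card K := by
          rw [hKt, Subgroup.card_top]; exact Subgroup.card_subgroup_dvd_card _
        exact Nat.eq_one_of_dvd_coprimes hcop (dvd_refl _) h3
      rw [h2]; infer_instance
    have h0 := H23.pCore_ne_bot_or (H23.isPSolvable_quotient K hsolv)
    rcases h0 with h0 | h0
    · -- the elements of order a power of `p` centralize `K`
      have hcen' : ∀ x : G, (∃ n : ℕ, x ^ p ^ n = 1) → ∀ k ∈ K, x * k = k * x := by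
        rintro x ⟨n, hn⟩ k hk
        have hxp : IsPGroup p (zpowers x) := by
          intro y
          obtain ⟨m, hm⟩ := mem_zpowers_iff.mp y.2
          refine ⟨n, Subtype.ext ?_⟩
          rw [Subgroup.coe_pow, ← hm, ← zpow_natCast, ← zpow_mul, mul_comm, zpow_mul,
            zpow_natCast, hn, one_zpow]
          rfl
        obtain ⟨Q, hQ⟩ := hxp.exists_le_sylow
        obtain ⟨h, hh⟩ := MulAction.exists_smul_eq G P Q
        have h1 : x ∈ (Q : Subgroup G) := hQ (mem_zpowers x)
        rw [← hh, Sylow.coe_subgroup_smul] at h1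
        have h2 : h⁻¹ * x * h ∈ (P : Subgroup G) := by
          have h3 := Subgroup.mem_pointwise_smul_iff_inv_smul_mem.mp h1
          rw [← map_inv, MulAut.smul_def, MulAut.conj_apply, inv_inv] at h3
          exact h3
        have h4 : h⁻¹ * k * h ∈ K := by
          have := hKn.conj_mem k hk h⁻¹
          rwa [inv_inv] at this
        have h5 := mem_centralizer_iff.mp (hcen h2) _ h4
        have h6 : h * (h⁻¹ * k * h * (h⁻¹ * x * h)) * h⁻¹ =
            h * (h⁻¹ * x * h * (h⁻¹ * k * h)) * h⁻¹ := by rw [h5]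
        have e1 : h * (h⁻¹ * k * h * (h⁻¹ * x * h)) * h⁻¹ = k * x := by group
        have e2 : h * (h⁻¹ * x * h * (h⁻¹ * k * h)) * h⁻¹ = x * k := by group
        rw [e1, e2] at h6
        exact h6.symm
      set Q₀ : Sylow p (pPrimePCore p G) := default with hQ₀
      have hmap := H23.map_sylow_pPrimePCore Q₀
      set Q : Subgroup G := (Q₀ : Subgroup (pPrimePCore p G)).map (pPrimePCore p G).subtype with hQ
      have hQp : IsPGroup p Q := Q₀.isPGroup'.map _
      have hpow : ∀ q ∈ Q, ∃ n : ℕ, q ^ p ^ n = 1 := by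
        intro q hq
        obtain ⟨n, hn⟩ := hQp ⟨q, hq⟩
        exact ⟨n, congrArg Subtype.val hn⟩
      have hQn : Q.Normal := by
        constructor
        intro q hq g
        have h1 : (QuotientGroup.mk' K) (g * q * g⁻¹) ∈ Q.map (QuotientGroup.mk' K) := by
          rw [hmap, map_mul, map_mul, map_inv]
          refine (inferInstance : (pCore p (G ⧸ K)).Normal).conj_mem _ ?_ _
          rw [← hmap]
          exact ⟨q, hq, rfl⟩
        obtain ⟨q', hq', hqq⟩ := h1
        have h2 : q'⁻¹ * (g * q * g⁻¹) ∈ K := by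
          rw [← QuotientGroup.eq]; exact hqq
        set k := q'⁻¹ * (g * q * g⁻¹) with hk
        obtain ⟨n, hn⟩ := hpow q hq
        obtain ⟨n', hn'⟩ := hpow q' hq'
        have hcomm : Commute q' k := hcen' q' ⟨n', hn'⟩ k h2
        have h3 : q' * k = g * q * g⁻¹ := by rw [hk]; group
        have h4 : (q' * k) ^ p ^ (n + n') = 1 := by
          rw [h3, conj_pow, pow_add, pow_mul, hn, one_pow]; group
        rw [hcomm.mul_pow, pow_add p, mul_comm (p ^ n), pow_mul q', hn', one_pow, one_mul] at h4
        have h5 : orderOf k ∣ p ^ n' * p ^ n := orderOf_dvd_of_pow_eq_one h4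
        have h6 : orderOf k ∣ Nat.card K := by
          have := orderOf_dvd_natCard (⟨k, h2⟩ : K)
          rwa [Subgroup.orderOf_mk] at this
        have h7 : orderOf k = 1 := by
          apply Nat.eq_one_of_dvd_coprimes _ h5 h6
          rw [← pow_add]
          exact (Nat.Coprime.pow_right _ hKcop).symm
        rw [orderOf_eq_one_iff] at h7
        rw [← h3, h7, mul_one]
        exact hq'
      have hQbot := hnop Q hQn hQp
      apply h0
      rw [← hmap, hQbot, Subgroup.map_bot]
    · exact h0 (H23.pPrimeCore_quotient_eq_bot p G)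
  obtain ⟨R, hRK, ⟨r, hr, hRr⟩, hPR, hPRne, hmin⟩ :=
    exists_min_act hPK hcop (H23.isSolvable_of_isPGroup hPp) hne
  have : Fact r.Prime := ⟨hr⟩
  have hcopR : (Nat.card (P : Subgroup G)).Coprime (Nat.card R) :=
    Nat.Coprime.of_dvd (dvd_refl _) (card_dvd_of_le hRK) hcop
  refine absurd hdeg (not_le_of_gt (card_lt_sq_of_min hRr hPR hcopR hPRne hmin ?_ hχ hfaith))
  -- the centralizer condition
  intro u hu hu1 x hx hxu
  have hxN : x ∈ normalizer ((P : Subgroup G) : Set G) := by
    by_contra hcon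
    have h1 := hTI x hcon
    have h2 : u ∈ (P : Subgroup G) ⊓ (MulAut.conj x • (P : Subgroup G)) := by
      refine Subgroup.mem_inf.mpr ⟨hu, ?_⟩
      rw [Subgroup.mem_pointwise_smul_iff_inv_smul_mem, ← map_inv, MulAut.smul_def,
        MulAut.conj_apply]
      have : x⁻¹ * u * x⁻¹⁻¹ = u := by rw [inv_inv, mul_assoc, ← hxu]; group
      rw [this]; exact hu
    rw [h1, mem_bot] at h2
    exact hu1 h2
  rw [mem_centralizer_iff]
  intro v hv
  have hdisj : (P : Subgroup G) ⊓ R = ⊥ := H23.inf_eq_bot_of_coprime hcopR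
  have h3 : v * x * v⁻¹ * x⁻¹ ∈ (P : Subgroup G) ⊓ R := by
    refine Subgroup.mem_inf.mpr ⟨?_, ?_⟩
    · have h4 := (mem_normalizer_iff.mp hxN v⁻¹).mp ((P : Subgroup G).inv_mem hv)
      have := (P : Subgroup G).mul_mem hv h4
      rwa [← mul_assoc, ← mul_assoc] at this
    · exact R.mul_mem ((mem_normalizer_iff.mp (hPR hv) x).mp hx) (R.inv_mem hx)
  rw [hdisj, mem_bot, mul_inv_eq_one, mul_inv_eq_iff_eq_mul] at h3
  exact h3

end Cfsg.Agent.S4748
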