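import Cfsg.Statements.S4750
import Cfsg.Agent.H3.Core3

set_option autoImplicit false
set_option linter.all false
open scoped Pointwise
open Cfsg

namespace Cfsg.Agent.S4750

open Representation Classical

/-- the socle lemma -/
theorem soc {P : Type*} [Group P] [Fintype P] {p : ℕ} [Fact p.Prime] (hP : IsPGroup p P) {k : Type*} [Field k] [CharP k p]
    (a : P → k) (ha : a ≠ 0) : ∃ (b : P → ℕ) (l : k), l ≠ 0 ∧ ∀ x, ∑ y, (b y : k) * a (y⁻¹ * x) = l := by
  letI : Algebra (ZMod p) k := ZMod.algebra k p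
  let S : Submodule (ZMod p) (P → k) := Submodule.span (ZMod p) (Set.range (fun y : P => fun x => a (y⁻¹ * x)))
  haveI : Module.Finite (ZMod p) S := Module.Finite.span_of_finite (ZMod p) (Set.finite_range _)
  haveI : Finite S := Module.finite_of_finite (ZMod p)
  have hS : ∀ (y : P) (s : P → k), s ∈ S → (fun x => s (y⁻¹ * x)) ∈ S := by
    intro y s hs
    refine Submodule.span_induction (p := fun s _ => (fun x => s (y⁻¹ * x)) ∈ S) ?_ ?_ ?_ ?_ hs
    · rintro _ ⟨z, rfl⟩
      apply Submodule.subset_span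
      refine ⟨y * z, ?_⟩
      funext x
      simp only [mul_inv_rev, mul_assoc]
    · exact S.zero_mem
    · intro s t _ _ h1 h2
      exact S.add_mem h1 h2
    · intro c s _ h1
      exact S.smul_mem c h1
  letI : MulAction P S :=
    { smul := fun y s => ⟨fun x => s.1 (y⁻¹ * x), hS y s.1 s.2⟩
      one_smul := by
        intro s
        apply Subtype.ext
        funext x
        show s.1 (1⁻¹ * x) = s.1 x
        rw [inv_one, one_mul]
      mul_smul := by
        intro y z s
        apply Subtype.ext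
        funext x
        show s.1 ((y * z)⁻¹ * x) = s.1 (z⁻¹ * (y⁻¹ * x))
        rw [mul_inv_rev, mul_assoc] }
  have hne : ∃ s : S, s ≠ 0 := by
    refine ⟨⟨a, ?_⟩, fun h => ha (congrArg Subtype.val h)⟩
    apply Submodule.subset_span
    refine ⟨1, ?_⟩
    funext x
    simp
  have hdvd : p ∣ Nat.card S := by
    obtain ⟨s, hs⟩ := hne
    have h1 : addOrderOf s = p := by
      apply addOrderOf_eq_prime _ hs
      have : p • s = ((p : ZMod p)) • s := (Nat.cast_smul_eq_nsmul (ZMod p) p s).symm
      rw [this, ZMod.natCast_self, zero_smul]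
    have h2 := addOrderOf_dvd_natCard s
    rwa [h1] at h2
  obtain ⟨c, hc, hc0⟩ := hP.exists_fixed_point_of_prime_dvd_card_of_fixed_point S hdvd (a := 0) (by
    intro y
    apply Subtype.ext
    funext x
    rfl)
  have hcc : ∀ x, c.1 x = c.1 1 := by
    intro x
    have h1 := congrArg (fun s : S => s.1 1) (hc x⁻¹)
    have h2 : c.1 ((x⁻¹)⁻¹ * 1) = c.1 1 := h1
    rw [inv_inv, mul_one] at h2
    exact h2
  obtain ⟨β, hβ⟩ := (Submodule.mem_span_range_iff_exists_fun (ZMod p)).1 c.2
  refine ⟨fun y => (β y).val, c.1 1, ?_, ?_⟩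
  · intro h0
    apply hc0
    apply Subtype.ext
    funext x
    rw [hcc x, h0]
    rfl
  · intro x
    rw [← hcc x, ← hβ, Finset.sum_apply]
    apply Finset.sum_congr rfl
    intro y _
    show ((β y).val : k) * a (y⁻¹ * x) = β y • a (y⁻¹ * x)
    rw [Algebra.smul_def]
    congr 1
    conv_rhs => rw [← ZMod.natCast_zmod_val (β y)]
    rw [map_natCast]

theorem exists_val (p : ℕ) [Fact p.Prime] : ∃ B : ValuationSubring ℂ, (p : ℂ) ∈ B.nonunits := by
  let A : Subring ℂ := (Int.castRingHom ℂ).range
  let q : A := ⟨(p : ℂ), ⟨(p : ℤ), by simp⟩⟩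
  have hI : Ideal.span {q} ≠ ⊤ := by
    intro h
    rw [Ideal.span_singleton_eq_top] at h
    obtain ⟨⟨_, ⟨t, rfl⟩⟩, ht⟩ := isUnit_iff_exists_inv.1 h
    have h1 : (p : ℂ) * (t : ℂ) = 1 := congrArg Subtype.val ht
    have h2 : (p : ℤ) * t = 1 := by exact_mod_cast h1
    have h3 : (p : ℤ) ∣ 1 := ⟨t, h2.symm⟩
    have h4 := Int.natAbs_dvd_natAbs.2 h3
    simp at h4
    exact (Fact.out : p.Prime).ne_one h4
  obtain ⟨B, -, hB⟩ := Ideal.image_subset_nonunits_valuationSubring _ hI
  exact ⟨B, hB ⟨q, Ideal.subset_span rfl, rfl⟩⟩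

theorem key {G : Type*} [Group G] [Fintype G] {W : Type*} [AddCommGroup W] [Module ℂ W] (τ : Representation ℂ G W)
    {p : ℕ} [Fact p.Prime] (P : Subgroup G) [Fintype P] (hP : IsPGroup p P) (w m : W) {ι : Type*} (R : Finset ι) (u : ι → G)
    (hm : m = ∑ r ∈ R, τ (u r) w) (hw : w ≠ 0) (hN : ∑ x : P, τ x m = -w) : LinearIndependent ℂ (fun x : P => τ x m) := by
  by_contra hdep
  rw [Fintype.not_linearIndependent_iff] at hdep
  obtain ⟨g, hg, i0, hi0⟩ := hdep
  obtain ⟨B, hB⟩ := exists_val p
  obtain ⟨y, -, hy⟩ := Finset.exists_max_image (Finset.univ : Finset P) (fun x => B.valuation (g x)) ⟨i0, Finset.mem_univ _⟩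
  have hgy : g y ≠ 0 := by
    intro h0
    have h1 := hy i0 (Finset.mem_univ _)
    rw [h0, map_zero, le_zero_iff, map_eq_zero] at h1
    exact hi0 h1
  have hmem : ∀ x, g x / g y ∈ B := by
    intro x
    rw [← B.valuation_le_one_iff, map_div₀]
    exact div_le_one_of_le₀ (hy x (Finset.mem_univ _)) zero_le'
  let c : P → B := fun x => ⟨g x / g y, hmem x⟩
  have hcy : c y = 1 := Subtype.ext (div_self hgy)
  have hc : ∑ x : P, ((c x : B) : ℂ) • τ x m = 0 := by
    have : ∑ x : P, ((c x : B) : ℂ) • τ x m = (g y)⁻¹ • ∑ x : P, g x • τ x m := by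
      rw [Finset.smul_sum]
      apply Finset.sum_congr rfl
      intro x _
      rw [smul_smul]
      congr 1
      show g x / g y = _
      rw [div_eq_inv_mul]
    rw [this, hg, smul_zero]
  -- residue field
  haveI : CharP (IsLocalRing.ResidueField B) p := by
    rw [CharP.charP_iff_prime_eq_zero (Fact.out : p.Prime)]
    have h1 : ((p : B)) ∈ IsLocalRing.maximalIdeal B := by
      rw [B.valuation_lt_one_iff]
      rw [ValuationSubring.mem_nonunits_iff] at hB
      exact_mod_cast hB
    have h2 := (IsLocalRing.residue_eq_zero_iff (p : B)).2 h1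
    rw [map_natCast] at h2
    exact h2
  obtain ⟨b, l, hl, hbl⟩ := soc hP (fun x => IsLocalRing.residue B (c x)) (by
    intro h
    have h1 := congrFun h y
    simp only [hcy, map_one, Pi.zero_apply] at h1
    exact one_ne_zero h1)
  let d : P → B := fun z => ∑ t : P, (b t : B) * c (t⁻¹ * z)
  have hd : ∀ z, IsLocalRing.residue B (d z) = l := by
    intro z
    rw [← hbl z, map_sum]
    apply Finset.sum_congr rfl
    intro t _
    rw [map_mul, map_natCast]
  have hdm : ∑ z : P, ((d z : B) : ℂ) • τ z m = 0 := by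
    have h1 : ∀ t : P, ∑ z : P, ((c (t⁻¹ * z) : B) : ℂ) • τ z m = 0 := by
      intro t
      rw [← Equiv.sum_comp (Equiv.mulLeft t)]
      have : ∀ x : P, ((c (t⁻¹ * (Equiv.mulLeft t x)) : B) : ℂ) • τ ((Equiv.mulLeft t x : P) : G) m = τ t (((c x : B) : ℂ) • τ x m) := by
        intro x
        rw [Equiv.coe_mulLeft, inv_mul_cancel_left, map_smul, Subgroup.coe_mul, map_mul]
        rfl
      rw [Finset.sum_congr rfl (fun x _ => this x), ← map_sum, hc, map_zero]
    have h2 : ∀ z : P, ((d z : B) : ℂ) • τ z m = ∑ t : P, (b t : ℂ) • (((c (t⁻¹ * z) : B) : ℂ) • τ z m) := by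
      intro z
      have : ((d z : B) : ℂ) = ∑ t : P, (b t : ℂ) * ((c (t⁻¹ * z) : B) : ℂ) := by
        show B.subtype (d z) = _
        rw [map_sum]
        apply Finset.sum_congr rfl
        intro t _
        rw [map_mul, map_natCast]
        rfl
      rw [this, Finset.sum_smul]
      apply Finset.sum_congr rfl
      intro t _
      rw [mul_smul]
    rw [Finset.sum_congr rfl (fun z _ => h2 z), Finset.sum_comm]
    apply Finset.sum_eq_zero
    intro t _
    rw [← Finset.smul_sum, h1, smul_zero]
  have hunit : IsUnit (d 1) := by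
    by_contra hnu
    apply hl
    rw [← hd 1, IsLocalRing.residue_eq_zero_iff]
    exact hnu
  obtain ⟨v, hv⟩ := hunit.exists_left_inv
  have hμ : ∀ z, d z - d 1 ∈ IsLocalRing.maximalIdeal B := by
    intro z
    rw [← IsLocalRing.residue_eq_zero_iff, map_sub, hd, hd, sub_self]
  letI : Module B W := Module.compHom W (B.subtype : B →+* ℂ)
  have hsm : ∀ (s : B) (v : W), s • v = (s : ℂ) • v := fun s v => rfl
  let M : Submodule B W := Submodule.span B (Set.range (fun g : G => τ g w))
  have hgen : ∀ g : G, τ g w ∈ M := fun g => Submodule.subset_span ⟨g, rfl⟩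
  have hwz : w = ∑ z : P, ∑ r ∈ R, (v * (d z - d 1) : B) • τ (z * u r) w := by
    have e1 : ∑ z : P, ((d z : B) : ℂ) • τ z m = ((d 1 : B) : ℂ) • (-w) + ∑ z : P, ((d z - d 1 : B) : ℂ) • τ z m := by
      rw [← hN, Finset.smul_sum, ← Finset.sum_add_distrib]
      apply Finset.sum_congr rfl
      intro z _
      rw [← add_smul]
      congr 1
      push_cast
      ring
    rw [hdm] at e1
    have e2 : ((d 1 : B) : ℂ) • w = ∑ z : P, ((d z - d 1 : B) : ℂ) • τ z m := by
      rw [smul_neg] at e1
      rw [eq_comm, neg_add_eq_zero] at e1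
      exact e1
    have e3 : w = ((v : B) : ℂ) • (((d 1 : B) : ℂ) • w) := by
      rw [smul_smul]
      have : ((v : B) : ℂ) * ((d 1 : B) : ℂ) = 1 := by
        have := congrArg (fun s : B => (s : ℂ)) hv
        simpa using this
      rw [this, one_smul]
    refine e3.trans ?_
    rw [e2, Finset.smul_sum]
    apply Finset.sum_congr rfl
    intro z _
    have e4 : τ z m = ∑ r ∈ R, τ (z * u r) w := by
      rw [hm, map_sum]
      apply Finset.sum_congr rfl
      intro r _
      rw [map_mul]; rfl
    rw [e4, smul_smul, Finset.smul_sum]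
    apply Finset.sum_congr rfl
    intro r _
    rw [hsm]
    congr 1
  have hM : M ≤ IsLocalRing.maximalIdeal B • M := by
    rw [Submodule.span_le]
    rintro _ ⟨h, rfl⟩
    show τ h w ∈ IsLocalRing.maximalIdeal B • M
    have : τ h w = ∑ z : P, ∑ r ∈ R, (v * (d z - d 1) : B) • τ (h * (z * u r)) w := by
      conv_lhs => rw [hwz]
      rw [map_sum]
      apply Finset.sum_congr rfl
      intro z _
      rw [map_sum]
      apply Finset.sum_congr rfl
      intro r _
      rw [hsm, map_smul, map_mul τ h]; rfl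
    rw [this]
    apply Submodule.sum_mem
    intro z _
    apply Submodule.sum_mem
    intro r _
    exact Submodule.smul_mem_smul (Ideal.mul_mem_left _ _ (hμ z)) (hgen _)
  have hbot := Submodule.eq_bot_of_le_smul_of_le_jacobson_bot (IsLocalRing.maximalIdeal B) M
    (Submodule.fg_span (Set.finite_range _)) hM (IsLocalRing.maximalIdeal_le_jacobson _)
  have := hgen 1
  rw [hbot, Submodule.mem_bot, map_one] at this
  exact hw this

/-- representatives of free orbits -/
theorem orb {P X W : Type*} [Group P] [Fintype P] [MulAction P X] [AddCommMonoid W] (f : X → W) :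
    ∀ (n : ℕ) (S : Finset X), S.card = n → (∀ (x : P), ∀ c ∈ S, x • c ∈ S) → (∀ c ∈ S, ∀ x : P, x • c = c → x = 1) →
      ∃ R : Finset X, R ⊆ S ∧ ∑ c ∈ S, f c = ∑ r ∈ R, ∑ x : P, f (x • r) := by
  intro n
  induction n using Nat.strong_induction_on with
  | _ n ih =>
    intro S hn hS hfree
    rcases S.eq_empty_or_nonempty with rfl | ⟨c, hc⟩
    · exact ⟨∅, le_rfl, by simp⟩
    · let O : Finset X := Finset.univ.image (fun x : P => x • c)
      have hO : O ⊆ S := by
        intro y hy
        obtain ⟨x, -, rfl⟩ := Finset.mem_image.1 hy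
        exact hS x c hc
      have hcO : c ∈ O := Finset.mem_image.2 ⟨1, Finset.mem_univ _, one_smul _ _⟩
      have hlt : (S \ O).card < n := by
        rw [← hn]
        apply Finset.card_lt_card
        refine ⟨Finset.sdiff_subset, fun h => ?_⟩
        exact (Finset.mem_sdiff.1 (h hc)).2 hcO
      obtain ⟨R, hR, hsum⟩ := ih _ hlt (S \ O) rfl (by
        intro x y hy
        rw [Finset.mem_sdiff] at hy ⊢
        refine ⟨hS x y hy.1, fun h => hy.2 ?_⟩
        obtain ⟨z, -, hz⟩ := Finset.mem_image.1 h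
        refine Finset.mem_image.2 ⟨x⁻¹ * z, Finset.mem_univ _, ?_⟩
        rw [mul_smul, hz, inv_smul_smul]) (fun y hy => hfree y (Finset.mem_sdiff.1 hy).1)
      refine ⟨insert c R, ?_, ?_⟩
      · intro y hy
        rcases Finset.mem_insert.1 hy with rfl | h
        · exact hc
        · exact (Finset.mem_sdiff.1 (hR h)).1
      · have hcR : c ∉ R := fun h => (Finset.mem_sdiff.1 (hR h)).2 hcO
        rw [Finset.sum_insert hcR, ← hsum, ← Finset.sum_sdiff hO, add_comm]
        congr 1
        rw [Finset.sum_image]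
        intro x _ y _ hxy
        have : (y⁻¹ * x) • c = c := by
          rw [mul_smul]
          have hxy' : x • c = y • c := hxy
          rw [hxy', inv_smul_smul]
        have := hfree c hc _ this
        exact (inv_mul_eq_one.1 this).symm

theorem inv_eq {G : Type*} [Group G] [Fintype G] {W : Type*} [AddCommGroup W] [Module ℂ W] [FiniteDimensional ℂ W]
    (τ : Representation ℂ G W) (p : ℕ) [Fact p.Prime] (P : Sylow p G)
    (hTI : ∀ g : G, g ∉ Subgroup.normalizer ((P : Subgroup G) : Set G) → (P : Subgroup G) ⊓ (MulAut.conj g • (P : Subgroup G)) = ⊥)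
    (H : Subgroup G) (hH : Subgroup.normalizer ((P : Subgroup G) : Set G) ≤ H)
    (hdim : Module.finrank ℂ W ≤ Nat.card (P : Subgroup G)) (w0 : W) (hw0 : w0 ≠ 0) (hw0i : ∀ g, τ g w0 = w0)
    (w : W) (hw : ∀ h ∈ H, τ h w = w) : ∀ g, τ g w = w := by
  haveI : Fintype (P : Subgroup G) := Fintype.ofFinite _
  haveI : Fintype (G ⧸ H) := Fintype.ofFinite _
  have hPH : (P : Subgroup G) ≤ H := Subgroup.le_normalizer.trans hH
  let E : W →ₗ[ℂ] W := ∑ g : G, τ g
  have hE : ∀ v, E v = ∑ g : G, τ g v := fun v => by simp [E]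
  have hcard : (Fintype.card G : ℂ) ≠ 0 := by exact_mod_cast Fintype.card_ne_zero
  have hEi : ∀ g v, τ g (E v) = E v := by
    intro g v
    rw [hE, map_sum, ← Equiv.sum_comp (Equiv.mulLeft g) (fun h => τ h v)]
    apply Finset.sum_congr rfl
    intro h _
    rw [Equiv.coe_mulLeft, map_mul]; rfl
  have hEi' : ∀ g v, E (τ g v) = E v := by
    intro g v
    rw [hE, hE, ← Equiv.sum_comp (Equiv.mulRight g) (fun h => τ h v)]
    apply Finset.sum_congr rfl
    intro h _
    rw [Equiv.coe_mulRight, map_mul]; rfl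
  have hEfix : ∀ v, (∀ g, τ g v = v) → E v = (Fintype.card G : ℂ) • v := by
    intro v hv
    rw [hE, Finset.sum_congr rfl (fun g _ => hv g), Finset.sum_const, Finset.card_univ, Nat.cast_smul_eq_nsmul]
  let e : W := (Fintype.card G : ℂ)⁻¹ • E w
  have hei : ∀ g, τ g e = e := by
    intro g
    show τ g ((Fintype.card G : ℂ)⁻¹ • E w) = _
    rw [map_smul, hEi]
  let w' : W := w - e
  have hEw' : E w' = 0 := by
    show E (w - e) = 0
    rw [map_sub, hEfix e hei]
    show E w - (Fintype.card G : ℂ) • ((Fintype.card G : ℂ)⁻¹ • E w) = 0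
    rw [smul_smul, mul_inv_cancel₀ hcard, one_smul, sub_self]
  by_cases hw'0 : w' = 0
  · intro g
    have : w = e := sub_eq_zero.1 hw'0
    rw [this]
    exact hei g
  exfalso
  have hw'H : ∀ h ∈ H, τ h w' = w' := by
    intro h hh
    show τ h (w - e) = w - e
    rw [map_sub, hw h hh, hei]
  let f : G ⧸ H → W := fun c => τ c.out w'
  have hf : ∀ g : G, f (g : G ⧸ H) = τ g w' := by
    intro g
    obtain ⟨h, hh⟩ := QuotientGroup.mk_out_eq_mul H g
    show τ (Quotient.out (g : G ⧸ H)) w' = _
    rw [hh, map_mul]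
    show τ g (τ h w') = _
    rw [hw'H h h.2]
  have hfs : ∀ (g : G) (c : G ⧸ H), f (g • c) = τ g (f c) := by
    intro g c
    induction c using QuotientGroup.induction_on with
    | H a =>
      have : g • ((a : G) : G ⧸ H) = ((g * a : G) : G ⧸ H) := rfl
      rw [this, hf, hf, map_mul]; rfl
  have hs0 : ∑ c : G ⧸ H, f c = 0 := by
    have hsi : ∀ g, τ g (∑ c : G ⧸ H, f c) = ∑ c : G ⧸ H, f c := by
      intro g
      rw [map_sum, ← Equiv.sum_comp (MulAction.toPerm g) f]
      apply Finset.sum_congr rfl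
      intro c _
      exact (hfs g c).symm
    have h1 := hEfix _ hsi
    have h2 : E (∑ c : G ⧸ H, f c) = 0 := by
      rw [map_sum]
      apply Finset.sum_eq_zero
      intro c _
      show E (τ _ w') = 0
      rw [hEi', hEw']
    rw [h2] at h1
    exact (smul_eq_zero.1 h1.symm).resolve_left hcard
  let x0 : G ⧸ H := ((1 : G) : G ⧸ H)
  obtain ⟨R, hR, hsum⟩ := orb (P := (P : Subgroup G)) f _ (Finset.univ.erase x0) rfl (by
    intro x c hc
    rw [Finset.mem_erase] at hc ⊢
    refine ⟨fun h => hc.1 ?_, Finset.mem_univ _⟩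
    have : c = x⁻¹ • x0 := by rw [← h, inv_smul_smul]
    rw [this]
    show ((((x⁻¹ : (P : Subgroup G)) : G) * 1 : G) : G ⧸ H) = ((1 : G) : G ⧸ H)
    rw [QuotientGroup.eq]
    simpa using H.inv_mem (H.inv_mem (hPH x.2))) (by
    intro c hc x hx
    rw [Finset.mem_erase] at hc
    induction c using QuotientGroup.induction_on with
    | H a =>
      have hx' : (((x : G) * a : G) : G ⧸ H) = (a : G ⧸ H) := hx
      rw [eq_comm, QuotientGroup.eq] at hx'
      have hxa : a⁻¹ * (x : G) * a ∈ H := by simpa [mul_assoc] using hx'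
      have haH : a ∉ H := by
        intro h
        apply hc.1
        show (a : G ⧸ H) = ((1 : G) : G ⧸ H)
        rw [eq_comm, QuotientGroup.eq]
        simpa using h
      by_contra hx1
      -- conjugate into P inside H
      let y : H := ⟨a⁻¹ * (x : G) * a, hxa⟩
      have hyp : ∃ k : ℕ, orderOf y = p ^ k := by
        obtain ⟨k, hk⟩ := (IsPGroup.iff_orderOf.1 P.isPGroup') x
        refine ⟨k, ?_⟩
        rw [← hk, ← Subgroup.orderOf_coe, ← Subgroup.orderOf_coe x]
        show orderOf (a⁻¹ * (x : G) * a) = orderOf (x : G)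
        have : a⁻¹ * (x : G) * a = MulAut.conj a⁻¹ (x : G) := by simp [MulAut.conj_apply]
        rw [this]
        exact orderOf_injective (MulAut.conj a⁻¹).toMonoidHom (MulAut.conj a⁻¹).injective _
      have hzp : IsPGroup p (Subgroup.zpowers y) := by
        obtain ⟨k, hk⟩ := hyp
        apply IsPGroup.of_card (n := k)
        rw [Nat.card_zpowers, hk]
      obtain ⟨Q, hQ⟩ := hzp.exists_le_sylow
      let PH : Sylow p H := P.subtype hPH
      obtain ⟨h, hh⟩ := MulAction.exists_smul_eq H PH Q
      have hyQ : y ∈ (Q : Subgroup H) := hQ (Subgroup.mem_zpowers y)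
      rw [← hh] at hyQ
      have hyP : h⁻¹ * y * h ∈ (PH : Subgroup H) := by
        rw [Sylow.coe_subgroup_smul] at hyQ
        have := Subgroup.mem_pointwise_smul_iff_inv_smul_mem.1 hyQ
        simpa [MulAut.smul_def] using this
      have hyP' : (h : G)⁻¹ * (a⁻¹ * (x : G) * a) * (h : G) ∈ (P : Subgroup G) := hyP
      have hahn : a * h ∉ Subgroup.normalizer ((P : Subgroup G) : Set G) := by
        intro hn
        apply haH
        have := H.mul_mem (hH hn) (H.inv_mem h.2)
        simpa using this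
      have hbot := hTI _ hahn
      have hxin : (x : G) ∈ (P : Subgroup G) ⊓ (MulAut.conj (a * (h : G)) • (P : Subgroup G)) := by
        refine Subgroup.mem_inf.mpr ⟨x.2, ?_⟩
        rw [Subgroup.mem_pointwise_smul_iff_inv_smul_mem, MulAut.smul_def, ← map_inv, MulAut.conj_apply]
        have : (a * (h : G))⁻¹ * (x : G) * (a * (h : G))⁻¹⁻¹ = (h : G)⁻¹ * (a⁻¹ * (x : G) * a) * (h : G) := by group
        rw [this]
        exact hyP'
      rw [hbot, Subgroup.mem_bot] at hxin
      exact hx1 (Subtype.ext hxin))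
  let m : W := ∑ r ∈ R, f r
  have hm : m = ∑ r ∈ R, τ (r.out) w' := rfl
  have hN : ∑ x : (P : Subgroup G), τ x m = -w' := by
    have h1 : ∑ c ∈ Finset.univ.erase x0, f c = ∑ x : (P : Subgroup G), τ x m := by
      rw [hsum, Finset.sum_comm]
      apply Finset.sum_congr rfl
      intro x _
      show _ = τ x (∑ r ∈ R, f r)
      rw [map_sum]
      apply Finset.sum_congr rfl
      intro r _
      exact hfs x r
    rw [← h1]
    have h2 := Finset.add_sum_erase Finset.univ f (Finset.mem_univ x0)
    rw [hs0] at h2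
    have h3 : f x0 = w' := by
      show f ((1 : G) : G ⧸ H) = w'
      rw [hf, map_one]; rfl
    rw [h3] at h2
    exact (neg_eq_of_add_eq_zero_right h2).symm
  have hli := key τ (P : Subgroup G) P.isPGroup' w' m R (fun r => r.out) hm hw'0 hN
  have hle : Submodule.span ℂ (Set.range (fun x : (P : Subgroup G) => τ x m)) ≤ LinearMap.ker E := by
    rw [Submodule.span_le]
    rintro _ ⟨x, rfl⟩
    show E (τ x m) = 0
    rw [hEi', hm, map_sum]
    apply Finset.sum_eq_zero
    intro r _
    rw [hEi', hEw']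
  have h1 := finrank_span_eq_card hli
  have h2 := Submodule.finrank_mono hle
  have h3 := LinearMap.finrank_range_add_finrank_ker E
  have h4 : 0 < Module.finrank ℂ (LinearMap.range E) := by
    rw [Module.finrank_pos_iff_exists_ne_zero]
    refine ⟨⟨E w0, ⟨w0, rfl⟩⟩, fun h => ?_⟩
    have h5 : E w0 = 0 := congrArg Subtype.val h
    rw [hEfix w0 hw0i] at h5
    exact (smul_eq_zero.1 h5).elim hcard hw0
  rw [Nat.card_eq_fintype_card] at hdim
  omega


/-- Let P be a Sylow p-subgroup of the finite group G that meets each conjugate g P g⁻¹ with g outside N_G(P) trivially, χ a character of G with χ(1)² ≤ |P|, and H a subgroup of G containing N_G(P). Then the inner product of χ with itself over G equals the inner product over H of the restriction of χ to H. -/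
theorem result {G : Type*} [Group G] [Fintype G] [DecidableEq G] (p : ℕ) [Fact p.Prime] (P : Sylow p G) (hTI : ∀ g : G, g ∉ Subgroup.normalizer ((P : Subgroup G) : Set G) → (P : Subgroup G) ⊓ (MulAut.conj g • (P : Subgroup G)) = ⊥) (χ : G → ℂ) (hχ : Cfsg.IsCharacter G χ) (hdeg : Cfsg.charDegree χ ^ 2 ≤ Nat.card ↥(P : Subgroup G)) (H : Subgroup G) [Fintype ↥H] (hH : Subgroup.normalizer ((P : Subgroup G) : Set G) ≤ H) : Cfsg.classInner χ χ = Cfsg.classInner (fun h : ↥H => χ h) (fun h : ↥H => χ h) := by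
  obtain ⟨n, ρ, rfl⟩ := hχ
  have hdeg' : Module.finrank ℂ ((Fin n → ℂ) →ₗ[ℂ] (Fin n → ℂ)) ≤ Nat.card (P : Subgroup G) := by
    have h1 : Cfsg.charDegree ρ.character = n := by
      unfold Cfsg.charDegree
      rw [Representation.char_one]
      simp
    rw [h1] at hdeg
    rw [Module.finrank_linearMap]
    simpa [sq] using hdeg
  let σ : Representation ℂ H (Fin n → ℂ) := MonoidHom.comp ρ H.subtype
  have e1 : (fun h : H => ρ.character h) = σ.character := rfl
  rw [e1, Cfsg.Agent.H3.classInner_eq_finrank ρ ρ, Cfsg.Agent.H3.classInner_eq_finrank σ σ]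
  congr 1
  rw [← (Representation.invariantsEquivIntertwiningMap ρ ρ).finrank_eq,
    ← (Representation.invariantsEquivIntertwiningMap σ σ).finrank_eq]
  have heq : (Representation.linHom ρ ρ).invariants = (Representation.linHom σ σ).invariants := by
    apply le_antisymm
    · intro w hw
      rw [Representation.mem_invariants] at hw ⊢
      intro h
      exact hw h
    · intro w hw
      rw [Representation.mem_invariants] at hw ⊢
      by_cases hid : (LinearMap.id : (Fin n → ℂ) →ₗ[ℂ] (Fin n → ℂ)) = 0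
      · intro g
        have : ∀ v : (Fin n → ℂ) →ₗ[ℂ] (Fin n → ℂ), v = 0 := by
          intro v
          rw [← LinearMap.comp_id v, hid, LinearMap.comp_zero]
        rw [this w, map_zero]
      · exact inv_eq (Representation.linHom ρ ρ) p P hTI H hH hdeg' LinearMap.id hid (by
          intro g
          rw [Representation.linHom_apply, LinearMap.id_comp]
          show ρ g * ρ g⁻¹ = 1
          rw [← map_mul, mul_inv_cancel, map_one]) w (fun h hh => hw ⟨h, hh⟩)
  rw [heq]

end Cfsg.Agent.S4750
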