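import Cfsg.Statements.S4754
import Cfsg.Agent.H27.ClassAlg

set_option autoImplicit false
open Cfsg

namespace Cfsg.Agent.S4754

/-- For elements x, y of a finite group G, the conjugacy class of x y equals the set of all products of a conjugate of x with a conjugate of y if and only if χ(1) χ(a x a⁻¹ b y b⁻¹) = χ(x) χ(y) for all a, b ∈ G and every irreducible character χ. -/
theorem result {G : Type*} [Group G] [Finite G] (x y : G) : (∀ z : G, IsConj (x * y) z ↔ ∃ a b : G, z = a * x * a⁻¹ * (b * y * b⁻¹)) ↔ ∀ (a b : G) (χ : Cfsg.IrrCharacter G), (χ : G → ℂ) 1 * (χ : G → ℂ) (a * x * a⁻¹ * (b * y * b⁻¹)) = (χ : G → ℂ) x * (χ : G → ℂ) y := by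
  classical
  have := Fintype.ofFinite G
  constructor
  · intro h a b χ
    have hχ := χ.2
    have hc : ∀ a b : G, (χ : G → ℂ) (a * x * a⁻¹ * (b * y * b⁻¹)) = (χ : G → ℂ) (x * y) := by
      intro a b
      exact (H27.isCharacter_isConj (H27.isIrr_isCharacter hχ) ((h _).mpr ⟨a, b, rfl⟩)).symm
    have h1 := H27.irr_sum_conj_mul hχ x y
    have h2 : ∑ z : G, (χ : G → ℂ) (z * x * z⁻¹ * y) = (Fintype.card G : ℂ) * (χ : G → ℂ) (x * y) := by
      have h3 : ∀ z : G, (χ : G → ℂ) (z * x * z⁻¹ * y) = (χ : G → ℂ) (x * y) := fun z => by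
        have := hc z 1
        rw [one_mul, inv_one, mul_one] at this
        exact this
      simp only [h3, Finset.sum_const, Finset.card_univ, nsmul_eq_mul]
    rw [h2] at h1
    have h0 := H27.isIrr_one_ne_zero hχ
    have hG : (Fintype.card G : ℂ) ≠ 0 := by exact_mod_cast Fintype.card_ne_zero
    rw [hc]
    field_simp at h1
    linear_combination h1
  · intro h z
    constructor
    · intro hz
      obtain ⟨c, hc⟩ := isConj_iff.mp hz
      refine ⟨c, c, ?_⟩
      rw [← hc]; group
    · rintro ⟨a, b, rfl⟩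
      rw [Cfsg.Agent.H3.isConj_iff_irr]
      intro χ
      have h1 := h a b χ
      have h2 := h 1 1 χ
      have h0 := H27.isIrr_one_ne_zero χ.2
      simp only [one_mul, inv_one, mul_one] at h2
      rw [← h2] at h1
      exact (mul_left_cancel₀ h0 h1).symm

end Cfsg.Agent.S4754
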