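import Cfsg.Statements.S4755
import Cfsg.Agent.H27.Util

set_option autoImplicit false
open Cfsg

namespace Cfsg.Agent.S4755

open scoped commutatorElement

/-- Let x, y be non-identity elements of the finite group G such that χ(x' y') = χ(x') χ(y') for all conjugates x' of x, y' of y and every irreducible character χ. Then the conjugacy class of x y is the set of all products of a conjugate of x with a conjugate of y; every irreducible character of degree greater than 1 vanishes at x y; and the conjugacy class of x y is the coset of the commutator subgroup containing x y. -/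
theorem result {G : Type*} [Group G] [Finite G] (x y : G) (hx : x ≠ 1) (hy : y ≠ 1) (h : ∀ (a b : G) (χ : Cfsg.IrrCharacter G), (χ : G → ℂ) (a * x * a⁻¹ * (b * y * b⁻¹)) = (χ : G → ℂ) (a * x * a⁻¹) * (χ : G → ℂ) (b * y * b⁻¹)) : (∀ z : G, IsConj (x * y) z ↔ ∃ a b : G, z = a * x * a⁻¹ * (b * y * b⁻¹)) ∧ (∀ χ : Cfsg.IrrCharacter G, (χ : G → ℂ) 1 ≠ 1 → (χ : G → ℂ) (x * y) = 0) ∧ (∀ z : G, IsConj (x * y) z ↔ (x * y)⁻¹ * z ∈ commutator G) := by
  classical
  have := Fintype.ofFinite G
  have := Fintype.ofFinite (Cfsg.IrrCharacter G)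
  have hc : ∀ (a b : G) (χ : Cfsg.IrrCharacter G), (χ : G → ℂ) (a * x * a⁻¹ * (b * y * b⁻¹))
      = (χ : G → ℂ) (x * y) := by
    intro a b χ
    have h1 := h a b χ
    have h2 := h 1 1 χ
    simp only [one_mul, inv_one, mul_one] at h2
    rw [h1, H27.isCharacter_conj (H27.isIrr_isCharacter χ.2),
      H27.isCharacter_conj (H27.isIrr_isCharacter χ.2), h2]
  have h1 : ∀ z : G, IsConj (x * y) z ↔ ∃ a b : G, z = a * x * a⁻¹ * (b * y * b⁻¹) := by
    intro z
    constructor
    · intro hz
      obtain ⟨c, hc⟩ := isConj_iff.mp hz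
      refine ⟨c, c, ?_⟩
      rw [← hc]; group
    · rintro ⟨a, b, rfl⟩
      rw [Cfsg.Agent.H3.isConj_iff_irr]
      exact fun χ => (hc a b χ).symm
  have h2 : ∀ χ : Cfsg.IrrCharacter G, (χ : G → ℂ) 1 ≠ 1 → (χ : G → ℂ) (x * y) = 0 := by
    intro χ hχ
    have h3 := H27.irr_sum_conj_mul χ.2 x y
    have h4 : ∀ z : G, (χ : G → ℂ) (z * x * z⁻¹ * y) = (χ : G → ℂ) (x * y) := fun z => by
      have := hc z 1 χ
      rw [one_mul, inv_one, mul_one] at this
      exact this
    have h5 := h 1 1 χ
    simp only [one_mul, inv_one, mul_one] at h5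
    simp only [h4, Finset.sum_const, Finset.card_univ, nsmul_eq_mul] at h3
    rw [mul_assoc, ← h5] at h3
    have h0 := H27.isIrr_one_ne_zero χ.2
    have hG : (Fintype.card G : ℂ) ≠ 0 := by exact_mod_cast Fintype.card_ne_zero
    rw [mul_div_assoc] at h3
    have h6 := mul_left_cancel₀ hG h3
    rw [eq_div_iff h0] at h6
    have h7 : (χ : G → ℂ) (x * y) * ((χ : G → ℂ) 1 - 1) = 0 := by linear_combination h6
    rcases mul_eq_zero.mp h7 with h8 | h8
    · exact h8
    · exact absurd (sub_eq_zero.mp h8) hχ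
  refine ⟨h1, h2, fun z => ⟨?_, ?_⟩⟩
  · intro hz
    obtain ⟨c, hc⟩ := isConj_iff.mp hz
    have : (x * y)⁻¹ * z = ⁅(x * y)⁻¹, c⁆ := by
      rw [← hc, commutatorElement_def]; group
    rw [this]
    exact Subgroup.commutator_mem_commutator (Subgroup.mem_top _) (Subgroup.mem_top _)
  · intro hz
    by_contra hcon
    have h3 := Cfsg.Agent.H3.column_orth (x * y) z
    rw [if_neg hcon] at h3
    have h4 : ∀ χ : Cfsg.IrrCharacter G, (χ : G → ℂ) (x * y) * (starRingEnd ℂ) ((χ : G → ℂ) z)
        = ((‖(χ : G → ℂ) (x * y)‖ ^ 2 : ℝ) : ℂ) := by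
      intro χ
      by_cases hχ : (χ : G → ℂ) 1 = 1
      · obtain ⟨μ, hμ⟩ := H27.exists_hom_of_one (H27.isIrr_isCharacter χ.2) hχ
        have h5 : (χ : G → ℂ) z = (χ : G → ℂ) (x * y) := by
          rw [hμ, hμ]
          have h6 : μ ((x * y)⁻¹ * z) = 1 :=
            Abelianization.commutator_subset_ker μ hz
          rw [map_mul, map_inv] at h6
          have h7 : μ z = μ (x * y) := by
            have := mul_eq_one_iff_eq_inv.mp h6
            rw [inv_inj] at this
            exact (inv_mul_eq_one.mp h6).symm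
          rw [h7]
        rw [h5, Complex.mul_conj, Complex.normSq_eq_norm_sq]
      · rw [h2 χ hχ]; simp
    rw [Finset.sum_congr rfl fun χ _ => h4 χ, ← Complex.ofReal_sum, Complex.ofReal_eq_zero,
      Finset.sum_eq_zero_iff_of_nonneg (fun _ _ => by positivity)] at h3
    have h5 := h3 (H27.oneIrr G) (Finset.mem_univ _)
    simp at h5

end Cfsg.Agent.S4755
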