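import Cfsg.Statements.S4757
import Cfsg.Agent.H3.Perm
import Cfsg.Agent.H27.Kernel
import Cfsg.Agent.H27.CentralChar
import Cfsg.Agent.H27.Util
import Cfsg.Agent.H1.Cores

set_option autoImplicit false
open Cfsg

namespace Cfsg.Agent.S4757

open Cfsg.Agent.H3 Cfsg.Agent.H27

local notation "conj" => starRingEnd ℂ

theorem mul_zpow_self_eq {G : Type*} [Group G] (u : G) (j : ℤ) (h : u * u = 1) :
    1 = u ^ j * u ^ j := by
  rw [← (Commute.refl u).mul_zpow, h, one_zpow]


/-- Let u ≠ 1 be an element of the finite group G and c a complex number such that every non-principal irreducible character χ satisfies χ(1) − χ(u) = c or χ(u) = 0. Then the following are equivalent: (a) u has order 2, G is generated by u together with O(G), the largest normal subgroup of G of odd order, and the centralizer of u is {1, u}; (b) G is not perfect; (c) c = 2. -/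
theorem result {G : Type*} [Group G] [Finite G] (u : G) (hu : u ≠ 1) (c : ℂ) (hyp : ∀ χ : Cfsg.IrrCharacter G, (χ : G → ℂ) ≠ (fun _ => (1 : ℂ)) → ((χ : G → ℂ) 1 - (χ : G → ℂ) u = c ∨ (χ : G → ℂ) u = 0)) : ((orderOf u = 2 ∧ Subgroup.zpowers u ⊔ Cfsg.oddCore G = ⊤ ∧ Subgroup.centralizer ({u} : Set G) = Subgroup.zpowers u) ↔ commutator G ≠ ⊤) ∧ (commutator G ≠ ⊤ ↔ c = 2) := by
  classical
  have := Fintype.ofFinite G
  have := Fintype.ofFinite (IrrCharacter G)
  let one : IrrCharacter G := ⟨_, isIrr_one⟩
  have hone : ∀ g, (one : G → ℂ) g = 1 := fun g => rfl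
  have horth : ∑ χ : IrrCharacter G, (χ : G → ℂ) u * conj ((χ : G → ℂ) 1) = 0 := by
    rw [column_orth u 1, if_neg]
    intro h
    exact hu (isConj_one_right.mp h.symm)
  have horth' : ∑ χ : IrrCharacter G, (χ : G → ℂ) u * (charDegree (χ : G → ℂ) : ℂ) = 0 := by
    rw [← horth]
    apply Finset.sum_congr rfl
    intro χ _
    rw [← charDegree_cast (irr_isChar χ.2), Complex.conj_natCast]
  have hpos : ∀ f : IrrCharacter G → ℝ, (∀ χ, 0 ≤ f χ) → f one = 1 →
      (∀ χ : IrrCharacter G, (χ : G → ℂ) u * (charDegree (χ : G → ℂ) : ℂ) = (f χ : ℂ)) → False := by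
    intro f h0 h1 h2
    rw [Finset.sum_congr rfl fun χ _ => h2 χ] at horth'
    have h3 : ∑ χ : IrrCharacter G, f χ = 0 := by exact_mod_cast horth'
    have h4 : f one ≤ ∑ χ : IrrCharacter G, f χ :=
      Finset.single_le_sum (fun χ _ => h0 χ) (Finset.mem_univ one)
    rw [h3, h1] at h4
    linarith
  have hdone : charDegree (one : G → ℂ) = 1 := by
    have h1 := charDegree_cast (irr_isChar one.2)
    rw [hone] at h1
    exact_mod_cast h1
  have hyp' : ∀ χ : IrrCharacter G, χ ≠ one → ((χ : G → ℂ) 1 - (χ : G → ℂ) u = c ∨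
      (χ : G → ℂ) u = 0) := by
    intro χ hχ
    apply hyp
    intro h
    exact hχ (Subtype.ext h)
  -- (c) implies (b)
  have hCB : c = 2 → commutator G ≠ ⊤ := by
    intro hc hperf
    refine hpos (fun χ => if χ = one then 1 else if (χ : G → ℂ) u = 0 then 0 else
      ((charDegree (χ : G → ℂ) : ℝ) - 2) * charDegree (χ : G → ℂ)) ?_ (by simp) ?_
    · intro χ
      split_ifs with h1 h2
      · norm_num
      · exact le_refl _
      · have h3 : 2 ≤ charDegree (χ : G → ℂ) := by
          have h4 : charDegree (χ : G → ℂ) ≠ 0 := (charDegree_pos χ.2).ne'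
          have h5 : charDegree (χ : G → ℂ) ≠ 1 := by
            intro h5
            have h6 : (χ : G → ℂ) 1 = 1 := by
              rw [← charDegree_cast (irr_isChar χ.2), h5]; simp
            obtain ⟨μ, hμ⟩ := H27.exists_hom_of_one (irr_isChar χ.2) h6
            have h7 : commutator G ≤ μ.ker := Abelianization.commutator_subset_ker μ
            rw [hperf, top_le_iff] at h7
            apply h1
            apply Subtype.ext
            ext g
            rw [hμ, hone]
            have h8 : g ∈ μ.ker := by rw [h7]; exact Subgroup.mem_top g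
            rw [MonoidHom.mem_ker.mp h8]; simp
          omega
        have h4 : (2 : ℝ) ≤ charDegree (χ : G → ℂ) := by exact_mod_cast h3
        exact mul_nonneg (by linarith) (by linarith)
    · intro χ
      split_ifs with h1 h2
      · rw [h1, hone, hdone]; simp
      · rw [h2]; simp
      · rcases hyp' χ h1 with h3 | h3
        · have h4 : (χ : G → ℂ) u = charDegree (χ : G → ℂ) - 2 := by
            rw [charDegree_cast (irr_isChar χ.2), ← hc, ← h3]; ring
          rw [h4]; push_cast; ring
        · exact absurd h3 h2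
  -- (a) implies (b)
  have hAB : (orderOf u = 2 ∧ Subgroup.zpowers u ⊔ Cfsg.oddCore G = ⊤ ∧
      Subgroup.centralizer ({u} : Set G) = Subgroup.zpowers u) → commutator G ≠ ⊤ := by
    rintro ⟨h1, h2, -⟩ hperf
    have hN : (Cfsg.oddCore G).Normal := H1.pPrimeCore_normal 2 G
    have hcop : (Nat.card (Cfsg.oddCore G)).Coprime 2 := H1.pPrimeCore_coprime 2 G
    have h3 : commutator G ≤ Cfsg.oddCore G := by
      rw [← Subgroup.Normal.quotient_commutative_iff_commutator_le]
      have hcyc : IsCyclic (G ⧸ Cfsg.oddCore G) := by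
        refine ⟨⟨QuotientGroup.mk' _ u, fun x => ?_⟩⟩
        obtain ⟨g, rfl⟩ := QuotientGroup.mk'_surjective _ x
        have hg : g ∈ Subgroup.zpowers u ⊔ Cfsg.oddCore G := by rw [h2]; exact Subgroup.mem_top g
        rw [← SetLike.mem_coe, Subgroup.mul_normal] at hg
        obtain ⟨a, ha, b, hb, rfl⟩ := hg
        obtain ⟨k, rfl⟩ := Subgroup.mem_zpowers_iff.mp ha
        refine ⟨k, ?_⟩
        change (QuotientGroup.mk' _ u) ^ k = _
        rw [map_mul, map_zpow]
        have : QuotientGroup.mk' (Cfsg.oddCore G) b = 1 := by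
          rw [QuotientGroup.mk'_apply, QuotientGroup.eq_one_iff]; exact hb
        rw [this, mul_one]
      exact IsCyclic.isMulCommutative
    rw [hperf, top_le_iff] at h3
    rw [h3] at hcop
    have h4 : 2 ∣ Nat.card (⊤ : Subgroup G) := by
      rw [Subgroup.card_top, ← h1]; exact orderOf_dvd_natCard u
    have := Nat.eq_one_of_dvd_coprimes hcop h4 (dvd_refl 2)
    omega
  -- (b) implies (c) and (a)
  have hB : commutator G ≠ ⊤ → c = 2 ∧ (orderOf u = 2 ∧ Subgroup.zpowers u ⊔ Cfsg.oddCore G = ⊤ ∧
      Subgroup.centralizer ({u} : Set G) = Subgroup.zpowers u) := by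
    intro hB
    have hcard := card_hom_units (G := G)
    have hidx : 1 < (commutator G).index := by
      have h1 : (commutator G).index ≠ 0 := Subgroup.index_ne_zero_of_finite
      have h2 : (commutator G).index ≠ 1 := fun h => hB (Subgroup.index_eq_one.mp h)
      omega
    have hfin : Finite (G →* ℂˣ) := by
      apply Nat.finite_of_card_ne_zero; omega
    obtain ⟨lam, hlam⟩ : ∃ lam : G →* ℂˣ, lam ≠ 1 := by
      have : Nontrivial (G →* ℂˣ) := Finite.one_lt_card_iff_nontrivial.mp (by omega)
      exact exists_ne 1
    let irr : (G →* ℂˣ) → IrrCharacter G := fun μ => ⟨_, isIrr_of_hom μ⟩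
    have hirr : ∀ μ g, (irr μ : G → ℂ) g = (μ g : ℂ) := fun μ g => rfl
    have hirr1 : ∀ μ : G →* ℂˣ, μ ≠ 1 → irr μ ≠ one := by
      intro μ hμ h
      apply hμ
      ext g
      have h1 := congrArg (fun χ : IrrCharacter G => (χ : G → ℂ) g) h
      simp only [hirr, hone] at h1
      simpa using h1
    have hval : ∀ μ : G →* ℂˣ, μ ≠ 1 → 1 - (μ u : ℂ) = c := by
      intro μ hμ
      rcases hyp' (irr μ) (hirr1 μ hμ) with h | h
      · rw [hirr, hirr, map_one] at h
        simpa using h
      · rw [hirr] at h
        exact absurd h (Units.ne_zero _)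
    have hc0 : c ≠ 0 := by
      intro hc
      refine hpos (fun χ => if (χ : G → ℂ) u = 0 then 0 else
        (charDegree (χ : G → ℂ) : ℝ) * charDegree (χ : G → ℂ)) ?_ ?_ ?_
      · intro χ
        split_ifs
        · exact le_refl _
        · exact mul_self_nonneg _
      · rw [if_neg (by rw [hone]; exact one_ne_zero), hdone]; simp
      · intro χ
        split_ifs with h2
        · rw [h2]; simp
        · have h4 : (χ : G → ℂ) u = charDegree (χ : G → ℂ) := by
            by_cases h1 : χ = one
            · rw [h1, hone, hdone]; simp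
            · rcases hyp' χ h1 with h3 | h3
              · rw [charDegree_cast (irr_isChar χ.2)]
                rw [hc] at h3
                exact (sub_eq_zero.mp h3).symm
              · exact absurd h3 h2
          rw [h4]; push_cast; ring
    have hval' : ∀ μ : G →* ℂˣ, μ ≠ 1 → (μ u : ℂ) = 1 - c := fun μ hμ => by
      rw [← hval μ hμ]; ring
    have hmul : ∀ μ ν : G →* ℂˣ, μ ≠ 1 → ν ≠ 1 → μ * ν = 1 := by
      intro μ ν hμ hν
      by_contra h
      have h1 := hval' _ h
      have h2 : ((μ * ν) u : ℂ) = (μ u : ℂ) * (ν u : ℂ) := by simp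
      rw [h2, hval' μ hμ, hval' ν hν] at h1
      have h3 : (1 - c) * (-c) = 0 := by linear_combination h1
      rcases mul_eq_zero.mp h3 with h4 | h4
      · have h5 := hval' μ hμ
        rw [h4] at h5
        exact Units.ne_zero _ h5
      · exact hc0 (neg_eq_zero.mp h4)
    have huniq : ∀ μ : G →* ℂˣ, μ ≠ 1 → μ = lam := by
      intro μ hμ
      have h1 := hmul μ lam hμ hlam
      have h2 := hmul lam lam hlam hlam
      rw [← h2] at h1
      exact mul_right_cancel h1
    have hlu : (lam u : ℂ) * (lam u : ℂ) = 1 := by
      have h2 := hmul lam lam hlam hlam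
      have h3 := congrArg (fun μ : G →* ℂˣ => ((μ u : ℂˣ) : ℂ)) h2
      simpa using h3
    have hlu1 : (lam u : ℂ) = -1 := by
      have h1 := hval' lam hlam
      have h2 : ((lam u : ℂ) - 1) * ((lam u : ℂ) + 1) = 0 := by linear_combination hlu
      rcases mul_eq_zero.mp h2 with h3 | h3
      · exfalso
        apply hc0
        rw [h1] at h3
        linear_combination -h3
      · linear_combination h3
    have hc2 : c = 2 := by
      have h1 := hval lam hlam
      rw [hlu1] at h1
      rw [← h1]; norm_num
    refine ⟨hc2, ?_⟩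
    -- nonlinear characters vanish at `u`
    have hvan : ∀ χ : IrrCharacter G, χ ≠ one → χ ≠ irr lam → (χ : G → ℂ) u = 0 := by
      intro χ h1 h2
      by_contra h0
      have h3 := (hyp' χ h1).resolve_right h0
      let χ' : IrrCharacter G := ⟨_, isIrr_mul_hom χ.2 lam⟩
      have hχ' : ∀ g, (χ' : G → ℂ) g = (lam g : ℂ) * (χ : G → ℂ) g := fun g => rfl
      have h4 : χ' ≠ one := by
        intro h
        apply h2
        apply Subtype.ext
        ext g
        have h5 := congrArg (fun χ : IrrCharacter G => (χ : G → ℂ) g) h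
        simp only [hχ', hone] at h5
        have h6 : (lam g : ℂ) * (lam g : ℂ) = 1 := by
          have h2 := hmul lam lam hlam hlam
          have h3 := congrArg (fun μ : G →* ℂˣ => ((μ g : ℂˣ) : ℂ)) h2
          simpa using h3
        rw [hirr]
        have h7 : (lam g : ℂ) ≠ 0 := Units.ne_zero _
        exact mul_left_cancel₀ h7 (h5.trans h6.symm)
      rcases hyp' χ' h4 with h5 | h5
      · rw [hχ', hχ', hlu1, map_one] at h5
        apply h0
        have : (1 : ℂ) * (χ : G → ℂ) 1 - -1 * (χ : G → ℂ) u = c := by simpa using h5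
        have h6 : 2 * (χ : G → ℂ) u = 0 := by linear_combination this - h3
        simpa using h6
      · rw [hχ', hlu1] at h5
        apply h0
        linear_combination -h5
    have hC2 : Nat.card (Subgroup.centralizer ({u} : Set G)) = 2 := by
      have h1 := column_orth u u
      rw [if_pos (IsConj.refl u)] at h1
      have h2 : ∑ χ : IrrCharacter G, (χ : G → ℂ) u * conj ((χ : G → ℂ) u) = 2 := by
        rw [← Finset.sum_subset (Finset.subset_univ ({one, irr lam} : Finset (IrrCharacter G)))]
        · rw [Finset.sum_pair (hirr1 lam hlam).symm, hone, hirr, hlu1]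
          norm_num
        · intro χ _ hχ
          simp only [Finset.mem_insert, Finset.mem_singleton, not_or] at hχ
          rw [hvan χ hχ.1 hχ.2, zero_mul]
      rw [h2] at h1
      exact_mod_cast h1.symm
    have hle : Subgroup.zpowers u ≤ Subgroup.centralizer ({u} : Set G) := by
      rw [Subgroup.zpowers_le, Subgroup.mem_centralizer_iff]
      rintro _ rfl; rfl
    have hord : orderOf u = 2 := by
      have h1 : orderOf u ∣ 2 := by
        rw [← hC2, ← Nat.card_zpowers]
        exact Subgroup.card_dvd_of_le hle
      have h2 : orderOf u ≠ 1 := fun h => hu (orderOf_eq_one_iff.mp h)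
      exact ((Nat.dvd_prime Nat.prime_two).mp h1).resolve_left h2
    have hCu : Subgroup.centralizer ({u} : Set G) = Subgroup.zpowers u := by
      symm
      apply Subgroup.eq_of_le_of_card_ge hle
      rw [hC2, Nat.card_zpowers, hord]
    refine ⟨hord, ?_, hCu⟩
    -- the derived group
    set N := commutator G with hN
    have hNidx : N.index = 2 := by
      rw [← hcard]
      have h1 : (Set.univ : Set (G →* ℂˣ)) = {1, lam} := by
        ext μ
        simp only [Set.mem_univ, Set.mem_insert_iff, Set.mem_singleton_iff, true_iff]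
        by_cases h : μ = 1
        · exact Or.inl h
        · exact Or.inr (huniq μ h)
      rw [← Set.ncard_univ, h1, Set.ncard_pair (Ne.symm hlam)]
    have huN : u ∉ N := by
      intro h
      have h7 : commutator G ≤ lam.ker := Abelianization.commutator_subset_ker lam
      have h8 := MonoidHom.mem_ker.mp (h7 h)
      rw [h8] at hlu1
      norm_num at hlu1
    have hNcard : Nat.card N * 2 = Nat.card G := by rw [← hNidx]; exact Subgroup.card_mul_index N
    have hclass : ∀ x, x ∉ N → IsConj u x := by
      have h1 := card_isConj_mul_card_centralizer u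
      rw [hC2, ← hNcard] at h1
      have h2 : Nat.card {x // IsConj u x} = Nat.card N := Nat.eq_of_mul_eq_mul_right two_pos h1
      have h3 : {x : G | IsConj u x} ⊆ (N : Set G)ᶜ := by
        intro x hx hxN
        obtain ⟨g, rfl⟩ := isConj_iff.mp hx
        apply huN
        have hn : N.Normal := inferInstance
        have h4 := hn.conj_mem _ hxN g⁻¹
        have e : g⁻¹ * (g * u * g⁻¹) * g⁻¹⁻¹ = u := by group
        rwa [e] at h4
      have h4 : ((N : Set G)ᶜ).ncard = Nat.card N := by
        have h5 := Set.ncard_add_ncard_compl (N : Set G)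
        have h6 : (N : Set G).ncard = Nat.card N := rfl
        rw [h6, ← hNcard] at h5
        omega
      have h5 : {x : G | IsConj u x} = (N : Set G)ᶜ := by
        apply Set.eq_of_subset_of_ncard_le h3
        rw [h4]
        exact h2.symm.le
      intro x hx
      have h6 : x ∈ (N : Set G)ᶜ := hx
      rw [← h5] at h6
      exact h6
    have hsq : ∀ x, x ∉ N → x * x = 1 := by
      intro x hx
      obtain ⟨g, rfl⟩ := isConj_iff.mp (hclass x hx)
      have h1 : u * u = 1 := by rw [← pow_two, ← hord, pow_orderOf_eq_one]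
      calc g * u * g⁻¹ * (g * u * g⁻¹) = g * (u * u) * g⁻¹ := by group
        _ = 1 := by rw [h1]; group
    have hodd : (Nat.card N).Coprime 2 := by
      rw [Nat.coprime_comm, Nat.Prime.coprime_iff_not_dvd Nat.prime_two]
      intro h2
      obtain ⟨n, hn⟩ := exists_prime_orderOf_dvd_card' 2 h2
      have hnn : (n : G) * n = 1 := by
        have h3 : n * n = 1 := by rw [← pow_two, ← hn, pow_orderOf_eq_one]
        exact_mod_cast congrArg Subtype.val h3
      have hun : u * n ∉ N := fun h => huN (by
        have := N.mul_mem h (N.inv_mem n.2)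
        simpa using this)
      have h3 := hsq _ hun
      have h4 : u * u = 1 := hsq u huN
      have h5 : (n : G) ∈ Subgroup.centralizer ({u} : Set G) := by
        rw [Subgroup.mem_centralizer_iff]
        intro y hy
        rw [Set.mem_singleton_iff.mp hy]
        have h6 : (u * (n : G))⁻¹ = u * n := inv_eq_of_mul_eq_one_left h3
        have h7 : u⁻¹ = u := inv_eq_of_mul_eq_one_left h4
        have h8 : (n : G)⁻¹ = n := inv_eq_of_mul_eq_one_left hnn
        rw [mul_inv_rev, h7, h8] at h6
        exact h6.symm
      rw [hCu, Subgroup.mem_zpowers_iff] at h5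
      obtain ⟨k, hk⟩ := h5
      have h6 : (n : G) = 1 ∨ (n : G) = u := by
        rcases Int.even_or_odd k with ⟨j, hj⟩ | ⟨j, hj⟩
        · left
          rw [← hk, hj, zpow_add]
          exact (mul_zpow_self_eq u j h4).symm
        · right
          rw [← hk, hj, zpow_add, zpow_one, two_mul, zpow_add, ← mul_zpow_self_eq u j h4, one_mul]
      rcases h6 with h6 | h6
      · have : n = 1 := Subtype.ext h6
        rw [this, orderOf_one] at hn
        omega
      · exact huN (h6 ▸ n.2)
    have hNle : N ≤ Cfsg.oddCore G := H1.le_pPrimeCore inferInstance hodd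
    rw [eq_top_iff]
    intro x _
    by_cases hx : x ∈ N
    · exact Subgroup.mem_sup_right (hNle hx)
    · have h1 : u⁻¹ * x ∈ N := (Subgroup.mul_mem_iff_of_index_two hNidx).mpr (by
        constructor
        · intro h; exact absurd (by simpa using N.inv_mem h) huN
        · intro h; exact absurd h hx)
      have h2 : x = u * (u⁻¹ * x) := by group
      rw [h2]
      exact mul_mem (Subgroup.mem_sup_left (Subgroup.mem_zpowers u))
        (Subgroup.mem_sup_right (hNle h1))
  exact ⟨⟨hAB, fun h => (hB h).2⟩, ⟨fun h => (hB h).1, hCB⟩⟩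

end Cfsg.Agent.S4757
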