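import Cfsg.Statements.S4758
import Cfsg.Agent.H27.Ca6
import Cfsg.Agent.H27.Ca9
import Cfsg.Agent.S4757

set_option autoImplicit false
open Cfsg

namespace Cfsg.Agent.S4758

/-- Let u ≠ 1 be an element of the finite group G such that every non-principal irreducible character χ satisfies χ(1) − χ(u) = 4 or χ(u) = 0. Then O(G), the largest normal subgroup of odd order, is abelian, and either G ⧸ O(G) ≅ PSL₂(5) and u is an involution, or G ⧸ O(G) ≅ SL₂(5) and u has order 4. -/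
theorem result {G : Type*} [Group G] [Finite G] (u : G) (hu : u ≠ 1) (hyp : ∀ χ : Cfsg.IrrCharacter G, (χ : G → ℂ) ≠ (fun _ => (1 : ℂ)) → ((χ : G → ℂ) 1 - (χ : G → ℂ) u = 4 ∨ (χ : G → ℂ) u = 0)) : IsMulCommutative ↥(Cfsg.oddCore G) ∧ ((Nonempty (G ⧸ Cfsg.oddCore G ≃* Matrix.ProjectiveSpecialLinearGroup (Fin 2) (ZMod 5)) ∧ orderOf u = 2) ∨ (Nonempty (G ⧸ Cfsg.oddCore G ≃* Matrix.SpecialLinearGroup (Fin 2) (ZMod 5)) ∧ orderOf u = 4)) := by
  classical
  have := Fintype.ofFinite G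
  have hperf : commutator G = ⊤ := by
    by_contra hcon
    have h1 := ((Cfsg.Agent.S4757.result u hu 4 hyp).2).mp hcon
    norm_num at h1
  obtain ⟨N, hN, hidx, hnu, huu, h⟩ := Cfsg.Agent.H27.Ca.main hperf hu
    (fun χ hχ h1 => hyp ⟨χ, hχ⟩ h1)
  exact (Cfsg.Agent.H27.Ca.Gp.mk hperf hN hidx hnu huu h : Cfsg.Agent.H27.Ca.Gp N u).final

end Cfsg.Agent.S4758
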