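import Cfsg.Statements.S4762
import Cfsg.Agent.H27.KerCnt
import Cfsg.Agent.H18.FrattiniP
import Cfsg.Agent.H9.RankOneD
import Cfsg.Agent.H3.ExtraSp
import Cfsg.Agent.H23.PGroup2

set_option autoImplicit false
open Cfsg

namespace Cfsg.Agent.S4762

open Subgroup Cfsg.Agent.H27 Cfsg.Agent.H3
open scoped commutatorElement


/-- Let p be a prime and G a finite nilpotent group. Then G has exactly one irreducible complex character of degree divisible by p if and only if p = 2 and G is an extraspecial 2-group. -/
theorem result {G : Type*} [Group G] [Finite G] [Group.IsNilpotent G] (p : ℕ) [Fact p.Prime] : Nat.card {χ : Cfsg.IrrCharacter G // p ∣ Cfsg.charDegree (χ : G → ℂ)} = 1 ↔ (p = 2 ∧ Cfsg.IsExtraspecial 2 G) := by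
  classical
  have hp : p.Prime := Fact.out
  constructor
  · intro hcard
    obtain ⟨P⟩ := (inferInstance : Nonempty (Sylow p G))
    haveI hPn : (P : Subgroup G).Normal :=
      Sylow.normal_of_normalizerCondition Group.normalizerCondition_of_isNilpotent P
    set N : Subgroup G := ⁅(P : Subgroup G), (P : Subgroup G)⁆ with hN
    have hNP : N ≤ (P : Subgroup G) := commutator_le_self _
    haveI : N.Normal := commutator_normal _ _
    have hcard1 := hcard
    rw [Nat.card_eq_one_iff_unique] at hcard1
    obtain ⟨hsub, ⟨χ, hχd⟩⟩ := hcard1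
    have hker : ∀ ψ : IrrCharacter G, ψ ≠ χ → ∀ n ∈ N, (ψ : G → ℂ) n = (ψ : G → ℂ) 1 := by
      intro ψ hψ
      by_contra hcon
      have h1 := (dvd_iff_of_normal P ψ).mpr hcon
      apply hψ
      exact congrArg Subtype.val (hsub.allEq ⟨ψ, h1⟩ ⟨χ, hχd⟩)
    have hNbot : N ≠ ⊥ := by
      intro h
      apply (dvd_iff_of_normal P χ).mp hχd
      intro n hn
      rw [← hN, h, mem_bot] at hn
      rw [hn]
    obtain ⟨e1, e2, e3, e4⟩ := unique_ker hNbot hker
    obtain ⟨z, hzN, hzZ, hz1⟩ := Cfsg.Agent.H9.RankOne.exists_center_mem N hNbot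
    have hN2 : Nat.card N = 2 := by
      have h1 := e4 z hzN hz1
      have h2 : centralizer ({z} : Set G) = ⊤ := by
        rw [eq_top_iff]; intro y _
        rw [mem_centralizer_singleton_iff]
        exact mem_center_iff.mp hzZ y
      rw [h2, card_top] at h1
      have h3 : Nat.card G * (Nat.card N - 1) = Nat.card G * 1 := by rw [h1, mul_one]
      have h4 := Nat.eq_of_mul_eq_mul_left Nat.card_pos h3
      omega
    have hp2 : p = 2 := by
      have h1 : IsPGroup p N := P.2.to_le hNP
      obtain ⟨k, hk⟩ := IsPGroup.iff_card.mp h1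
      rw [hN2] at hk
      have h2 : p ∣ 2 := by
        rw [hk]
        apply dvd_pow_self
        rintro rfl
        simp at hk
      exact (Nat.prime_dvd_prime_iff_eq hp Nat.prime_two).mp h2
    subst hp2
    refine ⟨rfl, ?_⟩
    have hχ1 : (χ : G → ℂ) 1 ≠ 0 := irr_one_ne_zero χ.2
    -- the centre is `N`
    have hZN : center G ≤ N := by
      intro y hy
      by_contra hyN
      have h1 := e3 y hyN
      have h2 := irr_central_mul χ.2 hy y⁻¹
      rw [mul_inv_cancel, h1, zero_mul] at h2
      exact mul_ne_zero hχ1 hχ1 h2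
    have hNZ : N ≤ center G := by
      intro n hn
      by_cases hn1 : n = 1
      · rw [hn1]; exact one_mem _
      · have h1 := e4 n hn hn1
        rw [hN2] at h1
        have h2 : centralizer ({n} : Set G) = ⊤ := by
          apply eq_top_of_card_eq
          rw [← h1]; simp
        rw [mem_center_iff]
        intro g
        exact mem_centralizer_singleton_iff.mp (by rw [h2]; exact mem_top g)
    have hZe : center G = N := le_antisymm hZN hNZ
    have hZ2 : Nat.card (center G) = 2 := by rw [hZe, hN2]
    -- `G` is a 2-group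
    have hG2 : IsPGroup 2 G := by
      rw [IsPGroup.iff_card]
      refine ⟨(Nat.card G).primeFactorsList.length, ?_⟩
      apply Nat.eq_prime_pow_of_unique_prime_dvd Nat.card_pos.ne'
      intro q hq hqG
      by_contra hq2
      haveI : Fact q.Prime := ⟨hq⟩
      obtain ⟨Q⟩ := (inferInstance : Nonempty (Sylow q G))
      haveI hQn : (Q : Subgroup G).Normal :=
        Sylow.normal_of_normalizerCondition Group.normalizerCondition_of_isNilpotent Q
      have hQ1 : (Q : Subgroup G) ≠ ⊥ := Q.ne_bot_of_dvd_card hqG
      obtain ⟨w, hwQ, hwZ, hw1⟩ := Cfsg.Agent.H9.RankOne.exists_center_mem (Q : Subgroup G) hQ1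
      have h3 : orderOf w ∣ 2 := by
        rw [← hZ2]
        have := orderOf_dvd_natCard (⟨w, hwZ⟩ : center G)
        rwa [← Subgroup.orderOf_coe] at this
      obtain ⟨k, hk⟩ := Q.2 ⟨w, hwQ⟩
      have h4 : orderOf w ∣ q ^ k := by
        apply orderOf_dvd_of_pow_eq_one
        exact congrArg Subtype.val hk
      have h5 : Nat.Coprime 2 (q ^ k) :=
        Nat.Coprime.pow_right _ ((Nat.coprime_primes Nat.prime_two hq).mpr (Ne.symm hq2))
      exact hw1 (orderOf_eq_one_iff.mp (Nat.dvd_one.mp (h5 ▸ Nat.dvd_gcd h3 h4)))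
    have hPtop : (P : Subgroup G) = ⊤ := by
      have h1 : (⊤ : Subgroup G) ≤ P := by
        have h2 := P.3 (Q := ⊤) (hG2.to_subgroup ⊤) le_top
        exact h2.le
      exact eq_top_iff.mpr h1
    have hcomm : commutator G = N := by
      rw [hN, hPtop]; rfl
    refine ⟨⟨hG2, ?_, by rw [hcomm, hZe]⟩, hZ2⟩
    apply le_antisymm
    · apply Cfsg.Agent.H18.frattini_le_of_elementary (p := 2)
      · rw [hcomm, hZe]
      · intro x
        rw [mem_center_iff]
        intro y
        -- `⁅x, y⁆` is central of order at most 2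
        have h1 : ⁅x, y⁆ ∈ N := by
          rw [← hcomm]; exact commutator_mem_commutator (mem_top x) (mem_top y)
        have h2 : ⁅x, y⁆ ^ 2 = 1 := by
          have h3 : (⟨⁅x, y⁆, h1⟩ : N) ^ 2 = 1 := by
            rw [← hN2]; exact pow_card_eq_one'
          exact congrArg Subtype.val h3
        have h3 : ∀ g, g * ⁅x, y⁆ = ⁅x, y⁆ * g := fun g => mem_center_iff.mp (hNZ h1) g
        have h4 : x * y = ⁅x, y⁆ * (y * x) := by rw [commutatorElement_def]; group
        have h5 : x ^ 2 * y = ⁅x, y⁆ ^ 2 * (y * x ^ 2) := by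
          have h6 := h3 x
          generalize ⁅x, y⁆ = c at h4 h6 ⊢
          calc x ^ 2 * y = x * (x * y) := by rw [pow_two, mul_assoc]
            _ = x * (c * (y * x)) := by rw [← h4]
            _ = (x * c) * (y * x) := by rw [mul_assoc]
            _ = c * ((x * y) * x) := by rw [h6]; simp only [mul_assoc]
            _ = c * ((c * (y * x)) * x) := by rw [← h4]
            _ = _ := by simp only [pow_two, mul_assoc]
        rw [h5, h2, one_mul]
    · rw [← show commutator G = center G by rw [hcomm, hZe]]
      exact Cfsg.Agent.H2.commutator_le_frattini hG2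
  · rintro ⟨rfl, hE⟩
    obtain ⟨n, hn1, hn⟩ := Cfsg.Agent.H23.card_of_isExtraspecial hE
    obtain ⟨h1, h2⟩ := extraspecial_degrees 2 n hE hn
    rw [show (2 : ℕ) - 1 = 1 from rfl] at h2
    rw [← h2]
    refine Nat.card_congr (Equiv.subtypeEquivRight fun χ => ?_)
    have hdeg := charDegree_cast (irr_isChar χ.2)
    constructor
    · intro hd
      rcases h1 χ with h | h
      · exfalso
        rw [h] at hdeg
        have : charDegree (χ : G → ℂ) = 1 := by exact_mod_cast hdeg
        rw [this] at hd
        omega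
      · exact_mod_cast h
    · intro h
      have h3 : charDegree (χ : G → ℂ) = 2 ^ n := by
        have : (charDegree (χ : G → ℂ) : ℂ) = ((2 ^ n : ℕ) : ℂ) := by
          rw [hdeg, h]; push_cast; rfl
        exact_mod_cast this
      rw [h3]
      exact dvd_pow_self 2 (by omega)

end Cfsg.Agent.S4762
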