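import Cfsg.Statements.S4765
import Cfsg.Agent.H27.SLDeg

set_option autoImplicit false
open Cfsg

namespace Cfsg.Agent.S4765

open Subgroup Cfsg.Agent.H27 Cfsg.Agent.H3 Cfsg.Agent.H16


/-- Let F be a finite field of characteristic p with at least 4 elements. Then PSL(2,F) has exactly one irreducible complex character of degree divisible by p, and its degree is the order of F. -/
theorem result (p : ℕ) [Fact p.Prime] (F : Type*) [Field F] [Fintype F] [CharP F p] (hF : 4 ≤ Fintype.card F) : Nat.card {χ : Cfsg.IrrCharacter (Matrix.ProjectiveSpecialLinearGroup (Fin 2) F) // p ∣ Cfsg.charDegree (χ : Matrix.ProjectiveSpecialLinearGroup (Fin 2) F → ℂ)} = 1 ∧ ∀ χ : Cfsg.IrrCharacter (Matrix.ProjectiveSpecialLinearGroup (Fin 2) F), p ∣ Cfsg.charDegree (χ : Matrix.ProjectiveSpecialLinearGroup (Fin 2) F → ℂ) → Cfsg.charDegree (χ : Matrix.ProjectiveSpecialLinearGroup (Fin 2) F → ℂ) = Fintype.card F := by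
  classical
  have hp : p.Prime := Fact.out
  obtain ⟨n, hpr, hn⟩ := FiniteField.card F p
  have hpq : p ∣ Fintype.card F := by rw [hn]; exact dvd_pow_self p n.ne_zero
  have key : ∀ χ : IrrCharacter (Matrix.SpecialLinearGroup (Fin 2) F), p ∣ charDegree χ.1 →
      (χ : Matrix.SpecialLinearGroup (Fin 2) F → ℂ) = StS F ∧ charDegree χ.1 = Fintype.card F := by
    intro χ hχ
    have hne : ∀ k : ℕ, p ∣ k → k ≠ 1 := by
      rintro k hk rfl
      exact hp.one_lt.ne' (Nat.dvd_one.mp hk)
    rcases sl2_odd_deg χ.2 (charDegree_cast (irr_isChar χ.2)).symm with h | h | h | h | h | h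
    · exact absurd h.2 (hne _ hχ)
    · exact h
    · exfalso
      rw [h.2] at hχ
      exact hne 1 ((Nat.dvd_add_right hpq).mp hχ) rfl
    · exfalso
      have h1 : p ∣ Fintype.card F + 1 := by rw [← h.2]; exact hχ.mul_left 2
      exact hne 1 ((Nat.dvd_add_right hpq).mp h1) rfl
    · exfalso
      have h1 := hpq
      rw [← h.2] at h1
      exact hne 1 ((Nat.dvd_add_right hχ).mp h1) rfl
    · exfalso
      have h1 := hpq
      rw [← h.2] at h1
      exact hne 1 ((Nat.dvd_add_right (hχ.mul_left 2)).mp h1) rfl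
  have hinf : ∀ ψ : IrrCharacter (Matrix.ProjectiveSpecialLinearGroup (Fin 2) F),
      p ∣ charDegree ψ.1 →
      (∀ g : Matrix.SpecialLinearGroup (Fin 2) F, ψ.1 (QuotientGroup.mk' (center _) g) = StS F g) ∧
      charDegree ψ.1 = Fintype.card F := by
    intro ψ hψ
    have hirr := isIrr_comp_surjective ψ.2
      (QuotientGroup.mk' (center (Matrix.SpecialLinearGroup (Fin 2) F))) (QuotientGroup.mk'_surjective _)
    have hd : charDegree (fun g => ψ.1
        (QuotientGroup.mk' (center (Matrix.SpecialLinearGroup (Fin 2) F)) g)) = charDegree ψ.1 := by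
      unfold charDegree; simp
    have h1 := key ⟨_, hirr⟩ (by
      show p ∣ charDegree (fun g => ψ.1
        (QuotientGroup.mk' (center (Matrix.SpecialLinearGroup (Fin 2) F)) g))
      rw [hd]; exact hψ)
    refine ⟨fun g => congrFun h1.1 g, ?_⟩
    rw [← hd]; exact h1.2
  refine ⟨?_, fun χ hχ => (hinf χ hχ).2⟩
  rw [Nat.card_eq_one_iff_unique]
  constructor
  · constructor
    rintro ⟨ψ, hψ⟩ ⟨ψ', hψ'⟩
    apply Subtype.ext
    apply Subtype.ext
    funext x
    obtain ⟨g, rfl⟩ := QuotientGroup.mk'_surjective (center (Matrix.SpecialLinearGroup (Fin 2) F)) x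
    rw [(hinf ψ hψ).1, (hinf ψ' hψ').1]
  · obtain ⟨χ, hc, hd, -⟩ := exists_sl2_q F
    obtain ⟨ψ, hψ⟩ := psl_mem χ hc
    exact ⟨⟨ψ, by rw [hψ, hd]; exact hpq⟩⟩

end Cfsg.Agent.S4765
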