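import Cfsg.Statements.S4768
import Cfsg.Agent.H24.PDeg
import Cfsg.Agent.H3.IndCoh

set_option autoImplicit false
open Cfsg

namespace Cfsg.Agent.S4768

open Cfsg.Agent.H3 Cfsg.Agent.H27 Cfsg.Agent.H24.PDeg Subgroup
open scoped ComplexConjugate

universe u

theorem derived_two {P : Type u} [Group P] {A : Subgroup P} (hA : ∀ a ∈ A, ∀ b ∈ A, a * b = b * a)
    {m : ℕ} (h : derivedSeries P m ≤ A) : derivedSeries P (m + 1) = ⊥ := by
  rw [derivedSeries_succ, eq_bot_iff, Subgroup.commutator_le]
  intro a ha b hb
  rw [Subgroup.mem_bot, commutatorElement_def, hA a (h ha) b (h hb)]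
  group

theorem main {p : ℕ} [hp : Fact p.Prime] : ∀ n : ℕ, ∀ (G : Type u) [Group G] [Finite G],
    Nat.card G = n → IsPSolvable p G → ∀ P : Sylow p G,
    derivedSeries ↥(P : Subgroup G)
      (Nat.card {χ : IrrCharacter G // p ∣ charDegree (χ : G → ℂ)} + 1) = ⊥ := by
  intro n
  induction n using Nat.strong_induction_on with
  | _ n ih =>
    intro G _ _ hn hsolv P
    classical
    haveI := Fintype.ofFinite G
    rcases subsingleton_or_nontrivial G with hs | hnt
    · exact Subsingleton.elim _ _
    have hf : ∀ K : Subgroup G, ∀ [K.Normal], Function.Surjective (QuotientGroup.mk' K) :=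
      fun K => QuotientGroup.mk'_surjective K
    have hIH : ∀ K : Subgroup G, ∀ [K.Normal], K ≠ ⊥ →
        derivedSeries ↥((P : Subgroup G).map (QuotientGroup.mk' K))
          (Nat.card {χ : IrrCharacter (G ⧸ K) // p ∣ charDegree (χ : G ⧸ K → ℂ)} + 1) = ⊥ := by
      intro K _ hne
      have hlt : Nat.card (G ⧸ K) < n := by
        rw [← hn, Subgroup.card_eq_card_quotient_mul_card_subgroup K]
        have h1 : 1 < Nat.card K := by
          rw [one_lt_card_iff_ne_bot]; exact hne
        have h2 : 0 < Nat.card (G ⧸ K) := Nat.card_pos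
        nlinarith
      exact ih _ hlt (G ⧸ K) rfl (Cfsg.Agent.H23.isPSolvable_quotient K hsolv)
        (P.mapSurjective (hf K))
    have hinj : ∀ K : Subgroup G,
        Nat.card {χ : IrrCharacter G // p ∣ charDegree (χ : G → ℂ) ∧
          ∀ n ∈ K, (χ : G → ℂ) n = (χ : G → ℂ) 1} ≤
        Nat.card {χ : IrrCharacter G // p ∣ charDegree (χ : G → ℂ)} := by
      intro K
      apply Nat.card_le_card_of_injective (fun χ => ⟨χ.1, χ.2.1⟩)
      intro a b hab
      have h0 := congrArg Subtype.val hab
      exact Subtype.ext h0
    rcases Cfsg.Agent.H23.pCore_ne_bot_or hsolv with h | h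
    · set V := pCore p G with hV
      have hVp : IsPGroup p V := Cfsg.Agent.H1.pCore_isPGroup p G
      haveI : Nontrivial V := (Subgroup.nontrivial_iff_ne_bot V).mpr h
      set N : Subgroup G := (center V).map V.subtype with hN
      haveI hNn : N.Normal := ConjAct.normal_of_characteristic_of_normal
      have hNc : ∀ a ∈ N, ∀ b ∈ N, a * b = b * a := by
        rintro _ ⟨a, ha, rfl⟩ _ ⟨b, hb, rfl⟩
        exact congrArg Subtype.val ((mem_center_iff.mp hb) a)
      have hNp : IsPGroup p N := (hVp.to_subgroup _).map _
      have hNne : N ≠ ⊥ := by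
        haveI := hVp.center_nontrivial
        intro h0
        rw [hN, Subgroup.map_eq_bot_iff_of_injective _ V.subtype_injective] at h0
        exact (Subgroup.nontrivial_iff_ne_bot _).mp this h0
      have hAP : ∀ a ∈ N.subgroupOf (P : Subgroup G), ∀ b ∈ N.subgroupOf (P : Subgroup G),
          a * b = b * a := fun a ha b hb => Subtype.ext (hNc _ ha _ hb)
      have h1 := hIH N hNne
      have h2 := derived_quot N (P : Subgroup G) _ h1
      by_cases hcase : ∃ χ : IrrCharacter G, p ∣ charDegree (χ : G → ℂ) ∧
          ¬ ∀ n ∈ N, (χ : G → ℂ) n = (χ : G → ℂ) 1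
      · obtain ⟨χ₀, h3, h4⟩ := hcase
        have h5 : Nat.card {χ : IrrCharacter (G ⧸ N) // p ∣ charDegree (χ : G ⧸ N → ℂ)} + 1 ≤
            Nat.card {χ : IrrCharacter G // p ∣ charDegree (χ : G → ℂ)} := by
          have h6 := card_quot_le (p := p) N
          have h7 : Nat.card {χ : IrrCharacter G // p ∣ charDegree (χ : G → ℂ) ∧
              ∀ n ∈ N, (χ : G → ℂ) n = (χ : G → ℂ) 1} <
              Nat.card {χ : IrrCharacter G // p ∣ charDegree (χ : G → ℂ)} := by
            have h8 := Set.ncard_lt_ncard (s := {χ : IrrCharacter G | p ∣ charDegree (χ : G → ℂ) ∧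
              ∀ n ∈ N, (χ : G → ℂ) n = (χ : G → ℂ) 1})
              (t := {χ : IrrCharacter G | p ∣ charDegree (χ : G → ℂ)})
              ⟨fun χ hχ => hχ.1, fun hsub => h4 (hsub (show χ₀ ∈ {χ : IrrCharacter G |
                p ∣ charDegree (χ : G → ℂ)} from h3)).2⟩ (Set.toFinite _)
            exact h8
          omega
        have h6 := derived_two hAP h2
        rw [eq_bot_iff] at h6 ⊢
        exact (derivedSeries_antitone _ (by omega)).trans h6
      · push Not at hcase
        haveI := Fintype.ofFinite N
        haveI hNcomm : Std.Commutative (fun a b : N => a * b) :=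
          ⟨fun a b => Subtype.ext (hNc _ a.2 _ b.2)⟩
        have hNs : Group.IsSolvable N := Group.isSolvable_of_comm fun a b =>
          Subtype.ext (hNc _ a.2 _ b.2)
        haveI : Nontrivial N := (Subgroup.nontrivial_iff_ne_bot N).mpr hNne
        obtain ⟨φ, hφ1, -⟩ := exists_linear hNs (N := (⊥ : Subgroup N)) inferInstance bot_ne_top
        have hl := isIrr_of_hom φ
        have hg := gen_case (G := G) (p := p) hsolv hNn hNp hl (by simp) (by
          intro χ hχ hdvd
          apply hχ
          have h3 := hcase χ hdvd
          have h4 : (fun n : N => (χ : G → ℂ) n) = ((χ : G → ℂ) 1) • fun _ : N => (1 : ℂ) := by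
            ext n
            simp only [Pi.smul_apply, smul_eq_mul, mul_one]
            exact h3 n n.2
          rw [h4, classInner_smul_left]
          have h5 := classInner_of_irr_ne (isIrr_of_hom (1 : N →* ℂˣ)) hl (by
            intro h6
            apply hφ1
            ext n
            have := congrFun h6 n
            simpa using this.symm)
          have h7 : (fun g : N => (((1 : N →* ℂˣ) g : ℂˣ) : ℂ)) = fun _ => 1 := by
            ext n; simp
          rw [h7] at h5
          rw [h5, mul_zero]) P
        have h3 : derivedSeries ↥(P : Subgroup G) 1 ≤ N.subgroupOf (P : Subgroup G) := by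
          rw [derivedSeries_one, _root_.commutator_def, Subgroup.commutator_le]
          intro a _ b _
          rw [Subgroup.mem_subgroupOf]
          exact hg a a.2 b b.2
        have h4 := derived_two hAP h3
        by_cases h5 : Nat.card {χ : IrrCharacter G // p ∣ charDegree (χ : G → ℂ)} = 0
        · rw [h5]
          have h6 : ∀ χ : IrrCharacter G, ¬ p ∣ charDegree (χ : G → ℂ) := by
            intro χ hχ
            have : 0 < Nat.card {χ : IrrCharacter G // p ∣ charDegree (χ : G → ℂ)} := by
              haveI : Nonempty {χ : IrrCharacter G // p ∣ charDegree (χ : G → ℂ)} := ⟨⟨χ, hχ⟩⟩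
              exact Nat.card_pos
            omega
          have h7 := H7.ItoP.sylow_normal _ G rfl hsolv h6 P
          have h8 := H7.ItoP.sylow_comm P h7 h6
          rw [zero_add, derivedSeries_one, _root_.commutator_def, eq_bot_iff, Subgroup.commutator_le]
          intro a _ b _
          rw [Subgroup.mem_bot, commutatorElement_def, h8 a b]
          group
        · rw [eq_bot_iff] at h4 ⊢
          exact (derivedSeries_antitone _ (by omega)).trans h4
    · set K := pPrimeCore p G with hKdef
      haveI hK : K.Normal := inferInstance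
      have h1 := derived_quot K (P : Subgroup G) _ (hIH K h)
      have h2 : K.subgroupOf (P : Subgroup G) = ⊥ := by
        rw [Subgroup.subgroupOf_eq_bot]
        have hKc : (Nat.card K).Coprime p := Cfsg.Agent.H1.pPrimeCore_coprime p G
        rw [disjoint_iff]
        apply Subgroup.inf_eq_bot_of_coprime
        obtain ⟨k, hk⟩ := IsPGroup.iff_card.1 P.2
        rw [hk]
        exact Nat.Coprime.pow_right _ hKc
      rw [h2] at h1
      rw [eq_bot_iff]
      refine le_trans (derivedSeries_antitone _ ?_) h1
      have := (card_quot_le (p := p) K).trans (hinj K)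
      omega

/-- Let p be a prime, G a finite p-solvable group and P a Sylow p-subgroup of G. If n is the number of irreducible complex characters of G whose degree is divisible by p, then the (n+1)-st term of the derived series of P is trivial. (The p-solvable case has a direct inductive proof.) -/
theorem result {G : Type*} [Group G] [Finite G] (p : ℕ) [Fact p.Prime] (hG : Cfsg.IsPSolvable p G) (P : Sylow p G) : derivedSeries ↥(P : Subgroup G) (Nat.card {χ : Cfsg.IrrCharacter G // p ∣ Cfsg.charDegree (χ : G → ℂ)} + 1) = ⊥ := by
  exact main _ G rfl hG P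

end Cfsg.Agent.S4768
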