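import Cfsg.Statements.S4784
import Cfsg.Agent.H27.AD5
import Cfsg.Agent.H3.Gallagher2
import Cfsg.Agent.H20.ZS2
import Cfsg.Agent.H3.Counting
import Cfsg.Agent.H27.KerCnt

set_option autoImplicit false
open Cfsg

namespace Cfsg.Agent.S4784

open Subgroup Cfsg.Agent.H27 Cfsg.Agent.H3 Cfsg.Agent.H20.Zass
open scoped ComplexConjugate


/-- Let H be a subgroup of the finite group G and consider the permutation character of G on the cosets of H (the function induced from the principal character of H). Then exactly one irreducible constituent of it is real-valued with Frobenius–Schur indicator +1 (namely the principal character) if and only if the normal core of H has odd index in G. -/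
theorem result {G : Type*} [Group G] [Fintype G] (H : Subgroup G) : Nat.card {χ : Cfsg.IrrCharacter G // Cfsg.classInner (Cfsg.indFun H (fun _ : H => (1 : ℂ))) (χ : G → ℂ) ≠ 0 ∧ (∀ g : G, (starRingEnd ℂ) ((χ : G → ℂ) g) = (χ : G → ℂ) g) ∧ (Nat.card G : ℂ)⁻¹ * ∑ g : G, (χ : G → ℂ) (g * g) = 1} = 1 ↔ Odd H.normalCore.index := by
  classical
  haveI := Fintype.ofFinite (IrrCharacter G)
  set π : G → ℂ := indFun H (fun _ : H => (1 : ℂ)) with hπ
  have hπc : IsCharacter G π := isChar_ind H isChar_one
  -- multiplicities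
  have hn : ∀ χ : IrrCharacter G, ∃ n : ℕ, classInner π (χ : G → ℂ) = n := fun χ =>
    classInner_char_nat hπc (irr_isChar χ.2)
  choose n hn using hn
  have hν : ∀ χ : IrrCharacter G, (Nat.card G : ℂ)⁻¹ * ∑ g : G, (χ : G → ℂ) (g * g) =
      fsInd (χ : G → ℂ) := fun χ => rfl
  have hreal : ∀ χ : IrrCharacter G, fsInd (χ : G → ℂ) = 1 →
      ∀ g : G, conj ((χ : G → ℂ) g) = (χ : G → ℂ) g := by
    intro χ h
    by_contra hcon
    have h1 := (frobenius_schur χ.2).1 (fun heq => hcon fun g => (congrFun heq g).symm)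
    rw [h1] at h
    exact zero_ne_one h
  have hone : classInner π ((oneIrr G : IrrCharacter G) : G → ℂ) = 1 := by
    haveI := Fintype.ofFinite H
    rw [hπ, frobenius_reciprocity H _ (irr_classFun (oneIrr G).2)]
    exact classInner_self_of_irr (oneIrr H).2
  have hone' : fsInd ((oneIrr G : IrrCharacter G) : G → ℂ) = 1 := by
    unfold fsInd
    simp only [oneIrr_apply, Finset.sum_const, Finset.card_univ, nsmul_eq_mul, mul_one,
      ← Nat.card_eq_fintype_card]
    exact inv_mul_cancel₀ card_ne_zeroC
  have hmem1 : classInner π ((oneIrr G : IrrCharacter G) : G → ℂ) ≠ 0 ∧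
      (∀ g : G, conj (((oneIrr G : IrrCharacter G) : G → ℂ) g) = ((oneIrr G : IrrCharacter G) : G → ℂ) g) ∧
      (Nat.card G : ℂ)⁻¹ * ∑ g : G, ((oneIrr G : IrrCharacter G) : G → ℂ) (g * g) = 1 :=
    ⟨by rw [hone]; exact one_ne_zero, hreal _ hone', hone'⟩
  constructor
  · intro hcard
    rw [Nat.card_eq_one_iff_unique] at hcard
    obtain ⟨hsub, -⟩ := hcard
    have huniq : ∀ χ : IrrCharacter G, n χ ≠ 0 → fsInd (χ : G → ℂ) = 1 → χ = oneIrr G := by
      intro χ h1 h2
      have h3 : classInner π (χ : G → ℂ) ≠ 0 := by rw [hn]; exact_mod_cast h1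
      exact congrArg Subtype.val (hsub.allEq ⟨χ, h3, hreal χ h2, h2⟩ ⟨oneIrr G, hmem1⟩)
    have hexp := fs_expand (F := π) (char_classFun hπc)
    -- upper bound for the right hand side
    have hle : (∑ χ : IrrCharacter G, classInner π (χ : G → ℂ) * fsInd (χ : G → ℂ)).re ≤ 1 := by
      rw [Complex.re_sum, ← Finset.add_sum_erase _ _ (Finset.mem_univ (oneIrr G))]
      rw [hone, hone', one_mul, Complex.one_re]
      have : ∑ χ ∈ Finset.univ.erase (oneIrr G), (classInner π (χ : G → ℂ) * fsInd (χ : G → ℂ)).re ≤ 0 := by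
        refine Finset.sum_nonpos fun χ hχ => ?_
        have hne := (Finset.mem_erase.mp hχ).1
        rw [hn χ]
        by_cases h0 : n χ = 0
        · rw [h0]; simp
        · have h1 : fsInd (χ : G → ℂ) ≠ 1 := fun h => hne (huniq χ h0 h)
          have h2 : fsInd (χ : G → ℂ) = 0 ∨ fsInd (χ : G → ℂ) = -1 := by
            by_cases hr : (χ : G → ℂ) = fun g => conj ((χ : G → ℂ) g)
            · exact Or.inr (((frobenius_schur χ.2).2 hr).resolve_left h1)
            · exact Or.inl ((frobenius_schur χ.2).1 hr)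
          rcases h2 with h2 | h2
          · rw [h2]; simp
          · rw [h2]; simp
      linarith
    -- the left hand side
    have hL : (Nat.card G : ℂ)⁻¹ * ∑ g : G, π (g * g) =
        (Nat.card H : ℂ)⁻¹ * ((Finset.univ.filter fun g : G => g * g ∈ H).card : ℂ) := by
      have h1 : ∀ g : G, π g = (Nat.card H : ℂ)⁻¹ * ∑ y : G, if y⁻¹ * g * y ∈ H then (1 : ℂ) else 0 := by
        intro g
        rw [hπ, indFun]
        congr 1
        refine Finset.sum_congr rfl fun y _ => ?_
        by_cases hy : y⁻¹ * g * y ∈ H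
        · rw [extendByZero_mem H _ hy, if_pos hy]
        · rw [extendByZero_not_mem H _ hy, if_neg hy]
      have h2 : ∑ g : G, π (g * g) = (Nat.card H : ℂ)⁻¹ * ((Nat.card G : ℂ) *
          ((Finset.univ.filter fun g : G => g * g ∈ H).card : ℂ)) := by
        simp only [h1]
        rw [← Finset.mul_sum, Finset.sum_comm]
        congr 1
        have h3 : ∀ y : G, ∑ g : G, (if y⁻¹ * (g * g) * y ∈ H then (1 : ℂ) else 0) =
            ((Finset.univ.filter fun g : G => g * g ∈ H).card : ℂ) := by
          intro y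
          rw [← Finset.sum_boole]
          refine Fintype.sum_equiv (MulAut.conj y⁻¹).toEquiv _ _ fun g => ?_
          have : (MulAut.conj y⁻¹).toEquiv g * (MulAut.conj y⁻¹).toEquiv g = y⁻¹ * (g * g) * y := by
            show (y⁻¹ * g * y⁻¹⁻¹) * (y⁻¹ * g * y⁻¹⁻¹) = _
            group
          rw [this]
        rw [Finset.sum_congr rfl fun y _ => h3 y, Finset.sum_const, Finset.card_univ, nsmul_eq_mul,
          Nat.card_eq_fintype_card]
      rw [h2]
      have hG : (Nat.card G : ℂ) ≠ 0 := card_ne_zeroC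
      field_simp
    have hcnt : (Finset.univ.filter fun g : G => g * g ∈ H).card ≤ Nat.card H := by
      rw [← hexp, hL] at hle
      have h1 : ((Nat.card H : ℂ)⁻¹ * ((Finset.univ.filter fun g : G => g * g ∈ H).card : ℂ)).re =
          (Nat.card H : ℝ)⁻¹ * ((Finset.univ.filter fun g : G => g * g ∈ H).card : ℝ) := by
        rw [show (Nat.card H : ℂ)⁻¹ * ((Finset.univ.filter fun g : G => g * g ∈ H).card : ℂ) =
          (((Nat.card H : ℝ)⁻¹ * ((Finset.univ.filter fun g : G => g * g ∈ H).card : ℝ) : ℝ) : ℂ) by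
            push_cast; rfl, Complex.ofReal_re]
      rw [h1] at hle
      have h2 : (0 : ℝ) < Nat.card H := by exact_mod_cast Nat.card_pos
      rw [inv_mul_le_iff₀ h2, mul_one] at hle
      exact_mod_cast hle
    have hsq : ∀ g : G, g * g ∈ H → g ∈ H := by
      have h1 : (Finset.univ.filter fun g : G => g ∈ H) = (Finset.univ.filter fun g : G => g * g ∈ H) := by
        apply Finset.eq_of_subset_of_card_le
        · intro g hg
          rw [Finset.mem_filter] at hg ⊢
          exact ⟨hg.1, H.mul_mem hg.2 hg.2⟩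
        · refine hcnt.trans (le_of_eq ?_)
          rw [Nat.card_eq_fintype_card, Fintype.card_subtype]
      intro g hg
      have h2 : g ∈ (Finset.univ.filter fun g : G => g ∈ H) := by
        rw [h1, Finset.mem_filter]; exact ⟨Finset.mem_univ _, hg⟩
      exact (Finset.mem_filter.mp h2).2
    have h2el : ∀ (k : ℕ) (g : G), g ^ 2 ^ k = 1 → g ∈ H := by
      intro k
      induction k with
      | zero => intro g hg; rw [pow_zero, pow_one] at hg; rw [hg]; exact H.one_mem
      | succ k ih =>
        intro g hg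
        apply hsq
        apply ih
        rw [← pow_two, ← pow_mul, mul_comm, ← pow_succ]
        exact hg
    haveI : Fact (Nat.Prime 2) := ⟨Nat.prime_two⟩
    obtain ⟨P⟩ := (inferInstance : Nonempty (Sylow 2 G))
    have hPK : (P : Subgroup G) ≤ H.normalCore := by
      intro g hg
      have h1 : g ∈ {a : G | ∀ b : G, b * a * b⁻¹ ∈ H} := by
        intro b
        obtain ⟨k, hk⟩ := P.2 ⟨g, hg⟩
        have hk' : g ^ 2 ^ k = 1 := congrArg Subtype.val hk
        apply h2el k
        rw [conj_pow, hk']; group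
      exact h1
    have h3 : ¬ 2 ∣ (P : Subgroup G).index := P.not_dvd_index
    rw [← Nat.not_even_iff_odd]
    intro he
    exact h3 (he.two_dvd.trans (index_dvd_of_le hPK))
  · intro hodd
    set K := H.normalCore with hK
    haveI : K.Normal := H.normalCore_normal
    haveI := Fintype.ofFinite K
    haveI := Fintype.ofFinite H
    have hKH : K ≤ H := H.normalCore_le
    rw [Nat.card_eq_one_iff_unique]
    refine ⟨⟨?_⟩, ⟨⟨oneIrr G, hmem1⟩⟩⟩
    have hall : ∀ χ : IrrCharacter G, classInner π (χ : G → ℂ) ≠ 0 →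
        (∀ g : G, conj ((χ : G → ℂ) g) = (χ : G → ℂ) g) → χ = oneIrr G := by
      intro χ h1 h2
      -- `1_H` is a constituent of the restriction
      have h3 : classInner (fun h : H => (χ : G → ℂ) h) (fun _ : H => (1 : ℂ)) ≠ 0 := by
        have h4 := frobenius_reciprocity H (fun _ : H => (1 : ℂ)) (irr_classFun χ.2)
        rw [h4] at h1
        exact classInner_ne_zero_symm h1
      have h5 : classInner (fun k : K => (χ : G → ℂ) k) (fun _ : K => (1 : ℂ)) ≠ 0 := by
        refine over_trans (K := H) (N := K) hKH (irr_isChar χ.2) (oneIrr H).2 (oneIrr K).2 h3 ?_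
        have h6 := classInner_self_of_irr (oneIrr K).2
        intro h0
        exact one_ne_zero (h6.symm.trans h0)
      have h6 : ∀ n ∈ K, (χ : G → ℂ) n = (χ : G → ℂ) 1 := by
        have h7 := (over_one_iff (N := K) inferInstance χ.2).mp (by
          rw [frobenius_reciprocity K (fun _ : K => (1 : ℂ)) (irr_classFun χ.2)]
          exact classInner_ne_zero_symm h5)
        exact fun n hn => h7 ⟨n, hn⟩
      obtain ⟨ψ, hψ, hψχ⟩ := exists_quotient_irr χ.2 h6
      have hoddQ : Odd (Nat.card (G ⧸ K)) := hodd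
      have h8 := irr_real_of_odd hoddQ ⟨ψ, hψ⟩ (by
        apply Subtype.ext
        funext q
        obtain ⟨g, rfl⟩ := QuotientGroup.mk_surjective q
        show conj (ψ g) = ψ g
        rw [← hψχ, h2])
      apply Subtype.ext
      funext g
      rw [hψχ g]
      exact congrFun h8 _
    rintro ⟨χ, h1, h2, h3⟩ ⟨χ', h1', h2', h3'⟩
    apply Subtype.ext
    exact (hall χ h1 h2).trans (hall χ' h1' h2').symm

end Cfsg.Agent.S4784
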