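import Cfsg.Statements.S4796
import Cfsg.Agent.H27.ClifN
import Cfsg.Agent.H1.FrobComp

set_option autoImplicit false
open Cfsg

namespace Cfsg.Agent.S4796

open Subgroup Cfsg.Agent.H27 Cfsg.Agent.H3
open scoped Pointwise


/-- Let G be a finite group with a faithful irreducible complex character χ whose codegree #G / χ(1) is a prime p (for a faithful character the kernel is trivial, so the codegree is #G / χ(1)). Then either G is cyclic of order p, or G is a Frobenius group whose Frobenius kernel has order p: some proper non-trivial subgroup H satisfies H ∩ gHg⁻¹ = 1 for every element g outside H, and the set of elements lying in no conjugate of H, together with the identity, has exactly p elements. -/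
theorem result {G : Type*} [Group G] [Finite G] (χ : Cfsg.IrrCharacter G) (hfaith : ∀ g : G, (χ : G → ℂ) g = (χ : G → ℂ) 1 → g = 1) (p : ℕ) (hp : p.Prime) (hcod : Nat.card G = p * Cfsg.charDegree (χ : G → ℂ)) : (IsCyclic G ∧ Nat.card G = p) ∨ ∃ H : Subgroup G, Cfsg.IsFrobeniusComplement H ∧ Nat.card ↥(Cfsg.frobeniusKernel H) = p := by
  classical
  haveI : Fact p.Prime := ⟨hp⟩
  haveI := Fintype.ofFinite G
  set d := charDegree (χ : G → ℂ) with hd
  have hd0 : 0 < d := charDegree_pos χ.2
  have hdc : (d : ℂ) = (χ : G → ℂ) 1 := charDegree_cast (irr_isChar χ.2)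
  have hpG : p ∣ Nat.card G := ⟨d, hcod⟩
  have hχ1 : (χ : G → ℂ) ≠ fun _ => 1 := by
    intro h
    obtain ⟨g, hg⟩ := exists_prime_orderOf_dvd_card' p hpG
    have h1 := hfaith g (by rw [h])
    rw [h1, orderOf_one] at hg
    exact hp.one_lt.ne hg
  have hdp : d < p := by
    have h1 := degree_sq_lt χ.2 hχ1
    rw [← hd, hcod] at h1
    by_contra h
    push Not at h
    have : p * d ≤ d ^ 2 := by rw [pow_two]; exact Nat.mul_le_mul_right d h
    omega
  have hpd : ¬ p ∣ d := fun h => absurd (Nat.le_of_dvd hd0 h) (not_le.mpr hdp)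
  have hfac : (Nat.card G).factorization p = 1 := by
    rw [hcod, Nat.factorization_mul hp.ne_zero hd0.ne', Finsupp.add_apply,
      hp.factorization_self, Nat.factorization_eq_zero_of_not_dvd hpd]
  obtain ⟨P⟩ := (inferInstance : Nonempty (Sylow p G))
  have hPc : Nat.card (P : Subgroup G) = p := by
    rw [P.card_eq_multiplicity, hfac, pow_one]
  have hPi : (P : Subgroup G).index = d := by
    have h1 := card_mul_index (P : Subgroup G)
    rw [hPc, hcod] at h1
    exact Nat.eq_of_mul_eq_mul_left hp.pos h1
  -- `P` is normal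
  have hPn : (P : Subgroup G).Normal := by
    have h1 : Nat.card (Sylow p G) ∣ d := by rw [← hPi]; exact P.card_dvd_index
    have h2 : Nat.card (Sylow p G) ≡ 1 [MOD p] := card_sylow_modEq_one p G
    have h3 : Nat.card (Sylow p G) < p := lt_of_le_of_lt (Nat.le_of_dvd hd0 h1) hdp
    have h4 : Nat.card (Sylow p G) = 1 := by
      have h5 : Nat.card (Sylow p G) % p = 1 % p := h2
      rwa [Nat.mod_eq_of_lt h3, Nat.mod_eq_of_lt hp.one_lt] at h5
    haveI : Subsingleton (Sylow p G) := (Nat.card_eq_one_iff_unique.mp h4).1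
    exact P.normal_of_subsingleton
  haveI := Fintype.ofFinite (P : Subgroup G)
  -- `P` abelian
  haveI hPcyc : IsCyclic (P : Subgroup G) := isCyclic_of_prime_card hPc
  haveI : IsMulCommutative (P : Subgroup G) := IsCyclic.commutative
  -- a constituent
  have h0 : (fun x : (P : Subgroup G) => (χ : G → ℂ) x) ≠ 0 := by
    intro h
    exact irr_one_ne_zero χ.2 (congrFun h 1)
  obtain ⟨θ, hθ⟩ := exists_constituent (isChar_restrict (P : Subgroup G) (irr_isChar χ.2)) h0
  obtain ⟨e, he⟩ := classInner_char_nat (isChar_restrict (P : Subgroup G) (irr_isChar χ.2))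
    (irr_isChar θ.2)
  have he0 : e ≠ 0 := by rintro rfl; rw [Nat.cast_zero] at he; exact hθ he
  have hθ1 : (θ : ↥(P : Subgroup G) → ℂ) 1 = 1 := irr_degree_one_of_comm θ.2
  have hineq := clifford_ineq hPn χ.2 θ.2 he he0
  have hdeg := clifford_degree hPn χ.2 θ.2 hθ
  set I := inertia hPn (θ : ↥(P : Subgroup G) → ℂ) with hI
  have hde : d = e * I.index := by
    have : (d : ℂ) = ((e * I.index : ℕ) : ℂ) := by
      rw [hdc, hdeg, he, hθ1]; push_cast; ring
    exact_mod_cast this
  have hIpos : 0 < I.index := Nat.pos_of_ne_zero index_ne_zero_of_finite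
  have he1 : e = 1 := by
    rw [hPi, hde] at hineq
    have h1 : e * (e * I.index) ≤ 1 * (e * I.index) := by
      calc e * (e * I.index) = e ^ 2 * I.index := by ring
        _ ≤ e * I.index := hineq
        _ = 1 * (e * I.index) := by ring
    have h2 := Nat.le_of_mul_le_mul_right h1 (Nat.mul_pos (Nat.pos_of_ne_zero he0) hIpos)
    omega
  have hIi : I.index = (P : Subgroup G).index := by rw [hPi, hde, he1, one_mul]
  have hPI : (P : Subgroup G) ≤ I := le_inertia hPn (irr_classFun θ.2)
  have hIP : I = (P : Subgroup G) := by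
    refine (eq_of_le_of_card_ge hPI ?_).symm
    have h1 := card_mul_index I
    have h2 := card_mul_index (P : Subgroup G)
    rw [hIi, ← h2] at h1
    exact (Nat.eq_of_mul_eq_mul_right (Nat.pos_of_ne_zero index_ne_zero_of_finite) h1).le
  -- the centralizer of `P` is `P`
  have hCI : ∀ c : G, (∀ x ∈ (P : Subgroup G), c * x = x * c) → c ∈ (P : Subgroup G) := by
    intro c hc
    rw [← hIP, hI, mem_inertia]
    funext x
    rw [cj_apply]
    have : (⟨c * x * c⁻¹, hPn.conj_mem x x.2 c⟩ : (P : Subgroup G)) = x := by
      apply Subtype.ext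
      show c * (x : G) * c⁻¹ = x
      rw [hc x x.2, mul_inv_cancel_right]
    rw [this]
  by_cases hd1 : d = 1
  · left
    rw [hd1, mul_one] at hcod
    exact ⟨isCyclic_of_prime_card hcod, hcod⟩
  · right
    -- a complement
    obtain ⟨H, hH⟩ := Subgroup.exists_right_complement'_of_coprime (N := (P : Subgroup G)) (by
      rw [hPc, hPi]
      exact (Nat.Prime.coprime_iff_not_dvd hp).mpr hpd)
    have hHi : H.index = p := by rw [hH.index_eq_card, hPc]
    have hHc : Nat.card H = d := by rw [← hPi]; exact hH.symm.index_eq_card.symm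
    have hdisj : (P : Subgroup G) ⊓ H = ⊥ := hH.isCompl.inf_eq_bot
    have hcompl : IsFrobeniusComplement H := by
      refine ⟨?_, ?_, ?_⟩
      · rintro rfl
        rw [card_bot] at hHc
        exact hd1 hHc.symm
      · rintro rfl
        rw [index_top] at hHi
        exact hp.one_lt.ne hHi
      · intro g hg
        -- write `g = x h`
        obtain ⟨⟨x, h⟩, hxh⟩ := hH.2 g
        have hxh' : (x : G) * (h : G) = g := hxh
        have hx1 : (x : G) ≠ 1 := by
          intro h1
          apply hg
          rw [← hxh', h1, one_mul]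
          exact h.2
        rw [eq_bot_iff]
        intro w hw
        obtain ⟨hw1, hw2⟩ := mem_inf.mp hw
        rw [mem_bot]
        obtain ⟨v, hv, hvw⟩ := (mem_smul_pointwise_iff_exists w _ H).mp hw2
        have hvw' : g * v * g⁻¹ = w := hvw
        -- `x⁻¹ w x ∈ H`
        have h2 : (x : G)⁻¹ * w * x ∈ H := by
          have : (x : G)⁻¹ * w * x = (h : G) * v * (h : G)⁻¹ := by
            rw [← hvw', ← hxh']; group
          rw [this]
          exact H.mul_mem (H.mul_mem h.2 hv) (H.inv_mem h.2)
        have h3 : w⁻¹ * ((x : G)⁻¹ * w * x) ∈ (P : Subgroup G) ⊓ H := by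
          refine mem_inf.mpr ⟨?_, H.mul_mem (H.inv_mem hw1) h2⟩
          have h4 : w⁻¹ * ((x : G)⁻¹ * w * x) = (w⁻¹ * (x : G)⁻¹ * w) * x := by group
          rw [h4]
          refine mul_mem ?_ x.2
          have := hPn.conj_mem (x : G)⁻¹ (inv_mem x.2) w⁻¹
          rwa [inv_inv] at this
        rw [hdisj, mem_bot] at h3
        have h5 : w * (x : G) = x * w := by
          have h6 : (x : G)⁻¹ * w * x = w := (inv_mul_eq_one.mp h3).symm
          calc w * (x : G) = ((x : G) * ((x : G)⁻¹ * w * x)) := by group
            _ = x * w := by rw [h6]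
        -- `w` centralizes `P = ⟨x⟩`
        have h7 : w ∈ (P : Subgroup G) := by
          apply hCI
          intro y hy
          have h8 : zpowers (x : G) = (P : Subgroup G) := by
            apply eq_of_le_of_card_ge (zpowers_le.mpr x.2)
            rw [hPc, Nat.card_zpowers]
            have h9 : orderOf (x : G) ∣ p := by
              have := orderOf_dvd_natCard (⟨(x : G), x.2⟩ : (P : Subgroup G))
              rwa [hPc, ← Subgroup.orderOf_coe] at this
            rcases (Nat.dvd_prime hp).mp h9 with h10 | h10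
            · exact absurd (orderOf_eq_one_iff.mp h10) hx1
            · exact h10.ge
          rw [← h8] at hy
          obtain ⟨k, rfl⟩ := mem_zpowers_iff.mp hy
          exact Commute.zpow_right h5 k
        have h8 : w ∈ (P : Subgroup G) ⊓ H := mem_inf.mpr ⟨h7, hw1⟩
        rw [hdisj, mem_bot] at h8
        exact h8
    exact ⟨H, hcompl, by rw [Cfsg.Agent.H1.frob_card_kernel hcompl, hHi]⟩

end Cfsg.Agent.S4796
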