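import Cfsg.Statements.S4797
import Cfsg.Agent.H27.Codeg

set_option autoImplicit false
open Cfsg

namespace Cfsg.Agent.S4797

open Subgroup Cfsg.Agent.H27 Cfsg.Agent.H3
open scoped Pointwise


/-- The codegree of an irreducible complex character χ of a finite group G is [G : ker χ] / χ(1), where ker χ is the set of elements at which χ takes the value χ(1). A non-trivial finite group is perfect if and only if no irreducible complex character of it has prime codegree. -/
theorem result {G : Type*} [Group G] [Finite G] [Nontrivial G] : commutator G = ⊤ ↔ ∀ χ : Cfsg.IrrCharacter G, ¬ ((Nat.card G / (Nat.card {g : G // (χ : G → ℂ) g = (χ : G → ℂ) 1} * Cfsg.charDegree (χ : G → ℂ)))).Prime := by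
  classical
  constructor
  · intro hperf χ hq
    set K := charKer (irr_isChar χ.2) with hK
    haveI hKn : K.Normal := charKer_normal _
    have hKc : Nat.card {g : G // (χ : G → ℂ) g = (χ : G → ℂ) 1} = Nat.card K := card_charKer _
    rw [hKc] at hq
    have hdvd : charDegree (χ : G → ℂ) ∣ K.index := charDegree_dvd_index_ker χ.2
    obtain ⟨q, hqe⟩ := hdvd
    have hcG : Nat.card G = Nat.card K * (charDegree (χ : G → ℂ) * q) := by
      rw [← hqe, card_mul_index]
    have hd0 : 0 < charDegree (χ : G → ℂ) := charDegree_pos χ.2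
    have hq' : Nat.card G / (Nat.card K * charDegree (χ : G → ℂ)) = q := by
      rw [hcG, ← mul_assoc]
      exact Nat.mul_div_cancel_left q (Nat.mul_pos Nat.card_pos hd0)
    rw [hq'] at hq
    obtain ⟨ψ, hψ, hψχ⟩ := exists_quotient_irr (N := K) χ.2 (fun n hn => hn)
    have hdeg : charDegree ψ = charDegree (χ : G → ℂ) := by
      have h1 := charDegree_cast (irr_isChar hψ)
      have h2 := charDegree_cast (irr_isChar χ.2)
      have h3 : (charDegree ψ : ℂ) = charDegree (χ : G → ℂ) := by
        rw [h1, h2]
        exact (hψχ 1).symm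
      exact_mod_cast h3
    have hfaith : ∀ g : G ⧸ K, ψ g = ψ 1 → g = 1 := by
      intro g hg
      obtain ⟨g, rfl⟩ := QuotientGroup.mk_surjective g
      rw [QuotientGroup.eq_one_iff]
      show (χ : G → ℂ) g = (χ : G → ℂ) 1
      rw [hψχ, hψχ, hg]; rfl
    have hcod : Nat.card (G ⧸ K) = q * charDegree ψ := by
      rw [hdeg, mul_comm, ← hqe]; rfl
    obtain ⟨P, hPn, hPc, hPi, hlt, hC⟩ := codeg_prime ⟨ψ, hψ⟩ hfaith q hq hcod
    haveI : Fact q.Prime := ⟨hq⟩
    have hcyc : IsCyclic P := isCyclic_of_prime_card hPc
    have h1 := commutator_le_of_selfcent hPn hcyc hC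
    have hperf' : commutator (G ⧸ K) = ⊤ := by
      have h2 : (commutator G).map (QuotientGroup.mk' K) = commutator (G ⧸ K) := by
        rw [_root_.commutator_def, map_commutator, ← MonoidHom.range_eq_map,
          MonoidHom.range_eq_top.mpr (QuotientGroup.mk'_surjective K)]
        rfl
      rw [← h2, hperf, ← MonoidHom.range_eq_map, MonoidHom.range_eq_top.mpr (QuotientGroup.mk'_surjective K)]
    rw [hperf', top_le_iff] at h1
    -- `G ⧸ K = P` is abelian
    have h3 : commutator (G ⧸ K) = ⊥ := by
      rw [_root_.commutator_def, commutator_eq_bot_iff_le_centralizer]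
      intro a _
      rw [mem_centralizer_iff]
      intro b _
      haveI : IsMulCommutative P := hcyc.commutative
      have h4 := (inferInstance : IsMulCommutative P).is_comm.comm ⟨b, by rw [h1]; exact mem_top b⟩
        ⟨a, by rw [h1]; exact mem_top a⟩
      exact congrArg Subtype.val h4
    rw [hperf'] at h3
    have h5 : Nat.card P = 1 := by rw [h1, h3]; exact card_bot
    rw [hPc] at h5
    exact hq.one_lt.ne' h5
  · intro hall
    by_contra hne
    obtain ⟨q, μ, hq, hidx⟩ := exists_hom_prime hne
    apply hall (linIrr μ)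
    have h1 : Nat.card {g : G // (linIrr μ : G → ℂ) g = (linIrr μ : G → ℂ) 1} = Nat.card μ.ker := by
      refine Nat.card_congr (Equiv.subtypeEquivRight fun g => ?_)
      rw [linIrr_apply, linIrr_apply, map_one, Units.val_one, MonoidHom.mem_ker]
      exact ⟨fun h => Units.ext h, fun h => by rw [h]; rfl⟩
    have h2 : charDegree (linIrr μ : G → ℂ) = 1 := by
      have h3 := charDegree_cast (irr_isChar (linIrr μ).2)
      rw [linIrr_apply, map_one, Units.val_one] at h3
      exact_mod_cast h3
    rw [h1, h2, mul_one, ← card_mul_index μ.ker, Nat.mul_div_cancel_left _ Nat.card_pos, hidx]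
    exact hq

end Cfsg.Agent.S4797
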