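import Cfsg.Statements.S4798
import Cfsg.Agent.H3.Berger1
import Cfsg.Agent.H27.Kernel
import Cfsg.Agent.H27.CentralChar
import Cfsg.Agent.H27.Util

set_option autoImplicit false
open Cfsg

namespace Cfsg.Agent.S4798

open Cfsg.Agent.H3 Cfsg.Agent.H27

/-- Let p be a prime and χ a faithful irreducible complex character of the finite group G (χ(g) = χ(1) only for g = 1), so that its codegree is #G / χ(1). Then #G / χ(1) is a power of p if and only if χ is induced from a character of a Sylow p-subgroup of G. -/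
theorem result {G : Type*} [Group G] [Fintype G] (p : ℕ) [Fact p.Prime] (χ : Cfsg.IrrCharacter G) (hfaith : ∀ g : G, (χ : G → ℂ) g = (χ : G → ℂ) 1 → g = 1) : (∃ k : ℕ, Nat.card G = p ^ k * Cfsg.charDegree (χ : G → ℂ)) ↔ ∃ (P : Sylow p G) (θ : ↥(P : Subgroup G) → ℂ), Cfsg.IsCharacter ↥(P : Subgroup G) θ ∧ (χ : G → ℂ) = Cfsg.indFun (P : Subgroup G) θ := by
  classical
  have hp : p.Prime := Fact.out
  have hχc := irr_isChar χ.2
  constructor
  · rintro ⟨k, hk⟩
    obtain ⟨P⟩ : Nonempty (Sylow p G) := inferInstance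
    refine ⟨P, ?_⟩
    haveI := Fintype.ofFinite (P : Subgroup G)
    haveI := Fintype.ofFinite (IrrCharacter (P : Subgroup G))
    obtain ⟨n, hn⟩ := P.isPGroup'.exists_card_eq
    have hidx := Subgroup.index_mul_card (P : Subgroup G)
    have hnd : ¬ p ∣ (P : Subgroup G).index := P.not_dvd_index
    have hcop : (p ^ k).Coprime (P : Subgroup G).index :=
      Nat.Coprime.pow_left k ((Nat.Prime.coprime_iff_not_dvd hp).mpr hnd)
    have hkn : k ≤ n := by
      have h1 : p ^ k ∣ (P : Subgroup G).index * p ^ n := by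
        rw [← hn, hidx, hk]; exact Dvd.intro _ rfl
      exact (Nat.pow_dvd_pow_iff_le_right hp.one_lt).mp (hcop.dvd_of_dvd_mul_left h1)
    have hdeg : charDegree (χ : G → ℂ) = (P : Subgroup G).index * p ^ (n - k) := by
      have h1 : p ^ k * charDegree (χ : G → ℂ) = p ^ k * ((P : Subgroup G).index * p ^ (n - k)) := by
        rw [← hk, ← hidx, hn, mul_left_comm, ← pow_add, Nat.add_sub_cancel' hkn]
      exact Nat.eq_of_mul_eq_mul_left (pow_pos hp.pos k) h1
    have hres := isChar_restrict (P : Subgroup G) hχc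
    have key : ∀ φ : IrrCharacter (P : Subgroup G),
        classInner (fun x : (P : Subgroup G) => (χ : G → ℂ) x) (φ : ↥(P : Subgroup G) → ℂ) ≠ 0 →
          charDegree (χ : G → ℂ) ≤ (P : Subgroup G).index * charDegree (φ : ↥(P : Subgroup G) → ℂ) := by
      intro φ hφ
      have h1 : classInner (indFun (P : Subgroup G) (φ : ↥(P : Subgroup G) → ℂ)) (χ : G → ℂ) ≠ 0 := by
        rw [frobenius_reciprocity (P : Subgroup G) _ (irr_classFun χ.2)]
        exact classInner_ne_zero_symm hφ
      obtain ⟨j, hj⟩ := classInner_char_nat (isChar_ind (P : Subgroup G) (irr_isChar φ.2)) hχc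
      have h2 := char_mult_degree_le (isChar_ind (P : Subgroup G) (irr_isChar φ.2)) χ.2 hj
        (m := (P : Subgroup G).index * charDegree (φ : ↥(P : Subgroup G) → ℂ))
        (n := charDegree (χ : G → ℂ)) (by
          rw [indFun_one_apply, ← charDegree_cast (irr_isChar φ.2)]; push_cast; rfl)
        (charDegree_cast hχc).symm
      have hj0 : j ≠ 0 := by
        rintro rfl
        exact h1 (by rw [hj]; simp)
      exact (Nat.le_mul_of_pos_left _ (Nat.pos_of_ne_zero hj0)).trans h2
    have hpow : ∀ φ : IrrCharacter (P : Subgroup G), ∃ j,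
        charDegree (φ : ↥(P : Subgroup G) → ℂ) = p ^ j := by
      intro φ
      have h1 := charDegree_dvd_card φ.2
      rw [hn] at h1
      obtain ⟨j, -, hj⟩ := (Nat.dvd_prime_pow hp).mp h1
      exact ⟨j, hj⟩
    by_contra hcon
    have hbig : ∀ φ : IrrCharacter (P : Subgroup G),
        classInner (fun x : (P : Subgroup G) => (χ : G → ℂ) x) (φ : ↥(P : Subgroup G) → ℂ) ≠ 0 →
          p ^ (n - k + 1) ∣ charDegree (φ : ↥(P : Subgroup G) → ℂ) := by
      intro φ hφ
      obtain ⟨j, hj⟩ := hpow φ
      have h1 := key φ hφ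
      rw [hdeg, hj] at h1
      have h2 : p ^ (n - k) ≤ p ^ j := Nat.le_of_mul_le_mul_left h1
        (Nat.pos_of_ne_zero Subgroup.index_ne_zero_of_finite)
      have h3 : n - k ≤ j := (Nat.pow_le_pow_iff_right hp.one_lt).mp h2
      rw [hj]
      apply pow_dvd_pow
      by_contra hlt
      have h4 : j = n - k := by omega
      apply hcon
      refine ⟨φ, irr_isChar φ.2, ?_⟩
      symm
      apply char_eq_of_degree (isChar_ind (P : Subgroup G) (irr_isChar φ.2)) χ.2
      · rw [frobenius_reciprocity (P : Subgroup G) _ (irr_classFun χ.2)]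
        exact classInner_ne_zero_symm hφ
      · rw [indFun_one_apply, ← charDegree_cast (irr_isChar φ.2), ← charDegree_cast hχc, hdeg, hj, h4]
        push_cast; rfl
    have hdvd : p ^ (n - k + 1) ∣ charDegree (χ : G → ℂ) := by
      obtain ⟨m, hm, hexp⟩ := char_expand hres
      have h1 : (charDegree (χ : G → ℂ) : ℂ) = ((∑ φ : IrrCharacter (P : Subgroup G),
          m φ * charDegree (φ : ↥(P : Subgroup G) → ℂ) : ℕ) : ℂ) := by
        have h2 := congrFun hexp 1
        rw [Finset.sum_apply] at h2
        rw [charDegree_cast hχc]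
        push_cast
        refine h2.trans (Finset.sum_congr rfl fun φ _ => ?_)
        rw [Pi.smul_apply, smul_eq_mul, charDegree_cast (irr_isChar φ.2)]
      have h3 : charDegree (χ : G → ℂ) = ∑ φ : IrrCharacter (P : Subgroup G),
          m φ * charDegree (φ : ↥(P : Subgroup G) → ℂ) := by exact_mod_cast h1
      rw [h3]
      apply Finset.dvd_sum
      intro φ _
      by_cases h4 : m φ = 0
      · rw [h4, zero_mul]; exact dvd_zero _
      · apply Dvd.dvd.mul_left
        apply hbig
        rw [hm]
        exact_mod_cast h4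
    rw [hdeg, pow_succ, mul_comm (Subgroup.index _)] at hdvd
    exact hnd (Nat.dvd_of_mul_dvd_mul_left (pow_pos hp.pos _) hdvd)
  · rintro ⟨P, θ, hθ, hind⟩
    haveI := Fintype.ofFinite (P : Subgroup G)
    have hθ0 : θ ≠ 0 := by
      rintro rfl
      apply irr_one_ne_zero χ.2
      rw [hind, indFun_one_apply]
      simp
    obtain ⟨φ, hφ⟩ := exists_constituent hθ hθ0
    have h1 := isChar_sub_irr hθ φ.2 hφ
    have h2 : (χ : G → ℂ) = indFun (P : Subgroup G) (φ : ↥(P : Subgroup G) → ℂ) + indFun (P : Subgroup G) (θ - (φ : ↥(P : Subgroup G) → ℂ)) := by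
      rw [← indFun_add, hind]; congr 1; simp
    have h3 := sum_irr χ.2 (isChar_ind (P : Subgroup G) (irr_isChar φ.2))
      (isChar_ind (P : Subgroup G) h1) h2 (by
        intro h
        have h4 := congrFun h 1
        rw [indFun_one_apply] at h4
        have h5 : ((P : Subgroup G).index : ℂ) ≠ 0 := by
          exact_mod_cast Subgroup.index_ne_zero_of_finite
        exact mul_ne_zero h5 (irr_one_ne_zero φ.2) h4)
    rw [h3, add_zero] at h2
    have h4 : charDegree (χ : G → ℂ) = (P : Subgroup G).index * charDegree (φ : ↥(P : Subgroup G) → ℂ) := by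
      have h5 := congrFun h2 1
      rw [indFun_one_apply, ← charDegree_cast (irr_isChar φ.2), ← charDegree_cast hχc] at h5
      exact_mod_cast h5
    obtain ⟨n, hn⟩ := P.isPGroup'.exists_card_eq
    have h5 := charDegree_dvd_card φ.2
    rw [hn] at h5
    obtain ⟨j, hjn, hj⟩ := (Nat.dvd_prime_pow hp).mp h5
    refine ⟨n - j, ?_⟩
    rw [h4, hj, ← Subgroup.index_mul_card (P : Subgroup G), hn, mul_left_comm, ← pow_add,
      Nat.sub_add_cancel hjn]

end Cfsg.Agent.S4798
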