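import Cfsg.Statements.S4801
import Cfsg.Agent.H27.Util

set_option autoImplicit false
open Cfsg

namespace Cfsg.Agent.S4801

/-- The codegree of an irreducible complex character χ of a finite group G is [G : ker χ] / χ(1), where ker χ is the set of elements at which χ takes the value χ(1). Let S be a finite simple group and G a finite group such that every codegree of an irreducible character of S is a codegree of an irreducible character of G. Then the order of S divides the order of G. -/
theorem result {S : Type*} [Group S] [Finite S] (hS : IsSimpleGroup S) {G : Type*} [Group G] [Finite G] (hsub : ∀ χ : Cfsg.IrrCharacter S, ∃ ψ : Cfsg.IrrCharacter G, (Nat.card S / (Nat.card {g : S // (χ : S → ℂ) g = (χ : S → ℂ) 1} * Cfsg.charDegree (χ : S → ℂ))) = (Nat.card G / (Nat.card {g : G // (ψ : G → ℂ) g = (ψ : G → ℂ) 1} * Cfsg.charDegree (ψ : G → ℂ)))) : Nat.card S ∣ Nat.card G := by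
  classical
  have := Fintype.ofFinite S
  have := Fintype.ofFinite G
  have := Fintype.ofFinite (Cfsg.IrrCharacter S)
  refine Nat.eq_zero_or_pos (Nat.card S) |>.elim (fun h => absurd h Nat.card_pos.ne') fun hpos => ?_
  rw [← Nat.factorization_le_iff_dvd Nat.card_pos.ne' Nat.card_pos.ne']
  intro p
  by_cases hp : p.Prime
  swap
  · rw [Nat.factorization_eq_zero_of_not_prime _ hp]; exact Nat.zero_le _
  by_cases hpS : p ∣ Nat.card S
  swap
  · rw [Nat.factorization_eq_zero_of_not_dvd hpS]; exact Nat.zero_le _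
  -- a nonprincipal irreducible character of degree prime to p
  have h1 : ∃ χ : Cfsg.IrrCharacter S, χ ≠ H27.oneIrr S ∧ ¬ p ∣ Cfsg.charDegree (χ : S → ℂ) := by
    by_contra hcon
    push Not at hcon
    have h2 := H27.sum_charDegree_sq (G := S)
    rw [← Finset.add_sum_erase _ _ (Finset.mem_univ (H27.oneIrr S))] at h2
    have h3 : p ∣ ∑ χ ∈ Finset.univ.erase (H27.oneIrr S), Cfsg.charDegree (χ : S → ℂ) ^ 2 :=
      Finset.dvd_sum fun χ hχ => (hcon χ (Finset.ne_of_mem_erase hχ)).trans (dvd_pow_self _ two_ne_zero)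
    rw [← h2] at hpS
    have h4 := (Nat.dvd_add_left h3).mp hpS
    rw [H27.charDegree_oneIrr, one_pow] at h4
    exact hp.one_lt.ne' (Nat.dvd_one.mp h4)
  obtain ⟨χ, hχ1, hχp⟩ := h1
  obtain ⟨ψ, hψ⟩ := hsub χ
  have h5 := H27.codeg_mul_degree χ.2
  have hker := H27.charKer_simple hχ1
  rw [hker, Subgroup.index_bot] at h5
  have h6 := H27.codeg_dvd_card ψ.2
  rw [← hψ] at h6
  have h7 := congrArg (fun n => n.factorization p) h5
  rw [← h7]
  have hne : Nat.card S / (Nat.card {g : S // (χ : S → ℂ) g = (χ : S → ℂ) 1} * Cfsg.charDegree (χ : S → ℂ)) ≠ 0 := by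
    intro h0
    rw [h0, zero_mul] at h5
    exact Nat.card_pos.ne' h5.symm
  rw [Nat.factorization_mul hne (H27.charDegree_pos χ.2).ne', Finsupp.add_apply,
    Nat.factorization_eq_zero_of_not_dvd hχp, add_zero]
  exact (Nat.factorization_le_iff_dvd hne Nat.card_pos.ne').mpr h6 p

end Cfsg.Agent.S4801
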