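import Cfsg.Statements.S4802
import Cfsg.Agent.H27.KerCnt
import Cfsg.Agent.H3.Inflate

set_option autoImplicit false
open Cfsg

namespace Cfsg.Agent.S4802

open Subgroup Cfsg.Agent.H27 Cfsg.Agent.H3
open scoped ComplexConjugate


/-- Let N < M be normal subgroups of the finite group G and g ∈ M ∖ N. Then the conjugacy class of g is exactly M ∖ N if and only if every irreducible complex character of G whose kernel contains N takes the same value at all elements of M ∖ N, and every irreducible complex character of G whose kernel does not contain N vanishes at g. -/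
theorem result {G : Type*} [Group G] [Finite G] (N M : Subgroup G) [N.Normal] [M.Normal] (hNM : N < M) (g : G) (hgM : g ∈ M) (hgN : g ∉ N) : {h : G | IsConj g h} = (M : Set G) \ (N : Set G) ↔ ((∀ χ : Cfsg.IrrCharacter G, (∀ x ∈ N, (χ : G → ℂ) x = (χ : G → ℂ) 1) → ∀ x ∈ M, x ∉ N → ∀ y ∈ M, y ∉ N → (χ : G → ℂ) x = (χ : G → ℂ) y) ∧ (∀ χ : Cfsg.IrrCharacter G, (∃ x ∈ N, (χ : G → ℂ) x ≠ (χ : G → ℂ) 1) → (χ : G → ℂ) g = 0)) := by
  classical
  haveI := Fintype.ofFinite G
  haveI : Fintype (G ⧸ N) := Fintype.ofFinite _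
  haveI := Fintype.ofFinite (IrrCharacter G)
  set gb : G ⧸ N := (g : G ⧸ N) with hgb
  set Mb : Subgroup (G ⧸ N) := M.map (QuotientGroup.mk' N) with hMb
  have hMn : M.Normal := inferInstance
  have hNn : N.Normal := inferInstance
  -- centralizer orders
  have hc : ∑ χ : IrrCharacter G, (χ : G → ℂ) g * conj ((χ : G → ℂ) g) =
      (Nat.card (centralizer ({g} : Set G)) : ℂ) := by
    rw [column_orth, if_pos (IsConj.refl g)]
  have hcb : ∑ ψ ∈ Finset.univ.filter (fun ψ : IrrCharacter G => ∀ n ∈ N, (ψ : G → ℂ) n = (ψ : G → ℂ) 1),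
      (ψ : G → ℂ) g * conj ((ψ : G → ℂ) g) = (Nat.card (centralizer ({gb} : Set (G ⧸ N))) : ℂ) := by
    rw [sum_ker N g g, if_pos (IsConj.refl _)]
  have hsplit := Finset.sum_filter_add_sum_filter_not (Finset.univ : Finset (IrrCharacter G))
      (fun ψ : IrrCharacter G => ∀ n ∈ N, (ψ : G → ℂ) n = (ψ : G → ℂ) 1)
      (fun ψ : IrrCharacter G => (ψ : G → ℂ) g * conj ((ψ : G → ℂ) g))
  rw [hcb, hc] at hsplit
  have hnn : ∑ ψ ∈ Finset.univ.filter (fun ψ : IrrCharacter G => ¬ ∀ n ∈ N, (ψ : G → ℂ) n = (ψ : G → ℂ) 1),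
      (ψ : G → ℂ) g * conj ((ψ : G → ℂ) g) =
      ((∑ ψ ∈ Finset.univ.filter (fun ψ : IrrCharacter G => ¬ ∀ n ∈ N, (ψ : G → ℂ) n = (ψ : G → ℂ) 1),
        ‖(ψ : G → ℂ) g‖ ^ 2 : ℝ) : ℂ) := by
    push_cast
    exact Finset.sum_congr rfl fun ψ _ => by rw [Complex.mul_conj']
  have hA : (∀ χ : IrrCharacter G, (∃ x ∈ N, (χ : G → ℂ) x ≠ (χ : G → ℂ) 1) → (χ : G → ℂ) g = 0) ↔
      Nat.card (centralizer ({g} : Set G)) = Nat.card (centralizer ({gb} : Set (G ⧸ N))) := by
    constructor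
    · intro h
      have h1 : ∑ ψ ∈ Finset.univ.filter (fun ψ : IrrCharacter G => ¬ ∀ n ∈ N, (ψ : G → ℂ) n = (ψ : G → ℂ) 1),
          (ψ : G → ℂ) g * conj ((ψ : G → ℂ) g) = 0 := by
        refine Finset.sum_eq_zero fun ψ hψ => ?_
        have h2 := (Finset.mem_filter.mp hψ).2
        push Not at h2
        rw [h ψ h2, zero_mul]
      rw [h1, add_zero] at hsplit
      exact_mod_cast hsplit.symm
    · intro h χ hχ
      rw [h, hnn] at hsplit
      have h1 : (∑ ψ ∈ Finset.univ.filter (fun ψ : IrrCharacter G => ¬ ∀ n ∈ N, (ψ : G → ℂ) n = (ψ : G → ℂ) 1),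
          ‖(ψ : G → ℂ) g‖ ^ 2 : ℝ) = 0 := by
        have h2 : ((∑ ψ ∈ Finset.univ.filter (fun ψ : IrrCharacter G => ¬ ∀ n ∈ N, (ψ : G → ℂ) n = (ψ : G → ℂ) 1),
          ‖(ψ : G → ℂ) g‖ ^ 2 : ℝ) : ℂ) = 0 := by linear_combination hsplit
        exact_mod_cast h2
      rw [Finset.sum_eq_zero_iff_of_nonneg (fun ψ _ => by positivity)] at h1
      have h3 := h1 χ (Finset.mem_filter.mpr ⟨Finset.mem_univ _, by push Not; exact hχ⟩)
      exact norm_eq_zero.mp (pow_eq_zero_iff (by norm_num) |>.mp h3)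
  -- class sizes
  have hcl := card_isConj_mul_card_centralizer g
  have hclb := card_isConj_mul_card_centralizer gb
  have hMc : Nat.card M = Nat.card N * Nat.card Mb := by
    have h := card_comap_surjective (QuotientGroup.mk' N) (QuotientGroup.mk'_surjective N) Mb
    rw [QuotientGroup.ker_mk', hMb, comap_map_eq_self (by rw [QuotientGroup.ker_mk']; exact hNM.le)] at h
    exact h
  have hGc : Nat.card G = Nat.card N * Nat.card (G ⧸ N) := by
    rw [mul_comm]; exact Subgroup.card_eq_card_quotient_mul_card_subgroup N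
  have hNpos : 0 < Nat.card N := Nat.card_pos
  have hmemMb : ∀ x : G, (x : G ⧸ N) ∈ Mb ↔ x ∈ M := by
    intro x
    rw [← QuotientGroup.mk'_apply, ← mem_comap, hMb,
      comap_map_eq_self (by rw [QuotientGroup.ker_mk']; exact hNM.le)]
  have hBc : (∀ x ∈ M, x ∉ N → IsConj gb (x : G ⧸ N)) →
      Nat.card {x : G ⧸ N // IsConj gb x} = Nat.card Mb - 1 := by
    intro h
    have h1 : {x : G ⧸ N | IsConj gb x} = (Mb : Set (G ⧸ N)) \ {1} := by
      ext x
      obtain ⟨x, rfl⟩ := QuotientGroup.mk_surjective x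
      simp only [Set.mem_setOf_eq, Set.mem_diff, SetLike.mem_coe, Set.mem_singleton_iff]
      constructor
      · intro hx
        rw [isConj_iff] at hx
        obtain ⟨c, hc'⟩ := hx
        obtain ⟨c, rfl⟩ := QuotientGroup.mk_surjective c
        refine ⟨?_, ?_⟩
        · rw [← hc']
          exact (hmemMb (c * g * c⁻¹)).mpr (hMn.conj_mem g hgM c)
        · intro h2
          rw [h2] at hc'
          apply hgN
          rw [← QuotientGroup.eq_one_iff]
          have h3 : gb = 1 := by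
            rw [mul_inv_eq_one] at hc'
            exact mul_left_cancel (a := (c : G ⧸ N)) (by rw [hc', mul_one])
          exact h3
      · rintro ⟨h2, h3⟩
        exact h x ((hmemMb x).mp h2) (fun h4 => h3 ((QuotientGroup.eq_one_iff x).mpr h4))
    have h2 : Nat.card {x : G ⧸ N // IsConj gb x} = {x : G ⧸ N | IsConj gb x}.ncard := rfl
    rw [h2, h1, Set.ncard_diff_singleton_of_mem (one_mem Mb)]
    rfl
  have hMb1 : 1 < Nat.card Mb := by
    rw [Finite.one_lt_card_iff_nontrivial]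
    refine ⟨⟨⟨gb, (hmemMb g).mpr hgM⟩, 1, fun h => hgN ?_⟩⟩
    rw [← QuotientGroup.eq_one_iff]
    exact congrArg Subtype.val h
  -- key: under (B), `c̄ (|M| - |N|) = |G|`
  have hkey : (∀ x ∈ M, x ∉ N → IsConj gb (x : G ⧸ N)) →
      (Nat.card M - Nat.card N) * Nat.card (centralizer ({gb} : Set (G ⧸ N))) = Nat.card G := by
    intro h
    rw [hBc h] at hclb
    rw [hGc, ← hclb, hMc]
    have : Nat.card N * Nat.card Mb - Nat.card N = Nat.card N * (Nat.card Mb - 1) := by
      rw [Nat.mul_sub, mul_one]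
    rw [this, mul_assoc]
  have hdiff : ((M : Set G) \ (N : Set G)).ncard = Nat.card M - Nat.card N := by
    rw [Set.ncard_diff (show (N : Set G) ⊆ M from hNM.le)]
    rfl
  have hsub : {h : G | IsConj g h} ⊆ (M : Set G) \ (N : Set G) := by
    intro x hx
    rw [Set.mem_setOf_eq, isConj_iff] at hx
    obtain ⟨c, rfl⟩ := hx
    refine ⟨hMn.conj_mem g hgM c, fun h => hgN ?_⟩
    have := hNn.conj_mem _ h c⁻¹
    have h2 : c⁻¹ * (c * g * c⁻¹) * c⁻¹⁻¹ = g := by group
    rwa [h2] at this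
  have hcls : Nat.card {x : G // IsConj g x} = {h : G | IsConj g h}.ncard := rfl
  have hMN : 0 < Nat.card M - Nat.card N := by
    rw [hMc]
    have : Nat.card N * 1 < Nat.card N * Nat.card Mb := Nat.mul_lt_mul_of_pos_left hMb1 hNpos
    omega
  constructor
  · intro heq
    have hB : ∀ x ∈ M, x ∉ N → IsConj g x := by
      intro x hx hxN
      have : x ∈ {h : G | IsConj g h} := by rw [heq]; exact ⟨hx, hxN⟩
      exact this
    refine ⟨?_, ?_⟩
    · intro χ _ x hx hxN y hy hyN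
      exact classFun_isConj (irr_classFun χ.2) ((hB x hx hxN).symm.trans (hB y hy hyN))
    · rw [hA]
      have h1 := hkey (fun x hx hxN => by
        have h2 := hB x hx hxN
        rw [isConj_iff] at h2 ⊢
        obtain ⟨c, rfl⟩ := h2
        exact ⟨(c : G ⧸ N), rfl⟩)
      rw [hcls, heq, hdiff, ← h1] at hcl
      exact Nat.eq_of_mul_eq_mul_left hMN hcl
  · rintro ⟨h1, h2⟩
    rw [hA] at h2
    have hB : ∀ x ∈ M, x ∉ N → IsConj gb (x : G ⧸ N) := by
      intro x hx hxN
      rw [isConj_iff_irr]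
      intro ψ
      exact h1 (irrQuotEquiv N ψ).1 (irrQuotEquiv N ψ).2 g hgM hgN x hx hxN
    have h3 := hkey hB
    rw [← h2, ← hcl] at h3
    have h4 := Nat.eq_of_mul_eq_mul_right Nat.card_pos h3
    apply Set.eq_of_subset_of_ncard_le hsub
    rw [hdiff, h4, hcls]

end Cfsg.Agent.S4802
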