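import Cfsg.Statements.S4808
import Cfsg.Agent.H27.Util

set_option autoImplicit false
open Cfsg

namespace Cfsg.Agent.S4808

/-- The codegree of an irreducible complex character χ of a finite group G is [G : ker χ] / χ(1), where ker χ is the set of elements at which χ takes the value χ(1). A prime divides the order of G if and only if it divides the codegree of some irreducible complex character of G. -/
theorem result {G : Type*} [Group G] [Finite G] (p : ℕ) (hp : p.Prime) : p ∣ Nat.card G ↔ ∃ χ : Cfsg.IrrCharacter G, p ∣ (Nat.card G / (Nat.card {g : G // (χ : G → ℂ) g = (χ : G → ℂ) 1} * Cfsg.charDegree (χ : G → ℂ))) := by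
  classical
  have := Fintype.ofFinite G
  have := Fintype.ofFinite (Cfsg.IrrCharacter G)
  have : Fact p.Prime := ⟨hp⟩
  constructor
  swap
  · rintro ⟨χ, hχ⟩
    exact hχ.trans (H27.codeg_dvd_card χ.2)
  intro hpG
  by_contra hcon
  push Not at hcon
  let P : Sylow p G := default
  let N : Subgroup G := Subgroup.normalClosure (P : Set G)
  have hPN : (P : Subgroup G) ≤ N := Subgroup.subset_normalClosure
  have hNidx : ¬ p ∣ Nat.card (G ⧸ N) := by
    intro h
    exact P.not_dvd_index (h.trans (Subgroup.index_dvd_of_le hPN))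
  have hker : ∀ (K : Subgroup G), K.Normal → ¬ p ∣ K.index → N ≤ K := by
    intro K hK hp'
    refine Subgroup.normalClosure_le_normal ?_
    intro x hx
    obtain ⟨k, hk⟩ := P.isPGroup' ⟨x, hx⟩
    have h1 : x ^ p ^ k = 1 := congrArg Subtype.val hk
    have h2 : (QuotientGroup.mk x : G ⧸ K) ^ p ^ k = 1 := by
      rw [← QuotientGroup.mk_pow, h1, QuotientGroup.mk_one]
    have h3 : orderOf (QuotientGroup.mk x : G ⧸ K) ∣ p ^ k := orderOf_dvd_of_pow_eq_one h2
    have h4 : orderOf (QuotientGroup.mk x : G ⧸ K) ∣ K.index := orderOf_dvd_natCard _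
    have h5 : Nat.Coprime (p ^ k) K.index := Nat.Coprime.pow_left _ ((Nat.Prime.coprime_iff_not_dvd hp).mpr hp')
    have h6 : orderOf (QuotientGroup.mk x : G ⧸ K) = 1 := Nat.eq_one_of_dvd_coprimes h5 h3 h4
    rw [orderOf_eq_one_iff] at h6
    exact (QuotientGroup.eq_one_iff x).mp h6
  have h1 : ∀ χ : Cfsg.IrrCharacter G, ¬ (∀ n ∈ N, (χ : G → ℂ) n = (χ : G → ℂ) 1) →
      p ∣ Cfsg.charDegree (χ : G → ℂ) := by
    intro χ hχ
    have h2 := H27.codeg_mul_degree χ.2
    have h3 : p ∣ (H27.charKer (Cfsg.Agent.H3.irr_isChar χ.2)).index := by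
      by_contra h4
      apply hχ
      intro n hn
      exact hker _ (H27.charKer_normal _) h4 hn
    rw [← h2] at h3
    exact (hp.dvd_mul.mp h3).resolve_left (hcon χ)
  have : Finite (G ⧸ N) := inferInstance
  have := Fintype.ofFinite (Cfsg.IrrCharacter (G ⧸ N))
  have h2 := H27.sum_charDegree_sq (G := G)
  have h3 := H27.sum_charDegree_sq (G := G ⧸ N)
  have h4 : ∑ χ : {χ : Cfsg.IrrCharacter G // ∀ n ∈ N, (χ : G → ℂ) n = (χ : G → ℂ) 1},
      Cfsg.charDegree (χ.1 : G → ℂ) ^ 2 = Nat.card (G ⧸ N) := by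
    rw [← h3]
    refine (Fintype.sum_equiv (H27.irrQuotEquiv N) _ _ fun ψ => ?_).symm
    rfl
  rw [← Finset.sum_filter_add_sum_filter_not Finset.univ
    (fun χ : Cfsg.IrrCharacter G => ∀ n ∈ N, (χ : G → ℂ) n = (χ : G → ℂ) 1)] at h2
  rw [Finset.sum_subtype (Finset.univ.filter (fun χ : Cfsg.IrrCharacter G => ∀ n ∈ N, (χ : G → ℂ) n = (χ : G → ℂ) 1))
    (p := fun χ : Cfsg.IrrCharacter G => ∀ n ∈ N, (χ : G → ℂ) n = (χ : G → ℂ) 1) (by simp)
    (fun χ => Cfsg.charDegree (χ : G → ℂ) ^ 2), h4] at h2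
  rw [← h2] at hpG
  have h5 : p ∣ ∑ χ ∈ Finset.univ.filter (fun χ : Cfsg.IrrCharacter G => ¬ ∀ n ∈ N, (χ : G → ℂ) n = (χ : G → ℂ) 1),
      Cfsg.charDegree (χ : G → ℂ) ^ 2 :=
    Finset.dvd_sum fun χ hχ => (h1 χ (Finset.mem_filter.mp hχ).2).trans (dvd_pow_self _ two_ne_zero)
  exact hNidx ((Nat.dvd_add_left h5).mp hpG)

end Cfsg.Agent.S4808
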