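import Cfsg.Statements.S4812
import Cfsg.Agent.H27.SLDeg

set_option autoImplicit false
open Cfsg

namespace Cfsg.Agent.S4812

open Subgroup Cfsg.Agent.H27 Cfsg.Agent.H3 Cfsg.Agent.H16


/-- Let F be a finite field of characteristic 2 with q ≥ 4 elements and let S be isomorphic to PSL(2,F) or to SL(2,F). Then the vertices of the character degree graph of S are the primes dividing q(q²−1), and two distinct primes are adjacent exactly when both divide q + 1 or both divide q − 1; so the graph has the three connected components {2}, the primes dividing q + 1 and the primes dividing q − 1, each complete. -/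
theorem result (F : Type*) [Field F] [Fintype F] [CharP F 2] (q : ℕ) (hq : Fintype.card F = q) (h4 : 4 ≤ q) {S : Type*} [Group S] [Finite S] (hS : Nonempty (S ≃* Matrix.ProjectiveSpecialLinearGroup (Fin 2) F) ∨ Nonempty (S ≃* Matrix.SpecialLinearGroup (Fin 2) F)) : Cfsg.degreePrimes S = {r : ℕ | r.Prime ∧ r ∣ q * (q ^ 2 - 1)} ∧ ∀ r s : ℕ, (Cfsg.degreeGraph S).Adj r s ↔ (r ≠ s ∧ r.Prime ∧ s.Prime ∧ ((r ∣ q + 1 ∧ s ∣ q + 1) ∨ (r ∣ q - 1 ∧ s ∣ q - 1))) := by
  obtain ⟨n, htp, hn⟩ := FiniteField.card F 2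
  have h5 : Fintype.card F ≠ 5 := by
    intro h
    have h1 : 2 ∣ Fintype.card F := by rw [hn]; exact dvd_pow_self 2 n.ne_zero
    rw [h] at h1
    norm_num at h1
  classical
  subst hq
  set q := Fintype.card F with hq
  have hcd : charDegrees S = charDegrees (Matrix.ProjectiveSpecialLinearGroup (Fin 2) F) ∨
      charDegrees S = charDegrees (Matrix.SpecialLinearGroup (Fin 2) F) := by
    rcases hS with ⟨⟨e⟩⟩ | ⟨⟨e⟩⟩
    · exact Or.inl (charDegrees_congr e)
    · exact Or.inr (charDegrees_congr e)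
  have hsub : ∀ d ∈ charDegrees S, d ∈ charDegrees (Matrix.SpecialLinearGroup (Fin 2) F) := by
    intro d hd
    rcases hcd with h | h
    · exact psl_sub d (h ▸ hd)
    · exact h ▸ hd
  have hsup : ∀ χ : IrrCharacter (Matrix.SpecialLinearGroup (Fin 2) F),
      (∀ z ∈ center (Matrix.SpecialLinearGroup (Fin 2) F), χ.1 z = χ.1 1) →
      charDegree χ.1 ∈ charDegrees S := by
    intro χ hχ
    rcases hcd with h | h
    · rw [h]; exact psl_mem χ hχ
    · rw [h]; exact ⟨χ, rfl⟩
  have hq1 : q ∈ charDegrees S := by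
    obtain ⟨χ, h1, h2, -⟩ := exists_sl2_q F
    rw [hq, ← h2]; exact hsup χ h1
  have hq2 : q + 1 ∈ charDegrees S := by
    obtain ⟨χ, h1, h2⟩ := exists_sl2_q_add_one F (by omega) (by omega)
    rw [hq, ← h2]; exact hsup χ h1
  have hq3 : q - 1 ∈ charDegrees S := by
    obtain ⟨χ, h1, h2⟩ := exists_sl2_q_sub_one F (by omega) (by omega)
    have h3 := hsup χ h1
    have h4 : charDegree χ.1 = q - 1 := by omega
    rw [← h4]; exact h3
  have hfac : q ^ 2 - 1 = (q - 1) * (q + 1) := by
    have h1 : 1 ≤ q := by omega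
    zify [h1, Nat.one_le_pow 2 q (by omega)]
    ring
  have hcases : ∀ d ∈ charDegrees S, d = 1 ∨ d = q ∨ d ∣ q + 1 ∨ d ∣ q - 1 := by
    intro d hd
    obtain ⟨χ, rfl⟩ := hsub d hd
    rcases sl2_deg F χ with h | h | h | h | h | h
    · exact Or.inl h
    · exact Or.inr (Or.inl h)
    · exact Or.inr (Or.inr (Or.inl (h ▸ dvd_rfl)))
    · exact Or.inr (Or.inr (Or.inl ⟨2, by rw [mul_comm]; exact h.symm⟩))
    · refine Or.inr (Or.inr (Or.inr ⟨1, by omega⟩))
    · refine Or.inr (Or.inr (Or.inr ⟨2, by omega⟩))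
  constructor
  · ext r
    constructor
    · rintro ⟨hr, d, hd, hrd⟩
      refine ⟨hr, ?_⟩
      rcases hcases d hd with h | h | h | h
      · rw [h] at hrd; exact absurd (Nat.dvd_one.mp hrd) hr.one_lt.ne'
      · rw [h] at hrd; exact hrd.mul_right _
      · rw [hfac]; exact ((hrd.trans h).mul_left _).mul_left _
      · rw [hfac]; exact ((hrd.trans h).mul_right _).mul_left _
    · rintro ⟨hr, hrd⟩
      refine ⟨hr, ?_⟩
      rcases (Nat.Prime.dvd_mul hr).mp hrd with h | h
      · exact ⟨q, hq1, h⟩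
      · rw [hfac] at h
        rcases (Nat.Prime.dvd_mul hr).mp h with h | h
        · exact ⟨q - 1, hq3, h⟩
        · exact ⟨q + 1, hq2, h⟩
  · intro r s
    constructor
    · rintro ⟨hrs, hr, hs, d, hd, hdvd⟩
      have h1 : r ∣ d := (dvd_mul_right r s).trans hdvd
      have h2 : s ∣ d := (dvd_mul_left s r).trans hdvd
      refine ⟨hrs, hr, hs, ?_⟩
      rcases hcases d hd with h | h | h | h
      · rw [h] at h1; exact absurd (Nat.dvd_one.mp h1) hr.one_lt.ne'
      · exfalso
        rw [h] at h1 h2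
        rw [hn] at h1 h2
        have h3 := (Nat.prime_dvd_prime_iff_eq hr htp).mp (hr.dvd_of_dvd_pow h1)
        have h4 := (Nat.prime_dvd_prime_iff_eq hs htp).mp (hs.dvd_of_dvd_pow h2)
        exact hrs (h3.trans h4.symm)
      · exact Or.inl ⟨h1.trans h, h2.trans h⟩
      · exact Or.inr ⟨h1.trans h, h2.trans h⟩
    · rintro ⟨hrs, hr, hs, key⟩
      have hcop := (Nat.coprime_primes hr hs).mpr hrs
      refine ⟨hrs, hr, hs, ?_⟩
      rcases key with h | h
      · exact ⟨q + 1, hq2, hcop.mul_dvd_of_dvd_of_dvd h.1 h.2⟩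
      · exact ⟨q - 1, hq3, hcop.mul_dvd_of_dvd_of_dvd h.1 h.2⟩

end Cfsg.Agent.S4812
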