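import Cfsg.Statements.S4813
import Cfsg.Agent.H20.CD3
import Cfsg.Agent.S4466

set_option autoImplicit false
open Cfsg


namespace Cfsg.Agent.S4813


/-- If every irreducible complex character of the finite group G of degree greater than one has prime degree, then G has at most three distinct irreducible character degrees. -/
theorem result {G : Type*} [Group G] [Finite G] (hprime : ∀ d ∈ Cfsg.charDegrees G, d = 1 ∨ d.Prime) : Nat.card ↥(Cfsg.charDegrees G) ≤ 3 := by
  have hs : Group.IsSolvable G := Cfsg.Agent.S4466.result (fun χ hχ =>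
    (hprime _ ⟨χ, rfl⟩).resolve_left hχ)
  obtain ⟨a, b, c, h⟩ := Cfsg.Agent.H20.CD.prime_degrees hs fun χ => hprime _ ⟨χ, rfl⟩
  exact Cfsg.Agent.H20.CD.three_of_sub (a := a) (b := b) (c := c) (by
    rintro d ⟨χ, rfl⟩
    exact h χ)


end Cfsg.Agent.S4813
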