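import Cfsg.Statements.S4814
import Cfsg.Agent.H27.Util

set_option autoImplicit false
open Cfsg

namespace Cfsg.Agent.S4814

/-- Let G be a finite group such that the sum, over the irreducible complex characters χ of G, of 1/χ(1)² is less than 2. Then every element of G is a product of two commutators. -/
theorem result {G : Type*} [Group G] [Finite G]
    (h : ∑ᶠ χ : Cfsg.IrrCharacter G, 1 / ‖(χ : G → ℂ) 1‖ ^ 2 < (2 : ℝ)) (g : G) :
    ∃ a b c d : G, (a * b * a⁻¹ * b⁻¹) * (c * d * c⁻¹ * d⁻¹) = g := by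
  classical
  have := Fintype.ofFinite G
  have := Fintype.ofFinite (Cfsg.IrrCharacter G)
  rw [finsum_eq_sum_of_fintype] at h
  have h1 := H27.hat_inversion (H27.conv_classFun (H27.commCount_classFun (G := G))
    (H27.commCount_classFun (G := G))) g
  have hG : (Nat.card G : ℂ) ≠ 0 := by exact_mod_cast Nat.card_pos.ne'
  have h2 : ∀ χ : Cfsg.IrrCharacter G, (χ : G → ℂ) 1 * H27.hat (H27.conv H27.commCount H27.commCount) (χ : G → ℂ)
      * (starRingEnd ℂ) ((χ : G → ℂ) g) = (Nat.card G : ℂ) ^ 4 * ((starRingEnd ℂ) ((χ : G → ℂ) g) / (χ : G → ℂ) 1 ^ 3) := by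
    intro χ
    have h0 := H27.isIrr_one_ne_zero χ.2
    rw [H27.hat_conv χ.2 H27.commCount_classFun, H27.hat_commCount χ.2]
    field_simp
  rw [Finset.sum_congr rfl fun χ _ => h2 χ, ← Finset.mul_sum] at h1
  have h3 : (∑ χ : Cfsg.IrrCharacter G, (starRingEnd ℂ) ((χ : G → ℂ) g) / (χ : G → ℂ) 1 ^ 3) ≠ 0 := by
    intro hz
    rw [← Finset.add_sum_erase _ _ (Finset.mem_univ (H27.oneIrr G))] at hz h
    simp only [H27.oneIrr_apply, map_one, one_pow, div_one, norm_one] at hz h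
    have h4 : ‖∑ χ ∈ Finset.univ.erase (H27.oneIrr G), (starRingEnd ℂ) ((χ : G → ℂ) g) / (χ : G → ℂ) 1 ^ 3‖
        ≤ ∑ χ ∈ Finset.univ.erase (H27.oneIrr G), 1 / ‖(χ : G → ℂ) 1‖ ^ 2 := by
      refine (norm_sum_le _ _).trans (Finset.sum_le_sum fun χ _ => ?_)
      have h5 := H27.norm_char_le (H27.isIrr_isCharacter χ.2) g
      rw [← H27.char_one_norm (H27.isIrr_isCharacter χ.2)] at h5
      have h6 : 0 < ‖(χ : G → ℂ) 1‖ := norm_pos_iff.mpr (H27.isIrr_one_ne_zero χ.2)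
      rw [norm_div, RCLike.norm_conj, norm_pow, div_le_div_iff₀ (by positivity) (by positivity)]
      calc ‖(χ : G → ℂ) g‖ * ‖(χ : G → ℂ) 1‖ ^ 2 ≤ ‖(χ : G → ℂ) 1‖ * ‖(χ : G → ℂ) 1‖ ^ 2 :=
            mul_le_mul_of_nonneg_right h5 (by positivity)
        _ = 1 * ‖(χ : G → ℂ) 1‖ ^ 3 := by ring
    have h7 : ∑ χ ∈ Finset.univ.erase (H27.oneIrr G), (starRingEnd ℂ) ((χ : G → ℂ) g) / (χ : G → ℂ) 1 ^ 3 = -1 := by
      linear_combination hz
    rw [h7, norm_neg, norm_one] at h4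
    linarith
  have h8 : H27.conv (H27.commCount (G := G)) H27.commCount g ≠ 0 := by
    rw [h1]
    exact mul_ne_zero (inv_ne_zero hG) (mul_ne_zero (pow_ne_zero _ hG) h3)
  unfold H27.conv at h8
  obtain ⟨x, -, hx⟩ := Finset.exists_ne_zero_of_sum_ne_zero h8
  have hx1 := left_ne_zero_of_mul hx
  have hx2 := right_ne_zero_of_mul hx
  unfold H27.commCount at hx1 hx2
  have hne : ∀ z : G, (Nat.card {xy : G × G // xy.1 * xy.2 * xy.1⁻¹ * xy.2⁻¹ = z} : ℂ) ≠ 0 →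
      ∃ a b : G, a * b * a⁻¹ * b⁻¹ = z := by
    intro z hz
    by_contra hcon
    push Not at hcon
    apply hz
    have : IsEmpty {xy : G × G // xy.1 * xy.2 * xy.1⁻¹ * xy.2⁻¹ = z} :=
      ⟨fun p => hcon p.1.1 p.1.2 p.2⟩
    rw [Nat.card_of_isEmpty, Nat.cast_zero]
  obtain ⟨a, b, hab⟩ := hne _ hx1
  obtain ⟨c, d, hcd⟩ := hne _ hx2
  exact ⟨a, b, c, d, by rw [hab, hcd, mul_inv_cancel_left]⟩

end Cfsg.Agent.S4814
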