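import Cfsg.Statements.S4825
import Cfsg.Agent.H27.ClifN
import Cfsg.Agent.H11.SecondMain2
import Cfsg.Agent.H20.SC7

set_option autoImplicit false
open Cfsg


namespace Cfsg.Agent.S4825


open Cfsg.Agent.H3 Cfsg.Agent.H11 Cfsg.Agent.H26 Cfsg.Agent.H27 Finset
open scoped ComplexConjugate

universe u

/-- the part in `B` of `θ^G` vanishes at `p`-elements outside `N` -/
theorem sum_eq_zero {G : Type u} [Group G] [Fintype G] {p : ℕ} {M : Ideal Cfsg.AlgInt}
    (hM : Cfsg.IsPModular p M) {B : Set (Cfsg.IrrCharacter G)} (hB : Cfsg.IsPBlock M B)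
    {N : Subgroup G} [hN : N.Normal] [Fintype N] {θ : N → ℂ} (hθ : Cfsg.IsIrrCharacter N θ)
    {x : G} (hx : ∃ k : ℕ, orderOf x = p ^ k) (hxN : x ∉ N) [Fintype (Cfsg.IrrCharacter G)]
    [DecidablePred (· ∈ B)] :
    ∑ χ : Cfsg.IrrCharacter G with χ ∈ B,
      Cfsg.classInner (fun n : N => (χ : G → ℂ) n) θ * (χ : G → ℂ) x = 0 := by
  classical
  have hp : p.Prime := hM.1
  have h1 : ∀ χ : Cfsg.IrrCharacter G, Cfsg.classInner (fun n : N => (χ : G → ℂ) n) θ =
      (Nat.card N : ℂ)⁻¹ * ∑ n : N, (χ : G → ℂ) (n : G)⁻¹ * θ n := by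
    intro χ
    obtain ⟨e, he⟩ := classInner_char_nat (isChar_restrict N (irr_isChar χ.2)) (irr_isChar hθ)
    have h2 : Cfsg.classInner (fun n : N => (χ : G → ℂ) n) θ =
        conj (Cfsg.classInner (fun n : N => (χ : G → ℂ) n) θ) := by
      rw [he]; exact (Complex.conj_natCast _).symm
    rw [h2]
    unfold Cfsg.classInner
    rw [map_mul, map_inv₀, Complex.conj_natCast, map_sum]
    congr 1
    apply Finset.sum_congr rfl
    intro n _
    rw [map_mul, Complex.conj_conj, char_inv (irr_isChar χ.2)]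
  have h3 : ∀ n : N, ∑ χ : Cfsg.IrrCharacter G with χ ∈ B,
      (χ : G → ℂ) x * (χ : G → ℂ) (n : G)⁻¹ = 0 := by
    intro n
    obtain ⟨y, z, hyz⟩ : ∃ y z : G, y ∈ N ∧ y * z = (n : G) ∧ Commute y z ∧
        (∃ k : ℕ, orderOf y = p ^ k) ∧ ¬ p ∣ orderOf z := by
      obtain ⟨y, z, h1, h2, h3, h4, ⟨s, hs⟩, _⟩ := exists_isPPart_full hp (n : G)
      exact ⟨y, z, hs ▸ N.pow_mem n.2 s, h1, h2, h3, h4⟩
    have h4 := block_orthogonality hM (g := x) (h := (n : G)) (x := x) (y := y)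
      ⟨1, mul_one x, Commute.one_right x, hx, by rw [orderOf_one]; exact hp.one_lt.ne' ∘ Nat.dvd_one.mp⟩
      ⟨z, hyz.2.1, hyz.2.2.1, hyz.2.2.2⟩ (by
        intro hc
        rw [isConj_iff] at hc
        obtain ⟨c, hc⟩ := hc
        apply hxN
        have h5 : x = c⁻¹ * y * c⁻¹⁻¹ := by rw [← hc]; group
        rw [h5]
        exact hN.conj_mem _ hyz.1 _) hB
    rw [finsum_mem_irr] at h4
    exact h4
  simp only [h1]
  have h6 : ∀ χ : Cfsg.IrrCharacter G, (Nat.card N : ℂ)⁻¹ * (∑ n : N, (χ : G → ℂ) (n : G)⁻¹ * θ n) *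
      (χ : G → ℂ) x = (Nat.card N : ℂ)⁻¹ * ∑ n : N, θ n * ((χ : G → ℂ) x * (χ : G → ℂ) (n : G)⁻¹) := by
    intro χ
    rw [mul_assoc, Finset.sum_mul]
    congr 1
    exact Finset.sum_congr rfl fun n _ => by ring
  simp only [h6]
  rw [← Finset.mul_sum, Finset.sum_comm]
  simp only [← Finset.mul_sum, h3, mul_zero, Finset.sum_const_zero]

theorem key {G : Type u} [Group G] [Fintype G] {p : ℕ} {M : Ideal Cfsg.AlgInt}
    (hM : Cfsg.IsPModular p M) {B : Set (Cfsg.IrrCharacter G)} (hB : Cfsg.IsPBlock M B)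
    {N : Subgroup G} [hN : N.Normal] [Fintype N] {θ : N → ℂ} (hθ : Cfsg.IsIrrCharacter N θ)
    {x : G} (hx : ∃ k : ℕ, orderOf x = p ^ k) (hxN : x ∉ N) [Fintype (Cfsg.IrrCharacter G)]
    [DecidablePred (· ∈ B)] (e : Cfsg.IrrCharacter G → ℕ)
    (he : ∀ χ : Cfsg.IrrCharacter G, Cfsg.classInner (fun n : N => (χ : G → ℂ) n) θ = e χ) :
    p ∣ ∑ χ : Cfsg.IrrCharacter G with χ ∈ B, e χ * Cfsg.charDegree (χ : G → ℂ) := by
  classical
  have hpr := hM.2.1.isPrime
  have h1 := sum_eq_zero hM hB hθ hx hxN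
  rw [← li_natCast_iff hM]
  have h2 : ((∑ χ : Cfsg.IrrCharacter G with χ ∈ B, e χ * Cfsg.charDegree (χ : G → ℂ) : ℕ) : ℂ) =
      ∑ χ : Cfsg.IrrCharacter G with χ ∈ B, (e χ : ℂ) * (((χ : G → ℂ) 1) - (χ : G → ℂ) x) := by
    push_cast
    have h3 : ∑ χ : Cfsg.IrrCharacter G with χ ∈ B, (e χ : ℂ) * (χ : G → ℂ) x = 0 := by
      rw [← h1]
      exact Finset.sum_congr rfl fun χ _ => by rw [he]
    simp only [mul_sub, Finset.sum_sub_distrib, h3, sub_zero]
    exact Finset.sum_congr rfl fun χ _ => by rw [(charDegree_spec χ.2).1]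
  rw [h2]
  apply li_sum
  intro χ _
  apply li_mul_left (lr_natCast M _)
  rw [← neg_sub]
  apply li_neg
  have h4 := li_char_mul_sub hM (irr_isChar χ.2) (Commute.one_right x) hx
  rwa [mul_one] at h4

/-- Let p be a prime, G a finite group with Sylow p-subgroup P, M a maximal ideal of the algebraic integers containing p, and B a p-block of G with defect group P. Let N be a normal subgroup of G not containing P and θ an irreducible character of N. Then the number of irreducible characters in B of degree prime to p lying over θ (having θ as a constituent on restriction to N) is either 0 or at least 2, and when p ≤ 3 it is divisible by p. -/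
theorem result {G : Type*} [Group G] [Fintype G] (p : ℕ) [Fact p.Prime] (P : Sylow p G) (M : Ideal Cfsg.AlgInt) (hM : Cfsg.IsPModular p M) (B : Set (Cfsg.IrrCharacter G)) (hB : Cfsg.IsPBlock M B) (hBP : Cfsg.IsDefectGroup p M B P) (N : Subgroup G) [N.Normal] [Fintype N] (hPN : ¬ (P : Subgroup G) ≤ N) (θ : Cfsg.IrrCharacter N) :
    (Nat.card {χ : Cfsg.IrrCharacter G // χ ∈ B ∧ ¬ p ∣ Cfsg.charDegree (χ : G → ℂ) ∧ Cfsg.classInner (fun n : N => (χ : G → ℂ) n) (θ : N → ℂ) ≠ 0} = 0 ∨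
      2 ≤ Nat.card {χ : Cfsg.IrrCharacter G // χ ∈ B ∧ ¬ p ∣ Cfsg.charDegree (χ : G → ℂ) ∧ Cfsg.classInner (fun n : N => (χ : G → ℂ) n) (θ : N → ℂ) ≠ 0}) ∧
    (p ≤ 3 → p ∣ Nat.card {χ : Cfsg.IrrCharacter G // χ ∈ B ∧ ¬ p ∣ Cfsg.charDegree (χ : G → ℂ) ∧ Cfsg.classInner (fun n : N => (χ : G → ℂ) n) (θ : N → ℂ) ≠ 0}) := by
  classical
  have hp : p.Prime := hM.1
  have := Fintype.ofFinite (Cfsg.IrrCharacter G)
  obtain ⟨x, hxP, hxN⟩ := Set.not_subset.mp hPN
  have hx : ∃ k : ℕ, orderOf x = p ^ k := by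
    obtain ⟨k, hk⟩ := IsPGroup.iff_orderOf.mp P.isPGroup' ⟨x, hxP⟩
    exact ⟨k, by rwa [Subgroup.orderOf_mk] at hk⟩
  have he : ∀ χ : Cfsg.IrrCharacter G, ∃ e : ℕ,
      Cfsg.classInner (fun n : N => (χ : G → ℂ) n) (θ : N → ℂ) = e := fun χ =>
    classInner_char_nat (isChar_restrict N (irr_isChar χ.2)) (irr_isChar θ.2)
  choose e he using he
  have hkey := key hM hB θ.2 hx hxN e he
  set S : Finset (Cfsg.IrrCharacter G) := Finset.univ.filter (fun χ => χ ∈ B ∧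
    ¬ p ∣ Cfsg.charDegree (χ : G → ℂ) ∧ Cfsg.classInner (fun n : N => (χ : G → ℂ) n) (θ : N → ℂ) ≠ 0)
    with hS
  have hcard : Nat.card {χ : Cfsg.IrrCharacter G // χ ∈ B ∧ ¬ p ∣ Cfsg.charDegree (χ : G → ℂ) ∧
      Cfsg.classInner (fun n : N => (χ : G → ℂ) n) (θ : N → ℂ) ≠ 0} = S.card := by
    rw [Nat.card_eq_fintype_card, Fintype.card_subtype]
  rw [hcard]
  set t : ℕ := (inertia (inferInstance : N.Normal) (θ : N → ℂ)).index * Cfsg.charDegree (θ : N → ℂ) with ht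
  have hdeg : ∀ χ ∈ S, Cfsg.charDegree (χ : G → ℂ) = e χ * t := by
    intro χ hχ
    rw [hS, Finset.mem_filter] at hχ
    have h1 := clifford_degree (inferInstance : N.Normal) χ.2 θ.2 hχ.2.2.2
    rw [he, (charDegree_spec χ.2).1, (charDegree_spec θ.2).1] at h1
    rw [ht, ← mul_assoc]
    exact_mod_cast h1
  have hdvd : p ∣ ∑ χ ∈ S, e χ * Cfsg.charDegree (χ : G → ℂ) := by
    have h1 : ∑ χ : Cfsg.IrrCharacter G with χ ∈ B, e χ * Cfsg.charDegree (χ : G → ℂ) =
        ∑ χ ∈ S, e χ * Cfsg.charDegree (χ : G → ℂ) +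
        ∑ χ ∈ (Finset.univ.filter (· ∈ B)) \ S, e χ * Cfsg.charDegree (χ : G → ℂ) := by
      rw [add_comm]
      symm
      apply Finset.sum_sdiff
      intro χ hχ
      rw [hS, Finset.mem_filter] at hχ
      simp [hχ.2.1]
    have h2 : p ∣ ∑ χ ∈ (Finset.univ.filter (· ∈ B)) \ S, e χ * Cfsg.charDegree (χ : G → ℂ) := by
      apply Finset.dvd_sum
      intro χ hχ
      rw [Finset.mem_sdiff, Finset.mem_filter, hS, Finset.mem_filter] at hχ
      by_cases h3 : p ∣ Cfsg.charDegree (χ : G → ℂ)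
      · exact dvd_mul_of_dvd_right h3 _
      · have h4 : Cfsg.classInner (fun n : N => (χ : G → ℂ) n) (θ : N → ℂ) = 0 := by
          by_contra h5
          exact hχ.2 ⟨Finset.mem_univ _, hχ.1.2, h3, h5⟩
        rw [he] at h4
        have h5 : e χ = 0 := by exact_mod_cast h4
        rw [h5, zero_mul]; exact dvd_zero _
    rw [h1] at hkey
    exact (Nat.dvd_add_left h2).mp hkey
  have hndvd : ∀ χ ∈ S, ¬ p ∣ e χ * Cfsg.charDegree (χ : G → ℂ) := by
    intro χ hχ h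
    have h1 := hdeg χ hχ
    rw [hS, Finset.mem_filter] at hχ
    rcases hp.dvd_mul.mp h with h2 | h2
    · exact hχ.2.2.1 (h1 ▸ dvd_mul_of_dvd_left h2 _)
    · exact hχ.2.2.1 h2
  constructor
  · by_contra hcon
    push Not at hcon
    obtain ⟨χ, hχ⟩ := Finset.card_eq_one.mp (show S.card = 1 by omega)
    rw [hχ, Finset.sum_singleton] at hdvd
    exact hndvd χ (by rw [hχ]; simp) hdvd
  · intro hp3
    by_cases hS0 : S = ∅
    · rw [hS0]; simp
    obtain ⟨χ₀, hχ₀⟩ := Finset.nonempty_iff_ne_empty.mpr hS0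
    have hpt : ¬ p ∣ t := by
      intro h
      have h1 := hdeg χ₀ hχ₀
      rw [hS, Finset.mem_filter] at hχ₀
      exact hχ₀.2.2.1 (h1 ▸ dvd_mul_of_dvd_right h _)
    have h2 : ∀ χ ∈ S, e χ * Cfsg.charDegree (χ : G → ℂ) ≡ t [MOD p] := by
      intro χ hχ
      have h3 := hdeg χ hχ
      have h4 := hndvd χ hχ
      have h5 : ¬ p ∣ e χ := fun h => h4 (dvd_mul_of_dvd_left h _)
      rw [h3, ← mul_assoc]
      have h6 : e χ * e χ ≡ 1 [MOD p] := by
        have hp2 := hp.two_le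
        interval_cases p
        · have : e χ % 2 = 1 := by omega
          simp [Nat.ModEq, Nat.mul_mod, this]
        · have : e χ % 3 = 1 ∨ e χ % 3 = 2 := by omega
          rcases this with h | h <;> simp [Nat.ModEq, Nat.mul_mod, h]
      calc e χ * e χ * t ≡ 1 * t [MOD p] := h6.mul_right t
        _ = t := one_mul t
    have h7 : ∑ χ ∈ S, e χ * Cfsg.charDegree (χ : G → ℂ) ≡ S.card * t [MOD p] := by
      have h8 := Nat.ModEq.sum (s := S) (n := p) (f := fun χ => e χ * Cfsg.charDegree (χ : G → ℂ)) (g := fun _ => t) h2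
      simpa using h8
    have h9 : p ∣ S.card * t := (Nat.modEq_zero_iff_dvd.mp (h7.symm.trans (Nat.modEq_zero_iff_dvd.mpr hdvd)))
    exact (hp.dvd_mul.mp h9).resolve_right hpt


end Cfsg.Agent.S4825
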