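import Cfsg.Statements.S4828
import Cfsg.Agent.H27.CentDef

set_option autoImplicit false
open Cfsg

namespace Cfsg.Agent.S4828

open Cfsg.Agent.H3 Cfsg.Agent.H11 Cfsg.Agent.H27 Cfsg.Agent.H26

/-- Let p be a prime, M a maximal ideal of the algebraic integers containing p, and (Q, e) a Brauer pair of the finite group G (Q a p-subgroup, e a block of C_G(Q)). Then (Q, e) is a maximal Brauer pair of some block of G if and only if e contains an irreducible character θ such that θ takes the value θ(1) at every element of Z(Q) = Q ∩ C_G(Q), the p-part of θ(1) times the p-part of the order of Z(Q) equals the p-part of the order of C_G(Q) (θ has defect zero as a character of C_G(Q)/Z(Q)), and every element of N_G(Q) of p-power order that stabilizes e lies in Q·C_G(Q) (the stabilizer of e in N_G(Q) has index prime to p over Q·C_G(Q)). -/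
theorem result {G : Type*} [Group G] [Finite G] (p : ℕ) [Fact p.Prime] (M : Ideal Cfsg.AlgInt) (hM : Cfsg.IsPModular p M) (Q : Subgroup G) (e : Set (Cfsg.IrrCharacter (Subgroup.centralizer (Q : Set G)))) (he : Cfsg.IsBrauerPair p M Q e) :
    (∃ B : Set (Cfsg.IrrCharacter G), Cfsg.IsMaximalBrauerPair p M B Q e) ↔
      ∃ θ ∈ e, (∀ z : Subgroup.centralizer (Q : Set G), (z : G) ∈ Q → (θ : Subgroup.centralizer (Q : Set G) → ℂ) z = (θ : Subgroup.centralizer (Q : Set G) → ℂ) 1) ∧
        (Cfsg.charDegree (θ : Subgroup.centralizer (Q : Set G) → ℂ)).factorization p + (Nat.card ↥(Q ⊓ Subgroup.centralizer (Q : Set G))).factorization p = (Nat.card (Subgroup.centralizer (Q : Set G))).factorization p ∧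
        (∀ g : G, g ∈ Subgroup.normalizer (Q : Set G) → Cfsg.StabilizesBlock (Subgroup.centralizer (Q : Set G)) e g → (∃ k : ℕ, orderOf g = p ^ k) → g ∈ Q ⊔ Subgroup.centralizer (Q : Set G)) := by
  classical
  have := Fintype.ofFinite G
  have hpr := hM.2.1.isPrime
  have hCh := charP_KF hM
  have := Fintype.ofFinite (cz Q)
  obtain ⟨hQ, heB⟩ := he
  have hf := isBlk_EH heB
  have hdef := isDef_stab_iff hQ hf
  set Z : Subgroup (cz Q) := Q.subgroupOf (cz Q) with hZdef
  have hZp : IsPGroup p Z := hQ.comap_subtype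
  have hZc : Z ≤ Subgroup.center (cz Q) := by
    intro z hz
    rw [Subgroup.mem_center_iff]
    intro x
    apply Subtype.ext
    exact (Subgroup.mem_centralizer_iff.mp x.2 z (Subgroup.mem_subgroupOf.mp hz)).symm
  have hsm : sm (MulEquiv.refl (cz Q)) Z = Q ⊓ cz Q := by
    ext g
    constructor
    · intro hg
      have hgC := sm_le _ _ hg
      rw [mem_sm' _ hgC] at hg
      exact ⟨hg, hgC⟩
    · rintro ⟨h1, h2⟩
      rw [mem_sm' _ h2]
      exact h1
  have hcardZ : Nat.card Z = Nat.card (Q ⊓ cz Q : Subgroup G) := by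
    have h1 : Z = (Q ⊓ cz Q).subgroupOf (cz Q) := by
      rw [hZdef, Subgroup.inf_subgroupOf_right]
    rw [h1]
    exact Nat.card_congr (Subgroup.subgroupOfEquivOfLe inf_le_right).toEquiv
  have hdg : IsDefectGroup p M e Z ↔ IsDef p (cz Q) (EH M (cz Q) e) (Q ⊓ cz Q) := by
    rw [H26.isDefectGroup_iff (MulEquiv.refl (cz Q)) heB, hsm]
  have hstab : ∀ g : G, g ∈ stab (nz Q) (EH M (cz Q) e) ↔ g ∈ nz Q ∧
      StabilizesBlock (cz Q) e g := by
    intro g
    rw [mem_stab, stabilizesBlock_iff heB]
    constructor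
    · rintro ⟨h1, h2⟩
      exact ⟨h1, normalizer_le_normalizer_centralizer Q h1, h2⟩
    · rintro ⟨h1, _, h2⟩
      exact ⟨h1, h2⟩
  have hmax : (∃ B : Set (IrrCharacter G), IsMaximalBrauerPair p M B Q e) ↔
      IsDef p (stab (nz Q) (EH M (cz Q) e)) (EH M (cz Q) e) Q := by
    constructor
    · rintro ⟨B, hB⟩
      rw [isMaximalBrauerPair_iff] at hB
      exact (maxB_iff hB.2.2.1).mp hB.2.2
    · intro hD
      obtain ⟨E, hE, _⟩ := existsUnique_inB (p := p) (P := Q) (e := EH M (cz Q) e) ⟨hQ, hf⟩
      obtain ⟨B, hB, hBE⟩ := exists_EG hE.1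
      refine ⟨B, ?_⟩
      rw [isMaximalBrauerPair_iff]
      refine ⟨hB, heB, ?_⟩
      rw [hBE]
      exact (maxB_iff hE).mpr hD
  rw [hmax, hdef, ← hdg]
  constructor
  · rintro ⟨h1, h2⟩
    obtain ⟨θ, hθ, hθt⟩ := exists_trivial_of_central hM hZp hZc heB
    refine ⟨θ, hθ, ?_, ?_, ?_⟩
    · intro z hz
      exact hθt z (Subgroup.mem_subgroupOf.mpr hz)
    · rw [← hcardZ]
      exact fact_of_trivial hM hZc heB h1 hθ hθt
    · intro g hg hst hk
      exact h2 g ((hstab g).mpr ⟨hg, hst⟩) hk
  · rintro ⟨θ, hθ, hθt, hfac, h3⟩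
    constructor
    · have hb : blockOf M (θ : cz Q → ℂ) = e :=
        (isPBlock_eq_blockOf heB hθ).symm
      rw [← hb]
      apply laradji_defect hM hZp hZc
      have h5 : (Nat.card (cz Q)).factorization p =
          Z.index.factorization p + (Nat.card Z).factorization p := by
        rw [← Subgroup.index_mul_card Z, Nat.factorization_mul
          Subgroup.index_ne_zero_of_finite Nat.card_pos.ne', Finsupp.add_apply]
      rw [← hcardZ] at hfac
      have h6 : (charDegree (θ : cz Q → ℂ)).factorization p + (Nat.card Z).factorization p =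
          (Nat.card (cz Q)).factorization p := hfac
      omega
    · intro g hg hk
      obtain ⟨h4, h5⟩ := (hstab g).mp hg
      exact h3 g h4 h5 hk

end Cfsg.Agent.S4828
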