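import Cfsg.Statements.S4870
import Cfsg.Agent.H7.RealE

set_option autoImplicit false
open Cfsg

namespace Cfsg.Agent.S4870

/-- Let G be a finite group with a non-abelian minimal normal subgroup N, and let φ be an irreducible complex character of N with stabilizer I in G (the elements g with φ(g n g⁻¹) = φ(n) for all n ∈ N) such that φ extends to an irreducible character of I. Put d = φ(1)·[G : I]. Then the number of linear characters of G is at most [G : I] times the number of irreducible characters of G of degree d. -/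
theorem result {G : Type*} [Group G] [Finite G] (N : Subgroup G) (hN : N.Normal) (hN1 : N ≠ ⊥) (hmin : ∀ M : Subgroup G, M.Normal → M ≤ N → M = ⊥ ∨ M = N) (hna : ¬ IsMulCommutative ↥N) (φ : Cfsg.IrrCharacter ↥N) (I : Subgroup G) (hI : ∀ g : G, g ∈ I ↔ ∀ n n' : ↥N, (n' : G) = g * (n : G) * g⁻¹ → (φ : ↥N → ℂ) n' = (φ : ↥N → ℂ) n) (hNI : N ≤ I) (hext : ∃ ψ : Cfsg.IrrCharacter ↥I, ∀ n : ↥N, (ψ : ↥I → ℂ) (Subgroup.inclusion hNI n) = (φ : ↥N → ℂ) n) : Nat.card {χ : Cfsg.IrrCharacter G // Cfsg.charDegree (χ : G → ℂ) = 1} ≤ I.index * Nat.card {χ : Cfsg.IrrCharacter G // Cfsg.charDegree (χ : G → ℂ) = Cfsg.charDegree (φ : ↥N → ℂ) * I.index} := by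
  classical
  haveI : Fintype G := Fintype.ofFinite G
  haveI : Fintype N := Fintype.ofFinite N
  haveI : Fintype I := Fintype.ofFinite I
  obtain ⟨ψ, hψ⟩ := hext
  have hI' : I = H3.inertia hN (φ : N → ℂ) := by
    ext g
    rw [hI, H3.mem_inertia']
    constructor
    · intro h n
      exact h n _ rfl
    · intro h n n' hn
      have h0 : n' = ⟨g * (n : G) * g⁻¹, hN.conj_mem n n.2 g⟩ := Subtype.ext hn
      rw [h0]
      exact h n
  have hp := H7.RealE.perfect N hN hmin hna
  have h1 := H7.RealE.card_lin_le (G := G) (fun _ => True) ⊤ (fun _ _ _ _ => Subgroup.mem_top _)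
  have hirr := H11.PF.corr_irr hN hNI φ.2 hI' ψ.2 (H7.RealE.res_ne hNI φ.2 hψ (ν := ψ) fun n => rfl)
  have h2 := H7.RealE.count hN hNI φ.2 hI' ψ.2 hψ hp ⊤
    (fun χ => Cfsg.charDegree (χ : G → ℂ) = Cfsg.charDegree (φ : ↥N → ℂ) * I.index) (by
      intro μ _ χ hχ
      have h3 : ((Cfsg.charDegree (χ : G → ℂ) : ℕ) : ℂ) =
          ((Cfsg.charDegree (φ : ↥N → ℂ) * I.index : ℕ) : ℂ) := by
        rw [← H27.deg_eq χ, hχ]
        show ((μ 1 : ℂˣ) : ℂ) * indFun I (ψ : I → ℂ) 1 = _
        rw [H3.indFun_one_apply]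
        have h4 := hψ 1
        rw [map_one] at h4
        rw [h4, H27.deg_eq φ, map_one]
        push_cast
        ring
      exact_mod_cast h3)
  refine le_trans ?_ h2
  refine le_trans (le_of_eq ?_) h1
  exact Nat.card_congr (Equiv.subtypeEquivRight fun χ => by simp)

end Cfsg.Agent.S4870
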