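import Cfsg.Statements.S4873
import Cfsg.Agent.H7.RealC

set_option autoImplicit false
open Cfsg

namespace Cfsg.Agent.S4873

/-- Let N be a normal subgroup of odd index in the finite group G. Then every irreducible complex character of N with Frobenius–Schur indicator +1 lies under exactly one irreducible character of G with Frobenius–Schur indicator +1. -/
theorem result {G : Type*} [Group G] [Finite G] (N : Subgroup G) [N.Normal] (hodd : Odd N.index) (φ : Cfsg.IrrCharacter ↥N) (hφ : (Nat.card ↥N : ℂ)⁻¹ * ∑ᶠ g : ↥N, (φ : ↥N → ℂ) (g * g) = 1) : ∃! χ : Cfsg.IrrCharacter G, (Nat.card G : ℂ)⁻¹ * ∑ᶠ g : G, (χ : G → ℂ) (g * g) = 1 ∧ (∑ᶠ n : ↥N, (χ : G → ℂ) n * (starRingEnd ℂ) ((φ : ↥N → ℂ) n)) ≠ 0 := by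
  classical
  haveI : Fintype G := Fintype.ofFinite G
  haveI : Fintype N := Fintype.ofFinite N
  have hG0 : ∀ χ : IrrCharacter G, (Nat.card G : ℂ)⁻¹ * ∑ᶠ g : G, (χ : G → ℂ) (g * g) =
      H3.fsInd (χ : G → ℂ) := fun χ => by rw [H3.fsInd, finsum_eq_sum_of_fintype]
  have hN0 : (Nat.card N : ℂ) ≠ 0 := by exact_mod_cast Nat.card_pos.ne'
  have hI : ∀ χ : IrrCharacter G, (∑ᶠ n : ↥N, (χ : G → ℂ) n * (starRingEnd ℂ) ((φ : ↥N → ℂ) n)) ≠ 0 ↔
      classInner (fun n : N => (χ : G → ℂ) n) φ ≠ 0 := by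
    intro χ
    rw [classInner, finsum_eq_sum_of_fintype, Ne, Ne, mul_eq_zero, inv_eq_zero]
    simp [hN0]
  simp only [hG0, hI]
  refine H7.RealC.fs_main N hodd φ ?_
  rw [H3.fsInd, ← finsum_eq_sum_of_fintype]
  exact hφ

end Cfsg.Agent.S4873
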