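import Cfsg.Statements.S4888
import Cfsg.Agent.H7.BlkHZ

set_option autoImplicit false
open Cfsg

namespace Cfsg.Agent.S4888

/-- Let G be a finite group, p a prime and M a maximal ideal of the algebraic integers containing p. Then all height-zero irreducible characters of the principal p-block of G (equivalently, all its characters of degree prime to p) have the same degree if and only if G has a normal p-complement. -/
theorem result {G : Type*} [Group G] [Finite G] (p : ℕ) [Fact p.Prime] (M : Ideal Cfsg.AlgInt) (hM : Cfsg.IsPModular p M) : (∃ d : ℕ, ∀ χ : Cfsg.IrrCharacter G, χ ∈ (Cfsg.principalBlock M G) → Cfsg.blockHeight p (Cfsg.principalBlock M G) (χ : G → ℂ) = 0 → Cfsg.charDegree (χ : G → ℂ) = d) ↔ Cfsg.HasNormalPComplement p G := by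
  haveI hM' : M.IsPrime := hM.2.1.isPrime
  haveI := Fintype.ofFinite G
  constructor
  · rintro ⟨d, hd⟩
    have hone : charDegree ((H27.oneIrr G : IrrCharacter G) : G → ℂ) = 1 := by
      show ⌊((1 : ℂ)).re⌋₊ = 1
      simp
    have h1 : d = 1 := by
      rw [← hd (H27.oneIrr G) H27.oneIrr_mem ((H7.BlkHZ.height_zero_iff hM _).2 (by
        rw [hone]; exact (Fact.out : p.Prime).one_lt.ne' ∘ Nat.dvd_one.1)), hone]
    refine H7.BlkHZ.forward hM fun χ hχ hp => ?_
    rw [hd χ hχ ((H7.BlkHZ.height_zero_iff hM χ).2 hp), h1]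
  · intro h
    exact ⟨1, fun χ hχ h0 => H7.BlkHZ.backward hM h χ hχ ((H7.BlkHZ.height_zero_iff hM χ).1 h0)⟩

end Cfsg.Agent.S4888
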