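import Cfsg.Statements.S4889
import Cfsg.Agent.H27.Md27
import Cfsg.Agent.H3.Basic2

set_option autoImplicit false
open Cfsg

namespace Cfsg.Agent.S4889

open Cfsg.Agent.H27 Cfsg.Agent.H27.Md Cfsg.Agent.H11 Cfsg.Agent.H26 Cfsg.Agent.H3

/-- Let G be a finite group, p a prime, M a maximal ideal of the algebraic integers containing p, and B a p-block of G that has an abelian defect group and in which every irreducible character has height zero. Then all irreducible characters of B have the same degree if and only if B is a nilpotent block. -/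
theorem result {G : Type*} [Group G] [Finite G] (p : ℕ) [Fact p.Prime] (M : Ideal Cfsg.AlgInt) (hM : Cfsg.IsPModular p M) (B : Set (Cfsg.IrrCharacter G)) (hB : Cfsg.IsPBlock M B) (D : Subgroup G) (hD : Cfsg.IsDefectGroup p M B D) (hDab : IsMulCommutative ↥D) (h0 : ∀ χ : Cfsg.IrrCharacter G, χ ∈ B → Cfsg.blockHeight p B (χ : G → ℂ) = 0) : (∃ d : ℕ, ∀ χ : Cfsg.IrrCharacter G, χ ∈ B → Cfsg.charDegree (χ : G → ℂ) = d) ↔ Cfsg.IsNilpotentBlock p M B := by
  classical
  haveI := Fintype.ofFinite G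
  haveI : M.IsPrime := hM.2.1.isPrime
  constructor
  · rintro ⟨d, hd⟩
    refine nil_of_equal hM hB D hD ?_ hd
    intro x hx y hy
    exact congrArg Subtype.val (hDab.is_comm.comm (⟨x, hx⟩ : D) ⟨y, hy⟩)
  · intro hn
    obtain ⟨χ₀, hχ₀⟩ := exists_mem_block hB
    refine ⟨charDegree (χ₀ : G → ℂ), ?_⟩
    intro ψ hψ
    obtain ⟨ζ, hζ⟩ := nil_degrees hM D hD hn hχ₀ (h0 χ₀ hχ₀) hψ
    have h1 : charDegree (ζ : D → ℂ) = 1 := by
      have h2 := irr_degree_one_of_comm ζ.2
      rw [← charDegree_cast (irr_isChar ζ.2)] at h2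
      exact_mod_cast h2
    rw [hζ, h1, one_mul]

end Cfsg.Agent.S4889
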