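import Cfsg.Statements.S4890
import Cfsg.Agent.H27.Md31

set_option autoImplicit false
open Cfsg

namespace Cfsg.Agent.S4890

open Cfsg.Agent.H27 Cfsg.Agent.H27.Md Cfsg.Agent.H11 Cfsg.Agent.H26 Cfsg.Agent.H3

/-- Let G be a finite group, p a prime, M a maximal ideal of the algebraic integers containing p, and B a p-block of G with a defect group that is normal in G. Then all height-zero irreducible characters of B have the same degree if and only if B is a nilpotent block. -/
theorem result {G : Type*} [Group G] [Finite G] (p : ℕ) [Fact p.Prime] (M : Ideal Cfsg.AlgInt) (hM : Cfsg.IsPModular p M) (B : Set (Cfsg.IrrCharacter G)) (hB : Cfsg.IsPBlock M B) (D : Subgroup G) (hD : Cfsg.IsDefectGroup p M B D) (hDn : D.Normal) : (∃ d : ℕ, ∀ χ : Cfsg.IrrCharacter G, χ ∈ B → Cfsg.blockHeight p B (χ : G → ℂ) = 0 → Cfsg.charDegree (χ : G → ℂ) = d) ↔ Cfsg.IsNilpotentBlock p M B := by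
  classical
  haveI := Fintype.ofFinite G
  haveI hMp : M.IsPrime := hM.2.1.isPrime
  constructor
  · rintro ⟨d, hd⟩
    exact nil_of_normal hM hB D hD hd
  · intro hn
    obtain ⟨χ₀, hχ₀, h0⟩ := exists_height_zero hM hB
    refine ⟨charDegree (χ₀ : G → ℂ), ?_⟩
    intro ψ hψ hψ0
    obtain ⟨ζ, hζ⟩ := nil_degrees hM D hD hn hχ₀ h0 hψ
    have h1 := (height_eq_zero_iff hM hB hD hψ).mp hψ0
    have h2 := (height_eq_zero_iff hM hB hD hχ₀).mp h0
    have hz0 := (charDegree_pos ζ.2).ne'
    have hc0 := (charDegree_pos χ₀.2).ne'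
    rw [hζ, Nat.factorization_mul hz0 hc0, Finsupp.add_apply, h2] at h1
    have h3 : (charDegree (ζ : D → ℂ)).factorization p = 0 := by omega
    have h4 : charDegree (ζ : D → ℂ) ∣ Nat.card D := irr_degree_dvd_card ζ.2 (charDegree_spec ζ.2).1
    obtain ⟨k, hk⟩ := IsPGroup.iff_card.mp (IsDefectGroup.isPGroup hM hD)
    rw [hk] at h4
    obtain ⟨j, -, hj⟩ := (Nat.dvd_prime_pow (Fact.out : p.Prime)).mp h4
    have h5 : charDegree (ζ : D → ℂ) = 1 := by
      rw [hj, (Fact.out : p.Prime).factorization_pow, Finsupp.single_eq_same] at h3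
      rw [hj, h3, pow_zero]
    rw [hζ, h5, one_mul]

end Cfsg.Agent.S4890
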