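import Cfsg.Statements.S4912
import Cfsg.Agent.H7.RealE

set_option autoImplicit false
open Cfsg

namespace Cfsg.Agent.S4912

/-- Let G be a finite group with a non-abelian minimal normal subgroup N, and let φ be an irreducible complex character of N with stabilizer I in G such that φ extends to an irreducible character of I with Frobenius–Schur indicator +1. Put d = φ(1)·[G : I]. Then the number of linear characters of G with Frobenius–Schur indicator +1 is at most [G : I] times the number of irreducible characters of G of degree d with Frobenius–Schur indicator +1. -/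
theorem result {G : Type*} [Group G] [Finite G] (N : Subgroup G) (hN : N.Normal) (hN1 : N ≠ ⊥) (hmin : ∀ M : Subgroup G, M.Normal → M ≤ N → M = ⊥ ∨ M = N) (hna : ¬ IsMulCommutative ↥N) (φ : Cfsg.IrrCharacter ↥N) (I : Subgroup G) (hI : ∀ g : G, g ∈ I ↔ ∀ n n' : ↥N, (n' : G) = g * (n : G) * g⁻¹ → (φ : ↥N → ℂ) n' = (φ : ↥N → ℂ) n) (hNI : N ≤ I) (hext : ∃ ψ : Cfsg.IrrCharacter ↥I, (Nat.card ↥I : ℂ)⁻¹ * ∑ᶠ g : ↥I, (ψ : ↥I → ℂ) (g * g) = 1 ∧ ∀ n : ↥N, (ψ : ↥I → ℂ) (Subgroup.inclusion hNI n) = (φ : ↥N → ℂ) n) : Nat.card {χ : Cfsg.IrrCharacter G // Cfsg.charDegree (χ : G → ℂ) = 1 ∧ (Nat.card G : ℂ)⁻¹ * ∑ᶠ g : G, (χ : G → ℂ) (g * g) = 1} ≤ I.index * Nat.card {χ : Cfsg.IrrCharacter G // Cfsg.charDegree (χ : G → ℂ) = Cfsg.charDegree (φ : ↥N → ℂ) * I.index ∧ (Nat.card G : ℂ)⁻¹ * ∑ᶠ g : G, (χ : G → ℂ) (g * g) = 1} := by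
  classical
  haveI : Fintype G := Fintype.ofFinite G
  haveI : Fintype N := Fintype.ofFinite N
  haveI : Fintype I := Fintype.ofFinite I
  obtain ⟨ψ, hfs, hψ⟩ := hext
  rw [finsum_eq_sum_of_fintype] at hfs
  have hfs' : H3.fsInd (ψ : I → ℂ) = 1 := hfs
  have hI' : I = H3.inertia hN (φ : N → ℂ) := by
    ext g
    rw [hI, H3.mem_inertia']
    constructor
    · intro h n
      exact h n _ rfl
    · intro h n n' hn
      have h0 : n' = ⟨g * (n : G) * g⁻¹, hN.conj_mem n n.2 g⟩ := Subtype.ext hn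
      rw [h0]
      exact h n
  have hp := H7.RealE.perfect N hN hmin hna
  have hG0 : ∀ χ : IrrCharacter G, (Nat.card G : ℂ)⁻¹ * ∑ᶠ g : G, (χ : G → ℂ) (g * g) =
      H3.fsInd (χ : G → ℂ) := fun χ => by rw [H3.fsInd, finsum_eq_sum_of_fintype]
  simp only [hG0]
  have h1 := H7.RealE.card_lin_le (G := G) (fun χ => H3.fsInd (χ : G → ℂ) = 1)
    (H27.linTor G 2) (by
      intro μ χ hχ h1
      rw [H27.mem_linTor]
      ext g
      have hr := H7.RealC.real_of_fs_ne χ.2 (by rw [h1]; exact one_ne_zero) g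
      rw [hχ] at hr
      have h2 := H27.hom_mul_conj μ g
      rw [Complex.conj_eq_iff_im.2 hr] at h2
      rw [MonoidHom.pow_apply, pow_two, Units.val_mul, h2]
      rfl)
  have h2 := H7.RealE.count hN hNI φ.2 hI' ψ.2 hψ hp (H27.linTor G 2)
    (fun χ => Cfsg.charDegree (χ : G → ℂ) = Cfsg.charDegree (φ : ↥N → ℂ) * I.index ∧
      H3.fsInd (χ : G → ℂ) = 1) (by
      intro μ hμ χ hχ
      constructor
      · have h3 : ((Cfsg.charDegree (χ : G → ℂ) : ℕ) : ℂ) =
            ((Cfsg.charDegree (φ : ↥N → ℂ) * I.index : ℕ) : ℂ) := by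
          rw [← H27.deg_eq χ, hχ]
          show ((μ 1 : ℂˣ) : ℂ) * indFun I (ψ : I → ℂ) 1 = _
          rw [H3.indFun_one_apply]
          have h4 := hψ 1
          rw [map_one] at h4
          rw [h4, H27.deg_eq φ, map_one]
          push_cast
          ring
        exact_mod_cast h3
      · have h5 := H7.RealE.fs_ind hN hNI φ.2 hI' ψ.2 hψ hfs'
        rw [← h5, H3.fsInd, H3.fsInd]
        congr 1
        refine Finset.sum_congr rfl fun g _ => ?_
        rw [hχ]
        have h6 : μ (g * g) = 1 := by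
          rw [map_mul, ← pow_two, ← MonoidHom.pow_apply, H27.mem_linTor.1 hμ]; rfl
        show ((μ (g * g) : ℂˣ) : ℂ) * _ = _
        rw [h6, Units.val_one, one_mul])
  exact h1.trans h2

end Cfsg.Agent.S4912
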