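import Cfsg.Statements.S4914
import Cfsg.Agent.H27.GlMain

set_option autoImplicit false
open Cfsg

namespace Cfsg.Agent.S4914

open Cfsg.Agent.H27


/-- Let P and K be subgroups of a finite group G with P a p-group normalizing K, and suppose K has a normal Sylow p-subgroup Q. Let C be the subgroup of those k ∈ K whose commutator with every element of P lies in Q (so that C/Q is the fixed-point subgroup of P on K/Q). Then there is a bijection f from the P-invariant irreducible complex characters of K onto the P-invariant irreducible complex characters of C such that, for every P-invariant irreducible character χ of K, the multiplicity of f(χ) in the restriction of χ to C is a natural number congruent to 1 or to −1 modulo p, every other P-invariant irreducible character of C occurs in that restriction with multiplicity divisible by p, and the degrees of χ and f(χ) are congruent modulo p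 up to sign. -/
theorem result {G : Type*} [Group G] [Finite G] (p : ℕ) [Fact p.Prime] (P K Q C : Subgroup G) (hP : IsPGroup p ↥P) (hPK : P ≤ Subgroup.normalizer (K : Set G)) (hQK : Q ≤ K) (hQn : ∀ k ∈ K, ∀ q ∈ Q, k * q * k⁻¹ ∈ Q) (hQp : ∃ a : ℕ, Nat.card ↥Q = p ^ a) (hQsyl : ¬ p ∣ Q.relIndex K) (hCK : C ≤ K) (hC : ∀ k : G, k ∈ C ↔ (k ∈ K ∧ ∀ x ∈ P, x * k * x⁻¹ * k⁻¹ ∈ Q)) : ∃ f : {χ : Cfsg.IrrCharacter ↥K // (∀ x ∈ P, ∀ k k' : ↥K, (k' : G) = x * (k : G) * x⁻¹ → (χ : ↥K → ℂ) k' = (χ : ↥K → ℂ) k)} → {ξ : Cfsg.IrrCharacter ↥C // (∀ x ∈ P, ∀ k k' : ↥C, (k' : G) = x * (k : G) * x⁻¹ → (ξ : ↥C → ℂ) k' = (ξ : ↥C → ℂ) k)}, Function.Bijective f ∧ ∀ χ, (∀ ξ : {ξ : Cfsg.IrrCharacter ↥C // (∀ x ∈ P, ∀ k k' : ↥C, (k' : G) = x * (k : G) * x⁻¹ → (ξ : ↥C → ℂ) k' = (ξ : ↥C → ℂ) k)}, ∃ m : ℕ, (Nat.card ↥C : ℂ)⁻¹ * ∑ᶠ c : ↥C, (χ.1 : ↥K → ℂ) (Subgroup.inclusion hCK c) * (starRingEnd ℂ) ((ξ.1 : ↥C → ℂ) c) =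 (m : ℂ) ∧ (ξ = f χ → ((m : ZMod p) = 1 ∨ (m : ZMod p) = -1)) ∧ (ξ ≠ f χ → p ∣ m)) ∧ ((Cfsg.charDegree ((f χ).1 : ↥C → ℂ) : ZMod p) = (Cfsg.charDegree (χ.1 : ↥K → ℂ) : ZMod p) ∨ (Cfsg.charDegree ((f χ).1 : ↥C → ℂ) : ZMod p) = -(Cfsg.charDegree (χ.1 : ↥K → ℂ) : ZMod p)) := by
  classical
  have hp : p.Prime := Fact.out
  have hKQ : K ≤ Subgroup.normalizer (Q : Set G) := by
    intro k hk
    rw [Subgroup.mem_normalizer_iff]
    intro q
    refine ⟨hQn k hk q, fun h => ?_⟩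
    have := hQn k⁻¹ (inv_mem hk) _ h
    have e : k⁻¹ * (k * q * k⁻¹) * k⁻¹⁻¹ = q := by group
    rwa [e] at this
  have hPQ := norm_sylow hp hPK hKQ hQK hQp hQsyl
  have hg := good_main hp hKQ hQK hQsyl (Nat.card P) P C le_rfl hP hPK hPQ hCK hC
  have hPC : P ≤ Subgroup.normalizer (C : Set G) :=
    norm_of_fix Subgroup.le_normalizer hPK hPQ hC
  choose f1 hf1 hf2 hf3 using hg.1
  have hsq : ∀ z : ZMod p, z ^ 2 = 1 → z = 1 ∨ z = -1 := by
    intro z hz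
    exact sq_eq_one_iff.mp hz
  refine ⟨fun χ => ⟨f1 χ.1 χ.2, hf1 χ.1 χ.2⟩, ⟨?_, ?_⟩, ?_⟩
  · intro χ χ' he
    have he' : f1 χ.1 χ.2 = f1 χ'.1 χ'.2 := congrArg Subtype.val he
    obtain ⟨ψ, h1, h2, h3⟩ := hg.2 (f1 χ.1 χ.2) (hf1 χ.1 χ.2)
    have a1 : χ.1 = ψ := by
      by_contra hcon
      have := h3 χ.1 χ.2 hcon
      have h4 := hf2 χ.1 χ.2
      rw [this] at h4
      simp at h4
    have a2 : χ'.1 = ψ := by
      by_contra hcon
      have := h3 χ'.1 χ'.2 hcon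
      have h4 := hf2 χ'.1 χ'.2
      rw [← he', this] at h4
      simp at h4
    exact Subtype.ext (a1.trans a2.symm)
  · intro ξ
    obtain ⟨χ, h1, h2, h3⟩ := hg.2 ξ.1 ξ.2
    refine ⟨⟨χ, h1⟩, ?_⟩
    apply Subtype.ext
    show f1 χ h1 = ξ.1
    by_contra hcon
    have := hf3 χ h1 ξ.1 ξ.2 (fun h => hcon h.symm)
    rw [this] at h2
    simp at h2
  · intro χ
    refine ⟨fun ξ => ⟨mlt hCK χ.1 ξ.1, (mlt_spec hCK χ.1 ξ.1).symm, ?_, ?_⟩, ?_⟩
    · rintro rfl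
      exact hsq _ (hf2 χ.1 χ.2)
    · intro hne
      have := hf3 χ.1 χ.2 ξ.1 ξ.2 (fun h => hne (Subtype.ext h))
      exact (ZMod.natCast_eq_zero_iff _ p).mp this
    · have hd := degree_zmod hp hP hPK hPC hCK χ.1 χ.2 (f1 χ.1 χ.2) (hf1 χ.1 χ.2)
        (fun η hη hne => hf3 χ.1 χ.2 η hη hne)
      show ((charDegree ((f1 χ.1 χ.2 : IrrCharacter C) : C → ℂ) : ZMod p) = _ ∨
        (charDegree ((f1 χ.1 χ.2 : IrrCharacter C) : C → ℂ) : ZMod p) = _)
      rw [hd]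
      rcases hsq _ (hf2 χ.1 χ.2) with h | h
      · left; rw [h, one_mul]
      · right; rw [h]; ring

end Cfsg.Agent.S4914
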