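import Cfsg.Statements.S4916
import Cfsg.Agent.H27.DefZero

set_option autoImplicit false
open Cfsg

namespace Cfsg.Agent.S4916

open Cfsg.Agent.H3 Cfsg.Agent.H11 Cfsg.Agent.H27
open scoped ComplexConjugate


/-- Let G be a finite group, p a prime and M a maximal ideal of the algebraic integers containing p. Then the principal character is the only irreducible character of degree prime to p in the principal p-block of G if and only if p does not divide the order of G. -/
theorem result {G : Type*} [Group G] [Finite G] (p : ℕ) [Fact p.Prime] (M : Ideal Cfsg.AlgInt) (hM : Cfsg.IsPModular p M) : (∀ χ : Cfsg.IrrCharacter G, χ ∈ Cfsg.principalBlock M G → ¬ p ∣ Cfsg.charDegree (χ : G → ℂ) → (χ : G → ℂ) = fun _ => (1 : ℂ)) ↔ ¬ p ∣ Nat.card G := by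
  classical
  have := Fintype.ofFinite G
  have := Fintype.ofFinite (IrrCharacter G)
  have hpr := hM.2.1.isPrime
  have hpp := hM.1
  constructor
  · intro h hdvd
    -- the sum of squares
    have h1 : MemLocalRing M (blockCoeff (principalBlock M G) (1 : G)) := lr_blockCoeff isPBlock_principal 1
    have h2 : (Nat.card G : ℂ) * blockCoeff (principalBlock M G) (1 : G)
        = ((∑ χ : IrrCharacter G with χ ∈ principalBlock M G, charDegree (χ : G → ℂ) ^ 2 : ℕ) : ℂ) := by
      unfold blockCoeff
      rw [mul_inv_cancel_left₀ (by exact_mod_cast Nat.card_pos.ne'), finsum_mem_irr]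
      push_cast
      apply Finset.sum_congr rfl
      intro χ _
      rw [charDegree_cast (irr_isChar χ.2), conj_char (irr_isChar χ.2), inv_one, sq]
    have h3 : MemLocalIdeal M ((Nat.card G : ℂ) * blockCoeff (principalBlock M G) (1 : G)) :=
      li_mul_right ((li_natCast_iff hM _).mpr hdvd) h1
    rw [h2, li_natCast_iff hM] at h3
    have hmem : oneIrr G ∈ (Finset.univ.filter (fun χ : IrrCharacter G => χ ∈ principalBlock M G)) := by
      rw [Finset.mem_filter]; exact ⟨Finset.mem_univ _, oneIrr_mem⟩
    rw [← Finset.add_sum_erase _ _ hmem, charDegree_oneIrr, one_pow] at h3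
    have h4 : p ∣ ∑ χ ∈ (Finset.univ.filter (fun χ : IrrCharacter G => χ ∈ principalBlock M G)).erase (oneIrr G),
        charDegree (χ : G → ℂ) ^ 2 := by
      apply Finset.dvd_sum
      intro χ hχ
      rw [Finset.mem_erase, Finset.mem_filter] at hχ
      by_contra h5
      have h6 := h χ hχ.2.2 (fun h7 => h5 (dvd_pow h7 two_ne_zero))
      exact hχ.1 (Subtype.ext h6)
    exact hpp.one_lt.ne' (Nat.dvd_one.mp ((Nat.dvd_add_left h4).mp h3))
  · intro h χ hχ _
    have h1 : blockOf M ((oneIrr G : IrrCharacter G) : G → ℂ) = {oneIrr G} := by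
      apply blockOf_eq_singleton hM
      rw [Nat.factorization_eq_zero_of_not_dvd h]
      exact Nat.zero_le _
    have h2 : χ ∈ ({oneIrr G} : Set (IrrCharacter G)) := by
      rw [← h1]; exact hχ
    rw [Set.mem_singleton_iff] at h2
    rw [h2]
    rfl

end Cfsg.Agent.S4916
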