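import Cfsg.Statements.S4969
import Cfsg.Agent.H27.Util

set_option autoImplicit false
open Cfsg

namespace Cfsg.Agent.S4969

/-- Let G be a finite group with k conjugacy classes, g ∈ G, and N > 0. Then the sum over the irreducible complex characters χ of G with χ(1) ≥ N of |χ(g)|/χ(1) is at most √(k · #C_G(g)) / N. -/
theorem result {G : Type*} [Group G] [Finite G] (g : G) (N : ℝ) (hN : 0 < N) :
    ∑ᶠ χ : Cfsg.IrrCharacter G, (if N ≤ ‖(χ : G → ℂ) 1‖ then ‖(χ : G → ℂ) g‖ / ‖(χ : G → ℂ) 1‖ else 0) ≤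
      Real.sqrt ((Nat.card (ConjClasses G) : ℝ) * (Nat.card ↥(Subgroup.centralizer ({g} : Set G)) : ℝ)) / N := by
  classical
  have := Fintype.ofFinite G
  have := Fintype.ofFinite (Cfsg.IrrCharacter G)
  rw [finsum_eq_sum_of_fintype]
  have hN0 : N ≠ 0 := hN.ne'
  rw [le_div_iff₀ hN, Finset.sum_mul]
  have h1 : ∀ χ : Cfsg.IrrCharacter G, (if N ≤ ‖(χ : G → ℂ) 1‖ then ‖(χ : G → ℂ) g‖ / ‖(χ : G → ℂ) 1‖ else 0) * N
      ≤ ‖(χ : G → ℂ) g‖ := by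
    intro χ
    split_ifs with h
    · have h2 : 0 < ‖(χ : G → ℂ) 1‖ := lt_of_lt_of_le hN h
      rw [div_mul_eq_mul_div, div_le_iff₀ h2]
      exact mul_le_mul_of_nonneg_left h (norm_nonneg _)
    · simp
  refine (Finset.sum_le_sum fun χ _ => h1 χ).trans ?_
  apply Real.le_sqrt_of_sq_le
  have h3 : (∑ χ : Cfsg.IrrCharacter G, ‖(χ : G → ℂ) g‖) ^ 2
      ≤ (Finset.univ : Finset (Cfsg.IrrCharacter G)).card * ∑ χ : Cfsg.IrrCharacter G, ‖(χ : G → ℂ) g‖ ^ 2 :=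
    sq_sum_le_card_mul_sum_sq
  have h4 : ∑ χ : Cfsg.IrrCharacter G, ‖(χ : G → ℂ) g‖ ^ 2
      = (Nat.card ↥(Subgroup.centralizer ({g} : Set G)) : ℝ) := by
    have h5 := Cfsg.Agent.H3.column_orth g g
    rw [if_pos (IsConj.refl g)] at h5
    have h6 : ∀ χ : Cfsg.IrrCharacter G, (χ : G → ℂ) g * (starRingEnd ℂ) ((χ : G → ℂ) g)
        = ((‖(χ : G → ℂ) g‖ ^ 2 : ℝ) : ℂ) := fun χ => by
      rw [Complex.mul_conj, Complex.normSq_eq_norm_sq]
    rw [Finset.sum_congr rfl fun χ _ => h6 χ, ← Complex.ofReal_sum] at h5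
    exact_mod_cast h5
  rw [h4, Finset.card_univ, ← Nat.card_eq_fintype_card, Cfsg.Agent.H3.card_irr_eq] at h3
  exact h3

end Cfsg.Agent.S4969
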