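import Cfsg.Statements.S4989
import Cfsg.Agent.H27.Util
import Cfsg.Agent.H27.Galois

set_option autoImplicit false
open Cfsg

namespace Cfsg.Agent.S4989

/-- Let H be a subgroup of the finite group G and χ an irreducible complex character of G. Then the inner product of the restriction of χ to H with itself, (1/#H)·Σ_{h ∈ H} |χ(h)|², is at most 1 + #(Z ∖ H)/#H, where Z is the set of zeros of χ in G. -/
theorem result {G : Type*} [Group G] [Finite G] (H : Subgroup G) (χ : Cfsg.IrrCharacter G) : (Nat.card ↥H : ℝ)⁻¹ * ∑ᶠ h : ↥H, ‖(χ : G → ℂ) h‖ ^ 2 ≤ 1 + (Set.ncard ({x : G | (χ : G → ℂ) x = 0} \ (H : Set G)) : ℝ) / (Nat.card ↥H : ℝ) := by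
  classical
  have := Fintype.ofFinite G
  have := Fintype.ofFinite H
  rw [finsum_eq_sum_of_fintype]
  have hH : (0 : ℝ) < Nat.card H := by exact_mod_cast Nat.card_pos
  have hχ := H27.isIrr_isCharacter χ.2
  -- total sum
  have h1 : ∑ x : G, ‖(χ : G → ℂ) x‖ ^ 2 = (Nat.card G : ℝ) := by
    have h2 := Cfsg.Agent.H3.classInner_self_of_irr χ.2
    unfold Cfsg.classInner at h2
    have hG : (Nat.card G : ℂ) ≠ 0 := by exact_mod_cast Nat.card_pos.ne'
    rw [inv_mul_eq_one₀ hG] at h2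
    have h3 : ∀ x : G, (χ : G → ℂ) x * (starRingEnd ℂ) ((χ : G → ℂ) x)
        = ((‖(χ : G → ℂ) x‖ ^ 2 : ℝ) : ℂ) := fun x => by
      rw [Complex.mul_conj, Complex.normSq_eq_norm_sq]
    rw [Finset.sum_congr rfl fun x _ => h3 x, ← Complex.ofReal_sum] at h2
    exact_mod_cast h2.symm
  let A : Finset G := Finset.univ.filter (fun x => x ∈ H)
  let D : Finset G := Finset.univ.filter (fun x => x ∉ H ∧ (χ : G → ℂ) x ≠ 0)
  let Z : Finset G := Finset.univ.filter (fun x => x ∉ H ∧ (χ : G → ℂ) x = 0)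
  have hA : ∑ h : H, ‖(χ : G → ℂ) h‖ ^ 2 = ∑ x ∈ A, ‖(χ : G → ℂ) x‖ ^ 2 := by
    rw [Finset.sum_subtype A (p := (· ∈ H)) (by simp [A]) (fun x => ‖(χ : G → ℂ) x‖ ^ 2)]
  have hAc : A.card = Nat.card H := by
    rw [← Fintype.card_subtype, Nat.card_eq_fintype_card]
  have hZc : Set.ncard ({x : G | (χ : G → ℂ) x = 0} \ (H : Set G)) = Z.card := by
    rw [← Set.ncard_coe_finset]
    congr 1
    ext x
    simp [Z, and_comm]
  have hU : (Finset.univ : Finset G) = A ∪ (D ∪ Z) := by
    ext x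
    simp only [Finset.mem_univ, Finset.mem_union, Finset.mem_filter, true_and, A, D, Z, true_iff]
    by_cases hx : x ∈ H
    · exact Or.inl hx
    · by_cases h0 : (χ : G → ℂ) x = 0
      · exact Or.inr (Or.inr ⟨hx, h0⟩)
      · exact Or.inr (Or.inl ⟨hx, h0⟩)
  have hd1 : Disjoint A (D ∪ Z) := by
    rw [Finset.disjoint_left]
    intro x hx hx'
    simp only [Finset.mem_union, Finset.mem_filter, Finset.mem_univ, true_and, A, D, Z] at hx hx'
    rcases hx' with h | h
    · exact h.1 hx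
    · exact h.1 hx
  have hd2 : Disjoint D Z := by
    rw [Finset.disjoint_left]
    intro x hx hx'
    simp only [Finset.mem_filter, Finset.mem_univ, true_and, D, Z] at hx hx'
    exact hx.2 hx'.2
  have hDs : (D.card : ℝ) ≤ ∑ x ∈ D, ‖(χ : G → ℂ) x‖ ^ 2 := by
    refine H27.burnside_norm_sum hχ D ?_ ?_
    · intro x hx m hm
      simp only [Finset.mem_filter, Finset.mem_univ, true_and, D] at hx ⊢
      exact ⟨fun h => hx.1 (H27.mem_of_pow_mem_coprime hm h),
        fun h => hx.2 ((H27.char_pow_coprime_ne_zero hχ hm).mp h)⟩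
    · intro x hx
      simp only [Finset.mem_filter, Finset.mem_univ, true_and, D] at hx
      exact hx.2
  have hZs : ∑ x ∈ Z, ‖(χ : G → ℂ) x‖ ^ 2 = 0 := by
    refine Finset.sum_eq_zero fun x hx => ?_
    simp only [Finset.mem_filter, Finset.mem_univ, true_and, Z] at hx
    rw [hx.2]; simp
  have hcard : (A.card : ℝ) + (D.card + Z.card) = Nat.card G := by
    rw [Nat.card_eq_fintype_card, ← Finset.card_univ, hU, Finset.card_union_of_disjoint hd1,
      Finset.card_union_of_disjoint hd2]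
    push_cast; ring
  rw [hU, Finset.sum_union hd1, Finset.sum_union hd2, hZs] at h1
  rw [hA, hZc, ← hAc]
  rw [← hAc] at hH
  rw [inv_mul_le_iff₀ hH]
  have : (A.card : ℝ) * (1 + (Z.card : ℝ) / A.card) = A.card + Z.card := by
    rw [mul_add, mul_one, mul_div_cancel₀ _ hH.ne']
  rw [this]
  linarith

end Cfsg.Agent.S4989
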