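import Cfsg.Statements.S4996
import Cfsg.Agent.H27.Util
import Cfsg.Agent.H27.Galois

set_option autoImplicit false
open Cfsg

namespace Cfsg.Agent.S4996

/-- Let N be a normal subgroup of the finite group G and χ an irreducible complex character of G. Then the restriction of χ to N is not irreducible if and only if χ vanishes on some whole coset Nx of N in G. -/
theorem result {G : Type*} [Group G] [Finite G] (N : Subgroup G) [N.Normal] (χ : Cfsg.IrrCharacter G) : ¬ Cfsg.IsIrrCharacter ↥N (fun n : ↥N => (χ : G → ℂ) n) ↔ ∃ x : G, ∀ n : ↥N, (χ : G → ℂ) ((n : G) * x) = 0 := by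
  classical
  have := Fintype.ofFinite G
  have := Fintype.ofFinite N
  have hχ := H27.isIrr_isCharacter χ.2
  have hchi2 : Cfsg.IsCharacter G ((χ : G → ℂ) * fun g => (starRingEnd ℂ) ((χ : G → ℂ) g)) :=
    Cfsg.Agent.H3.isChar_mul hχ (Cfsg.Agent.H3.isChar_conj hχ)
  have hψ := H27.isChar_avg hchi2 N
  set ψ : G → ℂ := fun x => (Nat.card N : ℂ)⁻¹ * ∑ n : N,
    ((χ : G → ℂ) * fun g => (starRingEnd ℂ) ((χ : G → ℂ) g)) (n * x) with hψdef
  have hval : ∀ x : G, ψ x = (((Nat.card N : ℝ)⁻¹ * ∑ n : N, ‖(χ : G → ℂ) (n * x)‖ ^ 2 : ℝ) : ℂ) := by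
    intro x
    simp only [hψdef, Pi.mul_apply]
    push_cast
    congr 1
    refine Finset.sum_congr rfl fun n _ => ?_
    rw [Complex.mul_conj, Complex.normSq_eq_norm_sq]
    push_cast; rfl
  have hNpos : (0 : ℝ) < Nat.card N := by exact_mod_cast Nat.card_pos
  -- restriction irreducible iff ψ 1 = 1
  have hirr : Cfsg.IsIrrCharacter N (fun n : N => (χ : G → ℂ) n) ↔ ψ 1 = 1 := by
    have h1 : ψ 1 = Cfsg.classInner (fun n : N => (χ : G → ℂ) n) (fun n : N => (χ : G → ℂ) n) := by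
      simp only [hψdef, Pi.mul_apply, mul_one, Cfsg.classInner]
    rw [h1]
    exact ⟨fun h => Cfsg.Agent.H3.classInner_self_of_irr h,
      fun h => Cfsg.Agent.H3.isIrr_of_char_norm (Cfsg.Agent.H3.isChar_restrict N hχ) h⟩
  have hzero : ∀ x : G, ψ x = 0 ↔ ∀ n : N, (χ : G → ℂ) ((n : G) * x) = 0 := by
    intro x
    rw [hval, Complex.ofReal_eq_zero, mul_eq_zero, or_iff_right (inv_ne_zero hNpos.ne'),
      Finset.sum_eq_zero_iff_of_nonneg (fun _ _ => by positivity)]
    constructor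
    · intro h n
      have := h n (Finset.mem_univ _)
      rwa [sq_eq_zero_iff, norm_eq_zero] at this
    · intro h n _
      rw [h n]; simp
  -- the total sum
  have hsum : ∑ x : G, ((Nat.card N : ℝ)⁻¹ * ∑ n : N, ‖(χ : G → ℂ) (n * x)‖ ^ 2) = (Nat.card G : ℝ) := by
    rw [← Finset.mul_sum, Finset.sum_comm]
    have h1 : ∀ n : N, ∑ x : G, ‖(χ : G → ℂ) (n * x)‖ ^ 2 = (Nat.card G : ℝ) := by
      intro n
      have h2 : ∑ x : G, ‖(χ : G → ℂ) (n * x)‖ ^ 2 = ∑ x : G, ‖(χ : G → ℂ) x‖ ^ 2 :=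
        Fintype.sum_equiv (Equiv.mulLeft (n : G)) _ _ fun x => rfl
      rw [h2]
      have h2 := Cfsg.Agent.H3.classInner_self_of_irr χ.2
      unfold Cfsg.classInner at h2
      have hG : (Nat.card G : ℂ) ≠ 0 := by exact_mod_cast Nat.card_pos.ne'
      rw [inv_mul_eq_one₀ hG] at h2
      have h3 : ∀ x : G, (χ : G → ℂ) x * (starRingEnd ℂ) ((χ : G → ℂ) x)
          = ((‖(χ : G → ℂ) x‖ ^ 2 : ℝ) : ℂ) := fun x => by
        rw [Complex.mul_conj, Complex.normSq_eq_norm_sq]
      rw [Finset.sum_congr rfl fun x _ => h3 x, ← Complex.ofReal_sum] at h2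
      exact_mod_cast h2.symm
    rw [Finset.sum_congr rfl fun n _ => h1 n, Finset.sum_const, Finset.card_univ, nsmul_eq_mul,
      ← Nat.card_eq_fintype_card, inv_mul_cancel_left₀ hNpos.ne']
  rw [hirr]
  constructor
  · intro hne
    by_contra hcon
    apply hne
    have hnz : ∀ x : G, ψ x ≠ 0 := fun x hx => hcon ⟨x, (hzero x).mp hx⟩
    have h1 := H27.all_one_of_galois (Finset.univ : Finset G) (fun _ _ _ _ => Finset.mem_univ _)
      (fun x => (Nat.card N : ℝ)⁻¹ * ∑ n : N, ‖(χ : G → ℂ) (n * x)‖ ^ 2) (fun x _ => by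
        have h2 : (0 : ℝ) ≤ (Nat.card N : ℝ)⁻¹ * ∑ n : N, ‖(χ : G → ℂ) (n * x)‖ ^ 2 := by positivity
        rcases h2.lt_or_eq with h3 | h3
        · exact h3
        · exfalso
          apply hnz x
          rw [hval, ← h3, Complex.ofReal_zero]) (fun x _ => by
        obtain ⟨k, hk⟩ := H27.prod_char_pow_int hψ Nat.card_pos.ne' (pow_card_eq_one' (x := x))
        simp only [hval] at hk
        rw [← Complex.ofReal_prod] at hk
        have hk2 : ∏ m ∈ H27.cop (Nat.card G), ((Nat.card N : ℝ)⁻¹ * ∑ n : N, ‖(χ : G → ℂ) (n * x ^ m)‖ ^ 2) = (k : ℝ) := by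
          exact_mod_cast hk
        rw [hk2]
        have hk3 : (0 : ℝ) ≤ k := by
          rw [← hk2]
          exact Finset.prod_nonneg fun m _ => by positivity
        have hk4 : k ≠ 0 := by
          rintro rfl
          rw [Int.cast_zero, Finset.prod_eq_zero_iff] at hk2
          obtain ⟨m, -, hm⟩ := hk2
          apply hnz (x ^ m)
          rw [hval, hm, Complex.ofReal_zero]
        have hk5 : (0 : ℤ) ≤ k := by exact_mod_cast hk3
        have hk6 : (1 : ℤ) ≤ k := by omega
        exact_mod_cast hk6) (by rw [hsum, Finset.card_univ, Nat.card_eq_fintype_card])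
    rw [hval, h1 1 (Finset.mem_univ _), Complex.ofReal_one]
  · rintro ⟨x, hx⟩ h1
    -- irreducible restriction: ψ is constantly 1 on cosets
    have h2 := (hzero x).mpr hx
    -- ψ takes the value 1 everywhere since every irreducible constituent has N in kernel
    have h3 : ‖ψ x‖ ≤ 1 := by
      have := H27.norm_char_le hψ x
      rw [← H27.char_one_norm hψ, h1, norm_one] at this
      exact this
    -- sum of ψ over G is |G|, each ≤ 1, so each equals 1
    have h4 : ∀ y : G, (Nat.card N : ℝ)⁻¹ * ∑ n : N, ‖(χ : G → ℂ) (n * y)‖ ^ 2 ≤ 1 := by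
      intro y
      have h5 := H27.norm_char_le hψ y
      rw [← H27.char_one_norm hψ, h1, norm_one, hval, Complex.norm_real] at h5
      exact (le_abs_self _).trans h5
    have h6 : ∑ y : G, (1 - ((Nat.card N : ℝ)⁻¹ * ∑ n : N, ‖(χ : G → ℂ) (n * y)‖ ^ 2)) = 0 := by
      rw [Finset.sum_sub_distrib, hsum]
      simp [Nat.card_eq_fintype_card]
    rw [Finset.sum_eq_zero_iff_of_nonneg (fun y _ => sub_nonneg.mpr (h4 y))] at h6
    have h7 := h6 x (Finset.mem_univ _)
    rw [hval, Complex.ofReal_eq_zero] at h2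
    rw [h2] at h7
    norm_num at h7

end Cfsg.Agent.S4996
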