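import Cfsg.Statements.S5001
import Cfsg.Agent.H11.Defect4
import Cfsg.Agent.H3.Clifford
import Cfsg.Agent.H3.BrauerC
import Cfsg.Agent.H27.Kernel

set_option autoImplicit false
open Cfsg

namespace Cfsg.Agent.S5001

open Cfsg.Agent.H3 Cfsg.Agent.H11 Cfsg.Agent.H27
open scoped ComplexConjugate


/-- Let p be a prime, G a finite group and B a p-block of G (relative to a maximal ideal M of the algebraic integers containing p) with defect group D. Let Z be a central p-subgroup of G contained in D and λ a linear character of Z (a homomorphism to the nonzero complex numbers). Say an irreducible character χ of G lies over λ when χ(z) = χ(1)λ(z) for all z ∈ Z. If some irreducible character in B lying over λ has height zero, then λ extends to a linear character of D. -/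
theorem result {G : Type*} [Group G] [Finite G] (p : ℕ) [Fact p.Prime] (M : Ideal Cfsg.AlgInt) (hM : Cfsg.IsPModular p M) (B : Set (Cfsg.IrrCharacter G)) (hB : Cfsg.IsPBlock M B) (D : Subgroup G) (hD : Cfsg.IsDefectGroup p M B D) (Z : Subgroup G) (hZc : Z ≤ Subgroup.center G) (hZp : IsPGroup p ↥Z) (hZD : Z ≤ D) (lam : ↥Z →* ℂˣ) (χ : Cfsg.IrrCharacter G) (hχ : χ ∈ B) (hover : (∀ z : ↥Z, (χ : G → ℂ) z = (χ : G → ℂ) 1 * (lam z : ℂ))) (h0 : Cfsg.blockHeight p B (χ : G → ℂ) = 0) : (∃ μ : ↥D →* ℂˣ, ∀ z : ↥Z, μ ⟨(z : G), hZD z.2⟩ = lam z) := by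
  classical
  have := Fintype.ofFinite G
  have hpr := hM.2.1.isPrime
  have hpp : p.Prime := hM.1
  obtain ⟨g, hg, hDs⟩ := (isDefectGroup_iff hM).mp hD
  have hgv := not_li_value hM hB hχ h0 hg
  have hcomm : ∀ (u : D) (a : Subgroup.zpowers g), Commute (D.subtype u) ((Subgroup.zpowers g).subtype a) := by
    rintro ⟨u, hu⟩ ⟨_, k, rfl⟩
    have h1 : Commute u g := mem_C1.mp (hDs.le hu)
    exact h1.zpow_right k
  let φ : D × Subgroup.zpowers g →* G := MonoidHom.noncommCoprod D.subtype (Subgroup.zpowers g).subtype hcomm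
  have hφ : ∀ u a, φ (u, a) = (u : G) * (a : G) := fun u a => rfl
  have hF : IsCharacter (D × Subgroup.zpowers g) (fun x => (χ : G → ℂ) (φ x)) :=
    isChar_comp (irr_isChar χ.2) φ
  have := Fintype.ofFinite (D × Subgroup.zpowers g)
  have := Fintype.ofFinite (IrrCharacter (D × Subgroup.zpowers g))
  obtain ⟨m, hm, hexp⟩ := char_expand hF
  -- the element (1, g)
  let c : D × Subgroup.zpowers g := (1, ⟨g, Subgroup.mem_zpowers g⟩)
  have hc : c ∈ Subgroup.center (D × Subgroup.zpowers g) := by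
    rw [Subgroup.mem_center_iff]
    rintro ⟨u, a⟩
    refine Prod.ext ?_ ?_
    · show u * 1 = 1 * u
      rw [mul_one, one_mul]
    · obtain ⟨_, k, rfl⟩ := a
      apply Subtype.ext
      show g ^ k * g = g * g ^ k
      rw [← zpow_add_one, ← zpow_one_add, add_comm]
  have hcφ : (χ : G → ℂ) (φ c) = (χ : G → ℂ) g := by
    rw [hφ]; simp
  -- degree of irreducible characters
  have hdeg : ∀ ζ : IrrCharacter (D × Subgroup.zpowers g), ζ.1 1 = 1 ∨
      ∃ n : ℕ, ζ.1 1 = ((p * n : ℕ) : ℂ) := by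
    intro ζ
    obtain ⟨n, hn0, hn⟩ := isIrr_one_pos ζ.2
    have h1 := ito_degree_dvd ζ.2 (MonoidHom.ker (MonoidHom.fst D (Subgroup.zpowers g))) inferInstance ?_ hn
    · rw [Subgroup.index_ker] at h1
      have h2 : Nat.card (MonoidHom.fst D (Subgroup.zpowers g)).range = Nat.card D := by
        rw [MonoidHom.range_eq_top.mpr Prod.fst_surjective]
        exact Nat.card_congr Subgroup.topEquiv.toEquiv
      rw [h2] at h1
      obtain ⟨k, hk⟩ := IsPGroup.iff_card.mp hDs.isPGroup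
      rw [hk, Nat.dvd_prime_pow hpp] at h1
      obtain ⟨j, -, hj⟩ := h1
      rcases Nat.eq_zero_or_pos j with h3 | h3
      · left; rw [hn, hj, h3]; simp
      · right
        refine ⟨p ^ (j - 1), ?_⟩
        rw [hn, hj, ← pow_succ', Nat.sub_add_cancel h3]
    · rintro ⟨u, a⟩ ha ⟨v, b⟩ hb
      rw [MonoidHom.mem_ker] at ha hb
      have ha' : u = 1 := ha
      have hb' : v = 1 := hb
      subst ha' hb'
      refine Prod.ext rfl ?_
      show a * b = b * a
      obtain ⟨_, k, rfl⟩ := a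
      obtain ⟨_, l, rfl⟩ := b
      apply Subtype.ext
      exact (zpow_add g k l).symm.trans ((congrArg (g ^ ·) (add_comm k l)).trans (zpow_add g l k))
  -- some linear constituent
  have hex : ∃ ζ : IrrCharacter (D × Subgroup.zpowers g), m ζ ≠ 0 ∧ ζ.1 1 = 1 := by
    by_contra hcon
    push Not at hcon
    apply hgv
    rw [← hcφ]
    have h1 := congrFun hexp c
    simp only [Finset.sum_apply, Pi.smul_apply, smul_eq_mul] at h1
    rw [h1]
    apply li_sum
    intro ζ _
    by_cases h2 : m ζ = 0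
    · rw [h2]; simp; exact li_zero M
    rcases hdeg ζ with h3 | ⟨n, h3⟩
    · exact absurd h3 (hcon ζ h2)
    have hn0 : (n : ℂ) ≠ 0 := by
      intro h4
      apply irr_one_ne_zero ζ.2
      rw [h3]; push_cast; rw [h4, mul_zero]
    have hp0 : (p : ℂ) ≠ 0 := by exact_mod_cast hpp.ne_zero
    -- ζ c = ω ζ 1 with ω integral
    have h4 : ∀ k : ℕ, ζ.1 (c ^ k) * ζ.1 1 ^ k = ζ.1 c ^ k * ζ.1 1 := by
      intro k
      induction k with
      | zero => simp
      | succ k ih =>
        have h5 := irr_central_mul ζ.2 hc (c ^ k)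
        rw [pow_succ' c, pow_succ, pow_succ]
        linear_combination ζ.1 1 ^ k * h5 + ζ.1 c * ih
    have h5 : (ζ.1 c / ζ.1 1) ^ (orderOf c) = 1 := by
      have h6 := h4 (orderOf c)
      rw [pow_orderOf_eq_one] at h6
      rw [div_pow, div_eq_one_iff_eq (pow_ne_zero _ (irr_one_ne_zero ζ.2))]
      apply mul_right_cancel₀ (irr_one_ne_zero ζ.2)
      linear_combination -h6
    have h6 : IsIntegral ℤ (ζ.1 c / ζ.1 1) :=
      isIntegral_of_pow_eq_one (orderOf_pos c).ne' h5
    have h7 : (m ζ : ℂ) * ζ.1 c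
        = ((m ζ : ℂ) * (ζ.1 c / ζ.1 1) * n) * (p : ℂ) := by
      rw [h3]; push_cast
      field_simp
    rw [h7]
    exact li_mul_left (lr_mul (lr_mul (lr_natCast M _) (lr_int h6)) (lr_natCast M _))
      ((li_natCast_iff hM p).mpr dvd_rfl)
  obtain ⟨ζ, hζ0, hζ1⟩ := hex
  obtain ⟨μ, hμ⟩ := exists_hom_of_one (irr_isChar ζ.2) hζ1
  refine ⟨μ.comp (MonoidHom.inl D (Subgroup.zpowers g)), ?_⟩
  intro z
  let w : D × Subgroup.zpowers g := (⟨(z : G), hZD z.2⟩, 1)
  have hw : w ∈ Subgroup.center (D × Subgroup.zpowers g) := by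
    rw [Subgroup.mem_center_iff]
    rintro ⟨u, a⟩
    refine Prod.ext ?_ ?_
    · apply Subtype.ext
      show (u : G) * z = z * u
      exact Subgroup.mem_center_iff.mp (hZc z.2) u
    · show a * 1 = 1 * a
      rw [mul_one, one_mul]
  have hχw : ∀ x, (χ : G → ℂ) (φ (w * x)) = (lam z : ℂ) * (χ : G → ℂ) (φ x) := by
    intro x
    rw [map_mul, hφ]
    have h1 := irr_central_mul χ.2 (hZc z.2) (φ x)
    rw [hover z] at h1
    apply mul_right_cancel₀ (irr_one_ne_zero χ.2)
    simp only [w, OneMemClass.coe_one, mul_one]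
    linear_combination h1
  have hζw : ∀ x, ζ.1 (w * x) = ζ.1 w * ζ.1 x := by
    intro x
    have h1 := irr_central_mul ζ.2 hw x
    rw [hζ1, mul_one] at h1
    exact h1
  have h1 := hm ζ
  have h2 : classInner (fun x => (χ : G → ℂ) (φ x)) ζ.1
      = (lam z : ℂ) * conj (ζ.1 w) * classInner (fun x => (χ : G → ℂ) (φ x)) ζ.1 := by
    unfold classInner
    have h3 : ∑ x : D × Subgroup.zpowers g, (χ : G → ℂ) (φ x) * conj (ζ.1 x)
        = ∑ x : D × Subgroup.zpowers g, (χ : G → ℂ) (φ (w * x)) * conj (ζ.1 (w * x)) :=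
      (Fintype.sum_equiv (Equiv.mulLeft w) _ _ (fun x => rfl)).symm
    have h4 : ∀ x, (χ : G → ℂ) (φ (w * x)) * conj (ζ.1 (w * x))
        = ((lam z : ℂ) * conj (ζ.1 w)) * ((χ : G → ℂ) (φ x) * conj (ζ.1 x)) := by
      intro x
      rw [hχw, hζw, map_mul]
      ring
    conv_lhs => rw [h3]
    rw [Finset.sum_congr rfl (fun x _ => h4 x), ← Finset.mul_sum]
    ring
  have h3 : classInner (fun x => (χ : G → ℂ) (φ x)) ζ.1 ≠ 0 := by
    rw [h1]; exact_mod_cast hζ0
  have h4 : (lam z : ℂ) * conj (ζ.1 w) = 1 := by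
    have h5 : ((lam z : ℂ) * conj (ζ.1 w) - 1)
        * classInner (fun x => (χ : G → ℂ) (φ x)) ζ.1 = 0 := by
      linear_combination -h2
    rcases mul_eq_zero.mp h5 with h6 | h6
    · exact sub_eq_zero.mp h6
    · exact absurd h6 h3
  have h5 : ‖ζ.1 w‖ = 1 := linear_norm_one (irr_isChar ζ.2) hζ1 w
  have h6 : ζ.1 w * conj (ζ.1 w) = 1 := by
    rw [Complex.mul_conj, Complex.normSq_eq_norm_sq, h5]; simp
  have h7 : ζ.1 w = (lam z : ℂ) := by
    have h8 : conj (ζ.1 w) ≠ 0 := fun h => by rw [h, mul_zero] at h6; exact zero_ne_one h6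
    exact mul_right_cancel₀ h8 (h6.trans h4.symm)
  apply Units.ext
  rw [← h7, hμ w]
  rfl

end Cfsg.Agent.S5001
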