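import Cfsg.Statements.S5011

set_option autoImplicit false
open Cfsg

namespace Cfsg.Agent.S5011

/-- Let G be a finite non-abelian simple group and ρ an irreducible complex representation of G on a space of dimension greater than one (irreducible in the sense that the only subspaces invariant under every ρ(x) are 0 and the whole space). Then for every non-identity element g of G, the centralizer of g does not act irreducibly: there is a non-zero proper subspace invariant under ρ(c) for every c commuting with g. -/
theorem result {G : Type*} [Group G] [Finite G] [IsSimpleGroup G]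
    (hG : ¬ IsMulCommutative G) {V : Type*} [AddCommGroup V] [Module ℂ V] [FiniteDimensional ℂ V]
    (ρ : Representation ℂ G V)
    (hirr : ∀ W : Submodule ℂ V, (∀ x : G, ∀ v ∈ W, ρ x v ∈ W) → W = ⊥ ∨ W = ⊤)
    (hdim : 1 < Module.finrank ℂ V) (g : G) (hg : g ≠ 1) :
    ∃ W : Submodule ℂ V, W ≠ ⊥ ∧ W ≠ ⊤ ∧ ∀ c ∈ Subgroup.centralizer ({g} : Set G), ∀ v ∈ W, ρ c v ∈ W := by
  classical
  have hV : 0 < Module.finrank ℂ V := by omega
  have : Nontrivial V := Module.nontrivial_of_finrank_pos hV
  obtain ⟨μ, hμ⟩ := Module.End.exists_eigenvalue (ρ g)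
  let W := Module.End.eigenspace (ρ g) μ
  have hW0 : W ≠ ⊥ := hμ
  have hWinv : ∀ c ∈ Subgroup.centralizer ({g} : Set G), ∀ v ∈ W, ρ c v ∈ W := by
    intro c hc v hv
    rw [Subgroup.mem_centralizer_singleton_iff] at hc
    rw [Module.End.mem_eigenspace_iff] at hv ⊢
    have h1 : ρ g (ρ c v) = ρ c (ρ g v) := by
      rw [← Module.End.mul_apply, ← Module.End.mul_apply, ← map_mul, ← map_mul, hc]
    rw [h1, hv, map_smul]
  by_cases hWt : W = ⊤
  · exfalso
    have hsc : ∀ v, ρ g v = μ • v := fun v => by
      have : v ∈ W := by rw [hWt]; trivial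
      exact Module.End.mem_eigenspace_iff.mp this
    have hμ0 : μ ≠ 0 := by
      rintro rfl
      obtain ⟨v, hv⟩ := exists_ne (0 : V)
      apply hv
      have h1 := hsc v
      rw [zero_smul] at h1
      have h2 : ρ g⁻¹ (ρ g v) = v := by
        rw [← Module.End.mul_apply, ← map_mul, inv_mul_cancel, map_one]; rfl
      rw [← h2, h1, map_zero]
    -- commutators with g are in the kernel
    have hcomm : ∀ h : G, ρ (h * g * h⁻¹ * g⁻¹) = 1 := by
      intro h
      have h1 : ρ g = μ • (1 : Module.End ℂ V) := LinearMap.ext fun v => by simp [hsc]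
      have h2 : ρ (h * g * h⁻¹) = ρ g := by
        rw [map_mul, map_mul, h1, mul_smul_comm, smul_mul_assoc, mul_one, ← map_mul,
          mul_inv_cancel, map_one]
      rw [map_mul, h2, ← map_mul, mul_inv_cancel, map_one]
    have hN : (MonoidHom.ker ρ).Normal := MonoidHom.normal_ker ρ
    rcases hN.eq_bot_or_eq_top with h | h
    · have hcen : g ∈ Subgroup.center G := by
        rw [Subgroup.mem_center_iff]
        intro h'
        have h1 : h' * g * h'⁻¹ * g⁻¹ ∈ MonoidHom.ker ρ := hcomm h'
        rw [h, Subgroup.mem_bot] at h1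
        have h2 : h' * g * h'⁻¹ = g := mul_inv_eq_one.mp h1
        exact mul_inv_eq_iff_eq_mul.mp h2
      have hc : (Subgroup.center G).Normal := inferInstance
      rcases hc.eq_bot_or_eq_top with h2 | h2
      · rw [h2, Subgroup.mem_bot] at hcen
        exact hg hcen
      · apply hG
        refine ⟨⟨fun a b => ?_⟩⟩
        have : b ∈ Subgroup.center G := by rw [h2]; trivial
        exact Subgroup.mem_center_iff.mp this a
    · obtain ⟨v, hv⟩ := exists_ne (0 : V)
      have htriv : ∀ x : G, ρ x = 1 := fun x => by
        have : x ∈ MonoidHom.ker ρ := by rw [h]; trivial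
        exact this
      rcases hirr (Submodule.span ℂ {v}) (fun x w hw => by rw [htriv x]; exact hw) with h3 | h3
      · exact hv (Submodule.span_singleton_eq_bot.mp h3)
      · have h4 := finrank_span_singleton (K := ℂ) hv
        rw [h3, finrank_top] at h4
        omega
  · exact ⟨W, hW0, hWt, hWinv⟩

end Cfsg.Agent.S5011
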