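import Cfsg.Statements.S5103
import Cfsg.Agent.H28.FusReal

set_option autoImplicit false
open Cfsg

namespace Cfsg.Agent.S5103

/-- A fusion system over a finite p-group that has a model (a finite group realizing it on a Sylow p-subgroup with self-centralizing largest normal p-subgroup) is constrained. -/
theorem result {Ω : Type*} [Group Ω] {S : Subgroup Ω} [Finite S] (p : ℕ) [Fact p.Prime] (hS : IsPGroup p S) (F : Cfsg.FusionSystem S) {G : Type*} [Group G] (ι : S →* G) (hG : F.IsModel p G ι) : F.IsConstrained p := by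
  open Cfsg.Agent.H28 in
  obtain ⟨hfin, hreal, ⟨T, hT⟩, hC⟩ := hG
  have hcore : Cfsg.pCore p G ≤ ι.range := by rw [← hT]; exact pCore_le_sylow T
  have hnorm : (Cfsg.pCore p G).Normal := normal_pCore
  refine ⟨realized_saturated hreal ⟨T, hT⟩, Cfsg.FusionSystem.preimageAlong ι (Cfsg.pCore p G), ?_⟩
  set Q := Cfsg.FusionSystem.preimageAlong ι (Cfsg.pCore p G) with hQ
  have hQS : Q ≤ S := preimageAlong_le
  have hnormal : F.IsNormal Q := by
    rw [isNormal_iff]
    refine ⟨hQS, fun P f hf => ?_⟩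
    obtain ⟨hP, hfS, g, hg⟩ := (mor_realized hreal).1 hf
    have hsup : ∀ x ∈ P ⊔ Q, g * tf ι x * g⁻¹ ∈ ι.range := by
      intro x hx
      have hle : P ⊔ Q ≤ S := sup_le hP hQS
      refine Subgroup.closure_induction (k := (P : Set Ω) ∪ Q)
        (p := fun y hy => y ∈ S ∧ g * tf ι y * g⁻¹ ∈ ι.range) ?_ ?_ ?_ ?_
          (by rwa [← Subgroup.sup_eq_closure]) |>.2
      · rintro y (hy | hy)
        · refine ⟨hP hy, ?_⟩
          rw [← hg y hy]; exact tf_mem_range (hfS y hy)
        · exact ⟨hQS hy, hcore (hnorm.conj_mem _ (mem_preimageAlong.1 hy).2 g)⟩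
      · refine ⟨one_mem S, ?_⟩
        rw [tf_one]; simp
      · rintro a b - - ⟨ha, ha'⟩ ⟨hb, hb'⟩
        refine ⟨mul_mem ha hb, ?_⟩
        rw [tf_mul ha hb]
        have := mul_mem ha' hb'
        simpa [mul_assoc] using this
      · rintro a - ⟨ha, ha'⟩
        refine ⟨inv_mem ha, ?_⟩
        rw [tf_inv ha]
        have := inv_mem ha'
        simpa [mul_assoc] using this
    obtain ⟨h1, h2⟩ := mor_real_conj hreal g (sup_le hP hQS) hsup
    refine ⟨_, h1, fun x hx => ?_, ?_⟩
    · apply tf_inj hreal.1 (h1.mem (le_sup_left (b := Q) hx)) (hfS x hx)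
      rw [h2 x (le_sup_left (b := Q) hx), hg x hx]
    · have hQfin : Finite Q := finite_of_le hQS
      apply eq_of_le_of_card
      · rw [img_le_iff]
        intro x hx
        have hx' : x ∈ P ⊔ Q := le_sup_right (a := P) hx
        refine mem_preimageAlong.2 ⟨h1.mem hx', ?_⟩
        rw [h2 x hx']
        exact hnorm.conj_mem _ (mem_preimageAlong.1 hx).2 g
      · rw [(h1.mono le_sup_right).card_img]
  refine ⟨hnormal, hQS, fun R hR => ?_⟩
  obtain ⟨f, hf, rfl⟩ := isConj_iff.1 hR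
  rw [sc_img_eq (normal_stronglyClosed hnormal) hf le_rfl]
  intro x hx
  obtain ⟨hxS, hxC⟩ := mem_centralizerIn.1 hx
  refine mem_preimageAlong.2 ⟨hxS, hC ?_⟩
  rw [Subgroup.mem_centralizer_iff]
  intro y hy
  have hy' := hcore hy
  obtain ⟨h1, h2⟩ := tfi_spec hy'
  have h3 : tfi ι y ∈ Q := mem_preimageAlong.2 ⟨h1, by rw [h2]; exact hy⟩
  rw [← h2, ← tf_mul h1 hxS, ← tf_mul hxS h1, hxC _ h3]
end Cfsg.Agent.S5103
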