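import Cfsg.Statements.S5112
import Cfsg.Agent.H28.Metac7

set_option autoImplicit false
open Cfsg

namespace Cfsg.Agent.S5112

open Cfsg.FusionSystem Cfsg.Agent.H28

/-- If S is a dihedral or generalized quaternion 2-group of order at least 16, then in every saturated fusion system over S (at the prime 2) the automorphism group Aut_F(S) consists of the inner automorphisms of S. -/
theorem result {Ω : Type*} [Group Ω] {S : Subgroup Ω} [Finite S] (n : ℕ) (hn : 4 ≤ n) (hshape : Nonempty (S ≃* DihedralGroup (2 ^ (n - 1))) ∨ Nonempty (S ≃* QuaternionGroup (2 ^ (n - 2)))) (F : Cfsg.FusionSystem S) (hF : F.IsSaturated 2) : F.autGroup S = Cfsg.Inn S := by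
  haveI : Fact (Nat.Prime 2) := ⟨Nat.prime_two⟩
  obtain ⟨m, rfl⟩ : ∃ m, n = m + 4 := ⟨n - 4, by omega⟩
  have e1 : m + 4 - 1 = m + 3 := by omega
  have e2 : m + 4 - 2 = m + 2 := by omega
  rw [e1, e2] at hshape
  have hcard : Nat.card S = 2 ^ (m + 4) := by
    rcases hshape with ⟨⟨e⟩⟩ | ⟨⟨e⟩⟩
    · rw [Nat.card_congr e.toEquiv, DihedralGroup.nat_card]; ring
    · rw [Nat.card_congr e.toEquiv, Nat.card_eq_fintype_card, QuaternionGroup.card]; ring
  have hS : IsPGroup 2 S := IsPGroup.of_card hcard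
  apply inn_of_autGroup hS hF
  have h4 : 4 ≤ 2 ^ (m + 2) := by
    calc 4 = 2 ^ 2 := by norm_num
      _ ≤ 2 ^ (m + 2) := Nat.pow_le_pow_right (by norm_num) (by omega)
  rcases hshape with he | ⟨⟨e⟩⟩
  · refine Cfsg.Agent.S3116.result hS (Or.inl ⟨_, ?_, he⟩)
    have h5 : 2 ^ (m + 3) = 2 * 2 ^ (m + 2) := by ring
    omega
  · exact aut_quaternion hS (by omega) e
end Cfsg.Agent.S5112
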