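import Cfsg.Statements.S5126
import Cfsg.Agent.H28.Model6

set_option autoImplicit false
open Cfsg

namespace Cfsg.Agent.S5126

open Cfsg.FusionSystem Cfsg.Agent.H28

/-- In a saturated fusion system over a finite p-group S, the normalizer system of a fully normalized, centric, radical subgroup R is constrained, and in every model of that normalizer system the largest normal p-subgroup is the image of R. -/
theorem result {Ω : Type*} [Group Ω] {S : Subgroup Ω} [Finite S] (p : ℕ) [Fact p.Prime] (hS : IsPGroup p S) (F : Cfsg.FusionSystem S) (hF : F.IsSaturated p) (R : Subgroup Ω) (hRn : F.IsFullyNormalized R) (hRc : F.IsCentric R) (hRr : F.IsRadical p R) (E : Cfsg.FusionSystem (Cfsg.FusionSystem.normalizerIn S R)) (hE : F.IsNormalizerSystem R E) {G : Type*} [Group G] (ι : ↥(Cfsg.FusionSystem.normalizerIn S R) →* G) : E.IsConstrained p ∧ (E.IsModel p G ι → (Cfsg.pCore p G : Subgroup G) = (R.subgroupOf (Cfsg.FusionSystem.normalizerIn S R)).map ι) := by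
  rw [eq_normSys hRn.1 hE]
  haveI : Finite (normalizerIn S R) := finite_of_le normalizerIn_le
  have hTp : IsPGroup p (normalizerIn S R) := isPGroup_of_le hS normalizerIn_le
  have hn := norm_normal (F := F) hRn.1
  have hc := norm_centric hRn.1 hRc (le_normalizerIn hRn.1)
  refine ⟨⟨normSys_saturated hS hF hRn, R, hn, hc⟩, fun hM => ?_⟩
  have hrad : (normSys F R hRn.1).IsRadical p R :=
    ⟨le_normalizerIn hRn.1, by rw [norm_autGroup]; exact hRr.2⟩
  have h1 := (model_radical_iff hTp hM hn hc).1 hrad
  have h2 := pCore_le_range hM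
  ext y
  constructor
  · intro hy
    obtain ⟨s, rfl⟩ := h2 hy
    refine ⟨s, ?_, rfl⟩
    have h3 : (s : Ω) ∈ preimageAlong ι (Cfsg.pCore p G) :=
      mem_preimageAlong.2 ⟨s.2, by rw [tf_coe]; exact hy⟩
    rw [h1] at h3
    exact h3
  · rintro ⟨s, hs, rfl⟩
    have h3 : (s : Ω) ∈ preimageAlong ι (Cfsg.pCore p G) := by rw [h1]; exact hs
    have h4 := (mem_preimageAlong.1 h3).2
    rwa [tf_coe] at h4
end Cfsg.Agent.S5126
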