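import Cfsg.Statements.S5131
import Cfsg.Agent.H28.FusFactor

set_option autoImplicit false
open Cfsg

namespace Cfsg.Agent.S5131

open Cfsg.FusionSystem Cfsg.Agent.H28

/-- Let F be a fusion system over a finite p-group S and F' a fusion system over S'. If α : S → S' is a morphism of fusion systems from F to F' (every map of F induces along α a map of F'), then the kernel of α is strongly closed in S with respect to F. -/
theorem result {Ω : Type*} [Group Ω] {S : Subgroup Ω} [Finite S] (p : ℕ) [Fact p.Prime] (hS : IsPGroup p S) (F : Cfsg.FusionSystem S) {Ω' : Type*} [Group Ω'] {S' : Subgroup Ω'} (F' : Cfsg.FusionSystem S') (α : S →* Ω') (hα : F.IsMorphism F' α) : F.StronglyClosed ((α.ker).map S.subtype) := by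
  have hker : ∀ x : Ω, x ∈ (α.ker).map S.subtype ↔ x ∈ S ∧ tf α x = 1 := by
    intro x
    constructor
    · rintro ⟨y, hy, rfl⟩
      exact ⟨y.2, by rw [show S.subtype y = (y : Ω) from rfl, tf_coe]; exact hy⟩
    · rintro ⟨hx, h⟩
      rw [tf_apply α hx] at h
      exact ⟨⟨x, hx⟩, h, rfl⟩
  rw [stronglyClosed_iff]
  refine ⟨fun x hx => ((hker x).1 hx).1, fun R f hR hf x hx => ?_⟩
  obtain ⟨f', hf', h1⟩ := morphism_apply hα hf
  rw [hker]
  refine ⟨hf.mem hx, ?_⟩
  rw [← h1 x hx, ((hker x).1 (hR hx)).2]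
  exact hf'.one
end Cfsg.Agent.S5131
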