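import Cfsg.Statements.S5153
import Cfsg.Agent.H28.FusNormal

set_option autoImplicit false
open Cfsg

namespace Cfsg.Agent.S5153

open Cfsg.Agent.H28 Cfsg.FusionSystem

theorem sub_le {Ω : Type*} [Group Ω] {p : ℕ} {T : Subgroup Ω} {E : Cfsg.FusionSystem T}
    {S : Subgroup Ω} {F : Cfsg.FusionSystem S} (h : E.IsSubnormalIn F p) : T ≤ S := by
  induction h with
  | refl F p => exact le_rfl
  | step h1 h2 ih => exact ih.trans h2.1.2.2.2.1.1

theorem fn_of_normal {Ω : Type*} [Group Ω] {p : ℕ} [Fact p.Prime] {S : Subgroup Ω} [Finite S]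
    (hS : IsPGroup p S) {F : Cfsg.FusionSystem S} (hF : F.IsSaturated p) {U : Subgroup Ω}
    {D : Cfsg.FusionSystem U} (hsub : D.IsSubsystemOf F) (hsc : F.StronglyClosed U)
    {P : Subgroup Ω} (hPU : P ≤ U) (hP : F.IsFullyNormalized P) : D.IsFullyNormalized P := by
  have hUS : U ≤ S := hsc.1
  refine ⟨hPU, fun R hR => ?_⟩
  obtain ⟨f, ⟨φ, hφ, hφf⟩, hfR⟩ := isConj_iff.1 hR
  have hf : Mor F P f := ⟨φ, hsub P hφ, hφf⟩
  have hR' : F.IsConj R P := isConj_symm (isConj_iff.2 ⟨f, hf, hfR⟩)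
  obtain ⟨g, hg, hgR⟩ := FN.exists_map hS hF hP hR'
  have hRS : R ≤ S := by rw [← hfR]; exact hf.img_le
  have hle : normalizerIn U R ≤ normalizerIn S R := inf_le_inf_right _ hUS
  have hgm := hg.mono hle
  have hfin : Finite U := finite_of_le hUS
  have : Finite (normalizerIn U P) := finite_of_le normalizerIn_le
  rw [← hgm.card_img]
  apply card_le_of_le
  rw [img_le_iff]
  intro x hx
  have h1 : g x ∈ normalizerIn S (img R g) :=
    img_normalizerIn_le hg hRS (mem_img_of_mem (hle hx))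
  rw [hgR] at h1
  exact ⟨sc_apply hsc hg (hle hx) hx.1, h1.2⟩

theorem main {Ω : Type*} [Group Ω] {p : ℕ} {T : Subgroup Ω} {E : Cfsg.FusionSystem T}
    {S : Subgroup Ω} {F : Cfsg.FusionSystem S} (h : E.IsSubnormalIn F p) :
    ∀ (_ : Fact p.Prime) (_ : Finite S) (_ : IsPGroup p S) (_ : F.IsSaturated p)
      (P : Subgroup Ω) (_ : P ≤ T) (_ : F.IsFullyNormalized P), E.IsFullyNormalized P := by
  induction h with
  | refl F p => intro _ _ _ _ P _ hP; exact hP
  | @step U S E D F p h1 h2 ih =>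
    intro hp hfin hS hF P hPT hP
    have hUS : U ≤ S := h2.1.2.2.2.1.1
    exact ih hp (finite_of_le hUS) (hS.to_le hUS) h2.1.1 P hPT
      (fn_of_normal hS hF h2.1.2.2.1 h2.1.2.2.2.1 (hPT.trans (sub_le h1)) hP)

/-- Let F be a saturated fusion system over a finite p-group S and E a subnormal subsystem of F over T. Then every subgroup of T that is fully normalized in F is fully normalized in E. -/
theorem result {Ω : Type*} [Group Ω] {S : Subgroup Ω} [Finite S] (p : ℕ) [Fact p.Prime] (hS : IsPGroup p S) (F : Cfsg.FusionSystem S) (hF : F.IsSaturated p) {T : Subgroup Ω} (E : Cfsg.FusionSystem T) (hE : E.IsSubnormalIn F p) (P : Subgroup Ω) (hPT : P ≤ T) (hP : F.IsFullyNormalized P) : E.IsFullyNormalized P := by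
  exact main hE ‹_› ‹_› hS hF P hPT hP

end Cfsg.Agent.S5153
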