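import Cfsg.Statements.S5164
import Mathlib
import Cfsg.Agent.S4014

set_option autoImplicit false
set_option linter.all false
open Cfsg

namespace Cfsg.Agent.S5164

theorem der_one {P : Type*} [Group P] : derivedSeries P 1 = ⊥ ↔ ∀ a b : P, a * b = b * a := by
  rw [derivedSeries_one, commutator_eq_bot_iff_center_eq_top, Subgroup.eq_top_iff']
  simp only [Subgroup.mem_center_iff]
  exact ⟨fun h a b => h b a, fun h a b => h b a⟩

theorem comm_of_sylow {G : Type*} [Group G] [Finite G] {p : ℕ} [Fact p.Prime] (S : Sylow p G)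
    (hS : IsMulCommutative S) (T : Subgroup G) (hT : IsPGroup p T) : ∀ a ∈ T, ∀ b ∈ T, a * b = b * a := by
  obtain ⟨Q, hQ⟩ := hT.exists_le_sylow
  intro a ha b hb
  let e : Q ≃* S := Q.equiv S
  have h1 : (⟨a, hQ ha⟩ : Q) * ⟨b, hQ hb⟩ = ⟨b, hQ hb⟩ * ⟨a, hQ ha⟩ := by
    apply e.injective
    rw [map_mul, map_mul]
    exact hS.is_comm.comm _ _
  exact congrArg Subtype.val h1

theorem two_case {n : ℕ} (S : Sylow 2 (alternatingGroup (Fin n))) (hS : IsMulCommutative S)
    (a b : Equiv.Perm (Fin n)) (ha : Equiv.Perm.sign a = 1) (hb : Equiv.Perm.sign b = 1) (ha4 : a ^ 4 = 1)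
    (hb2 : b ^ 2 = 1) (hab : b * a * b⁻¹ = a⁻¹) (hne : a * b ≠ b * a) : False := by
  haveI : Fact (Nat.Prime 2) := ⟨Nat.prime_two⟩
  let a' : alternatingGroup (Fin n) := ⟨a, ha⟩
  let b' : alternatingGroup (Fin n) := ⟨b, hb⟩
  have ha' : a' ^ 4 = 1 := Subtype.ext ha4
  have hb' : b' ^ 2 = 1 := Subtype.ext hb2
  have hab' : b' * a' * b'⁻¹ = a'⁻¹ := Subtype.ext hab
  have h1 : IsPGroup 2 (Subgroup.zpowers a') := by
    rw [IsPGroup.iff_card]
    have : orderOf a' ∣ 2 ^ 2 := orderOf_dvd_of_pow_eq_one ha'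
    obtain ⟨k, -, hk⟩ := (Nat.dvd_prime_pow Nat.prime_two).1 this
    exact ⟨k, by rw [Nat.card_zpowers, hk]⟩
  have h2 : IsPGroup 2 (Subgroup.zpowers b') := by
    rw [IsPGroup.iff_card]
    have : orderOf b' ∣ 2 ^ 1 := orderOf_dvd_of_pow_eq_one hb'
    obtain ⟨k, -, hk⟩ := (Nat.dvd_prime_pow Nat.prime_two).1 this
    exact ⟨k, by rw [Nat.card_zpowers, hk]⟩
  have h3 : Subgroup.zpowers b' ≤ Subgroup.normalizer ((Subgroup.zpowers a' : Subgroup (alternatingGroup (Fin n))) : Set (alternatingGroup (Fin n))) := by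
    rw [Subgroup.zpowers_le, Subgroup.mem_normalizer_iff]
    intro h
    have hbi : b'⁻¹ = b' := inv_eq_of_mul_eq_one_left (by rw [← pow_two]; exact hb')
    have key : ∀ h, h ∈ Subgroup.zpowers a' → b' * h * b'⁻¹ ∈ Subgroup.zpowers a' := by
      rintro _ ⟨k, rfl⟩
      refine ⟨-k, ?_⟩
      show a' ^ (-k) = b' * a' ^ k * b'⁻¹
      rw [← conj_zpow, hab', inv_zpow, zpow_neg]
    refine ⟨key h, fun hh => ?_⟩
    have := key _ hh
    rw [hbi] at this
    have h5 : b' * (b' * h * b') * b' = h := by
      calc b' * (b' * h * b') * b' = b' ^ 2 * h * b' ^ 2 := by rw [pow_two]; group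
        _ = h := by rw [hb', one_mul, mul_one]
    rwa [h5] at this
  have h4 := h1.to_sup_of_normal_left' h2 h3
  have h5 := comm_of_sylow S hS _ h4 a' ((le_sup_left : Subgroup.zpowers a' ≤ _) (Subgroup.mem_zpowers a')) b'
    ((le_sup_right : Subgroup.zpowers b' ≤ _) (Subgroup.mem_zpowers b'))
  exact hne (congrArg Subtype.val h5)

/-- For n ≥ 6 and a prime p, a nontrivial Sylow p-subgroup of the alternating group of degree n is abelian if and only if n < p². -/
theorem result (n p : ℕ) (hn : 6 ≤ n) [Fact p.Prime] (S : Sylow p (alternatingGroup (Fin n))) (hS : (S : Subgroup (alternatingGroup (Fin n))) ≠ ⊥) : IsMulCommutative S ↔ n < p ^ 2 := by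
  classical
  have hp : p.Prime := Fact.out
  obtain ⟨P⟩ : Nonempty (Sylow p (Equiv.Perm (Fin n))) := inferInstance
  have hP := Cfsg.Agent.S4014.result p n (by omega) P
  constructor
  · intro hS
    by_contra hlt
    have hlog : 2 ≤ Nat.log p n := (Nat.le_log_iff_pow_le hp.one_lt (by omega)).2 (by omega)
    have hPn : ¬ ∀ a b : ↥(P : Subgroup (Equiv.Perm (Fin n))), a * b = b * a := by
      intro h
      apply hP.2 (by omega)
      rw [eq_bot_iff]
      refine (derivedSeries_antitone _ (show 1 ≤ Nat.log p n - 1 by omega)).trans ?_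
      rw [der_one.2 h]
    by_cases hp2 : p = 2
    · subst hp2
      by_cases h8 : 8 ≤ n
      · have hlog3 : 3 ≤ Nat.log 2 n := (Nat.le_log_iff_pow_le hp.one_lt (by omega)).2 (by omega)
        apply hP.2 (by omega)
        rw [eq_bot_iff]
        refine (derivedSeries_antitone _ (show 2 ≤ Nat.log 2 n - 1 by omega)).trans ?_
        -- commutators lie in the alternating group
        let T : Subgroup (alternatingGroup (Fin n)) := (P : Subgroup (Equiv.Perm (Fin n))).subgroupOf (alternatingGroup (Fin n))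
        have hT : IsPGroup 2 T := P.isPGroup'.comap_of_injective _ (alternatingGroup (Fin n)).subtype_injective
        have hTc := comm_of_sylow S hS T hT
        have h1 : ∀ x : P, x ∈ derivedSeries P 1 → Equiv.Perm.sign (x : Equiv.Perm (Fin n)) = 1 := by
          intro x hx
          rw [derivedSeries_one] at hx
          have : commutator P ≤ ((Equiv.Perm.sign : Equiv.Perm (Fin n) →* ℤˣ).comp (P : Subgroup (Equiv.Perm (Fin n))).subtype).ker :=
            Abelianization.commutator_subset_ker _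
          exact this hx
        rw [derivedSeries_succ, Subgroup.commutator_le]
        intro x hx y hy
        rw [Subgroup.mem_bot, commutatorElement_eq_one_iff_mul_comm]
        apply Subtype.ext
        have h9 := hTc ⟨x, h1 x hx⟩ x.2 ⟨y, h1 y hy⟩ y.2
        exact congrArg (fun t : alternatingGroup (Fin n) => (t : Equiv.Perm (Fin n))) h9
      · have : n = 6 ∨ n = 7 := by omega
        rcases this with rfl | rfl
        · exact two_case S hS (c[0, 1, 2, 3] * c[4, 5]) (c[0, 2] * c[4, 5]) (by decide) (by decide) (by decide) (by decide) (by decide) (by decide)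
        · exact two_case S hS (c[0, 1, 2, 3] * c[4, 5]) (c[0, 2] * c[4, 5]) (by decide) (by decide) (by decide) (by decide) (by decide) (by decide)
    · apply hPn
      have hle : (P : Subgroup (Equiv.Perm (Fin n))) ≤ alternatingGroup (Fin n) := by
        intro x hx
        obtain ⟨k, hk⟩ := IsPGroup.iff_orderOf.1 P.isPGroup' ⟨x, hx⟩
        rw [Subgroup.orderOf_mk] at hk
        have hodd : Odd (orderOf x) := by rw [hk]; exact (hp.odd_of_ne_two hp2).pow
        rw [Equiv.Perm.mem_alternatingGroup]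
        have h1 : Equiv.Perm.sign x ^ orderOf x = 1 := by rw [← map_pow, pow_orderOf_eq_one, map_one]
        obtain ⟨j, hj⟩ := hodd
        rw [hj, pow_succ, pow_mul, Int.units_sq, one_pow, one_mul] at h1
        exact h1
      let T : Subgroup (alternatingGroup (Fin n)) := (P : Subgroup (Equiv.Perm (Fin n))).subgroupOf (alternatingGroup (Fin n))
      have hT : IsPGroup p T := P.isPGroup'.comap_of_injective _ (alternatingGroup (Fin n)).subtype_injective
      have hTc := comm_of_sylow S hS T hT
      intro a b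
      apply Subtype.ext
      have h9 := hTc ⟨a, hle a.2⟩ a.2 ⟨b, hle b.2⟩ b.2
      exact congrArg (fun t : alternatingGroup (Fin n) => (t : Equiv.Perm (Fin n))) h9
  · intro hlt
    have hlog : Nat.log p n ≤ 1 := by
      have : Nat.log p n < 2 := (Nat.log_lt_iff_lt_pow hp.one_lt (by omega)).2 hlt
      omega
    have h1 : derivedSeries P 1 = ⊥ := by
      rw [eq_bot_iff, ← hP.1]
      exact derivedSeries_antitone _ hlog
    have hPc : IsMulCommutative P := ⟨⟨fun a b => der_one.1 h1 a b⟩⟩
    have hT : IsPGroup p ((S : Subgroup (alternatingGroup (Fin n))).map (alternatingGroup (Fin n)).subtype) := S.isPGroup'.map _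
    have h2 := comm_of_sylow P hPc _ hT
    refine ⟨⟨fun a b => ?_⟩⟩
    apply Subtype.ext
    apply Subtype.ext
    exact h2 _ ⟨a, a.2, rfl⟩ _ ⟨b, b.2, rfl⟩

end Cfsg.Agent.S5164
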