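import Cfsg.Statements.S5194
import Cfsg.Agent.H28.Mach9

set_option autoImplicit false
open Cfsg

namespace Cfsg.Agent.S5194

open Cfsg.FusionSystem Cfsg.Agent.H28

/-- Thompson's normal p-complement Theorem for fusion systems. Let F be a saturated fusion system over a finite p-group S such that p is odd or F is S₄-free (the symmetric group of degree 4 is not involved in any model of the normalizer system of a fully normalized F-centric subgroup), and let J(S) be the subgroup generated by the abelian subgroups of S of largest order. If the centralizer fusion system of Z(S) in F is the inner fusion system of C_S(Z(S)) = S and the normalizer fusion system of J(S) in F is the inner fusion system of N_S(J(S)) = S, then F is the inner fusion system of S. -/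
theorem result {Ω : Type*} [Group Ω] {S : Subgroup Ω} [Finite S] (p : ℕ) [Fact p.Prime] (hS : IsPGroup p S) (F : Cfsg.FusionSystem S) (hF : F.IsSaturated p) (hp : p ≠ 2 ∨ F.IsSectionFree p (Equiv.Perm (Fin 4))) (hC : ∀ C : Cfsg.FusionSystem (Cfsg.FusionSystem.centralizerIn S (S ⊓ Subgroup.centralizer (S : Set Ω))), F.IsCentralizerSystem (S ⊓ Subgroup.centralizer (S : Set Ω)) C → ∀ P : Subgroup Ω, C.Hom P = (Cfsg.innerFusionSystem (Cfsg.FusionSystem.centralizerIn S (S ⊓ Subgroup.centralizer (S : Set Ω)))).Hom P) (hN : ∀ N : Cfsg.FusionSystem (Cfsg.FusionSystem.normalizerIn S (Cfsg.thompsonSubgroupAOf S)), F.IsNormalizerSystem (Cfsg.thompsonSubgroupAOf S) N → ∀ P : Subgroup Ω, N.Hom P = (Cfsg.innerFusionSystem (Cfsg.FusionSystem.normalizerIn S (Cfsg.thompsonSubgroupAOf S))).Hom P) : ∀ P : Subgroup Ω, F.Hom P = (Cfsg.innerFusionSystem S).Hom P := by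
  rw [eq_inner_iff]
  have hVc : ctr S ≤ centralizerIn S (ctr S) := fun z hz => mem_centralizerIn.2
    ⟨hz.1, fun y hy => (Subgroup.mem_centralizer_iff.1 hz.2 y hy.1).symm⟩
  have hN' : InnerAt F (Cfsg.thompsonSubgroupAOf S) := (innerAt_iff_forall (JA_le S)).2 hN
  have hC' : CInnerAt F (ctr S) := (cInnerAt_iff_forall (V := ctr S) inf_le_left hVc).2 hC
  exact inner_of_thompson hS hF hp hC' hN'
end Cfsg.Agent.S5194
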