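import Cfsg.Statements.S5196
import Cfsg.Agent.H28.GCtl3

set_option autoImplicit false
universe u
open Cfsg

namespace Cfsg.Agent.S5196

open Cfsg.FusionSystem Cfsg.Agent.H28

/-- Let p be an odd prime and W a positive characteristic p-functor: W assigns to every finite p-group Q (in a fixed universe) a subgroup W(Q), nontrivial when Q is, carried to W(R) by every isomorphism Q ≅ R; assume also Z(Q) ≤ W(Q) for every finite p-group Q. Suppose W satisfies the local condition: for every finite group G with Sylow p-subgroup P, O_p(G) ∩ Z(G) = O_p(G) ∩ Z(N_G(W(P))). Then W controls weak closure of elements in every saturated fusion system F over a finite p-group S: the centre of the normalizer fusion system of W(S) in F equals the centre of F. (For p = 2 no functor satisfies the local condition, so p is taken odd.) -/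
theorem result {p : ℕ} [Fact p.Prime] (hp : p ≠ 2) (W : ∀ (Q : Type u) [Group Q], Subgroup Q) (hW1 : ∀ (Q : Type u) [Group Q] [Finite Q], IsPGroup p Q → Nontrivial Q → W Q ≠ ⊥) (hW2 : ∀ (Q R : Type u) [Group Q] [Group R] [Finite Q], IsPGroup p Q → ∀ φ : Q ≃* R, (W Q).map φ.toMonoidHom = W R) (hWZ : ∀ (Q : Type u) [Group Q] [Finite Q], IsPGroup p Q → Subgroup.center Q ≤ W Q) (hC : ∀ (G : Type u) [Group G] [Finite G] (P : Sylow p G), Cfsg.pCore p G ⊓ Subgroup.center G = Cfsg.pCore p G ⊓ (Subgroup.center ↥(Subgroup.normalizer (((W ↥(P : Subgroup G)).map (P : Subgroup G).subtype : Subgroup G) : Set G))).map (Subgroup.normalizer (((W ↥(P : Subgroup G)).map (P : Subgroup G).subtype : Subgroup G) : Set G)).subtype) {Ω : Type u} [Group Ω] {S : Subgroup Ω} [Finite S] (hS : IsPGroup p S) (F : Cfsg.FusionSystem S) (hF : F.IsSaturated p) (N : Cfsg.FusionSystem (Cfsg.FusionSystem.normalizerIn S ((W ↥S).map S.subtype))) (hN : F.IsNormalizerSystem ((W ↥S).map S.subtype) N) : N.center = F.center := by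
  have hV : (W ↥S).map S.subtype ≤ S := by rintro _ ⟨x, -, rfl⟩; exact x.2
  have hWF : WF p W Ω S = (W ↥S).map S.subtype := WF_eq hS
  have hch : (((W ↥S).map S.subtype).subgroupOf S).Characteristic := by
    rw [← hWF]; exact WF_char hW2 S
  have hn : S ≤ Subgroup.normalizer (((W ↥S).map S.subtype : Subgroup Ω) : Set Ω) :=
    char_le_normalizerIn hV hch
  have hT' := normalizerIn_eq hn
  haveI : Finite (normalizerIn S ((W ↥S).map S.subtype)) := finite_of_le normalizerIn_le
  have hNs : N.IsSaturated p := by
    rw [eq_normSys hV hN]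
    exact normSys_saturated hS hF (fullyNormalized_of_normal hV hn)
  have hNF : ∀ P f, Mor N P f → Mor F P f := fun P f hf => by
    rw [eq_normSys hV hN] at hf; exact mor_norm_sub hf
  apply le_antisymm
  · intro z hz
    have hzS : z ∈ S := hT'.le (center_le' hz)
    have hzc : ∀ s ∈ S, s * z = z * s := fun s hs => central_comm hz s (hT'.ge hs)
    have hzV : z ∈ (W ↥S).map S.subtype := by
      rw [← hWF]; exact ctr_functor hWZ Ω S hS z hzS hzc
    refine mem_center_of_rsat hS hF hzS hzc ?_
    have h1 := rel_machine (relCls_center W hW1 hW2 hWZ fun G _ _ P => (hC G P).ge.trans inf_le_right)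
      hS hF (ρ := relZ z) ⟨z, hzS, hzc, by rw [pow_zero, pow_one]⟩ ?_
    · exact h1
    · rintro X f ⟨hf, g, hg, h1, h2⟩ x hx
      rw [hWF] at hg h2
      have hgN : Mor N (X ⊔ (W ↥S).map S.subtype) g := by
        rw [eq_normSys hV hN, mor_normSys]
        exact ⟨by rw [hT']; exact hg.le, fun x hx => by rw [hT']; exact hg.mem hx, g, by
          rw [sup_eq_left.2 le_sup_right]; exact hg, fun _ _ => rfl, h2⟩
      have h3 := rsat_of_mem_center hz _ g hgN x (le_sup_left (b := (W ↥S).map S.subtype) hx)
      rwa [h1 x hx] at h3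
  · intro z hz
    have hzS : z ∈ S := center_le' hz
    have hzc := central_comm hz
    refine mem_center_of_rsat (isPGroup_of_le hS normalizerIn_le) hNs (hT'.ge hzS)
      (fun s hs => hzc s (hT'.le hs)) fun P f hf => rsat_of_mem_center hz P f (hNF P f hf)
end Cfsg.Agent.S5196
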