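import Cfsg.Statements.S5197
import Cfsg.Agent.H28.GCtl1

set_option autoImplicit false
universe u
open Cfsg

namespace Cfsg.Agent.S5197

open Cfsg.FusionSystem Cfsg.Agent.H28

/-- Let p be a prime and W a positive characteristic p-functor: W assigns to every finite p-group Q (in a fixed universe) a subgroup W(Q), nontrivial when Q is, carried to W(R) by every isomorphism Q ≅ R. Suppose W satisfies the local condition: for every finite group G with Sylow p-subgroup P such that C_G(O_p(G)) ≤ O_p(G), one has O_p(G) ∩ [G, G] = O_p(G) ∩ [N, N] for N = N_G(W(P)). Then W controls transfer in every saturated fusion system F over a finite p-group S: the focal subgroup of F equals the focal subgroup of the normalizer fusion system of W(S) in F. -/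
theorem result {p : ℕ} [Fact p.Prime] (W : ∀ (Q : Type u) [Group Q], Subgroup Q) (hW1 : ∀ (Q : Type u) [Group Q] [Finite Q], IsPGroup p Q → Nontrivial Q → W Q ≠ ⊥) (hW2 : ∀ (Q R : Type u) [Group Q] [Group R] [Finite Q], IsPGroup p Q → ∀ φ : Q ≃* R, (W Q).map φ.toMonoidHom = W R) (hT : ∀ (G : Type u) [Group G] [Finite G] (P : Sylow p G), Subgroup.centralizer ((Cfsg.pCore p G : Subgroup G) : Set G) ≤ Cfsg.pCore p G → Cfsg.pCore p G ⊓ commutator G = Cfsg.pCore p G ⊓ (commutator ↥(Subgroup.normalizer (((W ↥(P : Subgroup G)).map (P : Subgroup G).subtype : Subgroup G) : Set G))).map (Subgroup.normalizer (((W ↥(P : Subgroup G)).map (P : Subgroup G).subtype : Subgroup G) : Set G)).subtype) {Ω : Type u} [Group Ω] {S : Subgroup Ω} [Finite S] (hS : IsPGroup p S) (F : Cfsg.FusionSystem S) (hF : F.IsSaturated p) (N : Cfsg.FusionSystem (Cfsg.FusionSystem.normalizerIn S ((W ↥S).map S.subtype))) (hN : F.IsNormalizerSystem ((W ↥S).map S.subtype) N) : N.focalSubgroup = F.focalSubgroup := by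
  have hV : (W ↥S).map S.subtype ≤ S := by rintro _ ⟨x, -, rfl⟩; exact x.2
  have hWF : WF p W Ω S = (W ↥S).map S.subtype := WF_eq hS
  have hch : (((W ↥S).map S.subtype).subgroupOf S).Characteristic := by
    rw [← hWF]; exact WF_char hW2 S
  have hn : S ≤ Subgroup.normalizer (((W ↥S).map S.subtype : Subgroup Ω) : Set Ω) :=
    char_le_normalizerIn hV hch
  have hT' := normalizerIn_eq hn
  apply le_antisymm
  · rw [foc_le_iff]
    intro P f hf x hx
    rw [eq_normSys hV hN] at hf
    exact foc_mem (mor_norm_sub hf) hx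
  · rw [foc_le_iff]
    refine rel_machine (relCls_transfer W hW1 hW2 fun G _ _ P h => (hT G P h).le.trans inf_le_right) hS hF
      ⟨N.focalSubgroup, ?_, rfl⟩ ?_
    · have := derived_le_foc (F := N)
      exact (Subgroup.commutator_mono hT'.ge hT'.ge).trans this
    · rintro X f ⟨hf, g, hg, h1, h2⟩ x hx
      rw [hWF] at hg h2
      refine foc_mem (F := N) (P := X) ?_ hx
      rw [eq_normSys hV hN, mor_normSys]
      refine ⟨by rw [hT']; exact hf.le, fun x hx => by rw [hT']; exact hf.mem hx, g, hg, h1, h2⟩
end Cfsg.Agent.S5197
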