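import Cfsg.Statements.S5198
import Cfsg.Agent.H13.FusMore2

set_option autoImplicit false
set_option linter.all false
open Cfsg
open Cfsg.Agent.H28 Cfsg.FusionSystem

namespace Cfsg.Agent.S5198

open Cfsg.Agent

/-- Let F be a saturated fusion system over a finite p-group S and T a subgroup of S strongly closed in F (so T is normal in S). Then every element x of the hyperfocal subgroup of F acts on T by conjugation as an element of O^p(Aut_F(T))·Inn(T): there is an automorphism of T in the subgroup generated by the elements of Aut_F(T) of order prime to p together with the inner automorphisms of T that agrees with conjugation by x. -/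
theorem result {Ω : Type*} [Group Ω] {S : Subgroup Ω} [Finite S] (p : ℕ) [Fact p.Prime] (hS : IsPGroup p S) (F : Cfsg.FusionSystem S) (hF : F.IsSaturated p) (T : Subgroup Ω) (hT : F.StronglyClosed T) : ∀ x ∈ F.hyperfocalSubgroup p, ∃ α ∈ ((Cfsg.pResidual p ↥(F.autGroup T)).map (F.autGroup T).subtype ⊔ Cfsg.Inn ↥T : Subgroup (MulAut ↥T)), ∀ t : ↥T, ((α t : ↥T) : Ω) = x * (t : Ω) * x⁻¹ := by
  classical
  have hTfin : Finite T := finite_of_le hT.1
  set X : Subgroup (MulAut ↥T) := (Cfsg.pResidual p ↥(F.autGroup T)).map (F.autGroup T).subtype ⊔ Cfsg.Inn ↥T with hX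
  -- characterization of Inn
  have hInn : ∀ t ∈ T, ∃ γ ∈ Cfsg.Inn ↥T, ∀ x ∈ T, autFun γ x = t * x * t⁻¹ := by
    intro t ht
    refine ⟨MulAut.conj (⟨t, ht⟩ : T), ⟨_, rfl⟩, fun x hx => ?_⟩
    rw [autFun_apply _ hx]
    rfl
  -- normality of X in the automizer
  have hXn : ∀ β ∈ F.autGroup T, ∀ γ ∈ X, β * γ * β⁻¹ ∈ X := by
    intro β hβ γ hγ
    rw [hX] at hγ ⊢
    have h1 : ∀ γ ∈ (Cfsg.pResidual p ↥(F.autGroup T)).map (F.autGroup T).subtype,
        β * γ * β⁻¹ ∈ (Cfsg.pResidual p ↥(F.autGroup T)).map (F.autGroup T).subtype := by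
      rintro _ ⟨δ, hδ, rfl⟩
      refine ⟨⟨β, hβ⟩ * δ * ⟨β, hβ⟩⁻¹, ?_, rfl⟩
      exact (Cfsg.Agent.H2.pResidual_normal).conj_mem _ hδ _
    have h2 : ∀ γ ∈ Cfsg.Inn ↥T, β * γ * β⁻¹ ∈ Cfsg.Inn ↥T := by
      rintro _ ⟨t, rfl⟩
      refine ⟨β t, ?_⟩
      apply MulEquiv.ext
      intro y
      simp
    have hle : X ≤ X.comap (MulAut.conj β).toMonoidHom := by
      rw [hX]
      apply sup_le
      · intro x hx; exact Subgroup.mem_sup_left (h1 _ hx)
      · intro x hx; exact Subgroup.mem_sup_right (h2 _ hx)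
    exact hle hγ
  let D : Subgroup Ω :=
    { carrier := {x | x ∈ S ∧ ∃ α ∈ X, ∀ t ∈ T, autFun α t = x * t * x⁻¹}
      mul_mem' := by
        rintro a b ⟨ha, α, hα, h1⟩ ⟨hb, β, hβ, h2⟩
        refine ⟨S.mul_mem ha hb, α * β, X.mul_mem hα hβ, fun t ht => ?_⟩
        rw [autFun_mul _ _ ht, h2 t ht, h1 _ (by rw [← h2 t ht]; exact autFun_mem _ ht)]
        group
      one_mem' := ⟨S.one_mem, 1, X.one_mem, fun t ht => by rw [autFun_one ht]; simp⟩
      inv_mem' := by
        rintro a ⟨ha, α, hα, h1⟩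
        refine ⟨S.inv_mem ha, α⁻¹, X.inv_mem hα, fun t ht => ?_⟩
        have hat : a⁻¹ * t * a⁻¹⁻¹ ∈ T := sc_conj hT (S.inv_mem ha) ht
        have h2 := h1 _ hat
        have e : a * (a⁻¹ * t * a⁻¹⁻¹) * a⁻¹ = t := by group
        rw [e] at h2
        conv_lhs => rw [← h2]
        rw [autFun_inv_apply _ hat] }
  have hD : F.hyperfocalSubgroup p ≤ D := by
    refine hyp_le_of_coprime fun P hPS α hα hc x hx => ?_
    obtain ⟨β, hβ, hβc, hβα⟩ := H13.mod_extend_coprime hS hF hT hPS hα hc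
    have hPT : P ⊔ T ≤ S := sup_le hPS hT.1
    obtain ⟨t, ht, hxt⟩ := hβα x hx
    have hxm : x ∈ P ⊔ T := Subgroup.mem_sup_left hx
    have hTm : T ≤ P ⊔ T := le_sup_right
    -- restriction of β to T
    have hβT : ∀ y ∈ T, autFun β y ∈ T := fun y hy => sc_apply hT (mor_autFun hPT hβ) (hTm hy) hy
    obtain ⟨b, hb, hbo⟩ := H13.exists_restrict hTm β hβT
    have hbF : b ∈ F.autGroup T := mem_autGroup_of_mor ((mor_autFun hPT hβ).mono hTm) (fun y => by
      rw [← autFun_coe]; exact hb y y.2)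
    have hbc : (orderOf b).Coprime p := Nat.Coprime.coprime_dvd_left hbo hβc
    have hbX : b ∈ X := by
      refine Subgroup.mem_sup_left ⟨⟨b, hbF⟩, ?_, rfl⟩
      refine Subgroup.subset_closure ?_
      show (orderOf (⟨b, hbF⟩ : F.autGroup T)).Coprime p
      rwa [Subgroup.orderOf_mk]
    -- conjugation by x
    have hxS := hPS hx
    have hxn : x ∈ Subgroup.normalizer (T : Set Ω) := sc_normalizer hT hxS
    set c := conjAut T x hxn with hc'
    have hcF : c ∈ F.autGroup T := autInducedBy_le hT.1 le_rfl (conjAut_mem hxn hxS)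
    have hcx : ∀ y ∈ T, autFun c y = x * y * x⁻¹ := fun y hy => autFun_conjAut hxn hy
    obtain ⟨γ, hγ, hγt⟩ := hInn t⁻¹ (T.inv_mem ht)
    refine ⟨S.mul_mem (S.inv_mem hxS) (hPS (autFun_mem _ hx)), c⁻¹ * (b * c * b⁻¹) * γ, ?_, ?_⟩
    · refine X.mul_mem ?_ (Subgroup.mem_sup_right hγ)
      have h1 : c⁻¹ * (b * c * b⁻¹) = (c⁻¹ * b * c⁻¹⁻¹) * b⁻¹ := by group
      rw [h1]
      exact X.mul_mem (hXn _ ((F.autGroup T).inv_mem hcF) _ hbX) (X.inv_mem hbX)
    · intro y hy
      have hcinv : ∀ y ∈ T, autFun c⁻¹ y = x⁻¹ * y * x := by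
        intro y hy
        have h2 : x⁻¹ * y * x ∈ T := by
          have := sc_conj hT (S.inv_mem hxS) hy
          rwa [inv_inv] at this
        have h3 := hcx _ h2
        have e : x * (x⁻¹ * y * x) * x⁻¹ = y := by group
        rw [e] at h3
        conv_lhs => rw [← h3]
        rw [autFun_inv_apply _ h2]
      have hmul := (mor_autFun hPT hβ)
      have hkey : ∀ y ∈ T, autFun (b * c * b⁻¹) y = autFun β x * y * (autFun β x)⁻¹ := by
        intro y hy
        have hy' : autFun b⁻¹ y ∈ T := autFun_mem _ hy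
        rw [autFun_mul _ _ hy, autFun_mul _ _ (autFun_mem _ hy), hcx _ hy',
          hb _ (sc_conj hT hxS hy'), hmul.conj hxm (hTm hy'), ← hb _ hy', autFun_apply_inv _ hy]
      have hγm : autFun γ y ∈ T := autFun_mem _ hy
      rw [autFun_mul _ _ hy, autFun_mul _ _ hγm, hkey _ hγm,
        hcinv _ (by rw [← hkey _ hγm]; exact autFun_mem _ hγm), hγt y hy, hxt]
      group
  intro x hx
  obtain ⟨-, α, hα, h⟩ := hD hx
  exact ⟨α, hα, fun t => by rw [← autFun_coe]; exact h t t.2⟩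

end Cfsg.Agent.S5198
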