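import Cfsg.Statements.S5199
import Cfsg.Agent.H13.FusPPN

set_option autoImplicit false
set_option linter.all false
open Cfsg
open Cfsg.Agent.H28 Cfsg.FusionSystem

namespace Cfsg.Agent.S5199

open Cfsg.Agent

/-- Let F be a saturated fusion system over a finite p-group S, E a normal subsystem of F over T, and F₀ a normal subsystem of F over a subgroup U containing both T and the hyperfocal subgroup of F, such that F₀ has p-power index in F. Then E is a subsystem of F₀. -/
theorem result {Ω : Type*} [Group Ω] {S : Subgroup Ω} [Finite S] (p : ℕ) [Fact p.Prime] (hS : IsPGroup p S) (F : Cfsg.FusionSystem S) (hF : F.IsSaturated p) {T U : Subgroup Ω} (E : Cfsg.FusionSystem T) (hE : E.IsNormalIn F p) (F₀ : Cfsg.FusionSystem U) (hF₀ : F₀.IsNormalIn F p) (hU : T ⊔ F.hyperfocalSubgroup p ≤ U) (hidx : F₀.HasPPowerIndexIn F p) : E.IsSubsystemOf F₀ := by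
  obtain ⟨hF0F, hhyp, hpp⟩ := ppi_iff.1 hidx
  have hTS : T ≤ S := subsystem_le hE.1.2.2.1
  have hEF := subsystem_iff.1 hE.1.2.2.1
  have hTU : T ≤ U := le_sup_left.trans hU
  have hTfin : Finite T := finite_of_le hTS
  have hTp := hS.to_le hTS
  have hUS : U ≤ S := subsystem_le hF₀.1.2.2.1
  rw [subsystem_iff]
  intro P f hf
  have hC : MapProp E (fun P f => Mor F₀ P f) := by
    refine ⟨?_, ?_, ?_, ?_⟩
    · intro P f g hP hfg h
      exact h.congr hfg
    · intro P s hP hs
      exact mor_conj (hP.trans hTU) (hTU hs)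
    · intro P Q f g hf hg hm h1 h2
      exact h1.comp h2 hm
    · intro P f i hf hi h1 h2 h3
      obtain ⟨j, hj, hj1, hj2, hj3⟩ := h3.inverse
      refine hj.congr fun y hy => ?_
      obtain ⟨x, hx, rfl⟩ := hf.mem_img.1 hy
      rw [hj1 x hx, h1 x hx]
  refine alperin_prop hTp hE.1.1 hC (fun P hP δ hδ => ?_) hf
  have hPn := (fn_of_essential_or_top hP).1
  have hPT : P ≤ T := hPn.1
  obtain ⟨γ, hγ, s, hs, hsP, hδs⟩ := aut_decomp (FN.fa hTp hE.1.1 hPn) hδ
  have hle : (Cfsg.pResidual p (E.autGroup P)).map (E.autGroup P).subtype ≤ F₀.autGroup P := by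
    rw [Subgroup.map_le_iff_le_comap]
    unfold Cfsg.pResidual
    rw [Subgroup.closure_le]
    intro γ hγ
    show (γ : MulAut P) ∈ F₀.autGroup P
    apply hpp _ (hPT.trans hTU)
    · exact (mor_autFun_iff (hPT.trans hTS)).1 (hEF _ _ (mor_autFun hPT γ.2))
    · rw [Subgroup.orderOf_coe]; exact hγ
  have h1 : (γ : MulAut P) ∈ F₀.autGroup P := hle ⟨γ, hγ, rfl⟩
  have h2 : Mor F₀ P (fun x => s * x * s⁻¹) := mor_conj (hPT.trans hTU) (hTU hs)
  exact (h2.comp (mor_autFun (hPT.trans hTU) h1) hsP).congr fun x hx => (hδs x hx).symm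

end Cfsg.Agent.S5199
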