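import Cfsg.Statements.S5203
import Cfsg.Agent.H13.FusPPN

set_option autoImplicit false
set_option linter.all false
open Cfsg
open Cfsg.Agent.H28 Cfsg.FusionSystem

namespace Cfsg.Agent.S5203

open Cfsg.Agent

variable {Ω : Type*} [Group Ω]

/-- same maps -/
def Same {S T : Subgroup Ω} (F : Cfsg.FusionSystem S) (E : Cfsg.FusionSystem T) : Prop :=
  ∀ P : Subgroup Ω, F.Hom P = E.Hom P

theorem Same.le {S T : Subgroup Ω} {F : Cfsg.FusionSystem S} {E : Cfsg.FusionSystem T} (h : Same F E) :
    S ≤ T := by
  have h1 : Mor F S id := mor_id le_rfl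
  obtain ⟨φ, hφ, -⟩ := h1
  rw [h S] at hφ
  exact (E.le_of_mem hφ).1

theorem Same.symm {S T : Subgroup Ω} {F : Cfsg.FusionSystem S} {E : Cfsg.FusionSystem T} (h : Same F E) :
    Same E F := fun P => (h P).symm

theorem Same.trans {S T U : Subgroup Ω} {F : Cfsg.FusionSystem S} {E : Cfsg.FusionSystem T}
    {D : Cfsg.FusionSystem U} (h : Same F E) (h' : Same E D) : Same F D := fun P => (h P).trans (h' P)

theorem same_of_eq {S : Subgroup Ω} {F E : Cfsg.FusionSystem S} (h : F = E) : Same F E := by
  subst h; exact fun P => rfl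

/-- uniqueness of subsystems of `p`-power index, with varying base. -/
theorem ppi_same {S T U : Subgroup Ω} (p : ℕ) [Fact p.Prime] [Finite S] (hS : IsPGroup p S)
    {F : Cfsg.FusionSystem S} {E : Cfsg.FusionSystem T} {D : Cfsg.FusionSystem U} (hTU : T = U)
    (hTS : T ≤ S) (hE : E.IsSaturated p) (hEi : E.HasPPowerIndexIn F p)
    (hD : D.IsSaturated p) (hDi : D.HasPPowerIndexIn F p) : Same E D := by
  subst hTU
  exact same_of_eq (ppi_unique hS hTS hE hEi hD hDi)

theorem ppr_unique {S : Subgroup Ω} (p : ℕ) {F E D : Cfsg.FusionSystem S} (hE : F.IsPPrimeResidual p E)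
    (hD : F.IsPPrimeResidual p D) : E = D := by
  apply fs_ext
  intro P
  exact Set.Subset.antisymm (hE.2.2 D hD.1 hD.2.1 P) (hD.2.2 E hE.1 hE.2.1 P)

theorem ppr_same {S T : Subgroup Ω} (p : ℕ) {F E : Cfsg.FusionSystem S} {G D : Cfsg.FusionSystem T}
    (hFG : Same F G) (hE : F.IsPPrimeResidual p E)
    (hD : G.IsPPrimeResidual p D) : Same E D := by
  have hST : S = T := le_antisymm hFG.le hFG.symm.le
  subst hST
  have : F = G := fs_ext hFG
  subst this
  exact same_of_eq (ppr_unique p hE hD)

theorem limit_same {S S' T : Subgroup Ω} (p : ℕ) {F : Cfsg.FusionSystem S} {F' : Cfsg.FusionSystem S'}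
    {E : Cfsg.FusionSystem T} (h : Same F F') (hl : E.IsResidualLimitOf F p) :
    E.IsResidualLimitOf F' p := by
  have hST : S = S' := le_antisymm h.le h.symm.le
  subst hST
  have : F = F' := fs_ext h
  subst this
  exact hl

theorem same_hyp {U S : Subgroup Ω} (p : ℕ) {D : Cfsg.FusionSystem U} {F : Cfsg.FusionSystem S}
    (h : Same D F) (h1 : F.hyperfocalSubgroup p = S) : D.hyperfocalSubgroup p = U := by
  have hU : U = S := le_antisymm h.le h.symm.le
  subst hU
  have h2 : D = F := fs_ext h
  subst h2
  exact h1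

theorem same_ppr {U S : Subgroup Ω} (p : ℕ) {D : Cfsg.FusionSystem U} {F : Cfsg.FusionSystem S}
    (h : Same D F) (h1 : F.IsPPrimeResidual p F) : D.IsPPrimeResidual p D := by
  have hU : U = S := le_antisymm h.le h.symm.le
  subst hU
  have h2 : D = F := fs_ext h
  subst h2
  exact h1

theorem limit_stable (p : ℕ) {T S : Subgroup Ω} {E : Cfsg.FusionSystem T}
    {F : Cfsg.FusionSystem S} (h : E.IsResidualLimitOf F p) : p.Prime → Finite S → IsPGroup p S →
    F.hyperfocalSubgroup p = S → F.IsPPrimeResidual p F → Same E F := by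
  induction h with
  | stable F p h1 h2 => intro _ _ _ _ _; exact fun P => rfl
  | step F p D D' hD hD' hl ih =>
    intro hp hfinS hS h1 h2
    haveI := Fact.mk hp
    haveI := hfinS
    have hDF : Same D F := ppi_same p hS h1 hyp_le hD.1 hD.2 h2.1 ppi_refl
    have hD'F : Same D' F := ppr_same p hDF hD' h2
    have hst := same_hyp p hD'F h1
    have hpr := same_ppr p hD'F h2
    have hfin : Finite (F.hyperfocalSubgroup p) := finite_of_le hyp_le
    exact (ih hp hfin (hS.to_le hyp_le) hst hpr).trans hD'F

theorem limit_unique (p : ℕ) {T S : Subgroup Ω} {E : Cfsg.FusionSystem T}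
    {F : Cfsg.FusionSystem S} (h : E.IsResidualLimitOf F p) : p.Prime → Finite S → IsPGroup p S →
    ∀ (T' : Subgroup Ω) (E' : Cfsg.FusionSystem T'), E'.IsResidualLimitOf F p → Same E E' := by
  induction h with
  | stable F p h1 h2 =>
    intro hp hf hS T' E' h'
    exact (limit_stable p h' hp hf hS h1 h2).symm
  | step F p D D' hD hD' hl ih =>
    intro hp hfinS hS T' E' h'
    haveI := Fact.mk hp
    haveI := hfinS
    have hfin : Finite (F.hyperfocalSubgroup p) := finite_of_le hyp_le
    cases h' with
    | stable F p h1 h2 =>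
      exact limit_stable p (IsResidualLimitOf.step F p D D' hD hD' hl) hp hfinS hS h1 h2
    | step F p D₂ D₂' hD₂ hD₂' hl₂ =>
      have h1 : D = D₂ := ppi_unique hS hyp_le hD.1 hD.2 hD₂.1 hD₂.2
      subst h1
      have h2 : D' = D₂' := ppr_unique p hD' hD₂'
      subst h2
      exact ih hp hfin (hS.to_le hyp_le) T' E' hl₂

/-- Let F be a saturated fusion system over a finite p-group S and E a normal subsystem of F over T that has p-power index in F. Then every residual limit of E has the same maps as every residual limit of F (the residual limit is reached by alternately passing to the p-residual and the p'-residual subsystem until nothing changes). -/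
theorem result {Ω : Type*} [Group Ω] {S : Subgroup Ω} [Finite S] (p : ℕ) [Fact p.Prime] (hS : IsPGroup p S) (F : Cfsg.FusionSystem S) (hF : F.IsSaturated p) {T : Subgroup Ω} (E : Cfsg.FusionSystem T) (hE : E.IsNormalIn F p) (hidx : E.HasPPowerIndexIn F p) {U V : Subgroup Ω} (Finf : Cfsg.FusionSystem U) (hFinf : Finf.IsResidualLimitOf F p) (Einf : Cfsg.FusionSystem V) (hEinf : Einf.IsResidualLimitOf E p) : ∀ P : Subgroup Ω, Finf.Hom P = Einf.Hom P := by
  have hTS : T ≤ S := subsystem_le hE.1.2.2.1
  have hTfin : Finite T := finite_of_le hTS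
  have hTp := hS.to_le hTS
  have hhyp := hyp_ppi hS hF hTS hidx
  have hUS : F.hyperfocalSubgroup p ≤ S := hyp_le
  cases hFinf with
  | stable F p h1 h2 =>
    have hTS' : T = S := le_antisymm hTS (by rw [← h1]; exact (ppi_iff.1 hidx).2.1)
    have h3 : Same E F := ppi_same p hS hTS' hTS hE.1.1 hidx hF ppi_refl
    exact limit_unique p (IsResidualLimitOf.stable F p h1 h2) Fact.out inferInstance hS V Einf
      (limit_same p h3 hEinf)
  | step F p D D' hD hD' hl =>
    have hfin : Finite (F.hyperfocalSubgroup p) := finite_of_le hyp_le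
    cases hEinf with
    | stable E p h1 h2 =>
      have hTh : T = F.hyperfocalSubgroup p := by rw [← hhyp, h1]
      have h3 : Same E D := ppi_same p hS hTh hTS hE.1.1 hidx hD.1 hD.2
      have h4 : Same E D' := ppr_same p h3 h2 hD'
      have h5 := limit_same p h4.symm hl
      exact limit_stable p h5 Fact.out hTfin hTp h1 h2
    | step E p D₂ D₂' hD₂ hD₂' hl₂ =>
      have hUT : E.hyperfocalSubgroup p ≤ T := hyp_le
      have h3 : D₂.HasPPowerIndexIn F p := ppi_trans hUT hTS hidx hD₂.2 hhyp.ge
      have h4 : Same D₂ D := ppi_same p hS hhyp (hUT.trans hTS) hD₂.1 h3 hD.1 hD.2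
      have h5 : Same D₂' D' := ppr_same p h4 hD₂' hD'
      exact limit_unique p hl Fact.out hfin (hS.to_le hyp_le) V Einf (limit_same p h5 hl₂)

end Cfsg.Agent.S5203
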