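import Cfsg.Statements.S5214
import Cfsg.Agent.H13.FusCtl2
import Cfsg.Agent.S1137
import Cfsg.Agent.S1138

set_option autoImplicit false
set_option linter.all false
open Cfsg
open Cfsg.Agent.H28 Cfsg.FusionSystem

namespace Cfsg.Agent.S5214

open Cfsg.Agent

/-- Let S be a Suzuki 2-group (a finite nonabelian 2-group with more than one involution admitting a cyclic group of automorphisms permuting its involutions regularly). Then S is normal in every saturated fusion system over S (such a group is resistant). -/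
theorem result {Ω : Type*} [Group Ω] {S : Subgroup Ω} [Finite S] (hS : IsPGroup 2 S) (F : Cfsg.FusionSystem S) (hF : F.IsSaturated 2) (hsz : Cfsg.IsSuzukiTwoGroup ↥S) : F.IsNormal S := by
  classical
  haveI : Fact (Nat.Prime 2) := ⟨Nat.prime_two⟩
  obtain ⟨h1, h2⟩ := Cfsg.Agent.S1137.result hsz
  obtain ⟨h3, h4, -, -⟩ := Cfsg.Agent.S1138.result hsz
  refine H13.normal_top_of_no_essential hS hF fun P hP => ?_
  have hPS : P ≤ S := hP.1.1
  set Z : Subgroup Ω := (Subgroup.center ↥S).map S.subtype with hZ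
  have hmemZ : ∀ x (hx : x ∈ S), x ∈ Z ↔ (⟨x, hx⟩ : S) ∈ Subgroup.center ↥S := by
    intro x hx
    constructor
    · rintro ⟨y, hy, hyx⟩
      have : y = ⟨x, hx⟩ := Subtype.ext hyx
      rwa [← this]
    · intro h; exact ⟨_, h, rfl⟩
  have hZS : Z ≤ S := by rintro _ ⟨y, -, rfl⟩; exact y.2
  have hZc : ∀ z ∈ Z, ∀ s ∈ S, s * z = z * s := by
    rintro _ ⟨y, hy, rfl⟩ s hs
    have := Subgroup.mem_center_iff.1 hy ⟨s, hs⟩
    exact congrArg Subtype.val this
  have hZP : Z ≤ P := by
    intro z hz
    refine centric_centralizer hP.1 (mem_centralizerIn.2 ⟨hZS hz, fun y hy => ?_⟩)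
    exact (hZc z hz y (hPS hy)).symm
  have hZiff : ∀ x ∈ S, x ∈ Z ↔ x * x = 1 := by
    intro x hx
    rw [hmemZ x hx]
    constructor
    · intro h
      exact congrArg Subtype.val (h2 _ h)
    · intro h
      by_cases hx1 : x = 1
      · subst hx1; exact Subgroup.one_mem _
      · exact ((h1 ⟨x, hx⟩).1 ⟨fun h' => hx1 (congrArg Subtype.val h'), Subtype.ext h⟩).1
  have hcomm : ∀ x ∈ S, ∀ s ∈ S, x⁻¹ * (s * x * s⁻¹) ∈ Z := by
    intro x hx s hs
    have h5 := h4 ⟨x, hx⟩ (⟨s, hs⟩⁻¹)
    have h6 : x⁻¹ * (s * x * s⁻¹) ∈ S := mul_mem (S.inv_mem hx) (mul_mem (mul_mem hs hx) (S.inv_mem hs))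
    rw [hmemZ _ h6]
    convert h5 using 1
    apply Subtype.ext
    simp [mul_assoc]
  refine H13.essential_false_of_chain hS hF hP (D₁ := P) le_rfl (fun α _ _ h => ?_)
    (fun j => if j = 0 then ⊥ else if j = 1 then Z else P) 2 (by simp) (by simp) ?_ ?_ ?_
  · exact mulAut_ext fun x hx => by rw [h x hx, autFun_one hx]
  · intro j
    by_cases hj : j = 0
    · simp [hj]
    · by_cases hj1 : j = 1
      · simp [hj1, hZP]
      · simp [hj, hj1]
  · intro j α hα x hx
    by_cases hj : j = 0
    · simp only [hj, if_true] at hx ⊢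
      rw [Subgroup.mem_bot] at hx ⊢
      rw [hx]
      exact (mor_autFun hPS hα).one
    · by_cases hj1 : j = 1
      · simp only [hj1, if_true, one_ne_zero, if_false] at hx ⊢
        have hxP := hZP hx
        rw [hZiff _ (hPS (autFun_mem α hxP)), ← (mor_autFun hPS hα).mul hxP hxP,
          (hZiff x (hPS hxP)).1 hx]
        exact (mor_autFun hPS hα).one
      · simp only [hj, hj1, if_false] at hx ⊢
        exact autFun_mem α hx
  · intro s hs hsN j x hx
    by_cases hj : j = 0
    · subst hj
      simp only [zero_add, one_ne_zero, if_false, if_true] at hx ⊢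
      rw [Subgroup.mem_bot, hZc x hx s hs]; group
    · by_cases hj1 : j = 1
      · subst hj1
        simp only [one_ne_zero, if_false, if_true] at hx ⊢
        have hxP : x ∈ P := by simpa using hx
        exact hcomm x (hPS hxP) s hs
      · have hj2 : j + 1 ≠ 0 := by omega
        have hj3 : j + 1 ≠ 1 := by omega
        simp only [hj, hj1, hj2, hj3, if_false] at hx ⊢
        exact mul_mem (P.inv_mem hx) ((Subgroup.mem_normalizer_iff.1 hsN x).1 hx)

end Cfsg.Agent.S5214
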