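import Cfsg.Statements.S5219
import Cfsg.Agent.H28.GCtl6

set_option autoImplicit false
open Cfsg

namespace Cfsg.Agent.S5219

open Cfsg.FusionSystem Cfsg.Agent.H28

/-- Let p be a prime, n a natural number, S a nontrivial finite p-group of nilpotence class at most n(p−1)+1, and F a saturated fusion system over S with no nontrivial normal subgroup (O_p(F) = 1). Then S has exponent dividing p^(n²(p−1)+n). -/
theorem result {Ω : Type*} [Group Ω] {S : Subgroup Ω} [Finite S] (p : ℕ) [Fact p.Prime] (hS : IsPGroup p S) (F : Cfsg.FusionSystem S) (hF : F.IsSaturated p) (n : ℕ) (hS1 : S ≠ ⊥) (hcl : Subgroup.lowerCentralSeries S (n * (p - 1) + 1) = ⊥) (hcore : F.core = ⊥) : Monoid.exponent ↥S ∣ p ^ (n ^ 2 * (p - 1) + n) := by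
  have h1 : F.IsNormal (pz p n S) := pz_isNormal hS hF hcl
  have h2 : pz p n S = ⊥ := by
    rw [eq_bot_iff, ← hcore]; exact le_core h1
  have h3 : (⊤ : Subgroup S).lowerCentralSeries (n * (p - 1) + 1) = ⊥ := by
    rw [← Subgroup.map_subtype_inj, Subgroup.map_bot, Subgroup.top_subtype_lowerCentralSeries, hcl]
  have h4 : ∀ z ∈ Subgroup.center ↥S, z ^ p ^ n = 1 := by
    intro z hz
    have h5 : ((z ^ p ^ n : S) : Ω) ∈ pz p n S := mem_pz.2 ⟨z, z.2, fun s hs =>
      congrArg Subtype.val (Subgroup.mem_center_iff.1 hz ⟨s, hs⟩), rfl⟩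
    rw [h2, Subgroup.mem_bot] at h5
    exact Subtype.ext h5
  have h5 := pow_eq_one_of_center _ ↥S h3 h4
  rw [Monoid.exponent_dvd_iff_forall_pow_eq_one]
  intro x
  have h6 := h5 x
  rw [← pow_mul] at h6
  have h7 : n * (n * (p - 1) + 1) = n ^ 2 * (p - 1) + n := by ring
  rwa [h7] at h6
end Cfsg.Agent.S5219
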