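import Cfsg.Statements.S5220
import Cfsg.Agent.H28.GCtl5

set_option autoImplicit false
open Cfsg

namespace Cfsg.Agent.S5220

open Cfsg.FusionSystem Cfsg.Agent.H28

/-- Let F be a saturated fusion system over a nontrivial finite p-group S, let J(S) be the subgroup generated by the abelian subgroups of S of largest order, and let V be the subgroup generated by the p-th powers of the elements of Z(S). Then F is generated by the centralizer fusion system of V and the normalizer fusion system of J(S): every fusion system over S containing the maps of both contains every map of F. -/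
theorem result {Ω : Type*} [Group Ω] {S : Subgroup Ω} [Finite S] (p : ℕ) [Fact p.Prime] (hS : IsPGroup p S) (F : Cfsg.FusionSystem S) (hF : F.IsSaturated p) (hS1 : S ≠ ⊥) (C : Cfsg.FusionSystem (Cfsg.FusionSystem.centralizerIn S (Cfsg.powerClosure p 1 (S ⊓ Subgroup.centralizer (S : Set Ω))))) (hC : F.IsCentralizerSystem (Cfsg.powerClosure p 1 (S ⊓ Subgroup.centralizer (S : Set Ω))) C) (N : Cfsg.FusionSystem (Cfsg.FusionSystem.normalizerIn S (Cfsg.thompsonSubgroupAOf S))) (hN : F.IsNormalizerSystem (Cfsg.thompsonSubgroupAOf S) N) (E : Cfsg.FusionSystem S) (hCE : C.IsSubsystemOf E) (hNE : N.IsSubsystemOf E) : F.IsSubsystemOf E := by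
  have hV : pz p 1 S ≤ S := pz_le
  have hJ := JA_le S
  have hCS : centralizerIn S (pz p 1 S) = S := le_antisymm centralizerIn_le fun s hs =>
    mem_centralizerIn.2 ⟨hs, fun y hy => pz_comm y hy s hs⟩
  have hNS : normalizerIn S (Cfsg.thompsonSubgroupAOf S) = S :=
    normalizerIn_eq (char_le_normalizerIn hJ (JA_characteristic S))
  refine subsystem_iff.2 (le_iff_mor.1 (le_of_condJ (E := E) hS hF ⟨?_, ?_⟩))
  · rintro X f ⟨hf, g, hg, h1, h2⟩
    refine subsystem_iff.1 hCE X f ?_
    rw [eq_centSys hV hC]
    refine mor_centSys.2 ⟨?_, fun x hx => ?_, g, hg, h1, h2⟩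
    · exact hf.le.trans hCS.ge
    · exact hCS.ge (hf.mem hx)
  · rintro X f ⟨hf, g, hg, h1, h2⟩
    refine subsystem_iff.1 hNE X f ?_
    rw [eq_normSys hJ hN]
    refine mor_normSys.2 ⟨?_, fun x hx => ?_, g, hg, h1, h2⟩
    · exact hf.le.trans hNS.ge
    · exact hNS.ge (hf.mem hx)
end Cfsg.Agent.S5220
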