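import Cfsg.Statements.S5225
import Cfsg.Agent.H28.Yosh3

set_option autoImplicit false
open Cfsg

namespace Cfsg.Agent.S5225

open Cfsg.FusionSystem Cfsg.Agent.H28

/-- Yoshida's Theorem for fusion systems. Let F be a saturated fusion system over a finite p-group S and N the normalizer fusion system of S in F. If the focal subgroups of F and N differ (N does not control transfer in F), then S has a quotient isomorphic to the wreath product C_p ≀ C_p (realised as a Sylow p-subgroup of the symmetric group of degree p²). -/
theorem result {Ω : Type*} [Group Ω] {S : Subgroup Ω} [Finite S] (p : ℕ) [Fact p.Prime] (hS : IsPGroup p S) (F : Cfsg.FusionSystem S) (hF : F.IsSaturated p) (N : Cfsg.FusionSystem (Cfsg.FusionSystem.normalizerIn S S)) (hN : F.IsNormalizerSystem S N) (hne : N.focalSubgroup ≠ F.focalSubgroup) : ∃ (W : Sylow p (Equiv.Perm (Fin (p ^ 2)))) (f : ↥S →* ↥(W : Subgroup (Equiv.Perm (Fin (p ^ 2))))), Function.Surjective f := by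
  classical
  have hn : S ≤ Subgroup.normalizer (S : Set Ω) := Subgroup.le_normalizer
  set H := normS F S le_rfl hn with hH
  have hfocH : H.focalSubgroup = N.focalSubgroup := by
    rw [eq_normSys le_rfl hN]
    exact castSys_prop (fun _ E => E.focalSubgroup = (normSys F S le_rfl).focalSubgroup)
      (normalizerIn_eq hn) rfl
  refine yoshida (H := H) hS hF (fun P f hf => le_iff_mor.1 normS_le P f hf) ?_ ?_
  · intro f hf
    refine mor_normS.2 ⟨le_rfl, f, by rwa [sup_idem], fun _ _ => rfl, ?_⟩
    apply eq_of_le_of_card
    · rw [img_le_iff]; exact fun x hx => hf.mem hx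
    · rw [hf.card_img]
  · intro hle
    apply hne
    rw [← hfocH]
    exact le_antisymm (foc_mono' fun P f hf => le_iff_mor.1 normS_le P f hf) hle
end Cfsg.Agent.S5225
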