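import Cfsg.Statements.S5226
import Cfsg.Agent.H13.FusMore

set_option autoImplicit false
set_option linter.all false
open Cfsg
open Cfsg.Agent.H28

namespace Cfsg.Agent.S5226

open Cfsg.Agent

/-- Let F be a saturated fusion system over a finite p-group S and Q a subgroup of S. Then Q is normal in F (F equals the normalizer system of Q) if and only if Q is strongly closed in F and admits a central series 1 = Q₀ ≤ Q₁ ≤ ⋯ ≤ Qₙ = Q ([Qᵢ₊₁, Q] ≤ Qᵢ) all of whose proper terms are weakly closed in F. -/
theorem result {Ω : Type*} [Group Ω] {S : Subgroup Ω} [Finite S] (p : ℕ) [Fact p.Prime] (hS : IsPGroup p S) (F : Cfsg.FusionSystem S) (hF : F.IsSaturated p) (Q : Subgroup Ω) : F.IsNormal Q ↔ F.StronglyClosed Q ∧ ∃ (n : ℕ) (C : Fin (n + 1) → Subgroup Ω), C 0 = ⊥ ∧ C (Fin.last n) = Q ∧ Monotone C ∧ (∀ i : Fin n, ⁅C i.succ, Q⁆ ≤ C i.castSucc) ∧ ∀ i : Fin n, F.WeaklyClosed (C i.castSucc) := by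
  constructor
  · intro hQ
    have hQS := hQ.1
    have : Finite Q := finite_of_le hQS
    obtain ⟨n, hn⟩ := exists_lcs_eq_bot (hS.to_le hQS)
    refine ⟨normal_stronglyClosed hQ, n, fun i => Q.lowerCentralSeries (n - i), by simpa using hn,
      by simp, ?_, ?_, ?_⟩
    · intro i j hij
      apply Q.lowerCentralSeries_antitone
      have : (i : ℕ) ≤ j := hij
      omega
    · intro i
      have h1 : n - (Fin.castSucc i : ℕ) = n - (Fin.succ i : ℕ) + 1 := by
        have := i.2
        simp only [Fin.val_castSucc, Fin.val_succ]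
        omega
      show ⁅Q.lowerCentralSeries (n - (Fin.succ i : ℕ)), Q⁆ ≤
        Q.lowerCentralSeries (n - (Fin.castSucc i : ℕ))
      rw [h1, Subgroup.lowerCentralSeries_succ]
    · intro i
      have h1 := normal_stronglyClosed (normal_of_characteristic hQ
        (Q.lowerCentralSeries_le_self (n - (Fin.castSucc i : ℕ))) (lcs_characteristic Q _))
      exact weaklyClosed_iff.2 ⟨h1.1, fun f hf => img_sc_eq h1 hf le_rfl⟩
  · rintro ⟨hsc, n, Qs, h0, hn, hm, hc, hw⟩
    refine H13.normal_of_weak_series hS hF hsc n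
      (fun j => if hj : j < n + 1 then Qs ⟨j, hj⟩ else ⊥) ?_ ?_ ?_ ?_ ?_
    · simpa using h0
    · have h1 : n < n + 1 := by omega
      rw [dif_pos h1]
      exact hn
    · intro i hi
      have h2 : i < n + 1 := by omega
      have h3 : Qs ⟨i, h2⟩ ≤ Qs (Fin.last n) := hm (Fin.le_last _)
      rw [hn] at h3
      simpa [h2] using h3
    · intro i hi
      have := hw ⟨i, hi⟩
      have h2 : i < n + 1 := by omega
      simpa [h2] using this
    · intro i hi
      have := hc ⟨i, hi⟩
      have h2 : i < n + 1 := by omega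
      simpa [hi, h2] using this

end Cfsg.Agent.S5226
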