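import Cfsg.Statements.S5233
import Cfsg.Agent.H28.GES3
import Cfsg.Agent.S0206
import Cfsg.Agent.H2.Frat

set_option autoImplicit false
open Cfsg

namespace Cfsg.Agent.S5233

open Cfsg.FusionSystem Cfsg.Agent.H28

theorem map_commutator_eq {Ω : Type*} [Group Ω] (S : Subgroup Ω) :
    (commutator ↥S).map S.subtype = ⁅S, S⁆ := by
  rw [commutator_def, Subgroup.map_commutator, ← MonoidHom.range_eq_map, Subgroup.range_subtype]

theorem gx_of {Ω : Type*} [Group Ω] {P : Subgroup Ω} [Finite P] {p : ℕ} [Fact p.Prime] (hP : IsPGroup p P)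
    (hge : frattini ↥P = commutator ↥P ∧ Nat.card ↥(commutator ↥P) = p) : GX p P := by
  have hcard : Nat.card (⁅P, P⁆ : Subgroup Ω) = p := by
    rw [← map_commutator_eq, ← hge.2]
    exact (Nat.card_congr ((commutator ↥P).equivMapOfInjective _ (Subgroup.subtype_injective P)).toEquiv).symm
  refine ⟨hcard, ?_, ?_⟩
  · intro a ha
    rw [← map_commutator_eq, ← hge.1]
    exact ⟨_, H2.pow_mem_frattini hP ⟨a, ha⟩, rfl⟩
  · intro z hz a ha
    refine central_of_card_prime hP GX.le hcard ?_ ha hz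
    intro s hs
    have : Finite (⁅P, P⁆ : Subgroup Ω) := finite_of_le GX.le
    apply mem_normalizer_of_finite
    intro w hw
    have h1 := comm_mem_P hs (GX.le hw)
    have h2 := mul_mem h1 hw
    rwa [inv_mul_cancel_right] at h2

/-- The small copy of a finite group. -/
noncomputable def shr (X : Type*) [Group X] [Finite X] : Shrink.{0} X ≃* X := Shrink.mulEquiv.{0}

theorem dih_of {Ω : Type*} [Group Ω] {g z : Ω} (hg : g ^ 2 = 1) (hz : z ^ 2 = 1) (hgz : g * z ≠ z * g)
    (hc : Nat.card (Subgroup.closure ({g, z} : Set Ω)) = 2 ^ 3) :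
    Nonempty (Subgroup.closure ({g, z} : Set Ω) ≃* DihedralGroup 4) := by
  obtain ⟨E, hE⟩ : ∃ E, E = Subgroup.closure ({g, z} : Set Ω) := ⟨_, rfl⟩
  rw [← hE] at hc ⊢
  have hgE : g ∈ E := by rw [hE]; exact Subgroup.subset_closure (by simp)
  have hzE : z ∈ E := by rw [hE]; exact Subgroup.subset_closure (by simp)
  have hfin : Finite E := Nat.finite_of_card_ne_zero (by rw [hc]; norm_num)
  have hg1 : g ≠ 1 := by rintro rfl; exact hgz (by simp)
  have hz1 : z ≠ 1 := by rintro rfl; exact hgz (by simp)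
  obtain ⟨e⟩ := S0206.result (⟨g, hgE⟩ : E) ⟨z, hzE⟩
    (orderOf_eq_prime (Subtype.ext hg) (fun h => hg1 (congrArg Subtype.val h)))
    (orderOf_eq_prime (Subtype.ext hz) (fun h => hz1 (congrArg Subtype.val h)))
    (fun h => hgz (by rw [show g = z from congrArg Subtype.val h]))
  have htop : Subgroup.closure ({(⟨g, hgE⟩ : E), ⟨z, hzE⟩} : Set E) = ⊤ := by
    rw [eq_top_iff]
    rintro ⟨x, hx⟩ -
    have h3 : (Subgroup.closure ({(⟨g, hgE⟩ : E), ⟨z, hzE⟩} : Set E)).map E.subtype = E := by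
      rw [MonoidHom.map_closure, Set.image_pair]; exact hE.symm
    have h4 := hx
    rw [← h3] at h4
    obtain ⟨y, hy, hyx⟩ := h4
    rwa [← Subtype.ext (a1 := y) (a2 := ⟨x, hx⟩) hyx]
  rw [htop] at e
  have e' := Subgroup.topEquiv.symm.trans e
  have h4 := Nat.card_congr e'.toEquiv
  rw [hc, DihedralGroup.nat_card] at h4
  have h5 : orderOf ((⟨g, hgE⟩ : E) * ⟨z, hzE⟩) = 4 := by omega
  rw [h5] at e'
  exact ⟨e'⟩

/-- Let F be a saturated fusion system over a finite p-group S and P a subgroup of S strongly closed in F that is generalized extraspecial (its Frattini subgroup equals its commutator subgroup and has order p) and not isomorphic to E × A with A elementary abelian and E dihedral of order 8 (p = 2) or extraspecial of order p³ and exponent p (p odd). Then P is normal in F. -/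
theorem result {Ω : Type*} [Group Ω] {S : Subgroup Ω} [Finite S] (p : ℕ) [Fact p.Prime] (hS : IsPGroup p S) (F : Cfsg.FusionSystem S) (hF : F.IsSaturated p) (P : Subgroup Ω) (hP : F.StronglyClosed P) (hge : frattini ↥P = commutator ↥P ∧ Nat.card ↥(commutator ↥P) = p) (h2 : p = 2 → ¬ ∃ (A : Type) (_ : CommGroup A), (∀ a : A, a ^ 2 = 1) ∧ Nonempty (↥P ≃* DihedralGroup 4 × A)) (hodd : p ≠ 2 → ¬ ∃ (E : Type) (_ : Group E) (A : Type) (_ : CommGroup A), Cfsg.IsExtraspecial p E ∧ Nat.card E = p ^ 3 ∧ Monoid.exponent E = p ∧ (∀ a : A, a ^ p = 1) ∧ Nonempty (↥P ≃* E × A)) : F.IsNormal P := by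
  have hPS := hP.1
  haveI : Finite P := finite_of_le hPS
  have h := gx_of (hS.to_le hPS) hge
  by_contra hn
  obtain ⟨R, z₁, hRP, hRc, hRe, hz₁, hz, hexp⟩ := ges_main hS hF h hP hn
  have hp := (Fact.out : p.Prime)
  obtain ⟨g, hg, hgz, hgp⟩ : ∃ g ∈ P, g * z₁ ≠ z₁ * g ∧ g ^ p = 1 := by
    obtain ⟨g₀, hg₀, hgz₀⟩ : ∃ g ∈ P, g * z₁ ≠ z₁ * g := by
      by_contra hcon
      push Not at hcon
      obtain ⟨a, ha, b, hb, hab⟩ := h.exists_comm
      apply hab
      rw [hRc a (hz a ha (hcon a ha)) b (hz b hb (hcon b hb))]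
      group
    by_cases hp2 : p = 2
    · by_cases h2g : g₀ ^ p = 1
      · exact ⟨g₀, hg₀, hgz₀, h2g⟩
      · obtain ⟨c, hc⟩ : ∃ c, c = g₀ * z₁ * g₀⁻¹ * z₁⁻¹ := ⟨_, rfl⟩
        have hcZ : c ∈ ⁅P, P⁆ := hc ▸ comm_mem_P hg₀ (hRP hz₁)
        have hsq : g₀ ^ p ∈ ⁅P, P⁆ := h.pw g₀ hg₀
        have hc1 : c ≠ 1 := by
          intro h1
          rw [hc, mul_inv_eq_one, mul_inv_eq_iff_eq_mul] at h1
          exact hgz₀ h1
        haveI : Finite (⁅P, P⁆ : Subgroup Ω) := finite_of_le GX.le
        have hcc : c * c = 1 := by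
          have h4 : (⟨c, hcZ⟩ : (⁅P, P⁆ : Subgroup Ω)) ^ Nat.card (⁅P, P⁆ : Subgroup Ω) = 1 := pow_card_eq_one'
          rw [h.card] at h4
          have h5 : c ^ p = 1 := congrArg Subtype.val h4
          rw [hp2, sq] at h5
          exact h5
        have heq : g₀ ^ p = c := by
          obtain ⟨k, hk⟩ := mem_zpowers_of_card h.card hcZ hc1 hsq
          rcases Int.even_or_odd' k with ⟨j, rfl | rfl⟩
          · exfalso; apply h2g
            rw [← hk, zpow_mul, show c ^ (2 : ℤ) = c * c from by rw [zpow_ofNat, sq], hcc, one_zpow]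
          · rw [← hk, zpow_add, zpow_mul, show c ^ (2 : ℤ) = c * c from by rw [zpow_ofNat, sq], hcc, one_zpow,
              one_mul, zpow_one]
        refine ⟨g₀ * z₁, mul_mem hg₀ (hRP hz₁), ?_, ?_⟩
        · intro h1
          apply hgz₀
          rw [← mul_assoc] at h1
          exact mul_right_cancel h1
        · have h1 : g₀ * z₁ = c * z₁ * g₀ := by rw [hc]; group
          have hzz : z₁ * z₁ = 1 := by
            have := hRe z₁ hz₁
            rwa [hp2, sq] at this
          have hgg : g₀ * g₀ = c := by rw [← heq, hp2, sq]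
          have hcz : z₁ * c = c * z₁ := h.cen c hcZ z₁ (hRP hz₁)
          rw [hp2, sq]
          calc g₀ * z₁ * (g₀ * z₁) = c * z₁ * (g₀ * g₀) * z₁ := by
                nth_rewrite 1 [h1]; group
            _ = c * (z₁ * c) * z₁ := by rw [hgg]; group
            _ = c * c * (z₁ * z₁) := by rw [hcz]; group
            _ = 1 := by rw [hcc, hzz, one_mul]
    · exact ⟨g₀, hg₀, hgz₀, hexp hp2 g₀ hg₀⟩
  have hgR : g ∉ R := fun hgR => hgz (hRc g hgR z₁ hz₁)
  obtain ⟨A, hAP, hAe, hAc, hEc, ⟨e⟩⟩ := h.decomp hRP hRc hRe hz₁ hz hg hgR hgp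
  haveI hAf : Finite A := finite_of_le hAP
  obtain ⟨E, hE⟩ : ∃ E, E = Subgroup.closure ({g, z₁} : Set Ω) := ⟨_, rfl⟩
  have hEP : E ≤ P := by
    rw [hE, Subgroup.closure_le]
    rintro x (rfl | rfl)
    · exact hg
    · exact hRP hz₁
  haveI hEf : Finite E := finite_of_le hEP
  letI : CommGroup A := cg hAc
  by_cases hp2 : p = 2
  · refine h2 hp2 ⟨Shrink.{0} A, inferInstance, ?_, ?_⟩
    · intro a
      apply (shr A).injective
      rw [map_pow, map_one]
      apply Subtype.ext
      have := hAe _ ((shr A) a).2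
      rw [hp2] at this
      exact this
    · obtain ⟨e2⟩ := dih_of (by rw [← hp2]; exact hgp) (by rw [← hp2]; exact hRe z₁ hz₁) hgz (by rw [hEc, hp2])
      exact ⟨e.trans (MulEquiv.prodCongr e2 (shr A).symm)⟩
  · rw [← hE] at hEc e
    have hEx : ∀ x ∈ E, x ^ p = 1 := fun x hx => hexp hp2 x (hEP hx)
    have hEn : ¬ IsMulCommutative (Shrink.{0} E) := by
      intro hcon
      apply hgz
      have h1 : (⟨g, by rw [hE]; exact Subgroup.subset_closure (by simp)⟩ : E) *
          ⟨z₁, by rw [hE]; exact Subgroup.subset_closure (by simp)⟩ =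
          ⟨z₁, by rw [hE]; exact Subgroup.subset_closure (by simp)⟩ *
          ⟨g, by rw [hE]; exact Subgroup.subset_closure (by simp)⟩ := by
        apply (shr E).symm.injective
        rw [map_mul, map_mul]
        exact hcon.is_comm.comm _ _
      exact congrArg Subtype.val h1
    have hcardE : Nat.card (Shrink.{0} E) = p ^ 3 := by
      rw [Nat.card_congr (shr E).toEquiv]; exact hEc
    haveI : Finite (Shrink.{0} E) := Nat.finite_of_card_ne_zero (by rw [hcardE]; exact pow_ne_zero _ hp.ne_zero)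
    refine hodd hp2 ⟨Shrink.{0} E, inferInstance, Shrink.{0} A, inferInstance,
      H19.extraspecial_of_card_cube hcardE hEn, hcardE, ?_, ?_, ?_⟩
    · have h1 : Monoid.exponent (Shrink.{0} E) ∣ p := by
        apply Monoid.exponent_dvd_of_forall_pow_eq_one
        intro a
        apply (shr E).injective
        rw [map_pow, map_one]
        exact Subtype.ext (hEx _ ((shr E) a).2)
      rcases (Nat.dvd_prime hp).1 h1 with h2 | h2
      · exfalso
        rw [Monoid.exp_eq_one_iff] at h2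
        have : Nat.card (Shrink.{0} E) = 1 := Nat.card_eq_one_iff_unique.2 ⟨h2, ⟨1⟩⟩
        rw [hcardE] at this
        have h3 := hp.one_lt
        have h4 : 1 < p ^ 3 := Nat.one_lt_pow (by norm_num) h3
        omega
      · exact h2
    · intro a
      apply (shr A).injective
      rw [map_pow, map_one]
      exact Subtype.ext (hAe _ ((shr A) a).2)
    · exact ⟨e.trans (MulEquiv.prodCongr (shr E).symm (shr A).symm)⟩
end Cfsg.Agent.S5233
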