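import Cfsg.Statements.S5236
import Cfsg.Agent.H13.FusMore2

set_option autoImplicit false
set_option linter.all false
open Cfsg
open Cfsg.Agent.H28 Cfsg.FusionSystem

namespace Cfsg.Agent.S5236

open Cfsg.Agent

/-- Let p be an odd prime, F a saturated fusion system over a finite p-group S and P a subgroup of S strongly closed in F. Then P is normal in F if and only if Ω₁(P) (the subgroup generated by the elements of order p of P) has a chain of subgroups 1 = Q₀ ≤ Q₁ ≤ ⋯ ≤ Qₙ = Ω₁(P), each strongly closed in F, with [Qᵢ₊₁, P] ≤ Qᵢ for all i. -/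
theorem result {Ω : Type*} [Group Ω] {S : Subgroup Ω} [Finite S] (p : ℕ) [Fact p.Prime] (hS : IsPGroup p S) (F : Cfsg.FusionSystem S) (hF : F.IsSaturated p) (hp : p ≠ 2) (P : Subgroup Ω) (hP : F.StronglyClosed P) : F.IsNormal P ↔ ∃ (n : ℕ) (Q : Fin (n + 1) → Subgroup Ω), Q 0 = ⊥ ∧ Q (Fin.last n) = Cfsg.omegaOne p P ∧ Monotone Q ∧ (∀ i : Fin (n + 1), F.StronglyClosed (Q i)) ∧ ∀ i : Fin n, ⁅Q i.succ, P⁆ ≤ Q i.castSucc := by
  have hWP : omegaOne p P ≤ P := by
    unfold omegaOne
    rw [Subgroup.closure_le]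
    exact fun x hx => hx.1
  constructor
  · intro hPn
    have hPS := hP.1
    have hPfin : Finite P := finite_of_le hPS
    obtain ⟨n, hn⟩ := H13.exists_ucs_eq (hS.to_le hPS)
    have hmono : ∀ i, H13.ucs P i ≤ H13.ucs P (i + 1) := by
      intro i
      unfold H13.ucs
      exact Subgroup.map_mono (Subgroup.upperCentralSeries_mono _ (Nat.le_succ i))
    have hmono' : ∀ i j, i ≤ j → H13.ucs P i ≤ H13.ucs P j := by
      intro i j hij
      unfold H13.ucs
      exact Subgroup.map_mono (Subgroup.upperCentralSeries_mono _ hij)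
    have hWα : ∀ α : MulAut P, ∀ x ∈ omegaOne p P, autFun α x ∈ omegaOne p P := by
      intro α x hx
      have hx' : x ∈ Subgroup.closure {x : Ω | x ∈ P ∧ x ^ p = 1} := hx
      have hmul : ∀ x ∈ P, ∀ y ∈ P, autFun α (x * y) = autFun α x * autFun α y := by
        intro x hx y hy
        rw [autFun_apply α hx, autFun_apply α hy, autFun_apply α (P.mul_mem hx hy)]
        have : (⟨x * y, P.mul_mem hx hy⟩ : P) = ⟨x, hx⟩ * ⟨y, hy⟩ := rfl
        rw [this, map_mul]; rfl
      have hone : autFun α (1 : Ω) = 1 := by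
        rw [autFun_apply α P.one_mem]
        have : (⟨1, P.one_mem⟩ : P) = 1 := rfl
        rw [this, map_one]; rfl
      induction hx' using Subgroup.closure_induction with
      | mem y hy =>
        apply Subgroup.subset_closure
        refine ⟨autFun_mem _ hy.1, ?_⟩
        rw [autFun_apply α hy.1]
        have h1 : (⟨y, hy.1⟩ : P) ^ p = 1 := Subtype.ext hy.2
        have h2 : (α ⟨y, hy.1⟩) ^ p = 1 := by rw [← map_pow, h1, map_one]
        exact congrArg Subtype.val h2
      | one => rw [hone]; exact Subgroup.one_mem _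
      | mul y z hy hz ihy ihz =>
        rw [hmul y (hWP hy) z (hWP hz)]
        exact Subgroup.mul_mem _ (ihy hy) (ihz hz)
      | inv y hy ih =>
        have h1 := hmul y (hWP hy) y⁻¹ (P.inv_mem (hWP hy))
        rw [mul_inv_cancel, hone] at h1
        rw [← inv_eq_of_mul_eq_one_right h1.symm]
        exact Subgroup.inv_mem _ (ih hy)
    refine ⟨n, fun i => omegaOne p P ⊓ H13.ucs P i, ?_, ?_, ?_, ?_, ?_⟩
    · show omegaOne p P ⊓ H13.ucs P 0 = ⊥
      rw [H13.ucs_zero, inf_bot_eq]
    · show omegaOne p P ⊓ H13.ucs P n = _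
      rw [hn, inf_eq_left]; exact hWP
    · intro i j hij
      exact inf_le_inf le_rfl (hmono' _ _ hij)
    · intro i
      exact H13.sc_of_char hPn (inf_le_left.trans hWP) fun α x hx =>
        ⟨hWα α x hx.1, H13.ucs_autFun α hx.2⟩
    · intro i
      rw [Subgroup.commutator_le]
      intro x hx s hs
      have hx1 : x ∈ omegaOne p P := hx.1
      have hx2 : x ∈ H13.ucs P (i.val + 1) := by
        have := hx.2
        simpa using this
      have h1 := H13.ucs_comm ((H13.ucs P (i.val + 1)).inv_mem hx2) hs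
      have hsc := H13.sc_of_char hPn hWP hWα
      have h2 := sc_conj hsc (hPS hs) ((omegaOne p P).inv_mem hx1)
      have e : x⁻¹⁻¹ * (s * x⁻¹ * s⁻¹) = x * s * x⁻¹ * s⁻¹ := by simp [mul_assoc]
      rw [e] at h1
      refine ⟨?_, h1⟩
      have e2 : x * s * x⁻¹ * s⁻¹ = x * (s * x⁻¹ * s⁻¹) := by simp [mul_assoc]
      show x * s * x⁻¹ * s⁻¹ ∈ omegaOne p P
      rw [e2]; exact (omegaOne p P).mul_mem hx1 h2
  · rintro ⟨n, Qs, h0, hn, hm, hsc, hc⟩
    refine H13.normal_of_omega_series hS hF hp hP n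
      (fun j => if hj : j < n + 1 then Qs ⟨j, hj⟩ else ⊥) ?_ ?_ ?_ ?_ ?_
    · simpa using h0
    · have h1 : n < n + 1 := by omega
      rw [dif_pos h1]
      exact hn
    · intro i hi
      have h2 : i < n + 1 := by omega
      have := hsc ⟨i, h2⟩
      simpa [h2] using this
    · intro i hi
      have h2 : i < n + 1 := by omega
      have h3 : Qs ⟨i, h2⟩ ≤ Qs (Fin.last n) := hm (Fin.le_last _)
      have h1 : n < n + 1 := by omega
      rw [dif_pos h2, dif_pos h1]
      exact h3
    · intro i hi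
      have := hc ⟨i, hi⟩
      have h2 : i < n + 1 := by omega
      simpa [hi, h2] using this

end Cfsg.Agent.S5236
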