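import Cfsg.Statements.S5243
import Cfsg.Agent.H28.PChar2

set_option autoImplicit false
open Cfsg

namespace Cfsg.Agent.S5243

open Cfsg.FusionSystem Cfsg.Agent.H28

theorem pow_eq_one_of_coprime {Δ : Type*} [Group Δ] [Finite Δ] {p : ℕ} [Fact p.Prime] (hΔ : (Nat.card Δ).Coprime p)
    {δ : Δ} {k : ℕ} (h : δ ^ p ^ k = 1) : δ = 1 := by
  have h1 : orderOf δ ∣ p ^ k := orderOf_dvd_of_pow_eq_one h
  have h2 : orderOf δ ∣ Nat.card Δ := orderOf_dvd_natCard δ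
  have h3 : orderOf δ ∣ 1 := by
    have h4 := Nat.dvd_gcd h2 h1
    rwa [Nat.Coprime.gcd_eq_one (Nat.Coprime.pow_right k hΔ)] at h4
  exact orderOf_eq_one_iff.1 (Nat.dvd_one.1 h3)

/-- Let F be a saturated fusion system over a finite p-group S, E a normal subsystem of F over T ≤ S, and χ a surjective homomorphism from Aut_F(T) onto a nontrivial finite group Δ of order prime to p whose kernel contains Aut_E(T). Then there is a proper normal subsystem F₀ of F over S containing E such that Aut_{F₀}(S) consists of those α ∈ Aut_F(S) whose restriction to T is an element of Aut_F(T) in the kernel of χ; moreover every p'-residual subsystem O^{p'}(F) of F is contained in F₀. -/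
theorem result {Ω : Type*} [Group Ω] {S : Subgroup Ω} [Finite S] (p : ℕ) [Fact p.Prime] (hS : IsPGroup p S) (F : Cfsg.FusionSystem S) (hF : F.IsSaturated p) {T : Subgroup Ω} (hTS : T ≤ S) (E : Cfsg.FusionSystem T) (hE : E.IsNormalIn F p) {Δ : Type*} [Group Δ] [Finite Δ] [Nontrivial Δ] (hΔ : (Nat.card Δ).Coprime p) (χ : ↥(F.autGroup T) →* Δ) (hχ : Function.Surjective χ) (hker : (E.autGroup T).subgroupOf (F.autGroup T) ≤ χ.ker) : ∃ F₀ : Cfsg.FusionSystem S, F₀.IsNormalIn F p ∧ ¬ (∀ P : Subgroup Ω, F₀.Hom P = F.Hom P) ∧ E.IsSubsystemOf F₀ ∧ (∀ α : MulAut ↥S, α ∈ F₀.autGroup S ↔ α ∈ F.autGroup S ∧ ∃ β : ↥(F.autGroup T), χ β = 1 ∧ ∀ t : ↥T, (((β : MulAut ↥T) t : ↥T) : Ω) = ((α ⟨(t : Ω), hTS t.2⟩ : ↥S) : Ω)) ∧ ∀ R : Cfsg.FusionSystem S, F.IsPPrimeResidual p R → R.IsSubsystemOf F₀ := by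
  obtain ⟨K, hK⟩ : ∃ K : Subgroup (MulAut T), K = χ.ker.map (F.autGroup T).subtype := ⟨_, rfl⟩
  have hKmem : ∀ α : MulAut T, α ∈ K ↔ ∃ h : α ∈ F.autGroup T, χ ⟨α, h⟩ = 1 := by
    intro α
    rw [hK]
    constructor
    · rintro ⟨β, hβ, rfl⟩
      exact ⟨β.2, hβ⟩
    · rintro ⟨h1, h2⟩
      exact ⟨⟨α, h1⟩, h2, rfl⟩
  have hEs : E.IsSaturated p := hE.1.1
  have hEi : E.IsInvariantIn F := hE.1.2.2
  have hEsub : ∀ P f, Mor E P f → Mor F P f := subsystem_iff.1 hEi.1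
  have hEaut : ∀ α ∈ E.autGroup T, α ∈ F.autGroup T := fun α hα =>
    (mor_autFun_iff hTS).1 (hEsub _ _ (mor_autFun le_rfl hα))
  have hKE : ∀ α ∈ E.autGroup T, α ∈ K := fun α hα => by
    rw [hKmem]
    exact ⟨hEaut α hα, hker (x := ⟨α, hEaut α hα⟩) hα⟩
  have hd : KData p F E K := by
    refine kdata_of_invariant hEi ?_ ?_ ?_ hKE
    · intro α hα
      exact ((hKmem α).1 hα).1
    · intro α hα κ hκ
      obtain ⟨h1, h2⟩ := (hKmem κ).1 hκ
      rw [hKmem]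
      refine ⟨mul_mem (mul_mem hα h1) (Subgroup.inv_mem _ hα), ?_⟩
      have h3 : (⟨α * κ * α⁻¹, mul_mem (mul_mem hα h1) (Subgroup.inv_mem _ hα)⟩ : F.autGroup T) =
        ⟨α, hα⟩ * ⟨κ, h1⟩ * ⟨α, hα⟩⁻¹ := rfl
      rw [h3, map_mul, map_mul, h2, map_inv]; simp
    · rintro α hα ⟨k, hk⟩
      rw [hKmem]
      refine ⟨hα, pow_eq_one_of_coprime hΔ (k := k) ?_⟩
      rw [← map_pow]
      have h3 : (⟨α, hα⟩ : F.autGroup T) ^ p ^ k = 1 := Subtype.ext hk
      rw [h3, map_one]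
  have hipp := kSys0_ipp hS hF hd hEs
  have hsat := hipp.saturated hS hF
  refine ⟨kSys0 hS hd, normal_of_pair hS hF hsat hipp.pair, ?_, ?_, ?_, ?_⟩
  · intro hall
    obtain ⟨δ, hδ⟩ := exists_ne (1 : Δ)
    obtain ⟨α, rfl⟩ := hχ δ
    apply hδ
    have h1 : Mor (kSys0 hS hd) T (autFun (α : MulAut T)) := by
      obtain ⟨φ, hφ, e⟩ := mor_autFun hTS α.2
      exact ⟨φ, by rw [hall]; exact hφ, e⟩
    obtain ⟨-, κ, hκ, g, hg, e⟩ := mor_kSys1.1 (kSys0_sub1 h1)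
    rw [inf_idem] at hg e
    have hTf : Finite T := finite_of_le hTS
    have hgT : img T g = T := eq_of_le_of_card hg.img_le (by rw [hg.card_img])
    obtain ⟨ε, hε, hεe⟩ := hg.exists_aut hgT
    obtain ⟨hκ1, hκ2⟩ := (hKmem κ).1 hκ
    obtain ⟨hε1, hε2⟩ := (hKmem ε).1 (hKE ε hε)
    have h2 : (α : MulAut T) = κ * ε := mulAut_ext fun x hx => by
      rw [e x hx, autFun_mul _ _ hx, hεe x hx]
    have h3 : α = ⟨κ, hκ1⟩ * ⟨ε, hε1⟩ := Subtype.ext h2
    rw [h3, map_mul, hκ2, hε2, one_mul]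
  · rw [subsystem_iff]
    exact fun P f hf => kSys0_contains hS hF hd hE hf
  · intro α
    have hTf : Finite T := finite_of_le hTS
    rw [← mor_autFun_iff le_rfl, kSys0_iff (cfam_top hd), mor_kSys1, mor_autFun_iff le_rfl]
    refine and_congr_right fun hα => ?_
    have hST : S ⊓ T = T := inf_eq_right.2 hTS
    constructor
    · rintro ⟨κ, hκ, g, hg, e⟩
      rw [hST] at hg e
      have hgT : img T g = T := eq_of_le_of_card hg.img_le (by rw [hg.card_img])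
      obtain ⟨ε, hε, hεe⟩ := hg.exists_aut hgT
      obtain ⟨hκ1, hκ2⟩ := (hKmem κ).1 hκ
      obtain ⟨hε1, hε2⟩ := (hKmem ε).1 (hKE ε hε)
      refine ⟨⟨κ, hκ1⟩ * ⟨ε, hε1⟩, by rw [map_mul, hκ2, hε2, one_mul], fun t => ?_⟩
      have h1 : autFun (κ * ε) (t : Ω) = autFun α (t : Ω) := by
        rw [autFun_mul _ _ t.2, hεe _ t.2, e _ t.2]
      rw [autFun_coe, autFun_apply _ (hTS t.2)] at h1
      exact h1
    · rintro ⟨β, hβ, h1⟩
      refine ⟨β, (hKmem _).2 ⟨β.2, hβ⟩, fun x => x, mor_self inf_le_right, fun x hx => ?_⟩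
      have h2 := h1 ⟨x, hx.2⟩
      rw [autFun_apply _ hx.2, autFun_apply _ (hTS hx.2)]
      exact h2.symm
  · intro R hR
    exact hR.2.2 _ hsat (hipp.pair.index hS hF)
end Cfsg.Agent.S5243
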