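import Cfsg.Statements.S5244
import Cfsg.Agent.H28.AbIdx8

set_option autoImplicit false
open Cfsg

namespace Cfsg.Agent.S5244

open Cfsg.FusionSystem Cfsg.Agent.H28

theorem map_commutator_eq {Ω : Type*} [Group Ω] (S : Subgroup Ω) :
    (commutator ↥S).map S.subtype = ⁅S, S⁆ := by
  rw [commutator_def, Subgroup.map_commutator, ← MonoidHom.range_eq_map, Subgroup.range_subtype]

/-- Let p be an odd prime, S a finite nonabelian p-group with a unique abelian subgroup A of index p, and F a saturated fusion system over S with no nontrivial normal subgroup (O_p(F) = 1) in which A is not F-essential. Then some subgroup Z(S)⟨x⟩ with x ∈ S outside A is F-essential, the centre Z(S) is contained in the commutator subgroup of S, and S has maximal nilpotency class (if S has order pⁿ with n ≥ 3, the term of index n − 2 of its lower central series, counting S itself as the term of index 0, is nontrivial). -/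
theorem result {Ω : Type*} [Group Ω] {S : Subgroup Ω} [Finite S] (p : ℕ) [Fact p.Prime] (hS : IsPGroup p S) (F : Cfsg.FusionSystem S) (hF : F.IsSaturated p) (hp : p ≠ 2) (hna : ¬ IsMulCommutative ↥S) (A : Subgroup Ω) (hA : A ≤ S ∧ IsMulCommutative ↥A ∧ (A.subgroupOf S).index = p) (huniq : ∀ B : Subgroup Ω, B ≤ S → IsMulCommutative ↥B → (B.subgroupOf S).index = p → B = A) (hcore : F.core = ⊥) (hAe : ¬ F.IsEssential p A) : (∃ x ∈ S, x ∉ A ∧ F.IsEssential p ((S ⊓ Subgroup.centralizer (S : Set Ω)) ⊔ Subgroup.zpowers x)) ∧ (S ⊓ Subgroup.centralizer (S : Set Ω)) ≤ (commutator ↥S).map S.subtype ∧ ∀ n : ℕ, Nat.card S = p ^ n → 3 ≤ n → Subgroup.lowerCentralSeries S (n - 2) ≠ ⊥ := by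
  have h := AbIdx.of_index hS hna hA huniq
  obtain ⟨P, hPe, hPA, hPc⟩ := h.exists_abelian hF hcore hAe
  obtain ⟨h1, h2, x, hxP, hxA, h3⟩ := h.ess_main hF hPe hPA
  have hZU := h.center_eq hF hp hcore hAe
  have hp1 := (Fact.out : p.Prime).one_lt
  haveI : Finite (centralizerIn S S) := finite_of_le centralizerIn_le
  rw [map_commutator_eq]
  refine ⟨⟨x, hPe.1.1 hxP, hxA, ?_⟩, hZU, ?_⟩
  · rcases h3 with ⟨-, -, h4⟩ | ⟨h4, -⟩
    · have h5 : P = (S ⊓ Subgroup.centralizer (S : Set Ω)) ⊔ Subgroup.zpowers x := h4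
      rw [← h5]; exact hPe
    · exact absurd hPc h4
  · intro n hn hn3 hbot
    obtain ⟨k, rfl⟩ : ∃ k, n = k + 3 := ⟨n - 3, by omega⟩
    rw [inf_eq_left.2 hZU] at h1
    have h6 : Nat.card (⁅S, S⁆ : Subgroup Ω) = p ^ (k + 1) := by
      have h7 : p ^ 2 * Nat.card (⁅S, S⁆ : Subgroup Ω) = p ^ 2 * p ^ (k + 1) := by
        rw [h.card, h.card_A, h1] at hn
        calc p ^ 2 * Nat.card (⁅S, S⁆ : Subgroup Ω) = p * (p * Nat.card (⁅S, S⁆ : Subgroup Ω)) := by ring
          _ = p ^ 2 * p ^ (k + 1) := by rw [hn]; ring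
      exact Nat.eq_of_mul_eq_mul_left (by positivity) h7
    have h7 := h.lcs (by rw [inf_eq_left.2 hZU]; exact h1) k
    have h8 : k + 3 - 2 = k + 1 := by omega
    rw [h8] at hbot
    rw [hbot, bot_inf_eq, Subgroup.card_bot, h6, mul_one] at h7
    have := (Nat.pow_le_pow_iff_right hp1).1 h7
    omega
end Cfsg.Agent.S5244
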