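import Cfsg.Statements.S5245
import Cfsg.Agent.H13.FusCtl3
import Cfsg.Agent.H13.FusMore2
import Cfsg.Agent.H28.PIdx2

set_option autoImplicit false
set_option linter.all false
open Cfsg
open Cfsg.Agent.H28 Cfsg.FusionSystem

namespace Cfsg.Agent.S5245

open Cfsg.Agent
theorem sparse_key {Ω : Type*} [Group Ω] {S : Subgroup Ω} [Finite S] {p : ℕ} [Fact p.Prime]
    (hS : IsPGroup p S) {F : Cfsg.FusionSystem S}
    (hsp : ∀ (T : Subgroup Ω) (E : Cfsg.FusionSystem T), E.IsSaturated p → E.IsSubsystemOf F →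
      (T = S ∧ ∀ P : Subgroup Ω, E.Hom P = F.Hom P) ∨
        (∀ P : Subgroup Ω, E.Hom P = (Cfsg.innerFusionSystem T).Hom P))
    {P : Subgroup Ω} (hP : P ≤ S) {α : MulAut P} (hα : α ∈ F.autGroup P)
    (hc : (orderOf α).Coprime p) (h1 : α ≠ 1) : P = S ∧ F.autGroup P = Inn P ⊔ Subgroup.zpowers α := by
  have hPp := isPGroup_of_le hS hP
  haveI : Finite P := finite_of_le hP
  haveI hIn : (Inn P).Normal := ⟨fun a ha b => Inn_conj ha⟩
  have hm : ∀ a ∈ Inn P ⊔ Subgroup.zpowers α, a ^ orderOf α ∈ Inn P := by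
    intro a ha
    obtain ⟨i, hi, b, hb, rfl⟩ := Subgroup.mem_sup_of_normal_left.1 ha
    obtain ⟨k, rfl⟩ := Subgroup.mem_zpowers_iff.1 hb
    have h2 : QuotientGroup.mk' (Inn P) ((i * α ^ k) ^ orderOf α) = 1 := by
      rw [map_pow, map_mul, (QuotientGroup.eq_one_iff i).2 hi |> fun h => (h : QuotientGroup.mk' (Inn P) i = 1),
        one_mul, ← map_pow, ← zpow_natCast, ← zpow_mul, mul_comm, zpow_mul, zpow_natCast,
        pow_orderOf_eq_one, one_zpow, map_one]
    exact (QuotientGroup.eq_one_iff _).1 h2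
  have hle : Inn P ⊔ Subgroup.zpowers α ≤ F.autGroup P :=
    sup_le (Inn_le_autGroup hP) ((Subgroup.zpowers_le).2 hα)
  set E := autSys P (Inn P ⊔ Subgroup.zpowers α) le_sup_left with hE
  have hEs : E.IsSaturated p := autSys_saturated hPp hc hm
  have hEF : E.IsSubsystemOf F := subsystem_iff.2 fun R f hf => by
    obtain ⟨hR, a, ha, hfa⟩ := mor_autSys.1 hf
    exact ((mor_autFun hP (hle ha)).mono hR).congr fun x hx => (hfa x hx).symm
  have hEa : E.autGroup P = Inn P ⊔ Subgroup.zpowers α := autGroup_autSys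
  rcases hsp P E hEs hEF with ⟨rfl, h2⟩ | h2
  · refine ⟨rfl, ?_⟩
    have : E = F := fs_ext h2
    rw [← this, hEa]
  · exfalso
    have h3 : E = innerFusionSystem P := fs_ext h2
    have h4 : α ∈ Inn P := by
      rw [← autInducedBy_self, ← autGroup_inner le_rfl, ← h3, hEa]
      exact Subgroup.mem_sup_right (Subgroup.mem_zpowers α)
    obtain ⟨n, hn⟩ := isPGroup_pow_one (isPGroup_Inn hPp) h4
    have h5 : orderOf α ∣ p ^ n := orderOf_dvd_of_pow_eq_one hn
    exact h1 (orderOf_eq_one_iff.1 (Nat.Coprime.eq_one_of_dvd (Nat.Coprime.pow_right n hc) h5))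

/-- Let F be an extremely sparse fusion system over a finite p-group S (saturated, not the inner system, and every saturated fusion system over any subgroup T of S contained in F is F itself or the inner system of T). Then S is normal in F, the focal and hyperfocal subgroups of F are both S, and Aut_F(S) is generated by the inner automorphisms of S together with a single automorphism of prime order q ≠ p (F is the fusion system of the semidirect product of S by a cyclic group of prime order). -/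
theorem result {Ω : Type*} [Group Ω] {S : Subgroup Ω} [Finite S] (p : ℕ) [Fact p.Prime] (hS : IsPGroup p S) (F : Cfsg.FusionSystem S) (hF : F.IsSaturated p) (hxs : ¬ (∀ P : Subgroup Ω, F.Hom P = (Cfsg.innerFusionSystem S).Hom P) ∧ ∀ (T : Subgroup Ω) (E : Cfsg.FusionSystem T), E.IsSaturated p → E.IsSubsystemOf F → (T = S ∧ ∀ P : Subgroup Ω, E.Hom P = F.Hom P) ∨ (∀ P : Subgroup Ω, E.Hom P = (Cfsg.innerFusionSystem T).Hom P)) : F.IsNormal S ∧ F.focalSubgroup = S ∧ F.hyperfocalSubgroup p = S ∧ ∃ (q : ℕ) (β : MulAut ↥S), q.Prime ∧ q ≠ p ∧ β ∈ F.autGroup S ∧ orderOf β = q ∧ (F.autGroup S : Subgroup (MulAut ↥S)) = Cfsg.Inn ↥S ⊔ Subgroup.zpowers β := by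
  have hp : p.Prime := Fact.out
  obtain ⟨hne, hsp⟩ := hxs
  have key : ∀ P ≤ S, ∀ α ∈ F.autGroup P, (orderOf α).Coprime p → α ≠ 1 →
      P = S ∧ F.autGroup P = Inn P ⊔ Subgroup.zpowers α := fun P hP α hα hc h1 =>
    sparse_key hS hsp hP hα hc h1
  have hess : ∀ P, ¬ F.IsEssential p P := by
    intro P hP
    refine not_isPGroup_of_essential hS hP ?_
    haveI : Finite P := finite_of_le hP.1.1
    haveI : Finite (MulAut P) := finite_mulAut
    refine H13.isPGroup_of_coprime fun α hc => ?_
    by_contra h1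
    have h2 := (key P hP.1.1 α α.2 (by simpa using hc) (fun h => h1 (Subtype.ext h))).1
    exact (essential_lt hS hF hP).ne h2
  have hβ : ∃ β ∈ F.autGroup S, (orderOf β).Coprime p ∧ β ≠ 1 := by
    by_contra hcon
    push Not at hcon
    refine hne fun P => ?_
    have : F = innerFusionSystem S := by
      refine eq_inner_of_isPGroup hS hF fun P hP => ?_
      haveI : Finite P := finite_of_le hP
      haveI : Finite (MulAut P) := finite_mulAut
      refine H13.isPGroup_of_coprime fun α hc => ?_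
      by_contra h1
      have h2 := (key P hP α α.2 (by simpa using hc) (fun h => h1 (Subtype.ext h))).1
      subst h2
      exact h1 (Subtype.ext (hcon α α.2 (by simpa using hc)))
    rw [this]
  obtain ⟨α, hα, hαc, hα1⟩ := hβ
  haveI : Finite (MulAut S) := finite_mulAut
  have ho : orderOf α ≠ 1 := fun h => hα1 (orderOf_eq_one_iff.1 h)
  obtain ⟨q, hq, hqd⟩ := Nat.exists_prime_and_dvd ho
  have hpos : 0 < orderOf α := orderOf_pos α
  set β : MulAut S := α ^ (orderOf α / q) with hβ
  have hβo : orderOf β = q := by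
    rw [hβ, orderOf_pow_of_dvd (Nat.div_pos (Nat.le_of_dvd hpos hqd) hq.pos).ne' (Nat.div_dvd_of_dvd hqd)]
    exact Nat.div_div_self hqd hpos.ne'
  have hqp : q ≠ p := by
    intro h
    rw [h] at hqd
    exact hp.one_lt.ne' (Nat.Coprime.eq_one_of_dvd hαc.symm hqd)
  have hβm : β ∈ F.autGroup S := (F.autGroup S).pow_mem hα _
  have hβc : (orderOf β).Coprime p := by
    rw [hβo]; exact (Nat.coprime_primes hq hp).2 hqp
  have hβ1 : β ≠ 1 := fun h => hq.one_lt.ne' (by rw [← hβo, h, orderOf_one])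
  have hhyp : F.hyperfocalSubgroup p = S := by
    by_contra hH
    have hHS : F.hyperfocalSubgroup p ≤ S := hyp_le
    have hinv : ∀ x ∈ F.hyperfocalSubgroup p, autFun β x ∈ F.hyperfocalSubgroup p := fun x hx => by
      have h1 := sc_apply (hyp_stronglyClosed hS hF) (mor_autFun le_rfl hβm) (hHS hx) hx
      exact h1
    haveI : Finite ↥(F.hyperfocalSubgroup p) := finite_of_le hHS
    obtain ⟨a, ha, hao⟩ := H13.exists_restrict hHS β hinv
    have ham : a ∈ F.autGroup (F.hyperfocalSubgroup p) :=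
      (mor_autFun_iff hHS).1 (((mor_autFun le_rfl hβm).mono hHS).congr fun x hx => (ha x hx).symm)
    have ha1 : a = 1 := by
      by_contra h
      exact hH (key _ hHS a ham (Nat.Coprime.coprime_dvd_left hao hβc) h).1
    refine hβ1 (H13.trivial_of_stab hS hHS β hβc (fun x hx => ?_) fun x hx => ?_)
    · rw [← ha x hx, ha1, autFun_one hx]
    · exact hyp_coprime le_rfl hβm hβc hx
  refine ⟨H13.normal_top_of_no_essential hS hF hess, ?_, hhyp, q, β, hq, hqp, hβm, hβo,
    (key S le_rfl β hβm hβc hβ1).2⟩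
  exact le_antisymm foc_le (hhyp.ge.trans hyp_le_foc)

end Cfsg.Agent.S5245
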