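import Cfsg.Statements.S5246
import Cfsg.Agent.H13.PStabLoc
import Cfsg.Agent.H28.FusInv
import Cfsg.Agent.H28.FusGroup

set_option autoImplicit false
set_option linter.all false
open Cfsg
open Cfsg.Agent.H28 Cfsg.Agent.H13 Cfsg.FusionSystem Cfsg.Agent

namespace Cfsg.Agent.S5246

open Cfsg.Agent

open Cfsg.Agent.H13.PL
open scoped commutatorElement

variable {G : Type*} [Group G]

theorem core_iff {p : ℕ} [Fact p.Prime] {N X : Type*} [Group N] [Group X] [Finite N] [Finite X] (θ : N →* X) (n : N) :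
    (QuotientGroup.mk (s := θ.ker) n) ∈ pCore p (N ⧸ θ.ker) ↔ θ n ∈ ((pCore p θ.range).map θ.range.subtype : Subgroup X) := by
  have e := QuotientGroup.quotientKerEquivRange θ
  set e := QuotientGroup.quotientKerEquivRange θ with he
  have h1 : e (QuotientGroup.mk n) = ⟨θ n, ⟨n, rfl⟩⟩ := rfl
  constructor
  · intro h
    have hnn : (pCore p (N ⧸ θ.ker)).Normal := normal_pCore
    have h2 : (pCore p (N ⧸ θ.ker)).map e.toMonoidHom ≤ pCore p θ.range :=
      le_pCore (hnn.map _ e.surjective) (isPGroup_pCore.map _)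
    exact ⟨_, h2 ⟨_, h, h1⟩, rfl⟩
  · rintro ⟨y, hy, hyn⟩
    have hnn : (pCore p θ.range).Normal := normal_pCore
    have h2 : (pCore p θ.range).map e.symm.toMonoidHom ≤ pCore p (N ⧸ θ.ker) :=
      le_pCore (hnn.map _ e.symm.surjective) (isPGroup_pCore.map _)
    have h3 : y = ⟨θ n, ⟨n, rfl⟩⟩ := Subtype.ext hyn
    refine h2 ⟨y, hy, ?_⟩
    show e.symm y = _
    rw [MulEquiv.symm_apply_eq, h1, h3]

theorem core_iff' {p : ℕ} [Fact p.Prime] [Finite G] {Q : Subgroup G} {g : G} (hg : g ∈ Subgroup.normalizer (Q : Set G)) :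
    (QuotientGroup.mk (s := (Subgroup.centralizer (Q : Set G)).subgroupOf (Subgroup.normalizer (Q : Set G)))
          (⟨g, hg⟩ : ↥(Subgroup.normalizer (Q : Set G)))) ∈
        pCore p (↥(Subgroup.normalizer (Q : Set G)) ⧸
          (Subgroup.centralizer (Q : Set G)).subgroupOf (Subgroup.normalizer (Q : Set G))) ↔
    conjAut Q g hg ∈ ((pCore p (autInducedBy ⊤ Q)).map (autInducedBy ⊤ Q).subtype : Subgroup (MulAut Q)) := by
  haveI := finite_mulAut (P := Q)
  let θ : Subgroup.normalizer (Q : Set G) →* MulAut Q :=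
    { toFun := fun x => conjAut Q x x.2
      map_one' := by ext x; simp [conjAut_apply]
      map_mul' := fun a b => by
        ext x
        simp [conjAut_apply, mul_assoc] }
  have hk : θ.ker = (Subgroup.centralizer (Q : Set G)).subgroupOf (Subgroup.normalizer (Q : Set G)) := by
    ext x
    rw [MonoidHom.mem_ker, Subgroup.mem_subgroupOf, Subgroup.mem_centralizer_iff]
    constructor
    · intro h y hy
      have h1 := congrArg Subtype.val (DFunLike.congr_fun h (⟨y, hy⟩ : Q))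
      have h2 : (x : G) * y * (x : G)⁻¹ = y := h1
      exact (mul_inv_eq_iff_eq_mul.1 h2).symm
    · intro h
      ext y
      show (x : G) * y * (x : G)⁻¹ = y
      rw [← h y y.2, mul_inv_cancel_right]
  have hr : θ.range = autInducedBy ⊤ Q := by
    ext α
    constructor
    · rintro ⟨x, rfl⟩
      exact conjAut_mem x.2 trivial
    · intro h
      obtain ⟨k, -, hk, hkx⟩ := mem_autInducedBy_iff_conj h
      refine ⟨⟨k, hk⟩, ?_⟩
      ext y
      rw [← autFun_coe (α := α), hkx y y.2]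
      rfl
  have := core_iff (p := p) θ ⟨g, hg⟩
  rw [← hr]
  rw [show conjAut Q g hg = θ ⟨g, hg⟩ from rfl, ← this]
  have key : ∀ (K : Subgroup (Subgroup.normalizer (Q : Set G))) [hK : K.Normal] (h : θ.ker = K),
      ((QuotientGroup.mk (s := K) (⟨g, hg⟩ : ↥(Subgroup.normalizer (Q : Set G)))) ∈
        pCore p (↥(Subgroup.normalizer (Q : Set G)) ⧸ K) ↔
      (QuotientGroup.mk (s := θ.ker) (⟨g, hg⟩ : ↥(Subgroup.normalizer (Q : Set G)))) ∈
        pCore p (↥(Subgroup.normalizer (Q : Set G)) ⧸ θ.ker)) := by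
    intro K hK h
    subst h
    rfl
  exact key _ hk

theorem quad_iff {Q : Subgroup G} {g : G} (hg : g ∈ Subgroup.normalizer (Q : Set G)) :
    Quad Q (conjAut Q g hg) ↔ ⁅⁅Q, Subgroup.zpowers g⁆, Subgroup.zpowers g⁆ = ⊥ := by
  have hq : Quad Q (conjAut Q g hg) ↔ ∀ a ∈ Q, Commute g ⁅a, g⁆ := by
    constructor
    · intro h a ha
      have h1 := congrArg Subtype.val (h ⟨a⁻¹, Q.inv_mem ha⟩)
      simp only [Subgroup.coe_mul, conjAut_apply, Subgroup.coe_inv, Subgroup.coe_one] at h1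
      have h2 : g * (a * g * a⁻¹ * g⁻¹) * g⁻¹ = a * g * a⁻¹ * g⁻¹ := by
        have h3 : (g * a * g⁻¹ * a⁻¹) * (g * a * g⁻¹) * (g * (g * a⁻¹ * g⁻¹) * g⁻¹) = 1 := by
          simpa [mul_assoc] using h1
        have h4 : (g * a * g⁻¹) * (g * (g * a⁻¹ * g⁻¹) * g⁻¹) = (g * a * g⁻¹ * a⁻¹)⁻¹ :=
          eq_inv_of_mul_eq_one_right (by rw [← mul_assoc]; exact h3)
        calc g * (a * g * a⁻¹ * g⁻¹) * g⁻¹ = (g * a * g⁻¹) * (g * (g * a⁻¹ * g⁻¹) * g⁻¹) := by group
          _ = (g * a * g⁻¹ * a⁻¹)⁻¹ := h4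
          _ = a * g * a⁻¹ * g⁻¹ := by group
      rw [commutatorElement_def]
      exact mul_inv_eq_iff_eq_mul.1 h2
    · intro h a
      apply Subtype.ext
      have h1 := h (a : G)⁻¹ (Q.inv_mem a.2)
      have h2 : g * ((a : G)⁻¹ * g * (a : G) * g⁻¹) = ((a : G)⁻¹ * g * (a : G) * g⁻¹) * g := by
        have := h1.eq
        rw [commutatorElement_def] at this
        simpa using this
      simp only [Subgroup.coe_mul, conjAut_apply, Subgroup.coe_inv, Subgroup.coe_one]
      calc g * (a : G)⁻¹ * g⁻¹ * a * (g * (a : G)⁻¹ * g⁻¹) * (g * (g * a * g⁻¹) * g⁻¹)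
          = g * (a : G)⁻¹ * g⁻¹ * a * (g * ((a : G)⁻¹ * g * (a : G) * g⁻¹)) * g⁻¹ := by group
        _ = g * (a : G)⁻¹ * g⁻¹ * a * (((a : G)⁻¹ * g * (a : G) * g⁻¹) * g) * g⁻¹ := by rw [h2]
        _ = 1 := by group
  rw [hq]
  constructor
  · intro h
    -- every `⁅a, g ^ n⁆` commutes with `g`
    let K : Subgroup G :=
      { carrier := {x | Commute g x ∧ ∀ a ∈ Q, Commute g ⁅a, x⁆}
        one_mem' := ⟨Commute.one_right g, fun a _ => by rw [commutatorElement_one_right]; exact Commute.one_right g⟩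
        mul_mem' := by
          rintro x y ⟨hx, hx'⟩ ⟨hy, hy'⟩
          refine ⟨hx.mul_right hy, fun a ha => ?_⟩
          have e : ⁅a, x * y⁆ = ⁅a, x⁆ * (x * ⁅a, y⁆ * x⁻¹) := by
            simp only [commutatorElement_def]; group
          rw [e]
          exact (hx' a ha).mul_right ((hx.mul_right (hy' a ha)).mul_right hx.inv_right)
        inv_mem' := by
          rintro x ⟨hx, hx'⟩
          refine ⟨hx.inv_right, fun a ha => ?_⟩
          have e : ⁅a, x⁻¹⁆ = x⁻¹ * ⁅a, x⁆⁻¹ * x := by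
            simp only [commutatorElement_def]; group
          rw [e]
          exact (hx.inv_right.mul_right (hx' a ha).inv_right).mul_right hx }
    have hK : Subgroup.zpowers g ≤ K := by
      rw [Subgroup.zpowers_le]
      exact ⟨Commute.refl g, h⟩
    rw [Subgroup.commutator_eq_bot_iff_le_centralizer, Subgroup.commutator_le]
    intro a ha x hx
    rw [Subgroup.mem_centralizer_iff]
    intro y hy
    obtain ⟨n, rfl⟩ := Subgroup.mem_zpowers_iff.1 hy
    exact (((hK hx).2 a ha).zpow_left n).eq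
  · intro h a ha
    rw [Subgroup.commutator_eq_bot_iff_le_centralizer] at h
    have h1 := h (Subgroup.commutator_mem_commutator ha (Subgroup.mem_zpowers g))
    rw [Subgroup.mem_centralizer_iff] at h1
    exact h1 g (Subgroup.mem_zpowers g)

theorem conj_aut {Q : Subgroup G} (h : G) {R : Subgroup G} (ε : Q ≃* R) (hε : ∀ x : Q, ((ε x : R) : G) = h * x * h⁻¹) {α : MulAut Q}
    (hα : α ∈ autInducedBy ⊤ Q) : (MulAut.congr ε) α ∈ autInducedBy ⊤ R := by
  obtain ⟨k, -, hk⟩ := mem_autInducedBy.1 hα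
  refine mem_autInducedBy.2 ⟨h * k * h⁻¹, trivial, fun y => ?_⟩
  obtain ⟨x, rfl⟩ := ε.surjective y
  have h1 : (MulAut.congr ε) α (ε x) = ε (α x) := by
    show ε (α (ε.symm (ε x))) = _
    rw [MulEquiv.symm_apply_apply]
  rw [h1, hε, hk, hε]
  group

/-- Let p be an odd prime, G a finite group and P a Sylow p-subgroup. Call a fusion system F p-stable when, for every fully normalized subgroup Q and every χ ∈ Aut_F(Q) acting quadratically on Q (that is, χ fixes a⁻¹χ(a) for every a ∈ Q; equivalently χ(a⁻¹)·a·χ(a⁻¹)·χ(χ(a)) = 1), χ lies in O_p(Aut_F(Q)). Then G is p-stable in the normalizer form (for every p-subgroup Q and x ∈ N_G(Q) with [Q, x, x] = 1, the image of x lies in O_p(N_G(Q)/C_G(Q))) if and only if the fusion system of G on P is p-stable. -/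
theorem result {Ω : Type*} [Group Ω] [Finite Ω] {p : ℕ} [Fact p.Prime] (hp : p ≠ 2) (P : Sylow p Ω) : Cfsg.IsNormalizerPStable p Ω ↔ (∀ Q : Subgroup Ω, (Cfsg.groupFusionSystem (P : Subgroup Ω)).IsFullyNormalized Q → ∀ χ : MulAut ↥Q, χ ∈ (Cfsg.groupFusionSystem (P : Subgroup Ω)).autGroup Q → (∀ a : ↥Q, (χ a⁻¹) * a * (χ a⁻¹) * (χ (χ a)) = 1) → χ ∈ ((Cfsg.pCore p ↥((Cfsg.groupFusionSystem (P : Subgroup Ω)).autGroup Q)).map ((Cfsg.groupFusionSystem (P : Subgroup Ω)).autGroup Q).subtype : Subgroup (MulAut ↥Q))) := by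
  haveI := ‹Fact p.Prime›
  have hPp : IsPGroup p (P : Subgroup Ω) := P.isPGroup'
  constructor
  · intro hs Q hQ χ hχ hq
    have hQP := hQ.1
    rw [autGroup_group hQP] at hχ
    obtain ⟨g, -, hg, hgx⟩ := mem_autInducedBy_iff_conj hχ
    have e : χ = conjAut Q g hg := by
      ext y
      rw [← autFun_coe (α := χ), hgx y y.2]
      rfl
    subst e
    have h1 := hs Q (hPp.to_le hQP) g hg ((quad_iff hg).1 hq)
    rw [core_iff' hg] at h1
    rw [autGroup_group hQP]
    exact h1
  · intro hs Q hQp g hg hc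
    rw [core_iff' hg]
    obtain ⟨h, hh⟩ : ∃ h : Ω, Q.map (MulAut.conj h).toMonoidHom ≤ P := by
      obtain ⟨R, hR⟩ := hQp.exists_le_sylow
      obtain ⟨h, rfl⟩ := MulAction.exists_smul_eq Ω R P
      exact ⟨h, Subgroup.map_mono hR⟩
    set R := Q.map (MulAut.conj h).toMonoidHom with hRdef
    let ε : Q ≃* R := Q.equivMapOfInjective (MulAut.conj h).toMonoidHom (MulAut.conj h).injective
    have hε : ∀ x : Q, ((ε x : R) : Ω) = h * x * h⁻¹ := fun x => rfl
    have hε' : ∀ y : R, ((ε.symm y : Q) : Ω) = h⁻¹ * y * h⁻¹⁻¹ := fun y => by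
      obtain ⟨x, rfl⟩ := ε.surjective y
      rw [MulEquiv.symm_apply_apply, hε]
      group
    haveI := finite_mulAut (P := Q)
    haveI := finite_mulAut (P := R)
    have hA : ∀ x, (MulAut.congr ε).symm x ∈ autInducedBy ⊤ Q ↔ x ∈ autInducedBy ⊤ R := by
      intro x
      constructor
      · intro hx
        have := conj_aut h ε hε hx
        rwa [MulEquiv.apply_symm_apply] at this
      · intro hx
        exact conj_aut h⁻¹ ε.symm hε' hx
    have hmem : conjAut Q g hg ∈ autInducedBy ⊤ Q := conjAut_mem hg trivial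
    have hmem' := conj_aut h ε hε hmem
    have hquad : Quad R ((MulAut.congr ε) (conjAut Q g hg)) := by
      intro a
      obtain ⟨b, rfl⟩ := ε.surjective a
      have e1 : ∀ b : Q, (MulAut.congr ε) (conjAut Q g hg) (ε b) = ε (conjAut Q g hg b) := by
        intro b
        show ε (conjAut Q g hg (ε.symm (ε b))) = _
        rw [MulEquiv.symm_apply_apply]
      rw [← map_inv, e1, e1, e1, ← map_mul, ← map_mul, ← map_mul, (quad_iff hg).2 hc b, map_one]
    have h2 := stable_all (p := p) (F := groupFusionSystem (P : Subgroup Ω)) hs hh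
      (by rw [autGroup_group hh]; exact hmem') hquad
    rw [autGroup_group hh] at h2
    have h3 := mem_core_map (MulAut.congr ε).symm hA h2
    rwa [MulEquiv.symm_apply_apply] at h3

end Cfsg.Agent.S5246
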