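import Cfsg.Statements.S5247
import Cfsg.Agent.H28.FusFocal
import Cfsg.Agent.H28.FusKNorm

set_option autoImplicit false
open Cfsg

namespace Cfsg.Agent.S5247

open Cfsg.FusionSystem Cfsg.Agent.H28

section
variable {Ω : Type*} [Group Ω] {S : Subgroup Ω} {F : FusionSystem S} {p : ℕ} {Q : Subgroup Ω}
  {f : Ω → Ω}

theorem pcore_back [Finite S] (hf : Mor F Q f) {χ : MulAut Q} (hχ : χ ∈ F.autGroup Q)
    (h : hf.transport χ ∈ ((Cfsg.pCore p ↥(F.autGroup (img Q f))).map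
      (F.autGroup (img Q f)).subtype : Subgroup (MulAut ↥(img Q f)))) :
    χ ∈ ((Cfsg.pCore p ↥(F.autGroup Q)).map (F.autGroup Q).subtype : Subgroup (MulAut ↥Q)) := by
  obtain ⟨ψ, hψ, hψe⟩ := h
  have hn := normal_pCore (X := F.autGroup (img Q f)) (p := p)
  have hp := isPGroup_pCore (X := F.autGroup (img Q f)) (p := p)
  set B := (pCore p (F.autGroup (img Q f))).comap hf.autEquiv.toMonoidHom with hB
  have hBn : B.Normal := Subgroup.Normal.comap hn _
  have hBp : IsPGroup p B := hp.comap_of_injective _ hf.autEquiv.injective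
  refine ⟨⟨χ, hχ⟩, le_pCore hBn hBp ?_, rfl⟩
  show hf.autEquiv ⟨χ, hχ⟩ ∈ pCore p (F.autGroup (img Q f))
  have e : hf.autEquiv ⟨χ, hχ⟩ = ψ := by
    apply Subtype.ext
    apply mulAut_ext
    intro y hy
    obtain ⟨x, hx, rfl⟩ := hf.mem_img.1 hy
    rw [hf.autEquiv_apply _ hx]
    have h2 : (ψ : MulAut (img Q f)) = hf.transport χ := hψe
    rw [h2, hf.transport_apply _ hx]
  rw [e]; exact hψ

theorem pcore_sub {A B : Subgroup (MulAut Q)} (hAB : A ≤ B) {χ : MulAut Q} (hχ : χ ∈ A)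
    (h : χ ∈ ((Cfsg.pCore p ↥B).map B.subtype : Subgroup (MulAut ↥Q))) :
    χ ∈ ((Cfsg.pCore p ↥A).map A.subtype : Subgroup (MulAut ↥Q)) := by
  obtain ⟨ψ, hψ, hψe⟩ := h
  have hn := normal_pCore (X := B) (p := p)
  have hp := isPGroup_pCore (X := B) (p := p)
  set C := (pCore p B).comap (Subgroup.inclusion hAB) with hC
  have hCn : C.Normal := Subgroup.Normal.comap hn _
  have hCp : IsPGroup p C := hp.comap_of_injective _ (Subgroup.inclusion_injective hAB)
  refine ⟨⟨χ, hχ⟩, le_pCore hCn hCp ?_, rfl⟩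
  show Subgroup.inclusion hAB ⟨χ, hχ⟩ ∈ pCore p B
  have e : Subgroup.inclusion hAB ⟨χ, hχ⟩ = ψ := Subtype.ext hψe.symm
  rw [e]; exact hψ

theorem cyc [Fact p.Prime] [Finite Q] (hQ : IsPGroup p Q) (hc : IsCyclic Q) {A : Subgroup (MulAut Q)}
    {χ : MulAut Q} (hχ : χ ∈ A) (hq : ∀ a : ↥Q, (χ a⁻¹) * a * (χ a⁻¹) * (χ (χ a)) = 1) :
    χ ∈ ((Cfsg.pCore p ↥A).map A.subtype : Subgroup (MulAut ↥Q)) := by
  have hcomm : ∀ a b : Q, a * b = b * a := fun a b => by
    have h : IsMulCommutative Q := IsCyclic.commutative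
    exact h.is_comm.comm a b
  have hcA : ∀ α β : MulAut Q, α * β = β * α := by
    intro α β
    apply (IsCyclic.mulAutMulEquiv Q).injective
    rw [map_mul, map_mul, mul_comm]
  obtain ⟨n, hn⟩ := IsPGroup.iff_card.1 hQ
  have hpow : χ ^ p ^ n = 1 := by
    apply MulEquiv.ext
    intro a
    set c := a⁻¹ * χ a with hcdef
    have h1 : χ a = a * c := by rw [hcdef]; group
    have h2 : χ (χ a) = χ a * χ a * a⁻¹ := by
      have h3 := hq a
      rw [map_inv] at h3
      have h4 : χ (χ a) = ((χ a)⁻¹ * a * (χ a)⁻¹)⁻¹ := (eq_inv_of_mul_eq_one_right h3)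
      rw [h4, mul_inv_rev, mul_inv_rev, inv_inv, hcomm a⁻¹ (χ a), ← mul_assoc]
    have h3 : χ c = c := by
      rw [hcdef, map_mul, map_inv, h2, hcomm a⁻¹ (χ a)]
      group
    have h4 : ∀ k : ℕ, (χ ^ k) a = a * c ^ k := by
      intro k
      induction k with
      | zero => simp
      | succ k ih =>
        rw [pow_succ', MulAut.mul_apply, ih, map_mul, map_pow, h3, h1, pow_succ', mul_assoc]
    rw [h4, ← hn, pow_card_eq_one']
    simp
  have hBn : (Subgroup.zpowers (⟨χ, hχ⟩ : A)).Normal := by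
    refine ⟨fun x hx g => ?_⟩
    have e : g * x * g⁻¹ = x := by
      apply Subtype.ext
      show (g : MulAut Q) * x * (g : MulAut Q)⁻¹ = x
      rw [hcA g x]; group
    rw [e]; exact hx
  have hBp : IsPGroup p (Subgroup.zpowers (⟨χ, hχ⟩ : A)) :=
    isPGroup_zpowers_of_pow (n := n) (Subtype.ext hpow)
  exact ⟨⟨χ, hχ⟩, le_pCore hBn hBp (Subgroup.mem_zpowers _), rfl⟩

end

/-- Let p be an odd prime and F a saturated fusion system over a finite p-group S. Call a fusion system E (over any subgroup) p-stable when, for every fully E-normalized subgroup Q and every χ ∈ Aut_E(Q) with χ(a⁻¹)·a·χ(a⁻¹)·χ(χ(a)) = 1 for all a ∈ Q (χ acts quadratically), χ lies in O_p(Aut_E(Q)). Then F is p-stable if and only if every normalizer fusion system N_F(R) of every non-cyclic fully F-normalized subgroup R of S is p-stable. -/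
theorem result {Ω : Type*} [Group Ω] {S : Subgroup Ω} [Finite S] (p : ℕ) [Fact p.Prime] (hS : IsPGroup p S) (F : Cfsg.FusionSystem S) (hF : F.IsSaturated p) (hp : p ≠ 2) : (∀ Q : Subgroup Ω, F.IsFullyNormalized Q → ∀ χ : MulAut ↥Q, χ ∈ F.autGroup Q → (∀ a : ↥Q, (χ a⁻¹) * a * (χ a⁻¹) * (χ (χ a)) = 1) → χ ∈ ((Cfsg.pCore p ↥(F.autGroup Q)).map (F.autGroup Q).subtype : Subgroup (MulAut ↥Q))) ↔ ∀ R : Subgroup Ω, F.IsFullyNormalized R → ¬ IsCyclic ↥R → ∀ N : Cfsg.FusionSystem (Cfsg.FusionSystem.normalizerIn S R), F.IsNormalizerSystem R N → (∀ Q : Subgroup Ω, N.IsFullyNormalized Q → ∀ χ : MulAut ↥Q, χ ∈ N.autGroup Q → (∀ a : ↥Q, (χ a⁻¹) * a * (χ a⁻¹) * (χ (χ a)) = 1) → χ ∈ ((Cfsg.pCore p ↥(N.autGroup Q)).map (N.autGroup Q).subtype : Subgroup (MulAut ↥Q))) := by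
  constructor
  · intro H R hR hRc N hN Q hQ χ hχ hq
    have hN' := eq_normSys hR.1 hN
    subst hN'
    have hQN := hQ.1
    have hQS : Q ≤ S := hQN.trans normalizerIn_le
    haveI : Finite Q := finite_of_le hQS
    have hle : (normSys F R hR.1).autGroup Q ≤ F.autGroup Q := by
      intro α hα
      obtain ⟨-, -, g, hg, h1, -⟩ := mor_normSys.1 (mor_autFun hQN hα)
      exact (mor_autFun_iff hQS).1 ((hg.mono le_sup_left).congr h1)
    obtain ⟨Q₁, hc, hQ₁⟩ := exists_fullyNormalized (F := F) hQS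
    obtain ⟨f, hf, rfl⟩ := isConj_iff.1 hc
    apply pcore_sub hle hχ
    apply pcore_back hf (hle hχ)
    apply H _ hQ₁ _ (hf.transport_mem (hle hχ))
    rintro ⟨y, hy⟩
    obtain ⟨x, hx, rfl⟩ := hf.mem_img.1 hy
    have h1 := congrArg Subtype.val (hq ⟨x, hx⟩)
    have ha : ∀ z (hz : z ∈ Q) (hz' : f z ∈ img Q f),
        hf.transport χ ⟨f z, hz'⟩ = ⟨f (χ ⟨z, hz⟩ : Q), mem_img_of_mem (χ ⟨z, hz⟩ : Q).2⟩ := by
      intro z hz hz'
      apply Subtype.ext
      have h2 := hf.transport_apply χ hz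
      rw [autFun_apply _ hz', autFun_apply _ hz] at h2
      exact h2
    have hinv : (⟨f x, hy⟩ : img Q f)⁻¹ = ⟨f x⁻¹, mem_img_of_mem (inv_mem hx)⟩ :=
      Subtype.ext (hf.inv hx).symm
    rw [hinv, ha x⁻¹ (inv_mem hx), ha x hx, ha _ (χ ⟨x, hx⟩).2]
    apply Subtype.ext
    have h3 : f ((χ ⟨x⁻¹, inv_mem hx⟩ : Q) * x * (χ ⟨x⁻¹, inv_mem hx⟩ : Q) * (χ (χ ⟨x, hx⟩) : Q)) = f 1 := by
      congr 1
    rw [hf.one, hf.mul (mul_mem (mul_mem (χ _).2 hx) (χ _).2) (χ _).2, hf.mul (mul_mem (χ _).2 hx) (χ _).2,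
      hf.mul (χ _).2 hx] at h3
    exact h3
  · intro H Q hQ χ hχ hq
    haveI : Finite Q := finite_of_le hQ.1
    by_cases hc : IsCyclic Q
    · exact cyc (isPGroup_of_le hS hQ.1) hc hχ hq
    · have hQN : Q ≤ normalizerIn S Q := le_normalizerIn hQ.1
      have e : (normSys F Q hQ.1).autGroup Q = F.autGroup Q := by
        ext α
        rw [← mor_autFun_iff hQN, ← mor_autFun_iff hQ.1, mor_normSys]
        constructor
        · rintro ⟨-, -, g, hg, h1, -⟩
          exact (hg.mono le_sup_left).congr h1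
        · intro h
          refine ⟨hQN, fun x hx => hQN (autFun_mem _ hx), autFun α, by rw [sup_idem]; exact h,
            fun x _ => rfl, img_autFun α⟩
      have hfn : (normSys F Q hQ.1).IsFullyNormalized Q := by
        rw [fullyNormalized_iff]
        refine ⟨hQN, fun f hf => ?_⟩
        have h1 : normalizerIn (normalizerIn S Q) Q = normalizerIn S Q :=
          le_antisymm normalizerIn_le fun x hx => ⟨hx, hx.2⟩
        haveI : Finite (normalizerIn S Q) := finite_of_le normalizerIn_le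
        rw [h1]
        exact card_le_of_le normalizerIn_le
      have h2 := H Q hQ hc _ (normSys_isNormalizerSystem hQ.1) Q hfn χ (by rw [e]; exact hχ) hq
      rw [e] at h2
      exact h2
end Cfsg.Agent.S5247
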