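import Cfsg.Statements.S5251
import Cfsg.Agent.H28.FusNormal2
import Cfsg.Agent.H28.FusFocal
import Cfsg.Agent.H10.PLoc

set_option autoImplicit false
open Cfsg

namespace Cfsg.Agent.S5251

open Cfsg.Agent.H28 Cfsg.FusionSystem

variable {Ω : Type*} [Group Ω] {S T P : Subgroup Ω} {F : Cfsg.FusionSystem S}
  {E : Cfsg.FusionSystem T} {p : ℕ}

theorem main [Fact p.Prime] [Finite S] (hS : IsPGroup p S) (hF : F.IsSaturated p)
    (hsub : E.IsSubsystemOf F) (hsc : F.StronglyClosed T) (hP : F.IsCentric P)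
    (hPT : ¬ E.IsCentric (P ⊓ T)) :
    ∃ f, Mor F P f ∧ ∃ x ∈ S, x ∈ Subgroup.normalizer (img P f : Set Ω) ∧ x ∉ img P f ∧
      ∃ α : F.autGroup (img P f), α ∈ pCore p (F.autGroup (img P f)) ∧
        ∀ y ∈ img P f, autFun (α : MulAut (img P f)) y = x * y * x⁻¹ := by
  have hTS : T ≤ S := hsc.1
  have hPS : P ≤ S := hP.1
  have hTn := sc_normalizer hsc
  have h0 : P ⊓ T ≤ S := inf_le_left.trans hPS
  -- a conjugate of P ⊓ T in E which does not contain its centralizer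
  obtain ⟨Q, hQE, hQc⟩ : ∃ Q, E.IsConj (P ⊓ T) Q ∧ ¬ (centralizerIn T Q ≤ Q) := by
    by_contra hcon
    push Not at hcon
    exact hPT ⟨inf_le_right, hcon⟩
  obtain ⟨ψ, ⟨φ, hφ, hφψ⟩, hψQ⟩ := isConj_iff.1 hQE
  have hψ : Mor F (P ⊓ T) ψ := ⟨φ, hsub _ hφ, hφψ⟩
  have hQF : F.IsConj (P ⊓ T) Q := isConj_iff.2 ⟨ψ, hψ, hψQ⟩
  have hQS : Q ≤ S := isConj_le hQF
  obtain ⟨R, hR, hRn⟩ := exists_fullyNormalized (F := F) h0
  -- the centralizer of R
  obtain ⟨g, hg, hgR⟩ := FN.exists_map hS hF hRn (isConj_trans (isConj_symm hQF) hR)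
  have hCR : ∃ c, c ∈ T ∧ c ∈ centralizerIn S R ∧ c ∉ R := by
    obtain ⟨c, hc, hcQ⟩ := SetLike.not_le_iff_exists.1 hQc
    have hc' : c ∈ centralizerIn S Q := ⟨hTS hc.1, hc.2⟩
    have hcN := centralizerIn_le_normalizerIn hc'
    refine ⟨g c, sc_apply hsc hg hcN hc.1, ?_, ?_⟩
    · rw [← hgR]
      exact img_centralizerIn_le hg hQS (mem_img_of_mem hc')
    · intro hcon
      rw [← hgR] at hcon
      obtain ⟨d, hd, hdc⟩ := (hg.mono (le_normalizerIn hQS)).mem_img.1 hcon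
      rw [← hg.inj (le_normalizerIn hQS hd) hcN hdc] at hcQ
      exact hcQ hd
  -- the map
  obtain ⟨χ, hχ, hχR⟩ := FN.exists_map hS hF hRn hR
  have hPN : P ≤ normalizerIn S (P ⊓ T) := by
    intro x hx
    refine mem_normalizerIn.2 ⟨hPS hx, fun y => ?_⟩
    have h1 := Subgroup.mem_normalizer_iff.1 (hTn (hPS hx)) y
    have h2 := Subgroup.mem_normalizer_iff.1 (Subgroup.le_normalizer hx) y
    rw [Subgroup.mem_inf, Subgroup.mem_inf]
    exact and_congr h2 h1
  have hf : Mor F P χ := hχ.mono hPN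
  refine ⟨χ, hf, ?_⟩
  set P' := img P χ with hP'
  have hP'S : P' ≤ S := hf.img_le
  have hRP : R = P' ⊓ T := by
    apply le_antisymm
    · rw [← hχR]
      rw [img_le_iff]
      intro x hx
      exact ⟨mem_img_of_mem hx.1, sc_apply hsc (hf.mono inf_le_left) hx hx.2⟩
    · rintro y ⟨hy, hyT⟩
      obtain ⟨x, hx, rfl⟩ := hf.mem_img.1 hy
      obtain ⟨k, hk, hk1, -⟩ := hf.inverse
      have h1 := sc_apply hsc hk hy hyT
      rw [hk1 x hx] at h1
      rw [← hχR]
      exact mem_img_of_mem ⟨hx, h1⟩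
  have hRS : R ≤ S := isConj_le hR
  -- C = C_T(R)
  set C := centralizerIn T R with hC
  have hCS : C ≤ S := fun c hc => hTS hc.1
  have hP'C : P' ≤ Subgroup.normalizer (C : Set Ω) := by
    have key : ∀ y ∈ P', ∀ c ∈ C, y * c * y⁻¹ ∈ C := by
      intro y hy c hc
      have hcT : y * c * y⁻¹ ∈ T :=
        (Subgroup.mem_normalizer_iff.1 (hTn (hP'S hy)) c).1 hc.1
      refine mem_centralizerIn.2 ⟨hcT, fun r hr => ?_⟩
      have hr' : y⁻¹ * r * y ∈ R := by
        rw [hRP] at hr ⊢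
        have h1 := (Subgroup.mem_normalizer_iff.1 (hTn (hP'S (InvMemClass.inv_mem hy))) r).1 hr.2
        rw [inv_inv] at h1
        exact Subgroup.mem_inf.2 ⟨mul_mem (mul_mem (InvMemClass.inv_mem hy) hr.1) hy, h1⟩
      have h2 := (mem_centralizerIn.1 hc).2 _ hr'
      calc y * c * y⁻¹ * r = y * (c * (y⁻¹ * r * y)) * y⁻¹ := by group
        _ = y * (y⁻¹ * r * y * c) * y⁻¹ := by rw [h2]
        _ = r * (y * c * y⁻¹) := by group
    intro y hy
    rw [Subgroup.mem_normalizer_iff]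
    intro c
    refine ⟨key y hy c, fun h => ?_⟩
    have h2 := key y⁻¹ (InvMemClass.inv_mem hy) _ h
    have e : y⁻¹ * (y * c * y⁻¹) * y⁻¹⁻¹ = c := by group
    rwa [e] at h2
  have hlt : P' < P' ⊔ C := by
    refine lt_of_le_of_ne le_sup_left fun he => ?_
    obtain ⟨c, hcT, hcC, hcR⟩ := hCR
    apply hcR
    rw [hRP]
    refine ⟨?_, hcT⟩
    rw [he]
    exact le_sup_right (a := P') ⟨hcT, hcC.2⟩
  have hfin : Finite (P' ⊔ C : Subgroup Ω) := finite_of_le (sup_le hP'S hCS)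
  obtain ⟨s, hs, hsN, hsP⟩ := exists_mem_normalizer_of_isPGroup_lt
    (hS.to_le (sup_le hP'S hCS)) hlt
  rw [← SetLike.mem_coe, Subgroup.coe_mul_of_left_le_normalizer_right P' C hP'C, Set.mem_mul] at hs
  obtain ⟨a, ha, x, hx, hab⟩ := hs
  subst hab
  have haN : a ∈ Subgroup.normalizer (P' : Set Ω) := Subgroup.le_normalizer ha
  have hxN : x ∈ Subgroup.normalizer (P' : Set Ω) := by
    have := mul_mem (InvMemClass.inv_mem haN) hsN
    simpa using this
  have hxP : x ∉ P' := fun h => hsP (mul_mem ha h)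
  have hxS : x ∈ S := hCS hx
  refine ⟨x, hxS, hxN, hxP, ?_⟩
  have hxA : conjAut P' x hxN ∈ F.autGroup P' :=
    autInducedBy_le hP'S le_rfl (conjAut_mem hxN hxS)
  refine ⟨⟨_, hxA⟩, ?_, fun y hy => autFun_conjAut hxN hy⟩
  -- the stabilizer of the chain
  set D : ℕ → Subgroup Ω := fun j => if j = 0 then ⊥ else if j = 1 then R else P' with hD'
  have hD : ∀ j, ∀ α ∈ F.autGroup P', ∀ x ∈ P', x ∈ D j → autFun α x ∈ D j := by
    intro j α hα y hy hyD
    simp only [hD'] at hyD ⊢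
    split_ifs at hyD ⊢ with h1 h2
    · rw [Subgroup.mem_bot] at hyD ⊢
      rw [autFun_apply _ hy]
      have : (⟨y, hy⟩ : P') = 1 := Subtype.ext hyD
      rw [this, map_one]; rfl
    · rw [hRP] at hyD ⊢
      exact ⟨autFun_mem _ hy, sc_apply hsc (mor_autFun hP'S hα) hy hyD.2⟩
    · exact autFun_mem _ hy
  have : Finite P' := finite_of_le hP'S
  apply Cfsg.Agent.H28.le_pCore (chainStab_normal (hD := hD))
    (isPGroup_chainStab (hS.to_le hP'S) 2 (by simp [hD']) (by simp [hD']))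
  rw [mem_chainStab]
  intro j y hy hyD
  rw [show autFun ((⟨conjAut P' x hxN, hxA⟩ : F.autGroup P') : MulAut P') y = x * y * x⁻¹ from
    autFun_conjAut hxN hy]
  rcases j with _ | _ | j
  · have hyR : y ∈ R := by simpa [hD'] using hyD
    have h2 := (mem_centralizerIn.1 hx).2 y hyR
    rw [h2]
    simp [hD']
  · have h1 : x * y * x⁻¹ ∈ P' := (Subgroup.mem_normalizer_iff.1 hxN y).1 hy
    have h2 : y⁻¹ * x * y ∈ T := by
      have := (Subgroup.mem_normalizer_iff.1 (hTn (hP'S (InvMemClass.inv_mem hy))) x).1 hx.1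
      rwa [inv_inv] at this
    have h3 : y⁻¹ * (x * y * x⁻¹) ∈ R := by
      rw [hRP]
      refine Subgroup.mem_inf.2 ⟨mul_mem (InvMemClass.inv_mem hy) h1, ?_⟩
      have e : y⁻¹ * (x * y * x⁻¹) = y⁻¹ * x * y * x⁻¹ := by group
      rw [e]
      exact mul_mem h2 (InvMemClass.inv_mem (show x ∈ T from hx.1))
    simpa [hD'] using h3
  · have h1 : x * y * x⁻¹ ∈ P' := (Subgroup.mem_normalizer_iff.1 hxN y).1 hy
    simpa [hD'] using mul_mem (InvMemClass.inv_mem hy) h1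

/-- Let F be a saturated fusion system over a finite p-group S, E a normal subsystem of F over T, and P an F-centric subgroup of S such that P ∩ T is not E-centric. Then some F-conjugate P* of P satisfies Out_S(P*) ∩ O_p(Out_F(P*)) ≠ 1: there is an element of N_S(P*) outside P* whose conjugation action on P* lies in O_p(Aut_F(P*)). In particular P is not both centric and radical in F. -/
theorem result {Ω : Type*} [Group Ω] {S : Subgroup Ω} [Finite S] (p : ℕ) [Fact p.Prime] (hS : IsPGroup p S) (F : Cfsg.FusionSystem S) (hF : F.IsSaturated p) {T : Subgroup Ω} (E : Cfsg.FusionSystem T) (hE : E.IsNormalIn F p) (P : Subgroup Ω) (hP : F.IsCentric P) (hPT : ¬ E.IsCentric (P ⊓ T)) : (∃ φ ∈ F.Hom P, ∃ x ∈ S ⊓ Subgroup.normalizer (φ.range : Set Ω), x ∉ φ.range ∧ ∃ α ∈ ((Cfsg.pCore p ↥(F.autGroup φ.range)).map (F.autGroup φ.range).subtype : Subgroup (MulAut ↥φ.range)), ∀ y : ↥φ.range, ((α y : ↥φ.range) : Ω) = x * (y : Ω) * x⁻¹) ∧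 ¬ F.IsRadical p P := by
  obtain ⟨f, hf, x, hxS, hxN, hxP, α, hα, hαx⟩ :=
    main hS hF hE.1.2.2.1 hE.1.2.2.2.1 hP hPT
  constructor
  · obtain ⟨φ, hφ, hφf⟩ := id hf
    refine ⟨φ, hφ, ?_⟩
    rw [range_eq_img hφf]
    exact ⟨x, ⟨hxS, hxN⟩, hxP, α, ⟨α, hα, rfl⟩, fun y => by
      rw [← hαx y y.2, autFun_coe]⟩
  · intro hr
    have h1 : hf.autEquiv.symm α ∈ pCore p (F.autGroup P) := by
      have h2 := Cfsg.Agent.H10.pCore_map_equiv hf.autEquiv p
      rw [← h2] at hα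
      obtain ⟨β, hβ, hβα⟩ := hα
      have h3 : hf.autEquiv β = α := hβα
      rw [← h3, MulEquiv.symm_apply_apply]
      exact hβ
    have h2 : ((hf.autEquiv.symm α : F.autGroup P) : MulAut P) ∈ Inn P := by
      rw [← hr.2]
      exact ⟨_, h1, rfl⟩
    obtain ⟨u, hu, h3⟩ := mem_Inn.1 h2
    have hfu : f u ∈ img P f := mem_img_of_mem hu
    have h4 : (f u)⁻¹ * x ∈ centralizerIn S (img P f) := by
      refine mem_centralizerIn.2 ⟨mul_mem (InvMemClass.inv_mem (hf.img_le hfu)) hxS, fun y hy => ?_⟩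
      obtain ⟨z, hz, rfl⟩ := hf.mem_img.1 hy
      have h5 := hf.autEquiv_apply (hf.autEquiv.symm α) hz
      rw [MulEquiv.apply_symm_apply, hαx _ hy, h3 z hz, hf.conj hu hz] at h5
      have h6 : x * f z = f u * f z * (f u)⁻¹ * x := by rw [← h5]; simp
      calc (f u)⁻¹ * x * f z = (f u)⁻¹ * (x * f z) := by rw [mul_assoc]
        _ = f z * ((f u)⁻¹ * x) := by rw [h6]; simp [mul_assoc]
    have h5 := centric_centralizer (centric_of_isConj hP hf.isConj) h4
    apply hxP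
    simpa using mul_mem hfu h5

end Cfsg.Agent.S5251
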