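import Cfsg.Statements.S5252
import Cfsg.Agent.H28.Foc5

set_option autoImplicit false
open Cfsg

namespace Cfsg.Agent.S5252

open Cfsg.FusionSystem Cfsg.Agent.H28

/-- Let p ≥ 5 be a prime and F a saturated fusion system over a nontrivial finite p-group S such that Aut_F(S) is a p-group. Then the focal subgroup of F is a proper subgroup of S. -/
theorem result {Ω : Type*} [Group Ω] {S : Subgroup Ω} [Finite S] (p : ℕ) [Fact p.Prime] (hS : IsPGroup p S) (F : Cfsg.FusionSystem S) (hF : F.IsSaturated p) (hp : 5 ≤ p) (hS1 : S ≠ ⊥) (haut : IsPGroup p ↥(F.autGroup S)) : F.focalSubgroup < S := by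
  have h1 : F.autGroup S ≤ Inn S := by
    have h2 := (fullyAutomized_iff hS).1 (FN.fa hS hF fullyNormalized_top)
    have h3 := h2.2 (F.autGroup S) le_rfl haut (autInducedBy_le le_rfl le_rfl)
    intro α hα
    obtain ⟨s, hs, h4⟩ := mem_autInducedBy'.1 (h3 hα)
    exact mem_Inn.2 ⟨s, hs, h4⟩
  exact focal_lt (W := fun (Q : Type _) [Group Q] => Cfsg.kInfLower Q) Cfsg.Agent.L.kInfLower_isCharP
    (fun G _ _ => (Cfsg.Agent.L.ct_of_tc Cfsg.Agent.L.kInfLower_isCharP).2 (Cfsg.Agent.L.tc_kInf hp G))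
    _ Ω S F le_rfl hS hF hS1 h1
end Cfsg.Agent.S5252
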