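import Cfsg.Statements.S5257
import Cfsg.Agent.H28.AbIdx5

set_option autoImplicit false
open Cfsg

namespace Cfsg.Agent.S5257

open Cfsg.FusionSystem Cfsg.Agent.H28

theorem map_commutator_eq {Ω : Type*} [Group Ω] (S : Subgroup Ω) :
    (commutator ↥S).map S.subtype = ⁅S, S⁆ := by
  rw [commutator_def, Subgroup.map_commutator, ← MonoidHom.range_eq_map, Subgroup.range_subtype]

/-- Let p be an odd prime, S a finite nonabelian p-group with a unique abelian subgroup A of index p, and F a saturated fusion system over S having an F-essential subgroup other than A. Then the second centre Z₂(S) lies in A; Z(S) ∩ [S, S] has order p; Z(S)[S, S] has index p in A; Z(S) has index p in Z₂(S); and S/Z(S) has maximal nilpotency class (if S/Z(S) has order pᵐ with m ≥ 3 then the term of index m − 2 of the lower central series of S, counting S as index 0, is not contained in Z(S)). -/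
theorem result {Ω : Type*} [Group Ω] {S : Subgroup Ω} [Finite S] (p : ℕ) [Fact p.Prime] (hS : IsPGroup p S) (F : Cfsg.FusionSystem S) (hF : F.IsSaturated p) (hp : p ≠ 2) (hna : ¬ IsMulCommutative ↥S) (A : Subgroup Ω) (hA : A ≤ S ∧ IsMulCommutative ↥A ∧ (A.subgroupOf S).index = p) (huniq : ∀ B : Subgroup Ω, B ≤ S → IsMulCommutative ↥B → (B.subgroupOf S).index = p → B = A) (P : Subgroup Ω) (hP : F.IsEssential p P) (hPA : P ≠ A) : ((upperCentralSeries ↥S 2).map S.subtype) ≤ A ∧ Nat.card ↥((S ⊓ Subgroup.centralizer (S : Set Ω)) ⊓ ((commutator ↥S).map S.subtype)) = p ∧ (((S ⊓ Subgroup.centralizer (S : Set Ω)) ⊔ ((commutator ↥S).map S.subtype)).subgroupOf A).index = p ∧ (((S ⊓ Subgroup.centralizer (S : Set Ω))).subgroupOf ((upperCentralSeries ↥S 2).map S.subtype)).index = p ∧ ∀ m : ℕ, ((S ⊓ Subgroup.centralizer (S : Set Ω)).subgroupOf S).index = p ^ m → 3 ≤ m → ¬ Subgroup.lowerCentralSeries S (m - 2) ≤ (S ⊓ Subgroup.centralizer (S : Set Ω)) := by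
  have h := AbIdx.of_index hS hna hA huniq
  obtain ⟨h1, h2, x, hxP, hxA, h3⟩ := h.ess_main hF hP hPA
  have hz2 := h.z2_le h1
  have hp1 := (Fact.out : p.Prime).one_lt
  haveI : Finite (centralizerIn S S) := finite_of_le centralizerIn_le
  haveI : Finite A := finite_of_le h.le
  haveI : Finite (z2 S) := finite_of_le hz2
  haveI : Finite ↥((upperCentralSeries ↥S 2).map S.subtype) := finite_of_le hz2
  rw [map_commutator_eq]
  have c1 : Nat.card A = p * Nat.card (centralizerIn S S ⊔ ⁅S, S⁆ : Subgroup Ω) := by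
    have h4 := Cfsg.Agent.H1.card_sup_mul_card_inf_of_le_normalizer
      (H := (centralizerIn S S).subgroupOf A) (K := (⁅S, S⁆ : Subgroup Ω).subgroupOf A) (by
        have hab : IsMulCommutative A := hA.2.1
        intro a _
        rw [Subgroup.mem_normalizer_iff]
        intro b
        rw [hab.is_comm.comm a b, mul_inv_cancel_right])
    have h6 : (centralizerIn S S).subgroupOf A ⊓ (⁅S, S⁆ : Subgroup Ω).subgroupOf A =
      (centralizerIn S S ⊓ ⁅S, S⁆ : Subgroup Ω).subgroupOf A := rfl
    rw [← Subgroup.subgroupOf_sup h.Z_le h.D_le, h6, card_subgroupOf' (sup_le h.Z_le h.D_le),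
      card_subgroupOf' (inf_le_left.trans h.Z_le), h1, card_subgroupOf' h.Z_le, card_subgroupOf' h.D_le,
      ← h.card_A] at h4
    rw [← h4, mul_comm]
  have c2 : centralizerIn S S ≤ z2 S := by
    intro z hz
    refine mem_z2.2 ⟨hz.1, fun s hs => ?_⟩
    have h4 : z * s * z⁻¹ * s⁻¹ = 1 := by
      rw [(mem_centralizerIn.1 hz).2 s hs]; group
    rw [h4]; exact one_mem _
  have c3 : Nat.card (z2 S) = p * Nat.card (centralizerIn S S) := by
    have h4 := h.card_z2
    rw [inf_eq_left.2 hz2, h1, mul_comm] at h4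
    exact h4
  refine ⟨hz2, h1, index_of_card (sup_le h.Z_le h.D_le) c1, index_of_card c2 c3, ?_⟩
  intro m hm hm3 hle
  have h4 := ((centralizerIn S S).subgroupOf S).card_mul_index
  have h5 : ((centralizerIn S S).subgroupOf S).index = p ^ m := hm
  rw [h5, card_subgroupOf' centralizerIn_le, h.card, h.card_A] at h4
  obtain ⟨k, rfl⟩ : ∃ k, m = k + 3 := ⟨m - 3, by omega⟩
  have h6 : Nat.card (⁅S, S⁆ : Subgroup Ω) = p ^ (k + 2) := by
    have h7 : (p * Nat.card (centralizerIn S S)) * Nat.card (⁅S, S⁆ : Subgroup Ω) =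
        (p * Nat.card (centralizerIn S S)) * p ^ (k + 2) := by
      rw [mul_assoc, ← h4]; ring
    exact Nat.eq_of_mul_eq_mul_left (Nat.mul_pos (by omega) Nat.card_pos) h7
  have h7 := h.lcs h1 k
  have h8 : k + 3 - 2 = k + 1 := by omega
  rw [h8] at hle
  have h9 : Nat.card (Subgroup.lowerCentralSeries S (k + 1) ⊓ ⁅S, S⁆ : Subgroup Ω) ≤ p := by
    rw [← h1]
    haveI : Finite (centralizerIn S S ⊓ ⁅S, S⁆ : Subgroup Ω) := finite_of_le inf_le_left
    exact card_le_of_le (inf_le_inf_right _ hle)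
  rw [h6] at h7
  have h10 : p ^ (k + 2) ≤ p ^ (k + 1) := by
    calc p ^ (k + 2) ≤ _ := h7
      _ ≤ p ^ k * p := Nat.mul_le_mul_left _ h9
      _ = p ^ (k + 1) := by ring
  have := (Nat.pow_le_pow_iff_right hp1).1 h10
  omega
end Cfsg.Agent.S5257
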