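import Cfsg.Statements.S5272
import Cfsg.Agent.H28.AxFus

set_option autoImplicit false
open Cfsg

namespace Cfsg.Agent.S5272

open Cfsg.FusionSystem Cfsg.Agent.H28

/-- An axiomatic Glauberman–Thompson nilpotency criterion for fusion systems. Let p be an odd prime, F a saturated fusion system over a finite p-group S, and 𝒜 a nonempty family of abelian subgroups of S. For Q ≤ S write I(Q) for the intersection of the members of 𝒜 contained in Q. Assume (invariance) that for every Q ≤ S containing a member of 𝒜, every F-automorphism of Q maps I(Q) into itself, and (replacement) that for every subgroup B of S of nilpotency class at most 2, if some member of 𝒜 contains [B,B] but not B, then B normalizes some member of 𝒜 that contains [B,B] but not B. Then F is the inner fusion system of S if and only if the normalizer fusion system of I(S) in F is the inner fusion system of N_S(I(S)).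 -/
theorem result {Ω : Type*} [Group Ω] {S : Subgroup Ω} [Finite S] (p : ℕ) [Fact p.Prime] (hS : IsPGroup p ↥S) (F : Cfsg.FusionSystem S) (hF : F.IsSaturated p) (hp : p ≠ 2) (𝒜 : Set (Subgroup Ω)) (h𝒜 : ∀ A ∈ 𝒜, A ≤ S ∧ IsMulCommutative ↥A) (hne : 𝒜.Nonempty) (hinv : ∀ Q : Subgroup Ω, Q ≤ S → (∃ A ∈ 𝒜, A ≤ Q) → ∀ α ∈ F.autGroup Q, ∀ x : ↥Q, (x : Ω) ∈ (⨅ A ∈ {A : Subgroup Ω | A ∈ 𝒜 ∧ A ≤ Q}, A) → (((α : MulAut ↥Q) x : ↥Q) : Ω) ∈ (⨅ A ∈ {A : Subgroup Ω | A ∈ 𝒜 ∧ A ≤ Q}, A)) (hrep : ∀ B : Subgroup Ω, B ≤ S → ⁅⁅B, B⁆, B⁆ = ⊥ → (∃ A ∈ 𝒜, ⁅B, B⁆ ≤ A ∧ ¬ B ≤ A) → ∃ A ∈ 𝒜, ⁅B, B⁆ ≤ A ∧ ¬ B ≤ A ∧ B ≤ Subgroup.normalizer (A : Set Ω)) : (∀ P : Subgroup Ω, F.Hom P = (Cfsg.innerFusionSystem S).Hom P) ↔ ∀ N : Cfsg.FusionSystem (Cfsg.FusionSystem.normalizerIn S (⨅ A ∈ 𝒜, A)), F.IsNormalizerSystem (⨅ A ∈ 𝒜, A) N → ∀ P : Subgroup Ω, N.Hom P = (Cfsg.innerFusionSystem (Cfsg.FusionSystem.normalizerIn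 S (⨅ A ∈ 𝒜, A))).Hom P := by
  classical
  have hle : ∀ A ∈ 𝒜, A ≤ S := fun A hA => (h𝒜 A hA).1
  have hcomm : ∀ A ∈ 𝒜, ∀ x ∈ A, ∀ y ∈ A, x * y = y * x := by
    intro A hA x hx y hy
    have := (h𝒜 A hA).2
    exact congrArg Subtype.val (this.is_comm.comm ⟨x, hx⟩ ⟨y, hy⟩)
  have hAI : (⨅ A ∈ 𝒜, A) = AI 𝒜 S := by
    apply le_antisymm
    · exact le_sInf fun A hA => iInf₂_le A hA.1
    · exact le_iInf₂ fun A hA => AI_le hA (hle A hA)
  have hAIQ : ∀ Q : Subgroup Ω, (⨅ A ∈ {A : Subgroup Ω | A ∈ 𝒜 ∧ A ≤ Q}, A) = AI 𝒜 Q := by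
    intro Q
    apply le_antisymm
    · exact le_sInf fun A hA => iInf₂_le A hA
    · exact le_iInf₂ fun A hA => AI_le hA.1 hA.2
  have hscS : F.StronglyClosed S :=
    stronglyClosed_iff.2 ⟨le_rfl, fun R f _ hf x hx => hf.mem hx⟩
  have hfam : AxFamF F S 𝒜 := by
    refine ⟨hle, hcomm, hne, ?_, hscS, ?_⟩
    · intro Q hQ hex g hg himg x hx
      obtain ⟨A, hA, hAQ⟩ := hex
      have hxQ : x ∈ Q := hAQ (AI_le hA hAQ hx)
      obtain ⟨α, hα, h1⟩ := hg.exists_aut himg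
      have h2 := hinv Q hQ ⟨A, hA, hAQ⟩ α hα ⟨x, hxQ⟩ (by rw [hAIQ]; exact hx)
      rw [hAIQ] at h2
      rw [← h1 x hxQ, autFun_apply α hxQ]
      exact h2
    · intro B hB _ hcl hU
      exact hrep B hB hcl hU
  have hV : AI 𝒜 S ≤ S := AI_leS hfam
  rw [eq_inner_iff, hAI, ← innerAt_iff_forall hV]
  constructor
  · intro h
    rw [h]; exact innerAt_inner hV
  · intro h
    exact inner_of_ax hp hS hF hfam h
end Cfsg.Agent.S5272
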