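import Cfsg.Statements.S5275
import Cfsg.Agent.H28.AxFus

set_option autoImplicit false
open Cfsg

namespace Cfsg.Agent.S5275

open Cfsg.FusionSystem Cfsg.Agent.H28
open scoped commutatorElement

theorem AI_abIn {Ω : Type*} [Group Ω] {S D : Subgroup Ω} [Finite S] (hD : D ≤ S) :
    AI {A : Subgroup Ω | H2.AbIn D A} S = centerThompsonAOf D := by
  haveI : Finite D := finite_of_le hD
  rw [← WA_ZJaF D]
  have h1 := ZJaF_eq_Zf ↥D
  show _ = (ZJaF ↥D).map D.subtype
  rw [h1]
  apply le_antisymm
  · intro x hx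
    obtain ⟨A₀, hA₀⟩ := H2.exists_abIn (⊤ : Subgroup D)
    have h2 : H2.AbIn D (A₀.map D.subtype) := H2.abIn_top_iff.1 hA₀
    have h3 : x ∈ A₀.map D.subtype := AI_le (𝒜 := {A : Subgroup Ω | H2.AbIn D A}) h2 (h2.1.trans hD) hx
    obtain ⟨y, -, rfl⟩ := h3
    refine ⟨y, ?_, rfl⟩
    rw [SetLike.mem_coe, H2.Zf, Subgroup.mem_sInf]
    intro A hA
    have h4 : H2.AbIn D (A.map D.subtype) := H2.abIn_top_iff.1 hA
    have h5 : D.subtype y ∈ A.map D.subtype :=
      AI_le (𝒜 := {A : Subgroup Ω | H2.AbIn D A}) h4 (h4.1.trans hD) hx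
    exact (Subgroup.mem_map_iff_mem D.subtype_injective).1 h5
  · rintro _ ⟨y, hy, rfl⟩
    rw [AI, Subgroup.mem_sInf]
    intro A hA
    have h4 : H2.AbIn (⊤ : Subgroup D) (A.subgroupOf D) := by
      rw [H2.abIn_top_iff, Subgroup.map_subgroupOf_eq_of_le hA.1.1]; exact hA.1
    have h5 := (Subgroup.mem_sInf.1 hy) _ h4
    exact h5

/-- A Glauberman–Thompson nilpotency criterion for fusion systems relative to a strongly closed subgroup. Let p be an odd prime, F a saturated fusion system over a finite p-group S, and D a subgroup of S that is strongly closed in F. Let Z(J(D)) be the centre of the subgroup of D generated by the abelian subgroups of D of largest order. Then F is the inner fusion system of S if and only if the normalizer fusion system of Z(J(D)) in F is the inner fusion system of N_S(Z(J(D))) = S. -/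
theorem result {Ω : Type*} [Group Ω] {S : Subgroup Ω} [Finite S] (p : ℕ) [Fact p.Prime] (hS : IsPGroup p ↥S) (F : Cfsg.FusionSystem S) (hF : F.IsSaturated p) (hp : p ≠ 2) (D : Subgroup Ω) (hD : F.StronglyClosed D) : (∀ P : Subgroup Ω, F.Hom P = (Cfsg.innerFusionSystem S).Hom P) ↔ ∀ N : Cfsg.FusionSystem (Cfsg.FusionSystem.normalizerIn S (Cfsg.centerThompsonAOf D)), F.IsNormalizerSystem (Cfsg.centerThompsonAOf D) N → ∀ P : Subgroup Ω, N.Hom P = (Cfsg.innerFusionSystem (Cfsg.FusionSystem.normalizerIn S (Cfsg.centerThompsonAOf D))).Hom P := by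
  classical
  have hDS : D ≤ S := hD.1
  haveI : Finite D := finite_of_le hDS
  have hfam : AxFamF F D {A : Subgroup Ω | H2.AbIn D A} := by
    refine ⟨fun A hA => hA.1, ?_, ?_, ?_, hD, ?_⟩
    · intro A hA x hx y hy
      exact congrArg Subtype.val (hA.2.1.is_comm.comm ⟨x, hx⟩ ⟨y, hy⟩)
    · obtain ⟨A₀, hA₀⟩ := H2.exists_abIn (⊤ : Subgroup D)
      exact ⟨_, H2.abIn_top_iff.1 hA₀⟩
    · intro Q hQ hex g hg himg x hx
      rw [AI, Subgroup.mem_sInf]
      rintro A ⟨hA, hAQ⟩
      -- the preimage of `A` under `g`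
      obtain ⟨g', hg', h1, h2⟩ := hg.inverse
      rw [himg] at hg' h2
      have hgm' := hg'.mono hAQ
      have hAg : H2.AbIn D (img A g') := by
        refine ⟨?_, ?_, ?_⟩
        · rw [img_le_iff]
          intro z hz
          exact sc_apply hD hg' (hAQ hz) (hA.1 hz)
        · refine ⟨⟨?_⟩⟩
          rintro ⟨a, ha⟩ ⟨b, hb⟩
          apply Subtype.ext
          show a * b = b * a
          obtain ⟨a', ha', rfl⟩ := hgm'.mem_img.1 ha
          obtain ⟨b', hb', rfl⟩ := hgm'.mem_img.1 hb
          rw [← hgm'.mul ha' hb', ← hgm'.mul hb' ha']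
          have := congrArg Subtype.val (hA.2.1.is_comm.comm ⟨a', ha'⟩ ⟨b', hb'⟩)
          exact congrArg g' this
        · intro B hB hBD
          rw [hgm'.card_img]
          exact hA.2.2 B hB hBD
      have hAgQ : img A g' ≤ Q := by
        rw [img_le_iff]
        intro z hz
        obtain ⟨w, hw, hw'⟩ := hg.mem_img.1 (show z ∈ img Q g by rw [himg]; exact hAQ hz)
        rw [← hw', h1 w hw]; exact hw
      have h3 : x ∈ img A g' := AI_le (𝒜 := {A : Subgroup Ω | H2.AbIn D A}) hAg hAgQ hx
      obtain ⟨a, ha, rfl⟩ := hgm'.mem_img.1 h3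
      have h4 : g (g' a) = a := by
        obtain ⟨w, hw, hw'⟩ := hg.mem_img.1 (show a ∈ img Q g by rw [himg]; exact hAQ ha)
        rw [← hw', h1 w hw]
      rw [h4]; exact ha
    · rintro B hBD hSB - ⟨U, hU, h1, h2⟩
      have hBS := hBD.trans hDS
      haveI hBn : (B.subgroupOf S).Normal := by
        refine ⟨fun x hx s => ?_⟩
        exact (Subgroup.mem_normalizer_iff.1 (hSB s.2) x).1 hx
      haveI hDn : (D.subgroupOf S).Normal := by
        refine ⟨fun x hx s => ?_⟩
        exact H28.sc_conj (F := F) (S := S) hD s.2 hx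
      have hmD : (D.subgroupOf S).map S.subtype = D := Subgroup.map_subgroupOf_eq_of_le hDS
      have hmB : (B.subgroupOf S).map S.subtype = B := Subgroup.map_subgroupOf_eq_of_le hBS
      have hab : ∀ A : Subgroup S, H2.AbIn (D.subgroupOf S) A ↔ H2.AbIn D (A.map S.subtype) := by
        intro A
        have := H2.abIn_map_iff (f := S.subtype) S.subtype_injective (U := D.subgroupOf S) (A := A)
        rw [hmD] at this
        exact this.symm
      have hmle : ∀ A : Subgroup S, (⁅B.subgroupOf S, B.subgroupOf S⁆ ≤ A ↔ ⁅B, B⁆ ≤ A.map S.subtype) ∧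
          (B.subgroupOf S ≤ A ↔ B ≤ A.map S.subtype) := by
        intro A
        constructor
        · rw [← Subgroup.map_le_map_iff_of_injective S.subtype_injective, Subgroup.map_commutator, hmB]
        · rw [← Subgroup.map_le_map_iff_of_injective S.subtype_injective, hmB]
      have hmU : (U.subgroupOf S).map S.subtype = U := Subgroup.map_subgroupOf_eq_of_le (hU.1.trans hDS)
      obtain ⟨A, hA, h3, h4, h5⟩ := H2.replacement_property hS hp (H2.AbIn (D.subgroupOf S))
        (fun A hA => hA.2.1) (B.subgroupOf S) (fun A b hA h => H2.AbIn.repl hS hp hA h)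
        ⟨U.subgroupOf S, (hab _).2 (by rw [hmU]; exact hU), (hmle _).1.2 (by rw [hmU]; exact h1),
          fun h => h2 (by have := (hmle _).2.1 h; rwa [hmU] at this)⟩
      refine ⟨A.map S.subtype, (hab _).1 hA, (hmle _).1.1 h3, fun h => h4 ((hmle _).2.2 h), ?_⟩
      intro b hb
      have h6 := h5 (show (⟨b, hBS hb⟩ : S) ∈ B.subgroupOf S from hb)
      exact Subgroup.le_normalizer_map S.subtype ⟨_, h6, rfl⟩
  have hV : AI {A : Subgroup Ω | H2.AbIn D A} S ≤ S := AI_leS hfam |>.trans hDS
  rw [eq_inner_iff, ← AI_abIn (S := S) hDS, ← innerAt_iff_forall hV]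
  constructor
  · intro h
    rw [h]; exact innerAt_inner hV
  · intro h
    exact inner_of_ax hp hS hF hfam h
end Cfsg.Agent.S5275
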