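import Cfsg.Statements.S5281
import Cfsg.Agent.H13.PStabLoc

set_option autoImplicit false
set_option linter.all false
open Cfsg
open Cfsg.Agent.H28 Cfsg.Agent.H13 Cfsg.FusionSystem Cfsg.Agent

namespace Cfsg.Agent.S5281

open Cfsg.Agent

/-- Let p be an odd prime and F a saturated fusion system over a finite p-group S. Call a fusion system E (over any subgroup) p-stable when, for every fully E-normalized subgroup Q and every χ in Aut_E(Q) with χ(a⁻¹)·a·χ(a⁻¹)·χ(χ(a)) = 1 for all a in Q (χ acts quadratically), χ lies in O_p(Aut_E(Q)). Then F is p-stable if and only if the normalizer fusion system of R in F is p-stable for every fully F-normalized, F-centric, F-radical subgroup R of S. -/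
theorem result {Ω : Type*} [Group Ω] {S : Subgroup Ω} [Finite S] (p : ℕ) [Fact p.Prime] (hS : IsPGroup p ↥S) (F : Cfsg.FusionSystem S) (hF : F.IsSaturated p) (hp : p ≠ 2) : (∀ Q : Subgroup Ω, F.IsFullyNormalized Q → ∀ χ : MulAut ↥Q, χ ∈ F.autGroup Q → (∀ a : ↥Q, (χ a⁻¹) * a * (χ a⁻¹) * (χ (χ a)) = 1) → χ ∈ ((Cfsg.pCore p ↥(F.autGroup Q)).map (F.autGroup Q).subtype : Subgroup (MulAut ↥Q))) ↔ ∀ R : Subgroup Ω, F.IsFullyNormalized R → F.IsCentric R → F.IsRadical p R → ∀ N : Cfsg.FusionSystem (Cfsg.FusionSystem.normalizerIn S R), F.IsNormalizerSystem R N → (∀ Q : Subgroup Ω, N.IsFullyNormalized Q → ∀ χ : MulAut ↥Q, χ ∈ N.autGroup Q → (∀ a : ↥Q, (χ a⁻¹) * a * (χ a⁻¹) * (χ (χ a)) = 1) → χ ∈ ((Cfsg.pCore p ↥(N.autGroup Q)).map (N.autGroup Q).subtype : Subgroup (MulAut ↥Q))) := by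
  constructor
  · intro h R hRn hRc hRr N hN Q hQN χ hχ hq
    have hRS := hRn.1
    have hNe := eq_normSys hRS hN
    subst hNe
    haveI : Finite Q := finite_of_le (hQN.1.trans normalizerIn_le)
    haveI := finite_mulAut (P := Q)
    have hsub : (normSys F R hRS).autGroup Q ≤ F.autGroup Q := by
      intro α hα
      rw [← mor_autFun_iff (hQN.1.trans normalizerIn_le)]
      exact mor_norm_sub (mor_autFun hQN.1 hα)
    exact PL.mem_core_mono hsub hχ (PL.stable_all h (hQN.1.trans normalizerIn_le) (hsub hχ) hq)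
  · intro h Q hQn χ hχ hq
    obtain ⟨f, R, hf, hg, hRn, hRr⟩ := PL.exists_good hS hF _ _ Q le_rfl (PL.good_start hS hF hQn)
    have hRS := hRn.1
    have hQ'K : img Q f ≤ normalizerIn S R := hg.le.trans (le_normalizerIn hRS)
    haveI : Finite (normalizerIn S R) := finite_of_le normalizerIn_le
    haveI : Finite Q := finite_of_le hQn.1
    haveI : Finite (img Q f) := finite_of_le hf.img_le
    haveI := finite_mulAut (P := Q)
    haveI := finite_mulAut (P := img Q f)
    have heq : (normSys F R hRS).autGroup (img Q f) = F.autGroup (img Q f) := by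
      apply le_antisymm
      · intro α hα
        rw [← mor_autFun_iff hf.img_le]
        exact mor_norm_sub (mor_autFun hQ'K hα)
      · intro α hα
        rw [← mor_autFun_iff hQ'K, mor_normSys]
        obtain ⟨g, hgm, hgR, hgx⟩ := hg.ext α hα
        refine ⟨hQ'K, fun x hx => hQ'K (autFun_mem _ hx), g, hgm.mono (sup_le hg.le le_rfl), hgx, hgR⟩
    have h1 := PL.stable_all (F := normSys F R hRS) (h R hRn hg.cent hRr _ (normSys_isNormalizerSystem hRS)) hQ'K
      (χ := hf.transport χ) (by rw [heq]; exact hf.transport_mem hχ) (PL.Quad.transport hf hq)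
    rw [heq] at h1
    have h2 := PL.mem_core_map hf.transport.symm (A := F.autGroup (img Q f)) (B := F.autGroup Q) (fun x => by
      rw [← hf.transport_mem_iff, MulEquiv.apply_symm_apply]) h1
    rwa [MulEquiv.symm_apply_apply] at h2

end Cfsg.Agent.S5281
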