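import Cfsg.Statements.S5284
import Cfsg.Agent.H13.AbInv3

set_option autoImplicit false
set_option linter.all false
open Cfsg

namespace Cfsg.Agent.S5284

open Cfsg.Agent

/-- Let S be a finite abelian p-group. Every saturated fusion system over S is supersoluble (S has a chain of F-strongly closed subgroups from 1 to S with cyclic steps) if and only if the invariants of S are pairwise distinct, that is, S is not isomorphic to a direct product (Z/p^n × Z/p^n) × H with n ≥ 1. -/
theorem result {Ω : Type*} [Group Ω] {S : Subgroup Ω} [Finite S] (p : ℕ) [Fact p.Prime] (hS : IsPGroup p ↥S) (hab : IsMulCommutative ↥S) : (∀ F : Cfsg.FusionSystem S, F.IsSaturated p → (∃ (m : ℕ) (c : Fin (m + 1) → Subgroup Ω), c 0 = ⊥ ∧ c (Fin.last m) = S ∧ (∀ i : Fin (m + 1), F.StronglyClosed (c i)) ∧ ∀ i : Fin m, c i.castSucc ≤ c i.succ ∧ ∃ x ∈ S, c i.succ = c i.castSucc ⊔ Subgroup.zpowers x)) ↔ ¬ ∃ (n : ℕ) (H : Type) (_ : CommGroup H), 0 < n ∧ Nonempty (↥S ≃* (Multiplicative (ZMod (p ^ n))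 × Multiplicative (ZMod (p ^ n))) × H) := by
  have hab' : ∀ x ∈ S, ∀ y ∈ S, x * y = y * x := fun x hx y hy =>
    congrArg Subtype.val (hab.is_comm.comm ⟨x, hx⟩ ⟨y, hy⟩)
  constructor
  · rintro h ⟨n, H, _, hn, ⟨e⟩⟩
    exact H13.exists_bad hn e (H13.aut_of_all_ssf hS h)
  · intro h F hF
    letI : CommGroup S := { (inferInstance : Group S) with mul_comm := hab.is_comm.comm }
    rcases H13.distinct_or_repeated (V := S) hS with ⟨ι, hι, a, ha, ha1, ⟨e⟩⟩ | h'
    · exact H13.ssf_of_aut hS hF (H13.ab_normal hS hF hab') (H13.aut_prop_distinct a ha ha1 e)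
    · exact absurd h' h

end Cfsg.Agent.S5284
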