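import Cfsg.Statements.S5292
import Cfsg.Agent.S5103
import Cfsg.Agent.H13.FusCons
import Cfsg.Agent.H28.Model8
import Cfsg.Agent.H28.Model4
import Cfsg.Agent.H23.PSolvable

set_option autoImplicit false
universe u
set_option linter.all false
open Cfsg
open Cfsg.Agent.H28

namespace Cfsg.Agent.S5292

open Cfsg.Agent

/-- Let F be a saturated fusion system over a finite p-group S. Then F is the fusion system of some finite p-solvable group on a Sylow p-subgroup if and only if F is constrained (some subgroup normal in F is centric in F) and the group of automorphisms that F induces on its largest normal subgroup O_p(F) is p-solvable. -/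
theorem result {Ω : Type u} [Group Ω] {S : Subgroup Ω} [Finite S] (p : ℕ) [Fact p.Prime] (hS : IsPGroup p S)
    (F : Cfsg.FusionSystem S) (hF : F.IsSaturated p) :
    (∃ (G : Type u) (_ : Group G) (_ : Finite G) (ι : S →* G), Cfsg.IsPSolvable p G ∧ F.IsRealizedBy ι ∧
        ∃ T : Sylow p G, (T : Subgroup G) = ι.range) ↔
      (F.IsConstrained p ∧ Cfsg.IsPSolvable p ↥(F.autGroup F.core)) := by
  constructor
  · rintro ⟨G, _, _, ι, hsol, hr, hT⟩
    haveI hK : (pPrimeCore p G).Normal := inferInstance
    obtain ⟨hr₁, hT₁⟩ := realized_quotient hr hT (pPrimeCore p G) (H1.pPrimeCore_coprime p G)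
    have hsol₁ := H23.isPSolvable_quotient (pPrimeCore p G) hsol
    have hM : F.IsModel p (G ⧸ pPrimeCore p G) ((QuotientGroup.mk' (pPrimeCore p G)).comp ι) :=
      ⟨inferInstance, hr₁, hT₁, H23.centralizer_pCore_le hsol₁ (H23.pPrimeCore_quotient_eq_bot p G)⟩
    have hc : F.IsConstrained p := S5103.result p hS F _ hM
    refine ⟨hc, ?_⟩
    obtain ⟨τ, hτ, -⟩ := model_mext hM core_normal (H13.core_centric hc)
    exact H23.isPSolvable_of_surjective τ hτ.surj hsol₁
  · rintro ⟨hc, hA⟩
    obtain ⟨G, _, ι, hM⟩ := model_exists hS hF core_normal (H13.core_centric hc)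
    obtain ⟨hfin, hr, hT, -⟩ := id hM
    refine ⟨G, inferInstance, hfin, ι, ?_, hr, hT⟩
    obtain ⟨τ, hτ, -⟩ := model_mext hM core_normal (H13.core_centric hc)
    have hker : IsPGroup p τ.ker := by
      have h1 : τ.ker ≤ ι.range := fun l hl => hτ.ker l hl
      have h2 : IsPGroup p ι.range := by
        obtain ⟨T, hT⟩ := hT
        rw [← hT]; exact T.isPGroup'
      exact h2.to_le h1
    refine H23.isPSolvable_of_extension τ.ker (H23.isPSolvable_of_isPGroup hker) ?_
    exact H23.isPSolvable_of_equiv (QuotientGroup.quotientKerEquivOfSurjective τ hτ.surj).symm hA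

end Cfsg.Agent.S5292
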