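import Cfsg.Statements.S5296
import Cfsg.Agent.H13.FusBGH

set_option autoImplicit false
universe u
set_option linter.all false
open Cfsg
open Cfsg.Agent.H28

namespace Cfsg.Agent.S5296

open Cfsg.Agent

/-- Small-exponent abelian subgroups of the hyperfocal subgroup control fusion. Let E and F be saturated fusion systems over the same finite p-group S with E contained in F. Suppose that E and F have the same maps between A and B for all subgroups A, B of the hyperfocal subgroup of F that are elementary abelian when p is odd, respectively abelian of exponent dividing 4 when p = 2. Then E = F. -/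
theorem result {Ω : Type u} [Group Ω] {S : Subgroup Ω} [Finite S] (p : ℕ) [Fact p.Prime] (hS : IsPGroup p S)
    (E F : Cfsg.FusionSystem S) (hE : E.IsSaturated p) (hF : F.IsSaturated p) (hEF : E.IsSubsystemOf F)
    (hodd : p ≠ 2 → ∀ A B : Subgroup Ω, A ≤ (F.hyperfocalSubgroup p) → B ≤ (F.hyperfocalSubgroup p) →
      Cfsg.IsElementaryAbelian p A → Cfsg.IsElementaryAbelian p B → E.homSet A B = F.homSet A B)
    (htwo : p = 2 → ∀ A B : Subgroup Ω, A ≤ (F.hyperfocalSubgroup p) → B ≤ (F.hyperfocalSubgroup p) →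
      IsMulCommutative ↥A → IsMulCommutative ↥B → (∀ a ∈ A, a ^ 4 = 1) → (∀ b ∈ B, b ^ 4 = 1) → E.homSet A B = F.homSet A B) :
    ∀ P : Subgroup Ω, E.Hom P = F.Hom P := by
  have hEF' : ∀ P f, Mor E P f → Mor F P f := by
    rintro P f ⟨φ, hφ, h⟩
    exact ⟨φ, hEF P hφ, h⟩
  have hXsc := hyp_stronglyClosed hS hF
  have h1 : F ≤ E := by
    refine H13.le_of_small hS hE hF hEF' fun A f hA hc hexp hf => ?_
    obtain ⟨φ, hφ, hφf⟩ := id hf
    have hB : img A f ≤ F.hyperfocalSubgroup p :=
      img_le_iff.2 fun x hx => sc_apply hXsc hf hx (hA hx)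
    have hAc : IsMulCommutative ↥A := ⟨⟨fun a b => Subtype.ext (hc a a.2 b b.2)⟩⟩
    have hBc : IsMulCommutative ↥(img A f) := ⟨⟨fun a b => Subtype.ext (by
      obtain ⟨x, hx, hxa⟩ := hf.mem_img.1 a.2
      obtain ⟨y, hy, hyb⟩ := hf.mem_img.1 b.2
      show (a : Ω) * b = b * a
      rw [← hxa, ← hyb, ← hf.mul hx hy, ← hf.mul hy hx, hc x hx y hy])⟩⟩
    have hmem : φ ∈ F.homSet A (img A f) := ⟨hφ, fun x => by rw [hφf]; exact mem_img_of_mem x.2⟩
    by_cases hp2 : p = 2
    · have h4 : ∀ a ∈ A, a ^ 4 = 1 := by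
        intro a ha
        have := hexp a ha
        simpa [H13.smallExp, hp2] using this
      have h4' : ∀ b ∈ img A f, b ^ 4 = 1 := by
        intro b hb
        obtain ⟨x, hx, rfl⟩ := hf.mem_img.1 hb
        rw [← hf.pow hx, h4 x hx, hf.one]
      rw [← htwo hp2 A (img A f) hA hB hAc hBc h4 h4'] at hmem
      exact ⟨φ, hmem.1, hφf⟩
    · have h4 : ∀ a ∈ A, a ^ p = 1 := by
        intro a ha
        have := hexp a ha
        simpa [H13.smallExp, hp2] using this
      have h4' : ∀ b ∈ img A f, b ^ p = 1 := by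
        intro b hb
        obtain ⟨x, hx, rfl⟩ := hf.mem_img.1 hb
        rw [← hf.pow hx, h4 x hx, hf.one]
      rw [← hodd hp2 A (img A f) hA hB ⟨hAc, h4⟩ ⟨hBc, h4'⟩] at hmem
      exact ⟨φ, hmem.1, hφf⟩
  intro P
  exact Set.Subset.antisymm (hEF P) (h1 P)

end Cfsg.Agent.S5296
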