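import Cfsg.Statements.S5521
import Cfsg.Agent.H29.M24Hex

set_option autoImplicit false
open Cfsg

namespace Cfsg.Agent.S5521

open Cfsg.Agent.H7 Cfsg.Agent.H29

/-- The Mathieu group M₂₄ in its natural action on the 24 coordinate positions of the binary Golay code has minimal base size exactly 7: every set of at most 6 positions is fixed pointwise by some non-identity element of M₂₄, while some set of 7 positions is fixed pointwise only by the identity. -/
theorem result :
    (∀ B : Finset Cfsg.GolayPt, B.card ≤ 6 → ∃ g ∈ Cfsg.M24, g ≠ 1 ∧ ∀ b ∈ B, g b = b) ∧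
    (∃ B : Finset Cfsg.GolayPt, B.card = 7 ∧ ∀ g ∈ Cfsg.M24, (∀ b ∈ B, g b = b) → g = 1) := by
  constructor
  · intro B hB
    obtain ⟨E, hBE, hE⟩ : ∃ E : Finset Cfsg.GolayPt, B ⊆ E ∧ E.card = 6 :=
      Finset.exists_superset_card_eq hB (by
        have : Fintype.card Cfsg.GolayPt = 24 := rfl
        rw [this]; norm_num)
    have h1 : 1 < Nat.card {g : Equiv.Perm Cfsg.GolayPt // g ∈ Cfsg.M24 ∧ ∀ p ∈ E, g p = p} := by
      by_cases h : ∃ o ∈ Cfsg.octads, E ⊆ o
      · rw [(hex_fix_card E hE).1 h]; norm_num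
      · rw [(hex_fix_card E hE).2 h]; norm_num
    have : Finite {g : Equiv.Perm Cfsg.GolayPt // g ∈ Cfsg.M24 ∧ ∀ p ∈ E, g p = p} :=
      Subtype.finite
    rw [Finite.one_lt_card_iff_nontrivial] at h1
    obtain ⟨a, ha⟩ := exists_ne (⟨1, Cfsg.M24.one_mem, fun _ _ => rfl⟩ :
      {g : Equiv.Perm Cfsg.GolayPt // g ∈ Cfsg.M24 ∧ ∀ p ∈ E, g p = p})
    exact ⟨a.1, a.2.1, fun h => ha (Subtype.ext h), fun b hb => a.2.2 b (hBE hb)⟩
  · refine ⟨(Finset.range 7).image bp, ?_, ?_⟩
    · rw [Finset.card_image_of_injOn, Finset.card_range]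
      intro i hi j hj h
      exact bp_injOn i (Finset.mem_range.1 hi) j (Finset.mem_range.1 hj) h
    · intro g hg h
      apply SB_seven
      exact ⟨hg, fun i hi => h _ (Finset.mem_image.2 ⟨i, Finset.mem_range.2 hi, rfl⟩)⟩

end Cfsg.Agent.S5521
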