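import Cfsg.Statements.S5562


set_option autoImplicit false
open Cfsg

namespace Cfsg.Agent.S5562

theorem conj_rot {G : Type*} [Group G] {e r : G} (he : e * e = 1) (h : e * r * e = r⁻¹) (k : ℕ) :
    e * r ^ k * e = (r ^ k)⁻¹ := by
  have he' : e⁻¹ = e := inv_eq_of_mul_eq_one_right he
  have : e * r ^ k * e⁻¹ = (e * r * e⁻¹) ^ k := (conj_pow).symm
  rw [he'] at this
  rw [this, h, inv_pow]

/-- Let G be a finite group, d an involution of G whose conjugates pairwise have products of odd order, and x any involution of G. Then the conjugacy class of d is the disjoint union, over the conjugates a of d commuting with x, of the sets of conjugates of d commuting with ax: every conjugate of d commutes with ax for exactly one conjugate a of d that commutes with x. -/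
theorem result {G : Type*} [Group G] [Finite G] (d : G) (hd : orderOf d = 2)
    (hodd : ∀ a ∈ conjugatesOf d, ∀ b ∈ conjugatesOf d, Odd (orderOf (a * b)))
    (x : G) (hx : orderOf x = 2) :
    ∀ e ∈ conjugatesOf d,
      ∃! a : G, a ∈ conjugatesOf d ∧ Commute a x ∧ Commute e (a * x) := by
  have hsq : ∀ {a : G}, orderOf a = 2 → a * a = 1 := by
    intro a h
    have := pow_orderOf_eq_one a; rw [h, pow_two] at this; exact this
  have hDinv : ∀ a ∈ conjugatesOf d, a * a = 1 := by
    intro a ha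
    apply hsq
    obtain ⟨g, hg⟩ := isConj_iff.1 (show IsConj d a from ha)
    rw [← hg, ← hd]
    exact orderOf_injective (MulAut.conj g).toMonoidHom (MulAut.conj g).injective d
  have hDconj : ∀ (g : G), ∀ a ∈ conjugatesOf d, g * a * g⁻¹ ∈ conjugatesOf d := by
    intro g a ha
    exact IsConj.trans (show IsConj d a from ha) (isConj_iff.2 ⟨g, rfl⟩)
  intro e he
  have hee := hDinv e he
  have he' : e⁻¹ = e := inv_eq_of_mul_eq_one_right hee
  have hxx := hsq hx
  have hx' : x⁻¹ = x := inv_eq_of_mul_eq_one_right hxx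
  set f := x * e * x⁻¹ with hf
  have hfD : f ∈ conjugatesOf d := hDconj x e he
  have hff := hDinv f hfD
  have hf' : f⁻¹ = f := inv_eq_of_mul_eq_one_right hff
  set r := e * f with hr
  obtain ⟨k, hk⟩ := hodd e he f hfD
  have hrn : r ^ (2 * k + 1) = 1 := by rw [← hk]; exact pow_orderOf_eq_one _
  have hrinv : r⁻¹ = f * e := by rw [hr, mul_inv_rev, he', hf']
  have hrot : e * r * e = r⁻¹ := by
    rw [hrinv, hr, ← mul_assoc, hee, one_mul]
  have hef : e * r = f := by rw [hr, ← mul_assoc, hee, one_mul]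
  -- the element a
  set a := e * r ^ (k + 1) with ha
  have hrk := conj_rot hee hrot (k + 1)
  have h2k : r ^ (k + 1) * r ^ (k + 1) = r := by
    rw [← pow_add, show k + 1 + (k + 1) = (2 * k + 1) + 1 by ring, pow_succ, hrn, one_mul]
  have haa : a * a = 1 := by
    rw [ha]
    calc e * r ^ (k + 1) * (e * r ^ (k + 1)) = e * r ^ (k + 1) * e * r ^ (k + 1) := by
          simp only [mul_assoc]
      _ = 1 := by rw [hrk, inv_mul_cancel]
  have ha' : a⁻¹ = a := inv_eq_of_mul_eq_one_right haa
  have haea : a * e * a⁻¹ = f := by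
    rw [ha', ha]
    calc e * r ^ (k + 1) * e * (e * r ^ (k + 1)) = e * r ^ (k + 1) * (e * e) * r ^ (k + 1) := by
          simp only [mul_assoc]
      _ = e * (r ^ (k + 1) * r ^ (k + 1)) := by rw [hee, mul_one, mul_assoc]
      _ = f := by rw [h2k, hef]
  have hrk2 : r ^ (k + 1) = (r ^ k)⁻¹ := by
    rw [eq_inv_iff_mul_eq_one, ← pow_add, show k + 1 + k = 2 * k + 1 by ring, hrn]
  have haD : a ∈ conjugatesOf d := by
    -- a is the conjugate of f by a power of r
    -- r^j e r^-j = e r^(-2j)
    have hc : ∀ j : ℕ, (r ^ j) * e * (r ^ j)⁻¹ = e * (r ^ (2 * j))⁻¹ := by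
      intro j
      have h1 := conj_rot hee hrot j
      have h2 : r ^ j * e = e * (r ^ j)⁻¹ := by
        rw [← h1]
        calc r ^ j * e = e * e * r ^ j * e := by rw [hee, one_mul]
          _ = e * (e * r ^ j * e) := by simp only [mul_assoc]
      rw [h2, mul_assoc, ← mul_inv_rev, ← pow_add, two_mul]
    have hj := hDconj (r ^ (k * (k + 1))) e he
    rw [hc (k * (k + 1))] at hj
    have : (r ^ (2 * (k * (k + 1))))⁻¹ = r ^ (k + 1) := by
      rw [inv_eq_iff_mul_eq_one, ← pow_add,
        show 2 * (k * (k + 1)) + (k + 1) = (2 * k + 1) * (k + 1) by ring, pow_mul, hrn, one_pow]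
    rw [this] at hj
    exact hj
  have hxrx : x * r * x⁻¹ = r⁻¹ := by
    have h1 : x * f * x⁻¹ = e := by
      rw [hf, hx']
      calc x * (x * e * x) * x = (x * x) * e * (x * x) := by simp only [mul_assoc]
        _ = e := by rw [hxx]; simp
    calc x * r * x⁻¹ = (x * e * x⁻¹) * (x * f * x⁻¹) := by rw [hr]; group
      _ = f * e := by rw [h1]
      _ = r⁻¹ := hrinv.symm
  have hax : Commute a x := by
    have h1 : x * a * x⁻¹ = a := by
      calc x * a * x⁻¹ = (x * e * x⁻¹) * (x * r ^ (k + 1) * x⁻¹) := by rw [ha]; group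
        _ = f * (r ^ (k + 1))⁻¹ := by rw [← conj_pow, hxrx, inv_pow]
        _ = e * r * (r ^ (k + 1))⁻¹ := by rw [hef]
        _ = e * r ^ (k + 1) := by
            rw [mul_assoc]
            congr 1
            rw [mul_inv_eq_iff_eq_mul]
            exact h2k.symm
    exact (mul_inv_eq_iff_eq_mul.1 h1).symm
  have hexa : Commute e (a * x) := by
    have h1 : (a * x) * e * (a * x)⁻¹ = e := by
      calc (a * x) * e * (a * x)⁻¹ = a * (x * e * x⁻¹) * a⁻¹ := by group
        _ = a * (a * e * a⁻¹) * a⁻¹ := by rw [haea]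
        _ = (a * a) * e * (a * a)⁻¹ := by group
        _ = e := by rw [haa]; group
    exact (mul_inv_eq_iff_eq_mul.1 h1).symm
  refine ⟨a, ⟨haD, hax, hexa⟩, ?_⟩
  rintro b ⟨hbD, hbx, hebx⟩
  have hbb := hDinv b hbD
  have hb' : b⁻¹ = b := inv_eq_of_mul_eq_one_right hbb
  have hbe : b * e * b⁻¹ = f := by
    have h1 : (b * x) * e * (b * x)⁻¹ = e := by
      rw [← hebx.eq]; group
    have h2 : b * f * b⁻¹ = e := by
      rw [← h1]; rw [hf]; group
    calc b * e * b⁻¹ = b * (b * f * b⁻¹) * b⁻¹ := by rw [h2]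
      _ = (b * b) * f * (b * b)⁻¹ := by group
      _ = f := by rw [hbb]; group
  -- (e*b)^2 = r
  have hs : (e * b) ^ 2 = r := by
    rw [pow_two, hr, ← hbe, hb']; group
  obtain ⟨m, hm⟩ := hodd e he b hbD
  have hem : (e * b) ^ (2 * m + 1) = 1 := by rw [← hm]; exact pow_orderOf_eq_one _
  have h3 : e * b = r ^ (m + 1) := by
    rw [← hs, ← pow_mul, show 2 * (m + 1) = (2 * m + 1) + 1 by ring, pow_succ, hem, one_mul]
  have h4 : r ^ (m + 1) = r ^ (k + 1) := by
    -- both are square roots of r of odd order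
    have hcomm : Commute (r ^ (m+1)) (r ^ (k+1)) := (Commute.refl r).pow_pow _ _
    have e1 : (r ^ (m + 1)) ^ 2 = r := by rw [← h3, hs]
    have e2 : (r ^ (k + 1)) ^ 2 = r := by rw [pow_two, h2k]
    have hord : r ^ (2 * m + 1) = 1 := by
      rw [← hs, ← pow_mul, mul_comm, pow_mul, hem, one_pow]
    calc r ^ (m + 1) = (r ^ (k + 1) * r ^ (k + 1)) ^ (m + 1) := by rw [h2k]
      _ = r ^ (k + 1) * (r ^ (2 * m + 1)) ^ (k + 1) := by
          rw [← pow_add, ← pow_mul, ← pow_mul, ← pow_add]
          congr 1; ring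
      _ = r ^ (k + 1) := by rw [hord, one_pow, mul_one]
  calc b = e * (e * b) := by rw [← mul_assoc, hee, one_mul]
    _ = a := by rw [h3, h4]

end Cfsg.Agent.S5562
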