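import Cfsg.Statements.S5713
import Cfsg.Agent.H12.MinDeg4

set_option autoImplicit false
open Cfsg

namespace Cfsg.Agent.S5713

/-- A classification-free minimal-degree bound. Let G be a finite group acting faithfully and primitively on a finite set Ω with n elements, and suppose that the image of G in the symmetric group on Ω does not contain the alternating group on Ω. Then every non-identity element of G moves at least (√n − 1)/2 points of Ω, that is, it fixes at most n − (√n − 1)/2 points. -/
theorem result {G Ω : Type*} [Group G] [Finite G] [MulAction G Ω] [FaithfulSMul G Ω] [Fintype Ω] [DecidableEq Ω]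
    (hprim : MulAction.IsPreprimitive G Ω)
    (hA : ¬ alternatingGroup Ω ≤ (MulAction.toPermHom G Ω).range)
    (g : G) (hg : g ≠ 1) :
    (Real.sqrt (Fintype.card Ω) - 1) / 2 ≤ (Fintype.card Ω : ℝ) - Nat.card (MulAction.fixedBy Ω g) := by
  have h1 := Cfsg.Agent.H12.MD.final_bound hprim hA g hg
  have h2 : (Finset.univ.filter (fun y : Ω => g • y ≠ y)).card + Nat.card (MulAction.fixedBy Ω g) = Fintype.card Ω := by
    have h3 : Nat.card (MulAction.fixedBy Ω g) = (Finset.univ.filter (fun y : Ω => g • y = y)).card := by
      rw [← Fintype.card_subtype, ← Nat.card_eq_fintype_card]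
      rfl
    rw [h3, ← Finset.card_univ, add_comm, ← Finset.card_filter_add_card_filter_not (s := Finset.univ) (fun y : Ω => g • y = y)]
  set m := (Finset.univ.filter (fun y : Ω => g • y ≠ y)).card with hm
  have h4 : (Fintype.card Ω : ℝ) = m + Nat.card (MulAction.fixedBy Ω g) := by
    rw [← h2]; push_cast; ring
  have h5 : (Fintype.card Ω : ℝ) ≤ (2 * (m : ℝ) + 1) ^ 2 := by
    exact_mod_cast h1
  have h6 : Real.sqrt (Fintype.card Ω) ≤ 2 * (m : ℝ) + 1 := by
    rw [Real.sqrt_le_left (by positivity)]
    exact h5
  have h7 : (Fintype.card Ω : ℝ) - Nat.card (MulAction.fixedBy Ω g) = m := by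
    rw [h4]; ring
  rw [h7]
  linarith

end Cfsg.Agent.S5713
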