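import Cfsg.Statements.S5729
import Mathlib.Tactic.Linarith
import Mathlib.Tactic.Ring
import Cfsg.Agent.H13.Burnside

set_option autoImplicit false
open Cfsg

namespace Cfsg.Agent.S5729

/-- Let a finite group G act faithfully and transitively on a set with n ≥ 3 points. Then either G is a Frobenius permutation group (Frobenius as a permutation group: transitive, some non-identity element fixes a point, and no non-identity element fixes two points) of order n(n − 1) and exactly |G|/n of its elements are derangements (fix no point), or the number of derangements is greater than |G|/n. -/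
theorem result {G Ω : Type*} [Group G] [Finite G] [MulAction G Ω] [FaithfulSMul G Ω] [Fintype Ω] (htr : MulAction.IsPretransitive G Ω) (hn : 3 ≤ Fintype.card Ω) :
    ((MulAction.IsPretransitive G Ω ∧ (∃ g : G, g ≠ 1 ∧ ∃ ω : Ω, g • ω = ω) ∧ ∀ g : G, g ≠ 1 → Nat.card (MulAction.fixedBy Ω g) ≤ 1) ∧ Nat.card G = Fintype.card Ω * (Fintype.card Ω - 1) ∧ Fintype.card Ω * Nat.card {g : G // ∀ ω : Ω, g • ω ≠ ω} = Nat.card G) ∨
    Nat.card G < Fintype.card Ω * Nat.card {g : G // ∀ ω : Ω, g • ω ≠ ω} := by
  classical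
  have : Fintype G := Fintype.ofFinite G
  set n := Fintype.card Ω with hndef
  have hn' : Nat.card Ω = n := by rw [Nat.card_eq_fintype_card]
  have hΩne : Nonempty Ω := by
    rw [← Fintype.card_pos_iff]; omega
  set f : G → ℕ := fun g => Nat.card (MulAction.fixedBy Ω g) with hf
  have hs1 : ∑ g : G, f g = Nat.card G := H13.sum_card_fixedBy_of_pretransitive
  have hs2 : ∑ g : G, f g ^ 2 = Nat.card (MulAction.orbitRel.Quotient G (Ω × Ω)) * Nat.card G :=
    H13.sum_card_fixedBy_sq
  have hr : 2 ≤ Nat.card (MulAction.orbitRel.Quotient G (Ω × Ω)) := H13.two_le_rank (by omega)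
  set r := Nat.card (MulAction.orbitRel.Quotient G (Ω × Ω)) with hrdef
  have hfle : ∀ g, f g ≤ n := by
    intro g
    rw [← hn', hf]
    simp only [Nat.card_coe_set_eq]
    rw [← Set.ncard_univ]
    exact Set.ncard_le_ncard (Set.subset_univ _)
  set D : Finset G := Finset.univ.filter (fun g => f g = 0) with hD
  have hder : Nat.card {g : G // ∀ ω : Ω, g • ω ≠ ω} = D.card := by
    rw [Nat.card_eq_fintype_card, Fintype.card_subtype]
    congr 1
    ext g
    simp only [Finset.mem_filter, Finset.mem_univ, true_and, hD, hf]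
    rw [Nat.card_coe_set_eq, Set.ncard_eq_zero, Set.eq_empty_iff_forall_notMem]
    rfl
  rw [hder]
  -- the counting function
  have hterm : ∀ g : G, ((f g : ℤ) - 1) * ((f g : ℤ) - n) ≤ if f g = 0 then (n : ℤ) else 0 := by
    intro g
    split_ifs with h0
    · rw [h0]; simp
    · have h1 : (1 : ℤ) ≤ f g := by exact_mod_cast Nat.one_le_iff_ne_zero.mpr h0
      have h2 : (f g : ℤ) ≤ n := by exact_mod_cast hfle g
      nlinarith
  have hsum : ∑ g : G, ((f g : ℤ) - 1) * ((f g : ℤ) - n) = ((r : ℤ) - 1) * Nat.card G := by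
    have e1 : ∀ g : G, ((f g : ℤ) - 1) * ((f g : ℤ) - n) = (f g : ℤ) ^ 2 - (n + 1) * f g + n := by
      intro g; ring
    simp only [e1]
    rw [Finset.sum_add_distrib, Finset.sum_sub_distrib, ← Finset.mul_sum]
    have e2 : ∑ g : G, (f g : ℤ) ^ 2 = (r : ℤ) * Nat.card G := by exact_mod_cast hs2
    have e3 : ∑ g : G, (f g : ℤ) = Nat.card G := by exact_mod_cast hs1
    rw [e2, e3, Finset.sum_const, Finset.card_univ, ← Nat.card_eq_fintype_card]
    simp only [nsmul_eq_mul]
    ring
  have hsum2 : ∑ g : G, (if f g = 0 then (n : ℤ) else 0) = n * D.card := by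
    rw [← Finset.sum_filter, Finset.sum_const, nsmul_eq_mul, mul_comm]
  by_cases hlt : Nat.card G < n * D.card
  · exact Or.inr hlt
  left
  push Not at hlt
  have hGpos : 0 < Nat.card G := Nat.card_pos
  have hle1 : ((r : ℤ) - 1) * Nat.card G ≤ n * D.card := by
    rw [← hsum, ← hsum2]; exact Finset.sum_le_sum (fun g _ => hterm g)
  have hge1 : (Nat.card G : ℤ) ≤ ((r : ℤ) - 1) * Nat.card G := by
    have : (2 : ℤ) ≤ r := by exact_mod_cast hr
    nlinarith
  have hlt' : (n : ℤ) * D.card ≤ Nat.card G := by exact_mod_cast hlt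
  have heq : n * D.card = Nat.card G := by
    have : (n : ℤ) * D.card = Nat.card G := le_antisymm hlt' (hge1.trans hle1)
    exact_mod_cast this
  -- equality in each term
  have hall : ∀ g : G, ((f g : ℤ) - 1) * ((f g : ℤ) - n) = if f g = 0 then (n : ℤ) else 0 := by
    have h1 : ∑ g : G, ((f g : ℤ) - 1) * ((f g : ℤ) - n) = ∑ g : G, (if f g = 0 then (n : ℤ) else 0) := by
      rw [hsum, hsum2]
      apply le_antisymm hle1
      exact hlt'.trans hge1
    have h2 := (Finset.sum_eq_sum_iff_of_le (fun g _ => hterm g)).mp h1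
    exact fun g => h2 g (Finset.mem_univ g)
  have hfix1 : ∀ g : G, g ≠ 1 → f g ≤ 1 := by
    intro g hg
    by_contra hcon
    push Not at hcon
    have h1 := hall g
    rw [if_neg (by omega)] at h1
    rcases mul_eq_zero.mp h1 with h2 | h2
    · omega
    · have h3 : f g = n := by omega
      apply hg
      apply eq_of_smul_eq_smul (α := Ω)
      intro ω
      have h4 : MulAction.fixedBy Ω g = Set.univ := by
        apply Set.eq_of_subset_of_ncard_le (Set.subset_univ _)
        rw [Set.ncard_univ, hn', ← h3, hf]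
        simp only [Nat.card_coe_set_eq]
        exact le_rfl
      have h5 : ω ∈ MulAction.fixedBy Ω g := by rw [h4]; trivial
      rw [one_smul]
      exact h5
  have hf1 : f 1 = n := by
    rw [hf, ← hn']
    simp only [Nat.card_coe_set_eq]
    rw [MulAction.fixedBy_one_eq_univ, Set.ncard_univ]
  -- order of G
  have hsplit : (Nat.card G : ℤ) = n + (Nat.card G - 1 - D.card) := by
    have h1 : ∀ g : G, (f g : ℤ) = 1 - (if f g = 0 then 1 else 0) + (if g = 1 then ((n : ℤ) - 1) else 0) := by
      intro g
      by_cases hg : g = 1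
      · subst hg
        rw [hf1, if_neg (by omega), if_pos rfl]; ring
      · have := hfix1 g hg
        rw [if_neg hg]
        by_cases h0 : f g = 0
        · rw [if_pos h0, h0]; simp
        · rw [if_neg h0]
          have : f g = 1 := by omega
          rw [this]; simp
    have h2 : (∑ g : G, (f g : ℤ)) = Nat.card G := by exact_mod_cast hs1
    rw [Finset.sum_congr rfl (fun g _ => h1 g)] at h2
    rw [Finset.sum_add_distrib, Finset.sum_sub_distrib, Finset.sum_ite_eq' Finset.univ (1 : G),
      if_pos (Finset.mem_univ _), ← Finset.sum_filter, Finset.sum_const, Finset.sum_const, Finset.card_univ,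
      ← Nat.card_eq_fintype_card] at h2
    simp only [nsmul_eq_mul, mul_one] at h2
    rw [← hD] at h2
    linarith
  have hDn : (D.card : ℤ) = n - 1 := by linarith
  have hGn : Nat.card G = n * (n - 1) := by
    rw [← heq]
    congr 1
    omega
  refine ⟨⟨htr, ?_, hfix1⟩, hGn, heq⟩
  obtain ⟨ω⟩ := hΩne
  have h1 := H13.card_orbit_mul_card_stabilizer (G := G) ω
  rw [MulAction.orbit_eq_univ G ω, Nat.card_univ, hn', hGn] at h1
  have h2 : Nat.card (MulAction.stabilizer G ω) = n - 1 := Nat.eq_of_mul_eq_mul_left (by omega) h1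
  have h3 : Nontrivial (MulAction.stabilizer G ω) := by
    rw [← Finite.one_lt_card_iff_nontrivial, h2]; omega
  obtain ⟨⟨g, hg⟩, hg1⟩ := exists_ne (1 : MulAction.stabilizer G ω)
  exact ⟨g, fun h => hg1 (Subtype.ext h), ω, hg⟩

end Cfsg.Agent.S5729
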