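import Cfsg.Statements.S5738
import Mathlib.FieldTheory.Galois.Basic
import Mathlib.FieldTheory.Finite.GaloisField
import Mathlib.FieldTheory.Finiteness

set_option autoImplicit false
open Cfsg

namespace Cfsg.Agent.S5738

/-- Let F ⊆ K be finite fields with |F| = q and [K : F] = n ≥ 2, so |K| = q^n. Regard K as an n-dimensional F-vector space; the multiplications by non-zero elements of K form a cyclic subgroup of GL_F(K) of order q^n − 1 acting regularly on the non-zero vectors (a Singer group). Its normaliser in GL_F(K) has order n·(q^n − 1). -/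
theorem result {F K : Type*} [Field F] [Fintype F] [Field K] [Fintype K] [Algebra F K] (n : ℕ) (hn : 2 ≤ n) (hdim : Module.finrank F K = n) :
    Nat.card (Subgroup.normalizer (((Units.map ((Algebra.lmul F K : K →ₐ[F] Module.End F K) : K →* Module.End F K)).range : Subgroup (Module.End F K)ˣ) : Set (Module.End F K)ˣ)) = n * (Fintype.card K - 1) := by
  classical
  set φ : K →* Module.End F K := ((Algebra.lmul F K : K →ₐ[F] Module.End F K) : K →* Module.End F K) with hφ
  have hφa : ∀ x y : K, φ x y = x * y := fun _ _ => rfl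
  set M := (Units.map φ).range with hM
  have hfinE : Finite (Module.End F K) := Module.finite_of_finite F
  have hfinU : Finite (Module.End F K)ˣ := inferInstance
  -- the Galois automorphism as a unit
  let γ : (K ≃ₐ[F] K) → (Module.End F K)ˣ := fun σ =>
    ⟨σ.toLinearMap, σ.symm.toLinearMap, by ext x; simp, by ext x; simp⟩
  have hγ : ∀ (σ : K ≃ₐ[F] K) (x : K), (γ σ : Module.End F K) x = σ x := fun _ _ => rfl
  have hγinv : ∀ (σ : K ≃ₐ[F] K) (x : K), ((γ σ)⁻¹ : (Module.End F K)ˣ).1 x = σ.symm x := fun _ _ => rfl
  have hconj : ∀ (σ : K ≃ₐ[F] K) (u : Kˣ), γ σ * Units.map φ u * (γ σ)⁻¹ = Units.map φ (Units.map (σ : K →* K) u) := by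
    intro σ u
    ext x
    change (γ σ : Module.End F K) ((φ u) (((γ σ)⁻¹ : (Module.End F K)ˣ).1 x)) = φ (σ u) x
    rw [hγinv, hφa, hγ, hφa, map_mul]; simp
  have hγN : ∀ σ, γ σ ∈ Subgroup.normalizer (M : Set (Module.End F K)ˣ) := by
    intro σ
    rw [Subgroup.mem_normalizer_iff]
    intro x
    constructor
    · rintro ⟨u, rfl⟩
      exact ⟨Units.map (σ : K →* K) u, (hconj σ u).symm⟩
    · rintro ⟨u, hu⟩
      refine ⟨Units.map (σ.symm : K →* K) u, ?_⟩
      have h1 := hconj σ (Units.map (σ.symm : K →* K) u)
      have h2 : Units.map (σ : K →* K) (Units.map (σ.symm : K →* K) u) = u := by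
        ext; simp
      rw [h2, hu] at h1
      have h3 := mul_right_cancel h1
      exact mul_left_cancel h3
  let Φ : (K ≃ₐ[F] K) × Kˣ → Subgroup.normalizer (M : Set (Module.End F K)ˣ) := fun p =>
    ⟨Units.map φ p.2 * γ p.1, Subgroup.mul_mem _ (Subgroup.le_normalizer ⟨p.2, rfl⟩) (hγN p.1)⟩
  have hΦ : ∀ p x, ((Φ p : (Module.End F K)ˣ) : Module.End F K) x = (p.2 : K) * p.1 x := fun _ _ => rfl
  have hbij : Function.Bijective Φ := by
    constructor
    · rintro ⟨σ, u⟩ ⟨τ, v⟩ h
      have h1 : ∀ x, (u : K) * σ x = v * τ x := by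
        intro x
        rw [← hΦ (σ, u), ← hΦ (τ, v), h]
      have huv : u = v := by
        have := h1 1
        rw [map_one, map_one, mul_one, mul_one] at this
        exact Units.ext this
      subst huv
      have : σ = τ := by
        ext x
        exact mul_left_cancel₀ u.ne_zero (h1 x)
      rw [this]
    · rintro ⟨g, hg⟩
      -- `g 1 ≠ 0`
      have hginj : Function.Injective (g : Module.End F K) := by
        intro x y hxy
        have := congrArg ((g⁻¹ : (Module.End F K)ˣ) : Module.End F K) hxy
        rw [← Module.End.mul_apply, ← Module.End.mul_apply, ← Units.val_mul, inv_mul_cancel] at this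
        simpa using this
      have hg1 : (g : Module.End F K) 1 ≠ 0 := by
        intro h
        have h2 : (g : Module.End F K) 1 = (g : Module.End F K) 0 := by rw [h, map_zero]
        exact one_ne_zero (hginj h2)
      set u : Kˣ := Units.mk0 _ hg1 with hu
      set g' : (Module.End F K)ˣ := Units.map φ u⁻¹ * g with hg'
      have hg'a : ∀ x, (g' : Module.End F K) x = ((u⁻¹ : Kˣ) : K) * (g : Module.End F K) x := fun _ => rfl
      have hg'1 : (g' : Module.End F K) 1 = 1 := by
        rw [hg'a, hu]; simp [inv_mul_cancel₀ hg1]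
      have hg'N : g' ∈ Subgroup.normalizer (M : Set (Module.End F K)ˣ) :=
        Subgroup.mul_mem _ (Subgroup.le_normalizer ⟨u⁻¹, rfl⟩) hg
      have hmul : ∀ x y : K, (g' : Module.End F K) (x * y) = (g' : Module.End F K) x * (g' : Module.End F K) y := by
        intro x y
        by_cases hx : x = 0
        · subst hx; simp
        · obtain ⟨v, hv⟩ := ((Subgroup.mem_normalizer_iff.mp hg'N) (Units.map φ (Units.mk0 x hx))).mp ⟨_, rfl⟩
          have h1 : Units.map φ v * g' = g' * Units.map φ (Units.mk0 x hx) := by rw [hv]; group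
          have h2 : ∀ z : K, (v : K) * (g' : Module.End F K) z = (g' : Module.End F K) (x * z) := by
            intro z
            exact congrArg (fun f : (Module.End F K)ˣ => (f : Module.End F K) z) h1
          have h3 := h2 1
          rw [hg'1, mul_one, mul_one] at h3
          rw [← h2 y, h3]
      have hg'inj : Function.Injective (g' : Module.End F K) := by
        intro x y hxy
        have := congrArg ((g'⁻¹ : (Module.End F K)ˣ) : Module.End F K) hxy
        rw [← Module.End.mul_apply, ← Module.End.mul_apply, ← Units.val_mul, inv_mul_cancel] at this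
        simpa using this
      let σh : K →ₐ[F] K := AlgHom.ofLinearMap (g' : Module.End F K) hg'1 hmul
      let σ : K ≃ₐ[F] K := AlgEquiv.ofBijective σh ⟨hg'inj, Finite.surjective_of_injective hg'inj⟩
      refine ⟨(σ, u), ?_⟩
      apply Subtype.ext
      ext x
      rw [hΦ]
      change (u : K) * (g' : Module.End F K) x = (g : Module.End F K) x
      rw [hg'a, ← mul_assoc, ← Units.val_mul, mul_inv_cancel, Units.val_one, one_mul]
  rw [← Nat.card_congr (Equiv.ofBijective Φ hbij), Nat.card_prod]
  have hfd : FiniteDimensional F K := inferInstance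
  rw [IsGalois.card_aut_eq_finrank, hdim, Nat.card_units, Nat.card_eq_fintype_card]

end Cfsg.Agent.S5738
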