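import Cfsg.Statements.S5739
import Mathlib.FieldTheory.IntermediateField.Algebraic
import Mathlib.FieldTheory.Finiteness

set_option autoImplicit false
open Cfsg

namespace Cfsg.Agent.S5739

/-- Let F ⊆ K be finite fields with |F| = q and [K : F] = n ≥ 2, and let M ≤ GL_F(K) be the Singer group of multiplications by non-zero elements of K. If g ∈ GL_F(K) does not normalise M, then the order of M ∩ gMg⁻¹ divides q^r − 1 for some proper divisor r of n. In particular, when n is prime, that order divides q − 1. -/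
theorem result {F K : Type*} [Field F] [Fintype F] [Field K] [Fintype K] [Algebra F K] (n : ℕ) (hn : 2 ≤ n) (hdim : Module.finrank F K = n)
    (g : (Module.End F K)ˣ) (hg : ((Units.map ((Algebra.lmul F K : K →ₐ[F] Module.End F K) : K →* Module.End F K)).range).map (MulAut.conj g).toMonoidHom ≠ (Units.map ((Algebra.lmul F K : K →ₐ[F] Module.End F K) : K →* Module.End F K)).range) :
    ∃ r : ℕ, 1 ≤ r ∧ r ∣ n ∧ r < n ∧ Nat.card ↥(((Units.map ((Algebra.lmul F K : K →ₐ[F] Module.End F K) : K →* Module.End F K)).range).map (MulAut.conj g).toMonoidHom ⊓ (Units.map ((Algebra.lmul F K : K →ₐ[F] Module.End F K) : K →* Module.End F K)).range) ∣ Fintype.card F ^ r - 1 := by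
  classical
  set φ : K →* Module.End F K := ((Algebra.lmul F K : K →ₐ[F] Module.End F K) : K →* Module.End F K) with hφ
  have hφa : ∀ x : K, φ x = Algebra.lmul F K x := fun _ => rfl
  have hinj : Function.Injective φ := by
    intro x y hxy
    have := congrArg (fun f : Module.End F K => f 1) hxy
    simpa [hφa] using this
  have hinv : ∀ x y : K, x ≠ 0 → φ x * (g : Module.End F K) = g * φ y →
      φ x⁻¹ * (g : Module.End F K) = g * φ y⁻¹ := by
    intro x y hx hxy
    have hy : y ≠ 0 := by
      rintro rfl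
      have h1 : φ x * (g : Module.End F K) = 0 := by rw [hxy, hφa, map_zero, mul_zero]
      have h2 : φ x = 0 := by
        have := congrArg (fun f => f * ((g⁻¹ : (Module.End F K)ˣ) : Module.End F K)) h1
        simpa [mul_assoc] using this
      exact hx (hinj (by rw [h2, hφa, map_zero]))
    have h1 : φ x⁻¹ * φ x = 1 := by rw [← map_mul, inv_mul_cancel₀ hx, map_one]
    have h2 : φ y * φ y⁻¹ = 1 := by rw [← map_mul, mul_inv_cancel₀ hy, map_one]
    calc φ x⁻¹ * (g : Module.End F K) = φ x⁻¹ * (g * (φ y * φ y⁻¹)) := by rw [h2, mul_one]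
      _ = φ x⁻¹ * (g * φ y) * φ y⁻¹ := by simp only [mul_assoc]
      _ = φ x⁻¹ * (φ x * g) * φ y⁻¹ := by rw [hxy]
      _ = (φ x⁻¹ * φ x) * g * φ y⁻¹ := by simp only [mul_assoc]
      _ = g * φ y⁻¹ := by rw [h1, one_mul]
  let S : Subalgebra F K :=
    { carrier := {x | ∃ y : K, φ x * (g : Module.End F K) = g * φ y}
      mul_mem' := by
        rintro a b ⟨y, hy⟩ ⟨z, hz⟩
        refine ⟨y * z, ?_⟩
        rw [map_mul, map_mul, mul_assoc, hz, ← mul_assoc, hy, mul_assoc]
      add_mem' := by
        rintro a b ⟨y, hy⟩ ⟨z, hz⟩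
        refine ⟨y + z, ?_⟩
        rw [hφa, hφa, map_add, map_add, add_mul, mul_add, ← hφa, ← hφa, ← hφa, ← hφa, hy, hz]
      algebraMap_mem' := by
        intro r
        refine ⟨algebraMap F K r, ?_⟩
        rw [hφa, AlgHom.commutes]
        exact Algebra.commutes r _ }
  let L : IntermediateField F K := S.toIntermediateField (by
    rintro x ⟨y, hy⟩
    by_cases hx : x = 0
    · subst hx
      refine ⟨0, ?_⟩
      rw [hφa, hφa, inv_zero, map_zero]; simp
    · exact ⟨y⁻¹, hinv x y hx hy⟩)
  have hL : ∀ x : K, x ∈ L ↔ ∃ y : K, φ x * (g : Module.End F K) = g * φ y := fun x => Iff.rfl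
  have hfin : Module.finrank F L * Module.finrank L K = n := by
    rw [Module.finrank_mul_finrank, hdim]
  set M := (Units.map φ).range with hM
  -- membership in the intersection
  have hI : ∀ u : Kˣ, Units.map φ u ∈ M.map (MulAut.conj g).toMonoidHom ↔ (u : K) ∈ L := by
    intro u
    constructor
    · rintro ⟨_, ⟨v, rfl⟩, hv⟩
      rw [hL]
      refine ⟨v, ?_⟩
      have h1 : g * Units.map φ v * g⁻¹ = Units.map φ u := hv
      have h2 : g * Units.map φ v = Units.map φ u * g := by rw [← h1]; simp
      have h3 := congrArg (fun x : (Module.End F K)ˣ => (x : Module.End F K)) h2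
      exact h3.symm
    · intro h
      obtain ⟨y, hy⟩ := (hL u).mp h
      have hy0 : y ≠ 0 := by
        rintro rfl
        have h1 : φ u * (g : Module.End F K) = 0 := by rw [hy, hφa, map_zero, mul_zero]
        have h2 : φ u = 0 := by
          have := congrArg (fun f => f * ((g⁻¹ : (Module.End F K)ˣ) : Module.End F K)) h1
          simpa [mul_assoc] using this
        exact u.ne_zero (hinj (by rw [h2, hφa, map_zero]))
      refine ⟨Units.map φ (Units.mk0 y hy0), ⟨_, rfl⟩, ?_⟩
      change g * Units.map φ (Units.mk0 y hy0) * g⁻¹ = Units.map φ u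
      rw [mul_inv_eq_iff_eq_mul]
      ext1
      exact hy.symm
  refine ⟨Module.finrank F L, Module.finrank_pos, ⟨_, hfin.symm⟩, ?_, ?_⟩
  · refine lt_of_le_of_ne (Nat.le_of_dvd (by omega) ⟨_, hfin.symm⟩) ?_
    intro heq
    apply hg
    have hLtop : L = ⊤ := by
      rw [← IntermediateField.finrank_eq_one_iff_eq_top]
      rw [heq] at hfin
      exact Nat.eq_of_mul_eq_mul_left (by omega : 0 < n) (by rw [hfin, mul_one])
    have hle : M ≤ M.map (MulAut.conj g).toMonoidHom := by
      rintro _ ⟨u, rfl⟩
      rw [hI, hLtop]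
      trivial
    have hfinU : Finite (Module.End F K)ˣ := by
      have : Finite (Module.End F K) := Module.finite_of_finite F
      infer_instance
    refine (Subgroup.eq_of_le_of_card_ge hle ?_).symm
    exact (Nat.card_congr (M.equivMapOfInjective _ (MulAut.conj g).injective).toEquiv).ge
  · apply dvd_of_eq
    have e1 : ((M.map (MulAut.conj g).toMonoidHom ⊓ M : Subgroup (Module.End F K)ˣ) : Set (Module.End F K)ˣ) =
        (Units.map φ) '' {u : Kˣ | (u : K) ∈ L} := by
      ext x
      constructor
      · rintro ⟨hx1, ⟨u, rfl⟩⟩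
        exact ⟨u, (hI u).mp hx1, rfl⟩
      · rintro ⟨u, hu, rfl⟩
        exact ⟨(hI u).mpr hu, ⟨u, rfl⟩⟩
    have e2 : (Units.val '' {u : Kˣ | (u : K) ∈ L} : Set K) = (L : Set K) \ {0} := by
      ext x
      constructor
      · rintro ⟨u, hu, rfl⟩
        exact ⟨hu, u.ne_zero⟩
      · rintro ⟨hx, hx0⟩
        exact ⟨Units.mk0 x hx0, hx, rfl⟩
    have e3 : Nat.card ↥(M.map (MulAut.conj g).toMonoidHom ⊓ M) = Set.ncard ({u : Kˣ | (u : K) ∈ L}) := by
      change Nat.card ((M.map (MulAut.conj g).toMonoidHom ⊓ M : Subgroup (Module.End F K)ˣ) : Set (Module.End F K)ˣ) = _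
      rw [Nat.card_coe_set_eq, e1]
      apply Set.ncard_image_of_injective
      exact Units.map_injective hinj
    rw [e3, ← Set.ncard_image_of_injective _ (Units.val_injective (α := K)), e2,
      Set.ncard_sdiff_singleton_of_mem (show (0 : K) ∈ (L : Set K) from L.zero_mem)]
    congr 1
    have h1 : Nat.card L = Nat.card F ^ Module.finrank F L := Module.natCard_eq_pow_finrank
    rw [← Nat.card_coe_set_eq]
    rw [Nat.card_eq_fintype_card] at h1
    simpa using h1

end Cfsg.Agent.S5739
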