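import Cfsg.Statements.S5747
import Mathlib.Algebra.BigOperators.Fin
import Mathlib.Tactic.Ring

set_option autoImplicit false
open Cfsg

namespace Cfsg.Agent.S5747

section
variable {G Ω : Type*} [Group G] [MulAction G Ω]

/-- trivial pointwise stabiliser -/
def Tr {t : ℕ} (f : Fin t → Ω) : Prop := ∀ g : G, (∀ i : Fin t, g • f i = f i) → g = 1

/-- the irredundancy at the index `i` -/
def Ir (G : Type*) {Ω : Type*} [Group G] [MulAction G Ω] {t : ℕ} (f : Fin t → Ω) (i : Fin t) : Prop :=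
  ∃ g : G, (∀ j : Fin t, j < i → g • f j = f j) ∧ g • f i ≠ f i

/-- irredundant base -/
def IB (G : Type*) {Ω : Type*} [Group G] [MulAction G Ω] {t : ℕ} (f : Fin t → Ω) : Prop :=
  (∀ g : G, (∀ i : Fin t, g • f i = f i) → g = 1) ∧ ∀ i : Fin t, ∃ g : G, (∀ j : Fin t, j < i → g • f j = f j) ∧ g • f i ≠ f i

theorem drop_redundant : ∀ (k : ℕ) (h : Fin k → Ω), (∀ g : G, (∀ i : Fin k, g • h i = h i) → g = 1) →
    ∃ (k' : ℕ) (h' : Fin k' → Ω), k' ≤ k ∧ IB G h' := by
  intro k
  induction k with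
  | zero => intro h hh; exact ⟨0, h, le_rfl, hh, fun i => i.elim0⟩
  | succ k ih =>
    intro h hh
    by_cases hir : ∀ i : Fin (k + 1), ∃ g : G, (∀ j : Fin (k + 1), j < i → g • h j = h j) ∧ g • h i ≠ h i
    · exact ⟨k + 1, h, le_rfl, hh, hir⟩
    · push Not at hir
      obtain ⟨i, hi⟩ := hir
      obtain ⟨k', h', hk', hh'⟩ := ih (fun j => h (i.succAbove j)) (by
        intro g hg
        have h1 : ∀ j : Fin (k + 1), j ≠ i → g • h j = h j := by
          intro j hj
          obtain ⟨l, rfl⟩ := Fin.exists_succAbove_eq hj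
          exact hg l
        apply hh
        intro j
        by_cases hj : j = i
        · rw [hj]; exact hi g (fun l hl => h1 l hl.ne)
        · exact h1 j hj)
      exact ⟨k', h', by omega, hh'⟩

theorem drop_redundant_lt {k : ℕ} (h : Fin k → Ω) (hh : ∀ g : G, (∀ i : Fin k, g • h i = h i) → g = 1)
    (hn : ¬ IB G h) : ∃ (k' : ℕ) (h' : Fin k' → Ω), k' < k ∧ IB G h' := by
  have hir : ¬ ∀ i : Fin k, ∃ g : G, (∀ j : Fin k, j < i → g • h j = h j) ∧ g • h i ≠ h i :=
    fun h' => hn ⟨hh, h'⟩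
  push Not at hir
  obtain ⟨i, hi⟩ := hir
  rcases k with _ | k
  · exact i.elim0
  obtain ⟨k', h', hk', hh'⟩ := drop_redundant (G := G) k (fun j => h (i.succAbove j)) (by
    intro g hg
    have h1 : ∀ j : Fin (k + 1), j ≠ i → g • h j = h j := by
      intro j hj
      obtain ⟨l, rfl⟩ := Fin.exists_succAbove_eq hj
      exact hg l
    apply hh
    intro j
    by_cases hj : j = i
    · rw [hj]; exact hi g (fun l hl => h1 l hl.ne)
    · exact h1 j hj)
  exact ⟨k', h', by omega, hh'⟩

/-- characterisation for `Fin.snoc` -/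
theorem ib_snoc {t : ℕ} (f : Fin t → Ω) (a : Ω) :
    IB G (Fin.snoc f a : Fin (t + 1) → Ω) ↔
      (∀ g : G, (∀ i, g • f i = f i) → g • a = a → g = 1) ∧
      (∀ i : Fin t, ∃ g : G, (∀ j : Fin t, j < i → g • f j = f j) ∧ g • f i ≠ f i) ∧
      ∃ g : G, (∀ i, g • f i = f i) ∧ g • a ≠ a := by
  constructor
  · rintro ⟨h1, h2⟩
    refine ⟨?_, ?_, ?_⟩
    · intro g hg hga
      apply h1
      intro i
      refine Fin.lastCases ?_ (fun j => ?_) i
      · rw [Fin.snoc_last]; exact hga
      · rw [Fin.snoc_castSucc]; exact hg j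
    · intro i
      obtain ⟨g, hg, hg'⟩ := h2 i.castSucc
      refine ⟨g, fun j hj => ?_, ?_⟩
      · have := hg j.castSucc (by simpa using hj)
        rwa [Fin.snoc_castSucc] at this
      · rwa [Fin.snoc_castSucc] at hg'
    · obtain ⟨g, hg, hg'⟩ := h2 (Fin.last t)
      refine ⟨g, fun j => ?_, ?_⟩
      · have := hg j.castSucc (Fin.castSucc_lt_last j)
        rwa [Fin.snoc_castSucc] at this
      · rwa [Fin.snoc_last] at hg'
  · rintro ⟨h1, h2, h3⟩
    refine ⟨?_, ?_⟩
    · intro g hg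
      apply h1
      · intro i
        have := hg i.castSucc
        rwa [Fin.snoc_castSucc] at this
      · have := hg (Fin.last t)
        rwa [Fin.snoc_last] at this
    · intro i
      refine Fin.lastCases ?_ (fun i => ?_) i
      · obtain ⟨g, hg, hg'⟩ := h3
        refine ⟨g, fun j hj => ?_, by rwa [Fin.snoc_last]⟩
        have hj' : j ≠ Fin.last t := hj.ne
        obtain ⟨l, rfl⟩ := Fin.exists_castSucc_eq.mpr hj'
        rw [Fin.snoc_castSucc]; exact hg l
      · obtain ⟨g, hg, hg'⟩ := h2 i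
        refine ⟨g, fun j hj => ?_, by rwa [Fin.snoc_castSucc]⟩
        have hj' : j ≠ Fin.last t := (hj.trans (Fin.castSucc_lt_last i)).ne
        obtain ⟨l, rfl⟩ := Fin.exists_castSucc_eq.mpr hj'
        rw [Fin.snoc_castSucc]
        exact hg l (by simpa using hj)

/-- number of entries outside `R` -/
noncomputable def meas {t : ℕ} (R : Set Ω) (f : Fin t → Ω) : ℕ := by
  classical
  exact ∑ i, if f i ∈ R then 0 else 1

theorem meas_comp {t : ℕ} (R : Set Ω) (f : Fin t → Ω) (σ : Equiv.Perm (Fin t)) : meas R (f ∘ σ) = meas R f := by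
  classical
  unfold meas
  exact Equiv.sum_comp σ (fun i => if f i ∈ R then 0 else 1)

theorem meas_snoc {t : ℕ} (R : Set Ω) (f : Fin t → Ω) (a : Ω) [Decidable (a ∈ R)] :
    meas R (Fin.snoc f a : Fin (t + 1) → Ω) = meas R f + if a ∈ R then 0 else 1 := by
  classical
  unfold meas
  rw [Fin.sum_univ_castSucc]
  simp only [Fin.snoc_castSucc, Fin.snoc_last]

theorem meas_eq_zero {t : ℕ} {R : Set Ω} {f : Fin t → Ω} (h : meas R f = 0) : ∀ i, f i ∈ R := by
  classical
  unfold meas at h
  intro i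
  by_contra hcon
  have := Finset.sum_eq_zero_iff.mp h i (Finset.mem_univ i)
  rw [if_neg hcon] at this
  omega

theorem exists_of_meas {t : ℕ} {R : Set Ω} {f : Fin t → Ω} (h : meas R f ≠ 0) : ∃ i, f i ∉ R := by
  classical
  by_contra hcon
  push Not at hcon
  apply h
  unfold meas
  exact Finset.sum_eq_zero (fun i _ => if_pos (hcon i))

variable (hB : ∀ (t : ℕ) (f : Fin t → Ω) (σ : Equiv.Perm (Fin t)), IB G f → IB G (f ∘ σ))
include hB

/-- exchange step -/
theorem exchange {t t' : ℕ} (f : Fin (t + 1) → Ω) (hf : IB G f) (f' : Fin t' → Ω)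
    (hf' : ∀ g : G, (∀ i, g • f' i = f' i) → g = 1) (i : Fin (t + 1)) (hi : f i ∉ Set.range f') :
    ∃ f₂ : Fin (t + 1) → Ω, IB G f₂ ∧ meas (Set.range f') f₂ < meas (Set.range f') f := by
  classical
  set f₁ : Fin (t + 1) → Ω := f ∘ (Equiv.swap i (Fin.last t)) with hf₁
  have hIB₁ : IB G f₁ := hB _ _ _ hf
  have hlast : f₁ (Fin.last t) = f i := by
    rw [hf₁, Function.comp_apply, Equiv.swap_apply_right]
  set o : Fin t → Ω := Fin.init f₁ with ho
  have hsnoc : f₁ = (Fin.snoc o (f i) : Fin (t + 1) → Ω) := by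
    rw [ho, ← hlast]
    exact (Fin.snoc_init_self f₁).symm
  have h1 := hIB₁
  rw [hsnoc, ib_snoc] at h1
  obtain ⟨h1a, h1b, g₀, hg₀, hg₀'⟩ := h1
  have hg₀1 : g₀ ≠ 1 := by
    rintro rfl; exact hg₀' (one_smul _ _)
  obtain ⟨j, hj⟩ : ∃ j, g₀ • f' j ≠ f' j := by
    by_contra hcon
    push Not at hcon
    exact hg₀1 (hf' g₀ hcon)
  refine ⟨(Fin.snoc o (f' j) : Fin (t + 1) → Ω), ?_, ?_⟩
  · rw [ib_snoc]
    refine ⟨?_, h1b, g₀, hg₀, hj⟩
    intro g hg hgb
    by_contra hg1
    have hga : g • f i ≠ f i := fun h => hg1 (h1a g hg h)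
    -- the sequence of length `t + 2`
    have h3 : IB G (Fin.snoc (Fin.snoc o (f' j) : Fin (t + 1) → Ω) (f i) : Fin (t + 1 + 1) → Ω) := by
      rw [ib_snoc]
      refine ⟨?_, ?_, ?_⟩
      · intro x hx hxi
        apply h1a x ?_ hxi
        intro l
        have := hx l.castSucc
        rwa [Fin.snoc_castSucc] at this
      · intro l
        refine Fin.lastCases ?_ (fun l => ?_) l
        · refine ⟨g₀, fun m hm => ?_, by rwa [Fin.snoc_last]⟩
          obtain ⟨m, rfl⟩ := Fin.exists_castSucc_eq.mpr hm.ne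
          rw [Fin.snoc_castSucc]; exact hg₀ m
        · obtain ⟨x, hx, hx'⟩ := h1b l
          refine ⟨x, fun m hm => ?_, by rwa [Fin.snoc_castSucc]⟩
          obtain ⟨m, rfl⟩ := Fin.exists_castSucc_eq.mpr (hm.trans (Fin.castSucc_lt_last l)).ne
          rw [Fin.snoc_castSucc]
          exact hx m (by simpa using hm)
      · refine ⟨g, fun l => ?_, hga⟩
        refine Fin.lastCases ?_ (fun l => ?_) l
        · rw [Fin.snoc_last]; exact hgb
        · rw [Fin.snoc_castSucc]; exact hg l
    have h4 := hB _ _ (Equiv.swap (Fin.last t).castSucc (Fin.last (t + 1))) h3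
    have h5 : ((Fin.snoc (Fin.snoc o (f' j) : Fin (t + 1) → Ω) (f i) : Fin (t + 1 + 1) → Ω) ∘
        (Equiv.swap (Fin.last t).castSucc (Fin.last (t + 1)))) =
        (Fin.snoc (Fin.snoc o (f i) : Fin (t + 1) → Ω) (f' j) : Fin (t + 1 + 1) → Ω) := by
      funext l
      rw [Function.comp_apply]
      refine Fin.lastCases ?_ (fun l => ?_) l
      · rw [Equiv.swap_apply_right, Fin.snoc_castSucc, Fin.snoc_last, Fin.snoc_last]
      · refine Fin.lastCases ?_ (fun l => ?_) l
        · rw [Equiv.swap_apply_left, Fin.snoc_last, Fin.snoc_castSucc, Fin.snoc_last]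
        · rw [Equiv.swap_apply_of_ne_of_ne]
          · rw [Fin.snoc_castSucc, Fin.snoc_castSucc, Fin.snoc_castSucc, Fin.snoc_castSucc]
          · intro h
            exact (Fin.castSucc_lt_last l).ne (Fin.castSucc_injective _ h)
          · exact (Fin.castSucc_lt_last _).ne
    rw [h5, ib_snoc] at h4
    obtain ⟨_, _, x, hx, hx'⟩ := h4
    have hx1 : x = 1 := by
      apply h1a x
      · intro l
        have := hx l.castSucc
        rwa [Fin.snoc_castSucc] at this
      · have := hx (Fin.last t)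
        rwa [Fin.snoc_last] at this
    rw [hx1] at hx'
    exact hx' (one_smul _ _)
  · have e1 : meas (Set.range f') f = meas (Set.range f') f₁ := (meas_comp _ _ _).symm
    rw [e1, hsnoc, meas_snoc, meas_snoc, if_pos ⟨j, rfl⟩, if_neg hi]
    omega

theorem exists_inside {t t' : ℕ} (f' : Fin t' → Ω) (hf' : ∀ g : G, (∀ i, g • f' i = f' i) → g = 1) :
    ∀ (m : ℕ) (f : Fin t → Ω), IB G f → meas (Set.range f') f ≤ m →
      ∃ f₂ : Fin t → Ω, IB G f₂ ∧ ∀ i, f₂ i ∈ Set.range f' := by
  intro m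
  induction m with
  | zero =>
    intro f hf hm
    exact ⟨f, hf, meas_eq_zero (by omega)⟩
  | succ m ih =>
    intro f hf hm
    by_cases h0 : meas (Set.range f') f = 0
    · exact ⟨f, hf, meas_eq_zero h0⟩
    · obtain ⟨i, hi⟩ := exists_of_meas h0
      rcases t with _ | t
      · exact i.elim0
      obtain ⟨f₂, hf₂, hlt⟩ := exchange hB f hf f' hf' i hi
      exact ih f₂ hf₂ (by omega)

theorem le_length {t t' : ℕ} (f : Fin t → Ω) (hf : IB G f) (f' : Fin t' → Ω) (hf' : IB G f') : t ≤ t' := by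
  classical
  obtain ⟨f₂, hf₂, hin⟩ := exists_inside hB f' hf'.1 _ f hf le_rfl
  have hinj : Function.Injective f₂ := by
    have key : ∀ i j : Fin t, i < j → f₂ i ≠ f₂ j := by
      intro i j hij h
      obtain ⟨g, hg, hg'⟩ := hf₂.2 j
      apply hg'
      rw [← h]; exact hg i hij
    intro i j h
    rcases lt_trichotomy i j with h1 | h1 | h1
    · exact absurd h (key i j h1)
    · exact h1
    · exact absurd h.symm (key j i h1)
  choose e he using hin
  have heinj : Function.Injective e := by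
    intro i j h
    apply hinj
    rw [← he i, ← he j, h]
  simpa using Fintype.card_le_of_injective e heinj

end


/-- Let a finite group G act on a finite set Ω. An irredundant base is a sequence of points ω₁, …, ω_t whose pointwise stabiliser is trivial and in which each ω_i is moved by some element fixing ω₁, …, ω_{i−1}. Then all irredundant bases have the same length if and only if every reordering of an irredundant base is again an irredundant base. -/
theorem result {G Ω : Type*} [Group G] [Finite G] [MulAction G Ω] [Fintype Ω] :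
    (∀ (t t' : ℕ) (f : Fin t → Ω) (f' : Fin t' → Ω), ((∀ g : G, (∀ i : Fin t, g • f i = f i) → g = 1) ∧ ∀ i : Fin t, ∃ g : G, (∀ j : Fin t, j < i → g • f j = f j) ∧ g • f i ≠ f i) → ((∀ g : G, (∀ i : Fin t', g • f' i = f' i) → g = 1) ∧ ∀ i : Fin t', ∃ g : G, (∀ j : Fin t', j < i → g • f' j = f' j) ∧ g • f' i ≠ f' i) → t = t') ↔
    (∀ (t : ℕ) (f : Fin t → Ω) (σ : Equiv.Perm (Fin t)), ((∀ g : G, (∀ i : Fin t, g • f i = f i) → g = 1) ∧ ∀ i : Fin t, ∃ g : G, (∀ j : Fin t, j < i → g • f j = f j) ∧ g • f i ≠ f i) → ((∀ g : G, (∀ i : Fin t, g • (f ∘ σ) i = (f ∘ σ) i) → g = 1) ∧ ∀ i : Fin t, ∃ g : G, (∀ j : Fin t, j < i → g • (f ∘ σ) j = (f ∘ σ) j) ∧ g • (f ∘ σ) i ≠ (f ∘ σ) i)) := by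
  constructor
  · intro hA t f σ hf
    by_contra hcon
    obtain ⟨k', h', hk', hh'⟩ := drop_redundant_lt (G := G) (f ∘ σ) (by
      intro g hg
      apply hf.1
      intro i
      have := hg (σ.symm i)
      rwa [Function.comp_apply, Equiv.apply_symm_apply] at this) hcon
    have := hA t k' f h' hf hh'
    omega
  · intro hB t t' f f' hf hf'
    exact le_antisymm (le_length (G := G) hB f hf f' hf') (le_length (G := G) hB f' hf' f hf)

end Cfsg.Agent.S5747
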