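import Cfsg.Statements.S5752
import Cfsg.Agent.H10.TW3

set_option autoImplicit false
open Cfsg

namespace Cfsg.Agent.S5752

/-- A form of the Thompson–Wielandt Theorem on primitive permutation groups. Let G be a finite group and M₁, M₂ two distinct conjugate maximal subgroups of G with trivial core in G; define two descending sequences of subgroups by A₀ = M₁, B₀ = M₂ and, for every i, A_{i+1} = the core in M₁ of A_i ∩ B_i and B_{i+1} = the core in M₂ of A_i ∩ B_i (the core in M of a subgroup Y ≤ M is the largest normal subgroup of M contained in Y). If A₂ and B₂ are both non-trivial, then for some prime p the subgroup generated by A₂ and B₂ is a p-group, and for each j the generalized Fitting subgroups of M_j and of its first core (A₁, resp. B₁) are their largest normal p-subgroups. -/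
theorem result {G : Type*} [Group G] [Finite G] (M₁ M₂ : Subgroup G) (hmax : IsCoatom M₁) (g : G)
    (hconj : M₂ = M₁.map (MulAut.conj g).toMonoidHom) (hne : M₁ ≠ M₂) (hcore : M₁.normalCore = ⊥)
    (A B : ℕ → Subgroup G) (hA0 : A 0 = M₁) (hB0 : B 0 = M₂)
    (hA : ∀ i, A (i + 1) = ((A i ⊓ B i).subgroupOf M₁).normalCore.map M₁.subtype)
    (hB : ∀ i, B (i + 1) = ((A i ⊓ B i).subgroupOf M₂).normalCore.map M₂.subtype) (hA2 : A 2 ≠ ⊥) (hB2 : B 2 ≠ ⊥) :
    ∃ p : ℕ, p.Prime ∧ IsPGroup p ↥(A 2 ⊔ B 2) ∧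
      Cfsg.generalizedFittingSubgroup ↥M₁ = Cfsg.pCore p ↥M₁ ∧ Cfsg.generalizedFittingSubgroup ↥(A 1) = Cfsg.pCore p ↥(A 1) ∧
      Cfsg.generalizedFittingSubgroup ↥M₂ = Cfsg.pCore p ↥M₂ ∧ Cfsg.generalizedFittingSubgroup ↥(B 1) = Cfsg.pCore p ↥(B 1) := by
  have h := H10.TWS.of_conj hmax hcore hconj hne
  have hA1 : A 1 = H10.k1 M₁ M₂ := by rw [hA 0, hA0, hB0]; rfl
  have hB1 : B 1 = H10.k1 M₂ M₁ := by rw [hB 0, hA0, hB0, inf_comm]; rfl
  have hA2' : A 2 = H10.k2 M₁ M₂ := by rw [hA 1, hA1, hB1]; rfl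
  have hB2' : B 2 = H10.k2 M₂ M₁ := by rw [hB 1, hA1, hB1, inf_comm]; rfl
  obtain ⟨p, hp, h1, h2, h3, hEA, hEB, hq⟩ := h.main (by rwa [← hA2']) (by rwa [← hB2'])
  haveI : Fact p.Prime := ⟨hp⟩
  have key : ∀ X Y : Subgroup G, H10.SubnIn X Y → H10.cE Y = ⊥ → (∀ q : ℕ, q.Prime → q ≠ p → H10.cO q Y = ⊥) →
      Cfsg.generalizedFittingSubgroup ↥X = Cfsg.pCore p ↥X := by
    intro X Y hXY hE hO
    apply H10.genFitting_eq_of
    · rw [eq_bot_iff, ← hE, H10.cE_le_iff]
      intro K hK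
      exact (hK.trans hXY).le_cE
    · intro q hq hqp
      haveI : Fact q.Prime := ⟨hq⟩
      rw [eq_bot_iff, ← hO q hq hqp]
      exact H10.le_cO_of_subnIn ((H10.subnIn_of_normal (H10.cO_le q X) (H10.le_cO_nrm q X)).trans hXY) (H10.cO_isPGroup q X)
  have hrefl : ∀ X : Subgroup G, H10.SubnIn X X := fun X => H10.subnIn_of_normal le_rfl Subgroup.le_normalizer
  refine ⟨p, hp, ?_, ?_, ?_, ?_, ?_⟩
  · rw [hA2', hB2']
    exact h3.to_le (sup_le h1 h2)
  · exact key _ _ (hrefl _) hEA fun q hq' hqp => (hq q hq' hqp).1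
  · rw [hA1]
    exact key _ _ H10.subnIn_k1 hEA fun q hq' hqp => (hq q hq' hqp).1
  · exact key _ _ (hrefl _) hEB fun q hq' hqp => (hq q hq' hqp).2
  · rw [hB1]
    exact key _ _ H10.subnIn_k1 hEB fun q hq' hqp => (hq q hq' hqp).2

end Cfsg.Agent.S5752
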