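import Cfsg.Statements.S5754

set_option autoImplicit false
open Cfsg

namespace Cfsg.Agent.S5754

open QuadraticMap in
/-- the reflection in an anisotropic vector -/
noncomputable def refl {F V : Type*} [Field F] [AddCommGroup V] [Module F V]
    (Q : QuadraticForm F V) (w : V) : V →ₗ[F] V :=
  LinearMap.id - (((Q w)⁻¹) • (QuadraticMap.polarBilin Q w)).smulRight w

theorem refl_apply {F V : Type*} [Field F] [AddCommGroup V] [Module F V]
    (Q : QuadraticForm F V) (w v : V) :
    refl Q w v = v - ((Q w)⁻¹ * QuadraticMap.polar Q w v) • w := by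
  simp [refl]

theorem refl_refl {F V : Type*} [Field F] [AddCommGroup V] [Module F V]
    (Q : QuadraticForm F V) (w : V) (hw : Q w ≠ 0) (v : V) : refl Q w (refl Q w v) = v := by
  rw [refl_apply, refl_apply, QuadraticMap.polar_sub_right, QuadraticMap.polar_smul_right,
    QuadraticMap.polar_self]
  have h1 : (Q w)⁻¹ * (QuadraticMap.polar Q w v - ((Q w)⁻¹ * QuadraticMap.polar Q w v) • (2 • Q w)) =
      - ((Q w)⁻¹ * QuadraticMap.polar Q w v) := by
    simp only [smul_eq_mul, nsmul_eq_mul, Nat.cast_ofNat]
    field_simp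
    ring
  rw [h1, neg_smul, sub_neg_eq_add, sub_add_cancel]

theorem refl_isom {F V : Type*} [Field F] [AddCommGroup V] [Module F V]
    (Q : QuadraticForm F V) (w : V) (hw : Q w ≠ 0) (v : V) : Q (refl Q w v) = Q v := by
  rw [refl_apply]
  set a := (Q w)⁻¹ * QuadraticMap.polar Q w v with ha
  have h1 : Q (v + (-a) • w) = Q v + Q ((-a) • w) + QuadraticMap.polar Q v ((-a) • w) := by
    rw [QuadraticMap.polar]; ring
  rw [sub_eq_add_neg, ← neg_smul, h1, QuadraticMap.map_smul, QuadraticMap.polar_smul_right,
    QuadraticMap.polar_comm Q v w]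
  have h2 : QuadraticMap.polar Q w v = a * Q w := by rw [ha]; field_simp
  rw [h2]
  simp only [smul_eq_mul]
  ring

/-- reflection as an isometry -/
noncomputable def reflEquiv {F V : Type*} [Field F] [AddCommGroup V] [Module F V]
    (Q : QuadraticForm F V) (w : V) (hw : Q w ≠ 0) : Q.IsometryEquiv Q :=
  { LinearEquiv.ofInvolutive (refl Q w) (refl_refl Q w hw) with
    map_app' := refl_isom Q w hw }

theorem reflEquiv_apply {F V : Type*} [Field F] [AddCommGroup V] [Module F V]
    (Q : QuadraticForm F V) (w : V) (hw : Q w ≠ 0) (v : V) : reflEquiv Q w hw v = refl Q w v := rfl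

theorem map_sub' {F V : Type*} [Field F] [AddCommGroup V] [Module F V]
    (Q : QuadraticForm F V) (x y : V) : Q (x - y) = Q x + Q y - QuadraticMap.polar Q x y := by
  have h1 : QuadraticMap.polar Q x (-y) = - QuadraticMap.polar Q x y := QuadraticMap.polar_neg_right Q x y
  have h2 : QuadraticMap.polar Q x (-y) = Q (x + -y) - Q x - Q (-y) := rfl
  rw [QuadraticMap.map_neg] at h2
  rw [sub_eq_add_neg]
  linear_combination h1 - h2

/-- Let V be a finite-dimensional vector space over a finite field F carrying an anisotropic quadratic form Q (Q(v) = 0 only for v = 0). Then the group of all maps v ↦ φ(v) + c, with φ an isometry of Q and c ∈ V, acts on V as a binary permutation group: given n ≥ 2 and two n-tuples u, u' of vectors such that every pair of corresponding entries of u is carried to that of u' by such a map, one such map carries u to u'. -/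
theorem result {F V : Type*} [Field F] [Finite F] [AddCommGroup V] [Module F V] [Module.Finite F V]
    (Q : QuadraticForm F V) (hQ : Q.Anisotropic) (n : ℕ) (hn : 2 ≤ n) (u u' : Fin n → V)
    (h2 : ∀ i j : Fin n, i ≠ j → ∃ (φ : Q.IsometryEquiv Q) (c : V), φ (u i) + c = u' i ∧ φ (u j) + c = u' j) :
    ∃ (φ : Q.IsometryEquiv Q) (c : V), ∀ i, φ (u i) + c = u' i := by
  classical
  obtain ⟨m, rfl⟩ : ∃ m, n = m + 1 := ⟨n - 1, by omega⟩
  have hdist : ∀ i j, Q (u i - u j) = Q (u' i - u' j) := by
    intro i j
    by_cases hij : i = j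
    · subst hij; simp
    · obtain ⟨φ, c, h1, h2⟩ := h2 i j hij
      rw [← h1, ← h2]
      have : φ (u i) + c - (φ (u j) + c) = φ (u i - u j) := by
        rw [map_sub]; abel
      rw [this, φ.map_app]
  have hQ0 : ∀ i, Q (u i - u 0) = Q (u' i - u' 0) := fun i => hdist i 0
  have hpol : ∀ i j, QuadraticMap.polar Q (u i - u 0) (u j - u 0) =
      QuadraticMap.polar Q (u' i - u' 0) (u' j - u' 0) := by
    intro i j
    have h1 := map_sub' Q (u i - u 0) (u j - u 0)
    have h2 := map_sub' Q (u' i - u' 0) (u' j - u' 0)
    rw [sub_sub_sub_cancel_right] at h1 h2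
    rw [hdist i j, h2, hQ0 i, hQ0 j] at h1
    linear_combination h1
  have hmain : ∀ k : ℕ, ∃ φ : Q.IsometryEquiv Q, ∀ i : Fin (m + 1), (i : ℕ) < k →
      φ (u i - u 0) = u' i - u' 0 := by
    intro k
    induction k with
    | zero => exact ⟨QuadraticMap.IsometryEquiv.refl Q, fun i hi => absurd hi (by omega)⟩
    | succ k ih =>
      obtain ⟨φ, hφ⟩ := ih
      by_cases hk : k < m + 1
      swap
      · exact ⟨φ, fun i _ => hφ i (by omega)⟩
      set kk : Fin (m + 1) := ⟨k, hk⟩ with hkk
      by_cases hw0 : φ (u kk - u 0) = u' kk - u' 0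
      · refine ⟨φ, fun i hi => ?_⟩
        by_cases hik : (i : ℕ) < k
        · exact hφ i hik
        · have : i = kk := by ext; simp [hkk]; omega
          rw [this]; exact hw0
      · set x := φ (u kk - u 0) with hx
        set y := u' kk - u' 0 with hy
        set w := x - y with hw
        have hw1 : w ≠ 0 := sub_ne_zero.mpr hw0
        have hw2 : Q w ≠ 0 := fun h => hw1 (hQ w h)
        have hQx : Q x = Q y := by rw [hx, φ.map_app, hQ0]
        refine ⟨φ.trans (reflEquiv Q w hw2), fun i hi => ?_⟩
        have happ : (φ.trans (reflEquiv Q w hw2)) (u i - u 0) = refl Q w (φ (u i - u 0)) := rfl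
        rw [happ, refl_apply]
        have hpp : ∀ a b, QuadraticMap.polar Q (φ a) (φ b) = QuadraticMap.polar Q a b := by
          intro a b
          simp only [QuadraticMap.polar]
          rw [← map_add, φ.map_app, φ.map_app, φ.map_app]
        by_cases hik : (i : ℕ) < k
        · have h1 : QuadraticMap.polar Q w (φ (u i - u 0)) = 0 := by
            rw [hw, QuadraticMap.polar_sub_left]
            rw [hx, hpp, hpol, hφ i hik, hy]
            rw [sub_self]
          rw [h1, mul_zero, zero_smul, sub_zero, hφ i hik]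
        · have hi2 : i = kk := by ext; simp [hkk]; omega
          subst hi2
          change x - ((Q w)⁻¹ * QuadraticMap.polar Q w x) • w = y
          have h1 : QuadraticMap.polar Q w x = Q w := by
            rw [hw, map_sub', QuadraticMap.polar_sub_left, QuadraticMap.polar_self,
              QuadraticMap.polar_comm Q y x, ← hQx]
            simp only [nsmul_eq_mul, Nat.cast_ofNat]
            ring
          rw [h1, inv_mul_cancel₀ hw2, one_smul, hw, sub_sub_cancel]
  obtain ⟨φ, hφ⟩ := hmain (m + 1)
  refine ⟨φ, u' 0 - φ (u 0), fun i => ?_⟩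
  have := hφ i i.2
  rw [map_sub] at this
  have h3 : φ (u i) + (u' 0 - φ (u 0)) = (φ (u i) - φ (u 0)) + u' 0 := by abel
  rw [h3, this, sub_add_cancel]

end Cfsg.Agent.S5754
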