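import Cfsg.Statements.S5763
import Mathlib
import Cfsg.Agent.H15.SylowSym

set_option autoImplicit false
open Cfsg

namespace Cfsg.Agent.S5763

open Equiv in
theorem comb (p p' : Perm (Fin 8)) (hp : p * p = 1) (hp' : p' * p' = 1) (h1 : ∀ a, p a ≠ a)
    (h1' : ∀ a, p' a ≠ a) (hne : ∀ a, p a ≠ p' a) :
    ∃ u : Perm (Fin 8), u * u = 1 ∧ u * p = p * u ∧ u * p' = p' * u ∧
      ∀ a, u a ≠ a ∧ u a ≠ p a ∧ u a ≠ p' a := by
  classical
  have hpp : ∀ a, p (p a) = a := fun a => by rw [← Perm.mul_apply, hp]; rfl
  have hpp' : ∀ a, p' (p' a) = a := fun a => by rw [← Perm.mul_apply, hp']; rfl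
  have hpinv : p⁻¹ = p := inv_eq_of_mul_eq_one_left hp
  have hpinv' : p'⁻¹ = p' := inv_eq_of_mul_eq_one_left hp'
  set r : Perm (Fin 8) := p' * p with hr
  have hrinv : r⁻¹ = p * p' := by rw [hr, mul_inv_rev, hpinv, hpinv']
  have hpr : p * r = r⁻¹ * p := by
    rw [hrinv, hr, mul_assoc]
  have hconj : p * r * p⁻¹ = r⁻¹ := by rw [hpr, mul_assoc, mul_inv_cancel, mul_one]
  have hprk : ∀ k : ℤ, p * r ^ k = r ^ (-k) * p := by
    intro k
    have h2 : p * r ^ k * p⁻¹ = r ^ (-k) := by
      rw [← conj_zpow, hconj, inv_zpow, zpow_neg]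
    rw [← h2, mul_assoc, inv_mul_cancel, mul_one]
  have hprk' : ∀ (k : ℤ) (a : Fin 8), p ((r ^ k) a) = (r ^ (-k)) (p a) := by
    intro k a
    rw [← Perm.mul_apply, hprk, Perm.mul_apply]
  have hp'r : p' = r * p := by rw [hr, mul_assoc, hp, mul_one]
  have hadd : ∀ (k l : ℤ) (a : Fin 8), (r ^ k) ((r ^ l) a) = (r ^ (k + l)) a := by
    intro k l a
    rw [zpow_add, Perm.mul_apply]
  -- Claim A
  have hA : ∀ (k : ℤ) (a : Fin 8), (r ^ k) a ≠ p a := by
    intro k a h
    rcases Int.even_or_odd k with ⟨i, hi⟩ | ⟨i, hi⟩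
    · apply h1 ((r ^ i) a)
      rw [hprk', ← h, hadd]
      congr 2
      omega
    · apply h1' ((r ^ (i + 1)) a)
      rw [hp'r, Perm.mul_apply, hprk', ← h, hadd]
      have h2 : ∀ y, r y = (r ^ (1 : ℤ)) y := fun y => by rw [zpow_one]
      rw [h2, hadd]
      congr 2
      omega
  have hA' : ∀ (k : ℤ) (a : Fin 8), (r ^ k) a ≠ p' a := by
    intro k a h
    rw [hp'r, Perm.mul_apply] at h
    apply hA (-1 + k) a
    rw [← hadd, h, zpow_neg, zpow_one]
    exact Equiv.symm_apply_apply r (p a)
  have hr1 : ∀ a, r a ≠ a := by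
    intro a h
    apply hne a
    have : p' (p a) = a := h
    have h2 := congrArg p' this
    rw [hpp'] at h2
    exact h2
  have hcomm : ∀ k : ℤ, r ^ (2 * k) = 1 → r ^ k * p = p * r ^ k ∧ r ^ k * p' = p' * r ^ k := by
    intro k hk
    have h3 : r ^ (-k) = r ^ k := by
      have : r ^ k * r ^ k = 1 := by rw [← zpow_add, ← two_mul, hk]
      rw [zpow_neg]
      exact inv_eq_of_mul_eq_one_left this
    have h4 : r ^ k * p = p * r ^ k := by rw [hprk, h3]
    refine ⟨h4, ?_⟩
    have h5 : Commute (r ^ k) r := Commute.zpow_self r k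
    have h6 : Commute (r ^ k) p := h4
    have h7 : Commute (r ^ k) (r * p) := h5.mul_right h6
    rw [← hp'r] at h7
    exact h7
  by_cases hr2 : r * r = 1
  · refine ⟨r, hr2, ?_, ?_, fun a => ⟨hr1 a, ?_, ?_⟩⟩
    · have := (hcomm 1 (by rw [mul_one, zpow_two]; exact hr2)).1
      rwa [zpow_one] at this
    · have := (hcomm 1 (by rw [mul_one, zpow_two]; exact hr2)).2
      rwa [zpow_one] at this
    · have := hA 1 a; rwa [zpow_one] at this
    · have := hA' 1 a; rwa [zpow_one] at this
  · obtain ⟨a, ha⟩ : ∃ a, (r ^ (2 : ℤ)) a ≠ a := by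
      by_contra hcon
      push Not at hcon
      apply hr2
      rw [← zpow_two]
      exact Equiv.ext hcon
    -- pairwise distinctness transfer
    have hdist : ∀ i j : ℤ, (r ^ i) a = (r ^ j) a → (r ^ (j - i)) a = a := by
      intro i j h
      have := congrArg (r ^ (-i)) h
      rw [hadd, hadd, neg_add_cancel, zpow_zero] at this
      have h2 : -i + j = j - i := by ring
      rw [h2] at this
      exact this.symm
    have ha1 : (r ^ (1 : ℤ)) a ≠ a := by rw [zpow_one]; exact hr1 a
    have haneg : ∀ k : ℤ, (r ^ k) a ≠ a → (r ^ (-k)) a ≠ a := by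
      intro k hk h
      apply hk
      have := congrArg (r ^ k) h
      rw [hadd, add_neg_cancel, zpow_zero] at this
      exact this.symm
    -- r-orbit part and p-part are disjoint
    have hpdisj : ∀ i j : ℤ, (r ^ i) a ≠ p ((r ^ j) a) := by
      intro i j h
      apply hA (i - j) ((r ^ j) a)
      rw [hadd, sub_add_cancel]
      exact h
    by_cases ha3 : (r ^ (3 : ℤ)) a = a
    · exfalso
      set T : Finset (Fin 8) := {(r ^ (0 : ℤ)) a, (r ^ (1 : ℤ)) a, (r ^ (2 : ℤ)) a} with hT
      have hTr : ∀ x ∈ T, r x ∈ T := by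
        intro x hx
        have h2 : ∀ k : ℤ, r ((r ^ k) a) = (r ^ (1 + k)) a := by
          intro k; rw [← hadd, zpow_one]
        simp only [hT, Finset.mem_insert, Finset.mem_singleton] at hx ⊢
        rcases hx with hx | hx | hx
        · right; left; rw [hx, h2]; rfl
        · right; right; rw [hx, h2]; rfl
        · left; rw [hx, h2]
          change (r ^ (3 : ℤ)) a = _
          rw [ha3]; rfl
      have hTcard : T.card = 3 := by
        rw [hT, Finset.card_eq_three]
        refine ⟨_, _, _, ?_, ?_, ?_, rfl⟩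
        · intro h; exact ha1 (hdist 0 1 h)
        · intro h; exact ha (hdist 0 2 h)
        · intro h; exact ha1 (hdist 1 2 h)
      set T' := T.image p with hT'
      have hT'card : T'.card = 3 := by
        rw [hT', Finset.card_image_of_injective _ p.injective, hTcard]
      have hTT' : Disjoint T T' := by
        rw [Finset.disjoint_left]
        intro x hx hx'
        rw [hT', Finset.mem_image] at hx'
        obtain ⟨y, hy, rfl⟩ := hx'
        simp only [hT, Finset.mem_insert, Finset.mem_singleton] at hx hy
        rcases hy with hy | hy | hy <;> rw [hy] at hx <;> rcases hx with hx | hx | hx <;>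
          exact hpdisj _ _ hx.symm
      set S := T ∪ T' with hS
      have hScard : S.card = 6 := by
        rw [hS, Finset.card_union_of_disjoint hTT', hTcard, hT'card]
      -- S is p-invariant and r-invariant, hence p'-invariant
      have hSp : ∀ x, p x ∈ S ↔ x ∈ S := by
        have h2 : ∀ x, x ∈ S → p x ∈ S := by
          intro x hx
          rw [hS, Finset.mem_union] at hx ⊢
          rcases hx with hx | hx
          · right; exact Finset.mem_image_of_mem p hx
          · left
            rw [hT', Finset.mem_image] at hx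
            obtain ⟨y, hy, rfl⟩ := hx
            rw [hpp]; exact hy
        intro x
        exact ⟨fun h => by have := h2 _ h; rwa [hpp] at this, h2 x⟩
      have hTrinv : ∀ x ∈ T, r⁻¹ x ∈ T := by
        intro x hx
        -- r maps T onto T by finiteness
        have h2 : T.image r = T := by
          apply Finset.eq_of_subset_of_card_le
          · intro y hy
            obtain ⟨z, hz, rfl⟩ := Finset.mem_image.mp hy
            exact hTr z hz
          · rw [Finset.card_image_of_injective _ r.injective]
        rw [← h2, Finset.mem_image] at hx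
        obtain ⟨y, hy, rfl⟩ := hx
        have : r⁻¹ (r y) = y := Equiv.symm_apply_apply r y
        rw [this]; exact hy
      have hSp' : ∀ x, x ∈ S → p' x ∈ S := by
        intro x hx
        rw [hp'r, Perm.mul_apply]
        rw [hS, Finset.mem_union] at hx ⊢
        rcases hx with hx | hx
        · right
          rw [hT', Finset.mem_image]
          refine ⟨r⁻¹ x, hTrinv x hx, ?_⟩
          have := hprk' (-1) x
          rw [neg_neg, zpow_one, zpow_neg, zpow_one] at this
          exact this
        · left
          rw [hT', Finset.mem_image] at hx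
          obtain ⟨y, hy, rfl⟩ := hx
          rw [hpp]; exact hTr y hy
      obtain ⟨b, hb⟩ : ∃ b, b ∉ S := by
        by_contra hcon
        push Not at hcon
        have : S = Finset.univ := Finset.eq_univ_iff_forall.mpr hcon
        rw [this, Finset.card_univ, Fintype.card_fin] at hScard
        omega
      have hpb : p b ∉ S := fun h => hb ((hSp b).mp h)
      have hp'b : p' b ∉ S := fun h => hb (by have := hSp' _ h; rwa [hpp'] at this)
      have hU : ({b, p b, p' b} : Finset (Fin 8)).card = 3 := by
        rw [Finset.card_eq_three]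
        exact ⟨_, _, _, (h1 b).symm, (h1' b).symm, hne b, rfl⟩
      have hdisjU : Disjoint S ({b, p b, p' b} : Finset (Fin 8)) := by
        rw [Finset.disjoint_right]
        intro x hx
        simp only [Finset.mem_insert, Finset.mem_singleton] at hx
        rcases hx with rfl | rfl | rfl
        · exact hb
        · exact hpb
        · exact hp'b
      have h9 := Finset.card_union_of_disjoint hdisjU
      rw [hScard, hU] at h9
      have h10 := Finset.card_le_univ (S ∪ ({b, p b, p' b} : Finset (Fin 8)))
      rw [h9, Fintype.card_fin] at h10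
      omega
    · -- the orbit has length four
      set T : Finset (Fin 8) := {(r ^ (0 : ℤ)) a, (r ^ (1 : ℤ)) a, (r ^ (2 : ℤ)) a, (r ^ (3 : ℤ)) a} with hT
      have hTcard : T.card = 4 := by
        rw [hT]
        rw [Finset.card_insert_of_notMem, Finset.card_insert_of_notMem, Finset.card_insert_of_notMem,
          Finset.card_singleton]
        · rw [Finset.mem_singleton]
          intro h; exact ha1 (hdist 2 3 h)
        · simp only [Finset.mem_insert, Finset.mem_singleton]
          rintro (h | h)
          · exact ha1 (hdist 1 2 h)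
          · exact ha (hdist 1 3 h)
        · simp only [Finset.mem_insert, Finset.mem_singleton]
          rintro (h | h | h)
          · exact ha1 (hdist 0 1 h)
          · exact ha (hdist 0 2 h)
          · exact ha3 (hdist 0 3 h)
      have hTmem : ∀ x ∈ T, ∃ i : ℤ, x = (r ^ i) a := by
        intro x hx
        simp only [hT, Finset.mem_insert, Finset.mem_singleton] at hx
        rcases hx with hx | hx | hx | hx
        · exact ⟨_, hx⟩
        · exact ⟨_, hx⟩
        · exact ⟨_, hx⟩
        · exact ⟨_, hx⟩
      have hdisj : Disjoint T (T.image p) := by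
        rw [Finset.disjoint_left]
        intro x hx hx'
        rw [Finset.mem_image] at hx'
        obtain ⟨y, hy, hxy⟩ := hx'
        obtain ⟨i, rfl⟩ := hTmem x hx
        obtain ⟨j, rfl⟩ := hTmem y hy
        exact hpdisj i j hxy.symm
      have hall : ∀ x, (∃ i : ℤ, x = (r ^ i) a) ∨ ∃ i : ℤ, x = p ((r ^ i) a) := by
        intro x
        have h2 : T ∪ T.image p = Finset.univ := by
          apply Finset.eq_univ_of_card
          rw [Finset.card_union_of_disjoint hdisj, Finset.card_image_of_injective _ p.injective, hTcard,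
            Fintype.card_fin]
        have h3 : x ∈ T ∪ T.image p := by rw [h2]; exact Finset.mem_univ x
        rw [Finset.mem_union, Finset.mem_image] at h3
        rcases h3 with h3 | ⟨y, hy, rfl⟩
        · exact Or.inl (hTmem x h3)
        · obtain ⟨j, rfl⟩ := hTmem y hy
          exact Or.inr ⟨j, rfl⟩
      have ha4 : (r ^ (4 : ℤ)) a = a := by
        have h2 : T ∪ T.image p = Finset.univ := by
          apply Finset.eq_univ_of_card
          rw [Finset.card_union_of_disjoint hdisj, Finset.card_image_of_injective _ p.injective, hTcard,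
            Fintype.card_fin]
        have h3 : (r ^ (4 : ℤ)) a ∈ T ∪ T.image p := by rw [h2]; exact Finset.mem_univ _
        rw [Finset.mem_union, Finset.mem_image] at h3
        rcases h3 with h3 | ⟨y, hy, hxy⟩
        · simp only [hT, Finset.mem_insert, Finset.mem_singleton] at h3
          rcases h3 with h3 | h3 | h3 | h3
          · rw [h3]; rfl
          · exact absurd (hdist _ _ h3.symm) ha3
          · exact absurd (hdist _ _ h3.symm) ha
          · exact absurd (hdist _ _ h3.symm) ha1
        · obtain ⟨j, rfl⟩ := hTmem y hy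
          exact absurd hxy.symm (hpdisj 4 j)
      have hr4 : r ^ (4 : ℤ) = 1 := by
        ext1 x
        rcases hall x with ⟨i, rfl⟩ | ⟨i, rfl⟩
        · rw [hadd, add_comm, ← hadd, ha4]; rfl
        · have h3 : (r ^ (4 : ℤ)) (p ((r ^ i) a)) = p ((r ^ (-4 : ℤ)) ((r ^ i) a)) := by
            rw [hprk' (-4)]; rfl
          have h4 : (r ^ (-4 : ℤ)) a = a := by
            have := congrArg (r ^ (-4 : ℤ)) ha4
            rw [hadd] at this
            exact this.symm
          rw [h3, hadd, add_comm, ← hadd, h4]; rfl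
      have hr2fix : ∀ x, (r ^ (2 : ℤ)) x ≠ x := by
        intro x hx
        rcases hall x with ⟨i, rfl⟩ | ⟨i, rfl⟩
        · rw [hadd] at hx
          have := hdist _ _ hx.symm
          rw [add_sub_cancel_right] at this
          exact ha this
        · have h3 : (r ^ (2 : ℤ)) (p ((r ^ i) a)) = p ((r ^ (-2 : ℤ)) ((r ^ i) a)) := by
            rw [hprk' (-2)]; rfl
          rw [h3] at hx
          have h4 := p.injective hx
          rw [hadd] at h4
          have := hdist _ _ h4
          have h5 : i - (-2 + i) = 2 := by ring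
          rw [h5] at this
          exact ha this
      refine ⟨r ^ (2 : ℤ), ?_, (hcomm 2 (by norm_num [hr4])).1, (hcomm 2 (by norm_num [hr4])).2,
        fun x => ⟨hr2fix x, hA 2 x, hA' 2 x⟩⟩
      rw [← zpow_add]; norm_num [hr4]

open Equiv in
theorem sign_four : ∀ σ : Perm (Fin 4), σ * σ = 1 → (∀ i, σ i ≠ i) → Perm.sign σ = 1 := by
  decide

theorem le_norm_map {G : Type*} [Group G] (N : Subgroup G) (K : Subgroup N) (hKn : K.Normal) :
    N ≤ Subgroup.normalizer ((K.map N.subtype : Subgroup G) : Set G) := by
  intro x hx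
  rw [Subgroup.mem_normalizer_iff]
  intro y
  constructor
  · rintro ⟨k, hk, rfl⟩
    exact ⟨⟨x, hx⟩ * k * ⟨x, hx⟩⁻¹, hKn.conj_mem k hk _, rfl⟩
  · rintro ⟨k, hk, hkx⟩
    refine ⟨⟨x, hx⟩⁻¹ * k * ⟨x, hx⟩⁻¹⁻¹, hKn.conj_mem k hk _, ?_⟩
    change x⁻¹ * (k : G) * x⁻¹⁻¹ = y
    have hkx' : (k : G) = x * y * x⁻¹ := hkx
    rw [hkx']; group

open Equiv Cfsg.Agent.H15 in
theorem key (P : Sylow 2 (Perm (Fin 8))) (hfp : ∀ a, partner P a ≠ a) (u : Perm (Fin 8)) (hu : u * u = 1)
    (hup : ∀ a, partner P (u a) = u (partner P a)) (hu1 : ∀ a, u a ≠ a ∧ u a ≠ partner P a) : u ∈ P := by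
  classical
  have huN : u ∈ Subgroup.normalizer (swapsIn P) := mem_normalizer_swapsIn P u hup
  -- number of swaps
  have hfin : Fintype (swapsIn P) := Fintype.ofFinite _
  have hcard : Fintype.card (swapsIn P) = 4 := by
    let f : Fin 8 → swapsIn P := fun a => ⟨swap a (partner P a), (mem_swapsIn_iff P _).mpr ⟨a, hfp a, rfl⟩⟩
    have h1 : ∀ t : swapsIn P, (Finset.univ.filter (fun a => f a = t)).card = 2 := by
      rintro ⟨t, ht⟩
      obtain ⟨b, hb, rfl⟩ := (mem_swapsIn_iff P t).mp ht
      have h2 : (Finset.univ.filter (fun a => f a = ⟨swap b (partner P b), ht⟩)) = {b, partner P b} := by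
        ext a
        simp only [Finset.mem_filter, Finset.mem_univ, true_and, Finset.mem_insert, Finset.mem_singleton, f,
          Subtype.mk.injEq]
        constructor
        · intro h
          rcases swap_eq_swap_imp (hfp a).symm h with ⟨h3, _⟩ | ⟨h3, _⟩
          · exact Or.inl h3
          · exact Or.inr h3
        · rintro (rfl | rfl)
          · rfl
          · rw [partner_partner, swap_comm]
      rw [h2, Finset.card_pair (hfp b).symm]
    have h3 := Finset.card_eq_sum_card_fiberwise (s := (Finset.univ : Finset (Fin 8))) (t := (Finset.univ : Finset (swapsIn P)))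
      (f := f) (fun _ _ => Finset.mem_univ _)
    rw [Finset.sum_congr rfl (fun t _ => h1 t), Finset.sum_const, Finset.card_univ, Finset.card_univ,
      Fintype.card_fin, smul_eq_mul] at h3
    omega
  have hcard' : Nat.card (swapsIn P) = 4 := by rw [Nat.card_eq_fintype_card, hcard]
  -- action on swaps
  set N := Subgroup.normalizer (swapsIn P) with hN
  set σ := conjSwaps P ⟨u, huN⟩ with hσ
  have hσ2 : σ * σ = 1 := by
    rw [hσ, ← map_mul]
    have : (⟨u, huN⟩ : N) * ⟨u, huN⟩ = 1 := Subtype.ext hu
    rw [this, map_one]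
  have hσ1 : ∀ t, σ t ≠ t := by
    rintro ⟨t, ht⟩ h
    obtain ⟨b, hb, rfl⟩ := (mem_swapsIn_iff P t).mp ht
    have h2 : u * swap b (partner P b) * u⁻¹ = swap b (partner P b) := congrArg Subtype.val h
    rw [← Equiv.swap_apply_apply] at h2
    rcases swap_eq_swap_imp (fun h => hfp b (u.injective h).symm) h2 with ⟨h3, _⟩ | ⟨h3, _⟩
    · exact (hu1 b).1 h3
    · exact (hu1 b).2 h3
  have hsign : Perm.sign σ = 1 := by
    let e : swapsIn P ≃ Fin 4 := Fintype.equivFinOfCardEq hcard
    have h2 := Perm.sign_permCongr e σ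
    rw [← h2]
    apply sign_four
    · ext i
      have h3 := congrArg (fun τ : Perm (swapsIn P) => τ (e.symm i)) hσ2
      simp only [Perm.mul_apply, Perm.coe_one, id_eq] at h3
      simp [Perm.mul_apply, Equiv.permCongr_apply, h3]
    · intro i h
      apply hσ1 (e.symm i)
      rw [Equiv.permCongr_apply] at h
      exact e.injective (by rw [h, Equiv.apply_symm_apply])
  -- the Klein four group
  let V : Subgroup (Perm (swapsIn P)) := (alternatingGroup.kleinFour (swapsIn P)).map (alternatingGroup (swapsIn P)).subtype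
  have hVn : V.Normal := by
    have := alternatingGroup.characteristic_kleinFour hcard'
    exact inferInstance
  have hV2 : IsPGroup 2 V := by
    apply IsPGroup.map
    apply IsPGroup.of_card (n := 2)
    exact alternatingGroup.kleinFour_card_of_card_eq_four hcard'
  have hσV : σ ∈ V := by
    have hmem : σ ∈ alternatingGroup (swapsIn P) := Perm.mem_alternatingGroup.mpr hsign
    refine ⟨⟨σ, hmem⟩, ?_, rfl⟩
    apply Subgroup.subset_closure
    have h3 := alternatingGroup.mem_kleinFour_of_order_two_pow hcard' hmem (n := 1)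
      (orderOf_dvd_of_pow_eq_one (by rw [pow_one, pow_two]; exact hσ2))
    rcases h3 with h3 | h3
    · exfalso
      have h4 : σ = 1 := Perm.cycleType_eq_zero.mp h3
      obtain ⟨t⟩ : Nonempty (swapsIn P) := by
        rw [← Fintype.card_pos_iff, hcard]; norm_num
      exact hσ1 t (by rw [h4]; rfl)
    · exact h3
  -- the preimage
  set K : Subgroup N := V.comap (conjSwaps P) with hK
  have hK2 : IsPGroup 2 K := by
    exact hV2.comap_of_ker_isPGroup (conjSwaps P) (conjSwaps_ker P)
  have hKn : K.Normal := inferInstance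
  have hKG : K.map N.subtype ≤ (P : Subgroup (Perm (Fin 8))) := by
    apply le_sylow_of_le_normalizer P _ (hK2.map _)
    exact (sylow_le_normalizer_swapsIn P).trans (le_norm_map N K hKn)
  exact hKG ⟨⟨u, huN⟩, hσV, rfl⟩

open Equiv Cfsg.Agent.H15 in
theorem partner_fpf (P : Sylow 2 (Perm (Fin 8))) (a : Fin 8) : partner P a ≠ a := by
  classical
  intro h
  have : Fact (Nat.Prime 2) := ⟨Nat.prime_two⟩
  have h0 : ∀ f : Function.End (Fin 8), (∀ x, f (f x) = x) → f ^ 2 ^ 1 = 1 := by
    intro f hf
    rw [pow_one, pow_two]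
    funext x
    exact hf x
  have h1 := Equiv.Perm.card_fixedPoints_modEq (α := Fin 8) (f := partner P) (p := 2) (n := 1)
    (h0 _ (partner_partner P))
  have h2 : Fintype.card (Function.fixedPoints (partner P)) = 1 := by
    rw [Fintype.card_eq_one_iff]
    exact ⟨⟨a, h⟩, fun y => Subtype.ext (partner_fixed_unique P _ _ y.2 h)⟩
  rw [Fintype.card_fin] at h1
  have h3 : Fintype.card (Function.fixedPoints (partner P)) % 2 = 0 := by
    have := h1.symm
    exact this
  rw [h2] at h3
  omega

/-- In the symmetric group on 8 letters any two Sylow 2-subgroups have non-trivial intersection: for a Sylow 2-subgroup H and every element x, H ∩ xHx⁻¹ ≠ 1. -/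
theorem result (H : Sylow 2 (Equiv.Perm (Fin 8))) (x : Equiv.Perm (Fin 8)) :
    (H : Subgroup (Equiv.Perm (Fin 8))) ⊓ (H : Subgroup (Equiv.Perm (Fin 8))).map (MulAut.conj x).toMonoidHom ≠ ⊥ := by
  classical
  intro hbot
  set P' : Sylow 2 (Equiv.Perm (Fin 8)) := x • H with hP'
  have hP'c : (P' : Subgroup (Equiv.Perm (Fin 8))) = (H : Subgroup (Equiv.Perm (Fin 8))).map (MulAut.conj x).toMonoidHom := rfl
  rw [← hP'c] at hbot
  have hmem : ∀ u : Equiv.Perm (Fin 8), u ∈ H → u ∈ P' → u = 1 := by
    intro u h1 h2
    have : u ∈ (H : Subgroup (Equiv.Perm (Fin 8))) ⊓ (P' : Subgroup (Equiv.Perm (Fin 8))) := ⟨h1, h2⟩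
    rw [hbot] at this
    exact Subgroup.mem_bot.mp this
  have hne : ∀ a, H15.partner H a ≠ H15.partner P' a := by
    intro a h
    have h1 := H15.partner_mem H a
    have h2 := H15.partner_mem P' a
    rw [← h] at h2
    have h3 := hmem _ h1 h2
    rw [Equiv.swap_eq_one_iff] at h3
    exact partner_fpf H a h3.symm
  let p : Equiv.Perm (Fin 8) := ⟨H15.partner H, H15.partner H, H15.partner_partner H, H15.partner_partner H⟩
  let p' : Equiv.Perm (Fin 8) := ⟨H15.partner P', H15.partner P', H15.partner_partner P', H15.partner_partner P'⟩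
  obtain ⟨u, hu, hup, hup', hu1⟩ := comb p p' (Equiv.ext (H15.partner_partner H))
    (Equiv.ext (H15.partner_partner P')) (partner_fpf H) (partner_fpf P') hne
  have h1 : u ∈ H := key H (partner_fpf H) u hu
    (fun a => (congrArg (fun f : Equiv.Perm (Fin 8) => f a) hup).symm) (fun a => ⟨(hu1 a).1, (hu1 a).2.1⟩)
  have h2 : u ∈ P' := key P' (partner_fpf P') u hu
    (fun a => (congrArg (fun f : Equiv.Perm (Fin 8) => f a) hup').symm) (fun a => ⟨(hu1 a).1, (hu1 a).2.2⟩)
  have h3 := hmem u h1 h2
  exact (hu1 0).1 (by rw [h3]; rfl)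

end Cfsg.Agent.S5763
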