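import Cfsg.Statements.S5885
import Cfsg.Agent.H14.SecondMax

set_option autoImplicit false
open Cfsg

namespace Cfsg.Agent.S5885

open MulAction

/-- Let n be an odd positive integer such that every primitive permutation group of degree n contains the alternating group (so the symmetric and alternating groups are the only primitive groups of degree n). Let G be a finite group, M a maximal subgroup of G of index n, and H a maximal subgroup of M. Then H is a second maximal subgroup of G: H is maximal in every maximal subgroup K of G containing H. -/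
theorem result {G : Type*} [Group G]
    [Finite G] (n : ℕ) (hodd : Odd n)
    (hA : ∀ P : Subgroup (Equiv.Perm (Fin n)), MulAction.IsPreprimitive P (Fin n) → alternatingGroup (Fin n) ≤ P)
    (M : Subgroup G) (hM : IsCoatom M) (hn : M.index = n) (H : Subgroup G) (hHM : H ≤ M)
    (hmax : IsCoatom (H.subgroupOf M)) (K : Subgroup G) (hK : IsCoatom K) (hHK : H ≤ K) :
    IsCoatom (H.subgroupOf K) := by
  classical
  subst hn
  -- transport to `Fin n`
  have hcard : Nat.card (G ⧸ M) = M.index := rfl
  obtain ⟨e⟩ : Nonempty ((G ⧸ M) ≃ Fin M.index) := by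
    rw [← Finite.card_eq, hcard, Nat.card_eq_fintype_card, Fintype.card_fin]
  let φ : G →* Equiv.Perm (Fin M.index) := (e.permCongrHom.toMonoidHom).comp (toPermHom G (G ⧸ M))
  letI act : MulAction G (Fin M.index) := MulAction.compHom _ φ
  have hact : ∀ (g : G) (x : Fin M.index), g • x = e (g • e.symm x) := fun g x => rfl
  haveI htr : IsPretransitive G (Fin M.index) := by
    refine ⟨fun x y => ?_⟩
    obtain ⟨g, hg⟩ := exists_smul_eq G (e.symm x) (e.symm y)
    exact ⟨g, by rw [hact, hg, e.apply_symm_apply]⟩
  have hst : M = stabilizer G (e ((1 : G) : G ⧸ M)) := by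
    ext g
    rw [mem_stabilizer_iff, hact, e.symm_apply_apply, e.apply_eq_iff_eq,
      MulAction.Quotient.smul_mk, smul_eq_mul, mul_one, eq_comm, QuotientGroup.eq]
    simp
  have hprim : IsPreprimitive φ.range (Fin M.index) := by
    haveI hnt : Nontrivial (Fin M.index) := by
      have h1 : M.index ≠ 1 := fun h => hM.1 (Subgroup.index_eq_one.1 h)
      obtain ⟨j, hj⟩ := hodd
      rw [Fin.nontrivial_iff_two_le]; omega
    have h1 : IsPreprimitive G (Fin M.index) := by
      rw [← isCoatom_stabilizer_iff_preprimitive G (e ((1 : G) : G ⧸ M)), ← hst]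
      exact hM
    let f : Fin M.index →ₑ[φ.rangeRestrict] Fin M.index :=
      { toFun := id
        map_smul' := fun _ _ => rfl }
    exact IsPreprimitive.of_surjective (f := f) Function.surjective_id
  have hA' := hA _ hprim
  refine H14.SM.main (Ω := Fin M.index) (by simpa using hodd) ?_ _ hst hM hHM hmax hK hHK
  intro σ hσ
  obtain ⟨g, hg⟩ := hA' hσ
  exact ⟨g, fun x => by rw [← hg]; rfl⟩

end Cfsg.Agent.S5885
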