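import Cfsg.Statements.S5887
import Cfsg.Agent.H12.ExtComp2

set_option autoImplicit false
open Cfsg

namespace Cfsg.Agent.S5887

open Cfsg.Agent.H12

/-- Let F be a finite field, n a positive integer and r a composite number (r > 1, not prime) that divides n with r < n. Let K be a subalgebra of the algebra of n × n matrices over F which is a field of degree r over F (commutative, every non-zero element invertible, of dimension r over F). Then the normaliser N of K in GL_n(F) (a group of type ΓL_{n/r}(F_{q^r})) is not a maximal subgroup of GL_n(F), and N ∩ SL_n(F) is not a maximal subgroup of SL_n(F): both lie properly inside the normaliser of an intermediate subfield of prime degree over F. -/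
theorem result {F : Type*} [Field F]
    [Fintype F] (n r : ℕ) (hr1 : 1 < r) (hrp : ¬ r.Prime) (hrn : r ∣ n) (hlt : r < n)
    (K : Subalgebra F (Matrix (Fin n) (Fin n) F)) (hK : Cfsg.Geo.IsFieldSubalgebra r K) :
    ¬ IsCoatom (Cfsg.Geo.subalgebraNormalizer K) ∧
      ¬ Cfsg.Geo.IsMaximalIn (Cfsg.Geo.specialLinear (Fin n) F)
        (Cfsg.Geo.subalgebraNormalizer K ⊓ Cfsg.Geo.specialLinear (Fin n) F) := by
  obtain ⟨N, h1, ⟨g1, a1, a2, a3⟩, ⟨g2, b1, b2⟩⟩ := ext_comp hr1 hrp hlt hK
  constructor
  · intro hco
    have h2 : N = ⊤ := hco.2 N (lt_of_le_of_ne h1 (fun h => a3 (h ▸ a2)))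
    exact b2 (by rw [h2]; trivial)
  · intro hm
    rcases hm.2 (N ⊓ Geo.specialLinear (Fin n) F) (inf_le_inf_right _ h1) inf_le_right with h | h
    · have h2 : g1 ∈ N ⊓ Geo.specialLinear (Fin n) F := ⟨a2, a1⟩
      rw [h] at h2
      exact a3 h2.1
    · have h2 : g2 ∈ N ⊓ Geo.specialLinear (Fin n) F := by rw [h]; exact b1
      exact b2 h2.1

end Cfsg.Agent.S5887
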