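import Cfsg.Statements.S5894
import Cfsg.Agent.H14.Imprim2

set_option autoImplicit false
open Cfsg

namespace Cfsg.Agent.S5894

open MulAction H14.Imp
open scoped Pointwise

/-- For every m ≥ 2 the symmetric group on 2m letters has a maximal subgroup M of index 2m together with a maximal subgroup H of M that is not second maximal: some maximal subgroup K of the symmetric group contains H without H being maximal in K. (One may take M the stabiliser of a letter, H ≅ S_m × S_{m−1} inside it, and K ≅ S_m ≀ S₂ the stabiliser of a partition into two m-sets, with H < S_m × S_m < K.) So the prime-index hypothesis in the second-maximality criterion cannot be relaxed to any even index ≥ 4. -/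
theorem result (m : ℕ) (hm : 2 ≤ m) :
    ∃ M H K : Subgroup (Equiv.Perm (Fin (2 * m))), IsCoatom M ∧ M.index = 2 * m ∧ H ≤ M ∧ IsCoatom (H.subgroupOf M) ∧
      IsCoatom K ∧ H ≤ K ∧ ¬ IsCoatom (H.subgroupOf K) := by
  classical
  let e : Fin 2 × Fin m ≃ Fin (2 * m) := finProdFinEquiv
  obtain ⟨f, hfe⟩ : ∃ f : Fin (2 * m) → Fin 2, ∀ x, f x = (e.symm x).1 := ⟨_, fun _ => rfl⟩
  have hf : ∀ i : Fin 2, Nat.card {x : Fin (2 * m) // f x = i} = m := by
    intro i
    have e2 : {x : Fin (2 * m) // f x = i} ≃ Fin m :=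
      { toFun := fun x => (e.symm x.1).2
        invFun := fun y => ⟨e (i, y), by rw [hfe]; simp⟩
        left_inv := by
          rintro ⟨x, hx⟩
          apply Subtype.ext
          rw [hfe] at hx
          change e (i, (e.symm x).2) = x
          rw [← hx]
          exact e.apply_symm_apply x
        right_inv := by
          intro y
          simp }
    rw [Nat.card_congr e2, Nat.card_eq_fintype_card, Fintype.card_fin]
  obtain ⟨O, hO⟩ : ∃ O : Set (Fin (2 * m)), O = {x | f x = 0} := ⟨_, rfl⟩
  have hOc : O.ncard = m := by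
    rw [hO]; exact hf 0
  obtain ⟨ω, ω', hωω', hω, hω'⟩ := exists_pair hm hf 0
  obtain ⟨z, -, -, hz, -⟩ := exists_pair hm hf 1
  have hωO : ω ∈ O := by rw [hO]; exact hω
  have hω'O : ω' ∈ O := by rw [hO]; exact hω'
  have hzO : z ∉ O := by
    rw [hO]
    intro h
    have h' : f z = 0 := h
    rw [hz] at h'; exact absurd h' (by decide)
  have hcard : Nat.card (Fin (2 * m)) = 2 * m := by simp
  obtain ⟨g, hg⟩ := exists_blockPerm' hf (Equiv.swap 0 1)
  refine ⟨stabilizer _ ω, stabilizer _ ω ⊓ stabilizer _ O, W f, ?_, ?_, inf_le_left,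
    isCoatom_pt ω hωO ⟨ω', hω'O, hωω'.symm⟩ ⟨z, hzO⟩ (by rw [hcard, hOc]; omega),
    isCoatom_W hm le_rfl hf, ?_, ?_⟩
  · have h1 : IsCoatom (stabilizer (Equiv.Perm (Fin (2 * m))) ({ω} : Set (Fin (2 * m)))) := by
      apply Equiv.Perm.isCoatom_stabilizer
      · exact Set.singleton_nonempty _
      · exact ⟨z, fun h => hzO (by rw [Set.mem_singleton_iff.1 h]; exact hωO)⟩
      · rw [hcard, Set.ncard_singleton]; omega
    rwa [stabilizer_singleton] at h1
  · rw [index_stabilizer_of_transitive, hcard]
  · rintro h ⟨-, hh⟩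
    have h1 := mem_stabilizer_set.1 hh
    have key : ∀ x, f (h x) = f x := by
      intro x
      have h2 := h1 x
      rw [hO] at h2
      have h3 : f (h x) = 0 ↔ f x = 0 := h2
      by_cases h4 : f x = 0
      · rw [h4, h3.2 h4]
      · have h5 : f (h x) ≠ 0 := fun h' => h4 (h3.1 h')
        have h6 : ∀ i : Fin 2, i ≠ 0 → i = 1 := by decide
        rw [h6 _ h4, h6 _ h5]
    intro x y
    rw [key, key]
  · intro hco
    have hle : stabilizer (Equiv.Perm (Fin (2 * m))) O ≤ W f := by
      intro h hh
      have h1 := mem_stabilizer_set.1 hh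
      have key : ∀ x, f (h x) = f x := by
        intro x
        have h2 := h1 x
        rw [hO] at h2
        have h3 : f (h x) = 0 ↔ f x = 0 := h2
        by_cases h4 : f x = 0
        · rw [h4, h3.2 h4]
        · have h5 : f (h x) ≠ 0 := fun h' => h4 (h3.1 h')
          have h6 : ∀ i : Fin 2, i ≠ 0 → i = 1 := by decide
          rw [h6 _ h4, h6 _ h5]
      intro x y
      rw [key, key]
    have hs : Equiv.swap ω ω' ∈ stabilizer (Equiv.Perm (Fin (2 * m))) O :=
      Equiv.Perm.swap_mem_stabilizer hωO hω'O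
    have h1 : (stabilizer (Equiv.Perm (Fin (2 * m))) O).subgroupOf (W f) = ⊤ := by
      apply hco.2
      refine lt_of_le_of_ne (Subgroup.comap_mono inf_le_right) fun heq => ?_
      have h2 : (⟨_, hle hs⟩ : W f) ∈ (stabilizer (Equiv.Perm (Fin (2 * m))) O).subgroupOf (W f) :=
        hs
      rw [← heq] at h2
      have h3 : Equiv.swap ω ω' ω = ω := h2.1
      rw [Equiv.swap_apply_left] at h3
      exact hωω' h3.symm
    have h4 : g ∈ stabilizer (Equiv.Perm (Fin (2 * m))) O := by
      have := Subgroup.mem_top (⟨g, mem_W_of_block hg⟩ : W f)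
      rw [← h1] at this
      exact this
    have h5 := (mem_stabilizer_set.1 h4 ω).2 hωO
    rw [hO] at h5
    have h6 : f (g ω) = 0 := h5
    rw [hg, hω] at h6
    exact absurd h6 (by decide)

end Cfsg.Agent.S5894
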