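import Cfsg.Statements.S5895
import Cfsg.Agent.H14.SecHyp2
import Cfsg.Agent.H18.MinOver2

set_option autoImplicit false
open Cfsg

namespace Cfsg.Agent.S5895

open SemidirectProduct

def Irr {V : Type} [Group V] (L : Subgroup (MulAut V)) : Prop :=
  ∀ W : Subgroup V, (∀ l ∈ L, ∀ w ∈ W, l w ∈ W) → W = ⊥ ∨ W = ⊤

theorem construct {V : Type} [Group V] [Finite V] [Nontrivial V] {L : Subgroup (MulAut V)}
    (hL : Irr L) {H' : Subgroup L} (hH' : IsCoatom H') {W : Subgroup V}
    (hW : ∀ l ∈ H', ∀ w ∈ W, (l : MulAut V) w ∈ W) (hW1 : W ≠ ⊥) (hW2 : W ≠ ⊤) :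
    ∃ (G : Type) (_ : Group G) (_ : Finite G) (M H K : Subgroup G), IsCoatom M ∧
      M.index = Nat.card V ∧ H ≤ M ∧
      IsCoatom (H.subgroupOf M) ∧ IsCoatom K ∧ H ≤ K ∧ ¬ IsCoatom (H.subgroupOf K) := by
  haveI : Finite (MulAut V) := Finite.of_injective (fun f : MulAut V => (f : V → V))
    DFunLike.coe_injective
  haveI hfin : Finite (V ⋊[L.subtype] L) := Finite.of_equiv (V × L) SemidirectProduct.equivProd.symm
  have hinl : ∀ (l : L) (v : V), (inl ((l : MulAut V) v) : V ⋊[L.subtype] L) =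
      inr l * inl v * inr l⁻¹ := fun l v => inl_aut (φ := L.subtype) l v
  obtain ⟨Z, hZ⟩ : ∃ Z : Subgroup (V ⋊[L.subtype] L), ∀ g, g ∈ Z ↔ g.left ∈ W ∧ g.right ∈ H' := by
    refine ⟨⟨⟨⟨{g | g.left ∈ W ∧ g.right ∈ H'}, ?_⟩, ?_⟩, ?_⟩, fun g => Iff.rfl⟩
    · rintro a b ⟨ha1, ha2⟩ ⟨hb1, hb2⟩
      exact ⟨W.mul_mem ha1 (hW _ ha2 _ hb1), H'.mul_mem ha2 hb2⟩
    · exact ⟨W.one_mem, H'.one_mem⟩
    · rintro a ⟨ha1, ha2⟩
      exact ⟨hW _ (H'.inv_mem ha2) _ (W.inv_mem ha1), H'.inv_mem ha2⟩
  have hHZ : H'.map (inr : L →* V ⋊[L.subtype] L) ≤ Z := by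
    rintro _ ⟨l, hl, rfl⟩
    exact (hZ _).2 ⟨W.one_mem, hl⟩
  have hZK : Z ≤ H'.comap (rightHom : V ⋊[L.subtype] L →* L) := fun g hg => ((hZ g).1 hg).2
  refine ⟨V ⋊[L.subtype] L, inferInstance, hfin, (inr : L →* V ⋊[L.subtype] L).range,
    H'.map inr, H'.comap rightHom, ?_, ?_, Subgroup.map_le_range _ _, ?_, ?_, hHZ.trans hZK, ?_⟩
  · constructor
    · intro htop
      obtain ⟨v, hv⟩ := exists_ne (1 : V)
      have h1 : (inl v : V ⋊[L.subtype] L) ∈ (inr : L →* V ⋊[L.subtype] L).range :=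
        htop ▸ Subgroup.mem_top _
      obtain ⟨l, hl⟩ := h1
      apply hv
      have := congrArg SemidirectProduct.left hl
      simpa using this.symm
    · intro Y hY
      have hrY : ∀ l : L, (inr l : V ⋊[L.subtype] L) ∈ Y := fun l => hY.le ⟨l, rfl⟩
      have h1 : Y.comap (inl : V →* V ⋊[L.subtype] L) = ⊤ := by
        refine (hL _ ?_).resolve_left ?_
        · intro l hl w hw
          change inl (l w) ∈ Y
          have := hinl ⟨l, hl⟩ w
          rw [show l w = ((⟨l, hl⟩ : L) : MulAut V) w from rfl, this]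
          exact Y.mul_mem (Y.mul_mem (hrY _) hw) (hrY _)
        · intro hb
          apply not_le_of_gt hY
          intro y hy
          have h2 : y.left ∈ Y.comap (inl : V →* V ⋊[L.subtype] L) := by
            change inl y.left ∈ Y
            have h3 := inl_left_mul_inr_right y
            have h4 : (inl y.left : V ⋊[L.subtype] L) = y * (inr y.right)⁻¹ := by
              rw [eq_mul_inv_iff_mul_eq]; exact h3
            rw [h4]; exact Y.mul_mem hy (Y.inv_mem (hrY _))
          rw [hb, Subgroup.mem_bot] at h2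
          refine ⟨y.right, ?_⟩
          rw [← inl_left_mul_inr_right y, h2, map_one, one_mul]
          simp
      rw [eq_top_iff]
      intro y _
      rw [← inl_left_mul_inr_right y]
      exact Y.mul_mem (by
        have := Subgroup.mem_top y.left
        rw [← h1] at this; exact this) (hrY _)
  · have h1 : Nat.card ↥(inr : L →* V ⋊[L.subtype] L).range = Nat.card L :=
      Nat.card_congr (MonoidHom.ofInjective (f := (inr : L →* V ⋊[L.subtype] L))
        inr_injective).toEquiv.symm
    have h2 : Nat.card (V ⋊[L.subtype] L) = Nat.card V * Nat.card L := by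
      rw [Nat.card_congr (SemidirectProduct.equivProd (φ := L.subtype)), Nat.card_prod]
    have h3 := Subgroup.index_mul_card (inr : L →* V ⋊[L.subtype] L).range
    rw [h1, h2] at h3
    exact Nat.eq_of_mul_eq_mul_right Nat.card_pos h3
  · have h1 := H14.isCoatom_map_equiv (MonoidHom.ofInjective
      (f := (inr : L →* V ⋊[L.subtype] L)) inr_injective) hH'
    convert h1 using 1
    ext g
    constructor
    · rintro ⟨l, hl, hlg⟩
      exact ⟨l, hl, Subtype.ext hlg⟩
    · rintro ⟨l, hl, rfl⟩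
      exact ⟨l, hl, rfl⟩
  · exact H18.isCoatom_comap_of_surj rightHom_surjective hH'
  · intro hco
    have h1 : Z.subgroupOf (H'.comap (rightHom : V ⋊[L.subtype] L →* L)) = ⊤ := by
      apply hco.2
      refine lt_of_le_of_ne (Subgroup.comap_mono hHZ) fun heq => ?_
      obtain ⟨w, hw, hw1⟩ : ∃ w ∈ W, w ≠ 1 := (Subgroup.ne_bot_iff_exists_ne_one.1 hW1).imp
        (fun w hw => ⟨w.2, fun e => hw (Subtype.ext e)⟩) |> fun ⟨w, h⟩ => ⟨w.1, h⟩
      have h2 : (inl w : V ⋊[L.subtype] L) ∈ Z := (hZ _).2 ⟨hw, H'.one_mem⟩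
      have h3 : (⟨inl w, hZK h2⟩ : H'.comap (rightHom : V ⋊[L.subtype] L →* L)) ∈
          Z.subgroupOf (H'.comap (rightHom : V ⋊[L.subtype] L →* L)) := h2
      rw [← heq] at h3
      obtain ⟨l, -, hl⟩ := h3
      apply hw1
      have := congrArg SemidirectProduct.left hl
      simpa using this.symm
    apply hW2
    rw [eq_top_iff]
    intro v _
    have h2 : (inl v : V ⋊[L.subtype] L) ∈ H'.comap (rightHom : V ⋊[L.subtype] L →* L) :=
      H'.one_mem
    have h3 := Subgroup.mem_top (⟨inl v, h2⟩ : H'.comap (rightHom : V ⋊[L.subtype] L →* L))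
    rw [← h1] at h3
    exact ((hZ _).1 h3).1

/-- For every prime p and every d ≥ 2 there is a finite group G with a maximal subgroup M of index p^d and a maximal subgroup H of M that is not second maximal in G: some maximal subgroup K of G contains H without H being maximal in K. (One may take G the affine group V ⋊ GL(V) of V = 𝔽_p^d, M = GL(V), H the stabiliser in M of a line W of V, and K = V ⋊ H, with H < W ⋊ H < K.) So the prime-index hypothesis in the second-maximality criterion cannot be relaxed to prime-power index. -/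
theorem result (p d : ℕ) (hp : p.Prime)
    (hd : 2 ≤ d) :
    ∃ (G : Type) (_ : Group G) (_ : Finite G) (M H K : Subgroup G), IsCoatom M ∧ M.index = p ^ d ∧ H ≤ M ∧
      IsCoatom (H.subgroupOf M) ∧ IsCoatom K ∧ H ≤ K ∧ ¬ IsCoatom (H.subgroupOf K) := by
  haveI : Fact p.Prime := ⟨hp⟩
  haveI : NeZero d := ⟨by omega⟩
  let V := Multiplicative (Fin d → ZMod p)
  have hVc : Nat.card V = p ^ d := by
    change Nat.card (Fin d → ZMod p) = p ^ d
    rw [Nat.card_fun, Nat.card_zmod, Nat.card_eq_fintype_card, Fintype.card_fin]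
  haveI : Finite V := inferInstanceAs (Finite (Fin d → ZMod p))
  haveI : Nontrivial V := inferInstanceAs (Nontrivial (Fin d → ZMod p))
  haveI : Finite (MulAut V) := Finite.of_injective (fun f : MulAut V => (f : V → V))
    DFunLike.coe_injective
  -- the full automorphism group is irreducible
  have htop : Irr (⊤ : Subgroup (MulAut V)) := by
    intro W hW
    by_cases hW1 : W = ⊥
    · exact Or.inl hW1
    right
    obtain ⟨w, hw, hw1⟩ : ∃ w ∈ W, w ≠ 1 := by
      by_contra hcon
      push Not at hcon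
      exact hW1 ((Subgroup.eq_bot_iff_forall W).2 hcon)
    rw [eq_top_iff]
    intro v _
    by_cases hv : v = 1
    · rw [hv]; exact W.one_mem
    let w' : Fin d → ZMod p := Multiplicative.toAdd w
    let v' : Fin d → ZMod p := Multiplicative.toAdd v
    have hw' : w' ≠ 0 := hw1
    have hv' : v' ≠ 0 := hv
    let f : Submodule.span (ZMod p) {w'} ≃ₗ[ZMod p] Submodule.span (ZMod p) {v'} :=
      (LinearEquiv.toSpanNonzeroSingleton (ZMod p) _ w' hw').symm.trans
        (LinearEquiv.toSpanNonzeroSingleton (ZMod p) _ v' hv')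
    obtain ⟨g, hg⟩ := Submodule.exists_linearEquiv_restrict_eq f
    have h1 := hg ⟨w', Submodule.mem_span_singleton_self w'⟩
    have h2 : g w' = v' := by
      rw [← h1]
      have h5 : (⟨w', Submodule.mem_span_singleton_self w'⟩ : Submodule.span (ZMod p) {w'}) =
        LinearEquiv.toSpanNonzeroSingleton (ZMod p) _ w' hw' 1 :=
        (LinearEquiv.toSpanNonzeroSingleton_one (ZMod p) _ w' hw').symm
      change ((LinearEquiv.toSpanNonzeroSingleton (ZMod p) _ v' hv')
        ((LinearEquiv.toSpanNonzeroSingleton (ZMod p) _ w' hw').symm _) : Fin d → ZMod p) = v'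
      rw [h5, LinearEquiv.symm_apply_apply, LinearEquiv.toSpanNonzeroSingleton_one]
    have h3 := hW (AddEquiv.toMultiplicative g.toAddEquiv) (Subgroup.mem_top _) w hw
    have h4 : (AddEquiv.toMultiplicative g.toAddEquiv) w = v := by
      change Multiplicative.ofAdd (g w') = v
      rw [h2]; rfl
    rwa [h4] at h3
  obtain ⟨L, hLi, hLmin⟩ : ∃ L : Subgroup (MulAut V), Irr L ∧ ∀ L' < L, ¬ Irr L' := by
    obtain ⟨L, hL⟩ := (Set.toFinite {L : Subgroup (MulAut V) | Irr L}).exists_minimal ⟨⊤, htop⟩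
    exact ⟨L, hL.1, fun L' h1 h2 => not_le_of_gt h1 (hL.2 h2 h1.le)⟩
  have hbot : ¬ Irr (⊥ : Subgroup (MulAut V)) := by
    intro h
    obtain ⟨x, hx⟩ : ∃ x : V, x = Multiplicative.ofAdd (Pi.single (0 : Fin d) (1 : ZMod p)) :=
      ⟨_, rfl⟩
    have hx1 : x ≠ 1 := by
      rw [hx]
      intro e
      have h1 : (Pi.single (0 : Fin d) (1 : ZMod p) : Fin d → ZMod p) = 0 := e
      have h2 := congrFun h1 0
      simp at h2
    have hxp : x ^ p = 1 := by
      rw [hx, ← ofAdd_nsmul]
      have : (p • (Pi.single (0 : Fin d) (1 : ZMod p)) : Fin d → ZMod p) = 0 := by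
        ext i; simp
      rw [this]; rfl
    have hxo : orderOf x = p := orderOf_eq_prime hxp hx1
    rcases h (Subgroup.zpowers x) (fun l hl w hw => by
      rw [Subgroup.mem_bot] at hl
      rw [hl]; exact hw) with h1 | h1
    · exact hx1 (Subgroup.zpowers_eq_bot.1 h1)
    · have h2 : Nat.card (Subgroup.zpowers x) = p := by rw [Nat.card_zpowers, hxo]
      rw [h1, Subgroup.card_top, hVc] at h2
      have h3 : p ^ 1 < p ^ d := Nat.pow_lt_pow_right hp.one_lt (by omega)
      rw [h2, pow_one] at h3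
      exact lt_irrefl _ h3
  have hL1 : L ≠ ⊥ := fun e => hbot (e ▸ hLi)
  haveI : Nontrivial L := (Subgroup.nontrivial_iff_ne_bot L).2 hL1
  obtain ⟨H', hH', -⟩ := (eq_top_or_exists_le_coatom (⊥ : Subgroup L)).resolve_left bot_ne_top
  have hlt : H'.map L.subtype < L := by
    refine lt_of_le_of_ne (Subgroup.map_subtype_le H') fun e => hH'.1 ?_
    rw [eq_top_iff]
    intro l _
    have h1 : (l : MulAut V) ∈ H'.map L.subtype := by rw [e]; exact l.2
    obtain ⟨l', hl', h2⟩ := h1
    rwa [← Subtype.ext h2]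
  have h1 := hLmin _ hlt
  simp only [Irr] at h1
  push Not at h1
  obtain ⟨W, hW, hW1, hW2⟩ := h1
  have := construct hLi hH' (W := W) (fun l hl w hw => hW _ ⟨l, hl, rfl⟩ w hw) hW1 hW2
  rwa [hVc] at this

end Cfsg.Agent.S5895
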