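import Cfsg.Statements.S5902
import Cfsg.Agent.S5901
import Cfsg.Agent.L.SylIn

set_option autoImplicit false
open Cfsg

namespace Cfsg.Agent.S5902

open Subgroup
open Cfsg.Agent.L (cj)

theorem part_a {G : Type*} [Group G] [Finite G] (X M : Subgroup G)
    (hK : ComplementedLattice (Subgroup X))
    (hM : IsCoatom M) (hXM : X ≤ M) (huniq : ∀ M' : Subgroup G, IsCoatom M' → X ≤ M' → M' = M)
    (H : Subgroup G) (hH : ¬ H ≤ M) : ∃ C : Subgroup G, H ⊔ C = ⊤ ∧ H ⊓ C = ⊥ := by
  refine S5901.result ⊥ X M bot_le (fun e => hM.1 (top_le_iff.1 (e ▸ hXM))) ?_ hM hXM huniq H hH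
    (inf_bot_eq _)
  intro Y _ hYX
  obtain ⟨C', hC'⟩ := hK.exists_isCompl (Y.subgroupOf X)
  refine ⟨C'.map X.subtype, bot_le, Subgroup.map_subtype_le C', ?_, ?_⟩
  · have h1 := congrArg (Subgroup.map X.subtype) hC'.sup_eq_top
    rw [Subgroup.map_sup, Subgroup.map_subgroupOf_eq_of_le hYX] at h1
    rw [h1, ← MonoidHom.range_eq_map, Subgroup.range_subtype]
  · have h1 := congrArg (Subgroup.map X.subtype) hC'.inf_eq_bot
    rw [Subgroup.map_inf _ _ _ X.subtype_injective, Subgroup.map_subgroupOf_eq_of_le hYX,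
      Subgroup.map_bot] at h1
    exact h1

/-- Let G be a finite group, X a subgroup whose own subgroup lattice is complemented, and suppose X lies in exactly one maximal subgroup M of G. Then every subgroup H of G not contained in the normal core of M has a complement in the subgroup lattice of G (some C with H ⊔ C = G and H ⊓ C = 1); in particular the subgroup lattice of G modulo the normal core of M is complemented. -/
theorem result {G : Type*} [Group G] [Finite G] (X M : Subgroup G)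
    (hK : ComplementedLattice (Subgroup X))
    (hM : IsCoatom M) (hXM : X ≤ M) (huniq : ∀ M' : Subgroup G, IsCoatom M' → X ≤ M' → M' = M) :
    (∀ H : Subgroup G, ¬ H ≤ M.normalCore → ∃ C : Subgroup G, H ⊔ C = ⊤ ∧ H ⊓ C = ⊥) ∧
    ComplementedLattice (Subgroup (G ⧸ M.normalCore)) := by
  have h1 : ∀ H : Subgroup G, ¬ H ≤ M.normalCore → ∃ C : Subgroup G, H ⊔ C = ⊤ ∧ H ⊓ C = ⊥ := by
    intro H hH
    have h2 : ∃ g : G, ¬ cj g H ≤ M := by
      by_contra hcon
      push Not at hcon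
      apply hH
      intro x hx g
      exact hcon g (L.conj_mem_cj hx)
    obtain ⟨g, hg⟩ := h2
    obtain ⟨C, hC1, hC2⟩ := part_a X M hK hM hXM huniq (cj g H) hg
    refine ⟨cj g⁻¹ C, ?_, ?_⟩
    · have := congrArg (cj g⁻¹) hC1
      rwa [L.cj_sup, L.cj_inv_cj, L.cj_top] at this
    · have := congrArg (cj g⁻¹) hC2
      rwa [L.cj_inf, L.cj_inv_cj, L.cj_bot] at this
  refine ⟨h1, ⟨fun H' => ?_⟩⟩
  obtain ⟨q, hq⟩ : ∃ q, q = QuotientGroup.mk' M.normalCore := ⟨_, rfl⟩
  have hqs : Function.Surjective q := hq ▸ QuotientGroup.mk'_surjective _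
  have hker : q.ker = M.normalCore := hq ▸ QuotientGroup.ker_mk' _
  by_cases hb : H' = ⊥
  · exact ⟨⊤, hb ▸ isCompl_bot_top⟩
  have h2 : ¬ H'.comap q ≤ M.normalCore := by
    intro h3
    apply hb
    rw [eq_bot_iff, ← Subgroup.map_comap_eq_self_of_surjective hqs H']
    exact ((Subgroup.map_eq_bot_iff _).2 (h3.trans hker.ge)).le
  obtain ⟨C, hC1, hC2⟩ := h1 _ h2
  refine ⟨C.map q, IsCompl.of_eq ?_ ?_⟩
  · rw [eq_bot_iff]
    rintro x ⟨hx1, c, hc, rfl⟩
    have : c ∈ H'.comap q ⊓ C := ⟨hx1, hc⟩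
    rw [hC2, Subgroup.mem_bot] at this
    rw [this, map_one]; exact Subgroup.one_mem _
  · have h3 := congrArg (Subgroup.map q) hC1
    rwa [Subgroup.map_sup, Subgroup.map_comap_eq_self_of_surjective hqs,
      Subgroup.map_top_of_surjective q hqs] at h3

end Cfsg.Agent.S5902
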