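import Cfsg.Statements.S5903
import Cfsg.Agent.S5901
import Cfsg.Agent.L.SylIn

set_option autoImplicit false
open Cfsg

namespace Cfsg.Agent.S5903

open Subgroup
open Cfsg.Agent.L (cj)

theorem part_a {G : Type*} [Group G] [Finite G] (X M N : Subgroup G)
    (hM : IsCoatom M) (hXM : X ≤ M) (huniq : ∀ M' : Subgroup G, IsCoatom M' → X ≤ M' → M' = M)
    (hNX : N ≤ X) [(N.subgroupOf X).Normal]
    (hK : ComplementedLattice (Subgroup (X ⧸ N.subgroupOf X)))
    (H : Subgroup G) (hH : ¬ H ≤ M) (hHN : H ⊓ N = ⊥) :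
    ∃ C : Subgroup G, H ⊔ C = ⊤ ∧ H ⊓ C = ⊥ := by
  refine S5901.result N X M hNX (fun e => hM.1 (top_le_iff.1 (e ▸ hXM))) ?_ hM hXM huniq H hH hHN
  intro Y hNY hYX
  obtain ⟨q, hq⟩ : ∃ q, q = QuotientGroup.mk' (N.subgroupOf X) := ⟨_, rfl⟩
  have hqs : Function.Surjective q := hq ▸ QuotientGroup.mk'_surjective _
  have hker : q.ker = N.subgroupOf X := hq ▸ QuotientGroup.ker_mk' _
  obtain ⟨C', hC'⟩ := hK.exists_isCompl ((Y.subgroupOf X).map q)
  have hkC : q.ker ≤ C'.comap q := Subgroup.comap_mono bot_le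
  have hNC : N ≤ (C'.comap q).map X.subtype := by
    have h1 := Subgroup.map_mono (f := X.subtype) (hker.ge.trans hkC)
    rwa [Subgroup.map_subgroupOf_eq_of_le hNX] at h1
  have hYq : ((Y.subgroupOf X).map q).comap q = Y.subgroupOf X := by
    rw [Subgroup.comap_map_eq, hker, sup_eq_left]
    exact Subgroup.comap_mono hNY
  refine ⟨(C'.comap q).map X.subtype, hNC, Subgroup.map_subtype_le _, ?_, ?_⟩
  · have h1 := congrArg (Subgroup.comap q) hC'.sup_eq_top
    rw [← Subgroup.comap_sup_eq q _ _ hqs, hYq, Subgroup.comap_top] at h1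
    have h2 := congrArg (Subgroup.map X.subtype) h1
    rw [Subgroup.map_sup, Subgroup.map_subgroupOf_eq_of_le hYX] at h2
    rw [h2, ← MonoidHom.range_eq_map, Subgroup.range_subtype]
  · have h1 := congrArg (Subgroup.comap q) hC'.inf_eq_bot
    rw [Subgroup.comap_inf, hYq] at h1
    have h2 := congrArg (Subgroup.map X.subtype) (h1.trans hker)
    rwa [Subgroup.map_inf _ _ _ X.subtype_injective, Subgroup.map_subgroupOf_eq_of_le hYX,
      Subgroup.map_subgroupOf_eq_of_le hNX] at h2

/-- Let G be a finite simple group, X a subgroup lying in exactly one maximal subgroup M of G, and N a subgroup of prime order with N ≤ X that is central in M. If the subgroup lattice of X/N is complemented, then the subgroup lattice of G is complemented. -/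
theorem result {G : Type*} [Group G] [Finite G] [IsSimpleGroup G] (X M N : Subgroup G)
    (hM : IsCoatom M) (hXM : X ≤ M) (huniq : ∀ M' : Subgroup G, IsCoatom M' → X ≤ M' → M' = M)
    (hNX : N ≤ X) (hN : (Nat.card N).Prime) (hcen : ∀ n ∈ N, ∀ m ∈ M, m * n = n * m)
    [(N.subgroupOf X).Normal] (hK : ComplementedLattice (Subgroup (X ⧸ N.subgroupOf X))) :
    ComplementedLattice (Subgroup G) := by
  refine ⟨fun H => ?_⟩
  suffices h : ∃ C : Subgroup G, H ⊔ C = ⊤ ∧ H ⊓ C = ⊥ by
    obtain ⟨C, h1, h2⟩ := h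
    exact ⟨C, IsCompl.of_eq h2 h1⟩
  by_cases hcase : ∃ g : G, ¬ cj g H ≤ M ∧ cj g H ⊓ N = ⊥
  · obtain ⟨g, hg, hg'⟩ := hcase
    obtain ⟨C, hC1, hC2⟩ := part_a X M N hM hXM huniq hNX hK (cj g H) hg hg'
    refine ⟨cj g⁻¹ C, ?_, ?_⟩
    · have := congrArg (cj g⁻¹) hC1
      rwa [L.cj_sup, L.cj_inv_cj, L.cj_top] at this
    · have := congrArg (cj g⁻¹) hC2
      rwa [L.cj_inf, L.cj_inv_cj, L.cj_bot] at this
  push Not at hcase
  have hNM := hNX.trans hXM
  have hdich : ∀ g : G, cj g N ≤ H ∨ H ≤ centralizer (cj g N : Set G) := by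
    intro g
    by_cases h1 : cj g⁻¹ H ≤ M
    · right
      intro x hx
      refine Subgroup.mem_centralizer_iff.2 ?_
      rintro _ ⟨n, hn, rfl⟩
      have h2 : g⁻¹ * x * g ∈ M := by
        have := h1 (L.conj_mem_cj (g := g⁻¹) hx)
        simpa using this
      have h3 := hcen n hn _ h2
      change g * n * g⁻¹ * x = x * (g * n * g⁻¹)
      have h4 : g * (g⁻¹ * x * g * n) * g⁻¹ = g * (n * (g⁻¹ * x * g)) * g⁻¹ := by rw [h3]
      calc g * n * g⁻¹ * x = g * (n * (g⁻¹ * x * g)) * g⁻¹ := by group
        _ = g * (g⁻¹ * x * g * n) * g⁻¹ := h4.symm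
        _ = x * (g * n * g⁻¹) := by group
    · left
      have h2 := hcase g⁻¹ h1
      have h3 : N ≤ cj g⁻¹ H := by
        have h4 : (cj g⁻¹ H ⊓ N) = N := by
          rcases (Nat.dvd_prime hN).1 (Subgroup.card_dvd_of_le
            (inf_le_right : cj g⁻¹ H ⊓ N ≤ N)) with h5 | h5
          · exact absurd (Subgroup.card_eq_one.1 h5) h2
          · exact L.eq_of_le_of_card_le inf_le_right h5.ge
        exact h4 ▸ inf_le_left
      rw [← L.cj_le_iff] at h3
      simpa using (L.cj_le_iff.2 (by simpa using L.cj_le_iff.1 h3) : cj g N ≤ H)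
  -- the subgroup generated by the conjugates of `N` in `H`
  obtain ⟨A, hA⟩ : ∃ A : Subgroup G, A = ⨆ g : {g : G // cj g N ≤ H}, cj (g : G) N := ⟨_, rfl⟩
  have hAH : A ≤ H := hA ▸ iSup_le fun g => g.2
  have hall : (⨆ g : G, cj g N) = ⊤ := by
    have hn : (⨆ g : G, cj g N).Normal := by
      refine ⟨fun x hx y => ?_⟩
      have h1 : cj y (⨆ g : G, cj g N) ≤ ⨆ g : G, cj g N := by
        rw [L.cj_iSup]
        refine iSup_le fun g => ?_
        rw [L.cj_cj]
        exact le_iSup (fun g : G => cj g N) (y * g)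
      exact h1 (L.conj_mem_cj hx)
    rcases hn.eq_bot_or_eq_top with h1 | h1
    · exfalso
      have h2 : N ≤ ⊥ := by
        rw [← h1]
        have := le_iSup (fun g : G => cj g N) 1
        rwa [L.cj_one] at this
      have h3 := le_bot_iff.1 h2
      rw [h3, Subgroup.card_bot] at hN
      exact Nat.not_prime_one hN
    · exact h1
  have hAn : A.Normal := by
    rw [← Subgroup.normalizer_eq_top_iff, ← top_le_iff, ← hall]
    refine iSup_le fun g => ?_
    rcases hdich g with h1 | h1
    · refine le_trans ?_ (Subgroup.le_normalizer (H := A))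
      rw [hA]
      exact le_iSup (fun g : {g : G // cj g N ≤ H} => cj (g : G) N) ⟨g, h1⟩
    · intro x hx
      have h2 : x ∈ centralizer (A : Set G) := by
        refine Subgroup.mem_centralizer_iff.2 fun a ha => ?_
        exact (Subgroup.mem_centralizer_iff.1 (h1 (hAH ha)) x hx).symm
      rw [L.mem_nz_iff]
      ext a
      rw [L.mem_cj]
      constructor
      · intro ha
        have h3 := Subgroup.mem_centralizer_iff.1 h2 _ ha
        have h4 : a = x⁻¹ * a * x := by
          calc a = x * (x⁻¹ * a * x) * x⁻¹ := by group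
            _ = (x⁻¹ * a * x) * x * x⁻¹ := by rw [h3]
            _ = x⁻¹ * a * x := by group
        rw [h4]; exact ha
      · intro ha
        have h3 := Subgroup.mem_centralizer_iff.1 h2 _ ha
        have h4 : x⁻¹ * a * x = a := by rw [mul_assoc, h3]; group
        rw [h4]; exact ha
  rcases hAn.eq_bot_or_eq_top with h1 | h1
  · -- all conjugates centralize `H`
    refine ⟨⊤, sup_top_eq _, ?_⟩
    rw [inf_top_eq, eq_bot_iff]
    intro x hx
    have h2 : (⊤ : Subgroup G) ≤ centralizer ({x} : Set G) := by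
      rw [← hall]
      refine iSup_le fun g => ?_
      rcases hdich g with h3 | h3
      · exfalso
        have h4 : cj g N ≤ A := by
          rw [hA]
          exact le_iSup (fun g : {g : G // cj g N ≤ H} => cj (g : G) N) ⟨g, h3⟩
        rw [h1, le_bot_iff, L.cj_eq_bot] at h4
        rw [h4, Subgroup.card_bot] at hN
        exact Nat.not_prime_one hN
      · intro n hn
        exact Subgroup.mem_centralizer_singleton_iff.2
          (Subgroup.mem_centralizer_iff.1 (h3 hx) n hn)
    have h3 : x ∈ Subgroup.center G := Subgroup.mem_center_iff.2 fun g =>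
      Subgroup.mem_centralizer_singleton_iff.1 (h2 (Subgroup.mem_top g))
    have hcen' : Subgroup.center G = ⊥ := by
      rcases (inferInstance : (Subgroup.center G).Normal).eq_bot_or_eq_top with h4 | h4
      · exact h4
      · exfalso
        -- then `N` is normal, hence everything
        have h5 : N.Normal := ⟨fun n hn g => by
          have := Subgroup.mem_center_iff.1 (h4 ▸ Subgroup.mem_top n) g
          rw [this, mul_inv_cancel_right]; exact hn⟩
        rcases h5.eq_bot_or_eq_top with h6 | h6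
        · rw [h6, Subgroup.card_bot] at hN
          exact Nat.not_prime_one hN
        · exact hM.1 (top_le_iff.1 (h6 ▸ hNM))
    rw [← hcen']; exact h3
  · refine ⟨⊥, ?_, inf_bot_eq _⟩
    rw [sup_bot_eq, ← top_le_iff, ← h1]; exact hAH

end Cfsg.Agent.S5903
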