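import Cfsg.Statements.S5904


set_option autoImplicit false
open scoped Pointwise
open Cfsg

namespace Cfsg.Agent.S5904

open MulAction
open scoped Pointwise

/-- Let Ω be a finite set with more than two elements and O ⊆ Ω a subset with exactly as many elements as its complement. Then the setwise stabilizer of O in the symmetric group on Ω is not a maximal subgroup (it is properly contained in the stabilizer of the partition {O, Ω ∖ O}, which is proper). -/
theorem result {Ω : Type*} [Fintype Ω] [DecidableEq Ω] (hΩ : 2 < Fintype.card Ω)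
    (O : Set Ω) (hO : Nat.card O = Nat.card ↥Oᶜ) :
    ¬ IsCoatom (MulAction.stabilizer (Equiv.Perm Ω) O) := by
  intro hmax
  -- the stabilizer of the partition
  let K : Subgroup (Equiv.Perm Ω) :=
    { carrier := {g | g • O = O ∨ g • O = Oᶜ}
      mul_mem' := by
        rintro a b (ha | ha) (hb | hb)
        · left; rw [mul_smul, hb, ha]
        · right; rw [mul_smul, hb, Set.smul_set_compl, ha]
        · right; rw [mul_smul, hb, ha]
        · left; rw [mul_smul, hb, Set.smul_set_compl, ha, compl_compl]
      one_mem' := by left; exact one_smul _ _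
      inv_mem' := by
        rintro a (ha | ha)
        · left; rw [inv_smul_eq_iff, ha]
        · right; rw [inv_smul_eq_iff, Set.smul_set_compl, ha, compl_compl] }
  have hle : stabilizer (Equiv.Perm Ω) O ≤ K := fun g hg => Or.inl hg
  have hfinO : Finite O := inferInstance
  have hfinO' : Finite (Oᶜ : Set Ω) := inferInstance
  -- a permutation swapping the two halves
  obtain ⟨e⟩ : Nonempty (O ≃ (Oᶜ : Set Ω)) := by
    rw [← Finite.card_eq]; exact hO
  have hcard : Nat.card O + Nat.card (Oᶜ : Set Ω) = Fintype.card Ω := by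
    rw [← Nat.card_sum, ← Nat.card_eq_fintype_card]
    classical
    exact Nat.card_congr (Equiv.Set.sumCompl O)
  have hO2 : 1 < Nat.card O := by omega
  classical
  let g : Equiv.Perm Ω := (Equiv.Set.sumCompl O).symm.trans
    ((Equiv.sumCongr e e.symm).trans ((Equiv.sumComm _ _).trans (Equiv.Set.sumCompl O)))
  have hg : ∀ x ∈ O, g x ∈ Oᶜ := by
    intro x hx
    have : g x = (e ⟨x, hx⟩ : Ω) := by
      simp only [g, Equiv.trans_apply, Equiv.Set.sumCompl_symm_apply_of_mem hx]
      rfl
    rw [this]; exact (e ⟨x, hx⟩).2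
  have hg' : ∀ x ∈ Oᶜ, g x ∈ O := by
    intro x hx
    have : g x = (e.symm ⟨x, hx⟩ : Ω) := by
      simp only [g, Equiv.trans_apply, Equiv.Set.sumCompl_symm_apply_of_notMem hx]
      rfl
    rw [this]; exact (e.symm ⟨x, hx⟩).2
  have hgO : g • O = Oᶜ := by
    ext y
    rw [Set.mem_smul_set_iff_inv_smul_mem]
    constructor
    · intro hy
      have := hg _ hy
      simpa using this
    · intro hy
      by_contra hcon
      have := hg' _ hcon
      simp at this
      exact hy this
  obtain ⟨⟨x, hx⟩, ⟨y, hy⟩, hxy⟩ := (Finite.one_lt_card_iff_nontrivial.1 hO2).exists_pair_ne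
  have hxy' : x ≠ y := fun e => hxy (Subtype.ext e)
  have hlt : stabilizer (Equiv.Perm Ω) O < K := by
    refine lt_of_le_of_ne hle fun heq => ?_
    have h1 : g ∈ K := Or.inr hgO
    rw [← heq] at h1
    have h2 : g • O = O := h1
    rw [hgO] at h2
    have : x ∈ Oᶜ := by rw [h2]; exact hx
    exact this hx
  have hK : K ≠ ⊤ := by
    intro htop
    have hz : g x ∈ Oᶜ := hg x hx
    have h1 : Equiv.swap y (g x) ∈ K := htop ▸ Subgroup.mem_top _
    have hyz : y ≠ g x := fun e => hz (e ▸ hy)
    have hxz : x ≠ g x := fun e => hz (e ▸ hx)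
    have h3 : x ∈ Equiv.swap y (g x) • O := by
      rw [Set.mem_smul_set_iff_inv_smul_mem, Equiv.swap_inv, Equiv.Perm.smul_def,
        Equiv.swap_apply_of_ne_of_ne hxy' hxz]
      exact hx
    have h4 : g x ∈ Equiv.swap y (g x) • O := by
      rw [Set.mem_smul_set_iff_inv_smul_mem, Equiv.swap_inv, Equiv.Perm.smul_def,
        Equiv.swap_apply_right]
      exact hy
    rcases h1 with h2 | h2
    · rw [h2] at h4; exact hz h4
    · rw [h2] at h3; exact h3 hx
  exact hK (hmax.2 K hlt)

end Cfsg.Agent.S5904
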