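import Cfsg.Statements.S5908
import Cfsg.Agent.H5.PSU32

set_option autoImplicit false
open Cfsg

namespace Cfsg.Agent.S5908

theorem q8_sq : ∀ x : QuaternionGroup 2, x * x = 1 → ∀ y, y * x = x * y := by decide

theorem q8_cube : ∀ x : QuaternionGroup 2, x * x * x = 1 → x = 1 := by decide

theorem q8_nc : ∃ x y : QuaternionGroup 2, y * x ≠ x * y := by decide

theorem not_compl {G : Type*} [Group G] [Finite G] (hG : Nat.card G = 72) (N : Subgroup G) [N.Normal]
    (e : G ⧸ N ≃* QuaternionGroup 2) (h : ComplementedLattice (Subgroup G)) : False := by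
  classical
  set f : G →* QuaternionGroup 2 := e.toMonoidHom.comp (QuotientGroup.mk' N) with hf
  have hfs : Function.Surjective f := e.surjective.comp (QuotientGroup.mk'_surjective N)
  obtain ⟨X, hX⟩ := h.exists_isCompl ((Subgroup.center (QuaternionGroup 2)).comap f)
  have hbot := hX.inf_eq_bot
  have htop := hX.sup_eq_top
  have hXb : X = ⊥ := by
    by_contra hne
    have hcard : Nat.card X ≠ 1 := fun h => hne (Subgroup.card_eq_one.mp h)
    obtain ⟨p, hp, hpd⟩ := Nat.exists_prime_and_dvd hcard
    have hp72 : p ∣ 72 := hG ▸ hpd.trans (Subgroup.card_subgroup_dvd_card X)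
    haveI := Fact.mk hp
    obtain ⟨x, hx⟩ := exists_prime_orderOf_dvd_card' p hpd
    have hx1 : (x : G) ≠ 1 := by
      intro h
      have : x = 1 := Subtype.ext h
      rw [this, orderOf_one] at hx
      exact hp.one_lt.ne hx
    have hmem : (x : G) ∉ (Subgroup.center (QuaternionGroup 2)).comap f := by
      intro h
      apply hx1
      have : (x : G) ∈ (Subgroup.center (QuaternionGroup 2)).comap f ⊓ X := ⟨h, x.2⟩
      rw [hbot] at this
      exact Subgroup.mem_bot.mp this
    have hxp : (x : G) ^ p = 1 := by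
      have := pow_orderOf_eq_one x
      rw [hx] at this
      exact congrArg Subtype.val this
    have h23 : p = 2 ∨ p = 3 := by
      have h1 : p ∣ 2 ^ 3 * 3 ^ 2 := by norm_num; exact hp72
      rcases (Nat.Prime.dvd_mul hp).mp h1 with h | h
      · left; exact (Nat.prime_dvd_prime_iff_eq hp Nat.prime_two).mp (hp.dvd_of_dvd_pow h)
      · right; exact (Nat.prime_dvd_prime_iff_eq hp Nat.prime_three).mp (hp.dvd_of_dvd_pow h)
    apply hmem
    rw [Subgroup.mem_comap, Subgroup.mem_center_iff]
    rcases h23 with rfl | rfl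
    · apply q8_sq
      rw [← map_mul, ← pow_two, hxp, map_one]
    · have : f x = 1 := q8_cube _ (by
        rw [← map_mul, ← map_mul, ← pow_two, ← pow_succ, hxp, map_one])
      rw [this]
      intro g
      rw [one_mul, mul_one]
  rw [hXb, sup_bot_eq] at htop
  obtain ⟨x, y, hxy⟩ := q8_nc
  obtain ⟨g, rfl⟩ := hfs x
  have : g ∈ (Subgroup.center (QuaternionGroup 2)).comap f := by rw [htop]; trivial
  rw [Subgroup.mem_comap, Subgroup.mem_center_iff] at this
  exact hxy (this y)

/-- The subgroup lattice of PSU₃(2) (the solvable group of order 72, realised over the field with 4 elements) is not complemented: some subgroup H has no subgroup X with H ⊔ X = ⊤ and H ⊓ X = ⊥. -/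
theorem result {F : Type*} [Field F] [Fintype F] (hF : Fintype.card F = 4) :
    ¬ ComplementedLattice (Subgroup (Cfsg.PSU 3 F 2)) := by
  intro h
  obtain ⟨N, hN, -, -, ⟨e⟩⟩ := Cfsg.Agent.H5.psu32 hF
  have hc := Cfsg.Agent.H5.card_PSU32 (F := F) (by rw [hF]; norm_num)
  haveI : Finite (Cfsg.PSU 3 F 2) := Nat.finite_of_card_ne_zero (by rw [hc]; norm_num)
  exact not_compl hc N e h

end Cfsg.Agent.S5908
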