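import Cfsg.Statements.S5910


set_option autoImplicit false
open Cfsg

namespace Cfsg.Agent.S5910

abbrev I := ZMod 2 × ZMod 2
abbrev V := I × ZMod 2

theorem perm_I (σ : Equiv.Perm I) (i j k : I) : σ (i + j + k) = σ i + σ j + σ k := by
  revert i j k
  revert σ
  decide

theorem eps (ε : I → ZMod 2) (h : ∏ i : I, Equiv.Perm.sign (Equiv.addLeft (ε i)) = 1) (i j k : I) :
    ε (i + j + k) = ε i + ε j + ε k := by
  have key : ∀ a b c d : ZMod 2, (Equiv.Perm.sign (Equiv.addLeft a) * Equiv.Perm.sign (Equiv.addLeft b)) *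
      (Equiv.Perm.sign (Equiv.addLeft c) * Equiv.Perm.sign (Equiv.addLeft d)) = 1 → a + b + c + d = 0 := by decide
  have hp : ∀ f : ZMod 2 → ℤˣ, ∏ x, f x = f 0 * f 1 := fun f => Fin.prod_univ_two f
  rw [Fintype.prod_prod_type, hp, hp, hp] at h
  have hs : ε (0, 0) + ε (0, 1) + ε (1, 0) + ε (1, 1) = 0 := by
    exact key _ _ _ _ h
  have h1 : ∀ a b c d : ZMod 2, a + b + c + d = 0 → ∀ i j k : I,
      (fun x : I => if x = (0, 0) then a else if x = (0, 1) then b else if x = (1, 0) then c else d) (i + j + k) =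
      (fun x : I => if x = (0, 0) then a else if x = (0, 1) then b else if x = (1, 0) then c else d) i +
      (fun x : I => if x = (0, 0) then a else if x = (0, 1) then b else if x = (1, 0) then c else d) j +
      (fun x : I => if x = (0, 0) then a else if x = (0, 1) then b else if x = (1, 0) then c else d) k := by decide
  have h2 : ε = (fun x : I => if x = (0, 0) then ε (0, 0) else if x = (0, 1) then ε (0, 1) else if x = (1, 0) then ε (1, 0) else ε (1, 1)) := by
    funext x
    have : ∀ x : I, x = (0, 0) ∨ x = (0, 1) ∨ x = (1, 0) ∨ x = (1, 1) := by decide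
    rcases this x with rfl | rfl | rfl | rfl <;> rfl
  rw [h2]
  exact h1 _ _ _ _ hs i j k

/-- even permutations preserving the pairs are affine -/
theorem affine_of_even (g : Equiv.Perm V) (hg : ∀ x y : V, x.1 = y.1 ↔ (g x).1 = (g y).1) (hs : Equiv.Perm.sign g = 1)
    (a b c : V) : g (a + b + c) = g a + g b + g c := by
  classical
  -- the permutation of the pairs
  have hσ : Function.Injective (fun i : I => (g (i, 0)).1) := by
    intro i j hij
    exact (hg (i, 0) (j, 0)).mpr hij
  let σ : Equiv.Perm I := Equiv.ofBijective _ (Finite.injective_iff_bijective.mp hσ)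
  have h1 : ∀ x : V, (g x).1 = σ x.1 := by
    intro x
    exact (hg x (x.1, 0)).mp rfl
  let ε : I → ZMod 2 := fun i => (g (i, 0)).2
  have h2 : ∀ x : V, (g x).2 = ε x.1 + x.2 := by
    rintro ⟨i, b⟩
    have hb : ∀ b : ZMod 2, b = 0 ∨ b = 1 := by decide
    rcases hb b with rfl | rfl
    · simp [ε]
    · have h3 : (g (i, 1)).2 ≠ (g (i, 0)).2 := by
        intro h
        have h4 : g (i, 1) = g (i, 0) := Prod.ext (by rw [h1, h1]) h
        have h5 := congrArg Prod.snd (g.injective h4)
        exact absurd h5 (one_ne_zero (α := ZMod 2))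
      have h4 : ∀ u v : ZMod 2, u ≠ v → u = v + 1 := by decide
      exact h4 _ _ h3
  have h3 : g = (Equiv.prodCongrLeft (fun _ : ZMod 2 => σ) : Equiv.Perm V) * (Equiv.prodCongrRight (fun i : I => Equiv.addLeft (ε i)) : Equiv.Perm V) := by
    apply Equiv.ext
    intro x
    apply Prod.ext
    · rw [h1]; rfl
    · rw [h2]; rfl
  have h4 : ∏ i : I, Equiv.Perm.sign (Equiv.addLeft (ε i)) = 1 := by
    have hp : ∀ f : ZMod 2 → ℤˣ, ∏ x, f x = f 0 * f 1 := fun f => Fin.prod_univ_two f
    rw [h3, Equiv.Perm.sign_mul, Equiv.Perm.sign_prodCongrLeft, Equiv.Perm.sign_prodCongrRight, hp,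
      Int.units_mul_self, one_mul] at hs
    exact hs
  have h5 := eps ε h4
  apply Prod.ext
  · rw [h1]
    change σ (a.1 + b.1 + c.1) = (g a).1 + (g b).1 + (g c).1
    rw [h1, h1, h1, perm_I]
  · rw [h2]
    change ε (a.1 + b.1 + c.1) + (a.2 + b.2 + c.2) = (g a).2 + (g b).2 + (g c).2
    rw [h2, h2, h2, h5]
    ring

theorem exists_coord {Ω : Type*} [Fintype Ω] [DecidableEq Ω] (f : Ω → Fin 4) (hf : ∀ i : Fin 4, Nat.card {x : Ω // f x = i} = 2) :
    ∃ (e : Ω ≃ V), ∀ x y : Ω, f x = f y ↔ (e x).1 = (e y).1 := by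
  classical
  have h1 : ∀ i : Fin 4, Nonempty ({x : Ω // f x = i} ≃ ZMod 2) := by
    intro i
    rw [← Finite.card_eq, hf i, Nat.card_zmod]
  have h2 : Nonempty (Fin 4 ≃ I) := by
    rw [← Finite.card_eq, Nat.card_fin, Nat.card_prod, Nat.card_zmod]
  let e1 : ∀ i : Fin 4, {x : Ω // f x = i} ≃ ZMod 2 := fun i => (h1 i).some
  let e2 : Fin 4 ≃ I := h2.some
  refine ⟨(Equiv.sigmaFiberEquiv f).symm.trans ((Equiv.sigmaCongrRight e1).trans
    ((Equiv.sigmaEquivProd (Fin 4) (ZMod 2)).trans (Equiv.prodCongrLeft (fun _ => e2)))), ?_⟩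
  intro x y
  change _ ↔ e2 (f x) = e2 (f y)
  rw [e2.injective.eq_iff]

theorem sign_of_cube {α : Type*} [Fintype α] [DecidableEq α] (g : Equiv.Perm α) (h : g * g * g = 1) : Equiv.Perm.sign g = 1 := by
  have h1 := congrArg Equiv.Perm.sign h
  rw [Equiv.Perm.sign_mul, Equiv.Perm.sign_mul, Int.units_mul_self, one_mul, map_one] at h1
  exact h1

/-- cyclic permutation of the three coordinates -/
def rot : Equiv.Perm V where
  toFun x := ((x.1.2, x.2), x.1.1)
  invFun x := ((x.2, x.1.1), x.1.2)
  left_inv := fun _ => rfl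
  right_inv := fun _ => rfl

/-- the group of affine permutations -/
def aff {Ω : Type*} (e : Ω ≃ V) : Subgroup (Equiv.Perm Ω) where
  carrier := {g | ∀ a b c : V, e (g (e.symm (a + b + c))) = e (g (e.symm a)) + e (g (e.symm b)) + e (g (e.symm c))}
  one_mem' := by
    intro a b c
    simp
  mul_mem' := by
    intro g h hg hh a b c
    have h1 := hh a b c
    have h2 := hg (e (h (e.symm a))) (e (h (e.symm b))) (e (h (e.symm c)))
    rw [← h1] at h2
    simpa using h2
  inv_mem' := by
    intro g hg a b c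
    have h2 := hg (e (g⁻¹ (e.symm a))) (e (g⁻¹ (e.symm b))) (e (g⁻¹ (e.symm c)))
    simp only [Equiv.symm_apply_apply] at h2
    have h3 : ∀ y, g (g⁻¹ y) = y := fun y => Equiv.apply_symm_apply g y
    rw [h3, h3, h3] at h2
    simp only [Equiv.apply_symm_apply] at h2
    rw [← h2]
    simp only [Equiv.symm_apply_apply]
    rw [show ∀ y, g⁻¹ (g y) = y from fun y => Equiv.symm_apply_apply g y]
    simp

/-- Let Ω be a set with 8 elements and f : Ω → Fin 4 a labelling whose four fibres all have size 2 (a partition of the 8 points into 4 pairs). Then the group of even permutations preserving this partition, (S₂ ≀ S₄) ∩ A₈, is not a maximal subgroup of the alternating group A₈ (it lies in a subgroup isomorphic to the affine group AGL₃(2)). -/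
theorem result {Ω : Type*} [Fintype Ω] [DecidableEq Ω] (h8 : Fintype.card Ω = 8)
    (f : Ω → Fin 4) (hf : ∀ i : Fin 4, Nat.card {x : Ω // f x = i} = 2) :
    ¬ IsCoatom ((Subgroup.closure {g : Equiv.Perm Ω | ∀ x y : Ω, f x = f y ↔ f (g x) = f (g y)} ⊓ alternatingGroup Ω).subgroupOf (alternatingGroup Ω)) := by
  classical
  obtain ⟨e, he⟩ := exists_coord f hf
  intro hco
  set W := Subgroup.closure {g : Equiv.Perm Ω | ∀ x y : Ω, f x = f y ↔ f (g x) = f (g y)} with hW
  have hWle : ∀ g ∈ W, ∀ x y : Ω, f x = f y ↔ f (g x) = f (g y) := by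
    intro g hg
    induction hg using Subgroup.closure_induction with
    | mem g hg => exact hg
    | one => intro x y; rfl
    | mul g h _ _ hg hh =>
      intro x y
      rw [hh x y, hg (h x) (h y)]; rfl
    | inv g _ hg =>
      intro x y
      rw [hg (g⁻¹ x) (g⁻¹ y)]
      rw [show g (g⁻¹ x) = x from Equiv.apply_symm_apply g x, show g (g⁻¹ y) = y from Equiv.apply_symm_apply g y]
  let A := alternatingGroup Ω
  have hle : W ⊓ alternatingGroup Ω ≤ aff e := by
    intro g hg
    have hgW := (Subgroup.mem_inf.mp hg).1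
    have hgA := (Subgroup.mem_inf.mp hg).2
    have h1 := affine_of_even (e.permCongr g) (by
      intro x y
      have h2 := hWle g hgW (e.symm x) (e.symm y)
      rw [he, he] at h2
      simpa using h2) (by rw [Equiv.Perm.sign_permCongr]; exact Equiv.Perm.mem_alternatingGroup.mp hgA)
    intro a b c
    exact h1 a b c
  -- an even affine permutation not preserving the pairs
  have hrot : (e.symm.permCongr rot) ∈ alternatingGroup Ω := by
    rw [Equiv.Perm.mem_alternatingGroup, Equiv.Perm.sign_permCongr]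
    exact sign_of_cube _ (by apply Equiv.ext; intro x; rfl)
  have hrotK : (e.symm.permCongr rot) ∈ aff e := by
    intro a b c
    simp only [Equiv.permCongr_apply, Equiv.symm_symm, Equiv.apply_symm_apply]
    rfl
  have hrotW : (e.symm.permCongr rot) ∉ W := by
    intro h
    have h1 := hWle _ h (e.symm ((0, 0), 0)) (e.symm ((0, 0), 1))
    rw [he, he] at h1
    simp only [Equiv.permCongr_apply, Equiv.symm_symm, Equiv.apply_symm_apply] at h1
    have h2 := h1.mp trivial
    exact absurd h2 (by decide)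
  -- an even permutation which is not affine
  let a : Ω := e.symm ((0, 0), 0)
  let b : Ω := e.symm ((0, 0), 1)
  let c : Ω := e.symm ((0, 1), 0)
  let t : Equiv.Perm Ω := Equiv.swap a b * Equiv.swap b c
  have hab : a ≠ b := fun h => absurd (e.symm.injective h) (by decide)
  have hbc : b ≠ c := fun h => absurd (e.symm.injective h) (by decide)
  have htA : t ∈ alternatingGroup Ω := by
    rw [Equiv.Perm.mem_alternatingGroup, Equiv.Perm.sign_mul, Equiv.Perm.sign_swap hab, Equiv.Perm.sign_swap hbc]
    decide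
  have htK : t ∉ aff e := by
    intro h
    have hfix : ∀ v : V, v ≠ ((0, 0), 0) → v ≠ ((0, 0), 1) → v ≠ ((0, 1), 0) → e (t (e.symm v)) = v := by
      intro v h1 h2 h3
      change e (Equiv.swap a b (Equiv.swap b c (e.symm v))) = v
      have n1 : e.symm v ≠ a := fun h => h1 (e.symm.injective h)
      have n2 : e.symm v ≠ b := fun h => h2 (e.symm.injective h)
      have n3 : e.symm v ≠ c := fun h => h3 (e.symm.injective h)
      rw [Equiv.swap_apply_of_ne_of_ne n2 n3, Equiv.swap_apply_of_ne_of_ne n1 n2, e.apply_symm_apply]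
    have h1 := h ((1, 0), 0) ((0, 1), 1) ((1, 1), 1)
    rw [hfix ((1, 0), 0) (by decide) (by decide) (by decide), hfix ((0, 1), 1) (by decide) (by decide) (by decide),
      hfix ((1, 1), 1) (by decide) (by decide) (by decide)] at h1
    have h2 : e (t (e.symm ((0, 0), 0))) = ((0, 0), 0) := by
      have : (((1, 0), 0) + ((0, 1), 1) + ((1, 1), 1) : V) = ((0, 0), 0) := by decide
      rw [this] at h1
      exact h1
    have h3 : t a = b := by
      change Equiv.swap a b (Equiv.swap b c a) = b
      have n3 : a ≠ c := fun h => absurd (e.symm.injective h) (by decide)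
      rw [Equiv.swap_apply_of_ne_of_ne hab n3, Equiv.swap_apply_left]
    have h4 : e b = ((0, 0), 0) := by rw [← h3]; exact h2
    rw [e.apply_symm_apply] at h4
    exact absurd h4 (by decide)
  have hlt : (W ⊓ alternatingGroup Ω).subgroupOf (alternatingGroup Ω) < (aff e).subgroupOf (alternatingGroup Ω) := by
    rw [SetLike.lt_iff_le_and_exists]
    refine ⟨fun x hx => ?_, ⟨⟨_, hrot⟩, ?_, ?_⟩⟩
    · exact hle (Subgroup.mem_subgroupOf.mp hx)
    · exact hrotK
    · intro h
      exact hrotW (Subgroup.mem_inf.mp (Subgroup.mem_subgroupOf.mp h)).1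
  have htop := hco.2 _ hlt
  have h1 : (⟨t, htA⟩ : alternatingGroup Ω) ∈ (aff e).subgroupOf (alternatingGroup Ω) := by
    rw [htop]; exact Subgroup.mem_top _
  exact htK h1

end Cfsg.Agent.S5910
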