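import Cfsg.Statements.S5911
import Cfsg.Agent.H9.SnB

set_option autoImplicit false
open Cfsg

namespace Cfsg.Agent.S5911

/-- Let Ω be a finite set whose size n is not 6. Then every subgroup of the symmetric group on Ω of index n is the stabilizer of a point. -/
theorem result {Ω : Type*} [Fintype Ω] [DecidableEq Ω] (h6 : Fintype.card Ω ≠ 6)
    (H : Subgroup (Equiv.Perm Ω)) (hH : H.index = Fintype.card Ω) :
    ∃ x : Ω, H = MulAction.stabilizer (Equiv.Perm Ω) x := by
  classical
  by_cases h5 : 5 ≤ Fintype.card Ω
  · obtain ⟨e, x, he⟩ := H9.Sn.exists_coset_iso h5 H hH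
    refine H9.Sn.eq_stab h5 H hH e x he ?_
    intro τ hτ
    rcases H9.Sn.image_swap e rfl hτ with h | ⟨h, _⟩
    · exact h
    · exact absurd h h6
  · push Not at h5
    have hidx : H.index ≠ 0 := Subgroup.index_ne_zero_of_finite
    have hcard := Subgroup.card_mul_index H
    rw [Nat.card_perm, Nat.card_eq_fintype_card (α := Ω), hH] at hcard
    have hst : ∀ ω : Ω, H ≤ MulAction.stabilizer (Equiv.Perm Ω) ω → H = MulAction.stabilizer (Equiv.Perm Ω) ω := by
      intro ω hle
      have h1 := Subgroup.relIndex_mul_index hle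
      rw [H9.Sn.card_stab, hH] at h1
      have h2 : H.relIndex (MulAction.stabilizer (Equiv.Perm Ω) ω) = 1 :=
        Nat.eq_of_mul_eq_mul_right (by omega : 0 < Fintype.card Ω) (by rw [h1, one_mul])
      exact le_antisymm hle (Subgroup.relIndex_eq_one.mp h2)
    -- a unique fixed point of a generator of a normal subgroup
    have key : ∀ (p : ℕ) (hp : p.Prime) (σ : Equiv.Perm Ω), orderOf σ = p → Fintype.card Ω % p = 1 → Fintype.card Ω < 2 * p →
        (∀ h ∈ H, h * σ * h⁻¹ ∈ Subgroup.zpowers σ) → ∃ ω : Ω, H = MulAction.stabilizer (Equiv.Perm Ω) ω := by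
      intro p hp σ hσ hmod hlt hn
      haveI := Fact.mk hp
      have h1 : Fintype.card {x : Ω // σ x = x} = 1 := by
        have hpg : IsPGroup p (Subgroup.zpowers σ) := by
          apply IsPGroup.of_card (n := 1)
          rw [Nat.card_zpowers, hσ, pow_one]
        have h2 := hpg.card_modEq_card_fixedPoints Ω
        have h3 : Nat.card (MulAction.fixedPoints (Subgroup.zpowers σ) Ω) = Fintype.card {x : Ω // σ x = x} := by
          rw [← Nat.card_eq_fintype_card]
          apply Nat.card_congr
          refine Equiv.subtypeEquiv (Equiv.refl _) ?_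
          intro x
          constructor
          · intro h
            exact h ⟨σ, Subgroup.mem_zpowers _⟩
          · rintro h ⟨g, hg⟩
            obtain ⟨k, rfl⟩ := Subgroup.mem_zpowers_iff.mp hg
            have h4 : σ • x = x := h
            change (σ ^ k) • x = x
            exact MulAction.mem_stabilizer_iff.mp (Subgroup.zpow_mem (MulAction.stabilizer (Equiv.Perm Ω) x) h4 k)
        rw [h3, Nat.card_eq_fintype_card] at h2
        have h4 : Fintype.card {x : Ω // σ x = x} ≤ Fintype.card Ω := Fintype.card_subtype_le _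
        have h5 : Fintype.card {x : Ω // σ x = x} ≠ Fintype.card Ω := by
          intro h5
          have h6 : σ = 1 := by
            ext x
            have h7 := Finset.card_eq_iff_eq_univ (Finset.univ.filter (fun x => σ x = x)) |>.mp (by
              rw [← h5, Fintype.card_subtype])
            have : x ∈ Finset.univ.filter (fun x => σ x = x) := by rw [h7]; exact Finset.mem_univ _
            exact (Finset.mem_filter.mp this).2
          rw [h6, orderOf_one] at hσ
          exact hp.one_lt.ne hσ
        unfold Nat.ModEq at h2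
        rw [hmod] at h2
        have h7 := Nat.div_add_mod (Fintype.card {x : Ω // σ x = x}) p
        have h8 := Nat.div_add_mod (Fintype.card Ω) p
        rw [← h2] at h7
        rw [hmod] at h8
        have h9 : Fintype.card {x : Ω // σ x = x} / p < 1 := by
          by_contra hc
          push Not at hc
          have h10 : p * 1 ≤ p * (Fintype.card {x : Ω // σ x = x} / p) := Nat.mul_le_mul_left _ hc
          have h11 : Fintype.card Ω / p ≤ 1 := by
            rw [← Nat.lt_succ_iff]
            rw [Nat.div_lt_iff_lt_mul hp.pos]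
            omega
          have h12 : p * (Fintype.card Ω / p) ≤ p * 1 := Nat.mul_le_mul_left _ h11
          exact h5 (by omega)
        have h10 : Fintype.card {x : Ω // σ x = x} / p = 0 := Nat.lt_one_iff.mp h9
        rw [h10, mul_zero, zero_add] at h7
        exact h7.symm
      obtain ⟨⟨ω, hω⟩, huniq⟩ := Fintype.card_eq_one_iff.mp h1
      refine ⟨ω, hst ω ?_⟩
      intro h hh
      rw [MulAction.mem_stabilizer_iff]
      have h2 : σ (h⁻¹ ω) = h⁻¹ ω := by
        obtain ⟨k, hk⟩ := Subgroup.mem_zpowers_iff.mp (hn h hh)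
        have h5 : (h * σ * h⁻¹) ω = ω := by
          rw [← hk]
          exact MulAction.mem_stabilizer_iff.mp (Subgroup.zpow_mem (MulAction.stabilizer (Equiv.Perm Ω) ω) (show σ • ω = ω from hω) k)
        have h6 : h (σ (h⁻¹ ω)) = ω := h5
        exact (Equiv.Perm.eq_inv_iff_eq.mpr h6)
      have h3 := congrArg Subtype.val (huniq ⟨h⁻¹ ω, h2⟩)
      change h ω = ω
      have h4 : h⁻¹ ω = ω := h3
      exact (Equiv.Perm.inv_eq_iff_eq.mp h4).symm
    have h0 : Fintype.card Ω ≠ 0 := by rw [← hH]; exact hidx
    haveI : Nonempty Ω := Fintype.card_pos_iff.mp (by omega)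
    have hcases : Fintype.card Ω = 1 ∨ Fintype.card Ω = 2 ∨ Fintype.card Ω = 3 ∨ Fintype.card Ω = 4 := by omega
    rcases hcases with hc | hc | hc | hc <;> rw [hc] at hcard
    · refine ⟨Classical.arbitrary Ω, hst _ ?_⟩
      intro g _
      haveI := Fintype.card_le_one_iff_subsingleton.mp hc.le
      exact Subsingleton.elim _ _
    · have h1 : Nat.card H = 1 := by
        have : Nat.factorial 2 = 2 := rfl
        omega
      refine ⟨Classical.arbitrary Ω, hst _ ?_⟩
      rw [Subgroup.eq_bot_of_card_eq H h1]
      exact bot_le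
    · have h1 : Nat.card H = 2 := by
        have : Nat.factorial 3 = 6 := rfl
        omega
      haveI := Fact.mk Nat.prime_two
      obtain ⟨σ, hσ⟩ := exists_prime_orderOf_dvd_card' 2 (show 2 ∣ Nat.card H by rw [h1])
      refine key 2 Nat.prime_two (σ : Equiv.Perm Ω) (by rw [Subgroup.orderOf_coe, hσ]) (by rw [hc]) (by rw [hc]; norm_num) ?_
      have h2 : Subgroup.zpowers (σ : Equiv.Perm Ω) = H := by
        apply Subgroup.eq_of_le_of_card_ge
        · rw [Subgroup.zpowers_le]; exact σ.2
        · rw [h1, Nat.card_zpowers, Subgroup.orderOf_coe, hσ]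
      rw [h2]
      intro h hh
      exact H.mul_mem (H.mul_mem hh σ.2) (H.inv_mem hh)
    · have h1 : Nat.card H = 6 := by
        have : Nat.factorial 4 = 24 := rfl
        omega
      haveI := Fact.mk Nat.prime_three
      obtain ⟨σ, hσ⟩ := exists_prime_orderOf_dvd_card' 3 (show 3 ∣ Nat.card H by rw [h1]; norm_num)
      refine key 3 Nat.prime_three (σ : Equiv.Perm Ω) (by rw [Subgroup.orderOf_coe, hσ]) (by rw [hc]) (by rw [hc]; norm_num) ?_
      have h2 : (Subgroup.zpowers σ).index = 2 := by
        have h3 := Subgroup.card_mul_index (Subgroup.zpowers σ)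
        rw [Nat.card_zpowers, hσ, h1] at h3
        omega
      haveI := Subgroup.normal_of_index_eq_two h2
      intro h hh
      have h3 := (inferInstance : (Subgroup.zpowers σ).Normal).conj_mem σ (Subgroup.mem_zpowers _) ⟨h, hh⟩
      obtain ⟨k, hk⟩ := Subgroup.mem_zpowers_iff.mp h3
      refine Subgroup.mem_zpowers_iff.mpr ⟨k, ?_⟩
      have h4 := congrArg Subtype.val hk
      exact h4

end Cfsg.Agent.S5911
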