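import Cfsg.Statements.S5912
import Cfsg.Agent.H9.SnC

set_option autoImplicit false
open Cfsg

namespace Cfsg.Agent.S5912

/-- The symmetric group on a 6-element set Ω has exactly two conjugacy classes of subgroups of index 6: there are two non-conjugate subgroups of index 6 (a point stabilizer and a transitive subgroup isomorphic to S₅), and every subgroup of index 6 is conjugate to one of them. -/
theorem result {Ω : Type*} [Fintype Ω] [DecidableEq Ω] (h6 : Fintype.card Ω = 6) :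
    ∃ H₁ H₂ : Subgroup (Equiv.Perm Ω), H₁.index = 6 ∧ H₂.index = 6 ∧
      (¬ ∃ g : Equiv.Perm Ω, Subgroup.map (MulAut.conj g).toMonoidHom H₁ = H₂) ∧
      ∀ H : Subgroup (Equiv.Perm Ω), H.index = 6 →
        ∃ g : Equiv.Perm Ω, Subgroup.map (MulAut.conj g).toMonoidHom H₁ = H ∨ Subgroup.map (MulAut.conj g).toMonoidHom H₂ = H := by
  classical
  obtain ⟨e, hcl, hne⟩ := H9.Sn.classify h6
  haveI : Nonempty Ω := Fintype.card_pos_iff.mp (by omega)
  let ω₀ : Ω := Classical.arbitrary Ω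
  have hconj : ∀ (g : Equiv.Perm Ω) (ω : Ω), Subgroup.map (MulAut.conj g).toMonoidHom (MulAction.stabilizer (Equiv.Perm Ω) ω) =
      MulAction.stabilizer (Equiv.Perm Ω) (g • ω) := by
    intro g ω
    rw [MulAction.stabilizer_smul_eq_stabilizer_map_conj]
  refine ⟨MulAction.stabilizer (Equiv.Perm Ω) ω₀, (MulAction.stabilizer (Equiv.Perm Ω) ω₀).comap e.toMonoidHom,
    (hcl _).mpr (Or.inl ⟨ω₀, rfl⟩), (hcl _).mpr (Or.inr ⟨ω₀, rfl⟩), ?_, ?_⟩
  · rintro ⟨g, hg⟩
    rw [hconj] at hg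
    exact hne _ _ hg
  · intro H hH
    rcases (hcl H).mp hH with ⟨ω, rfl⟩ | ⟨ω, rfl⟩
    · obtain ⟨g, hg⟩ := MulAction.exists_smul_eq (Equiv.Perm Ω) ω₀ ω
      exact ⟨g, Or.inl (by rw [hconj, hg])⟩
    · obtain ⟨g, hg⟩ := MulAction.exists_smul_eq (Equiv.Perm Ω) ω₀ ω
      refine ⟨e.symm g, Or.inr ?_⟩
      rw [← hg, ← hconj]
      ext a
      constructor
      · rintro ⟨b, hb, rfl⟩
        refine ⟨e b, hb, ?_⟩
        change g * e b * g⁻¹ = e (e.symm g * b * (e.symm g)⁻¹)
        rw [map_mul, map_mul, map_inv, e.apply_symm_apply]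
      · rintro ⟨b, hb, hba⟩
        refine ⟨e.symm b, ?_, ?_⟩
        · change e (e.symm b) ∈ MulAction.stabilizer (Equiv.Perm Ω) ω₀
          rwa [e.apply_symm_apply]
        · apply e.injective
          change e (e.symm g * e.symm b * (e.symm g)⁻¹) = e a
          rw [map_mul, map_mul, map_inv, e.apply_symm_apply, e.apply_symm_apply]
          exact hba

end Cfsg.Agent.S5912
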