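import Cfsg.Statements.S5914
import Cfsg.Agent.H9.PowA

set_option autoImplicit false
open Cfsg

namespace Cfsg.Agent.S5914

/-- A non-trivial finite group G is characteristically simple (its only characteristic subgroups are 1 and G) if and only if G is isomorphic to a direct power S^n (n ≥ 1) of some simple group S (possibly cyclic of prime order). -/
theorem result {G : Type*} [Group G] [Finite G] [Nontrivial G] :
    (∀ H : Subgroup G, H.Characteristic → H = ⊥ ∨ H = ⊤) ↔
    ∃ (S : Type) (_ : Group S) (_ : IsSimpleGroup S) (n : ℕ), 1 ≤ n ∧ Nonempty (G ≃* (Fin n → S)) := by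
  constructor
  · intro h
    by_cases hc : ∀ a b : G, a * b = b * a
    · obtain ⟨p, hp, m, hm, ⟨e⟩⟩ := H9.Pow.exists_pow_abelian h hc
      refine ⟨Multiplicative (ZMod p), inferInstance, ?_, m, hm, ⟨e⟩⟩
      haveI := hp
      apply isSimpleGroup_of_prime_card (p := p)
      rw [Nat.card_congr Multiplicative.toAdd, Nat.card_zmod]
    · obtain ⟨T, i1, m, hm, hs, _, ⟨e⟩⟩ := H9.Pow.exists_pow_nonabelian h hc
      exact ⟨T, i1, hs, m, hm, ⟨e⟩⟩
  · rintro ⟨S, i1, hs, n, hn, ⟨e⟩⟩ H hH
    exact H9.Pow.char_transfer e (fun K hK => H9.Pow.char_pi K hK) H hH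

end Cfsg.Agent.S5914
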