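import Cfsg.Statements.S5946


set_option autoImplicit false
open Cfsg

namespace Cfsg.Agent.S5946

/-- Let F ⊆ K be finite fields with [K : F] = n ≥ 2 and regard K as an n-dimensional F-vector space. The Singer group M ≤ GL_F(K) of multiplications by the non-zero elements of K is self-centralizing: every F-linear automorphism of K commuting with all of M lies in M. -/
theorem result {F K : Type*} [Field F] [Fintype F] [Field K] [Fintype K] [Algebra F K] (n : ℕ) (hn : 2 ≤ n) (hdim : Module.finrank F K = n) :
    Subgroup.centralizer (((Units.map ((Algebra.lmul F K : K →ₐ[F] Module.End F K) : K →* Module.End F K)).range : Subgroup (Module.End F K)ˣ) : Set (Module.End F K)ˣ) = (Units.map ((Algebra.lmul F K : K →ₐ[F] Module.End F K) : K →* Module.End F K)).range := by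
  classical
  apply le_antisymm
  · intro u hu
    rw [Subgroup.mem_centralizer_iff] at hu
    -- the action of multiplications
    have h1 : ∀ y : Kˣ, ∀ x : K, (u : Module.End F K) ((y : K) * x) = (y : K) * (u : Module.End F K) x := by
      intro y x
      have h2 := hu (Units.map ((Algebra.lmul F K : K →ₐ[F] Module.End F K) : K →* Module.End F K) y) ⟨y, rfl⟩
      have h3 := congrArg (fun v : (Module.End F K)ˣ => (v : Module.End F K) x) h2
      exact h3.symm
    have h2 : ∀ y : K, (u : Module.End F K) y = y * (u : Module.End F K) 1 := by
      intro y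
      by_cases hy : y = 0
      · rw [hy, map_zero, zero_mul]
      · have h3 := h1 (Units.mk0 y hy) 1
        rw [Units.val_mk0, mul_one] at h3
        exact h3
    have hne : (u : Module.End F K) 1 ≠ 0 := by
      intro h0
      have h3 : (u : Module.End F K) ((↑u⁻¹ : Module.End F K) 1) = 1 := by
        have h4 := congrArg (fun v : Module.End F K => v 1) u.mul_inv
        exact h4
      rw [h2, h0, mul_zero] at h3
      exact zero_ne_one h3
    refine ⟨Units.mk0 _ hne, ?_⟩
    ext x
    change (u : Module.End F K) 1 * x = (u : Module.End F K) x
    rw [h2 x, mul_comm]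
  · rintro u ⟨y, rfl⟩
    rw [Subgroup.mem_centralizer_iff]
    rintro v ⟨z, rfl⟩
    rw [← map_mul, ← map_mul, mul_comm]

end Cfsg.Agent.S5946
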