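import Cfsg.Statements.S5947
import Cfsg.Agent.H18.Zsig
import Mathlib.FieldTheory.Minpoly.IsIntegrallyClosed
import Mathlib.FieldTheory.Finite.Basic
import Mathlib.FieldTheory.PrimitiveElement
import Mathlib.NumberTheory.Cyclotomic.Basic
import Mathlib.LinearAlgebra.Charpoly.Basic

/-! Abelian subgroups of order `q^n - 1` in `GL_n(q)`. -/

set_option autoImplicit false
open Cfsg

namespace Cfsg.Agent.S5947

open Polynomial Module

/-- a prime power `q` with `q + 1` a power of two is prime -/
theorem prime_of_add_one (p f a : ℕ) (hp : p.Prime) (hf : 0 < f) (h : p ^ f + 1 = 2 ^ a) :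
    f = 1 := by
  have hp2 := hp.two_le
  have ha : 0 < a := by
    rcases Nat.eq_zero_or_pos a with h0 | h0
    · subst h0
      have : 1 < p ^ f := Nat.one_lt_pow (by omega) (by omega)
      simp at h; omega
    · exact h0
  have hodd : Odd (p ^ f) := by
    have h2 : Even (2 ^ a) := (even_two).pow_of_ne_zero (by omega)
    rw [← h] at h2
    rcases Nat.even_or_odd (p ^ f) with h3 | h3
    · exfalso
      have := (Nat.even_add_one.1 h2)
      exact this h3
    · exact h3
  have hpo : Odd p := by
    rcases Nat.even_or_odd p with h3 | h3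
    · exfalso
      have := h3.pow_of_ne_zero (n := f) (by omega)
      exact (Nat.not_even_iff_odd.2 hodd) this
    · exact h3
  rcases Nat.even_or_odd f with he | ho
  · exfalso
    obtain ⟨k, hk⟩ := he
    have h1 : p ^ f % 4 = 1 := by
      have : p ^ f = (p * p) ^ k := by rw [hk, ← two_mul, pow_mul, pow_two]
      rw [this]
      have h4 : (p * p) % 4 = 1 := by
        have : p % 4 = 1 ∨ p % 4 = 3 := by
          obtain ⟨m, hm⟩ := hpo; omega
        rcases this with h | h <;> simp [Nat.mul_mod, h]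
      rw [Nat.pow_mod, h4]; simp
    have h2 : 2 ^ a % 4 = 2 := by rw [← h]; omega
    have h3 : a = 1 := by
      rcases Nat.lt_or_ge a 2 with h | h
      · omega
      · exfalso
        obtain ⟨c, rfl⟩ := Nat.exists_eq_add_of_le h
        rw [pow_add] at h2
        omega
    rw [h3] at h
    have : 1 < p ^ f := Nat.one_lt_pow (by omega) (by omega)
    omega
  · -- `f` odd
    obtain ⟨k, hk⟩ := ho
    have hdv : p + 1 ∣ p ^ f + 1 := by
      have := Odd.nat_add_dvd_pow_add_pow p 1 (n := f) ⟨k, hk⟩
      simpa using this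
    rw [h] at hdv
    obtain ⟨b, hb, hb2⟩ := (Nat.dvd_prime_pow Nat.prime_two).1 hdv
    have hb1 : 2 ≤ b := by
      rcases Nat.lt_or_ge b 2 with h | h
      · exfalso
        interval_cases b <;> omega
      · exact h
    -- p^2 ≡ 1 mod 2^(b+1)
    have h1 : (p * p) ≡ 1 [MOD 2 ^ (b + 1)] := by
      have e : p = 2 ^ b - 1 := by omega
      have hz : ((p : ℤ) * p) ≡ 1 [ZMOD (2 ^ (b + 1) : ℕ)] := by
        have e2 : (p : ℤ) = 2 ^ b - 1 := by
          have : (p : ℤ) + 1 = 2 ^ b := by exact_mod_cast hb2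
          linarith
        rw [e2]
        apply Int.ModEq.symm
        rw [Int.modEq_iff_dvd]
        obtain ⟨c, rfl⟩ := Nat.exists_eq_add_of_le hb1
        refine ⟨2 ^ (1 + c) - 1, ?_⟩
        push_cast
        ring
      exact_mod_cast (Int.natCast_modEq_iff.1 (by exact_mod_cast hz))
    have h2 : p ^ f ≡ p [MOD 2 ^ (b + 1)] := by
      have e : p ^ f = (p * p) ^ k * p := by
        rw [hk, pow_succ, pow_mul, pow_two]
      rw [e]
      have := (h1.pow k).mul_right p
      simpa using this
    have h3 : 2 ^ a ≡ 2 ^ b [MOD 2 ^ (b + 1)] := by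
      rw [← h, ← hb2]
      exact h2.add_right 1
    have h4 : a = b := by
      rcases Nat.lt_or_ge b a with h | h
      · exfalso
        have h5 : 2 ^ a ≡ 0 [MOD 2 ^ (b + 1)] :=
          (Nat.modEq_zero_iff_dvd).2 (pow_dvd_pow 2 h)
        have h6 := (Nat.modEq_zero_iff_dvd).1 (h3.symm.trans h5)
        have h7 := Nat.le_of_dvd (by positivity) h6
        rw [pow_succ] at h7
        have : 0 < 2 ^ b := by positivity
        omega
      · omega
    have h5 : p ^ f = p ^ 1 := by
      rw [h4, ← hb2] at h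
      rw [pow_one]
      omega
    exact Nat.pow_right_injective hp2 h5

/-- primitive prime divisor in the setting of the statement -/
theorem exists_ppd (q n : ℕ) (hq : IsPrimePow q) (hn : 2 ≤ n) (hex1 : ¬ (n = 6 ∧ q = 2))
    (hex2 : ¬ (n = 2 ∧ q.Prime ∧ ∃ a : ℕ, q + 1 = 2 ^ a)) :
    ∃ r : ℕ, r.Prime ∧ r ∣ q ^ n - 1 ∧ ∀ k : ℕ, 0 < k → k < n → ¬ r ∣ q ^ k - 1 := by
  have hq1 : 1 < q := hq.one_lt
  rcases Nat.lt_or_ge 2 n with h | h
  · exact H18.Zsig.zsigmondy hq1 h (by rintro ⟨h1, h2⟩; exact hex1 ⟨h2, h1⟩)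
  · have hn2 : n = 2 := by omega
    subst hn2
    have hnp : ¬ ∃ a : ℕ, q + 1 = 2 ^ a := by
      rintro ⟨a, ha⟩
      obtain ⟨p, f, hp, hf, hpf⟩ := hq
      rw [← hpf] at ha
      have := prime_of_add_one p f a hp.nat_prime hf ha
      apply hex2
      refine ⟨rfl, ?_, a, ?_⟩
      · rw [← hpf, this, pow_one]; exact hp.nat_prime
      · rw [← hpf]; exact ha
    -- odd prime divisor of `q + 1`
    have : ∃ r : ℕ, r.Prime ∧ r ∣ q + 1 ∧ r ≠ 2 := by
      by_contra hcon
      push Not at hcon
      apply hnp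
      exact ⟨_, Nat.eq_prime_pow_of_unique_prime_dvd (by omega) (fun {d} hd hdv => hcon d hd hdv)⟩
    obtain ⟨r, hr, hrd, hr2⟩ := this
    refine ⟨r, hr, ?_, ?_⟩
    · have : q ^ 2 - 1 = (q + 1) * (q - 1) := by
        have := Nat.sq_sub_sq q 1
        simpa using this
      rw [this]
      exact Dvd.dvd.mul_right hrd _
    · intro k hk hk2 hdv
      have hk1 : k = 1 := by omega
      subst hk1
      rw [pow_one] at hdv
      have h2 : r ∣ (q + 1) - (q - 1) := Nat.dvd_sub hrd hdv
      have : (q + 1) - (q - 1) = 2 := by omega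
      rw [this] at h2
      exact hr2 ((Nat.prime_dvd_prime_iff_eq hr Nat.prime_two).1 h2)

/-- the degree of a primitive `r`-th root of unity -/
theorem natDegree_minpoly_eq {F K : Type*} [Field F] [Fintype F] [Field K] [Fintype K]
    [Algebra F K] (n r : ℕ) (hdim : Module.finrank F K = n) (hr : r.Prime)
    (hrp : ∀ k : ℕ, 0 < k → k < n → ¬ r ∣ Fintype.card F ^ k - 1)
    (ζ : K) (hζ : ζ ^ r = 1) (hζ1 : ζ ≠ 1) : (minpoly F ζ).natDegree = n := by
  classical
  have hint : IsIntegral F ζ := IsIntegral.of_finite F ζ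
  have hpos : 0 < (minpoly F ζ).natDegree := minpoly.natDegree_pos hint
  have hle : (minpoly F ζ).natDegree ≤ n := by
    rw [← hdim]; exact minpoly.natDegree_le ζ
  by_contra hne
  have hlt : (minpoly F ζ).natDegree < n := lt_of_le_of_ne hle hne
  apply hrp _ hpos hlt
  -- the field `F(ζ)`
  let E := IntermediateField.adjoin F {ζ}
  let _ : Fintype E := Fintype.ofFinite _
  have hcE : Fintype.card E = Fintype.card F ^ (minpoly F ζ).natDegree := by
    rw [← IntermediateField.adjoin.finrank hint]
    exact Module.card_eq_pow_finrank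
  let z : E := ⟨ζ, IntermediateField.mem_adjoin_simple_self F ζ⟩
  have hz : z ≠ 0 := by
    intro h
    have : ζ = 0 := congrArg Subtype.val h
    rw [this, zero_pow hr.ne_zero] at hζ
    exact zero_ne_one hζ
  have h1 : z ^ (Fintype.card E - 1) = 1 := FiniteField.pow_card_sub_one_eq_one z hz
  have h2 : ζ ^ (Fintype.card E - 1) = 1 := congrArg Subtype.val h1
  have hfr : Fact r.Prime := ⟨hr⟩
  have h3 : orderOf ζ = r := orderOf_eq_prime hζ hζ1
  rw [← hcE, ← h3]
  exact orderOf_dvd_of_pow_eq_one h2

/-- main structural step: an endomorphism of prime order `r` (primitive) generates a copy of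
`K` -/
theorem exists_algHom {F K : Type*} [Field F] [Fintype F] [Field K] [Fintype K]
    [Algebra F K] (n r : ℕ) (hdim : Module.finrank F K = n) (hr : r.Prime)
    (hrd : r ∣ Fintype.card F ^ n - 1)
    (hrp : ∀ k : ℕ, 0 < k → k < n → ¬ r ∣ Fintype.card F ^ k - 1) (hn : 0 < n)
    (u : Module.End F K) (hu : u ^ r = 1) (hu1 : u ≠ 1) :
    ∃ (ζ : K) (φ : K →ₐ[F] Module.End F K), φ ζ = u ∧ Algebra.adjoin F {ζ} = ⊤ := by
  classical
  have hcK : Fintype.card K = Fintype.card F ^ n := by
    rw [← hdim]; exact Module.card_eq_pow_finrank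
  -- a primitive root
  have hrK : r ∣ Fintype.card Kˣ := by
    rw [Fintype.card_units, hcK]; exact hrd
  have hfr : Fact r.Prime := ⟨hr⟩
  have hnz : NeZero r := ⟨hr.ne_zero⟩
  obtain ⟨b, hb⟩ := exists_prime_orderOf_dvd_card r hrK
  have hbp : IsPrimitiveRoot (b : K) r := by
    have := IsPrimitiveRoot.orderOf (b : K)
    rw [orderOf_units, hb] at this
    exact this
  have hcne : (r : K) ≠ 0 := by
    have hne : NeZero (r : K) := hbp.neZero'
    exact hne.out
  have hsplit : ((X ^ r - 1 : F[X]).map (algebraMap F K)).Splits := by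
    have := X_pow_sub_one_splits hbp
    simpa using this
  -- `m` is the minimal polynomial of `u`
  have huint : IsIntegral F u := IsIntegral.of_finite F u
  have hm : minpoly F u ∣ X ^ r - 1 := by
    apply minpoly.dvd
    simp [hu]
  set h : F[X] := ∑ i ∈ Finset.range r, X ^ i with hh
  have hfac : (X ^ r - 1 : F[X]) = h * (X - 1) := by
    rw [hh]; exact (geom_sum_mul X r).symm
  have hnot : ¬ minpoly F u ∣ (X - 1 : F[X]) := by
    intro hd
    obtain ⟨c, hc⟩ := hd
    have h1 : aeval u (X - 1 : F[X]) = 0 := by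
      rw [hc, map_mul, minpoly.aeval, zero_mul]
    rw [map_sub, aeval_X, map_one, sub_eq_zero] at h1
    exact hu1 h1
  have hncop : ¬ IsCoprime (minpoly F u) h := by
    intro hcop
    apply hnot
    rw [hfac] at hm
    exact hcop.dvd_of_dvd_mul_left hm
  have hirr : ∃ f : F[X], Irreducible f ∧ f ∣ minpoly F u ∧ f ∣ h := by
    by_contra hcon
    push Not at hcon
    apply hncop
    apply isCoprime_of_irreducible_dvd
    · rintro ⟨h1, -⟩
      exact minpoly.ne_zero huint h1
    · intro z hz hz1 hz2
      exact hcon z hz hz1 hz2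
  obtain ⟨f, hfi, hfm, hfh⟩ := hirr
  have hXne : ((X ^ r - 1 : F[X]).map (algebraMap F K)) ≠ 0 := by
    rw [Polynomial.map_ne_zero_iff (algebraMap F K).injective]
    exact (Polynomial.monic_X_pow_sub_C (1 : F) hr.ne_zero).ne_zero
  have hfs : (f.map (algebraMap F K)).Splits := by
    apply hsplit.of_dvd hXne
    apply Polynomial.map_dvd
    rw [hfac]
    exact Dvd.dvd.mul_right hfh _
  obtain ⟨ζ, hζf⟩ := hfs.exists_eval_eq_zero (by
    rw [degree_map]
    exact (Polynomial.degree_pos_of_irreducible hfi).ne')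
  have hζf' : aeval ζ f = 0 := by
    rw [aeval_def, ← eval_map]; exact hζf
  have hζh : aeval ζ h = 0 := by
    obtain ⟨c, hc⟩ := hfh
    rw [hc, map_mul, hζf', zero_mul]
  have hζr : ζ ^ r = 1 := by
    have h1 : aeval ζ (X ^ r - 1 : F[X]) = 0 := by
      rw [hfac, map_mul, hζh, zero_mul]
    rw [map_sub, map_pow, aeval_X, map_one, sub_eq_zero] at h1
    exact h1
  have hζ1 : ζ ≠ 1 := by
    intro h1
    rw [h1, hh] at hζh
    simp at hζh
    exact hcne hζh
  have hdeg := natDegree_minpoly_eq n r hdim hr hrp ζ hζr hζ1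
  have hζint : IsIntegral F ζ := IsIntegral.of_finite F ζ
  have hmdvd : minpoly F ζ ∣ minpoly F u := (minpoly.dvd F ζ hζf').trans hfm
  have hmdeg : (minpoly F u).natDegree ≤ n := by
    have h1 := LinearMap.minpoly_dvd_charpoly u
    have h2 := natDegree_le_of_dvd h1 (LinearMap.charpoly_monic u).ne_zero
    rw [LinearMap.charpoly_natDegree, hdim] at h2
    exact h2
  have hmeq : minpoly F u = minpoly F ζ :=
    eq_of_monic_of_dvd_of_natDegree_le (minpoly.monic hζint) (minpoly.monic huint) hmdvd
      (by rw [hdeg]; exact hmdeg)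
  have htop : Algebra.adjoin F {ζ} = ⊤ := by
    rw [← Algebra.toSubmodule_eq_top]
    apply Submodule.eq_top_of_finrank_eq
    rw [hdim, ← hdeg]
    have := (Algebra.adjoin.powerBasis' hζint).finrank
    rw [Algebra.adjoin.powerBasis'_dim] at this
    exact this
  let pb := PowerBasis.ofAdjoinEqTop' hζint htop
  have hgen : pb.gen = ζ := PowerBasis.ofAdjoinEqTop'_gen hζint htop
  have hyp : aeval u (minpoly F pb.gen) = 0 := by
    rw [hgen, ← hmeq]; exact minpoly.aeval F u
  refine ⟨ζ, pb.lift u hyp, ?_, htop⟩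
  have := pb.lift_gen u hyp
  rw [hgen] at this
  exact this

theorem result {F K : Type*} [Field F] [Fintype F] [Field K] [Fintype K] [Algebra F K] (n : ℕ) (hn : 2 ≤ n) (hdim : Module.finrank F K = n)
    (hex1 : ¬ (n = 6 ∧ Fintype.card F = 2))
    (hex2 : ¬ (n = 2 ∧ (Fintype.card F).Prime ∧ ∃ a : ℕ, Fintype.card F + 1 = 2 ^ a))
    (U : Subgroup (Module.End F K)ˣ) (hU : IsMulCommutative U) (hcard : Nat.card U = Fintype.card K - 1) :
    ∃ g : (Module.End F K)ˣ, U.map (MulAut.conj g).toMonoidHom = (Units.map ((Algebra.lmul F K : K →ₐ[F] Module.End F K) : K →* Module.End F K)).range := by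
  classical
  have hfin : Finite (Module.End F K) :=
    Finite.of_injective (fun f : Module.End F K => (f : K → K)) DFunLike.coe_injective
  have hcK : Fintype.card K = Fintype.card F ^ n := by
    rw [← hdim]; exact Module.card_eq_pow_finrank
  obtain ⟨r, hr, hrd, hrp⟩ := exists_ppd (Fintype.card F) n (Fintype.isPrimePow_card_of_field)
    hn hex1 hex2
  have hfr : Fact r.Prime := ⟨hr⟩
  obtain ⟨u0, hu0⟩ := exists_prime_orderOf_dvd_card' (G := U) r (by
    rw [hcard, hcK]; exact hrd)
  have hu : ((u0 : (Module.End F K)ˣ) : Module.End F K) ^ r = 1 := by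
    have h1 : u0 ^ r = 1 := by rw [← hu0]; exact pow_orderOf_eq_one u0
    have h2 : ((u0 ^ r : U) : (Module.End F K)ˣ) = 1 := by rw [h1]; rfl
    have h3 := congrArg Units.val h2
    simpa using h3
  have hu1 : ((u0 : (Module.End F K)ˣ) : Module.End F K) ≠ 1 := by
    intro h1
    have h2 : (u0 : (Module.End F K)ˣ) = 1 := Units.ext h1
    have h3 : u0 = 1 := Subtype.ext h2
    rw [h3, orderOf_one] at hu0
    exact hr.one_lt.ne hu0
  obtain ⟨ζ, φ, hφ, htop⟩ := exists_algHom n r hdim hr hrd hrp (by omega) _ hu hu1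
  -- the conjugating map
  let g : K →ₗ[F] K := (LinearMap.applyₗ (1 : K)).comp φ.toLinearMap
  have hg : ∀ x, g x = φ x 1 := fun x => rfl
  have hgφ : ∀ x y, φ x (g y) = g (x * y) := by
    intro x y
    rw [hg, hg, map_mul]; rfl
  have hginj : Function.Injective g := by
    rw [← LinearMap.ker_eq_bot, LinearMap.ker_eq_bot']
    intro x hx
    by_contra hx0
    have h1 := hgφ x⁻¹ x
    rw [hx, map_zero, inv_mul_cancel₀ hx0, hg, map_one φ] at h1
    exact zero_ne_one h1
  let ge : K ≃ₗ[F] K := LinearEquiv.ofInjectiveEndo g hginj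
  have hge : ∀ x, ge x = g x := fun x => rfl
  let gu : (Module.End F K)ˣ :=
    { val := ge.toLinearMap
      inv := ge.symm.toLinearMap
      val_inv := by ext x; exact ge.apply_symm_apply x
      inv_val := by ext x; exact ge.symm_apply_apply x }
  refine ⟨gu⁻¹, ?_⟩
  -- everything in `U` commutes with `φ x`
  have hcomm : ∀ w ∈ U, ∀ x : K, (w : Module.End F K) * φ x = φ x * (w : Module.End F K) := by
    intro w hw x
    have hx : x ∈ Algebra.adjoin F {ζ} := by rw [htop]; trivial
    induction hx using Algebra.adjoin_induction with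
    | mem y hy =>
      rw [Set.mem_singleton_iff] at hy
      rw [hy, hφ]
      have h1 : (⟨w, hw⟩ : U) * u0 = u0 * ⟨w, hw⟩ := hU.is_comm.comm _ _
      have h2 := congrArg (fun z : U => ((z : (Module.End F K)ˣ) : Module.End F K)) h1
      simpa using h2
    | algebraMap c =>
      rw [AlgHom.commutes]
      exact (Algebra.commutes c _).symm
    | add a b _ _ ha hb => rw [map_add, mul_add, add_mul, ha, hb]
    | mul a b _ _ ha hb =>
      rw [map_mul, ← mul_assoc, ha, mul_assoc, hb, mul_assoc]
  have hle : U.map (MulAut.conj gu⁻¹).toMonoidHom ≤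
      (Units.map ((Algebra.lmul F K : K →ₐ[F] Module.End F K) : K →* Module.End F K)).range := by
    rintro _ ⟨w, hw, rfl⟩
    set w' : (Module.End F K)ˣ := (MulAut.conj gu⁻¹).toMonoidHom w with hw'
    have hval : ∀ x, (w' : Module.End F K) x = ge.symm ((w : Module.End F K) (ge x)) := by
      intro x
      rw [hw']
      simp only [MulEquiv.toMonoidHom_eq_coe, MonoidHom.coe_coe, MulAut.conj_apply, inv_inv]
      rfl
    have hmul : ∀ x y, (w' : Module.End F K) (x * y) = x * (w' : Module.End F K) y := by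
      intro x y
      rw [hval, hval]
      apply ge.injective
      have h1 := congrArg (fun T : Module.End F K => T (g y)) (hcomm w hw x)
      have h2 : (w : Module.End F K) (φ x (g y)) = φ x ((w : Module.End F K) (g y)) := h1
      rw [ge.apply_symm_apply, hge (x * y), ← hgφ, h2, hge (x * _), ← hgφ,
        ← hge (ge.symm _), ge.apply_symm_apply, hge y]
    have hne : (w' : Module.End F K) 1 ≠ 0 := by
      intro h0
      have h1 : ∀ x, (w' : Module.End F K) x = 0 := by
        intro x
        have := hmul x 1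
        rwa [mul_one, h0, mul_zero] at this
      have h2 : (w' : Module.End F K) = 0 := LinearMap.ext h1
      exact w'.ne_zero h2
    refine ⟨Units.mk0 _ hne, ?_⟩
    apply Units.ext
    apply LinearMap.ext
    intro x
    have := hmul x 1
    rw [mul_one] at this
    change (w' : Module.End F K) 1 * x = _
    rw [this, mul_comm]
  have hfinR : Finite (Units.map ((Algebra.lmul F K : K →ₐ[F] Module.End F K) :
    K →* Module.End F K)).range := inferInstance
  apply Subgroup.eq_of_le_of_card_ge hle
  have h1 : Nat.card (U.map (MulAut.conj gu⁻¹).toMonoidHom) = Nat.card U :=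
    (Nat.card_congr (Subgroup.equivMapOfInjective U _ (MulAut.conj gu⁻¹).injective).toEquiv).symm
  rw [h1, hcard]
  have h2 := Nat.card_le_card_of_surjective _ (MonoidHom.rangeRestrict_surjective
    (Units.map ((Algebra.lmul F K : K →ₐ[F] Module.End F K) : K →* Module.End F K)))
  refine h2.trans ?_
  rw [Nat.card_eq_fintype_card, Fintype.card_units]

end Cfsg.Agent.S5947
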